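import Mathlib
import Cfsg.Statements.S2924
import Cfsg.Agent.H22.SigOdd
import Cfsg.Agent.H22.Balance
import Cfsg.Agent.H22.FStar
import Cfsg.Agent.H02.Frobenius

set_option autoImplicit false
open Cfsg

namespace Cfsg.Agent.S2924

open BG Cfsg H22 in
theorem key {G : Type*} [Group G] [Finite G] {x y : G} (hy : y ^ 2 = 1) (hxy : y * x = x * y)
    (hE : layer ↥(C_[x]) = ⊥) {D : Subgroup G} (hD : D ≤ piCoreOf {2}ᶜ C_[y] ⊓ C_[x])
    (hDn : C_[y] ⊓ C_[x] ≤ N_(D)) (hc : D ≤ C_(piCoreOf {2}ᶜ C_[x])) : D ≤ piCoreOf {2}ᶜ C_[x] := by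
  have h2 : Nat.Prime 2 := Nat.prime_two
  have hDo : ¬ 2 ∣ Nat.card D := not_dvd_of_le (pcore_not_dvd h2 _) (hD.trans inf_le_left)
  have hDx : D ≤ C_[x] := hD.trans inf_le_right
  have hDy : D ≤ C_[y] := hD.trans (inf_le_left.trans (pcore_le _ _))
  have hyx : Subgroup.zpowers y ≤ C_[x] := by simpa using mem_cent1.2 hxy
  have hQ : D ≤ C_(piCoreOf {2} C_[x]) := by
    refine pxq h2 (P := Subgroup.zpowers y) (pg_zpowers (k := 1) (by simpa using hy)) hDo (pcore_pg h2 _)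
      (cent_symm (by rw [cent_zpowers]; exact hDy)) (hyx.trans (le_norm_pcore _ _)) (hDx.trans (le_norm_pcore _ _)) ?_
    rw [cent_zpowers]
    refine le_cent_of_coprime ((le_inf inf_le_right (inf_le_left.trans (pcore_le _ _))).trans hDn)
      (norm_inf (hDx.trans (le_norm_pcore _ _)) (norm_cent1 hDy))
      (pg_coprime h2 (pg_le (pcore_pg h2 _) inf_le_left) hDo)
  have hF : D ≤ C_(fittingOf C_[x]) := by
    refine le_cent_fit fun s hs => ?_
    by_cases e : s = 2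
    · subst e; exact hQ
    · exact hc.trans (cent_anti (pcore_mono (by simpa using Ne.symm e) _))
  have h3 : D ≤ fittingOf C_[x] := by
    refine le_trans (le_inf hDx ?_) (inf_centralizer_fstarOf_le _)
    rw [fstarOf_eq, layerOf_eq_bot_iff.2 hE, bot_sup_eq]
    exact hF
  exact le_pcore_of_le_fit ((isPi_compl h2).2 hDo) h3

open BG Cfsg H22 in
theorem cent_of_inv {G : Type*} [Group G] [Finite G] {z : G} {D T : Subgroup G} (hD : Odd (Nat.card D))
    (hn : D ≤ N_(T)) (h1 : ∀ d ∈ D, z * d * z⁻¹ = d⁻¹) (h2 : ∀ t ∈ T, z * t * z⁻¹ = t⁻¹) : D ≤ C_(T) := by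
  intro d hd
  have key : ∀ d ∈ D, d ^ 2 ∈ C_(T) := by
    intro d hd
    refine mem_cent.2 fun t ht => ?_
    have a1 := h2 _ (conj_mem_of_norm (hn hd) ht)
    have a2 : z * (d * t * d⁻¹) * z⁻¹ = (z * d * z⁻¹) * (z * t * z⁻¹) * (z * d * z⁻¹)⁻¹ := by group
    rw [a2, h1 d hd, h2 t ht] at a1
    have a3 : t * d ^ 2 = d * (d⁻¹ * t⁻¹ * d⁻¹⁻¹)⁻¹ * d := by rw [pow_two]; group
    rw [a3, a1, pow_two]; group
  obtain ⟨k, hk⟩ := hD
  have a4 : d = (d ^ (k + 1)) ^ 2 := by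
    have := pow_card_eq_one hd
    rw [hk] at this
    rw [← pow_mul, show (k + 1) * 2 = (2 * k + 1) + 1 by ring, pow_succ, this, one_mul]
  rw [a4]
  exact key _ (pow_mem hd _)

/-- Let X be a finite group and Y an elementary abelian 2-subgroup of X of order at least 8 such that C_X(x) has no components (E(C_X(x)) = 1) for every nontrivial x ∈ Y, and F*(C_X(z)) = O₂(C_X(z)) for some nontrivial z ∈ Y. Then the subgroup generated by the cores O(C_X(y)), y ∈ Y nontrivial, has odd order and is normalized by N_X(Y). -/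
theorem result {X : Type*} [Group X] [Finite X] (Y : Subgroup X) (hY : Cfsg.IsElementaryAbelian 2 Y) (h8 : 8 ≤ Nat.card ↥Y) (hE : ∀ x ∈ Y, x ≠ 1 → Cfsg.layer ↥(Subgroup.centralizer ({x} : Set X)) = ⊥) (hz : ∃ z ∈ Y, z ≠ 1 ∧ Cfsg.generalizedFittingSubgroup ↥(Subgroup.centralizer ({z} : Set X)) = Cfsg.pCore 2 ↥(Subgroup.centralizer ({z} : Set X))) : Odd (Nat.card ↥(⨆ y : {y : X // y ∈ Y ∧ y ≠ 1}, (Cfsg.oddCore ↥(Subgroup.centralizer ({(y : X)} : Set X))).map (Subgroup.centralizer ({(y : X)} : Set X)).subtype)) ∧ Subgroup.normalizer (Y : Set X) ≤ Subgroup.normalizer ((⨆ y : {y : X // y ∈ Y ∧ y ≠ 1}, (Cfsg.oddCore ↥(Subgroup.centralizer ({(y : X)} : Set X))).map (Subgroup.centralizer ({(y : X)} : Set X)).subtype : Subgroup X) : Set X) := by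
  open BG H22 in
  have h2 : Nat.Prime 2 := Nat.prime_two
  haveI : Fact (Nat.Prime 2) := ⟨h2⟩
  obtain ⟨z, hzY, hz1, hz⟩ := hz
  let θ : X → Subgroup X := fun y => piCoreOf {2}ᶜ (Subgroup.centralizer {y})
  have hθ : ∀ y : X, (Cfsg.oddCore ↥(Subgroup.centralizer ({y} : Set X))).map
      (Subgroup.centralizer ({y} : Set X)).subtype = θ y := fun y => H22.cpc_eq h2 y
  simp only [hθ]
  have hab : IsMulCommutative Y := hY.abelian
  have hYc : ∀ y ∈ Y, Y ≤ Subgroup.centralizer {y} := fun y hy a ha =>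
    BG.mem_cent1.2 (BG.mul_comm_of_abelian hab ha hy)
  have hz0 : θ z = ⊥ := by
    rw [← hθ, Cfsg.oddCore, (H22.fstar_eq_pCore_iff'.1 hz).2, Subgroup.map_bot]
  have hodd : ∀ y, Odd (Nat.card (θ y)) := fun y =>
    Nat.odd_iff.2 (Nat.two_dvd_ne_zero.1 (BG.pcore_not_dvd h2 _))
  have hn : ∀ x y : X, Subgroup.centralizer {y} ⊓ Subgroup.centralizer {x} ≤
      Subgroup.normalizer ((θ y ⊓ Subgroup.centralizer {x} : Subgroup X) : Set X) := fun x y =>
    BG.norm_inf (inf_le_left.trans (BG.le_norm_pcore _ _)) (BG.norm_of_le inf_le_right)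
  have hfix : ∀ y ∈ Y, θ y ⊓ Subgroup.centralizer {z} = ⊥ := by
    intro y hy
    refine le_bot_iff.1 (hz0 ▸ key (hY.pow hy) (BG.mul_comm_of_abelian hab hy hzY) (hE z hzY hz1) le_rfl (hn z y) ?_)
    change _ ≤ Subgroup.centralizer ((θ z : Subgroup X) : Set X)
    rw [hz0]; exact BG.le_cent_bot
  have hinv : ∀ y ∈ Y, ∀ t ∈ θ y, z * t * z⁻¹ = t⁻¹ := fun y hy t ht =>
    H02.fpf_involution_inverts (BG.le_norm_pcore _ _ (hYc y hy hzY))
      (by rw [← pow_two]; exact hY.pow hzY) (hfix y hy) ht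
  have hSF : H22.SF 2 Y θ := by
    refine ⟨h2, hY, fun a _ _ => BG.pcore_le _ _, fun a _ _ => BG.pcore_not_dvd h2 _,
      fun a ha _ => (hYc a ha).trans (BG.le_norm_pcore _ _), ?_, ?_⟩
    · intro y hy _ x hx hx1
      refine key (hY.pow hy) (BG.mul_comm_of_abelian hab hy hx) (hE x hx hx1) le_rfl (hn x y) ?_
      exact cent_of_inv (z := z) (BG.odd_of_le (hodd y) inf_le_left) (inf_le_right.trans (BG.le_norm_pcore _ _))
        (fun d hd => hinv y hy d hd.1) (hinv x hx)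
    · intro y hy _
      exact BG.sol_of_abelian (BG.abelian_iff.2 (cent_of_inv (z := z) (hodd y) (BG.le_norm _) (hinv y hy) (hinv y hy)))
  obtain ⟨W, hW, hle⟩ := hSF.cpl_of_odd (by simpa using h8) (fun a _ _ => hodd a)
  refine ⟨BG.odd_of_le (B := W) (Nat.odd_iff.2 (Nat.two_dvd_ne_zero.1 hW.nd)) (iSup_le fun y => hle y y.2.1 y.2.2), ?_⟩
  refine BG.le_norm_of_cj_le fun g hg => ?_
  rw [BG.cj_le_iff]
  refine iSup_le fun y => ?_
  rw [← BG.cj_le_iff]
  have e : BG.cj g (θ y) = θ (g * y * g⁻¹) := by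
    simp only [θ]; rw [← BG.pcore_cj, BG.cj_cent1]
  rw [e]
  refine le_iSup_of_le ⟨g * y * g⁻¹, BG.conj_mem_of_norm hg y.2.1, fun h => y.2.2 ?_⟩ le_rfl
  have : (y : X) = g⁻¹ * (g * y * g⁻¹) * g := by group
  rw [this, h]; group

end Cfsg.Agent.S2924
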