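import Cfsg.Statements.S2579
import Cfsg.Agent.H24.Sim3
-- import your own Cfsg.Agent.* helpers here

set_option autoImplicit false
open Cfsg

namespace Cfsg.Agent.S2579

/-- In SL_n(F) with n ≥ 3, over a finite field F, any two transvections (matrices t with t − 1 of rank one and square zero) are conjugate by an element of SL_n(F). -/
theorem result {F : Type*} [Field F] [Finite F] {n : ℕ} (hn : 3 ≤ n) (s t : Matrix.SpecialLinearGroup (Fin n) F) (hs : Cfsg.IsTransvection (s : Matrix (Fin n) (Fin n) F)) (ht : Cfsg.IsTransvection (t : Matrix (Fin n) (Fin n) F)) : IsConj s t := by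
  have h1 : ((s : Matrix (Fin n) (Fin n) F) - 1) ^ 2 = 0 := by rw [pow_two]; exact hs.2
  have h2 : ((t : Matrix (Fin n) (Fin n) F) - 1) ^ 2 = 0 := by rw [pow_two]; exact ht.2
  refine H24.Sim.isConj_SL_of (H24.Sim.isConj_of_sq_zero h1 h2 (hs.1.trans ht.1.symm)) fun c _ => ?_
  obtain ⟨μ, hμ, hsum, hty⟩ := H24.Sim.exists_utyp ⟨2, h1⟩
  have h3 := H24.Sim.rank_add_card hμ hty
  rw [hs.1, Fintype.card_fin] at h3
  rw [Fintype.card_fin] at hsum
  have h4 : 1 ∈ μ := by
    by_contra h
    have := Multiset.card_nsmul_le_sum (s := μ) (a := 2) fun e he => by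
      have := hμ e he
      have : e ≠ 1 := fun h' => h (h' ▸ he)
      omega
    simp only [smul_eq_mul] at this
    omega
  obtain ⟨B, hB, hd⟩ := H24.Sim.exists_commute_det_pow (hty ▸ H24.Sim.mem_utyp.2 h4) c
  exact ⟨B, Or.inl ⟨hB, by rw [hd, H24.Sim.natDegree_X_sub_one_pow, pow_one]⟩⟩

end Cfsg.Agent.S2579
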