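import Mathlib
import Cfsg.Statements.S3058
import Cfsg.Agent.H26.Chain

set_option autoImplicit false
open Cfsg

namespace Cfsg.Agent.S3058
open H26

/-- Let p be a prime and G a finite group whose Sylow p-subgroups are not chain-connected through nontrivial intersections (so G has a strongly p-embedded subgroup). If N and M are normal subgroups of G whose orders are both divisible by p, then the order of N ∩ M is divisible by p. Consequently, among the normal subgroups of G whose order is divisible by p there is a smallest one (the intersection of all of them). -/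
theorem result {G : Type*} [Group G] [Finite G]
    (p : ℕ) [Fact p.Prime] (hG : ¬ Cfsg.IsSylowChainConnected p G)
    (N M : Subgroup G) [N.Normal] [M.Normal] (hN : p ∣ Nat.card N) (hM : p ∣ Nat.card M) :
    p ∣ Nat.card ↥(N ⊓ M) := by
  obtain ⟨H, h⟩ := not_chainConnected_iff.mp hG
  by_contra h1
  obtain ⟨T, hT, h3, -⟩ := h.exists_isSyl
  have a := hT.inf_of_le (N := N) le_top Subgroup.le_normalizer_of_normal
  have b := hT.inf_of_le (N := M) le_top Subgroup.le_normalizer_of_normal
  obtain ⟨x, hx, ox⟩ := exists_mem_orderOf_eq_of_ne_bot a.pg (a.ne_bot hN)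
  obtain ⟨y, hy, oy⟩ := exists_mem_orderOf_eq_of_ne_bot b.pg (b.ne_bot hM)
  have h4 : ⁅T ⊓ N, T ⊓ M⁆ = ⊥ := eq_bot_of_isPGroup_of_not_dvd
    (hT.pg.to_le ((Subgroup.commutator_mono inf_le_left inf_le_left).trans (commutator_le_of_le_normalizer Subgroup.le_normalizer)))
    ((Subgroup.commutator_mono inf_le_right inf_le_right).trans (Subgroup.commutator_le_inf N M)) h1
  have h5 : N ⊓ M ≤ H := h.le_of_rank_two (h3 hx.1) (h3 hy.1) ox oy
    (commutator_eq_bot_iff'.mp h4 hy x hx) (fun h6 => h1 (dvd_card_of_orderOf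
      (Subgroup.mem_inf.mpr ⟨Subgroup.zpowers_le.mpr hx.2 h6, hy.2⟩) oy))
    (Subgroup.le_normalizer_of_normal (Subgroup.mem_top x)) (Subgroup.le_normalizer_of_normal (Subgroup.mem_top y)) h1
  have h6 : N ≤ Subgroup.normalizer ((N ⊓ M ⊔ T ⊓ M : Subgroup G) : Set G) :=
    le_normalizer_of_commutator_le (((Subgroup.commutator_mono (sup_le inf_le_right inf_le_right) le_rfl).trans
      ((Subgroup.commutator_le_inf M N).trans (inf_comm M N).le)).trans le_sup_left)
  refine h.not_le_of_normal (N := N) ⟨x, hx.2, ox⟩ fun g hg => ?_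
  obtain ⟨n, hn, z, hz, rfl⟩ := (b.mono le_sup_right (sup_le inf_le_right inf_le_right)).frattini h6 hg
  exact mul_mem (sup_le h5 (inf_le_left.trans h3) hn)
    (h.normalizer_le (inf_le_left.trans h3) b.pg (b.ne_bot hM) hz)

end Cfsg.Agent.S3058
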