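import Mathlib
import Cfsg.Statements.S4702
import Cfsg.Agent.H19.FieldCoords

set_option autoImplicit false
open Cfsg

namespace Cfsg.Agent.S4702

/-- Let G be a triply transitive permutation group on a finite set of odd size m ≥ 3 in which only the identity fixes three or more points. Then m = 2^a + 1 for some a ≥ 1 and G is isomorphic to SL(2, 2^a). -/
theorem result {α : Type*} [Fintype α] [DecidableEq α] (hm : 3 ≤ Fintype.card α) (hodd : Odd (Fintype.card α)) (G : Subgroup (Equiv.Perm α)) (h3 : MulAction.IsMultiplyPretransitive G α 3) (hfix : ∀ g : G, 3 ≤ Nat.card (MulAction.fixedBy α g) → g = 1) : ∃ a : ℕ, 1 ≤ a ∧ Fintype.card α = 2 ^ a + 1 ∧ ∃ (F : Type) (_ : Field F) (_ : Fintype F), Fintype.card F = 2 ^ a ∧ Nonempty (G ≃* Matrix.SpecialLinearGroup (Fin 2) F) := by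
  have h : H19.Sharp3 G α := by
    refine ⟨H18.mt_three_iff.mp h3, fun g a b c hab hac hbc ha hb hc => hfix g ?_⟩
    have := Fintype.ofFinite (MulAction.fixedBy α g)
    rw [Nat.card_eq_fintype_card]
    exact Fintype.two_lt_card_iff.mpr ⟨⟨a, ha⟩, ⟨b, hb⟩, ⟨c, hc⟩, fun e => hab (congrArg Subtype.val e),
      fun e => hac (congrArg Subtype.val e), fun e => hbc (congrArg Subtype.val e)⟩
  obtain ⟨⟨f, hf, hα⟩, h2⟩ := h.pgl2_of_odd hm hodd
  have : Fact (Nat.Prime 2) := ⟨Nat.prime_two⟩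
  let _ := Fintype.ofFinite (GaloisField 2 f)
  have hc : Fintype.card (GaloisField 2 f) = 2 ^ f := by
    rw [← Nat.card_eq_fintype_card, GaloisField.card 2 f (by omega)]
  have he : Even (Fintype.card (GaloisField 2 f)) := by
    rw [hc]; exact Nat.even_pow.mpr ⟨even_two, by omega⟩
  obtain ⟨e1⟩ := h2 (GaloisField 2 f) (by rw [hc, hα])
  obtain ⟨e2⟩ := H19.nonempty_psl_equiv_pgl_of_even he
  obtain ⟨e3⟩ := H19.nonempty_sl_equiv_psl_of_even he
  exact ⟨f, hf, hα, GaloisField 2 f, inferInstance, inferInstance, hc, ⟨e1.trans (e3.trans e2).symm⟩⟩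

end Cfsg.Agent.S4702
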