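import Mathlib
import Cfsg.Statements.S5394
import Cfsg.Agent.H14.MCls

set_option autoImplicit false
open Cfsg

namespace Cfsg.Agent.S5394

/-- The automorphism group of the length-24 code built from the squares modulo 23 has exactly two conjugacy classes of involutions: an involution either fixes exactly the eight points of an octad or has no fixed points, both kinds occur, and any two involutions of the same kind are conjugate in the group. -/
theorem result : (∀ g ∈ Cfsg.M24, orderOf g = 2 → (Finset.univ.filter fun p => g p = p) ∈ Cfsg.octads ∨ ∀ p, g p ≠ p) ∧ (∃ g ∈ Cfsg.M24, orderOf g = 2 ∧ (Finset.univ.filter fun p => g p = p) ∈ Cfsg.octads) ∧ (∃ g ∈ Cfsg.M24, orderOf g = 2 ∧ ∀ p, g p ≠ p) ∧ ∀ g ∈ Cfsg.M24, ∀ h ∈ Cfsg.M24, orderOf g = 2 → orderOf h = 2 → ((∀ p, g p ≠ p) ↔ (∀ p, h p ≠ p)) → ∃ k ∈ Cfsg.M24, k * g * k⁻¹ = h := by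
  refine ⟨fun g hg ho => (H14.card_fix2 hg ho).imp_right H14.fixS_eq_empty.1,
    ⟨_, H14.in2A.el_mem, H14.ord2A, (H14.fix2A.symm ▸ H14.oct0_mem : H14.fixS _ ∈ _)⟩,
    ⟨_, H14.in2B.el_mem, H14.ord2B, H14.fixS_eq_empty.1 H14.fix2B⟩, fun g hg h hh o1 o2 e => ?_⟩
  rw [← H14.fixS_eq_empty, ← H14.fixS_eq_empty] at e
  by_cases c : H14.fixS g = ∅
  · obtain ⟨k, hk, rfl⟩ := H14.cls2B hg o1 c
    obtain ⟨k', hk', rfl⟩ := H14.cls2B hh o2 (e.1 c)
    exact ⟨k' * k⁻¹, mul_mem hk' (inv_mem hk), by group⟩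
  · obtain ⟨k, hk, rfl⟩ := H14.cls2A hg o1 c
    obtain ⟨k', hk', rfl⟩ := H14.cls2A hh o2 (fun d => c (e.2 d))
    exact ⟨k' * k⁻¹, mul_mem hk' (inv_mem hk), by group⟩

end Cfsg.Agent.S5394
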