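import Mathlib
import Cfsg.Statements.S5601
import Cfsg.Agent.H14.MCls

set_option autoImplicit false
open scoped Pointwise
open Cfsg

namespace Cfsg.Agent.S5601

theorem gen (X : Subgroup Cfsg.M24) (h : Nat.card X = 3) : ∃ g : Cfsg.M24, orderOf (g : Equiv.Perm Cfsg.GolayPt) = 3 ∧
    X = Subgroup.zpowers g := by
  have := Fact.mk Nat.prime_three
  obtain ⟨g, hg⟩ := X.isCyclic_iff_exists_zpowers_eq_top.1 (isCyclic_of_prime_card h)
  exact ⟨g, by rw [Subgroup.orderOf_coe, ← Nat.card_zpowers, hg, h], hg.symm⟩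

theorem fx (g : Cfsg.M24) : {p : Cfsg.GolayPt | ∀ x ∈ Subgroup.zpowers g, ((x : Cfsg.M24) : Equiv.Perm Cfsg.GolayPt) p = p}.ncard =
    (H14.fixS g).card := by
  rw [← Set.ncard_coe_finset]
  congr 1; ext p
  exact ⟨fun h => H14.mem_fixS.2 (h g (Subgroup.mem_zpowers g)), fun h x hx =>
    (Subgroup.zpowers_le (H := MulAction.stabilizer Cfsg.M24 p)).2 (H14.mem_fixS.1 h) hx⟩

theorem cd (g : Cfsg.M24) : Nat.card (Subgroup.zpowers g) = orderOf (g : Equiv.Perm Cfsg.GolayPt) := by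
  rw [Subgroup.orderOf_coe, Nat.card_zpowers]

/-- The group of the length-24 code has exactly two conjugacy classes of subgroups of order 3: a subgroup of order 3 fixes either exactly 6 of the 24 points or none of them, both cases occur, and two subgroups of order 3 with the same number of fixed points are conjugate. -/
theorem result : (∀ X : Subgroup ↥Cfsg.M24, Nat.card X = 3 → {p : Cfsg.GolayPt | ∀ x ∈ X, ((x : ↥Cfsg.M24) : Equiv.Perm Cfsg.GolayPt) p = p}.ncard = 6 ∨ {p : Cfsg.GolayPt | ∀ x ∈ X, ((x : ↥Cfsg.M24) : Equiv.Perm Cfsg.GolayPt) p = p}.ncard = 0) ∧ (∃ X : Subgroup ↥Cfsg.M24, Nat.card X = 3 ∧ {p : Cfsg.GolayPt | ∀ x ∈ X, ((x : ↥Cfsg.M24) : Equiv.Perm Cfsg.GolayPt) p = p}.ncard = 6) ∧ (∃ X : Subgroup ↥Cfsg.M24, Nat.card X = 3 ∧ {p : Cfsg.GolayPt | ∀ x ∈ X, ((x : ↥Cfsg.M24) : Equiv.Perm Cfsg.GolayPt) p = p}.ncard = 0) ∧ ∀ X Y : Subgroup ↥Cfsg.M24, Nat.card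 X = 3 → Nat.card Y = 3 → {p : Cfsg.GolayPt | ∀ x ∈ X, ((x : ↥Cfsg.M24) : Equiv.Perm Cfsg.GolayPt) p = p}.ncard = {p : Cfsg.GolayPt | ∀ x ∈ Y, ((x : ↥Cfsg.M24) : Equiv.Perm Cfsg.GolayPt) p = p}.ncard → ∃ k : ↥Cfsg.M24, MulAut.conj k • X = Y := by
  refine ⟨fun X hX => ?_, ⟨Subgroup.zpowers ⟨_, H14.in3A.el_mem⟩, (cd _).trans H14.ord3A, ?_⟩,
    ⟨Subgroup.zpowers ⟨_, H14.in3B.el_mem⟩, (cd _).trans H14.ord3B, ?_⟩, fun X Y hX hY e => ?_⟩
  · obtain ⟨g, a, rfl⟩ := gen X hX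
    rw [fx]
    exact (H14.card_fix3 g.2 a).imp_right Finset.card_eq_zero.2
  · rw [fx, H14.fix3A]; decide +kernel
  · rw [fx, H14.fix3B]; rfl
  · obtain ⟨g, a, rfl⟩ := gen X hX
    obtain ⟨h, b, rfl⟩ := gen Y hY
    rw [fx, fx] at e
    suffices ∃ k : Cfsg.M24, k * g * k⁻¹ = h by
      obtain ⟨k, rfl⟩ := this
      exact ⟨k, MonoidHom.map_zpowers _ _⟩
    by_cases c : H14.fixS g = ∅
    · obtain ⟨k, hk, e1⟩ := H14.cls3B g.2 a c
      obtain ⟨k', hk', e2⟩ := H14.cls3B h.2 b (by rw [← Finset.card_eq_zero, ← e, c]; rfl)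
      exact ⟨⟨k' * k⁻¹, mul_mem hk' (inv_mem hk)⟩, Subtype.ext (by push_cast; rw [e1, e2]; group)⟩
    · obtain ⟨k, hk, e1⟩ := H14.cls3A g.2 a c
      obtain ⟨k', hk', e2⟩ := H14.cls3A h.2 b (fun d => c (by rw [← Finset.card_eq_zero, e, d]; rfl))
      exact ⟨⟨k' * k⁻¹, mul_mem hk' (inv_mem hk)⟩, Subtype.ext (by push_cast; rw [e1, e2]; group)⟩

end Cfsg.Agent.S5601
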