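import Mathlib
import Cfsg.Agent.H20.BlkFus
import Cfsg.Agent.H21.Column
import Cfsg.Agent.H21.Major
import Cfsg.Agent.H21.Quot
-- Template for statement S4646 (row 4646; see /opt/grader/pristine/manifest.json for weights).
-- Copy to Cfsg/Agent/S4646.lean and replace the sorry. The statement below is byte-identical to the frozen
-- statement Cfsg.CfsgFrozen.S4646 (Cfsg/Statements/S4646.lean; the theorem Cfsg.blk6_principal_block_nilpotent_iff_rank_one);
-- the grader kernel-checks Cfsg.Agent.S4646.result against that frozen type. Keep the theorem IN THIS FILE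
-- (a `result` declared elsewhere and merely imported here is not credited); helpers may live anywhere
-- under Cfsg/Agent/.
import Cfsg.Statements.S4646
-- import your own Cfsg.Agent.* helpers here

set_option autoImplicit false
open Cfsg

open H20 H05 H21 MonoidAlgebra

namespace Cfsg.Agent.S4646

/-- For a finite group G, a prime p and a maximal ideal M of the algebraic integers containing p: the principal block of G is nilpotent if and only if its p-regular rank is 1 (the trivial Brauer character is its only irreducible Brauer character). -/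
theorem result {G : Type*} [Group G] [Finite G] (p : ℕ) [Fact p.Prime] (M : Ideal Cfsg.AlgInt) (hM : Cfsg.IsPModular p M) : Cfsg.IsNilpotentBlock p M (Cfsg.principalBlock M G) ↔ Cfsg.blockRank p (Cfsg.principalBlock M G) = 1 := by
  have := hM.2.1
  classical
  rw [isNilpotentBlock_principal_iff hM]
  set v : G → ℂ := pRegularPart p (fun _ => (1 : ℂ)) with hv
  have hv1 : v 1 = 1 := by
    rw [hv, pRegularPart_of_not_dvd]
    rw [orderOf_one]; exact hM.1.not_dvd_one
  have hv0 : v ≠ 0 := fun h => by simp [h] at hv1
  have hmem : v ∈ Submodule.span ℂ ((fun χ : Cfsg.IrrCharacter G => Cfsg.pRegularPart p (χ : G → ℂ)) ''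
      Cfsg.principalBlock M G) := Submodule.subset_span ⟨trivIrr G, one_mem_principalBlock, rfl⟩
  constructor
  · intro h
    have key : Submodule.span ℂ ((fun χ : Cfsg.IrrCharacter G => Cfsg.pRegularPart p (χ : G → ℂ)) ''
      Cfsg.principalBlock M G) = Submodule.span ℂ {v} := by
      refine le_antisymm (Submodule.span_le.2 ?_) ((Submodule.span_singleton_le_iff_mem _ _).2 hmem)
      rintro _ ⟨χ, hχ, rfl⟩
      refine Submodule.mem_span_singleton.2 ⟨(χ : G → ℂ) 1, funext fun g => ?_⟩
      simp only [hv, Pi.smul_apply, pRegularPart_apply, smul_eq_mul]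
      split_ifs with hg
      · simp
      · rw [mul_one, principal_apply_of_mem_core hM hχ ((mem_core_of_hasNPC h).2 hg)]
    unfold Cfsg.blockRank
    rw [key]
    exact finrank_span_singleton hv0
  · intro h
    have hall : ∀ χ ∈ Cfsg.principalBlock M G, ∀ g, ¬ p ∣ orderOf g → (χ : G → ℂ) g = (χ : G → ℂ) 1 := by
      intro χ hχ g hg
      unfold Cfsg.blockRank at h
      have hm2 : Cfsg.pRegularPart p (χ : G → ℂ) ∈ Submodule.span ℂ ((fun χ : Cfsg.IrrCharacter G => Cfsg.pRegularPart p (χ : G → ℂ)) ''
        Cfsg.principalBlock M G) := Submodule.subset_span ⟨χ, hχ, rfl⟩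
      obtain ⟨c, hc⟩ := (finrank_eq_one_iff_of_nonzero' (⟨v, hmem⟩ : Submodule.span ℂ _)
        (fun e => hv0 (congrArg Subtype.val e))).1 h ⟨_, hm2⟩
      have hc' : c • v = Cfsg.pRegularPart p (χ : G → ℂ) := congrArg Subtype.val hc
      have e1 := congrFun hc' g
      have e2 := congrFun hc' 1
      have h1 : ¬ p ∣ orderOf (1 : G) := by rw [orderOf_one]; exact hM.1.not_dvd_one
      rw [pRegularPart_of_not_dvd _ hg, Pi.smul_apply, hv, pRegularPart_of_not_dvd _ hg] at e1
      rw [pRegularPart_of_not_dvd _ h1, Pi.smul_apply, hv, pRegularPart_of_not_dvd _ h1] at e2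
      rw [← e1, ← e2]
    rw [H03.hasNPC_iff_mul_closed]
    intro x y hx hy
    rw [Nat.coprime_comm, Nat.Prime.coprime_iff_not_dvd hM.1] at hx hy ⊢
    intro hxy
    obtain ⟨χ, hχ, hne⟩ := exists_apply_ne_of_dvd hM
      (H20.isPBlock_principalBlock (M := M) (G := G)).isInt_idem ⟨_, one_mem_principalBlock⟩ hxy
    refine hne ?_
    rw [apply_mul_of_mem_charKer (χ.2.isCharacter.mem_charKer.2 (hall χ hχ x hx)), hall χ hχ y hy]

end Cfsg.Agent.S4646
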