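import Mathlib
import Cfsg.Statements.S4607
import Cfsg.Agent.H21.RankOne

set_option autoImplicit false
open Cfsg

namespace Cfsg.Agent.S4607
open H05 Cfsg H20 H21 MonoidAlgebra Classical
open scoped ComplexConjugate
attribute [-instance] H19.instFintypeSubgroupFrob

/-- Let G be a finite group, p a prime, M a maximal ideal of the algebraic integers containing p, and B a p-block of G with defect group D. Then B contains exactly two irreducible characters if and only if D has order 2. -/
theorem result {G : Type*} [Group G] [Finite G] (p : ℕ) [Fact p.Prime] (M : Ideal Cfsg.AlgInt) (hM : Cfsg.IsPModular p M) (B : Set (Cfsg.IrrCharacter G)) (hB : Cfsg.IsPBlock M B) (D : Subgroup G) (hD : Cfsg.IsDefectGroup p M B D) : Nat.card B = 2 ↔ Nat.card D = 2 := by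
  haveI := hM.2.1
  haveI := Fintype.ofFinite G
  have h2 := hD.card_eq hM hB
  refine ⟨fun hk => ?_, fun h3 => ?_⟩
  · have h4 := one_le_blockRank hM.1 hB.nonempty
    have h5 : ¬ Nat.card B ≤ blockRank p B := fun e => by
      have := card_block_le hM hB
      rw [defect_zero_of_card_le_rank hM hB e, mul_zero, pow_zero] at this
      omega
    rw [h2, ← card_eq_of_rank_one hM hB (by omega) (by omega), hk]
  · obtain ⟨c, h⟩ := exists_mx hM hB hD
    obtain ⟨-, -, a1, E, a2⟩ := h.dade (isCyclic_of_prime_card h3) fun e : D = ⊥ => by simp [e] at h3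
    have a3 := a2.card_eq
    have a4 := a2.card_dvd
    rw [a1] at a3
    change _ ∣ Nat.card D - 1 at a4
    change _ = _ + (Nat.card D - 1) / _ at a3
    rw [h3] at a3 a4
    rw [a3, Nat.dvd_one.1 a4]

end Cfsg.Agent.S4607
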