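import Mathlib
import Cfsg.Statements.S0089
import Cfsg.Agent.H03.Focal

set_option autoImplicit false
open Cfsg

namespace Cfsg.Agent.S0089

/-- When all Sylow subgroups are abelian, the derived subgroup meets the centre trivially. -/
theorem result {G : Type*} [Group G] [Finite G] (h : ∀ p : ℕ, p.Prime → ∀ P : Sylow p G, IsMulCommutative P) : commutator G ⊓ Subgroup.center G = ⊥ := by
  by_contra hne
  have h1 : Nat.card ↥(commutator G ⊓ Subgroup.center G) ≠ 1 := by
    rwa [Ne, Subgroup.card_eq_one]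
  obtain ⟨p, hp, hd⟩ := Nat.exists_prime_and_dvd h1
  have := Fact.mk hp
  obtain ⟨x, hx⟩ := exists_prime_orderOf_dvd_card' p hd
  have h2 : IsPGroup p (Subgroup.zpowers (x : G)) :=
    IsPGroup.of_card (n := 1) (by rw [Nat.card_zpowers, Subgroup.orderOf_coe, hx, pow_one])
  obtain ⟨P, hP⟩ := h2.exists_le_sylow
  have h3 : (x : G) ∈ (P : Subgroup G) ⊓ commutator G ⊓ Subgroup.center G :=
    ⟨⟨hP (Subgroup.mem_zpowers _), x.2.1⟩, x.2.2⟩
  rw [H03.hall_abelian_inf_commutator_inf_center _ (h p hp P) P.card_coprime_index,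
    Subgroup.mem_bot] at h3
  rw [← Subgroup.orderOf_coe, h3, orderOf_one] at hx
  exact hp.one_lt.ne hx

end Cfsg.Agent.S0089
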