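import Mathlib
import Cfsg.Statements.S0276
import Cfsg.Agent.H09.SL2Syl
import Cfsg.Agent.H04.LinSyl

set_option autoImplicit false
open Cfsg

namespace Cfsg.Agent.S0276

/-- For q = 3 or 5 mod 8 the Sylow 2-subgroups of PSL_2(q) are elementary abelian of order 4. -/
theorem result {F : Type*} [Field F] [Fintype F] {q : ℕ} (hF : Fintype.card F = q) (hq : q % 8 = 3 ∨ q % 8 = 5) (P : Sylow 2 (Matrix.ProjectiveSpecialLinearGroup (Fin 2) F)) : IsKleinFour (P : Subgroup (Matrix.ProjectiveSpecialLinearGroup (Fin 2) F)) := by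
  have hodd : Odd (Fintype.card F) := by rw [hF, Nat.odd_iff]; omega
  have h2 := H09.two_ne_zero_of_odd_card hodd
  have hc := H04.psl2_card hodd
  rw [hF] at hc
  have h4 : Nat.card P = 4 := by
    obtain ⟨k, hk⟩ : ∃ k, q * (q ^ 2 - 1) = 8 * (2 * k + 1) := by
      rcases hq with h | h
      · obtain ⟨t, rfl⟩ : ∃ t, q = 8 * t + 3 := ⟨q / 8, by omega⟩
        exact ⟨32 * t ^ 3 + 36 * t ^ 2 + 13 * t + 1, by
          rw [show (8 * t + 3) ^ 2 - 1 = 64 * t ^ 2 + 48 * t + 8 from Nat.sub_eq_of_eq_add (by ring)]; ring⟩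
      · obtain ⟨t, rfl⟩ : ∃ t, q = 8 * t + 5 := ⟨q / 8, by omega⟩
        exact ⟨32 * t ^ 3 + 60 * t ^ 2 + 37 * t + 7, by
          rw [show (8 * t + 5) ^ 2 - 1 = 64 * t ^ 2 + 80 * t + 24 from Nat.sub_eq_of_eq_add (by ring)]; ring⟩
    rw [P.card_eq_multiplicity, show Nat.card (Matrix.ProjectiveSpecialLinearGroup (Fin 2) F) = 2 ^ 2 * (2 * k + 1) by omega,
      Nat.factorization_mul (by simp) (by simp), Nat.prime_two.factorization_pow]
    simp [Nat.factorization_eq_zero_of_not_dvd (show ¬ 2 ∣ 2 * k + 1 by omega)]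
  have hπ := QuotientGroup.mk'_surjective (Subgroup.center (Matrix.SpecialLinearGroup (Fin 2) F))
  rcases H04.cyclic_or_dihedral_of_quot _ hπ (by
    rw [QuotientGroup.ker_mk', H09.card_center_SL, Fintype.card_fin, Nat.gcd_comm]
    exact (Nat.gcd_comm _ _).trans (H04.gcd_two_sub hodd)) (H04.sl2_uniq h2) P.isPGroup' with h | ⟨m, ⟨e⟩⟩
  · obtain ⟨T⟩ : Nonempty (Sylow 2 (Matrix.SpecialLinearGroup (Fin 2) F)) := inferInstance
    have : IsCyclic (T.1.map (QuotientGroup.mk' (Subgroup.center _))) :=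
      isCyclic_of_surjective _ (P.equiv (T.mapSurjective hπ)).surjective
    refine absurd ⟨⟨commutative_of_cyclic_center_quotient
      ((QuotientGroup.mk' (Subgroup.center _)).subgroupMap T.1) ?_⟩⟩
      (H09.SL2_sylow_two_not_comm hodd T)
    intro x hx
    have : x.1 ∈ Subgroup.center _ := (QuotientGroup.eq_one_iff _).1 (congrArg Subtype.val hx)
    exact Subgroup.mem_center_iff.2 fun y => Subtype.ext (Subgroup.mem_center_iff.1 this y)
  · have h5 := Nat.card_congr e.toEquiv
    rw [h4, DihedralGroup.nat_card] at h5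
    obtain rfl : m = 0 := by
      rcases m with _ | m
      · rfl
      · have := Nat.one_le_two_pow (n := m); rw [pow_succ, pow_succ] at h5; omega
    exact ⟨h4, (Monoid.exponent_eq_of_mulEquiv e).trans (IsKleinFour.exponent_two (G := DihedralGroup 2))⟩

end Cfsg.Agent.S0276
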