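import Mathlib
import Cfsg.Statements.S0344
import Cfsg.Agent.H18.Sharp3Even

set_option autoImplicit false
open scoped Pointwise
open Cfsg

namespace Cfsg.Agent.S0344

/-- A finite simple Zassenhaus group with a two-point stabiliser of even order is isomorphic to `PSL₂(F)` for a finite
field `F` with more than three elements. -/
theorem result {G Ω : Type*} [Group G] [Finite G] [MulAction G Ω] [Finite Ω]
    (hZ : Cfsg.IsZassenhausGroup G Ω) [IsSimpleGroup G]
    {a b : Ω} (hab : a ≠ b) (heven : Even (Nat.card ↥(MulAction.stabilizer G a ⊓ MulAction.stabilizer G b))) :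
    ∃ (F : Type) (_ : Field F) (_ : Fintype F), 3 < Fintype.card F ∧ Nonempty (G ≃* Matrix.ProjectiveSpecialLinearGroup (Fin 2) F) := by
  have := Fintype.ofFinite Ω
  obtain ⟨F, hF⟩ := H18.zass_exists_ker hZ a
  have := hZ.1
  have h := H18.Z3.of_zass hZ
  obtain ⟨h1, -, h2, h3⟩ := hF.inverts_of_even_half h hab heven.two_dvd
    (H18.zass_perfect_even hZ (H18.zass_simple_perfect hZ) hab heven.two_dvd)
  obtain ⟨p, f, K, i1, i2, h4, h5, -, h6, h7, h8⟩ := hF.psl2_of_half h hab h1 h2 h3
  refine ⟨K, i1, i2, ?_, h8⟩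
  have := Nat.le_of_dvd Nat.card_pos heven.two_dvd
  change 2 ≤ Nat.card (H18.st2 G a b) at this
  omega

end Cfsg.Agent.S0344
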