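import Mathlib
import Cfsg.Statements.S0731
import Cfsg.Agent.H18.Feit3
import Cfsg.Agent.H18.Sharp3Even

set_option autoImplicit false
open scoped Pointwise
open Cfsg

namespace Cfsg.Agent.S0731

/-- A finite Zassenhaus group whose point stabiliser has an abelian regular normal subgroup on the remaining points is sharply triply transitive or isomorphic to `PSL(2, F)` for a finite field `F` of odd characteristic. -/
theorem result {G Ω : Type*} [Group G] [Finite G] [MulAction G Ω] [Finite Ω] (hZ : Cfsg.IsZassenhausGroup G Ω) (x : Ω) (F : Subgroup G) (hFle : F ≤ MulAction.stabilizer G x) (hFn : (F.subgroupOf (MulAction.stabilizer G x)).Normal) (hFab : IsMulCommutative F) (hreg : ∀ y z : Ω, y ≠ x → z ≠ x → ∃! u : F, (u : G) • y = z) : (MulAction.IsMultiplyPretransitive G Ω 3 ∧ ∀ t : Fin 3 ↪ Ω, MulAction.stabilizer G t = ⊥) ∨ ∃ (K : Type) (_ : Field K) (_ : Fintype K), ringChar K ≠ 2 ∧ Nonempty (G ≃* Matrix.ProjectiveSpecialLinearGroup (Fin 2) K) := by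
  have := Fintype.ofFinite Ω
  have hF := H18.isKer_of_reg' hFle hFn hreg
  obtain ⟨b, hab⟩ := H07.Zass.exists_ne hZ x
  have := hZ.1
  have h := H18.Z3.of_zass hZ
  have h3 := H07.Zass.three_le_card hZ
  have h4 := hF.card hab.symm
  rw [Nat.card_eq_fintype_card (α := Ω)] at h4
  by_cases hs : Nat.card (H18.st2 G x b) + 2 = Fintype.card Ω
  · have := H18.sharp3_of_card h hab hs
    exact Or.inl ⟨H18.mt_three_iff.2 fun a b c a' b' c' => this.trans a b c a' b' c', H18.sharp_three_iff.2 h.three⟩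
  right
  have hd : 2 * Nat.card (H18.st2 G x b) ≤ Fintype.card Ω - 2 := by
    obtain ⟨k, hk⟩ := hF.card_dvd h hab
    rcases k with _ | _ | k
    · omega
    · omega
    · have : Nat.card (H18.st2 G x b) * 2 ≤ Nat.card (H18.st2 G x b) * (k + 1 + 1) :=
        Nat.mul_le_mul_left _ (by omega)
      omega
  rcases Nat.even_or_odd (Nat.card (H18.st2 G x b)) with he | he
  · obtain ⟨h1, -, h2, h3⟩ := hF.inverts_of_even_half h hab he.two_dvd hd
    obtain ⟨p, f, K, i1, i2, -, -, h5, -, -, h8⟩ := hF.psl2_of_half h hab h1 h2 h3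
    exact ⟨K, i1, i2, h5, h8⟩
  have hle := Nat.le_of_dvd Nat.card_pos (H18.card_st2_dvd (Subgroup.normalClosure (F : Set G)) x b)
  obtain ⟨z1, z2⟩ := H18.zass_normalClosure_simple hZ hF
  rcases H18.zass_feit_closure hZ hab he hF (open scoped IsMulCommutative in inferInstance) with h1 | ⟨-, ⟨u, v, h2⟩, -⟩
  swap
  · exact absurd (hFab.1.1 u v) h2
  have hF' := hF.subgroupOf (N := Subgroup.normalClosure (F : Set G)) Subgroup.le_normalClosure
  have h5 := hF'.card hab.symm
  rw [Nat.card_eq_fintype_card (α := Ω)] at h5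
  have htop : Subgroup.normalClosure (F : Set G) = ⊤ := by
    rw [← Subgroup.card_eq_iff_eq_top, hF.card_group h hab, hF'.card_group (H18.Z3.of_zass z1) hab]
    congr 1
    · congr 1 <;> omega
    · omega
  have := z1.1
  obtain ⟨p, f, K, i1, i2, -, -, h5, -, -, ⟨e⟩⟩ := hF'.psl2_of_half (H18.Z3.of_zass z1) hab (by omega)
    (H18.zass_inverts_of_odd z1 (H18.zass_simple_perfect z1) hab
      (he.of_dvd_nat (H18.card_st2_dvd _ x b))).1 (H18.zass_simple_perfect z1)
  exact ⟨K, i1, i2, h5, ⟨((MulEquiv.subgroupCongr htop).trans Subgroup.topEquiv).symm.trans e⟩⟩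

end Cfsg.Agent.S0731
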