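import Mathlib
import Cfsg.Statements.S0340
import Cfsg.Agent.S0347
import Cfsg.Agent.S0344
import Cfsg.Agent.S0731
import Cfsg.Agent.H02.Thompson

set_option autoImplicit false
open scoped Pointwise
open Cfsg

namespace Cfsg.Agent.S0340

/-- Classification of Zassenhaus groups, simple case, order-level form: a finite simple Zassenhaus group is
isomorphic to `PSL₂(F)` for some finite field `F` or is simple of Suzuki order. -/
theorem result {G Ω : Type*} [Group G] [Finite G] [MulAction G Ω]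
    [Finite Ω] (hZ : Cfsg.IsZassenhausGroup G Ω) [IsSimpleGroup G] :
    (∃ (F : Type) (_ : Field F) (_ : Fintype F), Nonempty (G ≃* Matrix.ProjectiveSpecialLinearGroup (Fin 2) F)) ∨ Cfsg.IsSuzuki G := by
  have := Fintype.ofFinite Ω
  have h3 := H07.Zass.three_le_card hZ
  obtain ⟨a⟩ : Nonempty Ω := Fintype.card_pos_iff.1 (by omega)
  obtain ⟨b, hab⟩ := H07.Zass.exists_ne hZ a
  obtain ⟨F, hF⟩ := H18.zass_exists_ker hZ a
  have h := H18.Z3.of_zass hZ
  have h4 := hF.card hab.symm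
  rw [Nat.card_eq_fintype_card (α := Ω)] at h4
  have hreg : ∀ y z : Ω, y ≠ a → z ≠ a → ∃! u : F, (u : G) • y = z := fun y z hy hz => by
    obtain ⟨k, hk, e⟩ := hF.trans y z hy hz
    exact ⟨⟨k, hk⟩, e, fun u hu => Subtype.ext (hF.eq_of_smul_eq u.2 hk hy (hu.trans e.symm))⟩
  rcases Nat.even_or_odd (Nat.card (H18.st2 G a b)) with he | he
  · obtain ⟨K, i1, i2, -, h⟩ := S0344.result hZ hab he
    exact Or.inl ⟨K, i1, i2, h⟩
  rcases H18.zass_feit_simple hZ hab he hF (H02.isNilpotent_of_fpf_subgroup (hF.st2_le_normalizer b)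
    (H18.zass_st2_ne_bot hZ hab) (hF.fpf h hab)) with h1 | ⟨h1, h2, -⟩
  swap
  · exact Or.inr (S0347.result hZ a F hF.le_stab hF.normal h1 h2 hreg)
  left
  rcases S0731.result hZ a F hF.le_stab hF.normal
    (hF.elemAb_of_large h hab (H18.zass_ker_ne_bot hZ hF) (by omega)).1 hreg with ⟨s1, -⟩ | ⟨K, i1, i2, -, h⟩
  swap
  · exact ⟨K, i1, i2, h⟩
  have hs : H19.Sharp3 G Ω := ⟨H18.mt_three_iff.1 s1, h.three⟩
  obtain ⟨⟨k, hk, e⟩, h5⟩ := hs.pgl2_of_odd h3 (Nat.not_even_iff_odd.1 fun hev =>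
    H18.sharp3_commutator_ne_top hs h3 hev (H18.zass_simple_perfect hZ))
  have : Fintype (GaloisField 2 k) := Fintype.ofFinite _
  have hc : Fintype.card (GaloisField 2 k) = 2 ^ k := by
    rw [← Nat.card_eq_fintype_card, GaloisField.card 2 k (by omega)]
  obtain ⟨e1⟩ := h5 (GaloisField 2 k) (by omega)
  obtain ⟨e2⟩ := H19.nonempty_psl_equiv_pgl_of_even (F := GaloisField 2 k)
    (hc ▸ Nat.even_pow.2 ⟨even_two, by omega⟩)
  exact ⟨GaloisField 2 k, inferInstance, inferInstance, ⟨e1.trans e2.symm⟩⟩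

end Cfsg.Agent.S0340
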