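import Cfsg.Statements.S0454
import Cfsg.Agent.H15.LyC
-- import your own Cfsg.Agent.* helpers here

set_option autoImplicit false
open Cfsg

namespace Cfsg.Agent.S0454

/-- Existence of the Lyons group: there is a transitive permutation group of degree 8835156, simple of order 51765179004000000, whose point stabiliser is simple of the order of a group of type G2, and which has an involution whose centraliser is a non-split double cover of the alternating group of degree 11. -/
theorem result : ∃ H : Subgroup (Equiv.Perm (Fin 8835156)), Cfsg.IsLy H ∧ MulAction.IsPretransitive H (Fin 8835156) ∧ Cfsg.IsG2 (MulAction.stabilizer H (0 : Fin 8835156)) ∧ ∃ t : H, orderOf t = 2 ∧ Cfsg.IsNonsplitDoubleCover (Subgroup.centralizer ({t} : Set H)) (alternatingGroup (Fin 11)) := by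
  open H15 H15.Ly in
  obtain ⟨K, f, a, b⟩ := exists_perm_model ψ.range prim.2.2.1 prim.1
  open H15 H15.Ly in
  have := simple_M
  open H15 H15.Ly in
  have g := ((MonoidHom.ofInjective ψ_inj).trans (f.subgroupMap ψ.range)).trans (MulEquiv.subgroupCongr b)
  open H15 H15.Ly in
  exact ⟨K, ⟨f.symm.isSimpleGroup, (Nat.card_congr f.toEquiv).symm.trans card_M⟩, a, ⟨g.symm.isSimpleGroup, 5,
    Nat.prime_five.isPrimePow, by norm_num, (Nat.card_congr g.toEquiv).symm.trans card_H⟩, f (z 9),
    (f.orderOf_eq _).trans ord_t, (altD.1.map f).cover ((card_cent_map f _).le.trans cent_t')⟩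

end Cfsg.Agent.S0454
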