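import Mathlib
import Cfsg.Statements.S0473
import Cfsg.Agent.H13.HeF

set_option autoImplicit false
open Cfsg

namespace Cfsg.Agent.S0473

/-- The largest Fischer 3-transposition group: a group of order 2 · 1255205709190661721292800 generated by a conjugacy class of 306936 3-transpositions, in which a transposition centraliser has order 2 · 4089470473293004800 and contains a simple subgroup of order 4089470473293004800; its subgroup of index 2 is simple and contains simple subgroups of orders 4089470473293004800 and 4030387200. -/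
theorem result : ∃ (G : Type) (_ : Group G) (_ : Finite G), Nat.card G = 2 * 1255205709190661721292800 ∧ ∃ D : Set G, Cfsg.IsThreeTranspositionClass D ∧ Nat.card D = 306936 ∧ (∀ d ∈ D, Nat.card (Subgroup.centralizer ({d} : Set G)) = 2 * 4089470473293004800 ∧ ∃ K : Subgroup G, K ≤ Subgroup.centralizer ({d} : Set G) ∧ Cfsg.IsFi23 K) ∧ ∃ H : Subgroup G, H.index = 2 ∧ Cfsg.IsFi24' H ∧ (∃ K : Subgroup H, Cfsg.IsFi23 K) ∧ (∃ K : Subgroup H, Cfsg.IsHe K) := by
  open H13 H13.Y24 Subgroup in
  have k : ∀ d ∈ DD, IsFi23 (K d) := fun d hd => let ⟨e⟩ := K_equiv hd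
    ⟨have := Fi23.simple; e.isSimpleGroup, (Nat.card_congr e.toEquiv).trans Fi23.card_eq⟩
  open H13 H13.Y24 Subgroup in
  refine ⟨F24.Gp, inferInstance, inferInstance, F24.card_eq, DD, F24.tr3cls, F24.t24.card, fun d hd => ⟨?_, K d, inf_le_right, k d hd⟩,
    commutator _, index_L, ⟨simple_model, card_L⟩, ?_, ?_⟩
  · obtain ⟨c, rfl⟩ := isConj_iff.1 hd
    rw [← H13.Y24.card_C, ← MulAut.conj_apply, ← H13.Y24.map_cent]
    exact Subgroup.card_map_of_injective (MulAut.conj c).injective
  · have e := Subgroup.subgroupOfEquivOfLe (inf_le_left : H13.Y24.K (H13.Y24.g 11) ≤ _)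
    obtain ⟨a, b⟩ := k _ (H13.Y24.memD (l := 11) (by decide))
    exact ⟨_, @MulEquiv.isSimpleGroup _ _ _ _ a e, (Nat.card_congr e.toEquiv).trans b⟩
  · obtain ⟨φ, h⟩ := H13.HeF.ex H13.F24.mo
    have s := H13.He.simple
    have p : commutator Spor.He = ⊤ := (s.eq_bot_or_eq_top_of_normal _ inferInstance).resolve_left fun c => by
      have m : ∀ a b : Spor.He, a * b = b * a := fun a b =>
        commutatorElement_eq_one_iff_mul_comm.1 (c.le (Subgroup.commutator_mem_commutator (Subgroup.mem_top a) (Subgroup.mem_top b)))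
      let _ : CommGroup Spor.He := { (inferInstance : Group Spor.He) with mul_comm := m }
      have := IsSimpleGroup.prime_card (α := Spor.He)
      rw [H13.He.card_eq] at this
      norm_num at this
    have l : φ.range ≤ commutator _ := by
      rw [MonoidHom.range_eq_map, ← p, _root_.commutator_def, Subgroup.map_commutator]
      exact Subgroup.commutator_mono le_top le_top
    have e := (Subgroup.subgroupOfEquivOfLe l).trans (MonoidHom.ofInjective h).symm
    exact ⟨_, e.isSimpleGroup, (Nat.card_congr e.toEquiv).trans H13.He.card_eq⟩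

end Cfsg.Agent.S0473
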