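import Cfsg.Statements.S0720
import Mathlib
import Cfsg.Agent.H27.W2p
-- import your own Cfsg.Agent.* helpers here

set_option autoImplicit false
open Cfsg

namespace Cfsg.Agent.S0720

open scoped Pointwise commutatorElement

open H05 H27 MulAction

theorem eq_one_of_ker {G Ω : Type*} [Group G] [Fintype G] [MulAction G Ω] [Fintype Ω] [DecidableEq Ω]
    (hG : IsPreprimitive G Ω) {χ : G → ℂ} (hχ : IsIrrCharacter G χ)
    (h0 : classInner (fun g : G => (Nat.card (fixedBy Ω g) : ℂ)) χ ≠ 0) {x : G} {a : Ω} (ha : x • a ≠ a)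
    (hx : χ x = χ 1) : χ = 1 := by
  by_contra h1
  haveI := H18.normal_trans_of_prim hG (charKer χ) (hχ.isCharacter.mem_charKer.2 hx) ha
  have h2 : ∀ y z, projMat G Ω χ y z = projMat G Ω χ a z := by
    intro y z
    obtain ⟨k, rfl⟩ := exists_smul_eq (charKer χ) a y
    rw [projMat_apply, projMat_apply]
    congr 1
    refine (Fintype.sum_equiv (Equiv.mulLeft (k : G)) _ _ fun g => ?_).symm
    show _ = if ((k : G) * g) • z = (k : G) • a then χ ((k : G) * g)⁻¹ else 0
    rw [mul_smul, mul_inv_rev, apply_mul_of_mem_charKer' (inv_mem k.2)]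
    simp only [smul_left_cancel_iff]
  have h3 : ∀ z, projMat G Ω χ a z = 0 := fun z => by
    haveI : Nonempty Ω := ⟨a⟩
    have := projMat_col hχ h1 z
    simp only [h2, Finset.sum_const, nsmul_eq_mul, Finset.card_univ] at this
    exact (mul_eq_zero.1 this).resolve_left (Nat.cast_ne_zero.2 Fintype.card_ne_zero)
  have h4 := projMat_trace (Ω := Ω) hχ 1
  simp only [h2, h3, Finset.sum_const_zero] at h4
  exact mul_ne_zero h0 hχ.apply_one_ne_zero h4.symm

theorem exists_char {G Ω : Type*} [Group G] [Fintype G] [MulAction G Ω] [Fintype Ω] [DecidableEq Ω]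
    (hG : IsPreprimitive G Ω) {p : ℕ} [hp : Fact p.Prime] (hΩ : Fintype.card Ω = 2 * p) {x : G}
    (hx : orderOf x = p) (hfix : ∀ d : ZMod p, d ≠ 0 → ∀ a : Ω, x ^ d.val • a ≠ a) :
    IsMultiplyPretransitive G Ω 2 ∨ ∃ χ, IsIrrCharacter G χ ∧ χ ≠ 1 ∧
      classInner (fun g : G => (Nat.card (fixedBy Ω g) : ℂ)) χ = 1 ∧
      ∀ d : ZMod p, χ (x ^ d.val) = if d = 0 then (p : ℂ) else 0 := by
  classical
  have hp2 := hp.out.two_le
  haveI : Nontrivial Ω := Fintype.one_lt_card_iff_nontrivial.1 (by omega)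
  obtain ⟨a⟩ : Nonempty Ω := inferInstance
  have hπ := isCharacter_perm (G := G) Ω
  set π : G → ℂ := fun g => (Nat.card (fixedBy Ω g) : ℂ) with hπd
  have hp0 : (p : ℂ) ≠ 0 := Nat.cast_ne_zero.2 hp.out.ne_zero
  let φ : Multiplicative (ZMod p) →* G := MonoidHom.mk' (fun d => x ^ d.toAdd.val) fun a b => by
    rw [toAdd_mul, ZMod.val_add, ← pow_eq_pow_mod _ (hx ▸ pow_orderOf_eq_one x), pow_add]
  have hF : ∀ ψ : IrrCharacter G, ∃ c : ℕ, ∑ d : ZMod p, (ψ : G → ℂ) (x ^ d.val) = p * c := by
    intro ψ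
    obtain ⟨c, hc⟩ := (ψ.2.isCharacter.comp φ).exists_classInner_eq_nat isCharacter_one
    refine ⟨c, ?_⟩
    rw [classInner_one_right, Nat.card_eq_fintype_card, Fintype.card_multiplicative, ZMod.card] at hc
    rw [← hc, mul_inv_cancel_left₀ hp0]
    exact Fintype.sum_equiv Multiplicative.ofAdd _ _ fun _ => rfl
  choose c hc using hF
  obtain ⟨m, hm, -⟩ := hπ.exists_nat_coeff
  let o : IrrCharacter G := ⟨1, isIrrCharacter_one⟩
  have hm1 : m o = 1 := by
    have := hm o
    rw [classInner_perm_one_of_transitive] at this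
    exact_mod_cast this.symm
  have hc1 : c o = 1 := by
    have := hc o
    simp only [o, Pi.one_apply, Finset.sum_const, Finset.card_univ, ZMod.card, nsmul_eq_mul] at this
    exact_mod_cast (mul_left_cancel₀ hp0 this).symm
  have hπ1 : π 1 = 2 * p := by
    simp only [π, fixedBy_one_eq_univ, Nat.card_univ]
    rw [Nat.card_eq_fintype_card, hΩ]; push_cast; rfl
  have hsum : ∑ ψ ∈ Finset.univ.erase o, m ψ * c ψ = 1 := by
    have h1 : ∑ d : ZMod p, π (x ^ d.val) = 2 * p := by
      rw [Finset.sum_eq_single 0, ZMod.val_zero, pow_zero, hπ1]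
      · intro d _ hd
        have : fixedBy Ω (x ^ d.val) = ∅ := Set.eq_empty_of_forall_notMem (hfix d hd)
        simp only [π]
        rw [this]; simp
      · simp
    simp only [hπ.isClassFunction.apply_eq_sum (x ^ _), hm] at h1
    rw [Finset.sum_comm] at h1
    simp only [← Finset.mul_sum, hc] at h1
    rw [← Finset.add_sum_erase _ _ (Finset.mem_univ o), hm1, hc1] at h1
    apply Nat.cast_injective (R := ℂ)
    apply mul_left_cancel₀ hp0
    push_cast at h1 ⊢
    rw [Finset.mul_sum, Finset.sum_congr rfl fun ψ _ => mul_left_comm (p : ℂ) (m ψ) (c ψ)]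
    linear_combination h1
  obtain ⟨χ, hχo, hχ⟩ := Finset.exists_ne_zero_of_sum_ne_zero (hsum ▸ one_ne_zero)
  rw [← Finset.add_sum_erase _ _ hχo] at hsum
  have h1 : m χ * c χ = 1 := by omega
  have hmχ := Nat.eq_one_of_mul_eq_one_right h1
  have hcχ := Nat.eq_one_of_mul_eq_one_left h1
  have h2 := Finset.sum_eq_zero_iff.1 (Nat.eq_zero_of_le_zero (Nat.le_of_add_le_add_left
    (a := m χ * c χ) (hsum.trans (h1.symm.trans (add_zero _).symm)).le))
  have hχ1 : (χ : G → ℂ) ≠ 1 := fun h => (Finset.mem_erase.1 hχo).1 (Subtype.ext h)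
  have h3 : ∀ k : ℕ, k.Coprime (orderOf x) → (χ : G → ℂ) (x ^ k) = (χ : G → ℂ) x := by
    intro k hk
    obtain ⟨σ, hσ⟩ := exists_galois_pow_elt x hk
    let ψ : IrrCharacter G := ⟨_, χ.2.galois σ.toRingHom⟩
    have h4 : ψ = χ := by
      by_contra h4
      have h5 := h2 ψ (Finset.mem_erase.2 ⟨h4, Finset.mem_erase.2 ⟨fun h => hχ1 (funext fun g => ?_),
        Finset.mem_univ _⟩⟩)
      · have h6 := classInner_galois_of_generalized hπ.isGeneralizedCharacter χ.2.isGeneralizedCharacter
          σ.toRingHom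
        simp only [π, map_natCast] at h6
        have h7 : m ψ = 1 := by
          have := (hm ψ).symm.trans (h6.trans (hm χ))
          rw [hmχ] at this
          exact_mod_cast this
        have h8 := congrArg σ.toRingHom (hc χ)
        rw [map_sum, map_mul, map_natCast, map_natCast, hcχ] at h8
        have h9 : c ψ = 1 := by exact_mod_cast mul_left_cancel₀ hp0 ((hc ψ).symm.trans h8)
        rw [h7, h9] at h5
        exact one_ne_zero h5
      · have := congrFun (congrArg Subtype.val h) g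
        exact σ.injective (this.trans (map_one σ).symm)
    rw [← hσ _ χ.2.isGeneralizedCharacter]
    exact congrFun (congrArg Subtype.val h4) x
  obtain ⟨y, hy⟩ := χ.2.isGeneralizedCharacter.exists_int_of_pow_eq x h3
  have h4 : ∀ d : ZMod p, (χ : G → ℂ) (x ^ d.val) = if d = 0 then (charDegree (χ : G → ℂ) : ℂ) else y := by
    intro d
    split_ifs with hd
    · rw [hd, ZMod.val_zero, pow_zero, χ.2.charDegree_eq]
    · rw [h3, hy]
      rw [hx]
      exact (Nat.coprime_of_lt_prime ((ZMod.val_ne_zero d).2 hd) (ZMod.val_lt d) hp.out).symm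
  have h5 : (charDegree (χ : G → ℂ) : ℤ) + (p - 1) * y = p := by
    have := hc χ
    rw [← Finset.add_sum_erase _ _ (Finset.mem_univ 0), Finset.sum_congr rfl (g := fun _ => (y : ℂ))
      fun d hd => by rw [h4, if_neg (Finset.mem_erase.1 hd).1], h4, if_pos rfl, hcχ, Finset.sum_const,
      Finset.card_erase_of_mem (Finset.mem_univ _), Finset.card_univ, ZMod.card, nsmul_eq_mul,
      Nat.cast_sub hp.out.one_le] at this
    apply Int.cast_injective (α := ℂ)
    push_cast at this ⊢
    linear_combination this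
  have hπ' := isCharacter_perm_sub_one (G := G) Ω
  have h6 : classInner (fun g : G => (Nat.card (fixedBy Ω g) : ℂ) - 1) χ ≠ 0 := by
    have : (fun g : G => (Nat.card (fixedBy Ω g) : ℂ) - 1) = π - 1 := rfl
    rw [this, classInner_sub_left, hm, hmχ, isIrrCharacter_one.classInner_of_ne χ.2 hχ1.symm]
    simp
  have h7 : charDegree (fun g : G => (Nat.card (fixedBy Ω g) : ℂ) - 1) = 2 * p - 1 := by
    apply charDegree_eq_of_apply_one
    show π 1 - 1 = _
    rw [hπ1, Nat.cast_sub (by omega)]; push_cast; rfl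
  have h8 := hπ'.charDegree_le_of_constituent χ.2 h6
  have h9 := χ.2.charDegree_pos
  have h10 : y = 1 ∨ y = 0 ∨ y = -1 := by
    have : y ≤ 1 := by nlinarith
    have h11 : (charDegree (χ : G → ℂ) : ℤ) ≤ 2 * p - 1 := by omega
    have : -1 ≤ y := by nlinarith
    omega
  rcases h10 with rfl | rfl | rfl
  · exfalso
    refine hχ1 (eq_one_of_ker hG χ.2 (by rw [hm, hmχ]; simp) (x := x) (a := a) ?_ ?_)
    · simpa [ZMod.val_one] using hfix 1 one_ne_zero a
    · rw [hy, ← χ.2.charDegree_eq, show charDegree (χ : G → ℂ) = 1 by omega]; simp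
  · refine Or.inr ⟨χ, χ.2, hχ1, by rw [hm, hmχ, Nat.cast_one], fun d => ?_⟩
    rw [h4, show charDegree (χ : G → ℂ) = p by omega, Int.cast_zero]
  · left
    rw [← isIrr_perm_sub_one_iff, hπ'.eq_of_constituent_of_degree_eq χ.2 h6]
    · exact χ.2
    · rw [← hπ'.charDegree_eq, ← χ.2.charDegree_eq, h7, show charDegree (χ : G → ℂ) = 2 * p - 1 by omega]

/-- Wielandt's Theorem on primitive groups of degree `2p`: such a group is doubly transitive, or it has rank 3, `p = 2a² + 2a + 1`, and subdegrees `a(2a+1)` and `(a+1)(2a+1)`. -/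
theorem result {α : Type*} [Fintype α] [DecidableEq α] {p : ℕ} (hp : p.Prime) (hα : Fintype.card α = 2 * p) (G : Subgroup (Equiv.Perm α)) (hG : MulAction.IsPreprimitive G α) (a₀ : α) : MulAction.IsMultiplyPretransitive G α 2 ∨ (Nat.card (MulAction.orbitRel.Quotient (MulAction.stabilizer G a₀) α) = 3 ∧ ∃ a : ℕ, 0 < a ∧ p = 2 * a ^ 2 + 2 * a + 1 ∧ ∀ b : α, b ≠ a₀ → Nat.card (MulAction.orbit (MulAction.stabilizer G a₀) b) = a * (2 * a + 1) ∨ Nat.card (MulAction.orbit (MulAction.stabilizer G a₀) b) = (a + 1) * (2 * a + 1)) := by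
  classical
  haveI := Fact.mk hp
  haveI := Fintype.ofFinite G
  have hp2 := hp.two_le
  obtain ⟨x, hx⟩ := exists_prime_orderOf_dvd_card' (G := G) p (by
    rw [H18.card_eq_card_mul_stabilizer a₀, Nat.card_eq_fintype_card, hα]
    exact (dvd_mul_left p 2).mul_right _)
  have hx' : orderOf (x : Equiv.Perm α) = p := by rw [Subgroup.orderOf_coe, hx]
  by_cases hs : (x : Equiv.Perm α).support.card < 2 * p
  · left
    have hc := Equiv.Perm.isCycle_of_prime_order (hx' ▸ hp) (hx' ▸ hs)
    refine hG.is_two_pretransitive (n := p - 1) ?_ (by rw [Nat.card_eq_fintype_card]; omega)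
      (Equiv.Perm.isPretransitive_of_isCycle_mem hc x.2)
    have := Set.ncard_add_ncard_compl ((x : Equiv.Perm α).support : Set α)
    rw [Set.ncard_coe_finset, ← hc.orderOf, hx', Nat.card_eq_fintype_card, hα] at this
    omega
  have hfix : ∀ d : ZMod p, d ≠ 0 → ∀ a : α, x ^ d.val • a ≠ a := by
    intro d hd a h
    have h1 : a ∈ (x : Equiv.Perm α).support := by
      rw [Finset.eq_univ_of_card (x : Equiv.Perm α).support
        (le_antisymm (Finset.card_le_univ _) (by omega))]
      exact Finset.mem_univ a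
    have h2 : x ∈ Subgroup.zpowers (x ^ d.val) := mem_zpowers_pow_iff.2 (by
      rw [hx]
      exact (Nat.coprime_of_lt_prime ((ZMod.val_ne_zero d).2 hd) (ZMod.val_lt d) hp).symm)
    exact Equiv.Perm.mem_support.1 h1 ((Subgroup.zpowers_le.2 (show x ^ d.val ∈ stabilizer G a from h)) h2)
  refine (exists_char hG hα hx hfix).imp_right ?_
  rintro ⟨χ, hχ, h1, h2, h3⟩
  have hadd : ∀ a b : ZMod p, x ^ (a + b).val = x ^ a.val * x ^ b.val := fun a b => by
    rw [ZMod.val_add, ← pow_eq_pow_mod _ (hx ▸ pow_orderOf_eq_one x), pow_add]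
  obtain ⟨b, -, hb⟩ := Finset.exists_mem_notMem_of_card_lt_card (t := Finset.univ)
    (s := Finset.univ.image fun d : ZMod p => x ^ d.val • a₀)
    (Finset.card_image_le.trans_lt (by simp; omega))
  simp only [Finset.mem_image, Finset.mem_univ, true_and, not_exists] at hb
  have key : ∀ (d e : ZMod p) (u v : α), x ^ d.val • u = x ^ e.val • v → x ^ (d - e).val • u = v := by
    intro d e u v h
    apply MulAction.injective (x ^ e.val)
    show x ^ e.val • _ = x ^ e.val • v
    rw [← mul_smul, ← hadd, add_sub_cancel, h]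
  have hbij : Function.Bijective fun q : Fin 2 × ZMod p => x ^ q.2.val • ![a₀, b] q.1 := by
    rw [Fintype.bijective_iff_injective_and_card]
    refine ⟨?_, by simp [hα]⟩
    rintro ⟨i, d⟩ ⟨k, e⟩ h
    have hik : i = k := by
      fin_cases i <;> fin_cases k
      · rfl
      · exact absurd (key _ _ _ _ h) (hb _)
      · exact absurd (key _ _ _ _ h.symm) (hb _)
      · rfl
    subst hik
    by_contra hne
    exact hfix _ (sub_ne_zero.2 fun h' => hne (Prod.ext rfl h')) _ (key _ _ _ _ h)
  have hW : W2 G p (fun d => x ^ d.val) ![a₀, b] (projMat G α χ) := by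
    refine ⟨hadd, hbij, projMat_inv hχ, projMat_mul_self hχ, fun d => ?_,
      fun T hT => exists_mul_projMat hχ h2 hT, projMat_row hχ h1, projMat_col hχ h1⟩
    have h4 := projMat_trace (Ω := α) hχ (x ^ d.val)
    rw [h2, one_mul, h3, ← Fintype.sum_bijective _ hbij _ _ fun _ => rfl, Fintype.sum_prod_type,
      Finset.sum_comm] at h4
    have h5 : ∀ (e : ZMod p) (u : α), projMat G α χ (x ^ e.val • u) (x ^ d.val • x ^ e.val • u) =
        projMat G α χ u (x ^ d.val • u) := fun e u => by
      rw [← mul_smul, ← hadd, add_comm, hadd, mul_smul, projMat_inv hχ]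
    simp only [h5, Fin.sum_univ_two, Finset.sum_const, Finset.card_univ, ZMod.card, nsmul_eq_mul] at h4
    apply mul_left_cancel₀ (Nat.cast_ne_zero (R := ℂ).2 hp.ne_zero)
    rw [h4]; simp
  exact hW.main hG

end Cfsg.Agent.S0720
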