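import Mathlib
import Cfsg.Statements.S0730
import Cfsg.Agent.H18.Sharp3Even

set_option autoImplicit false
open scoped Pointwise
open Cfsg

namespace Cfsg.Agent.S0730

open MulAction Subgroup H18 OnePoint
open scoped IsMulCommutative

theorem comm_of_index_two {G : Type*} [Group G] [Finite G] {p f : ℕ} [Fact p.Prime] (hfo : Odd f)
    {F A : Subgroup G} [IsMulCommutative F] [IsMulCommutative A] (hF : Nat.card F = p ^ f)
    (hA : A ≤ normalizer (F : Set G)) (hfa : ∀ x ∈ A, (∀ k ∈ F, x * k * x⁻¹ = k) → x = 1)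
    (hirr : ∀ U : Subgroup G, U ≤ F → (∀ a ∈ A, ∀ u ∈ U, a * u * a⁻¹ ∈ U) → U = ⊥ ∨ U = F)
    {g : G} (hgF : g ∈ normalizer (F : Set G)) (hgA : ∀ a ∈ A, g * a * g⁻¹ ∈ A) (hg2 : g * g ∈ A) :
    ∀ a ∈ A, g * a * g⁻¹ = a := by
  classical
  have hf0 : f ≠ 0 := by rintro rfl; simp at hfo
  let K := GaloisField p f
  have := Fintype.ofFinite K
  have hK : Fintype.card K = Nat.card F := by
    rw [← Nat.card_eq_fintype_card, hF]; exact GaloisField.card p f hf0
  have : Nontrivial F := by
    rw [← Finite.one_lt_card_iff_nontrivial, ← hK]; exact Fintype.one_lt_card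
  let φ : A →* MulAut F := F.normalizerMonoidHom.comp (inclusion hA)
  have hirr' : ∀ U : Subgroup F, (∀ a, ∀ u ∈ U, φ a u ∈ U) → U = ⊥ ∨ U = ⊤ := by
    intro U hU
    rcases hirr (U.map F.subtype) (map_subtype_le U) (by
      rintro a ha _ ⟨u, hu, rfl⟩
      exact ⟨_, hU ⟨a, ha⟩ u hu, rfl⟩) with e | e
    · exact Or.inl ((map_eq_bot_iff_of_injective _ F.subtype_injective).1 e)
    · exact Or.inr (map_injective F.subtype_injective (by rw [e, ← MonoidHom.range_eq_map, range_subtype]))
  obtain ⟨e, ψ, he, hψ⟩ := H19.exists_field_of_irreducible φ hirr' hK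
  let γ : MulAut F := F.normalizerMonoidHom ⟨g, hgF⟩
  let T : K → K := fun x => e.symm (γ (e x))
  have hT : ∀ x, e (T x) = γ (e x) := fun x => e.apply_symm_apply _
  have he0 : e 0 = 1 := by simpa using he 0 0
  have hTadd : ∀ x y, T (x + y) = T x + T y := fun x y => e.injective (by rw [hT, he, he, hT, hT, map_mul])
  have hTinj : Function.Injective T := fun x y h => e.injective (γ.injective (by rw [← hT, ← hT, h]))
  have hT0 : T 0 = 0 := e.injective (by rw [hT, he0, map_one])
  have hT1 : T 1 ≠ 0 := fun h => one_ne_zero (hTinj (h.trans hT0.symm))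
  have hTψ : ∀ (a : A) x, T (ψ a * x) = ψ ⟨_, hgA a a.2⟩ * T x := fun a x => e.injective (by
    rw [hT, hψ, hψ, hT]
    apply Subtype.ext
    change g * (a * (e x : G) * (a : G)⁻¹) * g⁻¹ = g * a * g⁻¹ * (g * (e x : G) * g⁻¹) * (g * a * g⁻¹)⁻¹
    group)
  have hTT : ∀ x, T (T x) = ψ ⟨_, hg2⟩ * x := fun x => e.injective (by
    rw [hT, hT, hψ]
    apply Subtype.ext
    change g * (g * (e x : G) * g⁻¹) * g⁻¹ = g * g * (e x : G) * (g * g)⁻¹
    group)
  have hTneg : ∀ x, T (-x) = -T x := fun x => by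
    rw [eq_neg_iff_add_eq_zero, ← hTadd, neg_add_cancel, hT0]
  have hmul : ∀ y x, T (y * x) * T 1 = T y * T x := by
    let U : Subgroup F :=
      { carrier := {u | ∀ x, T (e.symm u * x) * T 1 = T (e.symm u) * T x}
        one_mem' := by intro x; rw [← he0]; simp [hT0]
        mul_mem' := by
          intro u v hu hv x
          obtain ⟨u, rfl⟩ := e.surjective u
          obtain ⟨v, rfl⟩ := e.surjective v
          have h1 := hu x
          have h2 := hv x
          rw [← he]
          simp only [Equiv.symm_apply_apply] at h1 h2 ⊢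
          rw [add_mul, hTadd, hTadd, add_mul, add_mul, h1, h2]
        inv_mem' := by
          intro u hu x
          obtain ⟨u, rfl⟩ := e.surjective u
          have h1 := hu x
          rw [show (e u)⁻¹ = e (-u) by rw [inv_eq_iff_mul_eq_one, ← he, add_neg_cancel, he0]]
          simp only [Equiv.symm_apply_apply] at h1 ⊢
          rw [neg_mul, hTneg, hTneg, neg_mul, neg_mul, h1] }
    rcases hirr' U (fun a u hu x => by
      obtain ⟨u, rfl⟩ := e.surjective u
      have h1 := hu x
      rw [← hψ]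
      simp only [Equiv.symm_apply_apply] at h1 ⊢
      rw [mul_assoc, hTψ, hTψ, mul_assoc, h1, mul_assoc _ (T u)]) with h | h
    · exfalso
      have : e 1 ∈ U := fun x => by simp [mul_comm]
      rw [h, Subgroup.mem_bot, ← he0] at this
      exact one_ne_zero (e.injective this)
    · intro y x
      simpa using (h ▸ mem_top (e y) : e y ∈ U) x
  let α₀ : K →+* K :=
    { toFun := fun y => T y / T 1
      map_one' := div_self hT1
      map_mul' := fun x y => by
        rw [div_mul_div_comm, ← hmul, mul_div_mul_right _ _ hT1]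
      map_zero' := by simp [hT0]
      map_add' := fun x y => by rw [hTadd, add_div] }
  have hα₀ : ∀ y x, T (y * x) = α₀ y * T x := fun y x => by
    change _ = T y / T 1 * T x
    rw [div_mul_eq_mul_div, ← hmul, mul_div_cancel_right₀ _ hT1]
  have hα2 : ∀ y, α₀ (α₀ y) = y := fun y => by
    have h1 := hTT (y * 1)
    rw [hα₀, hα₀, hTT, mul_one, mul_one, mul_comm] at h1
    exact mul_left_cancel₀ (ψ _).ne_zero h1
  let α : K ≃ₐ[ZMod p] K := AlgEquiv.ofRingEquiv (f := RingEquiv.ofBijective α₀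
    (Finite.injective_iff_bijective.1 α₀.injective)) (fun r =>
      DFunLike.congr_fun (Subsingleton.elim (α₀.comp (algebraMap (ZMod p) K)) (algebraMap (ZMod p) K)) r)
  have h1 : orderOf α ∣ 2 := orderOf_dvd_of_pow_eq_one (AlgEquiv.ext hα2)
  have h2 : orderOf α ∣ f := by
    have := orderOf_dvd_natCard α
    rwa [IsGalois.card_aut_eq_finrank, GaloisField.finrank p hf0] at this
  have h3 : α = 1 := orderOf_eq_one_iff.1 (Nat.eq_one_of_dvd_coprimes (Nat.coprime_two_left.2 hfo) h1 h2)
  have h4 : ∀ y, α₀ y = y := fun y => DFunLike.congr_fun h3 y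
  intro a ha
  have h5 := hTψ ⟨a, ha⟩ 1
  rw [hα₀, h4, mul_left_inj' hT1] at h5
  have h6 := hfa (a⁻¹ * (g * a * g⁻¹)) (mul_mem (inv_mem ha) (hgA a ha)) (fun k hk => by
    obtain ⟨x, hx⟩ := e.surjective ⟨k, hk⟩
    have h7 := hψ ⟨a, ha⟩ x
    rw [h5, hψ, hx] at h7
    have h8 : g * a * g⁻¹ * k * (g * a * g⁻¹)⁻¹ = a * k * a⁻¹ := congrArg Subtype.val h7
    calc _ = a⁻¹ * (g * a * g⁻¹ * k * (g * a * g⁻¹)⁻¹) * a := by group
      _ = k := by rw [h8]; group)
  exact (inv_mul_eq_one.1 h6).symm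

/-- A sharply triply transitive group of degree `p^f + 1`, `p` an odd prime and `f` odd, is isomorphic to the projective general linear group of degree 2 over the field with `p^f` elements (for even `f` there is a second, twisted, group). -/
theorem result {α : Type*} [Fintype α] [DecidableEq α] {p f : ℕ} (hp : p.Prime) (hp2 : p ≠ 2) (hfo : Odd f) (hα : Fintype.card α = p ^ f + 1) (G : Subgroup (Equiv.Perm α)) (h3 : MulAction.IsMultiplyPretransitive G α 3) (hsharp : ∀ x : Fin 3 ↪ α, MulAction.stabilizer G x = ⊥) : ∃ (F : Type) (_ : Field F) (_ : Fintype F), Fintype.card F = p ^ f ∧ Nonempty (G ≃* Matrix.ProjGenLinGroup (Fin 2) F) := by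
  classical
  have h : H19.Sharp3 G α := ⟨H18.mt_three_iff.mp h3, H18.sharp_three_iff.mp hsharp⟩
  have := Fact.mk hp
  have hf0 : f ≠ 0 := by rintro rfl; simp at hfo
  have hq : Odd (p ^ f) := (hp.odd_of_ne_two hp2).pow
  have hq1 : 1 < p ^ f := Nat.one_lt_pow hf0 hp.one_lt
  have hm : 3 ≤ Fintype.card α := by omega
  have hz3 := Z3.of_sharp3 h hm
  let K := GaloisField p f
  have := Fintype.ofFinite K
  have hK : Fintype.card K = p ^ f := by
    rw [← Nat.card_eq_fintype_card]; exact GaloisField.card p f hf0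
  have hch : ringChar K ≠ 2 := by rw [ringChar.eq K p]; exact hp2
  refine ⟨K, inferInstance, this, hK, ?_⟩
  obtain ⟨a, b, c, hab, hac, hbc⟩ := Fintype.two_lt_card_iff.1 hm
  obtain ⟨F, hF, hFc⟩ := sharp3_exists_ker h hm a
  have hd := sharp3_card_st2 h hm hab
  have hn := hF.card hab.symm
  rw [Nat.card_eq_fintype_card (α := α)] at hn
  obtain ⟨V, y, hy, hVy⟩ := sharp3_exists_hom_group h hm (hα ▸ hq.add_one) hab
  replace hVy := (Int.units_eq_one_or _).resolve_left hVy
  have hodd : ∀ (x : G) (n : ℕ), Odd n → x ^ n = 1 → V x = 1 := fun x n hn e => by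
    rcases Int.units_eq_one_or (V x) with e1 | e1
    · exact e1
    · have := congrArg V e
      rw [map_pow, e1, hn.neg_one_pow, map_one] at this
      exact absurd this (by decide)
  have hFV : F ≤ V.ker := fun k hk => hodd k (Nat.card F) (by rw [show Nat.card F = p ^ f by omega]; exact hq)
    (congrArg Subtype.val (pow_card_eq_one' (x := (⟨k, hk⟩ : F))))
  have h0 : Z3 V.ker α := ⟨fun x w x' w' h1 h2 => by
    obtain ⟨g, rfl, rfl⟩ := hz3.two a b x w hab h1
    obtain ⟨k, rfl, rfl⟩ := hz3.two a b x' w' hab h2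
    rcases Int.units_eq_one_or (V (k * g⁻¹)) with e | e
    · exact ⟨⟨_, e⟩, by change (k * g⁻¹) • g • a = _; simp [mul_smul],
        by change (k * g⁻¹) • g • b = _; simp [mul_smul]⟩
    · refine ⟨⟨k * y * g⁻¹, ?_⟩, ?_, ?_⟩
      · rw [MonoidHom.mem_ker, map_mul, map_mul, mul_right_comm, ← map_mul, e, hVy]; rfl
      · change (k * y * g⁻¹) • g • a = _; simp [mul_smul, show y • a = a from hy.1]
      · change (k * y * g⁻¹) • g • b = _; simp [mul_smul, show y • b = b from hy.2],
    fun g x w u h1 h2 h3 h4 h5 h6 => Subtype.ext (hz3.three g x w u h1 h2 h3 h4 h5 h6)⟩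
  have hF0 : IsKer a (F.subgroupOf V.ker) :=
    ⟨fun k hk => hF.fix k hk, fun x hx k hk => hF.conj x hx k hk, fun o y ho hy => by
      obtain ⟨k, hk, e⟩ := hF.trans o y ho hy
      exact ⟨⟨k, hFV hk⟩, hk, e⟩, fun o ho k hk e => Subtype.ext (hF.reg o ho k hk e)⟩
  let A := st2 G a b ⊓ V.ker
  have hA0 : Nat.card (st2 V.ker a b) = Nat.card A :=
    Nat.card_congr ⟨fun x => ⟨x.1.1, x.2, x.1.2⟩, fun x => ⟨⟨x.1, x.2.2⟩, x.2.1⟩, fun _ => rfl, fun _ => rfl⟩
  have hA1 : Nat.card A * 2 = Nat.card (st2 G a b) := by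
    rw [← index_ker_eq_two (V.comp (st2 G a b).subtype) (g := ⟨y, hy⟩) (by
      change V y ≠ 1
      rw [hVy]; decide), ← card_mul_index (V.comp (st2 G a b).subtype).ker]
    congr 1
    exact Nat.card_congr ⟨fun x => ⟨⟨x.1, x.2.1⟩, x.2.2⟩, fun x => ⟨x.1.1, x.1.2, x.2⟩, fun _ => rfl, fun _ => rfl⟩
  have hdec : ∀ w ∈ st2 G a b, V w = -1 → ∀ x ∈ st2 G a b, x ∈ A ∨ w⁻¹ * x ∈ A := fun w hw e x hx =>
    (Int.units_eq_one_or (V x)).imp (fun e => ⟨hx, e⟩) fun e2 => ⟨(st2 G a b).mul_mem (inv_mem hw) hx, by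
      change V _ = 1
      rw [map_mul, map_inv, e, e2]; rfl⟩
  rcases Nat.even_or_odd (Nat.card A) with hev | hAodd
  · obtain ⟨-, -, h2, hperf⟩ := hF0.inverts_of_even_half h0 hab (hA0 ▸ hev.two_dvd) (by omega)
    have hAc : ∀ x ∈ A, ∀ w ∈ A, x * w = w * x := fun x hx w hw =>
      congrArg Subtype.val (h2 ⟨x, hx.2⟩ hx.1 ⟨w, hw.2⟩ hw.1)
    have : IsMulCommutative A := ⟨⟨fun x w => Subtype.ext (hAc x x.2 w w.2)⟩⟩
    have hirr : ∀ U : Subgroup G, U ≤ F → (∀ x ∈ A, ∀ u ∈ U, x * u * x⁻¹ ∈ U) → U = ⊥ ∨ U = F := by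
      intro U hU hUn
      refine (hF0.irred_of_large h0 hab (by omega) (U.subgroupOf V.ker) (fun x hx => hU hx)
        (fun g hg u hu => hUn g ⟨hg, g.2⟩ u hu)).imp (fun e => ?_) (fun e => ?_)
      · rw [subgroupOf_eq_bot, disjoint_iff, inf_of_le_left (hU.trans hFV)] at e
        exact e
      · refine le_antisymm hU fun k hk => ?_
        exact (e.ge (show (⟨k, hFV hk⟩ : V.ker) ∈ F.subgroupOf V.ker from hk) :)
    have hyA := comm_of_index_two (p := p) hfo (F := F) (A := A) (by omega)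
      (inf_le_left.trans (hF.st2_le_normalizer b)) (fun x hx e => by
        by_contra hx1
        apply hF.ne_bot hab hac hbc
        rw [← hF.fpf hz3 hab x hx.1 hx1, eq_comm, inf_eq_left]
        intro k hk
        exact mem_centralizer_singleton_iff.2 (mul_inv_eq_iff_eq_mul.1 (e k hk)).symm) hirr
      (hF.st2_le_normalizer b hy) (fun x hx => ⟨(st2 G a b).mul_mem (mul_mem hy hx.1) (inv_mem hy),
        (MonoidHom.normal_ker V).conj_mem x hx.2 y⟩) ⟨mul_mem hy hy, by
          change V _ = 1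
          rw [map_mul, hVy]; rfl⟩
    have hH : ∀ x ∈ st2 G a b, ∀ w ∈ st2 G a b, x * w = w * x := by
      have k1 : ∀ x ∈ A, ∀ w ∈ st2 G a b, Commute x w := fun x hx w hw => by
        rcases hdec y hy hVy w hw with e | e
        · exact hAc x hx w e
        · have := Commute.mul_right (show Commute x y from (mul_inv_eq_iff_eq_mul.1 (hyA x hx)).symm)
            (show Commute x (y⁻¹ * w) from hAc x hx _ e)
          simpa using this
      intro x hx w hw
      rcases hdec y hy hVy x hx with e | e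
      · exact k1 x e w hw
      rcases hdec y hy hVy w hw with e2 | e2
      · exact (k1 w e2 x hx).symm
      have := Commute.mul_left (Commute.mul_right (Commute.refl y) (k1 _ e2 y hy).symm)
        (Commute.mul_right (k1 _ e y hy) (k1 _ e _ e2.1))
      simpa using this.eq
    obtain ⟨e, B, e1, e0, hB, ha, hs⟩ := H19.exists_field_coords hab.symm F hF.fix hF.conj
      (hF.trans b · hab.symm) (hF.reg b hab.symm) (fun g k g1 g2 k1 k2 => hH g ⟨g1, g2⟩ k ⟨k1, k2⟩)
      (fun U hU hUn => hirr U hU fun g hg => hUn g hg.1.1 hg.1.2)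
      (F := K) (by rw [Nat.card_eq_fintype_card]; omega)
    have hBt : B = ⊤ := by
      rw [← card_eq_iff_eq_top, hB, Nat.card_units, Nat.card_eq_fintype_card (α := K)]
      change Nat.card (st2 G a b) = _
      omega
    subst hBt
    let := H19.transportAction G e
    have := H19.transportAction_faithful G e
    have haff : ∀ x w : K, x ≠ 0 → ∃ g : G, g • (∞ : OnePoint K) = ∞ ∧
        ∀ z : K, g • (z : OnePoint K) = (x * z + w : K) := fun x w hx => by
      obtain ⟨g, g1, g2⟩ := ha (Units.mk0 x hx) (mem_top _) w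
      exact ⟨g, (H19.transportAction_smul_eq G e _ _ _).mpr g1,
        fun z => (H19.transportAction_smul_eq G e _ _ _).mpr (g2 z)⟩
    have hstab : ∀ g : G, g • (∞ : OnePoint K) = ∞ → ∃ x w : K, x ≠ 0 ∧
        ∀ z : K, g • (z : OnePoint K) = (x * z + w : K) := fun g hg => by
      obtain ⟨u, -, w, hab⟩ := hs g ((H19.transportAction_smul_eq G e _ _ _).mp hg)
      exact ⟨u, w, u.ne_zero, fun z => (H19.transportAction_smul_eq G e _ _ _).mpr (hab z)⟩
    have hsq : ∀ g : G, g • (∞ : OnePoint K) = ∞ → ∀ x w : K, x ≠ 0 →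
        (∀ z : K, g • (z : OnePoint K) = (x * x * z + w : K)) → V g = 1 := by
      intro g hg x w hx hz
      obtain ⟨m, m1, m2⟩ := haff x 0 hx
      obtain ⟨t, t1, t2⟩ := haff 1 w one_ne_zero
      have e1 : g = t * (m * m) := H19.eq_of_smul_onePoint (F := K) (by simp [mul_smul, hg, m1, t1])
        (fun z => by simp [mul_smul, hz, m2, t2, mul_assoc])
      have e2 : ∀ (n : ℕ) (z : K), t ^ n • (z : OnePoint K) = (z + n * w : K) := by
        intro n; induction n with
        | zero => simp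
        | succ n ih => intro z; rw [pow_succ, mul_smul, t2, ih]; congr 1; push_cast; ring
      have e3 : t ^ p = 1 := H19.eq_of_smul_onePoint (F := K)
        (by rw [one_smul]; exact (stabilizer G (∞ : OnePoint K)).pow_mem t1 p) (fun z => by simp [e2])
      rw [e1, map_mul, map_mul, Int.units_mul_self, mul_one]
      exact hodd t p (hp.odd_of_ne_two hp2) e3
    have hy1 : y • (∞ : OnePoint K) = ∞ := (H19.transportAction_smul_eq G e _ _ _).mpr (by rw [e1]; exact hy.1)
    obtain ⟨u, w, hu, huw⟩ := hstab y hy1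
    have hun : ¬ IsSquare u := by
      rintro ⟨v, rfl⟩
      rw [hsq y hy1 v w (left_ne_zero_of_mul hu) huw] at hVy
      exact absurd hVy (by decide)
    have hS : H19.SqAffine V.ker K := by
      refine ⟨fun x w hx => ?_, fun g hg => ?_, ?_⟩
      · obtain ⟨g, g1, g2⟩ := haff (x ^ 2) w (pow_ne_zero _ hx)
        exact ⟨⟨g, hsq g g1 x w hx (by simpa [sq] using g2)⟩, g1, g2⟩
      · obtain ⟨x, w', hx, hxw⟩ := hstab g hg
        by_cases hs : IsSquare x
        · obtain ⟨v, rfl⟩ := hs
          exact ⟨v, w', left_ne_zero_of_mul hx, by rw [sq]; exact hxw⟩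
        · exfalso
          obtain ⟨v, hv⟩ := H19.isSquare_mul_of_not hun hs
          have := hsq (y * g) (by rw [mul_smul, show g.1 • (∞ : OnePoint K) = ∞ from hg, hy1]) v (u * w' + w)
            (left_ne_zero_of_mul (hv ▸ mul_ne_zero hu hx)) (fun z => by
              rw [mul_smul, hxw, huw, ← hv]; congr 1; ring)
          rw [map_mul, hVy, show V g = 1 from g.2] at this
          exact absurd this (by decide)
      · obtain ⟨g, g1, -⟩ := h0.two a b b a hab hab.symm
        exact ⟨g, fun e2 => hab (by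
          have := (H19.transportAction_smul_eq G e _ _ _).mp e2
          rw [e1] at this
          exact this.symm.trans g1)⟩
    obtain ⟨j, j1, j2, j3⟩ := hS.exists_neg_inv hch hperf
    exact H19.pgl2_rec ⟨j, j1, j2, j3⟩ haff hstab
  · obtain ⟨s, s1, s2, s3⟩ := h.trans a b c b a c hab hac hbc hab.symm hbc hac
    have hs : s ∈ pairStab G a b := Or.inr ⟨s1, s2⟩
    have hs2 := hz3.swap_sq hab s1 s2 s3
    obtain ⟨⟨z, hz, hz1, hz2, hzu, -⟩, -⟩ := hF.exists_inv hz3 hab (hF.ne_bot hab hac hbc) (by omega)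
    have hA2 : ∀ x ∈ A, x * x = 1 → x = 1 := fun x hx e => orderOf_eq_one_iff.1
      (Nat.eq_one_of_dvd_coprimes (Nat.coprime_two_left.2 hAodd) (orderOf_dvd_of_pow_eq_one (by rw [sq, e]))
        (orderOf_dvd_natCard _ hx))
    have hzV : V z = -1 := (Int.units_eq_one_or _).resolve_left fun e => hz1 (hA2 z ⟨hz, e⟩ hz2)
    have hzc : ∀ g ∈ pairStab G a b, g * z * g⁻¹ = z := fun g hg =>
      (hzu _ (conj_mem_st2 hg hz) (by
        calc _ = g * (z * z) * g⁻¹ := by group
          _ = 1 := by rw [hz2]; group)).resolve_left (by simpa using hz1)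
    have hinv : ∀ x ∈ A, s * x * s⁻¹ = x⁻¹ := fun x hx => H02.fpf_involution_inverts (K := A) (by
      rw [mem_normalizer_iff]
      intro k
      refine ⟨fun hk => ⟨conj_mem_st2 hs hk.1, (MonoidHom.normal_ker V).conj_mem k hk.2 s⟩, fun hk => ⟨?_, ?_⟩⟩
      · simpa [mul_assoc] using conj_mem_st2 (inv_mem hs) hk.1
      · simpa [mul_assoc] using (MonoidHom.normal_ker V).conj_mem _ hk.2 s⁻¹) hs2 (by
      rw [H02.fpf_iff]
      intro x hx e
      have f1 : ∀ y : α, s • y = y → s • x • y = x • y := fun y hy => by rw [← mul_smul, e, mul_smul, hy]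
      by_cases e1 : c = x • c
      · exact hz3.three x a b c hab hac hbc hx.1.1 hx.1.2 e1.symm
      by_cases e2 : c = x • x • c
      · have hxx := mul_mem hx.1 hx.1
        exact hA2 x hx (hz3.three _ a b c hab hac hbc hxx.1 hxx.2 (by rw [mul_smul, ← e2]))
      exact absurd (hz3.three s c (x • c) (x • x • c) e1 e2 (fun e => e1 (smul_left_cancel x e)) s3 (f1 _ s3)
        (f1 _ (f1 _ s3))) (by rintro rfl; exact hab (by simpa using s1))) hx
    refine h.pgl2_of_inverts hm hab.symm s1 s2 (fun k k1 k2 => ?_) (by omega)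
    rcases hdec z hz hzV k ⟨k1, k2⟩ with e | e
    · exact hinv k e
    · calc _ = s * z * s⁻¹ * (s * (z⁻¹ * k) * s⁻¹) := by group
        _ = z * (k⁻¹ * z * k⁻¹⁻¹) * k⁻¹ := by rw [hinv _ e, hzc s hs]; group
        _ = k⁻¹ := by rw [hzc _ (inv_mem (Or.inl ⟨k1, k2⟩)), hz2, one_mul]

end Cfsg.Agent.S0730
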