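import Mathlib
import Cfsg.Statements.S0732
import Cfsg.Agent.H18.ZK
import Cfsg.Agent.H18.FC10
import Cfsg.Agent.S0730
import Cfsg.Agent.H09.AutBase

set_option autoImplicit false
open scoped Pointwise
open Cfsg

namespace Cfsg.Agent.S0732

open Subgroup MulAction H18
open scoped IsMulCommutative

/-- A transitive permutation group on `p + 1` points (`p` prime) of order `(p+1) p d` with `d < p` is isomorphic to `PGL(2,p)` with `d = p - 1`, or to `PSL(2,p)` with `2d = p - 1`, or else `p + 1 = 2^q` for a prime `q`, `d = 1` or `d = q`, and the group is permutation-isomorphic to a group of semi-affine maps `x ↦ a φ(x) + b` of the field with `2^q` elements. -/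
theorem result {α : Type*} [Fintype α] [DecidableEq α] {p d : ℕ} (hp : p.Prime) (hα : Fintype.card α = p + 1) (G : Subgroup (Equiv.Perm α)) [MulAction.IsPretransitive G α] (hG : Nat.card G = (p + 1) * p * d) (hd : d < p) : (d = p - 1 ∧ Nonempty (G ≃* Matrix.ProjGenLinGroup (Fin 2) (ZMod p))) ∨ (2 * d = p - 1 ∧ Nonempty (G ≃* Matrix.ProjectiveSpecialLinearGroup (Fin 2) (ZMod p))) ∨ (∃ q : ℕ, q.Prime ∧ p + 1 = 2 ^ q ∧ (d = 1 ∨ d = q) ∧ ∃ e : α ≃ GaloisField 2 q, ∀ g : G, (e.symm.trans (((g : Equiv.Perm α)).trans e)) ∈ Cfsg.semiaffineGroup (GaloisField 2 q)) := by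
  haveI := Fact.mk hp
  have p2 := hp.two_le
  have hm : 3 ≤ Fintype.card α := by omega
  obtain ⟨a, b, hab⟩ := Fintype.one_lt_card_iff.1 (show 1 < Fintype.card α by omega)
  have d0 : 0 < d := Nat.pos_of_ne_zero (by rintro rfl; exact Nat.card_pos.ne' hG)
  have hst : Nat.card (stabilizer G a) = p * d := by
    have := (stabilizer G a).card_mul_index
    rw [index_stabilizer_of_transitive, Nat.card_eq_fintype_card (α := α), hα, hG] at this
    exact Nat.eq_of_mul_eq_mul_right (Nat.succ_pos p) (this.trans (by rw [Nat.succ_eq_add_one]; ring))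
  obtain ⟨P⟩ : Nonempty (Sylow p (stabilizer G a)) := inferInstance
  have hP : Nat.card P = p := by
    rw [P.card_eq_multiplicity, hst, Nat.factorization_mul hp.ne_zero d0.ne', Finsupp.add_apply, hp.factorization_self,
      Nat.factorization_eq_zero_of_lt hd, pow_one]
  have hPn : (P : Subgroup (stabilizer G a)).Normal := by
    have h1 := P.card_dvd_index
    have h2 := (P : Subgroup (stabilizer G a)).card_mul_index
    rw [hP, hst, Nat.mul_right_inj hp.ne_zero] at h2
    have h3 := card_sylow_modEq_one p (stabilizer G a)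
    have h4 := Nat.le_of_dvd d0 (h2 ▸ h1)
    have h5 := Nat.ModEq.eq_of_lt_of_lt h3 (by omega) (by omega)
    have := (Nat.card_eq_one_iff_unique.1 h5).1
    exact P.normal_of_subsingleton
  let F : Subgroup G := (P : Subgroup (stabilizer G a)).map (stabilizer G a).subtype
  have hFc : Nat.card F = p := by rw [card_map_of_injective (subtype_injective _), hP]
  have hF : IsKer a F := by
    refine isKer_of_free ?_ ?_ (fun o ho k hk e => ?_) (by rw [hFc, Nat.card_eq_fintype_card, hα])
    · rintro _ ⟨k, -, rfl⟩; exact k.2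
    · rintro g hg _ ⟨k, hk, rfl⟩; exact ⟨_, hPn.conj_mem k hk ⟨g, hg⟩, rfl⟩
    by_contra k1
    have h1 : orderOf (k : Equiv.Perm α) = p := by
      rw [orderOf_coe]
      exact ((Nat.dvd_prime hp).1 (hFc ▸ orderOf_dvd_natCard F hk)).resolve_left (by simpa using k1)
    have h2 := Equiv.Perm.isCycle_of_prime_order' (h1 ▸ hp) (by omega)
    have h3 : ({a, o} : Finset α) ⊆ (k : Equiv.Perm α).supportᶜ := by
      obtain ⟨k, -, rfl⟩ := hk
      intro x hx
      rw [Finset.mem_compl, Equiv.Perm.notMem_support]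
      rcases Finset.mem_insert.1 hx with rfl | hx
      · exact k.2
      · rw [Finset.mem_singleton.1 hx]; exact e
    have := Finset.card_le_card h3
    rw [Finset.card_pair ho.symm, Finset.card_compl, ← h2.orderOf] at this
    omega
  obtain ⟨hz, hFy⟩ := hF.z3_of_prime (hFc ▸ hp)
  haveI : IsMulCommutative F := ⟨⟨hFy.commGroup.mul_comm⟩⟩
  have hd2 : Nat.card (st2 G a b) = d := by
    have := hF.card_stab hab
    rw [hst, hFc] at this
    exact (Nat.eq_of_mul_eq_mul_left hp.pos this).symm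
  have s3 : d + 2 = p + 1 → d = p - 1 ∧ Nonempty (G ≃* Matrix.ProjGenLinGroup (Fin 2) (ZMod p)) := fun h => by
    have h1 := sharp3_of_card hz hab (by omega)
    refine ⟨by omega, ?_⟩
    rcases hp.eq_two_or_odd' with e | e
    · exact (h1.pgl2_of_odd hm (by rw [hα, e]; decide)).2 (ZMod p) (by rw [ZMod.card, hα])
    obtain ⟨K, _, _, hK, ⟨f⟩⟩ := S0730.result hp (by rintro rfl; exact absurd e (by decide)) odd_one (by rw [pow_one, hα]) G
      (mt_three_iff.2 h1.trans) (sharp_three_iff.2 h1.sharp)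
    obtain ⟨f'⟩ := H09.nonempty_pgl_equiv_of_card_eq (ι := Fin 2) (F := K) (K := ZMod p) (by rw [hK, ZMod.card, pow_one])
    exact ⟨f.trans f'⟩
  rcases hp.eq_two_or_odd' with e2 | hodd
  · exact Or.inl (s3 (by omega))
  rcases hF.zk_main hz hm hab with ⟨-, h⟩ | ⟨h, K, _, _, -, hK, ⟨f⟩⟩ | ⟨r, q, hr, hq, hc, N, _, _, Np, tr, reg⟩
  · exact Or.inl (s3 (by omega))
  · obtain ⟨f'⟩ := H09.nonempty_psl_equiv_of_card_eq (ι := Fin 2) (F := K) (K := ZMod p) (by rw [ZMod.card]; omega)
    exact Or.inr (Or.inl ⟨by omega, ⟨f.trans f'⟩⟩)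
  obtain rfl : r = 2 := by
    by_contra h
    have := (hr.odd_of_ne_two h).pow (n := q)
    rw [← hc, hα] at this
    exact (Nat.not_even_iff_odd.2 this) hodd.add_one
  have hqp : q.Prime := (Nat.prime_of_pow_sub_one_prime (a := 2) (by rintro rfl; omega) (by
    rwa [show 2 ^ q - 1 = p by omega])).2
  let r : N ≃ α := Equiv.ofBijective (fun n => (n : G) • a) ⟨fun x y e => Subtype.ext (regular_unique (reg a) x.2 y.2 e),
    tr.1 a⟩
  have hr : ∀ n : N, r n = (n : G) • a := fun _ => rfl
  have act : ∀ (g : G) (n : N), g • r n = r (MulAut.conjNormal g n * r.symm (g • a)) := fun g n => by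
    rw [hr (_ * _), coe_mul, mul_smul, ← hr (r.symm _), r.apply_symm_apply, hr]
    simp [mul_smul]
  have r1 : r.symm a = 1 := r.symm_apply_eq.2 (by simp [hr])
  letI : CommGroup N := { mul_comm := mul_comm' }
  have hN : Nat.card N = 2 ^ q := by rw [Nat.card_congr r, Nat.card_eq_fintype_card, hc]
  haveI : Nontrivial N := Finite.one_lt_card_iff_nontrivial.1 (by omega)
  haveI : Group.IsSolvable (stabilizer G a) := by
    let ψ := (MulAut.conjNormal (H := (P : Subgroup (stabilizer G a))) : stabilizer G a →* _)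
    haveI : IsCyclic P := isCyclic_of_prime_card hP
    letI := IsCyclic.commGroup (α := P)
    haveI : IsMulCommutative (MulAut P) := ⟨⟨fun x y => (IsCyclic.mulAutMulEquiv P).injective (by
      rw [map_mul, map_mul, mul_comm])⟩⟩
    haveI : Group.IsSolvable (MulAut P) := isSolvable_of_comm mul_comm'
    refine solvable_of_ker_le_range (P : Subgroup (stabilizer G a)).subtype ψ fun x hx => ?_
    obtain ⟨y, hy, e⟩ := hF.mem_of_comm x.2 (by
      rintro _ ⟨k, hk, rfl⟩
      have := congrArg (fun z : P => (z.1.1 : G)) (DFunLike.congr_fun hx ⟨k, hk⟩)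
      exact mul_inv_eq_iff_eq_mul.1 this)
    exact ⟨⟨y, hy⟩, Subtype.ext e⟩
  rcases huppert_aut (p := 2) (fun x : N => Subtype.ext (Np x x.2))
    ((MulAut.conjNormal : G →* MulAut N).comp (stabilizer G a).subtype) (fun x y hx hy => by
      have k : ∀ x : N, x ≠ 1 → a ≠ r x := fun x hx e => hx (r.injective (e.symm.trans (by simp [hr])))
      obtain ⟨g, h1, h2⟩ := hz.two a _ a _ (k x hx) (k y hy)
      rw [act, h1] at h2
      exact ⟨⟨g, h1⟩, Or.inl (by simpa [r1] using h2)⟩) with ⟨K, _, _, e, he⟩ | h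
  swap
  · rw [hN, ← hc, hα] at h
    obtain ⟨k, rfl⟩ := hodd
    simp only [Set.mem_insert_iff, Set.mem_singleton_iff] at h
    omega
  have hK : Fintype.card K = 2 ^ q := by
    rw [← Nat.card_eq_fintype_card, ← hN, ← Nat.card_congr e.toEquiv]; rfl
  replace he : ∀ g : G, ∃ (c : K) (σ : K ≃+* K), ∀ v : N, e (.ofMul (MulAut.conjNormal g v)) = c * σ (e (.ofMul v)) := by
    intro g
    obtain ⟨c, σ, h⟩ := he ⟨(r.symm (g • a) : G)⁻¹ * g, by
      rw [mem_stabilizer_iff, mul_smul, inv_smul_eq_iff, ← hr, r.apply_symm_apply]⟩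
    refine ⟨c, σ, fun v => (h v) ▸ ?_⟩
    congr 2
    apply Subtype.ext
    have := congrArg Subtype.val (mul_comm' (r.symm (g • a)) (MulAut.conjNormal g v))
    simp only [coe_mul, MulAut.conjNormal_apply] at this
    change g * v * g⁻¹ = (_ * g) * v * (_ * g)⁻¹
    calc _ = (r.symm (g • a) : G)⁻¹ * ((r.symm (g • a) : G) * (g * v * g⁻¹)) := by group
      _ = _ := by rw [this]; group
  refine Or.inr (Or.inr ⟨q, hqp, by omega, (Nat.dvd_prime hqp).1 ?_, ?_⟩)
  · choose c σ h using he
    have b0 : e (.ofMul (r.symm b)) ≠ 0 := fun e0 => hab (r.symm.injective (r1.trans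
      ((map_eq_zero_iff _ e.injective).1 e0).symm))
    have h1 : ∀ g : st2 G a b, c g * σ g (e (.ofMul (r.symm b))) = e (.ofMul (r.symm b)) := fun g => by
      have := act g (r.symm b)
      rw [r.apply_symm_apply, show g.1 • a = a from g.2.1, show g.1 • b = b from g.2.2, r1, mul_one,
        ← r.symm_apply_eq] at this
      rw [← h, ← this]
    have h2 : ∀ (g : st2 G a b) (v : N) x, e (.ofMul v) = e (.ofMul (r.symm b)) * x →
        e (.ofMul (MulAut.conjNormal g.1 v)) = e (.ofMul (r.symm b)) * σ g x := fun g v x hx => by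
      rw [h, hx, map_mul, ← mul_assoc, h1]
    let ψ : st2 G a b →* RingAut K := MonoidHom.mk' (fun g => σ g) fun g k => RingEquiv.ext fun x => by
      obtain ⟨v, hv⟩ := e.surjective (e (.ofMul (r.symm b)) * x)
      have := h2 g _ _ (h2 k v.toMul x hv)
      rw [← MulAut.mul_apply, ← map_mul, ← coe_mul, h2 _ v.toMul x hv] at this
      exact mul_left_cancel₀ b0 this
    rw [← hd2, ← H09.card_ringAut (p := 2) hK]
    refine card_dvd_of_injective ψ ((injective_iff_map_eq_one ψ).2 fun g hg => Subtype.ext (Subtype.ext (Equiv.ext fun x => ?_)))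
    obtain ⟨v, rfl⟩ := r.surjective x
    have := h2 g v _ (mul_div_cancel₀ _ b0).symm
    rw [show σ g = 1 from hg, RingAut.one_apply, mul_div_cancel₀ _ b0, e.apply_eq_iff_eq] at this
    change g.1 • r v = r v
    rw [act, show g.1 • a = a from g.2.1, r1, mul_one]
    exact congrArg r this
  haveI := Fintype.ofFinite (GaloisField 2 q)
  let ι : K ≃+* GaloisField 2 q := FiniteField.ringEquivOfCardEq (by
    rw [hK, ← Nat.card_eq_fintype_card, GaloisField.card 2 q hqp.ne_zero])
  let E : α ≃ GaloisField 2 q := r.symm.trans (Additive.ofMul.trans (e.toEquiv.trans ι.toEquiv))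
  have hE : ∀ n : N, E (r n) = ι (e (.ofMul n)) := fun n => by simp [E]
  refine ⟨E, fun g => ?_⟩
  obtain ⟨c, σ, h⟩ := he g
  have a0 : ι c ≠ 0 := fun e0 => by
    obtain ⟨n, hn⟩ := exists_ne (1 : N)
    have := h n
    rw [(map_eq_zero ι).1 e0, zero_mul, map_eq_zero_iff _ e.injective] at this
    exact hn ((map_eq_one_iff (MulAut.conjNormal g) (MulEquiv.injective _)).1 this)
  refine ⟨Units.mk0 _ a0, ι (e (.ofMul (r.symm (g • a)))), ι.symm.trans (σ.trans ι), fun x => ?_⟩
  obtain ⟨x, rfl⟩ := E.surjective x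
  obtain ⟨x, rfl⟩ := r.surjective x
  change E (g • E.symm (E (r x))) = _
  rw [E.symm_apply_apply, act, hE, hE, ofMul_mul, map_add, map_add, h]
  simp

end Cfsg.Agent.S0732
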