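import Mathlib
import Cfsg.Agent.L.PSL2Sub
-- Template for statement S0799 (row 799; see /opt/grader/pristine/manifest.json for weights).
-- Copy to Cfsg/Agent/S0799.lean and replace the sorry. The statement below is byte-identical to the frozen
-- statement Cfsg.CfsgFrozen.S0799 (Cfsg/Statements/S0799.lean; the theorem Cfsg.psl_two_subgroups_dickson_list);
-- the grader kernel-checks Cfsg.Agent.S0799.result against that frozen type. Keep the theorem IN THIS FILE
-- (a `result` declared elsewhere and merely imported here is not credited); helpers may live anywhere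
-- under Cfsg/Agent/.
import Cfsg.Statements.S0799
-- import your own Cfsg.Agent.* helpers here

set_option autoImplicit false
open Cfsg

namespace Cfsg.Agent.S0799

/-- Dickson's classification of the subgroups of PSL_2(q), q a power of the prime p, d = gcd(2, q − 1): every subgroup H is (a) cyclic or dihedral with k dividing (q+1)/d or (q−1)/d (cyclic of order k, or dihedral of order 2k), (b) isomorphic to a subgroup of the normaliser of a Sylow p-subgroup, (c) isomorphic to A_4, S_4 or A_5, or (d) isomorphic to PSL_2(K) or PGL_2(K) for a finite field K with |K|^m = q. -/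
theorem result {F : Type*} [Field F] [Fintype F] {q : ℕ} (hF : Fintype.card F = q) (p : ℕ) [Fact p.Prime] [CharP F p] (H : Subgroup (Matrix.ProjectiveSpecialLinearGroup (Fin 2) F)) : (∃ k : ℕ, (k ∣ (q + 1) / Nat.gcd 2 (q - 1) ∨ k ∣ (q - 1) / Nat.gcd 2 (q - 1)) ∧ ((IsCyclic H ∧ Nat.card H = k) ∨ Nonempty (H ≃* DihedralGroup k))) ∨ (∃ (P : Sylow p (Matrix.ProjectiveSpecialLinearGroup (Fin 2) F)) (K : Subgroup (Matrix.ProjectiveSpecialLinearGroup (Fin 2) F)), K ≤ Subgroup.normalizer ((P : Subgroup (Matrix.ProjectiveSpecialLinearGroup (Fin 2) F)) : Set (Matrix.ProjectiveSpecialLinearGroup (Fin 2) F)) ∧ Nonempty (H ≃* K)) ∨ Nonempty (H ≃* alternatingGroup (Fin 4)) ∨ Nonempty (H ≃* Equiv.Perm (Fin 4)) ∨ Nonempty (H ≃* alternatingGroup (Fin 5)) ∨ (∃ (K : Type) (_ : Field K) (_ : Fintype K) (m : ℕ), Fintype.card K ^ m = q ∧ (Nonempty (H ≃* Matrix.ProjectiveSpecialLinearGroup (Fin 2) K) ∨ Nonempty (H ≃* Matrix.ProjGenLinGroup (Fin 2) K))) := by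
  subst hF
  have hc : ∀ k, L.Dk.dd F * k ∣ Fintype.card F - 1 ∨ L.Dk.dd F * k ∣ Fintype.card F + 1 →
      k ∣ (Fintype.card F + 1) / Nat.gcd 2 (Fintype.card F - 1) ∨
        k ∣ (Fintype.card F - 1) / Nat.gcd 2 (Fintype.card F - 1) := fun k h =>
    h.symm.imp L.Dk.dvd_div_dd L.Dk.dvd_div_dd
  rcases L.Dk.clsPSL p H with ⟨x, h⟩ | ⟨h, hp⟩ | ⟨C, h, hp, hi, hs⟩ | h | h | h | ⟨K, _, _, m, -, hK, h⟩ |
    ⟨K, _, _, m, -, hK, h⟩
  · obtain ⟨P, hP⟩ := L.Dk.exists_sylow_normalizer p x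
    exact Or.inr (Or.inl ⟨P, H, fun g hg => hP (h ⟨g, hg⟩), ⟨MulEquiv.refl _⟩⟩)
  · exact Or.inl ⟨_, hc _ (L.Dk.card_cyc_dvd p H.subtype H.subtype_injective hp), Or.inl ⟨h, rfl⟩⟩
  · exact Or.inl ⟨_, hc _ (L.Dk.card_cyc_dvd p (H.subtype.comp C.subtype)
      (H.subtype_injective.comp C.subtype_injective) hp), Or.inr (L.iso_dihedral C hi hs)⟩
  · exact Or.inr (Or.inr (Or.inl h))
  · exact Or.inr (Or.inr (Or.inr (Or.inl h)))
  · exact Or.inr (Or.inr (Or.inr (Or.inr (Or.inl h))))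
  · exact Or.inr (Or.inr (Or.inr (Or.inr (Or.inr ⟨K, inferInstance, inferInstance, m, hK, Or.inr h⟩))))
  · exact Or.inr (Or.inr (Or.inr (Or.inr (Or.inr ⟨K, inferInstance, inferInstance, m, hK, Or.inl h⟩))))

end Cfsg.Agent.S0799
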