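import Mathlib
import Cfsg.Agent.L.PSL2Sub
-- Template for statement S0802 (row 802; see /opt/grader/pristine/manifest.json for weights).
-- Copy to Cfsg/Agent/S0802.lean and replace the sorry. The statement below is byte-identical to the frozen
-- statement Cfsg.CfsgFrozen.S0802 (Cfsg/Statements/S0802.lean; the theorem Cfsg.psl_two_has_alternating_four_iff);
-- the grader kernel-checks Cfsg.Agent.S0802.result against that frozen type. Keep the theorem IN THIS FILE
-- (a `result` declared elsewhere and merely imported here is not credited); helpers may live anywhere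
-- under Cfsg/Agent/.
import Cfsg.Statements.S0802
-- import your own Cfsg.Agent.* helpers here

set_option autoImplicit false
open Cfsg

namespace Cfsg.Agent.S0802

/-- PSL_2(p^n) has a subgroup isomorphic to A_4 if and only if it is not the case that p = 2 and n is odd. -/
theorem result {F : Type*} [Field F] [Fintype F] (p n : ℕ) [Fact p.Prime] [CharP F p] (hF : Fintype.card F = p ^ n) : (∃ H : Subgroup (Matrix.ProjectiveSpecialLinearGroup (Fin 2) F), Nonempty (H ≃* alternatingGroup (Fin 4))) ↔ ¬ (p = 2 ∧ Odd n) := by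
  constructor
  · rintro ⟨H, ⟨e⟩⟩ ⟨rfl, k, rfl⟩
    have : ∃ g v : alternatingGroup (Fin 4), g ^ 2 ≠ 1 ∧ g ^ 3 = 1 ∧ v ≠ 1 ∧ v ^ 2 = 1 ∧
        v * (g * v * g⁻¹) = (g * v * g⁻¹) * v := by decide +kernel
    obtain ⟨g, v, h1, h2, h3, h4, h5⟩ := this
    let f := Matrix.ProjectiveSpecialLinearGroup.toPGL.comp (H.subtype.comp e.symm.toMonoidHom)
    have hf : Function.Injective f :=
      Matrix.ProjectiveSpecialLinearGroup.toPGL_injective.comp (H.subtype_injective.comp e.symm.injective)
    have k1 : f g ^ 2 ≠ 1 := by rw [← map_pow]; exact fun e => h1 (hf (e.trans (map_one f).symm))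
    have k2 : f g ^ 3 = 1 := by rw [← map_pow, h2, map_one]
    have k3 : f v ≠ 1 := fun e => h3 (hf (e.trans (map_one f).symm))
    have k4 : f v ^ 2 = 1 := by rw [← map_pow, h4, map_one]
    have k5 : f v * (f g * f v * (f g)⁻¹) = (f g * f v * (f g)⁻¹) * f v := by
      simpa only [map_mul, map_inv] using congrArg f h5
    generalize f g = a at k1 k2 k5
    generalize f v = b at k3 k4 k5
    obtain ⟨x, hx⟩ := L.Dk.exists_fixed_of_pGroup (F := F) 2 (P := Subgroup.zpowers b)
      (IsPGroup.of_card (n := 1) (by rw [Nat.card_zpowers, orderOf_eq_prime k4 k3, pow_one]))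
    have hb : b • x = x := hx ⟨b, Subgroup.mem_zpowers b⟩
    have uq : ∀ y, b • y = y → y = x := fun y hy => by
      by_contra hne
      exact L.Dk.pow_char_ne_of_fix_two 2 k3 hne hy hb k4
    have h6 : (a * b * a⁻¹) • x = x := uq _ (by rw [← mul_smul, k5, mul_smul, hb])
    have h7 : a⁻¹ • x = x := uq _ (by rw [mul_smul, mul_smul, ← eq_inv_smul_iff] at h6; exact h6)
    rw [inv_smul_eq_iff] at h7
    obtain ⟨σ, rfl⟩ := L.Dk.exists_smul_pInf x
    obtain ⟨c, d, rfl⟩ := L.Dk.exists_conj_aff h7.symm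
    rw [conj_pow, mul_inv_eq_one, mul_eq_left] at k2
    rw [conj_pow, Ne, mul_inv_eq_one, mul_eq_left, L.Dk.aff_pow_char_iff] at k1
    obtain ⟨u, hu⟩ := L.Dk.aff_pow c d 3
    rw [hu, L.Dk.aff_eq_one] at k2
    have : Fact (Nat.Prime 3) := ⟨Nat.prime_three⟩
    have h8 := orderOf_dvd_natCard c
    rw [orderOf_eq_prime k2.1 k1, H09.card_units_field, hF, pow_succ, pow_mul] at h8
    have h9 : (2 ^ 2) ^ k % 3 = 1 := by rw [Nat.pow_mod]; simp
    omega
  · intro h
    apply L.Dk.exists_subgroup_of_injective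
    by_cases hp : p = 2
    · subst hp
      obtain ⟨k, rfl⟩ : Even n := Nat.not_odd_iff_even.1 fun e => h ⟨rfl, e⟩
      obtain ⟨φ, hφ⟩ := L.Dk.exists_golden (F := F) (by
        refine Dvd.dvd.mul_left ?_ _
        rw [hF, ← pow_mul, show (k + k) * 2 = 4 * k by ring, pow_mul]
        simpa using (show 5 ∣ 2 ^ 4 - 1 by norm_num).trans (Nat.sub_dvd_pow_sub_pow (2 ^ 4) 1 k))
      exact L.Dk.exists_A4_of_golden (by exact_mod_cast CharP.cast_eq_zero F 2) hφ
    · exact L.Dk.exists_A4_psl (L.two_ne_zero_of_charP p hp)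

end Cfsg.Agent.S0802
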