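import Mathlib
import Cfsg.Agent.L.PSL2Sub
-- Template for statement S0803 (row 803; see /opt/grader/pristine/manifest.json for weights).
-- Copy to Cfsg/Agent/S0803.lean and replace the sorry. The statement below is byte-identical to the frozen
-- statement Cfsg.CfsgFrozen.S0803 (Cfsg/Statements/S0803.lean; the theorem Cfsg.psl_two_has_symmetric_four_iff);
-- the grader kernel-checks Cfsg.Agent.S0803.result against that frozen type. Keep the theorem IN THIS FILE
-- (a `result` declared elsewhere and merely imported here is not credited); helpers may live anywhere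
-- under Cfsg/Agent/.
import Cfsg.Statements.S0803
-- import your own Cfsg.Agent.* helpers here

set_option autoImplicit false
open Cfsg

namespace Cfsg.Agent.S0803

/-- PSL_2(q) has a subgroup isomorphic to S_4 iff q² ≡ 1 (mod 16). -/
theorem result {F : Type*} [Field F] [Fintype F] {q : ℕ} (hF : Fintype.card F = q) : (∃ H : Subgroup (Matrix.ProjectiveSpecialLinearGroup (Fin 2) F), Nonempty (H ≃* Equiv.Perm (Fin 4))) ↔ q ^ 2 % 16 = 1 := by
  subst hF
  constructor
  · rintro ⟨H, ⟨e⟩⟩
    obtain ⟨p, hp, n, hpp, hn⟩ := FiniteField.card' F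
    have : Fact p.Prime := ⟨hpp⟩
    obtain ⟨g, hg⟩ : ∃ g : Equiv.Perm (Fin 4), orderOf g = 4 :=
      ⟨finRotate 4, by rw [isCycle_finRotate.orderOf, support_finRotate]; rfl⟩
    have h1 : orderOf ((e.symm g : H) : Matrix.ProjectiveSpecialLinearGroup (Fin 2) F) = 4 := by
      rw [Subgroup.orderOf_coe, MulEquiv.orderOf_eq, hg]
    have h2 : 1 < Fintype.card F := Fintype.one_lt_card
    rcases L.Dk.orderOf_psl p ((e.symm g : H) : Matrix.ProjectiveSpecialLinearGroup (Fin 2) F) with h | h
    · have := orderOf_dvd_of_pow_eq_one h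
      rw [h1] at this
      have := (Nat.dvd_prime hpp).1 this
      have : p ≠ 4 := by rintro rfl; norm_num at hpp
      omega
    · rw [h1] at h
      have h3 : Fintype.card F % 8 = 1 ∨ Fintype.card F % 8 = 7 := by
        rcases L.Dk.dd_cases (F := F) with h4 | h4 <;> rw [h4.2] at h <;> omega
      have h4 : Fintype.card F % 16 = 1 ∨ Fintype.card F % 16 = 9 ∨ Fintype.card F % 16 = 7 ∨
          Fintype.card F % 16 = 15 := by omega
      rcases h4 with h4 | h4 | h4 | h4 <;> rw [Nat.pow_mod, h4]
  · intro h
    have h1 : Fintype.card F % 8 = 1 ∨ Fintype.card F % 8 = 7 := by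
      rw [Nat.pow_mod] at h
      have h2 : Fintype.card F % 16 < 16 := Nat.mod_lt _ (by norm_num)
      have h3 : Fintype.card F % 8 = Fintype.card F % 16 % 8 := by omega
      rw [h3]
      generalize Fintype.card F % 16 = r at h h2
      interval_cases r <;> simp at h ⊢
    exact L.Dk.exists_subgroup_of_injective (L.Dk.exists_S4_psl
      (L.two_ne_zero_of_odd (Nat.odd_iff.2 (by omega))) (FiniteField.isSquare_two_iff.2 (by omega)))

end Cfsg.Agent.S0803
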