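import Mathlib
import Cfsg.Agent.L.PSL2Sub
-- Template for statement S0804 (row 804; see /opt/grader/pristine/manifest.json for weights).
-- Copy to Cfsg/Agent/S0804.lean and replace the sorry. The statement below is byte-identical to the frozen
-- statement Cfsg.CfsgFrozen.S0804 (Cfsg/Statements/S0804.lean; the theorem Cfsg.psl_two_has_alternating_five_iff);
-- the grader kernel-checks Cfsg.Agent.S0804.result against that frozen type. Keep the theorem IN THIS FILE
-- (a `result` declared elsewhere and merely imported here is not credited); helpers may live anywhere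
-- under Cfsg/Agent/.
import Cfsg.Statements.S0804
-- import your own Cfsg.Agent.* helpers here

set_option autoImplicit false
open Cfsg

namespace Cfsg.Agent.S0804

/-- PSL_2(q) has a subgroup isomorphic to A_5 iff 5 ∣ q(q² − 1). -/
theorem result {F : Type*} [Field F] [Fintype F] {q : ℕ} (hF : Fintype.card F = q) : (∃ H : Subgroup (Matrix.ProjectiveSpecialLinearGroup (Fin 2) F), Nonempty (H ≃* alternatingGroup (Fin 5))) ↔ 5 ∣ q * (q ^ 2 - 1) := by
  subst hF
  constructor
  · rintro ⟨H, ⟨e⟩⟩
    have h1 := L.Dk.card_dvd_of_equiv e
    rw [nat_card_alternatingGroup, Nat.card_fin] at h1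
    rw [← L.Dk.card_psl]
    exact (Dvd.dvd.trans (by decide) h1).mul_left _
  · exact fun h => L.Dk.exists_subgroup_of_injective (L.Dk.exists_A5_psl h)

end Cfsg.Agent.S0804
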