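import Mathlib
import Cfsg.Agent.L.PSL2Max
-- Template for statement S0806 (row 806; see /opt/grader/pristine/manifest.json for weights).
-- Copy to Cfsg/Agent/S0806.lean and replace the sorry. The statement below is byte-identical to the frozen
-- statement Cfsg.CfsgFrozen.S0806 (Cfsg/Statements/S0806.lean; the theorem Cfsg.psl_two_min_index_proper_subgroup);
-- the grader kernel-checks Cfsg.Agent.S0806.result against that frozen type. Keep the theorem IN THIS FILE
-- (a `result` declared elsewhere and merely imported here is not credited); helpers may live anywhere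
-- under Cfsg/Agent/.
import Cfsg.Statements.S0806
-- import your own Cfsg.Agent.* helpers here

set_option autoImplicit false
open Cfsg

namespace Cfsg.Agent.S0806

/-- Minimal index (Galois): if q ∉ {2, 3, 5, 7, 9, 11} then every proper subgroup of PSL_2(q) has index ≥ q + 1, and some subgroup has index exactly q + 1. -/
theorem result {F : Type*} [Field F] [Fintype F] {q : ℕ} (hF : Fintype.card F = q) (hq : q ∉ ({2, 3, 5, 7, 9, 11} : Finset ℕ)) : (∀ H : Subgroup (Matrix.ProjectiveSpecialLinearGroup (Fin 2) F), H ≠ ⊤ → q + 1 ≤ H.index) ∧ ∃ H : Subgroup (Matrix.ProjectiveSpecialLinearGroup (Fin 2) F), H.index = q + 1 := by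
  subst hF
  refine ⟨fun H hH => ?_, _, L.Dk.index_stab H09.pInf⟩
  obtain ⟨p, hp, n, hpp, hn⟩ := FiniteField.card' F
  have : Fact p.Prime := ⟨hpp⟩
  simp only [Finset.mem_insert, Finset.mem_singleton, not_or] at hq
  have hq' := L.Dk.card_field_ne (F := F)
  have hd := L.Dk.dd_cases (F := F)
  have hdG := Subgroup.card_subgroup_dvd_card H
  have key : L.Dk.dd F * Nat.card H ≤ Fintype.card F * (Fintype.card F - 1) → Fintype.card F + 1 ≤ H.index := by
    intro h
    have h1 := L.Dk.card_psl (F := F)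
    rw [← H.card_mul_index, L.Dk.sq_sub_one, ← mul_assoc, mul_comm (_ + 1), ← mul_assoc] at h1
    by_contra h2
    have h3 : 0 < Fintype.card F * (Fintype.card F - 1) := Nat.mul_pos (by omega) (by omega)
    have := Nat.mul_lt_mul_of_le_of_lt h (Nat.not_le.1 h2) h3
    omega
  have hd2 : L.Dk.dd F ≤ 2 := by omega
  have h4 : Fintype.card F = 4 ∨ Fintype.card F = 8 ∨ 13 ≤ Fintype.card F := by omega
  have h5 : 2 * (Fintype.card F + 1) ≤ Fintype.card F * (Fintype.card F - 1) := by
    obtain ⟨t, ht⟩ : ∃ t, Fintype.card F = t + 4 := ⟨Fintype.card F - 4, by omega⟩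
    rw [ht, show t + 4 - 1 = t + 3 from rfl]; nlinarith
  have h6 : 13 ≤ Fintype.card F → 156 ≤ Fintype.card F * (Fintype.card F - 1) := fun h =>
    Nat.mul_le_mul h (show 12 ≤ _ by omega)
  have hc : ∀ k, L.Dk.dd F * k ∣ Fintype.card F - 1 ∨ L.Dk.dd F * k ∣ Fintype.card F + 1 →
      L.Dk.dd F * k ≤ Fintype.card F + 1 := by
    rintro k (h | h)
    · have := Nat.le_of_dvd L.card_sub_one_pos h; omega
    · exact Nat.le_of_dvd (Nat.succ_pos _) h
  have hsub : ∀ c m : ℕ, 2 ≤ c → 1 ≤ m → c ^ m = Fintype.card F → c ≠ Fintype.card F →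
      Nat.card H ≤ c * (c ^ 2 - 1) → Fintype.card F + 1 ≤ H.index := by
    intro c m hc hm h hne hle
    apply key
    have h7 : c ^ 2 ≤ Fintype.card F := by
      rcases (L.Dk.sq_le_of_pow hc hm h).resolve_left hne with h | h <;> nlinarith
    calc L.Dk.dd F * Nat.card H ≤ c * (c * (c ^ 2 - 1)) := Nat.mul_le_mul (by omega) hle
      _ = c ^ 2 * (c ^ 2 - 1) := by ring
      _ ≤ _ := Nat.mul_le_mul h7 (by omega)
  rcases L.Dk.clsPSL p H with ⟨x, h⟩ | ⟨h, hp⟩ | ⟨C, h, hp, hi, -⟩ | ⟨⟨f⟩⟩ | ⟨⟨f⟩⟩ | ⟨⟨f⟩⟩ |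
    ⟨K, _, _, m, hm, hK, ⟨f⟩⟩ | ⟨K, _, _, m, hm, hK, ⟨f⟩⟩
  · rw [← L.Dk.index_stab x]
    exact Subgroup.index_antitone fun g hg => h ⟨g, hg⟩
  · have := hc _ (L.Dk.card_cyc_dvd p H.subtype H.subtype_injective hp)
    exact key (by omega)
  · have := hc _ (L.Dk.card_cyc_dvd p (H.subtype.comp C.subtype) (H.subtype_injective.comp C.subtype_injective) hp)
    have h2 := C.index_mul_card
    rw [hi] at h2
    exact key (by rw [← h2, mul_left_comm]; omega)
  · have h1 : Nat.card H = 12 := (Nat.card_congr f.toEquiv).trans L.Dk.card_A4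
    apply key
    rw [h1]
    rcases h4 with h4 | h4 | h4
    · rw [h4] at hd ⊢; omega
    · rw [h4] at hd ⊢; omega
    · have := h6 h4; omega
  · have h1 : Nat.card H = 24 := (Nat.card_congr f.toEquiv).trans L.Dk.card_S4
    apply key
    rw [h1]
    rcases h4 with h4 | h4 | h4
    · rw [h1, L.Dk.card_psl_of h4 (n := 60) rfl] at hdG; omega
    · rw [h4] at hd ⊢; omega
    · have := h6 h4; omega
  · have h1 : Nat.card H = 60 := (Nat.card_congr f.toEquiv).trans L.Dk.card_A5
    apply key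
    rw [h1]
    rcases h4 with h4 | h4 | h4
    · exact absurd (Subgroup.eq_top_of_card_eq _ (by rw [h1, L.Dk.card_psl_of h4 (n := 60) rfl])) hH
    · rw [h1, L.Dk.card_psl_of h4 (n := 504) rfl] at hdG; omega
    · have := h6 h4; omega
  · exact hsub _ m Fintype.one_lt_card hm hK (fun e => hH (L.Dk.eq_top_of_pgl e f))
      (by rw [Nat.card_congr f.toEquiv, L.Dk.card_PGL2])
  · exact hsub _ m Fintype.one_lt_card hm hK (fun e => hH (L.Dk.eq_top_of_psl e f))
      (by rw [Nat.card_congr f.toEquiv, ← L.Dk.card_PGL2]; exact L.Dk.card_psl_le_pgl)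

end Cfsg.Agent.S0806
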