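import Mathlib
import Cfsg.Statements.S0998
import Cfsg.Agent.H19.BT
import Cfsg.Agent.S0499

set_option autoImplicit false
open Cfsg

namespace Cfsg.Agent.S0998

/-- A non-cyclic finite simple group whose order has the form p * r * q^b for distinct primes p, q, r is isomorphic to the projective special linear group of dimension 2 over the field with 5 or with 7 elements. -/
theorem result {G : Type*} [Group G] [Finite G] [IsSimpleGroup G] (hG : ¬ IsCyclic G) (p q r b : ℕ) (hp : p.Prime) (hq : q.Prime) (hr : r.Prime) (hpq : p ≠ q) (hpr : p ≠ r) (hqr : q ≠ r) (hG' : Nat.card G = p * r * q ^ b) : (∃ (F : Type) (_ : Field F) (_ : Fintype F), Fintype.card F = 5 ∧ Nonempty (G ≃* Matrix.ProjectiveSpecialLinearGroup (Fin 2) F)) ∨ (∃ (F : Type) (_ : Field F) (_ : Fintype F), Fintype.card F = 7 ∧ Nonempty (G ≃* Matrix.ProjectiveSpecialLinearGroup (Fin 2) F)) := by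
  have hc : ¬ IsMulCommutative G := fun h => hG (by
    have := Fact.mk (Group.is_simple_iff_prime_card.mp (inferInstance : IsSimpleGroup G))
    exact isCyclic_of_prime_card rfl)
  wlog h : r < p generalizing p r
  · exact this r p hr hp hqr.symm hpr.symm hpq.symm (by rw [hG']; ring) (by omega)
  have := Fact.mk hp
  have key : ∀ {a c : ℕ}, 4 * a = r * q ^ c → q = 2 := fun {a c} e => by
    by_contra h2
    have h3 : Nat.Coprime (2 ^ 2) (q ^ c) := ((Nat.coprime_primes Nat.prime_two hq).2 (Ne.symm h2)).pow _ _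
    have h4 := h3.dvd_of_dvd_mul_right (Dvd.intro _ e)
    exact absurd ((Nat.dvd_prime hr).1 h4) (by rintro (h | rfl) <;> simp_all +decide)
  have h3 : 3 < p := by
    by_contra h3
    have := hr.two_le
    obtain rfl : p = 3 := by omega
    obtain rfl : r = 2 := by omega
    have h4 : 4 ∣ Nat.card G := by
      rcases Cfsg.Agent.S0499.result hc (by rw [hG', mul_assoc]; exact (even_two_mul _).mul_left _) with h | h | h <;>
        exact Dvd.dvd.trans (by norm_num) h
    have : Odd (q ^ b) := (hq.odd_of_ne_two hqr).pow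
    obtain ⟨c, hc⟩ := this
    omega
  have h4 : r + 1 < p := by
    have := hp.eq_two_or_odd; have := hr.eq_two_or_odd; omega
  have h5 : Fact (Nat.Prime 5) := ⟨by norm_num⟩
  have h7 : Fact (Nat.Prime 7) := ⟨by norm_num⟩
  obtain ⟨d, rfl⟩ := hp.odd_of_ne_two (by omega)
  obtain ⟨-, -, h1 | ⟨m, hm, h1⟩⟩ := H19.brauer_tuan (b := b) hc hq hpq (hG'.trans (mul_right_comm _ _ _)) h4
  · have h2 := H19.card_of_psl h3 h1
    rw [hG', mul_assoc, mul_left_comm, Nat.mul_right_inj hp.ne_zero,
      show (2 * d + 1) ^ 2 - 1 = 2 * (2 * (d * (d + 1))) from Nat.sub_eq_of_eq_add (by ring), Nat.mul_right_inj two_ne_zero] at h2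
    obtain ⟨a, ha⟩ := Nat.even_mul_succ_self d
    obtain rfl := key (a := a) (c := b) (by omega)
    obtain rfl : 3 = r := by
      have : 3 ∣ d * (d + 1) := by
        have := (Nat.dvd_prime hp (m := 3)).not.2 (by omega)
        rcases (by rcases (by omega : d % 3 = 0 ∨ d % 3 = 1 ∨ d % 3 = 2) with h | h | h <;> omega : 3 ∣ d ∨ 3 ∣ d + 1) with h | h
        exacts [h.mul_right _, h.mul_left _]
      exact (Nat.prime_dvd_prime_iff_eq Nat.prime_three hr).1 ((Nat.Coprime.pow_right b (by norm_num)).dvd_of_dvd_mul_right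
        (h2 ▸ this.mul_left 2))
    have h6 : ∀ u, ¬ 2 ∣ u → u ∣ d * (d + 1) → u ≤ 3 := fun u h1 h3 => Nat.le_of_dvd (by norm_num)
      (((Nat.prime_two.coprime_iff_not_dvd.2 h1).pow_left b).symm.dvd_of_dvd_mul_right (h2 ▸ h3.mul_left 2))
    have h8 : d = 2 ∨ d = 3 := by
      have := h6 d; have := h6 (d + 1); simp at *; omega
    rcases h8 with rfl | rfl
    · exact Or.inl ⟨ZMod 5, inferInstance, inferInstance, ZMod.card 5, h1⟩
    · exact Or.inr ⟨ZMod 7, inferInstance, inferInstance, ZMod.card 7, h1⟩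
  · obtain ⟨m, rfl⟩ : ∃ k, m = k + 2 := Nat.exists_eq_add_of_le' (by
      by_contra h; interval_cases m <;> omega)
    have h2 := H19.card_of_sl (by omega) h1
    obtain ⟨u, hu⟩ : ∃ u, 2 ^ (m + 2) = u + 1 := Nat.exists_eq_add_one_of_ne_zero (by positivity)
    rw [hG', show (2 ^ (m + 2)) ^ 2 - 1 = (2 * d + 1) * u from Nat.sub_eq_of_eq_add (by rw [hm, hu]; ring), mul_assoc,
      mul_left_comm (2 ^ _), Nat.mul_right_inj hp.ne_zero] at h2
    obtain rfl := key (a := 2 ^ m * u) (c := b) (by rw [h2]; ring)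
    have h6 : u ∣ r := ((Nat.prime_two.coprime_iff_not_dvd.2 (by omega : ¬ 2 ∣ u)).pow_left b).symm.dvd_of_dvd_mul_right
      (Dvd.intro_left _ h2.symm)
    have h8 := Nat.one_le_two_pow (n := m)
    obtain rfl : u = r := ((Nat.dvd_prime hr).1 h6).resolve_left (by omega)
    have h9 := (Nat.dvd_prime hp (m := 3)).not.2 (by omega)
    have h10 : ¬ 3 ∣ 2 ^ (m + 2) := fun h => absurd (Nat.prime_three.dvd_of_dvd_pow h) (by norm_num)
    obtain rfl : 3 = u := (Nat.prime_dvd_prime_iff_eq Nat.prime_three hr).1 (by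
      rcases (by omega : d % 3 = 0 ∨ d % 3 = 1 ∨ d % 3 = 2) with h | h | h <;> omega)
    refine Or.inl ⟨ZMod 5, inferInstance, inferInstance, ZMod.card 5,
      H19.psl2_of_simple_card (p := 5) (by norm_num) ?_ (ZMod.card 5)⟩
    rw [hG', mul_assoc, h2, hu]; omega

end Cfsg.Agent.S0998
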