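import Mathlib
import Cfsg.Statements.S1012
import Cfsg.Agent.H19.SylowCount

set_option autoImplicit false
open Cfsg

namespace Cfsg.Agent.S1012

/-- A group of order 24 containing no element of order 6 is isomorphic to the symmetric group of degree 4. -/
theorem result {G : Type*} [Group G] [Finite G] (h : Nat.card G = 24) (h6 : ∀ g : G, orderOf g ≠ 6) : Nonempty (G ≃* Equiv.Perm (Fin 4)) := by
  classical
  have : Fact (Nat.Prime 3) := ⟨Nat.prime_three⟩
  have hcomm : ∀ x y : G, orderOf x = 2 → orderOf y = 3 → x * y ≠ y * x := by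
    intro x y hx hy hxy
    apply h6 (x * y)
    rw [(show Commute x y from hxy).orderOf_mul_eq_mul_orderOf_of_coprime (by rw [hx, hy]; norm_num), hx, hy]
  obtain ⟨P⟩ : Nonempty (Sylow 3 G) := inferInstance
  have hP : Nat.card (P : Subgroup G) = 3 := by
    rw [P.card_eq_multiplicity, h]
    have : Nat.factorization 24 3 = 1 := by
      rw [show 24 = 3 * 8 by norm_num, Nat.factorization_mul (by norm_num) (by norm_num)]
      simp [Nat.prime_three.factorization_self, Nat.factorization_eq_zero_of_not_dvd]
    rw [this]; norm_num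
  obtain ⟨y, hy⟩ := exists_prime_orderOf_dvd_card' (G := (P : Subgroup G)) 3 hP.symm.dvd
  have hy' : orderOf (y : G) = 3 := by rw [Subgroup.orderOf_coe, hy]
  have hidx : (P : Subgroup G).index = 8 := by
    have := (P : Subgroup G).index_mul_card
    rw [hP, h] at this; omega
  have h1 := P.card_dvd_index
  have h2 := card_sylow_modEq_one 3 G
  rw [hidx] at h1
  have h3 := H19.card_sylow_mul_card_normalizer P
  have h4 : Nat.card (Sylow 3 G) = 4 := by
    have hle := Nat.le_of_dvd (by norm_num) h1
    have hne : Nat.card (Sylow 3 G) ≠ 1 := by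
      intro h1
      have h5 := H19.relIndex_centralizer_normalizer_dvd (P : Subgroup G)
      have h7 := h5.trans (H19.card_mulAut_dvd_factorial _)
      rw [hP] at h7
      have hN : Subgroup.normalizer ((P : Subgroup G) : Set G) = ⊤ := by
        rw [← Subgroup.card_eq_iff_eq_top]
        rw [h1, one_mul] at h3; exact h3
      rw [hN, Subgroup.relIndex_top_right] at h7
      have h8 := (Subgroup.centralizer ((P : Subgroup G) : Set G)).index_mul_card
      have h9 : 2 ∣ Nat.card (Subgroup.centralizer ((P : Subgroup G) : Set G)) := by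
        have h10 : (Subgroup.centralizer ((P : Subgroup G) : Set G)).index ∣ 2 := h7
        rw [h] at h8
        rcases (Nat.dvd_prime Nat.prime_two).mp h10 with h11 | h11 <;> rw [h11] at h8 <;> omega
      obtain ⟨x, hx⟩ := exists_prime_orderOf_dvd_card' 2 h9
      exact hcomm x y (by rw [Subgroup.orderOf_coe, hx]) hy' (x.2 y y.2).symm
    generalize Nat.card (Sylow 3 G) = m at *
    unfold Nat.ModEq at h2
    interval_cases m <;> simp_all
  have hN : Nat.card (Subgroup.normalizer (P : Set G)) = 6 := by rw [h4, h] at h3; omega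
  let f := MulAction.toPermHom G (Sylow 3 G)
  have hfN : ∀ Q : Sylow 3 G, f.ker ≤ Subgroup.normalizer (Q : Set G) := by
    intro Q x hx
    rw [← Sylow.smul_eq_iff_mem_normalizer]
    exact congrArg (fun σ : Equiv.Perm (Sylow 3 G) => σ Q) (MonoidHom.mem_ker.mp hx)
  have hk := Subgroup.card_dvd_of_le (hfN P)
  rw [hN] at hk
  have hk3 : ¬ 3 ∣ Nat.card f.ker := by
    intro h3
    obtain ⟨x, hx⟩ := exists_prime_orderOf_dvd_card' 3 h3
    have hx' : orderOf (x : G) = 3 := by rw [Subgroup.orderOf_coe, hx]
    have hall : ∀ Q : Sylow 3 G, (Q : Subgroup G) = Subgroup.zpowers (x : G) := by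
      intro Q
      have h1 := (H19.isPGroup_zpowers_of_orderOf hx').inf_normalizer_sylow Q
      have h2 : (x : G) ∈ Subgroup.zpowers (x : G) ⊓ Subgroup.normalizer (Q : Set G) :=
        ⟨Subgroup.mem_zpowers _, hfN Q x.2⟩
      rw [h1] at h2
      refine (H19.zpowers_eq_sylow ((H19.sylow_card_eq Q P).trans hP) h2.2 ?_).symm
      intro h; rw [h, orderOf_one] at hx'; omega
    have : Subsingleton (Sylow 3 G) := ⟨fun a b => Sylow.ext ((hall a).trans (hall b).symm)⟩
    have := Finite.card_le_one_iff_subsingleton.mpr this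
    omega
  have hk2 : Nat.card f.ker ≠ 2 := by
    intro h2
    obtain ⟨x, hx⟩ := exists_prime_orderOf_dvd_card' 2 h2.symm.dvd
    have hx' : orderOf (x : G) = 2 := by rw [Subgroup.orderOf_coe, hx]
    apply hcomm x y hx' hy'
    have hx1 : x ≠ 1 := by rintro rfl; rw [orderOf_one] at hx; omega
    obtain ⟨z, hz, hzu⟩ := (Nat.card_eq_two_iff' (1 : f.ker)).mp h2
    have h5 : (⟨y * x * y⁻¹, (MonoidHom.normal_ker f).conj_mem _ x.2 _⟩ : f.ker) ≠ 1 := by
      intro h5
      have : (y : G) * x * (y : G)⁻¹ = 1 := congrArg Subtype.val h5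
      rw [mul_inv_eq_one, mul_eq_left] at this
      exact hx1 (Subtype.ext this)
    have h7 : (y : G) * x * (y : G)⁻¹ = x := congrArg Subtype.val ((hzu _ h5).trans (hzu x hx1).symm)
    rw [mul_inv_eq_iff_eq_mul] at h7; exact h7.symm
  have hk1 : Nat.card f.ker = 1 := by
    have hle := Nat.le_of_dvd (by norm_num) hk
    generalize Nat.card f.ker = m at *
    interval_cases m <;> simp_all
  have hinj : Function.Injective f := by
    rw [← MonoidHom.ker_eq_bot_iff, ← Subgroup.card_eq_one, hk1]
  have hbij : Function.Bijective f := by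
    rw [Nat.bijective_iff_injective_and_card]
    refine ⟨hinj, ?_⟩
    rw [Nat.card_perm, h4, h]; rfl
  exact ⟨(MulEquiv.ofBijective f hbij).trans (Finite.equivFinOfCardEq h4).permCongrHom⟩

end Cfsg.Agent.S1012
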