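import Mathlib
import Cfsg.Statements.S1163
import Cfsg.Agent.H12.Sz4
import Cfsg.Agent.H12.Sz3

set_option autoImplicit false
open Cfsg

namespace Cfsg.Agent.S1163

open H12.Sz H12.CC

/-- For the Suzuki group Sz(q), q = 2^(2m+1) ≥ 8, realised as the elements g of Sp₄(F) with g* = g^θ (θ the 2^(m+1)-th power map, so that θ² is squaring): `|Sz(q)| = q² (q - 1) (q² + 1)`, and there is a Sylow 2-subgroup `S` whose normaliser `H` has order `q²(q-1)` and index `q² + 1`, the action of `Sz(q)` on the cosets of `H` is doubly transitive, and `S` acts regularly on the cosets other than `H` itself. -/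
theorem result {F : Type*} [Field F] [Fintype F] {m : ℕ} (hm : 1 ≤ m) (hF : Fintype.card F = 2 ^ (2 * m + 1)) :
    Nat.card ↥(Cfsg.Lie.Sz F (2 ^ (m + 1))) = (2 ^ (2 * m + 1)) ^ 2 * (2 ^ (2 * m + 1) - 1) * ((2 ^ (2 * m + 1)) ^ 2 + 1) ∧
    ∃ S : Sylow 2 ↥(Cfsg.Lie.Sz F (2 ^ (m + 1))),
      Nat.card (Subgroup.normalizer ((S : Subgroup ↥(Cfsg.Lie.Sz F (2 ^ (m + 1)))) : Set ↥(Cfsg.Lie.Sz F (2 ^ (m + 1))))) = (2 ^ (2 * m + 1)) ^ 2 * (2 ^ (2 * m + 1) - 1) ∧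
      (Subgroup.normalizer ((S : Subgroup ↥(Cfsg.Lie.Sz F (2 ^ (m + 1)))) : Set ↥(Cfsg.Lie.Sz F (2 ^ (m + 1))))).index = (2 ^ (2 * m + 1)) ^ 2 + 1 ∧
      MulAction.IsMultiplyPretransitive ↥(Cfsg.Lie.Sz F (2 ^ (m + 1))) (↥(Cfsg.Lie.Sz F (2 ^ (m + 1))) ⧸ Subgroup.normalizer ((S : Subgroup ↥(Cfsg.Lie.Sz F (2 ^ (m + 1)))) : Set ↥(Cfsg.Lie.Sz F (2 ^ (m + 1))))) 2 ∧
      ∀ x y : ↥(Cfsg.Lie.Sz F (2 ^ (m + 1))) ⧸ Subgroup.normalizer ((S : Subgroup ↥(Cfsg.Lie.Sz F (2 ^ (m + 1)))) : Set ↥(Cfsg.Lie.Sz F (2 ^ (m + 1)))),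
        x ≠ (QuotientGroup.mk 1) → y ≠ (QuotientGroup.mk 1) → ∃! s : ↥(S : Subgroup ↥(Cfsg.Lie.Sz F (2 ^ (m + 1)))), (s : ↥(Cfsg.Lie.Sz F (2 ^ (m + 1)))) • x = y := by
  haveI : SzF F m := ⟨hm, hF⟩
  let e := lieEquiv (F := F)
  let S := (sylowU F m).mapSurjective (f := e.toMonoidHom) e.surjective
  have hN : Subgroup.normalizer ((S : Subgroup (Cfsg.Lie.Sz F (2 ^ (m + 1)))) : Set (Cfsg.Lie.Sz F (2 ^ (m + 1)))) =
      (B F m).map e.toMonoidHom := by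
    rw [← normalizer_U, Subgroup.map_equiv_normalizer_eq]
    rfl
  have hq : ∀ a b : G F m, ((e a : Cfsg.Lie.Sz F (2 ^ (m + 1))) : _ ⧸ (B F m).map e.toMonoidHom) = e b ↔
      a • (inf : Ov F m) = b • inf := fun a b => by
    rw [QuotientGroup.eq, ← map_inv, ← map_mul, show e (a⁻¹ * b) = e.toMonoidHom (a⁻¹ * b) from rfl,
      Subgroup.mem_map_iff_mem e.injective, mem_B, mul_smul, inv_smul_eq_iff, eq_comm]
  have hs : ∀ x : _ ⧸ (B F m).map e.toMonoidHom, ∃ a, x = (e a : Cfsg.Lie.Sz F (2 ^ (m + 1))) := by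
    rintro ⟨x⟩
    obtain ⟨a, rfl⟩ := e.surjective x
    exact ⟨a, rfl⟩
  have hm' : ∀ a b : G F m, e a • ((e b : Cfsg.Lie.Sz F (2 ^ (m + 1))) : _ ⧸ (B F m).map e.toMonoidHom) = e (a * b) :=
    fun a b => by rw [map_mul]; rfl
  refine ⟨by rw [← Nat.card_congr e.toEquiv, card_G, hF]; ring, S, ?_⟩
  rw [hN]
  refine ⟨by rw [Subgroup.card_map_of_injective e.injective, card_B, hF],
    by rw [Subgroup.index_map_of_bijective e.bijective, index_B, hF], ?_, fun x y hx hy => ?_⟩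
  · rw [MulAction.is_two_pretransitive_iff]
    intro a b c d h1 h2
    obtain ⟨a, rfl⟩ := hs a
    obtain ⟨b, rfl⟩ := hs b
    obtain ⟨c, rfl⟩ := hs c
    obtain ⟨d, rfl⟩ := hs d
    obtain ⟨g, g1, g2⟩ := exists_two ((hq _ _).not.1 h1)
    obtain ⟨h, k1, k2⟩ := exists_two ((hq _ _).not.1 h2)
    exact ⟨e (h * g⁻¹), by rw [hm', hq]; simp [mul_smul, ← g1, k1], by rw [hm', hq]; simp [mul_smul, ← g2, k2]⟩
  · obtain ⟨x, rfl⟩ := hs x
    obtain ⟨y, rfl⟩ := hs y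
    rw [← map_one e, Ne, hq, one_smul] at hx hy
    obtain ⟨a, b, h1⟩ := (ov_cases _).resolve_left hx
    obtain ⟨c, d, h2⟩ := (ov_cases _).resolve_left hy
    have h3 : (uu a b : G F m)⁻¹ • (pt a b : Ov F m) = pt 0 0 := by rw [inv_smul_eq_iff]; simp
    refine ⟨⟨e (uu c d * (uu a b)⁻¹), _, mul_mem (uu_mem_U _ _) (inv_mem (uu_mem_U _ _)), rfl⟩, ?_, ?_⟩
    · simp only
      rw [hm', hq]
      simp [mul_smul, h1, h2, h3]
    · rintro ⟨_, u, hu, rfl⟩ h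
      apply Subtype.ext
      change e u = e _
      congr 1
      have h4 : u • (pt a b : Ov F m) = pt c d := by
        rw [← h1, ← h2, ← mul_smul, ← hq, ← hm']
        exact h
      by_contra hne
      refine pt_ne_inf a b (fix_U (u := (uu c d * (uu a b)⁻¹)⁻¹ * u) (mul_mem (inv_mem (mul_mem (uu_mem_U _ _)
        (inv_mem (uu_mem_U _ _)))) hu) (fun h => hne (inv_mul_eq_one.1 h).symm) ?_)
      rw [mul_smul, h4, inv_smul_eq_iff]
      simp [mul_smul, h3]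

end Cfsg.Agent.S1163
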