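import Mathlib
import Cfsg.Statements.S1313
import Cfsg.Agent.H22.FStar

set_option autoImplicit false
open Cfsg

namespace Cfsg.Agent.S1313

/-- For a finite group H, |H| ≤ |F*(H)|!. -/
theorem result {H : Type*} [Group H] [Finite H] : Nat.card H ≤ Nat.factorial (Nat.card ↥(Cfsg.generalizedFittingSubgroup H)) := by
  classical
  have := H22.fstar_normal (G := H)
  set F := Cfsg.generalizedFittingSubgroup H with hF
  have h1 : Nat.card F * Nat.card (MulAut F) ≤ Nat.factorial (Nat.card F) := by
    have : Finite (MulAut F) := Finite.of_injective _ MulEquiv.toEquiv_injective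
    let f : F × MulAut F → Equiv.Perm F := fun x => x.2.toEquiv.trans (Equiv.mulLeft x.1)
    have hf : Function.Injective f := by
      rintro ⟨a, φ⟩ ⟨b, ψ⟩ h
      have h0 : ∀ x, a * φ x = b * ψ x := fun x => congrArg (fun e : Equiv.Perm F => e x) h
      have hab : a = b := by simpa using h0 1
      subst hab
      refine Prod.ext rfl (MulEquiv.ext fun x => mul_left_cancel (h0 x))
    have := Nat.card_le_card_of_injective f hf
    rwa [Nat.card_prod, Nat.card_perm] at this
  have h2 : Nat.card H ≤ Nat.card F * Nat.card (MulAut F) := by
    have : Finite (MulAut F) := Finite.of_injective _ MulEquiv.toEquiv_injective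
    let φ : H →* MulAut F := MulAut.conjNormal
    have hk : φ.ker ≤ F := by
      refine le_trans ?_ H22.centralizer_fstar_le
      intro x hx y hy
      have := congrArg (fun e : MulAut F => ((e ⟨y, hy⟩ : F) : H)) (MonoidHom.mem_ker.mp hx)
      simp only [φ, MulAut.conjNormal_apply, MulAut.one_apply] at this
      rw [mul_inv_eq_iff_eq_mul] at this
      exact this.symm
    rw [← φ.ker.card_mul_index, Subgroup.index_ker]
    exact Nat.mul_le_mul (Subgroup.card_le_of_le hk) (Subgroup.card_le_card_group _)
  exact h2.trans h1

end Cfsg.Agent.S1313
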