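import Mathlib
import Cfsg.Statements.S1324
import Cfsg.Agent.H01.Generation

set_option autoImplicit false
open Cfsg

namespace Cfsg.Agent.S1324

/-- Let A be a noncyclic elementary abelian p-subgroup of a finite group H normalizing a subgroup X of order prime to p. Then X is generated by the subgroups X ∩ C_H(B), B ranging over the subgroups of A of index at most p. -/
theorem result {H : Type*} [Group H] [Finite H] (p : ℕ) [Fact p.Prime] (A X : Subgroup H) (hA : Cfsg.IsElementaryAbelian p A) (hA2 : p ^ 2 ≤ Nat.card ↥A) (hX : ¬ p ∣ Nat.card ↥X) (hAX : A ≤ Subgroup.normalizer (X : Set H)) : X = ⨆ B : {B : Subgroup H // B ≤ A ∧ B.relIndex A ≤ p}, X ⊓ Subgroup.centralizer ((B : Subgroup H) : Set H) := by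
    have hp : p.Prime := Fact.out
    have := hA.1
    have hAp : IsPGroup p A := fun a => ⟨1, by rw [pow_one]; exact Subtype.ext (hA.2 a a.2)⟩
    have hcop : (Nat.card A).Coprime (Nat.card X) :=
      (H01.coprime_card_of_isPGroup hAp ((Nat.Prime.coprime_iff_not_dvd hp).mpr hX).symm).symm
    refine le_antisymm (H01.le_of_cocyclic_centralizer_le hAX hcop fun B hB hBa => ?_)
      (iSup_le fun _ => inf_le_left)
    obtain ⟨a, ha, hBa⟩ := hBa
    have h1 : B.relIndex (Subgroup.zpowers a ⊔ B) ∣ Nat.card (Subgroup.zpowers a) :=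
      H01.relIndex_sup_dvd_card ((Subgroup.zpowers_le.mpr ha).trans
        (H01.le_normalizer_of_isMulCommutative hB))
    rw [sup_comm, hBa, Nat.card_zpowers] at h1
    exact le_iSup (fun B : {B : Subgroup H // B ≤ A ∧ B.relIndex A ≤ p} =>
      X ⊓ Subgroup.centralizer ((B : Subgroup H) : Set H)) ⟨B, hB,
        Nat.le_of_dvd hp.pos (h1.trans (orderOf_dvd_of_pow_eq_one (hA.2 a ha)))⟩

end Cfsg.Agent.S1324
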