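import Mathlib
import Cfsg.Statements.S5560
import Cfsg.Agent.H08.IsoElt
import Cfsg.Agent.H27.ClassSize

set_option autoImplicit false
open Cfsg

namespace Cfsg.Agent.S5560

/-- A Z*-type result for an odd prime p. Let G be a finite group and d an involution of G such that the product of any two conjugates of d has order a power of p. Then the product of any two conjugates of d lies in the largest normal p-subgroup O_p(G); in other words the conjugacy class of d lies in the coset O_p(G)d, and d is central modulo O_p(G). -/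
theorem result {G : Type*} [Group G] [Finite G] {p : ℕ} (hp : p.Prime) (hp2 : p ≠ 2)
    (d : G) (hd : orderOf d = 2)
    (hprod : ∀ a ∈ conjugatesOf d, ∀ b ∈ conjugatesOf d, ∃ k : ℕ, orderOf (a * b) = p ^ k) :
    ∀ a ∈ conjugatesOf d, ∀ b ∈ conjugatesOf d, a * b ∈ Cfsg.pCore p G := by
  haveI := Fact.mk hp
  have hodd : ∀ a ∈ conjugatesOf d, ∀ b ∈ conjugatesOf d, Odd (orderOf (a * b)) := fun a ha b hb => by
    obtain ⟨k, hk⟩ := hprod a ha b hb
    rw [hk]; exact (hp.odd_of_ne_two hp2).pow
  have hiso : IsIsolatedInvolution d := (H08.isIsolated_iff_odd hd).2 fun g =>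
    hodd _ (IsConj.refl d) _ (H08.isConj_conj g d)
  have hp2' := H08.isPGroup_zpowers_of_orderOf hd
  have hZ : InZStar 2 d := H08.zstar_elt hiso.2 hp2'
  have hdd := H08.mul_self_of_orderOf hd
  have hdi := H08.inv_eq_of_orderOf hd
  -- `C(d)` has `p`-power index
  have hind : ∀ q : ℕ, q.Prime → q ∣ (Subgroup.centralizer ({d} : Set G)).index → q = p := by
    intro q hq hqd
    by_contra hqp
    haveI := Fact.mk hq
    obtain ⟨T, hT⟩ := H08.InZ.exists_sylow hZ hp2' q
    refine H03.not_dvd_index_of_le T (fun t ht => ?_) hqd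
    rw [H08.mem_centralizer_singleton', ← mul_inv_eq_one]
    obtain ⟨k, hk⟩ := hprod _ (H08.isConj_conj t d) _ (IsConj.refl d)
    refine H03.eq_one_of_mem_isPGroup_of_coprime T.2 ?_ ?_
    · simpa [mul_assoc] using mul_mem ht (H03.conj_mem_of_mem_normalizer hT (inv_mem ht))
    · rw [hdi, hk]
      exact Nat.Coprime.pow_left _ ((Nat.coprime_primes hp hq).2 (Ne.symm hqp))
  obtain ⟨P, hP⟩ := H08.InZ.exists_sylow hZ hp2' p
  have hfac : ∀ g : G, ∃ y ∈ (P : Subgroup G), g * d * g⁻¹ = y * d * y⁻¹ := by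
    intro g
    have hcop : (Subgroup.centralizer ({d} : Set G)).index.Coprime (P : Subgroup G).index := by
      rw [Nat.coprime_iff_gcd_eq_one]
      by_contra h
      obtain ⟨q, hq, hqd⟩ := Nat.exists_prime_and_dvd h
      have := hind q hq (hqd.trans (Nat.gcd_dvd_left _ _))
      subst this
      exact P.not_dvd_index (hqd.trans (Nat.gcd_dvd_right _ _))
    obtain ⟨y, hy, c, hc, rfl⟩ := H27.exists_mul_of_coprime_index hcop.symm g
    refine ⟨y, hy, ?_⟩
    calc y * c * d * (y * c)⁻¹ = y * (c * d * c⁻¹) * y⁻¹ := by group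
      _ = _ := by rw [H08.mem_centralizer_singleton'.1 hc]
  have hmem : ∀ a ∈ conjugatesOf d, ∀ b ∈ conjugatesOf d, a * b ∈ (P : Subgroup G) := by
    intro a ha b hb
    obtain ⟨g, rfl⟩ := isConj_iff.1 ha
    obtain ⟨h, rfl⟩ := isConj_iff.1 hb
    obtain ⟨y, hy, e1⟩ := hfac g
    obtain ⟨w, hw, e2⟩ := hfac h
    rw [e1, e2]
    have := mul_mem (mul_mem hy (H03.conj_mem_of_mem_normalizer hP (mul_mem (inv_mem hy) hw))) (inv_mem hw)
    simpa [mul_assoc, hdi] using this
  intro a ha b hb
  refine H02.le_pCore (N := (P : Subgroup G).normalCore) (P.2.to_le (Subgroup.normalCore_le _)) fun g => ?_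
  have := hmem _ (IsConj.trans ha (H08.isConj_conj g a)) _ (IsConj.trans hb (H08.isConj_conj g b))
  simpa [mul_assoc] using this

end Cfsg.Agent.S5560
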