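import Mathlib
import Cfsg.Statements.S1618
import Cfsg.Agent.S5560
import Cfsg.Agent.H02.PCore
import Cfsg.Agent.H29.Structure

set_option autoImplicit false
open Cfsg

namespace Cfsg.Agent.S1618

/-- A group generated by a class of involutions whose pairwise products (of distinct members) have p-power order for a fixed odd prime p has nilpotent derived subgroup. -/
theorem result {G : Type*} [Group G] [Finite G] (p : ℕ) (hp : p.Prime) (hodd : p ≠ 2) {D : Set G} (hinv : ∀ d ∈ D, orderOf d = 2) (hconj : ∃ d ∈ D, D = conjugatesOf d) (hgen : Subgroup.closure D = ⊤) (hprod : ∀ x ∈ D, ∀ y ∈ D, x ≠ y → ∃ k : ℕ, orderOf (x * y) = p ^ k) : Group.IsNilpotent ↥(commutator G) := by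
  have := Fact.mk hp
  obtain ⟨d, hd, rfl⟩ := hconj
  have h := Cfsg.Agent.S5560.result hp hodd d (hinv d hd) fun a ha b hb => by
    by_cases e : a = b
    · exact ⟨0, by rw [e, ← sq, ← hinv b hb, pow_orderOf_eq_one, orderOf_one, pow_zero]⟩
    exact hprod a ha b hb e
  have le : commutator G ≤ pCore p G := by
    have k : ∀ g : G, (g : G ⧸ pCore p G) ∈ Subgroup.zpowers (d : G ⧸ pCore p G) := fun g =>
      (Subgroup.closure_le ((Subgroup.zpowers _).comap (QuotientGroup.mk' (pCore p G)))).2 (fun a ha => by
        have := (QuotientGroup.eq_one_iff _).2 (h a ha d hd)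
        change (a : G ⧸ pCore p G) ∈ Subgroup.zpowers _
        rw [show (a : G ⧸ pCore p G) = (d : G ⧸ pCore p G)⁻¹ from eq_inv_of_mul_eq_one_left this]
        exact inv_mem (Subgroup.mem_zpowers _)) (hgen ▸ Subgroup.mem_top g)
    refine Subgroup.commutator_le.2 fun g _ g' _ => (QuotientGroup.eq_one_iff _).1 ?_
    obtain ⟨i, hi⟩ := k g
    obtain ⟨j, hj⟩ := k g'
    exact (map_commutatorElement (QuotientGroup.mk' _) g g').trans (commutatorElement_eq_one_iff_commute.2
      (by simp only [QuotientGroup.mk'_apply, ← hi, ← hj]; exact Commute.zpow_zpow_self _ _ _))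
  exact ((H02.pCore_isPGroup p G).to_le le).isNilpotent

end Cfsg.Agent.S1618
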