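import Cfsg.Statements.S1620
import Cfsg.Agent.H15.J2
-- import your own Cfsg.Agent.* helpers here

set_option autoImplicit false
open Quaternion
open Cfsg

namespace Cfsg.Agent.S1620

/-- The Hall–Janko group is simple and non-abelian. -/
theorem result : IsSimpleGroup Cfsg.Spor.J2 ∧ ∃ a b : Cfsg.Spor.J2, a * b ≠ b * a := by
  refine ⟨H15.J2.simple, ?_⟩
  by_contra h
  push Not at h
  have c := H15.J2.cov.cbot
  have := H15.J2.cov.simple
  refine bot_ne_top (c.symm.trans (eq_top_iff.2 fun x _ => Subgroup.mem_center_iff.2 fun y => ?_))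
  exact H15.J2.eqq.injective (by rw [map_mul, map_mul, h])

end Cfsg.Agent.S1620
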