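import Cfsg.Statements.S1892
import Cfsg.Agent.H24.PSolv
import Cfsg.Agent.H26.Misc
-- import your own Cfsg.Agent.* helpers here

set_option autoImplicit false
open Cfsg

namespace Cfsg.Agent.S1892

/-- Let S be a finite p-solvable group with no nontrivial normal subgroup of order prime to p, A a p-subgroup of S, and Q a nontrivial A-invariant subgroup of order prime to p with [A, Q] = Q. Then the commutator [O_p(S), A, Q] is nontrivial. -/
theorem result {S : Type*} [Group S] [Finite S] {p : ℕ} [Fact p.Prime]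
    (hS : Cfsg.IsPSolvable p S) (hred : Cfsg.pPrimeCore p S = ⊥)
    (A Q : Subgroup S) (hA : IsPGroup p A) (hQ : ¬ p ∣ Nat.card Q) (hQ1 : Q ≠ ⊥)
    (hinv : ∀ a ∈ A, ∀ x ∈ Q, a * x * a⁻¹ ∈ Q) (hAQ : ⁅A, Q⁆ = Q) :
    ⁅⁅Cfsg.pCore p S, A⁆, Q⁆ ≠ ⊥ := by
  open BG in
  have hp : p.Prime := Fact.out
  intro h
  set K := pCore p S
  have hAQ' : A ≤ N_(Q) := H01.le_normalizer_of_conj_mem hinv
  have h1 : ⁅K, A⁆ ≤ K ⊓ C_(Q) := le_inf (Subgroup.commutator_le_left _ _)
    (Subgroup.commutator_eq_bot_iff_le_centralizer.1 h)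
  have hn : ∀ X : Subgroup S, X ≤ N_(Q) → X ≤ N_(K ⊓ C_(Q)) := fun X hX =>
    H01.le_normalizer_inf Subgroup.le_normalizer_of_normal (H01.le_normalizer_centralizer hX)
  have h2 : A ≤ H26.commKer K (K ⊓ C_(Q)) :=
    H26.le_commKer_iff.2 ⟨hn A hAQ', by rwa [Subgroup.commutator_comm]⟩
  have h3 : Q ≤ N_(H26.commKer K (K ⊓ C_(Q))) :=
    H26.le_normalizer_commKer Subgroup.le_normalizer_of_normal (hn Q Subgroup.le_normalizer)
  have h4 : Q ≤ H26.commKer K (K ⊓ C_(Q)) := by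
    rw [← hAQ]
    refine (Subgroup.commutator_mono h2 le_rfl).trans ?_
    rw [hAQ]
    exact H01.commutator_le_left_of_le_normalizer h3
  have h5 := (H26.le_commKer_iff.1 h4).2
  obtain ⟨k, hk⟩ := IsPGroup.iff_card.1 (H02.pCore_isPGroup p S)
  have hc : (Nat.card Q).Coprime (Nat.card K) :=
    hk ▸ Nat.Coprime.pow_right _ ((Nat.Prime.coprime_iff_not_dvd hp).2 hQ).symm
  have h6 : Q ≤ C_(K) := H01.le_centralizer_of_commutator_le (N := K ⊓ C_(Q))
    (hc.coprime_dvd_right (Subgroup.card_dvd_of_le inf_le_left)) (by rwa [Subgroup.commutator_comm])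
    (Subgroup.le_centralizer_iff.1 inf_le_right)
  have h7 := h6.trans (H24.PS.centralizer_pCore_le hS hred)
  exact hQ1 ((inf_eq_left.2 h7).symm.trans (inf_eq_bot_of_coprime hc))

end Cfsg.Agent.S1892
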