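import Mathlib
import Cfsg.Statements.S1893
import Cfsg.Agent.H01.PSep
import Cfsg.Agent.H02.PiCore
import Cfsg.Agent.H01.Hall
import Cfsg.Agent.H17.Stable
import Cfsg.Agent.H02.MinNormal
import Cfsg.Agent.H01.Coprime2

set_option autoImplicit false
open Cfsg

namespace Cfsg.Agent.S1893

open Subgroup
open scoped commutatorElement

variable {G : Type*} [Group G] [Finite G]

theorem exy {p : ℕ} [Fact p.Prime] {T W : Subgroup G} (hT : IsPGroup p T) :
    ∀ (n : ℕ) (U : Subgroup G), Nat.card U ≤ n → U ≤ T → T ≤ normalizer (U : Set G) → ¬ U ≤ W →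
      ∃ y ∈ U, y ∉ W ∧ ∀ t ∈ T, ⁅y, t⁆ ∈ W := by
  intro n
  induction n with
  | zero => intro U h; have : 0 < Nat.card U := Nat.card_pos; omega
  | succ n ih =>
    intro U hc hUT hTU hUW
    by_cases h : ⁅U, T⁆ ≤ W
    · obtain ⟨y, hy, hyW⟩ := Set.not_subset.1 hUW
      exact ⟨y, hy, hyW, fun t ht => h (commutator_mem_commutator hy ht)⟩
    · have hlt := H01.commutator_lt_of_isPGroup hT (hT.to_le hUT) hTU (by
        rintro rfl; exact hUW bot_le)
      have := H01.card_lt_of_lt hlt
      obtain ⟨y, hy, h2⟩ := ih ⁅U, T⁆ (by omega) (hlt.le.trans hUT)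
        (H01.right_le_normalizer_commutator U T) h
      exact ⟨y, hlt.le hy, h2⟩

theorem fit_split {p : ℕ} (hp : p.Prime) (F : Subgroup G) [Group.IsNilpotent F] :
    F = pCoreOf p F ⊔ H02.pPrimeCoreOf p F := by
  have := congrArg (Subgroup.map F.subtype) (H02.pCore_sup_pPrimeCore_eq_top (G := F) hp)
  rw [Subgroup.map_sup, ← MonoidHom.range_eq_map, range_subtype] at this
  exact this.symm

theorem mem_pp {p : ℕ} (F : Subgroup G) [Group.IsNilpotent F] {y : G} (hy : y ∈ F)
    (hc : (orderOf y).Coprime p) : y ∈ H02.pPrimeCoreOf p F := by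
  refine ⟨⟨y, hy⟩, H02.le_pPrimeCore_of_isNilpotent (P := zpowers (⟨y, hy⟩ : F)) ?_ (mem_zpowers _), rfl⟩
  rwa [Nat.card_zpowers, orderOf_mk]

theorem quadQ [Group.IsSolvable G] {p : ℕ} [hp : Fact p.Prime] (h5 : 5 ≤ p) {X : Subgroup G}
    (hX : IsPGroup p X)
    (hc : X ≤ centralizer (H02.pPrimeCoreOf p (fittingSubgroup G) : Set G))
    (hq : ⁅⁅pCore p G, X⁆, X⁆ = ⊥) : X ≤ pCore p G := by
  have hst : H17.WeaklyStable p G := H17.weaklyStable_of_not_sec (by omega)
    (H01.not_sec_sl2_of_psol h5 (H01.psol_of_sol inferInstance))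
  have h1 := hst _ (H02.pCore_isPGroup p G) X hX hq
  set R := H02.pPrimeCoreOf p (fittingSubgroup G) with hR
  set D := H17.opMod p (centralizer (pCore p G : Set G)) ⊓ centralizer (R : Set G) with hD
  have hcen : ∀ y ∈ D, (orderOf y).Coprime p → y ∈ R := by
    intro y hy hyc
    have h2 := H17.mem_of_coprime_of_mem_opMod hy.1 hyc
    refine mem_pp _ (H02.centralizer_fitting_le G ?_) hyc
    have h3 : fittingSubgroup G ≤ centralizer {y} := by
      rw [fit_split hp.out (fittingSubgroup G), H02.pCoreOf_fitting hp.out]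
      exact sup_le (fun z hz => mem_centralizer_singleton_iff.2 (h2 z hz))
        (fun z hz => mem_centralizer_singleton_iff.2 (hy.2 z hz))
    exact fun z hz => mem_centralizer_singleton_iff.1 (h3 hz)
  have hpg : IsPGroup p (D ⧸ center D) := by
    intro q
    obtain ⟨y, rfl⟩ := QuotientGroup.mk_surjective q
    obtain ⟨k, m, hm, hk⟩ := Nat.exists_eq_pow_mul_and_not_dvd (orderOf_pos y).ne' p hp.out.ne_one
    refine ⟨k, ?_⟩
    rw [← QuotientGroup.mk_pow, QuotientGroup.eq_one_iff, mem_center_iff]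
    intro g
    have h2 : ((y ^ p ^ k : D) : G) ∈ R := hcen _ (y ^ p ^ k).2 (by
      rw [orderOf_coe]
      have : orderOf (y ^ p ^ k) ∣ m := orderOf_dvd_of_pow_eq_one (by
        rw [← pow_mul, ← hk, pow_orderOf_eq_one])
      exact Nat.Coprime.coprime_dvd_left this ((Nat.Prime.coprime_iff_not_dvd hp.out).2 hm).symm)
    exact Subtype.ext (g.2.2 _ h2).symm
  haveI := hpg.isNilpotent
  have hn : Group.IsNilpotent D := Group.of_quotient_center_nilpotent inferInstance
  exact H02.le_pCore_of_le_fitting hp.out hX ((le_inf h1 hc).trans (H02.le_fitting hn))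

theorem comm_nil {N : Subgroup G} [Group.IsNilpotent N] {x y : G} (hx : x ∈ N) (hy : y ∈ N)
    (h : (orderOf x).Coprime (orderOf y)) : x * y = y * x :=
  congrArg Subtype.val (H02.commute_of_coprime_of_isNilpotent (x := (⟨x, hx⟩ : N)) (y := ⟨y, hy⟩)
    (by rwa [orderOf_mk, orderOf_mk])).eq

theorem ord_pp {p : ℕ} {F : Subgroup G} {y : G} (hy : y ∈ H02.pPrimeCoreOf p F) :
    (orderOf y).Coprime p :=
  Nat.Coprime.coprime_dvd_left (orderOf_dvd_natCard _ hy) (H02.pPrimeCoreOf_coprime F)

theorem ord_p {p : ℕ} {X : Subgroup G} (hX : IsPGroup p X) {x : G} (hx : x ∈ X) {n : ℕ}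
    (hn : n.Coprime p) : (orderOf x).Coprime n :=
  Nat.Coprime.coprime_dvd_left (orderOf_dvd_natCard _ hx) (H02.coprime_card_of_isPGroup hX hn)

theorem core [Group.IsSolvable G] {N A : Subgroup G} [Group.IsNilpotent N]
    (hF : fittingSubgroup G ≤ N) (hAN : A ≤ N) (hNA : N ≤ normalizer (A : Set G))
    (hCA : N ⊓ centralizer (A : Set G) = A) (h5 : ∀ p : ℕ, p.Prime → p ∣ Nat.card N → 5 ≤ p) :
    centralizer (A : Set G) ≤ A := by
  have hAc : A ≤ centralizer (A : Set G) := by
    conv_lhs => rw [← hCA]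
    exact inf_le_right
  haveI : Group.IsNilpotent A := H02.isNilpotent_of_le hAN
  have h5' : ∀ {p : ℕ} [Fact p.Prime] {X : Subgroup G}, IsPGroup p X → X ≤ N → X = ⊥ ∨ 5 ≤ p := by
    intro p hp X hX hXN
    obtain ⟨k, hk⟩ := hX.exists_card_eq
    rcases k with _ | k
    · left; exact eq_bot_of_card_eq _ (by simpa using hk)
    · right
      exact h5 p hp.out ((hk ▸ dvd_pow_self p k.succ_ne_zero).trans (card_dvd_of_le hXN))
  have hO : ∀ p : ℕ, p.Prime → pCore p G ≤ N := fun p hp => by
    haveI := Fact.mk hp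
    exact H02.pCore_le_fitting.trans hF
  have hRN : ∀ p, H02.pPrimeCoreOf p (fittingSubgroup G) ≤ N := fun p =>
    (H02.pPrimeCoreOf_le _).trans hF
  -- step 1
  have s1 : ∀ p : ℕ, p.Prime → pCoreOf p A ≤ pCore p G := by
    intro p hp
    haveI := Fact.mk hp
    have hX := H02.pCoreOf_isPGroup (p := p) A
    have hXA := H02.pCoreOf_le (p := p) A
    rcases h5' hX (hXA.trans hAN) with h | h
    · rw [h]; exact bot_le
    refine quadQ h hX (fun x hx r hr => ?_) ?_
    · exact (comm_nil (hAN (hXA hx)) (hRN p hr) (ord_p hX hx (ord_pp hr))).symm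
    · rw [commutator_eq_bot_iff_le_centralizer]
      refine le_trans ?_ (hAc.trans (centralizer_le hXA))
      rw [commutator_comm]
      exact (commutator_mono hXA le_rfl).trans
        (H01.commutator_le_left_of_le_normalizer ((hO p hp).trans hNA))
  -- step 2
  have s2 : ∀ p : ℕ, p.Prime → ∀ x ∈ centralizer (A : Set G), (orderOf x).Coprime p →
      x ∈ centralizer (pCore p G : Set G) := by
    intro p hp x hx hc
    haveI := Fact.mk hp
    have := H01.le_centralizer_of_self_centralizing_fixed (H := pCore p G) (A := zpowers x)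
      (H02.pCore_isPGroup p G).isNilpotent (H01.le_normalizer_of_normal _ _)
      (by rw [Nat.card_zpowers]; exact H01.coprime_card_of_isPGroup (H02.pCore_isPGroup p G) hc)
      (C := A ⊓ pCore p G) inf_le_right
      (fun a ha y hy => by
        have : zpowers x ≤ centralizer (A : Set G) := zpowers_le.2 hx
        exact (this hy a ha.1).symm)
      (fun y hy => by
        suffices hyA : y ∈ A from fun z hz => by
          have : zpowers x ≤ centralizer (A : Set G) := zpowers_le.2 hx
          exact (this hz y hyA).symm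
        rw [← hCA]
        refine ⟨hO p hp hy.1, ?_⟩
        have h3 : A ≤ centralizer {y} := by
          rw [fit_split hp A]
          refine sup_le (fun z hz => mem_centralizer_singleton_iff.2
            (hy.2 z ⟨H02.pCoreOf_le _ hz, s1 p hp hz⟩)) (fun z hz => mem_centralizer_singleton_iff.2 ?_)
          exact (comm_nil (hO p hp hy.1) (hAN (H02.pPrimeCoreOf_le _ hz))
            (ord_p (H02.pCore_isPGroup p G) hy.1 (ord_pp hz))).symm
        exact fun z hz => mem_centralizer_singleton_iff.1 (h3 hz))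
    exact this (mem_zpowers x)
  have s2' : ∀ p : ℕ, p.Prime → ∀ X : Subgroup G, IsPGroup p X → X ≤ centralizer (A : Set G) →
      X ≤ centralizer (H02.pPrimeCoreOf p (fittingSubgroup G) : Set G) := by
    intro p hp X hX hXc x hx
    set R := H02.pPrimeCoreOf p (fittingSubgroup G) with hR
    haveI : Group.IsNilpotent R := H02.isNilpotent_of_le (H02.pPrimeCoreOf_le _)
    have h1 : (centralizer {x}).subgroupOf R = ⊤ := by
      refine H02.eq_top_of_forall_sylow_le fun q hq => ?_
      obtain ⟨Q⟩ : Nonempty (Sylow q R) := inferInstance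
      refine ⟨Q, fun y hy => ?_⟩
      rw [mem_subgroupOf, mem_centralizer_singleton_iff]
      have hQ : IsPGroup q ((Q : Subgroup R).map R.subtype) := Q.isPGroup'.map _
      have hyQ : (y : G) ∈ (Q : Subgroup R).map R.subtype := ⟨y, hy, rfl⟩
      by_cases hqp : q = p
      · subst hqp
        have := ord_p hQ hyQ (ord_pp y.2)
        rw [Nat.coprime_self, orderOf_eq_one_iff] at this
        rw [this, one_mul, mul_one]
      · have h2 := H02.le_pCore_of_le_fitting hq.out hQ
          ((map_subtype_le _).trans (H02.pPrimeCoreOf_le _)) hyQ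
        exact s2 q hq.out x (hXc hx) (ord_p hX hx ((Nat.coprime_primes hq.out hp).2 hqp)) y h2
    intro r hr
    have : (⟨r, hr⟩ : R) ∈ (centralizer {x}).subgroupOf R := h1 ▸ mem_top _
    exact mem_centralizer_singleton_iff.1 this
  have s3 : ∀ p : ℕ, p.Prime → ∀ P : Subgroup G, IsPGroup p P → P ≤ centralizer (A : Set G) → P ≤ A := by
    intro p hp P hP hPc
    haveI := Fact.mk hp
    rcases h5' (H02.pCore_isPGroup p G) (hO p hp) with h | h
    · have h1 : P ≤ fittingSubgroup G := by
        refine (s2' p hp P hP hPc).trans (le_trans ?_ (H02.centralizer_fitting_le G))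
        refine centralizer_le ?_
        have := fit_split hp (fittingSubgroup G)
        rw [H02.pCoreOf_fitting hp, h, bot_sup_eq] at this
        exact this.le
      have := H02.le_pCore_of_le_fitting hp hP h1
      rw [h] at this
      exact this.trans bot_le
    by_contra hPA
    have hT : IsPGroup p (P ⊔ pCore p G : Subgroup G) :=
      IsPGroup.to_sup_of_normal_right hP (H02.pCore_isPGroup p G)
    obtain ⟨y, hy, hyA, hyc⟩ := exy (W := A) hT _ ((P ⊔ pCore p G) ⊓ centralizer (A : Set G)) le_rfl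
      inf_le_left (H01.le_normalizer_inf le_normalizer (sup_le (hPc.trans le_normalizer)
        (H01.le_normalizer_centralizer ((hO p hp).trans hNA))))
      (fun h => hPA ((le_inf le_sup_left hPc).trans h))
    have hY : IsPGroup p (zpowers y) := hT.to_le (zpowers_le.2 hy.1)
    have hYc : zpowers y ≤ centralizer (A : Set G) := zpowers_le.2 hy.2
    have h2 := quadQ h hY (s2' p hp _ hY hYc) (by
      rw [commutator_eq_bot_iff_le_centralizer]
      have h3 : ⁅pCore p G, zpowers y⁆ ≤ A := by
        rw [commutator_comm, commutator_le]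
        intro z hz t ht
        have key : ∀ n : ℕ, ⁅y ^ n, t⁆ ∈ A := by
          intro n
          induction n with
          | zero => simp
          | succ n ih =>
            have e : ⁅y ^ (n + 1), t⁆ = y * ⁅y ^ n, t⁆ * y⁻¹ * ⁅y, t⁆ := by
              simp only [commutatorElement_def, pow_succ']; group
            rw [e, ← hy.2 _ ih, mul_inv_cancel_right]
            exact A.mul_mem ih (hyc t (mem_sup_right ht))
        obtain ⟨n, rfl⟩ := (mem_powers_iff_mem_zpowers.2 hz)
        exact key n
      exact h3.trans fun a ha z hz => (hYc hz a ha).symm)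
    apply hyA
    rw [← hCA]
    exact ⟨hO p hp (h2 (mem_zpowers y)), hy.2⟩
  have h1 : A.subgroupOf (centralizer (A : Set G)) = ⊤ := by
    refine H02.eq_top_of_forall_sylow_le fun q hq => ?_
    obtain ⟨Q⟩ : Nonempty (Sylow q (centralizer (A : Set G))) := inferInstance
    exact ⟨Q, fun y hy => s3 q hq.out _ (Q.isPGroup'.map _) (map_subtype_le _) ⟨y, hy, rfl⟩⟩
  exact subgroupOf_eq_top.1 h1

/-- Let S be a finite solvable group, π a set of primes containing neither 2 nor 3, H a Hall π-subgroup of S, and A a self-centralizing normal subgroup of the Fitting subgroup F(H). Then C_S(A) = A × D for a normal subgroup D of C_S(A) whose order has no prime divisor in π. -/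
theorem result {S : Type*} [Group S] [Finite S] [Group.IsSolvable S]
    (π : Set ℕ) (h2 : 2 ∉ π) (h3 : 3 ∉ π) (H : Subgroup S) (hH : Cfsg.IsPiHall π H)
    (A : Subgroup S) (hA : Cfsg.IsSCN ((Cfsg.fittingSubgroup H).map H.subtype) A) :
    ∃ D : Subgroup S, D ≤ Subgroup.centralizer (A : Set S) ∧
      (∀ c ∈ Subgroup.centralizer (A : Set S), ∀ d ∈ D, c * d * c⁻¹ ∈ D) ∧
      A ⊓ D = ⊥ ∧ A ⊔ D = Subgroup.centralizer (A : Set S) ∧
      ∀ q : ℕ, q.Prime → q ∣ Nat.card D → q ∉ π := by
  obtain ⟨hAN, hNA, hCA⟩ := hA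
  set K := piCore πᶜ S with hK
  have hKπ : H02.IsPiNat πᶜ (Nat.card K) := H02.piCore_isPi _ _
  let f := QuotientGroup.mk' K
  have hcop : (Nat.card H).Coprime (Nat.card K) := H02.IsPiNat.coprime hH.1 hKπ
  have hHK : H ⊓ K = ⊥ := (disjoint_of_coprime_natCard hcop).eq_bot
  have hinj : Function.Injective (f.comp H.subtype) := by
    rw [injective_iff_map_eq_one]
    intro a ha
    have : (a : S) ∈ H ⊓ K := ⟨a.2, (QuotientGroup.eq_one_iff _).1 ha⟩
    rw [hHK] at this
    exact Subtype.ext this
  set N := (fittingSubgroup H).map H.subtype with hN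
  have hNH : N ≤ H := map_subtype_le _
  have hNf : N.map f = fittingOf (H.map f) := by
    have := H02.fittingOf_map_of_injective _ hinj ⊤
    rw [H02.fittingOf_top, ← map_map, ← map_map, ← MonoidHom.range_eq_map, range_subtype] at this
    exact this
  have hHf := H01.isPiHall_map hH f (QuotientGroup.mk'_surjective K)
  have hFπ : H01.PiNum π (Nat.card (fittingSubgroup (S ⧸ K))) := by
    intro p hp hd
    by_contra hpπ
    haveI := Fact.mk hp
    have h1 : pCore p (S ⧸ K) = ⊥ := by
      have := H02.pCore_le_piCore (G := S ⧸ K) (π := πᶜ) hp hpπ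
      rw [H02.piCore_quotient_piCore] at this
      exact le_bot_iff.1 this
    have h4 := H02.fitting_le_pCore_sup_pPrimeCore (G := S ⧸ K) hp
    rw [h1, bot_sup_eq] at h4
    exact H02.not_dvd_card_pPrimeCore hp (hd.trans (card_dvd_of_le h4))
  have hFH : fittingSubgroup (S ⧸ K) ≤ H.map f := H01.le_of_normal_of_isPiHall hHf hFπ
  have hmain : centralizer (A.map f : Set (S ⧸ K)) ≤ A.map f := by
    haveI : Group.IsNilpotent (N.map f) := by rw [hNf]; infer_instance
    refine core (N := N.map f) ?_ (map_mono hAN) ?_ ?_ ?_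
    · rw [hNf]; exact (le_inf le_rfl hFH).trans (H02.fitting_inf_le_fittingOf _)
    · exact (map_mono hNA).trans (le_normalizer_map f)
    · refine le_antisymm ?_ (le_inf (map_mono hAN) ?_)
      · rintro _ ⟨⟨n, hn, rfl⟩, hc⟩
        refine ⟨n, ?_, rfl⟩
        rw [← hCA]
        refine ⟨hn, fun a ha => ?_⟩
        have h1 := hc (f a) ⟨a, ha, rfl⟩
        have := @hinj (⟨a, hNH (hAN ha)⟩ * ⟨n, hNH hn⟩) (⟨n, hNH hn⟩ * ⟨a, hNH (hAN ha)⟩) (by
          simpa using h1)
        exact congrArg Subtype.val this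
      · rintro _ ⟨a, ha, rfl⟩ _ ⟨b, hb, rfl⟩
        rw [← map_mul, ← map_mul]
        have : a ∈ centralizer (A : Set S) := by rw [← hCA] at ha; exact ha.2
        rw [this b hb]
    · intro p hp hd
      have hpπ : p ∈ π := hHf.1 p hp (hd.trans (card_dvd_of_le (map_mono hNH)))
      have := hp.two_le
      by_contra h
      have h5 : p < 5 := by omega
      interval_cases p
      · exact h2 hpπ
      · exact h3 hpπ
      · exact absurd hp (by norm_num)
  have hAc : A ≤ centralizer (A : Set S) := by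
    conv_lhs => rw [← hCA]
    exact inf_le_right
  refine ⟨K ⊓ centralizer (A : Set S), inf_le_right, fun c hc d hd =>
    ⟨(inferInstance : K.Normal).conj_mem d hd.1 c,
      Subgroup.mul_mem _ (Subgroup.mul_mem _ hc hd.2) (Subgroup.inv_mem _ hc)⟩, ?_, ?_, ?_⟩
  · rw [eq_bot_iff, ← hHK]
    exact inf_le_inf (hAN.trans hNH) inf_le_left
  · refine le_antisymm (sup_le hAc inf_le_right) fun c hc => ?_
    obtain ⟨a, ha, hac⟩ := hmain (show f c ∈ centralizer (A.map f : Set (S ⧸ K)) from by
      rintro _ ⟨b, hb, rfl⟩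
      rw [← map_mul, ← map_mul, hc b hb])
    have : c = a * (a⁻¹ * c) := by group
    rw [this]
    exact mul_mem (mem_sup_left ha) (mem_sup_right ⟨QuotientGroup.eq.1 hac,
      Subgroup.mul_mem _ (Subgroup.inv_mem _ (hAc ha)) hc⟩)
  · intro q hq hd
    exact hKπ q hq (hd.trans (card_dvd_of_le inf_le_left))

end Cfsg.Agent.S1893
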