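import Mathlib
import Cfsg.Statements.S1894
import Cfsg.Agent.H04.Basic

set_option autoImplicit false
open Cfsg

namespace Cfsg.Agent.S1894

/-- Let P be a finite p-group, A a normal subgroup of P and B an abelian subgroup of A that is normal in P. Then some subgroup C of A containing B is normal in P and is self-centralizing and normal in A (C ∈ SCN(A)). -/
theorem result {P : Type*} [Group P] [Finite P] {p : ℕ} [Fact p.Prime] (hP : IsPGroup p P)
    (A : Subgroup P) [A.Normal] (B : Subgroup P) [B.Normal] (hBA : B ≤ A) (hB : IsMulCommutative B) :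
    ∃ C : Subgroup P, C.Normal ∧ B ≤ C ∧ Cfsg.IsSCN A C := by
  haveI : Group.IsNilpotent P := hP.isNilpotent
  obtain ⟨C, hBC, hC⟩ := Finite.exists_le_maximal
    (p := fun M : Subgroup P => M.Normal ∧ IsMulCommutative M ∧ M ≤ A) ⟨‹B.Normal›, hB, hBA⟩
  obtain ⟨h1, h2, h3⟩ := hC.prop
  refine ⟨C, h1, hBC, h3, Subgroup.le_normalizer_of_normal, le_antisymm ?_
    (le_inf h3 (Subgroup.le_centralizer_iff_isMulCommutative.mpr h2))⟩
  by_contra hle
  obtain ⟨x, hxC, hxN, hx⟩ := H04.exists_central_step_nilpotent C (A ⊓ Subgroup.centralizer (C : Set P)) hle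
  have := hC.le_of_ge (y := C ⊔ Subgroup.zpowers x) ⟨H04.normal_sup_zpowers C hx,
    H04.isMulCommutative_sup_zpowers h2 hxC.2, sup_le h3 (Subgroup.zpowers_le.mpr hxC.1)⟩ le_sup_left
  exact hxN (this (Subgroup.mem_sup_right (Subgroup.mem_zpowers x)))

end Cfsg.Agent.S1894
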