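import Mathlib
import Cfsg.Statements.S1897
import Cfsg.Agent.H12.SL2Pres
import Cfsg.Agent.H09.SL2Basic
import Cfsg.Agent.H09.SLBasic

set_option autoImplicit false
open scoped Pointwise
open Cfsg

namespace Cfsg.Agent.S1897

open Matrix
abbrev R := QuadraticAlgebra (ZMod 3) (-1) 0

def xs : ZMod 7 → Matrix (Fin 3) (Fin 3) R :=
  ![!![⟨1,0⟩, ⟨0,0⟩, ⟨0,0⟩; ⟨0,0⟩, ⟨1,0⟩, ⟨0,0⟩; ⟨0,0⟩, ⟨0,0⟩, ⟨1,0⟩],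
    !![⟨0,0⟩, ⟨1,1⟩, ⟨1,1⟩; ⟨0,0⟩, ⟨1,1⟩, ⟨2,2⟩; ⟨0,1⟩, ⟨0,0⟩, ⟨0,0⟩],
    !![⟨2,1⟩, ⟨0,2⟩, ⟨0,1⟩; ⟨1,2⟩, ⟨0,2⟩, ⟨0,1⟩; ⟨0,0⟩, ⟨2,1⟩, ⟨2,1⟩],
    !![⟨2,0⟩, ⟨2,2⟩, ⟨0,1⟩; ⟨2,0⟩, ⟨0,2⟩, ⟨1,1⟩; ⟨2,2⟩, ⟨1,0⟩, ⟨2,0⟩],
    !![⟨2,0⟩, ⟨2,0⟩, ⟨2,1⟩; ⟨2,1⟩, ⟨0,1⟩, ⟨1,0⟩; ⟨0,2⟩, ⟨1,2⟩, ⟨2,0⟩],
    !![⟨2,2⟩, ⟨1,1⟩, ⟨0,0⟩; ⟨0,1⟩, ⟨0,1⟩, ⟨2,2⟩; ⟨0,2⟩, ⟨0,2⟩, ⟨2,2⟩],
    !![⟨0,0⟩, ⟨0,0⟩, ⟨0,2⟩; ⟨1,2⟩, ⟨1,2⟩, ⟨0,0⟩; ⟨1,2⟩, ⟨2,1⟩, ⟨0,0⟩]]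

def ys : ZMod 7 → Matrix (Fin 3) (Fin 3) R :=
  ![!![⟨1,0⟩, ⟨0,0⟩, ⟨0,0⟩; ⟨0,0⟩, ⟨1,0⟩, ⟨0,0⟩; ⟨0,0⟩, ⟨0,0⟩, ⟨1,0⟩],
    !![⟨0,1⟩, ⟨0,2⟩, ⟨2,2⟩; ⟨0,1⟩, ⟨1,2⟩, ⟨2,0⟩; ⟨2,2⟩, ⟨1,0⟩, ⟨0,2⟩],
    !![⟨0,2⟩, ⟨2,1⟩, ⟨0,1⟩; ⟨1,2⟩, ⟨0,1⟩, ⟨0,1⟩; ⟨0,1⟩, ⟨0,2⟩, ⟨1,2⟩],
    !![⟨1,1⟩, ⟨2,0⟩, ⟨1,0⟩; ⟨1,0⟩, ⟨0,1⟩, ⟨2,2⟩; ⟨1,0⟩, ⟨1,1⟩, ⟨0,2⟩],
    !![⟨1,2⟩, ⟨1,0⟩, ⟨1,0⟩; ⟨2,0⟩, ⟨0,2⟩, ⟨1,2⟩; ⟨1,0⟩, ⟨2,1⟩, ⟨0,1⟩],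
    !![⟨0,1⟩, ⟨1,1⟩, ⟨0,2⟩; ⟨2,2⟩, ⟨0,2⟩, ⟨0,1⟩; ⟨0,2⟩, ⟨0,2⟩, ⟨1,1⟩],
    !![⟨0,2⟩, ⟨0,2⟩, ⟨2,1⟩; ⟨0,1⟩, ⟨1,1⟩, ⟨1,0⟩; ⟨2,1⟩, ⟨2,0⟩, ⟨0,1⟩]]

def ws : ZMod 7 → Matrix (Fin 3) (Fin 3) R :=
  ![!![⟨1,0⟩, ⟨0,0⟩, ⟨0,0⟩; ⟨0,0⟩, ⟨1,0⟩, ⟨0,0⟩; ⟨0,0⟩, ⟨0,0⟩, ⟨1,0⟩],
    !![⟨1,0⟩, ⟨0,1⟩, ⟨1,1⟩; ⟨0,2⟩, ⟨1,0⟩, ⟨2,1⟩; ⟨1,2⟩, ⟨2,2⟩, ⟨0,0⟩],
    !![⟨0,0⟩, ⟨2,1⟩, ⟨2,2⟩; ⟨2,2⟩, ⟨1,0⟩, ⟨0,2⟩; ⟨2,1⟩, ⟨0,1⟩, ⟨1,0⟩],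
    !![⟨0,0⟩, ⟨1,1⟩, ⟨2,2⟩; ⟨1,2⟩, ⟨1,0⟩, ⟨1,0⟩; ⟨2,1⟩, ⟨1,0⟩, ⟨1,0⟩],
    !![⟨0,0⟩, ⟨1,1⟩, ⟨2,2⟩; ⟨1,2⟩, ⟨1,0⟩, ⟨1,0⟩; ⟨2,1⟩, ⟨1,0⟩, ⟨1,0⟩],
    !![⟨0,0⟩, ⟨2,1⟩, ⟨2,2⟩; ⟨2,2⟩, ⟨1,0⟩, ⟨0,2⟩; ⟨2,1⟩, ⟨0,1⟩, ⟨1,0⟩],
    !![⟨1,0⟩, ⟨0,1⟩, ⟨1,1⟩; ⟨0,2⟩, ⟨1,0⟩, ⟨2,1⟩; ⟨1,2⟩, ⟨2,2⟩, ⟨0,0⟩]]

def ok (M : Matrix (Fin 3) (Fin 3) R) : Prop :=
  (M 0 0 * M 1 1 * M 2 2 - M 0 0 * M 1 2 * M 2 1 - M 0 1 * M 1 0 * M 2 2 + M 0 1 * M 1 2 * M 2 0 +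
    M 0 2 * M 1 0 * M 2 1 - M 0 2 * M 1 1 * M 2 0 = 1) ∧
  ∀ i j, M 0 i * (M 0 j * M 0 j * M 0 j) + M 1 i * (M 1 j * M 1 j * M 1 j) +
    M 2 i * (M 2 j * M 2 j * M 2 j) = if i = j then 1 else 0

instance (M : Matrix (Fin 3) (Fin 3) R) : Decidable (ok M) := by unfold ok; infer_instance

theorem c1 : ∀ t, ok (xs t) ∧ ok (ys t) := by decide +kernel
theorem c2 : ∀ t u, xs (t + u) = xs t * xs u ∧ ys (t + u) = ys t * ys u := by decide +kernel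
theorem c3 : ∀ t, ws t = xs t * ys (-t ^ 5) * xs t := by decide +kernel
theorem c4 : ∀ t u, t ≠ 0 → ws t * xs u = ys (-((t ^ 5) ^ 2 * u)) * ws t := by decide +kernel
theorem c5 : ws (-1) * ws (-1) = 1 ∧ xs 1 * ys 1 ≠ ys 1 * xs 1 := by decide +kernel
theorem c6 : ∀ t : ZMod 7, t ≠ 0 → t * t ^ 5 = 1 := by decide

theorem c7 : ∀ a : R, a ≠ 0 → a * (a * a * a * a * a * a * a) = 1 := by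
  rintro ⟨a, b⟩; revert a b; decide +kernel

def mk {F : Type*} [Field F] [CharP F 3] (ι : R →+* F) (M : Matrix (Fin 3) (Fin 3) R) (h : ok M) :
    SU 3 F 3 := ⟨⟨M.map ι, by
      rw [← RingHom.mapMatrix_apply, ← RingHom.map_det, det_fin_three, h.1, map_one]⟩, by
  intro u v
  have h' := fun i j => congrArg ι (h.2 i j)
  have h00 := h' 0 0; have h01 := h' 0 1; have h02 := h' 0 2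
  have h10 := h' 1 0; have h11 := h' 1 1; have h12 := h' 1 2
  have h20 := h' 2 0; have h21 := h' 2 1; have h22 := h' 2 2
  simp at h00 h01 h02 h10 h11 h12 h20 h21 h22
  change hermForm 3 F 3 (M.map ι *ᵥ u) (M.map ι *ᵥ v) = _
  simp only [hermForm, mulVec, dotProduct, Fin.sum_univ_three, map_apply, add_pow_char, mul_pow]
  linear_combination u 0 * (v 0) ^ 3 * h00 + u 0 * (v 1) ^ 3 * h01 + u 0 * (v 2) ^ 3 * h02 +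
    u 1 * (v 0) ^ 3 * h10 + u 1 * (v 1) ^ 3 * h11 + u 1 * (v 2) ^ 3 * h12 +
    u 2 * (v 0) ^ 3 * h20 + u 2 * (v 1) ^ 3 * h21 + u 2 * (v 2) ^ 3 * h22⟩

/-- The projective special unitary group PSU₃(3) (realised over the field with 9 elements) has a subgroup isomorphic to PSL₂(7). -/
theorem result {F : Type*} [Field F] [Fintype F] (hF : Fintype.card F = 9)
    {K : Type*} [Field K] [Fintype K] (hK : Fintype.card K = 7) :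
    ∃ H : Subgroup (Cfsg.PSU 3 F 3), Nonempty (H ≃* Matrix.ProjectiveSpecialLinearGroup (Fin 2) K) := by
  haveI : Fact (Nat.Prime 3) := ⟨by norm_num⟩
  haveI : Fact (Nat.Prime 7) := ⟨by norm_num⟩
  haveI : CharP F 3 := charP_of_card_eq_prime_pow (f := 2) hF
  letI := ZMod.algebra F 3
  obtain ⟨i, hi⟩ := (FiniteField.isSquare_neg_one_iff (F := F)).2 (by rw [hF]; norm_num)
  let ι : R →+* F := (QuadraticAlgebra.lift (A := F) ⟨i, by simp [← hi]⟩).toRingHom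
  have hι : Function.Injective ι := by
    rw [injective_iff_map_eq_zero]
    intro a ha
    by_contra h0
    have := congrArg ι (c7 a h0)
    rw [map_mul, ha, zero_mul, map_one] at this
    exact zero_ne_one this
  let e : K ≃+* ZMod 7 := (ZMod.ringEquivOfPrime K Fact.out hK).symm
  let x : K → SU 3 F 3 := fun t => mk ι (xs (e t)) (c1 _).1
  let y : K → SU 3 F 3 := fun t => mk ι (ys (e t)) (c1 _).2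
  have hinv : ∀ t : K, t ≠ 0 → e t⁻¹ = e t ^ 5 := fun t ht => by
    rw [map_inv₀]; exact inv_eq_of_mul_eq_one_right (c6 _ (by simpa using ht))
  have hw : ∀ t, t ≠ 0 → (H12.wEl x y t).1.1 = (ws (e t)).map ι := fun t ht => by
    change (xs (e t)).map ι * (ys (e (-t⁻¹))).map ι * (xs (e t)).map ι = _
    rw [← Matrix.map_mul, ← Matrix.map_mul, c3, map_neg, hinv t ht]
  have hR : H12.SL2Rel x y := by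
    refine ⟨fun t u => Subtype.ext (Subtype.ext ?_), fun t u => Subtype.ext (Subtype.ext ?_),
      fun t u ht => ?_⟩
    · change (xs (e (t + u))).map ι = (xs (e t)).map ι * (xs (e u)).map ι
      rw [← Matrix.map_mul, map_add, (c2 _ _).1]
    · change (ys (e (t + u))).map ι = (ys (e t)).map ι * (ys (e u)).map ι
      rw [← Matrix.map_mul, map_add, (c2 _ _).2]
    · rw [mul_inv_eq_iff_eq_mul]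
      refine Subtype.ext (Subtype.ext ?_)
      change (H12.wEl x y t).1.1 * (xs (e u)).map ι = (ys (e _)).map ι * (H12.wEl x y t).1.1
      rw [hw t ht, ← Matrix.map_mul, ← Matrix.map_mul, c4 _ _ (by simpa using ht), map_neg, map_mul,
        map_pow, hinv t ht]
  obtain ⟨φ, h1, h2⟩ := hR.exists_hom hR.h_mul_of_finite
  let ψ := (QuotientGroup.mk' (Subgroup.center (SU 3 F 3))).comp φ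
  have hm : φ (-1) = 1 := by
    have e1 : (-1 : SpecialLinearGroup (Fin 2) K) = H12.hEl H12.upSL H12.loSL (-1) := by
      apply Subtype.ext
      rw [H12.coe_hEl _ (by simp)]
      ext i j; fin_cases i <;> fin_cases j <;> simp
    have e2 : φ (H12.wEl H12.upSL H12.loSL (-1)) = H12.wEl x y (-1) := by
      simp only [H12.wEl, map_mul, h1, h2]
    rw [e1, H12.hEl, map_mul, e2]
    refine Subtype.ext (Subtype.ext ?_)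
    change (H12.wEl x y (-1)).1.1 * (H12.wEl x y (-1)).1.1 = 1
    rw [hw _ (by simp), ← Matrix.map_mul, map_neg, map_one, c5.1, Matrix.map_one _ (map_zero _) (map_one _)]
  let χ : ProjectiveSpecialLinearGroup (Fin 2) K →* PSU 3 F 3 := QuotientGroup.lift _ ψ fun g hg => by
    rcases H09.SL2.mem_center_iff'.1 hg with rfl | rfl
    · exact map_one _
    · simp [ψ, hm]
  haveI := H09.PSL_simple_fin (F := K) 2 le_rfl (fun _ => by omega)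
  have hχ : χ.ker = ⊥ := by
    refine (IsSimpleGroup.eq_bot_or_eq_top_of_normal _ inferInstance).resolve_right fun h => ?_
    have : (QuotientGroup.mk (H12.upSL 1) : ProjectiveSpecialLinearGroup (Fin 2) K) ∈ χ.ker :=
      h ▸ Subgroup.mem_top _
    have : φ (H12.upSL 1) ∈ Subgroup.center (SU 3 F 3) := (QuotientGroup.eq_one_iff _).1 this
    have := Subgroup.mem_center_iff.1 this (y 1)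
    rw [h1] at this
    have : (ys (e 1)).map ι * (xs (e 1)).map ι = (xs (e 1)).map ι * (ys (e 1)).map ι :=
      congrArg (fun g : SU 3 F 3 => g.1.1) this
    rw [← Matrix.map_mul, ← Matrix.map_mul, map_one] at this
    exact c5.2 (Matrix.map_injective hι this).symm
  exact ⟨χ.range, ⟨(MonoidHom.ofInjective ((MonoidHom.ker_eq_bot_iff _).1 hχ)).symm⟩⟩

end Cfsg.Agent.S1897
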