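import Cfsg.Statements.S1898
import Mathlib
import Cfsg.Agent.H27.Four
import Cfsg.Agent.H03.PResidual
-- import your own Cfsg.Agent.* helpers here

set_option autoImplicit false
open Cfsg

namespace Cfsg.Agent.S1898

open scoped Pointwise commutatorElement

/-- Let X be a finite 2-group whose derived subgroup is elementary abelian and central. Then the subgroup generated by the elements of order dividing 4 has exponent dividing 4, and every automorphism of X fixing each element of order dividing 4 has 2-power order. -/
theorem result {X : Type*} [Group X] [Finite X] (hX : IsPGroup 2 X)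
    (hel : Cfsg.IsElementaryAbelian 2 (commutator X)) (hcen : commutator X ≤ Subgroup.center X) :
    (∀ x ∈ Subgroup.closure {g : X | g ^ 4 = 1}, x ^ 4 = 1) ∧
      ∀ φ : MulAut X, (∀ g : X, g ^ 4 = 1 → φ g = g) → ∃ k : ℕ, φ ^ (2 ^ k) = 1 := by
  have hmul : ∀ x y : X, (x * y) ^ 4 = x ^ 4 * y ^ 4 := by
    intro x y
    have hc : ⁅y, x⁆ ∈ commutator X := Subgroup.commutator_mem_commutator (Subgroup.mem_top _) (Subgroup.mem_top _)
    exact H27.mul_pow_four (Subgroup.mem_center_iff.1 (hcen hc) x).symm
      (Subgroup.mem_center_iff.1 (hcen hc) y).symm (hel.2 _ hc)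
  constructor
  · intro x hx
    induction hx using Subgroup.closure_induction with
    | mem x hx => exact hx
    | one => exact one_pow _
    | mul x y _ _ hx hy => rw [hmul, hx, hy, one_mul]
    | inv x _ hx => rw [inv_pow, hx, inv_one]
  · intro φ hφ
    obtain ⟨u, s, hu, hs, ⟨k, hk⟩, h3, e⟩ := H03.exists_pPart_mul (p := 2) φ
    have hs1 : s = 1 := by
      refine H27.aut_eq_one_of_fix_small hX h3 fun x hx => ?_
      have h4 : x ^ 4 = 1 := by
        rcases hx with hx | ⟨-, hx⟩
        · rw [show 4 = 2 * 2 from rfl, pow_mul, hx, one_pow]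
        · exact hx
      have : Subgroup.zpowers φ ≤ MulAction.stabilizer (MulAut X) x :=
        Subgroup.zpowers_le.2 (hφ x h4)
      exact this hs
    refine ⟨k, ?_⟩
    rw [e, hs1, mul_one, ← hk, pow_orderOf_eq_one]

end Cfsg.Agent.S1898
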