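import Mathlib
import Cfsg.Statements.S1899
import Cfsg.Agent.H02.Basic

set_option autoImplicit false
open Cfsg

namespace Cfsg.Agent.S1899

/-- Let a dihedral group of order 2n, n odd and n > 1, act on a finite abelian 2-group A through automorphisms d and t with d^n = 1, t² = 1 and t d t⁻¹ = d⁻¹, and suppose that d fixes only the identity. Then A is the internal direct product of C_A(t) and its image under d. -/
theorem result {A : Type*} [CommGroup A] [Finite A] (hA : IsPGroup 2 A)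
    {n : ℕ} (hn : Odd n) (hn1 : 1 < n) (d t : MulAut A) (hd : d ^ n = 1) (ht : t ^ 2 = 1) (hdt : t * d * t⁻¹ = d⁻¹)
    (hfix : ∀ a : A, d a = a → a = 1) :
    (MulEquiv.toMonoidHom t).eqLocus (MonoidHom.id A) ⊓ ((MulEquiv.toMonoidHom t).eqLocus (MonoidHom.id A)).map d.toMonoidHom = ⊥ ∧
      (MulEquiv.toMonoidHom t).eqLocus (MonoidHom.id A) ⊔ ((MulEquiv.toMonoidHom t).eqLocus (MonoidHom.id A)).map d.toMonoidHom = ⊤ := by
  set C := (MulEquiv.toMonoidHom t).eqLocus (MonoidHom.id A) with hC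
  have hCm : ∀ a, a ∈ C ↔ t a = a := fun a => Iff.rfl
  have htt : ∀ a, t (t a) = a := fun a => by rw [← MulAut.mul_apply, ← sq, ht, MulAut.one_apply]
  have htd : ∀ a, t (d a) = d⁻¹ (t a) := fun a => by
    rw [← hdt]; simp
  have htd' : ∀ a, t (d⁻¹ a) = d (t a) := fun a => by
    have := htd (d⁻¹ (t (t a)))
    rw [← htt (d (t a)), htd, htt]
  have hdd : ∀ a, d (d a) = a → a = 1 := fun a ha => by
    obtain ⟨k, hk⟩ := hn
    have h1 : ∀ j : ℕ, (d ^ (2 * j)) a = a := fun j => by
      induction j with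
      | zero => simp
      | succ j ih => rw [mul_add, pow_add, mul_one, MulAut.mul_apply, sq, MulAut.mul_apply, ha, ih]
    apply hfix
    have h2 : (d ^ n) a = a := by rw [hd, MulAut.one_apply]
    rwa [hk, pow_succ', MulAut.mul_apply, h1] at h2
  have h1 : C ⊓ C.map d.toMonoidHom = ⊥ := by
    rw [eq_bot_iff]
    rintro _ ⟨h2, c, hc, rfl⟩
    have h3 : t (d c) = d c := h2
    rw [htd, (hCm c).mp hc] at h3
    have h4 : d (d c) = c := by rw [← h3]; simp
    rw [hdd c h4, map_one]
    exact one_mem _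
  refine ⟨h1, ?_⟩
  let f : A →* A := MonoidHom.id A * t.toMonoidHom
  have hf : ∀ a, f a = a * t a := fun a => rfl
  have h2 : Nat.card f.range ≤ Nat.card C := Subgroup.card_le_of_le (by
    rintro _ ⟨a, rfl⟩
    rw [hCm, hf, map_mul, htt, mul_comm])
  have h3 : Nat.card f.ker ≤ Nat.card C := by
    refine Nat.card_le_card_of_injective (fun a => ⟨d a.1 * (d⁻¹ a.1)⁻¹, ?_⟩) ?_
    · have h4 : t a.1 = a.1⁻¹ := eq_inv_of_mul_eq_one_right a.2
      rw [hCm, map_mul, map_inv, htd, htd', h4, map_inv, map_inv, inv_inv, mul_comm]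
    · intro a b hab
      have h5 : d a.1 * (d⁻¹ a.1)⁻¹ = d b.1 * (d⁻¹ b.1)⁻¹ := congrArg Subtype.val hab
      have h6 : d (a.1 * b.1⁻¹) = d⁻¹ (a.1 * b.1⁻¹) := by
        rw [map_mul, map_mul, map_inv, map_inv, mul_inv_eq_iff_eq_mul.mp h5]
        rw [mul_right_comm, mul_right_comm (d b.1), mul_inv_cancel, one_mul, mul_comm]
      have h7 := hdd (a.1 * b.1⁻¹) (by rw [h6]; simp)
      exact Subtype.ext (mul_inv_eq_one.mp h7)
  have h4 := H02.card_sup_of_disjoint (H := C) (K := C.map d.toMonoidHom)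
    Subgroup.le_normalizer_of_normal h1
  rw [Subgroup.card_map_of_injective d.injective] at h4
  refine Subgroup.eq_top_of_card_eq _ (le_antisymm (Subgroup.card_le_card_group _) ?_)
  rw [h4, ← f.ker.card_mul_index, Subgroup.index_ker]
  exact Nat.mul_le_mul h3 h2

end Cfsg.Agent.S1899
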