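import Mathlib
import Cfsg.Statements.S1900
import Cfsg.Agent.H01.Generation
import Cfsg.Agent.H26.CharP
import Cfsg.Agent.H22.Layer
import Cfsg.Agent.H02.Basic

set_option autoImplicit false
open Cfsg

namespace Cfsg.Agent.S1900

/-- Let S = PQ be a finite group with P a normal Sylow p-subgroup and Q elementary abelian of order q², q a prime different from p. If exactly two subgroups X₁, X₂ of order q in Q have a nontrivial centralizer in P, then P is the internal direct product of C_P(X₁) and C_P(X₂): they commute elementwise, meet trivially and generate P. -/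
theorem result {S : Type*} [Group S] [Finite S] {p q : ℕ} [Fact p.Prime] [Fact q.Prime] (hpq : p ≠ q)
    (P : Sylow p S) [(P : Subgroup S).Normal] (Q : Subgroup S) (hQ : Cfsg.IsElementaryAbelian q Q) (hQc : Nat.card Q = q ^ 2)
    (hS : (P : Subgroup S) ⊔ Q = ⊤)
    (X₁ X₂ : Subgroup S) (h₁ : X₁ ≤ Q) (h₂ : X₂ ≤ Q) (h₁₂ : X₁ ≠ X₂) (hc₁ : Nat.card X₁ = q) (hc₂ : Nat.card X₂ = q)
    (hf₁ : (P : Subgroup S) ⊓ Subgroup.centralizer (X₁ : Set S) ≠ ⊥)
    (hf₂ : (P : Subgroup S) ⊓ Subgroup.centralizer (X₂ : Set S) ≠ ⊥)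
    (honly : ∀ X : Subgroup S, X ≤ Q → Nat.card X = q →
      (P : Subgroup S) ⊓ Subgroup.centralizer (X : Set S) ≠ ⊥ → X = X₁ ∨ X = X₂) :
    ⁅(P : Subgroup S) ⊓ Subgroup.centralizer (X₁ : Set S), (P : Subgroup S) ⊓ Subgroup.centralizer (X₂ : Set S)⁆ = ⊥ ∧
      ((P : Subgroup S) ⊓ Subgroup.centralizer (X₁ : Set S)) ⊓ ((P : Subgroup S) ⊓ Subgroup.centralizer (X₂ : Set S)) = ⊥ ∧
      ((P : Subgroup S) ⊓ Subgroup.centralizer (X₁ : Set S)) ⊔ ((P : Subgroup S) ⊓ Subgroup.centralizer (X₂ : Set S)) = P := by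
  set C₁ := (P : Subgroup S) ⊓ Subgroup.centralizer (X₁ : Set S) with hC₁
  set C₂ := (P : Subgroup S) ⊓ Subgroup.centralizer (X₂ : Set S) with hC₂
  haveI := hQ.1
  have hq : q.Prime := Fact.out
  have hncyc : ¬ IsCyclic Q := fun h => by
    obtain ⟨g, hg⟩ := IsCyclic.exists_ofOrder_eq_natCard (α := Q)
    have h1 : g ^ q = 1 := Subtype.ext (hQ.2 g g.2)
    have := Nat.le_of_dvd hq.pos (orderOf_dvd_of_pow_eq_one h1)
    rw [hg, hQc] at this
    nlinarith [hq.two_le]
  have hcop : ∀ X K : Subgroup S, X ≤ Q → K ≤ P → (Nat.card X).Coprime (Nat.card K) := by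
    intro X K hX hK
    obtain ⟨k, hk⟩ := P.2.exists_card_eq
    refine Nat.Coprime.coprime_dvd_left (Subgroup.card_dvd_of_le hX)
      (Nat.Coprime.coprime_dvd_right (Subgroup.card_dvd_of_le hK) ?_)
    rw [hQc, hk]
    exact Nat.coprime_pow_primes _ _ hq Fact.out hpq.symm
  have hgen : ∀ K : Subgroup S, K ≤ P → Q ≤ Subgroup.normalizer (K : Set S) →
      K ≤ (K ⊓ Subgroup.centralizer (X₁ : Set S)) ⊔ (K ⊓ Subgroup.centralizer (X₂ : Set S)) := by
    intro K hK hn
    refine H01.le_of_centralizer_le_of_not_isCyclic hncyc hn (hcop _ _ le_rfl hK) fun a ha ha1 => ?_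
    rw [← H22.centralizer_zpowers]
    by_cases h : (P : Subgroup S) ⊓ Subgroup.centralizer (Subgroup.zpowers a : Set S) = ⊥
    · exact ((inf_le_inf_right _ hK).trans h.le).trans bot_le
    rcases honly _ (Subgroup.zpowers_le.mpr ha)
      (by rw [Nat.card_zpowers, orderOf_eq_prime (hQ.2 a ha) ha1]) h with h | h <;> rw [h]
    · exact le_sup_left
    · exact le_sup_right
  have hdisj : X₁ ⊓ X₂ = ⊥ := by
    have h1 := Subgroup.card_dvd_of_le (inf_le_left : X₁ ⊓ X₂ ≤ X₁)
    rw [hc₁] at h1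
    rcases (Nat.dvd_prime hq).mp h1 with h | h
    · exact Subgroup.card_eq_one.mp h
    · exfalso
      apply h₁₂
      exact (Subgroup.eq_of_le_of_card_ge inf_le_left (by rw [h, hc₁])).symm.trans
        (Subgroup.eq_of_le_of_card_ge inf_le_right (by rw [h, hc₂]))
  have hQn : ∀ X : Subgroup S, X ≤ Q → Q ≤ Subgroup.normalizer (X : Set S) := fun X hX =>
    ((Subgroup.le_centralizer Q).trans (Subgroup.centralizer_le hX)).trans
      (Subgroup.centralizer_le_normalizer _)
  have hsup : X₁ ⊔ X₂ = Q := Subgroup.eq_of_le_of_card_ge (sup_le h₁ h₂) (by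
    rw [H02.card_sup_of_disjoint (h₁.trans (hQn _ h₂)) hdisj, hc₁, hc₂, hQc, sq])
  have hbot : C₁ ⊓ C₂ = ⊥ := by
    by_contra hne
    haveI : Nontrivial X₁ := Finite.one_lt_card_iff_nontrivial.mp (hc₁ ▸ hq.one_lt)
    haveI : Nontrivial X₂ := Finite.one_lt_card_iff_nontrivial.mp (hc₂ ▸ hq.one_lt)
    obtain ⟨⟨a, ha⟩, ha1⟩ := exists_ne (1 : X₁)
    obtain ⟨⟨b, hb⟩, hb1⟩ := exists_ne (1 : X₂)
    have ha2 : a ∉ X₂ := fun h => ha1 (Subtype.ext (Subgroup.mem_bot.mp (hdisj ▸ ⟨ha, h⟩)))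
    have hb2 : b ∉ X₁ := fun h => hb1 (Subtype.ext (Subgroup.mem_bot.mp (hdisj ▸ ⟨h, hb⟩)))
    have hab := mul_mem (h₁ ha) (h₂ hb)
    have hab1 : a * b ≠ 1 := fun h => ha2 (by rw [eq_inv_of_mul_eq_one_left h]; exact inv_mem hb)
    rcases honly _ (Subgroup.zpowers_le.mpr hab)
      (by rw [Nat.card_zpowers, orderOf_eq_prime (hQ.2 _ hab) hab1]) (fun h => hne (by
        rw [eq_bot_iff, ← h]
        refine le_inf (inf_le_left.trans inf_le_left) (le_trans ?_
          (Subgroup.centralizer_le (Subgroup.zpowers_le.mpr hab)))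
        rw [← hsup]
        exact H22.le_centralizer_sup (inf_le_left.trans inf_le_right)
          (inf_le_right.trans inf_le_right))) with h | h
    · exact hb2 ((mul_mem_cancel_left ha).mp (h ▸ Subgroup.mem_zpowers _))
    · exact ha2 ((mul_mem_cancel_right hb).mp (h ▸ Subgroup.mem_zpowers _))
  have hP : C₁ ⊔ C₂ = P := le_antisymm (sup_le inf_le_left inf_le_left)
    (hgen _ le_rfl Subgroup.le_normalizer_of_normal)
  refine ⟨?_, hbot, hP⟩
  have hsolv : ∀ X : Subgroup S, X ≤ Q → Group.IsSolvable X := fun X hX =>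
    haveI := H01.isSolvable_of_isMulCommutative Q
    H01.isSolvable_of_le hX
  have hn₁ : Q ≤ Subgroup.normalizer (C₁ : Set S) :=
    H26.le_normalizer_inf Subgroup.le_normalizer_of_normal (H26.le_normalizer_centralizer (hQn _ h₁))
  have hn₂ : Q ≤ Subgroup.normalizer (C₂ : Set S) :=
    H26.le_normalizer_inf Subgroup.le_normalizer_of_normal (H26.le_normalizer_centralizer (hQn _ h₂))
  set K := ⁅C₁, C₂⁆ with hK
  have hKP : K ≤ P := (Subgroup.commutator_mono inf_le_left inf_le_left).trans (Subgroup.commutator_le_left _ _)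
  have hQK : Q ≤ Subgroup.normalizer (K : Set S) := H26.le_normalizer_commutator hn₁ hn₂
  have hPK : (P : Subgroup S) ≤ Subgroup.normalizer (K : Set S) :=
    hP ▸ sup_le (H01.left_le_normalizer_commutator _ _) (H01.right_le_normalizer_commutator _ _)
  have hKK : ⁅K, (P : Subgroup S)⁆ ≤ K := H01.commutator_le_left_of_le_normalizer hPK
  have hQW : Q ≤ Subgroup.normalizer ((⁅K, (P : Subgroup S)⁆ : Subgroup S) : Set S) :=
    H26.le_normalizer_commutator hQK Subgroup.le_normalizer_of_normal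
  -- the key step, symmetric in the two indices
  have key : ∀ X Y : Subgroup S, X ≤ Q → Y ≤ Q →
      (P : Subgroup S) ⊓ Subgroup.centralizer (X : Set S) ⊓
        ((P : Subgroup S) ⊓ Subgroup.centralizer (Y : Set S)) = ⊥ →
      ⁅(P : Subgroup S) ⊓ Subgroup.centralizer (X : Set S),
        (P : Subgroup S) ⊓ Subgroup.centralizer (Y : Set S)⁆ = K →
      K ≤ (K ⊓ Subgroup.centralizer (X : Set S)) ⊔ (K ⊓ Subgroup.centralizer (Y : Set S)) →
      ⁅K, Y⁆ ≤ ⁅K, (P : Subgroup S)⁆ := by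
    intro X Y hX hY hb he hg
    set A := (P : Subgroup S) ⊓ Subgroup.centralizer (X : Set S) with hA
    set B := (P : Subgroup S) ⊓ Subgroup.centralizer (Y : Set S) with hB
    set W := ⁅K, (P : Subgroup S)⁆ ⊔ (K ⊓ Subgroup.centralizer (Y : Set S)) with hW
    have hWK : W ≤ K := sup_le hKK inf_le_left
    have hPW : (P : Subgroup S) ≤ Subgroup.normalizer (W : Set S) :=
      H22.le_normalizer_of_comm_le (by
        rw [Subgroup.commutator_comm]
        exact (Subgroup.commutator_mono hWK le_rfl).trans le_sup_left)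
    have hQY : Q ≤ Subgroup.normalizer ((K ⊓ Subgroup.centralizer (Y : Set S) : Subgroup S) : Set S) :=
      H26.le_normalizer_inf hQK (H26.le_normalizer_centralizer (hQn _ hY))
    have hQW' : Q ≤ Subgroup.normalizer (W : Set S) := H26.le_normalizer_sup hQW hQY
    have h1 : ⁅K, X⁆ ≤ W := by
      refine (Subgroup.commutator_mono hg le_rfl).trans (H26.commutator_sup_le
        ((inf_le_left.trans hKP).trans hPW) ((inf_le_left.trans hKP).trans hPW) ?_ ?_)
      · rw [Subgroup.commutator_eq_bot_iff_le_centralizer.mpr inf_le_right]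
        exact bot_le
      · exact (H01.commutator_le_left_of_le_normalizer (hX.trans hQY)).trans le_sup_right
    have hXB : X ≤ Subgroup.normalizer (B : Set S) := hX.trans
      (H26.le_normalizer_inf Subgroup.le_normalizer_of_normal (H26.le_normalizer_centralizer (hQn _ hY)))
    have h2 : ⁅B, X⁆ = B := by
      have := H01.commutator_sup_centralizer hXB (hcop _ _ hX inf_le_left) (Or.inl (hsolv _ hX))
      have e : B ⊓ Subgroup.centralizer (X : Set S) = ⊥ := by
        rw [eq_bot_iff, ← hb]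
        exact le_inf (le_inf (inf_le_left.trans inf_le_left) inf_le_right) inf_le_left
      rwa [e, sup_bot_eq] at this
    have h3 : ⁅⁅B, X⁆, A⁆ ≤ W := H26.three_subgroups (inf_le_left.trans hPW) (hX.trans hQW')
      (inf_le_left.trans hPW) (by
        rw [Subgroup.commutator_comm X, Subgroup.commutator_eq_bot_iff_le_centralizer.mpr
          (inf_le_right : A ≤ _), Subgroup.commutator_bot_left]
        exact bot_le) (he ▸ h1)
    rw [h2, Subgroup.commutator_comm, he] at h3
    refine (Subgroup.commutator_mono h3 le_rfl).trans (H26.commutator_sup_le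
      Subgroup.le_normalizer ((inf_le_left.trans hKP).trans (H01.right_le_normalizer_commutator _ _))
      (H01.commutator_le_left_of_le_normalizer (hY.trans hQW)) ?_)
    rw [Subgroup.commutator_eq_bot_iff_le_centralizer.mpr inf_le_right]
    exact bot_le
  have k2 := key X₁ X₂ h₁ h₂ hbot rfl (hgen K hKP hQK)
  have k1 := key X₂ X₁ h₂ h₁ (by rw [inf_comm]; exact hbot) (Subgroup.commutator_comm _ _)
    (by rw [sup_comm]; exact hgen K hKP hQK)
  have k3 : ⁅K, Q⁆ ≤ ⁅K, (P : Subgroup S)⁆ :=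
    hsup ▸ H26.commutator_sup_le' (h₁.trans hQW) (h₂.trans hQW) k1 k2
  have k4 := H01.commutator_sup_centralizer hQK (hcop _ _ le_rfl hKP) (Or.inl (hsolv _ le_rfl))
  have e : K ⊓ Subgroup.centralizer (Q : Set S) = ⊥ := by
    rw [eq_bot_iff, ← hbot]
    exact le_inf (inf_le_inf hKP (Subgroup.centralizer_le h₁)) (inf_le_inf hKP (Subgroup.centralizer_le h₂))
  rw [e, sup_bot_eq] at k4
  by_contra hne
  exact (H01.commutator_lt_of_isPGroup P.2 (P.2.to_le hKP) hPK hne).not_ge (k4.ge.trans k3)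

end Cfsg.Agent.S1900
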