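import Cfsg.Statements.S1901
import Cfsg.Agent.H24.PSolv2
import Cfsg.Agent.H03.HallNC
-- import your own Cfsg.Agent.* helpers here

set_option autoImplicit false
open Cfsg

namespace Cfsg.Agent.S1901

open BG in
theorem aux {p : ℕ} [hp : Fact p.Prime] (G : Type*) [Group G] [Finite G] (hG : IsPSolvable p G) :
    ∀ (Q : Subgroup G) (P : Sylow p G), (Nat.card Q).Coprime p → Q ≤ N_((P : Subgroup G)) →
      ∀ A : Subgroup G, IsPGroup p A → A ≤ N_(Q) → A ≤ C_(Q) := by
  refine H24.PS.induction (motive := fun G _ _ => ∀ (Q : Subgroup G) (P : Sylow p G), (Nat.card Q).Coprime p →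
    Q ≤ N_((P : Subgroup G)) → ∀ A : Subgroup G, IsPGroup p A → A ≤ N_(Q) → A ≤ C_(Q)) ?_ ?_ ?_ G hG
  · intro G _ _ hs Q P _ _ A _ _ a _ b _
    exact Subsingleton.elim _ _
  all_goals
    intro G _ _ N _ hG hN h ih Q P hQ hQP A hA hAQ
    have hs := QuotientGroup.mk'_surjective N
    have h1 := ih (Q.map (QuotientGroup.mk' N)) (P.mapSurjective hs)
      (hQ.coprime_dvd_left (Subgroup.card_map_dvd _ _))
      ((Subgroup.map_mono hQP).trans (Subgroup.le_normalizer_map _)) _ (hA.map (QuotientGroup.mk' N))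
      ((Subgroup.map_mono hAQ).trans (Subgroup.le_normalizer_map _))
    have h2 : ⁅Q, A⁆ ≤ Q ⊓ N := by
      refine le_inf (H01.commutator_le_left_of_le_normalizer hAQ) ?_
      rw [← QuotientGroup.ker_mk' N, ← Subgroup.map_eq_bot_iff, Subgroup.map_commutator,
        Subgroup.commutator_comm, Subgroup.commutator_eq_bot_iff_le_centralizer]
      exact h1
    have hc := (H01.coprime_card_of_isPGroup hA hQ).symm
    refine H01.le_centralizer_of_commutator_le
      (hc.coprime_dvd_right (Subgroup.card_dvd_of_le inf_le_left)) h2 ?_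
  · rw [inf_eq_bot_of_coprime (H01.coprime_card_of_isPGroup h hQ)]
    intro a _ b hb
    rw [Subgroup.mem_bot.1 hb]; simp
  · have h3 : (P : Subgroup G) ≤ C_(Q ⊓ N) := by
      have h4 : (P : Subgroup G) ⊓ N = ⊥ := by
        rw [inf_comm]; exact inf_eq_bot_of_coprime (H01.coprime_card_of_isPGroup P.isPGroup' h)
      intro a ha b hb
      have h5 : a * (b * a⁻¹ * b⁻¹) ∈ (P : Subgroup G) :=
        mul_mem ha ((Subgroup.mem_normalizer_iff.1 (hQP hb.1) _).1 (inv_mem ha))
      have h6 : (a * b * a⁻¹) * b⁻¹ ∈ N := mul_mem (Subgroup.Normal.conj_mem inferInstance _ hb.2 a) (inv_mem hb.2)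
      have h7 := eq_one_of_mem_of_disj h4 h5 (by simpa [mul_assoc] using h6)
      calc b * a = (a * (b * a⁻¹ * b⁻¹)) * (b * a) := by rw [h7, one_mul]
        _ = a * b := by group
    have h5 : IsSylowIn p (P : Subgroup G) N_(Q ⊓ N) :=
      (isSylowIn_top hp.out P).sub (h3.trans (Subgroup.centralizer_le_normalizer _)) le_top
    obtain ⟨g, hg, h6⟩ := sylow_subJ hp.out h5 hA
      (H01.le_normalizer_inf hAQ Subgroup.le_normalizer_of_normal)
    refine h6.trans ((cj_mono g h3).trans ?_)
    rw [cj_cent, cj_of_mem_norm hg]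

/-- Let G be a finite p-solvable group and Q a subgroup of order prime to p such that p divides the index of C_G(Q) in N_G(Q). Then Q normalizes no Sylow p-subgroup of G. -/
theorem result {G : Type*} [Group G] [Finite G] {p : ℕ} [Fact p.Prime]
    (hG : Cfsg.IsPSolvable p G) (Q : Subgroup G) (hQ : ¬ p ∣ Nat.card Q)
    (hA : p ∣ (Subgroup.centralizer (Q : Set G)).relIndex (Subgroup.normalizer (Q : Set G)))
    (P : Sylow p G) : ¬ Q ≤ Subgroup.normalizer ((P : Subgroup G) : Set G) := by
  open BG in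
  have hp : p.Prime := Fact.out
  intro h
  obtain ⟨A, hA⟩ := sylow_exists hp N_(Q)
  have := aux G hG Q P ((Nat.Prime.coprime_iff_not_dvd hp).2 hQ).symm h A (hA.pg hp) hA.le
  exact hA.not_dvd' hp (‹p ∣ _›.trans (relIndex_dvd_left _ this))

end Cfsg.Agent.S1901
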