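import Cfsg.Statements.S1902
import Cfsg.Agent.H24.PSolv
import Cfsg.Agent.H24.Baer
-- import your own Cfsg.Agent.* helpers here

set_option autoImplicit false
open Cfsg

namespace Cfsg.Agent.S1902

/-- Let p be an odd prime, G a finite p-solvable group, and B an elementary abelian subgroup of order p² such that B is the subgroup generated by the elements of order p of some Sylow p-subgroup of C_G(b₀), for some nontrivial b₀ ∈ B. Then every B-invariant subgroup of G of order prime to p lies in O_{p'}(G). -/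
theorem result {G : Type*} [Group G] [Finite G] {p : ℕ} [Fact p.Prime] (hp : p ≠ 2)
    (hG : Cfsg.IsPSolvable p G) (B : Subgroup G) (hB : Cfsg.IsElementaryAbelian p B) (hBc : Nat.card B = p ^ 2)
    (b₀ : G) (hb₀ : b₀ ∈ B) (hb₁ : b₀ ≠ 1) (P : Sylow p ↥(Subgroup.centralizer ({b₀} : Set G)))
    (hBP : B = Subgroup.closure {x : G | x ∈ ((P : Subgroup ↥(Subgroup.centralizer ({b₀} : Set G))).map
      (Subgroup.centralizer ({b₀} : Set G)).subtype : Subgroup G) ∧ orderOf x = p})
    (Q : Subgroup G) (hQ : ¬ p ∣ Nat.card Q) (hinv : ∀ b ∈ B, ∀ x ∈ Q, b * x * b⁻¹ ∈ Q) :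
    Q ≤ Cfsg.pPrimeCore p G := by
  open BG in
  have hp' : p.Prime := Fact.out
  have hQc := ((Nat.Prime.coprime_iff_not_dvd hp').2 hQ).symm
  refine H24.PS.le_pPrimeCore_of_centralizes hG hQc ?_
  set f := QuotientGroup.mk' (pPrimeCore p G)
  have hs : Function.Surjective f := QuotientGroup.mk'_surjective _
  set K := pCore p (G ⧸ pPrimeCore p G)
  have hK : IsPGroup p K := H02.pCore_isPGroup _ _
  have hBQ : B ≤ N_(Q) := H01.le_normalizer_of_conj_mem hinv
  have hz : Subgroup.zpowers b₀ ≤ B := Subgroup.zpowers_le.2 hb₀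
  have hzp : IsPGroup p (Subgroup.zpowers b₀) := (H04.IsElementaryAbelian.isPGroup hB).to_le hz
  have hQ' := hQc.coprime_dvd_left (Subgroup.card_map_dvd Q f)
  refine H24.bender_PQ_omega hp (hzp.map f) hQ'
    ((Subgroup.map_mono (hz.trans hBQ)).trans (Subgroup.le_normalizer_map _)) hK
    Subgroup.le_normalizer_of_normal Subgroup.le_normalizer_of_normal ?_
  intro x hx hxc hxp
  -- `x` lies in the image of `B`
  set P' := (P : Subgroup C_[b₀]).map C_[b₀].subtype
  have hP' : IsSylowIn p P' C_[b₀] := isSylowIn_map hp' P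
  have e1 : C_[b₀].map f = C_((Subgroup.zpowers b₀).map f) := by
    rw [← cent_zpowers]
    exact H17.centralizer_map_of_coprime_ker hs H17.coprime_ker_mk' hzp
  have h1 : IsSylowIn p (P'.map f) (C_[b₀].map f) := BG.Cfsg.IsPiHallOf.map hP' f
  have h2 : K ⊓ C_[b₀].map f ≤ P'.map f :=
    h1.le_of_norm_pg hp' (hK.to_le inf_le_left) inf_le_right
      (H01.le_normalizer_inf Subgroup.le_normalizer_of_normal (h1.le.trans Subgroup.le_normalizer))
  obtain ⟨y, hy, rfl⟩ := h2 ⟨hx, e1 ▸ hxc⟩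
  have hyp : y ^ p = 1 := H17.injOn_of_coprime_ker f H17.coprime_ker_mk' (hP'.pg hp') (pow_mem hy p)
    (one_mem P') (by rw [map_pow, hxp, map_one])
  have hyB : y ∈ B := by
    by_cases h1 : y = 1
    · rw [h1]; exact one_mem _
    · rw [hBP]; exact Subgroup.subset_closure ⟨hy, orderOf_eq_prime hyp h1⟩
  rintro _ ⟨q, hq, rfl⟩
  have h4 : Q.map f ⊓ K = ⊥ := inf_eq_bot_of_coprime (H01.coprime_card_of_isPGroup hK hQ')
  have h5 : f q * (f y * (f q)⁻¹ * (f y)⁻¹) ∈ Q.map f :=
    ⟨_, mul_mem hq (hinv y hyB _ (inv_mem hq)), by simp⟩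
  have h6 : (f q * f y * (f q)⁻¹) * (f y)⁻¹ ∈ K :=
    mul_mem (Subgroup.Normal.conj_mem inferInstance _ hx _) (inv_mem hx)
  have h7 := eq_one_of_mem_of_disj h4 h5 (by simpa only [mul_assoc] using h6)
  calc f q * f y = (f q * (f y * (f q)⁻¹ * (f y)⁻¹)) * (f y * f q) := by group
    _ = _ := by rw [h7, one_mul]

end Cfsg.Agent.S1902
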