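import Mathlib
import Cfsg.Statements.S1904
import Cfsg.Agent.H04.N8c

set_option autoImplicit false
open Cfsg

namespace Cfsg.Agent.S1904

/-- Let X be a finite nonabelian 2-group with no normal abelian subgroup that is self-centralizing and contains an elementary abelian subgroup of order 8. Suppose a group A of automorphisms of X of odd order satisfies [X, A] = X. Then X is the quaternion group of order 8, or X is special of order 64 with exactly three involutions, all central, or X is extraspecial of order 32 with exactly eleven involutions (the central product of a quaternion group and a dihedral group of order 8). -/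
theorem result {X : Type*} [Group X] [Finite X] (hX : IsPGroup 2 X) (hna : ¬ IsMulCommutative X)
    (hscn : ¬ ∃ A : Subgroup X, A.Normal ∧ Subgroup.centralizer (A : Set X) = A ∧
      ∃ E : Subgroup X, E ≤ A ∧ Cfsg.IsElementaryAbelian 2 E ∧ Nat.card E = 8)
    (A : Subgroup (MulAut X)) (hA : Odd (Nat.card A))
    (hXA : Subgroup.closure {g : X | ∃ φ ∈ A, ∃ x : X, g = x⁻¹ * φ x} = ⊤) :
    Nonempty (X ≃* QuaternionGroup 2) ∨
      (Cfsg.IsSpecial 2 X ∧ Nat.card X = 64 ∧ Nat.card {x : X // orderOf x = 2} = 3 ∧
        ∀ x : X, orderOf x = 2 → x ∈ Subgroup.center X) ∨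
      (Cfsg.IsExtraspecial 2 X ∧ Nat.card X = 32 ∧ Nat.card {x : X // orderOf x = 2} = 11) := by
  refine H04.N8.St.main (A := A) ⟨hX, hna, fun E hE he => ?_, hA, fun K hK => eq_top_iff.2 (hXA ▸ (Subgroup.closure_le K).2 ?_)⟩
  · by_contra! c
    obtain ⟨n, hn⟩ := H04.card_eq_pow hX E
    obtain ⟨K, -, k1, k2⟩ := H04.exists_normal_card_eq hX E 3 (by
      rw [hn] at c ⊢
      exact Nat.pow_le_pow_right two_pos ((Nat.pow_lt_pow_iff_right Nat.one_lt_two).1 (show 2 ^ 2 < _ from c)))
    have := hX.isNilpotent
    obtain ⟨N, n1, n2, -, n3⟩ := H04.exists_scn E hE he.1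
    exact hscn ⟨N, n2, n3, K, k1.trans n1, H04.IsElementaryAbelian.of_le he k1, k2⟩
  · rintro _ ⟨φ, hφ, x, rfl⟩
    exact hK φ hφ x

end Cfsg.Agent.S1904
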