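import Mathlib
import Cfsg.Statements.S1905
import Cfsg.Agent.H08.StronglyEmbedded
import Cfsg.Agent.H26.SPE

set_option autoImplicit false
open Cfsg

namespace Cfsg.Agent.S1905

/-- Let M be a subgroup of even order of a finite group S such that M contains the centralizer in S of each of its involutions and the normal core of M in S has odd order. Then all involutions of S are conjugate. If moreover N_S(X) ≤ M for a Sylow 2-subgroup X of M and I is an involution in the centre of X, then all involutions of M are conjugate in M and M = M₀ C_M(I) for some subgroup M₀ of M of odd order. -/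
theorem result {S : Type*} [Group S] [Finite S] (M : Subgroup S) (hM : Even (Nat.card M))
    (hC : ∀ i ∈ M, orderOf i = 2 → Subgroup.centralizer ({i} : Set S) ≤ M) (hcore : Odd (Nat.card M.normalCore)) :
    (∀ x y : S, orderOf x = 2 → orderOf y = 2 → IsConj x y) ∧
      ∀ (X : Sylow 2 M) (I : M), I ∈ (Subgroup.center ↥(X : Subgroup ↥M)).map (X : Subgroup ↥M).subtype → orderOf I = 2 →
        Subgroup.normalizer (((X : Subgroup M).map M.subtype : Subgroup S) : Set S) ≤ M →
        (∀ x y : M, orderOf x = 2 → orderOf y = 2 → IsConj x y) ∧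
          ∃ M₀ : Subgroup M, Odd (Nat.card M₀) ∧
            ∀ m : M, ∃ a ∈ M₀, ∃ c ∈ Subgroup.centralizer ({I} : Set M), m = a * c := by
  obtain ⟨i, hiM, hi⟩ := H08.even_card_iff.1 hM
  obtain ⟨g, hg⟩ : ∃ g : S, g * i * g⁻¹ ∉ M := by
    by_contra h
    push Not at h
    exact H08.odd_card_iff.1 hcore i (fun g => h g) hi
  have key : ∀ k ∈ M, orderOf k = 2 → ∀ l ∉ M, orderOf l = 2 → IsConj k l := by
    intro k hk hk2 l hl hl2
    have h1 := H08.mul_self_of_orderOf hk2
    have h2 := H08.mul_self_of_orderOf hl2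
    refine H08.isConj_of_odd_orderOf_mul h1 h2 (Nat.not_even_iff_odd.1 fun he => hl ?_)
    refine hC _ (hC k hk hk2 (H08.mem_centralizer_singleton_commute.2
      (H08.commute_half_pow_left h1 h2 he))) (H08.half_pow_invol he) ?_
    exact H08.mem_centralizer_singleton_commute.2 (H08.commute_half_pow_right h1 h2 he).symm
  have hj : orderOf (g * i * g⁻¹) = 2 := by rw [H08.orderOf_conj', hi]
  have key2 : ∀ x : S, orderOf x = 2 → IsConj i x := by
    intro x hx
    by_cases h : x ∈ M
    · exact (H08.isConj_conj g i).trans (key x h hx _ hg hj).symm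
    · exact key i hiM hi x h hx
  refine ⟨fun x y hx hy => (key2 x hx).symm.trans (key2 y hy), fun X I _ hI hN => ?_⟩
  have hne : M ≠ ⊤ := fun h => hg (h ▸ Subgroup.mem_top _)
  have hX := H26.isSyl_map_subtype X
  have hspe : H26.SPE 2 M := by
    by_cases hb : (X : Subgroup M).map M.subtype = ⊥
    · exact absurd hb (hX.ne_bot hM.two_dvd)
    exact H26.spe_of_centralizer hne hX (fun x hx h2 => hC x (hX.le hx) h2) hN
  have hse : Cfsg.IsStronglyEmbedded M := H08.isStronglyEmbedded_iff.2 ⟨hne, hspe.ex, hspe.mem⟩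
  have hconj := fun s t : M => fun (hs : orderOf s = 2) (ht : orderOf t = 2) =>
    H08.SE.exists_conj_inf hse hj hg ((Subgroup.orderOf_coe s).trans hs) s.2
      ((Subgroup.orderOf_coe t).trans ht) t.2
  refine ⟨fun x y hx hy => ?_, (M ⊓ M.map (MulAut.conj (g * i * g⁻¹)).toMonoidHom).subgroupOf M,
    ?_, fun m => ?_⟩
  · obtain ⟨d, hd, h1, -⟩ := hconj x y hx hy
    exact isConj_iff.2 ⟨⟨d, hd.1⟩, Subtype.ext h1⟩
  · rw [H26.card_subgroupOf inf_le_left]
    exact hse.2.2 _ hg
  · obtain ⟨d, hd, h1, -⟩ := hconj I (m * I * m⁻¹) hI (by rw [H08.orderOf_conj', hI])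
    refine ⟨⟨d, hd.1⟩, hd, (⟨d, hd.1⟩ : M)⁻¹ * m, H08.mem_centralizer_singleton'.2 ?_, by group⟩
    have h2 : (⟨d, hd.1⟩ : M) * I * (⟨d, hd.1⟩ : M)⁻¹ = m * I * m⁻¹ := Subtype.ext h1
    rw [mul_inv_rev, inv_inv, mul_assoc _ m, ← mul_assoc _ m⁻¹, mul_assoc _ _ m⁻¹, ← h2]
    group

end Cfsg.Agent.S1905
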