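import Mathlib
import Cfsg.Statements.S1924
import Cfsg.Agent.H08.Fus
import Cfsg.Agent.H08.Util
import Cfsg.Agent.H03.Focal
import Cfsg.Agent.H26.Core
import Cfsg.Agent.H01.Coprime

set_option autoImplicit false
open Cfsg

namespace Cfsg.Agent.S1924

open Subgroup

theorem index_two_of_semiregular {G : Type*} [Group G] [Finite G] (T : Subgroup G) {y : G} {m : ℕ}
    (h2 : Even (orderOf y)) (hm : Odd m) (hi : T.index = m * orderOf y)
    (h : ∀ (k : ℕ) (g : G), g⁻¹ * y ^ k * g ∈ T → y ^ k = 1) : ∃ H : Subgroup G, H.index = 2 := by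
  classical
  haveI := Fintype.ofFinite (G ⧸ T)
  obtain ⟨σ, hσ⟩ : ∃ σ, σ = MulAction.toPermHom G (G ⧸ T) y := ⟨_, rfl⟩
  have hfix : ∀ (k : ℕ) (x : G ⧸ T), (σ ^ k) x = x → orderOf y ∣ k := fun k x hx => by
    obtain ⟨g, rfl⟩ := QuotientGroup.mk_surjective x
    rw [hσ, ← map_pow] at hx
    have := QuotientGroup.eq.1 (hx.symm : (g : G ⧸ T) = ((y ^ k * g : G) : G ⧸ T))
    exact orderOf_dvd_of_pow_eq_one (h k g (by rwa [mul_assoc]))
  have hall : ∀ n ∈ σ.cycleType, n = orderOf y := fun n hn => by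
    refine Nat.dvd_antisymm ((Equiv.Perm.dvd_of_mem_cycleType hn).trans
      (hσ ▸ orderOf_map_dvd _ _)) ?_
    obtain ⟨c, τ, e, hd, hc, rfl⟩ := Equiv.Perm.mem_cycleType_iff.1 hn
    obtain ⟨x, hx, -⟩ := id hc
    refine hfix _ x ?_
    rw [e, hd.commute.mul_pow, ← hc.orderOf, pow_orderOf_eq_one, one_mul]
    exact Equiv.Perm.pow_apply_eq_self_of_apply_eq_self ((hd x).resolve_left hx) _
  have hsum : σ.cycleType.sum = m * orderOf y := by
    rw [Equiv.Perm.sum_cycleType, ← hi, index, Nat.card_eq_fintype_card, ← Finset.card_univ]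
    congr 1
    refine Finset.eq_univ_of_forall fun x => Equiv.Perm.mem_support.2 fun hx => ?_
    have := Nat.dvd_one.1 (hfix 1 x (by simpa using hx))
    rw [this] at h2
    exact absurd h2 (by decide)
  have hcard : Multiset.card σ.cycleType = m := by
    rw [Multiset.eq_replicate_card.2 hall, Multiset.sum_replicate, smul_eq_mul] at hsum
    exact Nat.eq_of_mul_eq_mul_right (orderOf_pos y) hsum
  have hs : Equiv.Perm.sign σ = -1 := by
    rw [Equiv.Perm.sign_of_cycleType, hsum, hcard]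
    exact ((h2.mul_left m).add_odd hm).neg_one_pow
  refine ⟨(Equiv.Perm.sign.comp (MulAction.toPermHom G (G ⧸ T))).ker, ?_⟩
  rw [index_ker, MonoidHom.range_eq_top.2, card_top, Nat.card_eq_fintype_card, Fintype.card_units_int]
  intro u
  rcases Int.units_eq_one_or u with rfl | rfl
  · exact ⟨1, map_one _⟩
  · exact ⟨y, by rw [MonoidHom.comp_apply, ← hσ, hs]⟩

theorem mul_inj {G : Type*} [Group G] {A B W : Subgroup G} (h : B ⊓ A = ⊥) (hA : A ≤ W) (hB : B ≤ W) :
    Function.Injective fun x : A × B => (⟨x.1 * x.2, mul_mem (hA x.1.2) (hB x.2.2)⟩ : W) := by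
  rintro ⟨a, b⟩ ⟨a', b'⟩ e
  have e : (a : G) * b = a' * b' := congrArg Subtype.val e
  have h1 : (a' : G)⁻¹ * a ∈ B ⊓ A := mem_inf.2 ⟨by
    rw [show (a' : G)⁻¹ * a = b' * (b : G)⁻¹ by rw [inv_mul_eq_iff_eq_mul, ← mul_assoc, ← e]; group]
    exact mul_mem b'.2 (inv_mem b.2), mul_mem (inv_mem a'.2) a.2⟩
  rw [h, mem_bot, inv_mul_eq_one] at h1
  rw [h1, mul_right_inj] at e
  exact Prod.ext (Subtype.ext h1.symm) (Subtype.ext e)

theorem dihedral_invol {n : ℕ} (C : Subgroup (DihedralGroup n)) [IsCyclic C] (hC : C.index = 2)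
    {x : DihedralGroup n} (hx : x ∉ C) : x * x = 1 := by
  obtain ⟨g, rfl⟩ := (Subgroup.isCyclic_iff_exists_zpowers_eq_top C).1 inferInstance
  obtain i | i := x
  · obtain k | k := g
    · have key : ∀ j, DihedralGroup.sr j ∉ zpowers (DihedralGroup.r k) := by
        rintro j ⟨m, hm⟩
        simp [DihedralGroup.r_zpow] at hm
      exact absurd ((mul_mem_iff_of_index_two hC).2 (iff_of_false hx (key 0))) (by simpa using key _)
    · obtain ⟨m, hm⟩ := mul_self_mem_of_index_two hC (DihedralGroup.r i)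
      rcases H08.eq_of_mem_zpowers_invol (DihedralGroup.orderOf_sr k) ⟨m, hm⟩ with e | e
      · exact e
      · simp at e
  · simp

/-- A consequence of Thompson's transfer lemma. Let G be a finite group, L a subgroup with O²(L) = L, T a Sylow 2-subgroup of L and S a Sylow 2-subgroup of G containing T. Suppose D ≤ S is a dihedral subgroup of order at least 4 (the four-group counts) with D ∩ T = 1 and S = TD as a set of products (so |S| = |T|·|D|), and C ≤ D is cyclic of index 2 in D. If no involution of D outside C is G-conjugate to an involution of the subgroup generated by T and C, and the involution of C is not G-conjugate to any involution of T, then G has a normal subgroup K, containing every Sylow 2-subgroup of L as a Sylow 2-subgroup, with G = KD. -/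
theorem result {G : Type*} [Group G] [Finite G] (L T S D C : Subgroup G) (hL : Cfsg.pResidual 2 ↥L = ⊤)
    (hTL : T ≤ L) (hT2 : IsPGroup 2 T) (hTsyl : ¬ 2 ∣ T.relIndex L)
    (hS2 : IsPGroup 2 S) (hSsyl : ¬ 2 ∣ S.index) (hTS : T ≤ S)
    (hDS : D ≤ S) (hDih : ∃ n : ℕ, 2 ≤ n ∧ Nonempty (↥D ≃* DihedralGroup n)) (hDT : D ⊓ T = ⊥) (hTD : T ⊔ D = S) (hTDc : Nat.card T * Nat.card D = Nat.card S)
    (hCD : C ≤ D) (hC : IsCyclic ↥C) (hCi : C.relIndex D = 2)
    (h1 : ∀ x ∈ D, x ∉ C → orderOf x = 2 → ∀ g : G, g * x * g⁻¹ ∈ T ⊔ C → False)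
    (h2 : ∀ c ∈ C, orderOf c = 2 → ∀ g : G, g * c * g⁻¹ ∈ T → False) :
    ∃ K : Subgroup G, K.Normal ∧ K ⊔ D = ⊤ ∧
      ∀ T' : Subgroup G, T' ≤ L → IsPGroup 2 T' → ¬ 2 ∣ T'.relIndex L → T' ≤ K ∧ ¬ 2 ∣ T'.relIndex K := by
  obtain ⟨n, -, ⟨e⟩⟩ := hDih
  have hDS' : D ≤ S := hDS
  have hinv : ∀ x ∈ D, x ∉ C → orderOf x = 2 := fun x hx hxC => by
    haveI : IsCyclic (C.subgroupOf D) := isCyclic_of_surjective _ (subgroupOfEquivOfLe hCD).symm.surjective
    haveI : IsCyclic ((C.subgroupOf D).map e.toMonoidHom) :=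
      isCyclic_of_surjective _ (MonoidHom.subgroupMap_surjective _ _)
    have := dihedral_invol ((C.subgroupOf D).map e.toMonoidHom) (x := e ⟨x, hx⟩)
      ((index_map_of_bijective e.bijective _).trans hCi)
      (fun h => hxC ((mem_map_iff_mem (f := e.toMonoidHom) e.injective).1 h))
    rw [← map_mul, map_eq_one_iff _ e.injective] at this
    exact H08.orderOf_eq_two_iff'.2 ⟨congrArg Subtype.val this, fun h => hxC (h ▸ one_mem _)⟩
  have hCT : C ⊓ T = ⊥ := le_bot_iff.1 (hDT ▸ inf_le_inf_right _ hCD)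
  have hW : (T ⊔ C).relIndex S = 2 := by
    have hle : T ⊔ C ≤ S := sup_le hTS (hCD.trans hDS)
    have c1 := Nat.card_le_card_of_injective _ (mul_inj hCT (le_sup_left : T ≤ T ⊔ C) le_sup_right)
    have c2 := H01.card_mul_relIndex hle
    have c3 := H01.card_mul_relIndex hCD
    have c4 : (T ⊔ C).relIndex S ≠ 1 := fun h => by
      obtain ⟨a, ha, hab⟩ := relIndex_eq_two_iff.1 hCi
      have h3 : a ∉ C := fun h' => (hab 1 (one_mem _)).elim (fun b => b.2 (one_mem _))
        fun b => b.2 (by simpa using h')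
      exact h1 a ha h3 (hinv a ha h3) 1 (by simpa using relIndex_eq_one.1 h (hDS ha))
    have c5 : (T ⊔ C).relIndex S ≠ 0 := index_ne_zero_of_finite
    have c6 : 0 < Nat.card ↥(T ⊔ C) := Nat.card_pos
    rw [Nat.card_prod] at c1
    rw [← hTDc, ← c3, hCi] at c2
    have : (T ⊔ C).relIndex S ≤ 2 := Nat.le_of_mul_le_mul_left (by nlinarith) c6
    omega
  obtain ⟨K, hK⟩ : ∃ K, K = Cfsg.pResidual 2 G := ⟨_, rfl⟩
  haveI hKn : K.Normal := hK ▸ H26.pResidual_normal
  have hLK : L ≤ K := by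
    have := H03.pResidual_map_le (p := 2) L.subtype
    rwa [hL, ← MonoidHom.range_eq_map, range_subtype, ← hK] at this
  have hTK := hTL.trans hLK
  have hDK : D ⊓ K ≤ C := fun x hx => by
    by_contra hxC
    obtain ⟨M, _, hM, hxM⟩ := H03.thompson_transfer hSsyl hW x (hinv x hx.1 hxC)
      (h1 x hx.1 hxC (hinv x hx.1 hxC))
    exact hxM (H03.pResidual_le_of_index (p := 2) M (k := 1) hM (hK ▸ hx.2))
  have hSyl : H26.IsSyl 2 S ⊤ := H26.isSyl_of_not_dvd le_top hS2 (by rwa [relIndex_top_right])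
  have hR : H26.IsSyl 2 (S ⊓ K) K := hSyl.inf_of_le le_top (normalizer_eq_top K).ge
  have hbij := (mul_inj hDT hTS hDS).bijective_of_nat_card_le (by rw [Nat.card_prod, hTDc])
  have hRc : Nat.card ↥(S ⊓ K) = Nat.card T * Nat.card ↥(D ⊓ K) := by
    rw [← Nat.card_prod]
    refine (Nat.card_congr (Equiv.ofBijective _ ⟨mul_inj (le_bot_iff.1 (hDT ▸ inf_le_inf_right _
      inf_le_left)) (le_inf hTS hTK) (inf_le_inf_right _ hDS), fun x => ?_⟩)).symm
    obtain ⟨⟨t, d⟩, h⟩ := hbij.2 ⟨x, x.2.1⟩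
    have h : (t : G) * d = x := congrArg Subtype.val h
    exact ⟨⟨t, d, d.2, (mul_mem_cancel_left (hTK t.2)).1 (h ▸ x.2.2)⟩, Subtype.ext h⟩
  have hbot : D ⊓ K = ⊥ := by
    by_contra hne
    haveI : IsCyclic ↥(D ⊓ K) := isCyclic_of_le hDK
    obtain ⟨y, hy⟩ := (Subgroup.isCyclic_iff_exists_zpowers_eq_top (D ⊓ K)).1 inferInstance
    have hyD : y ∈ D ⊓ K := hy ▸ mem_zpowers y
    have ho : orderOf (⟨y, hyD.2⟩ : K) = Nat.card ↥(D ⊓ K) := by
      rw [← hy, Nat.card_zpowers, orderOf_mk]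
    obtain ⟨H, hH⟩ := index_two_of_semiregular (T.subgroupOf K) (y := ⟨y, hyD.2⟩)
      (m := (S ⊓ K).relIndex K) (by
        rw [ho]
        exact even_iff_two_dvd.2 (H26.dvd_card_of_isPGroup (hS2.to_le (inf_le_left.trans hDS)) hne
          le_rfl)) (Nat.odd_iff.2 (Nat.two_dvd_ne_zero.1 hR.not_dvd)) (by
        rw [ho, mul_comm]
        change T.relIndex K = _
        rw [← relIndex_mul_relIndex T (S ⊓ K) K (le_inf hTS hTK) inf_le_right]
        congr 1
        exact Nat.eq_of_mul_eq_mul_left Nat.card_pos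
          ((H01.card_mul_relIndex (le_inf hTS hTK)).trans hRc)) (fun k g hg => by
        by_contra hk
        have hk' : zpowers (y ^ k) ≠ ⊥ := fun h => hk (Subtype.ext (zpowers_eq_bot.1 h))
        obtain ⟨c, hc, hc2⟩ := H26.exists_mem_orderOf_eq_of_ne_bot (hS2.to_le
          (zpowers_le.2 (pow_mem (hDS hyD.1) k))) hk'
        refine h2 c (hDK (zpowers_le.2 (pow_mem hyD k) hc)) hc2 (g : G)⁻¹ ?_
        obtain ⟨j, rfl⟩ := hc
        have := zpow_mem (show (g : G)⁻¹ * y ^ k * (g : G)⁻¹⁻¹ ∈ T by rw [inv_inv]; exact hg) j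
        rwa [conj_zpow] at this)
    subst hK
    exact H08.index_ne_two_pResidual H hH
  rw [hbot, card_bot, mul_one] at hRc
  have hTs : H26.IsSyl 2 T K := hR.of_card_le hT2 hTK hRc.le
  refine ⟨K, hKn, ?_, fun T' h1 h2 h3 => ⟨h1.trans hLK, ?_⟩⟩
  · have := H03.pResidual_sup_of_not_dvd_index (p := 2) S hSsyl
    rw [← hK, ← hTD, ← sup_assoc, sup_eq_left.2 hTK] at this
    exact this
  · exact (hTs.of_card_le h2 (h1.trans hLK) ((H26.isSyl_of_not_dvd h1 h2 h3).card_le hT2 hTL)).not_dvd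

end Cfsg.Agent.S1924
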