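import Mathlib
import Cfsg.Statements.S1939
import Cfsg.Agent.H03.Fusion

set_option autoImplicit false
open Cfsg

namespace Cfsg.Agent.S1939

/-- Let S be a Sylow p-subgroup of the finite group G and a an element of S that is the only G-conjugate of a lying in S. Then every power of a has the same property: for every n, the only G-conjugate of a^n lying in S is a^n. -/
theorem result {G : Type*} [Group G] [Finite G] {p : ℕ} [Fact p.Prime] (S : Sylow p G) (a : G)
    (haS : a ∈ (S : Subgroup G)) (hwc : ∀ g : G, g * a * g⁻¹ ∈ (S : Subgroup G) → g * a * g⁻¹ = a) (n : ℕ) :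
    ∀ g : G, g * a ^ n * g⁻¹ ∈ (S : Subgroup G) → g * a ^ n * g⁻¹ = a ^ n := by
  intro g hg
  have hW : Cfsg.IsWeaklyClosed (Subgroup.zpowers a) (S : Subgroup G) :=
    ⟨Subgroup.zpowers_le.mpr haS, fun h hh => by
      rw [MonoidHom.map_zpowers] at hh ⊢
      exact congrArg _ (hwc h (Subgroup.zpowers_le.mp hh))⟩
  have hc : ∀ s ∈ (S : Subgroup G), Commute s a := fun s hs => by
    have := hwc s (mul_mem (mul_mem hs haS) (inv_mem hs))
    exact mul_inv_eq_iff_eq_mul.mp this
  obtain ⟨c, hc1, hc2⟩ := H03.IsWC.exists_centralizer_mul_mem_normalizer hW (A := {a ^ n}) (g := g)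
    (Subgroup.zpowers_le.mpr (Subgroup.mem_centralizer_singleton_iff.mpr (Commute.self_pow a n)))
    (fun w hw b hb => by
      obtain ⟨k, rfl⟩ := hw
      rw [hb]
      exact (hc _ hg).zpow_right k)
  have h1 := hwc _ (hW.1 (H03.conj_mem_of_mem_normalizer hc2 (Subgroup.mem_zpowers a)))
  have h2 := H03.conj_eq_of_mem_centralizer hc1 (Set.mem_singleton _)
  calc g * a ^ n * g⁻¹ = g * (c * a ^ n * c⁻¹) * g⁻¹ := by rw [h2]
    _ = (g * c * a * (g * c)⁻¹) ^ n := by rw [conj_pow]; group
    _ = a ^ n := by rw [h1]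

end Cfsg.Agent.S1939
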