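import Mathlib
import Cfsg.Statements.S1940
import Cfsg.Agent.H26.Avg

set_option autoImplicit false
open Cfsg

namespace Cfsg.Agent.S1940

/-- Let the finite group L act by automorphisms on the finite abelian group M, and let N be an L-invariant subgroup of M such that M/N is a p-group on which L acts trivially (every l • m lies in the coset mN). If every element of M is a product of an element of N and an element fixed by a Sylow p-subgroup T of L, then every element of M is a product of an element of N and an element fixed by all of L. -/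
theorem result {L : Type*} [Group L] [Finite L] {M : Type*} [CommGroup M] [Finite M] [MulDistribMulAction L M]
    {p : ℕ} [Fact p.Prime] (N : Subgroup M) (hN : ∀ (l : L) (m : M), m ∈ N → l • m ∈ N)
    (hquot : IsPGroup p (M ⧸ N)) (htriv : ∀ (l : L) (m : M), (l • m) * m⁻¹ ∈ N) (T : Sylow p L)
    (hT : ∀ m : M, ∃ n ∈ N, ∃ c : M, (∀ t ∈ (T : Subgroup L), t • c = c) ∧ m = n * c) :
    ∀ m : M, ∃ n ∈ N, ∃ c : M, (∀ l : L, l • c = c) ∧ m = n * c := by
  intro m
  obtain ⟨n, hn, c, hc, rfl⟩ := hT m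
  letI : Fintype ((⊤ : Subgroup L) ⧸ (T : Subgroup L).subgroupOf ⊤) := Fintype.ofFinite _
  have h1 := H26.relNorm_mul_inv_mem (C := ⊤) hc N (fun l _ => ⟨l, trivial, by simp, htriv l c⟩)
  have h2 : ∀ l : L, l • H26.relNorm ⊤ (T : Subgroup L) c = H26.relNorm ⊤ (T : Subgroup L) c :=
    fun l => H26.smul_relNorm hc trivial
  rw [Subgroup.relIndex_top_right] at h1
  obtain ⟨k, hk⟩ := hquot (c : M ⧸ N)
  have hcop : Nat.Coprime (T : Subgroup L).index (orderOf (c : M ⧸ N)) :=
    Nat.Coprime.coprime_dvd_right (orderOf_dvd_of_pow_eq_one hk)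
      (((Nat.Prime.coprime_iff_not_dvd Fact.out).mpr T.not_dvd_index).symm.pow_right k)
  obtain ⟨j, hj⟩ := exists_pow_eq_self_of_coprime hcop
  set r := H26.relNorm ⊤ (T : Subgroup L) c with hr
  have h3 : (r : M ⧸ N) = (c : M ⧸ N) ^ (T : Subgroup L).index := by
    rw [← QuotientGroup.mk_pow, eq_comm, QuotientGroup.eq, mul_comm]
    exact h1
  have h4 : (r ^ j)⁻¹ * c ∈ N := by
    rw [← QuotientGroup.eq, QuotientGroup.mk_pow, h3, hj]
  refine ⟨n * ((r ^ j)⁻¹ * c), mul_mem hn h4, r ^ j, fun l => by rw [smul_pow', h2], ?_⟩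
  rw [mul_assoc, mul_comm ((r ^ j)⁻¹), inv_mul_cancel_right]

end Cfsg.Agent.S1940
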