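import Mathlib
import Cfsg.Statements.S1941
import Cfsg.Agent.H22.FStar
import Cfsg.Agent.H03.Fusion

set_option autoImplicit false
open Cfsg

namespace Cfsg.Agent.S1941

/-- an automorphism moving every element only inside an abelian normal `p`-subgroup and fixing a
subgroup of index prime to `p` is inner -/
theorem inner_of_cocycle {G : Type*} [Group G] [Finite G] {p : ℕ} [Fact p.Prime] (Z T : Subgroup G)
    [hZ : Z.Normal] [IsMulCommutative Z] (hp : IsPGroup p Z) (hT : ¬ p ∣ T.index) (α : MulAut G)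
    (h1 : ∀ g, α g * g⁻¹ ∈ Z) (h2 : ∀ x ∈ T, α x = x) : ∃ g : G, ∀ x, α x = g * x * g⁻¹ := by
  classical
  letI : CommGroup Z := { (inferInstance : Group Z) with mul_comm := mul_comm' }
  haveI := Fintype.ofFinite (G ⧸ T)
  let f : G ⧸ T → Z := Quotient.lift (fun g => ⟨_, h1 g⟩) fun a b hab => by
    have h3 := h2 _ (QuotientGroup.leftRel_apply.1 hab)
    apply Subtype.ext
    change α a * a⁻¹ = α b * b⁻¹
    rw [map_mul, map_inv] at h3
    rw [← mul_right_inj (α a)⁻¹, ← mul_assoc (α a)⁻¹ (α b), h3]; group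
  have hf : ∀ (h : G) (q : G ⧸ T), f (h • q) = ⟨_, h1 h⟩ * MulAut.conjNormal h (f q) := by
    intro h q
    obtain ⟨x, rfl⟩ := QuotientGroup.mk_surjective q
    apply Subtype.ext
    change α (h * x) * (h * x)⁻¹ = α h * h⁻¹ * (h * (α x * x⁻¹) * h⁻¹)
    rw [map_mul]; group
  obtain ⟨s, hs⟩ : ∃ s : Z, s = ∏ q, f q := ⟨_, rfl⟩
  have key : ∀ h : G, s = ⟨_, h1 h⟩ ^ T.index * MulAut.conjNormal h s := by
    intro h
    rw [hs, map_prod, Subgroup.index, Nat.card_eq_fintype_card, ← Finset.card_univ,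
      ← Finset.prod_const, ← Finset.prod_mul_distrib]
    exact (Fintype.prod_equiv (MulAction.toPerm h) _ _ fun q => (hf h q).symm).symm
  obtain ⟨k, hk⟩ := hp.exists_card_eq
  have hc : T.index.Coprime (Nat.card Z) := by
    rw [hk]
    exact Nat.Coprime.pow_right _ ((Nat.Prime.coprime_iff_not_dvd Fact.out).2 hT).symm
  obtain ⟨u, hu⟩ := (powCoprime hc.symm).surjective s
  refine ⟨u, fun h => ?_⟩
  have h3 := key h
  rw [← hu, powCoprime_apply, map_pow, ← mul_pow] at h3
  have h4 := congrArg Subtype.val ((powCoprime hc.symm).injective h3)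
  change (u : G) = α h * h⁻¹ * (h * u * h⁻¹) at h4
  rw [eq_mul_inv_iff_mul_eq]
  conv_rhs => rw [h4]
  group

/-- Let G be a finite group with no nontrivial normal subgroup of order prime to p, T a Sylow p-subgroup of G and E(G) the layer of G (the subgroup generated by its components). An automorphism of G of p-power order that fixes T and E(G) elementwise is inner. -/
theorem result {G : Type*} [Group G] [Finite G] {p : ℕ} [Fact p.Prime] (hcore : Cfsg.pPrimeCore p G = ⊥)
    (T : Sylow p G) (α : MulAut G) (hα : ∃ j : ℕ, orderOf α = p ^ j) (hfixT : ∀ x ∈ (T : Subgroup G), α x = x)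
    (hfixE : ∀ x ∈ Cfsg.layer G, α x = x) : ∃ g : G, ∀ x : G, α x = g * x * g⁻¹ := by
  haveI := H22.fstar_normal (G := G)
  have hle := H22.centralizer_fstar_le_fitting (G := G)
  rw [H02.fitting_eq_pCore Fact.out hcore] at hle
  haveI : IsMulCommutative (Subgroup.centralizer (Cfsg.generalizedFittingSubgroup G : Set G)) :=
    ⟨⟨fun a b => Subtype.ext (b.2 _ (H22.centralizer_fstar_le a.2))⟩⟩
  refine inner_of_cocycle (Subgroup.centralizer (Cfsg.generalizedFittingSubgroup G : Set G)) T
    ((H02.pCore_isPGroup p G).to_le hle) T.not_dvd_index α (fun g => ?_) hfixT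
  have hF : ∀ x ∈ Cfsg.generalizedFittingSubgroup G, α x = x := by
    intro x hx
    rw [H22.fstar_eq_of_pPrimeCore_eq_bot hcore] at hx
    refine (sup_le (b := Cfsg.pCore p G) (c := α.toMonoidHom.eqLocus (MonoidHom.id G)) hfixE
      fun y hy => hfixT y ?_) hx
    exact (H02.pCore_isPGroup p G).le_sylow_of_normal T hy
  intro x hx
  have h1 := hF _ (H22.fstar_normal.conj_mem x hx g⁻¹)
  rw [map_mul, map_mul, hF x hx, map_inv, inv_inv] at h1
  rw [← mul_right_inj (α g)⁻¹, ← mul_assoc, ← mul_assoc, h1]; group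

end Cfsg.Agent.S1941
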