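import Mathlib
import Cfsg.Statements.S1945
import Cfsg.Agent.H23.FP2
import Cfsg.Agent.S2799
import Cfsg.Agent.H17.Constr

set_option autoImplicit false
open Cfsg

namespace Cfsg.Agent.S1945

open BG Subgroup

theorem trace {H A : Type*} [Group H] [Finite H] [CommGroup A] (φ : H →* MulAut A) (S : Subgroup H) :
    ∃ τ : A →* A, (∀ a, (∀ s ∈ S, φ s a = a) → ∀ h, φ h (τ a) = τ a) ∧ ∀ a, (∀ h, φ h a = a) → τ a = a ^ S.index := by
  classical
  have := Fintype.ofFinite (H ⧸ S)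
  refine ⟨∏ q : H ⧸ S, (φ q.out).toMonoidHom, fun a ha h => ?_, fun a ha => ?_⟩
  · rw [MonoidHom.finsetProd_apply, map_prod]
    refine Fintype.prod_equiv (MulAction.toPerm h) _ _ fun q => ?_
    obtain ⟨s, hs⟩ := QuotientGroup.mk_out_eq_mul S (h * q.out)
    have : h • q = QuotientGroup.mk (h * q.out) := by
      conv_lhs => rw [← QuotientGroup.out_eq' q]
      rfl
    simp [this, hs, ha s s.2]
  · simp [ha, Subgroup.index, Nat.card_eq_fintype_card]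

theorem compl {G : Type*} [Group G] [Finite G] {p : ℕ} (hp : p.Prime) {S H V : Subgroup G} (hS : IsSylowIn p S H)
    (hV : IsMulCommutative V) (hVS : V ≤ S) (hH : H ≤ N_(V)) (hZ : S ⊓ C_(S) ≤ V) :
    ∃ K, K ≤ S ⊓ C_(S) ∧ (V ⊓ C_(H)) ⊓ K = ⊥ ∧ (V ⊓ C_(H)) ⊔ K = S ⊓ C_(S) := by
  obtain ⟨τ, h1, h2⟩ := @trace H V _ _ { (inferInstance : Group V) with mul_comm := hV.1.1 }
    (V.normalizerMonoidHom.comp (inclusion hH)) (S.subgroupOf H)
  have hc : ∀ v : V, (orderOf v).Coprime (S.subgroupOf H).index := fun v => by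
    obtain ⟨k, hk⟩ := pg_card hp (pg_le (IsSylowIn.pg hS hp) hVS)
    exact Nat.Coprime.coprime_dvd_left (hk ▸ orderOf_dvd_natCard v)
      (((Nat.Prime.coprime_iff_not_dvd hp).2 (IsSylowIn.not_dvd' hS hp)).pow_left k)
  have h3 : ∀ v : V, (v : G) ∈ C_(H) → τ v = v ^ (S.subgroupOf H).index := fun v hv =>
    h2 v fun h => Subtype.ext (mul_inv_eq_iff_eq_mul.2 (mem_cent.1 hv h h.2))
  have hW : V ⊓ C_(H) ≤ S ⊓ C_(S) := inf_le_inf hVS (cent_anti hS.le)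
  refine ⟨τ.ker.map V.subtype ⊓ C_(S), inf_le_inf_right _ ((map_subtype_le _).trans hVS), eq_bot_iff.2 ?_,
    le_antisymm (sup_le hW (inf_le_inf_right _ ((map_subtype_le _).trans hVS))) fun z hz => ?_⟩
  · rintro _ ⟨hv, ⟨v, h4, rfl⟩, -⟩
    have h5 := (h3 v hv.2).symm.trans h4
    rw [orderOf_eq_one_iff.1 ((hc v).eq_one_of_dvd (orderOf_dvd_of_pow_eq_one h5))]
    exact one_mem _
  · obtain ⟨v, rfl⟩ : ∃ v : V, v = z := ⟨⟨z, hZ hz⟩, rfl⟩
    have h4 : (τ v : G) ∈ C_(H) := mem_cent.2 fun h hh => mul_inv_eq_iff_eq_mul.1 (congrArg Subtype.val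
      (h1 v (fun s hs => Subtype.ext (mul_inv_eq_iff_eq_mul.2 (mem_cent.1 hz.2 s hs))) ⟨h, hh⟩))
    obtain ⟨m, hm⟩ := exists_pow_eq_self_of_coprime (hc (τ v)).symm
    have h5 : ((τ v ^ m : V) : G) ∈ V ⊓ C_(H) := ⟨(τ v ^ m).2, pow_mem h4 m⟩
    rw [← mul_inv_cancel_left ((τ v ^ m : V) : G) v]
    refine mul_mem_sup h5 ⟨⟨(τ v ^ m)⁻¹ * v, ?_, rfl⟩, C_(S).mul_mem (C_(S).inv_mem (hW h5).2) hz.2⟩
    show τ _ = 1
    rw [map_mul, map_inv, h3 _ h5.2, ← pow_mul, mul_comm m, pow_mul, hm, inv_mul_cancel]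


/-- Let S be a Sylow p-subgroup of the finite group G, and assume that p is odd or that G is solvable. The elements of S each of which is its only G-conjugate in S form a subgroup W of Z(S); W is then a direct factor of Z(S): there is a subgroup K of Z(S) with W ∩ K = 1 and WK = Z(S). (For p = 2 and G not solvable this can fail.) -/
theorem result {G : Type*} [Group G] [Finite G] {p : ℕ} [Fact p.Prime] (S : Sylow p G) (h : p ≠ 2 ∨ Group.IsSolvable G) :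
    ∃ W K : Subgroup G, (∀ x : G, x ∈ W ↔ (x ∈ (S : Subgroup G) ∧ ∀ g : G, g * x * g⁻¹ ∈ (S : Subgroup G) → g * x * g⁻¹ = x)) ∧
      K ≤ ((S : Subgroup G) ⊓ Subgroup.centralizer ((S : Subgroup G) : Set G)) ∧ W ⊓ K = ⊥ ∧ W ⊔ K = ((S : Subgroup G) ⊓ Subgroup.centralizer ((S : Subgroup G) : Set G)) := by
  have hp : p.Prime := Fact.out
  have hS := isSylowIn_top hp S
  suffices ∃ H V : Subgroup G, (S : Subgroup G) ≤ H ∧ IsMulCommutative V ∧ V ≤ S ∧ H ≤ N_(V) ∧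
      (S : Subgroup G) ⊓ C_((S : Subgroup G)) ≤ V ∧ ∀ x ∈ V ⊓ C_(H), ∀ g : G, g * x * g⁻¹ ∈ (S : Subgroup G) → g * x * g⁻¹ = x by
    obtain ⟨H, V, h1, h2, h3, h4, h5, h6⟩ := this
    obtain ⟨K, hK⟩ := compl hp (hS.sub h1 le_top) h2 h3 h4 h5
    refine ⟨_, K, fun x => ⟨fun hx : x ∈ V ⊓ C_(H) => ⟨h3 hx.1, h6 x hx⟩, fun ⟨h7, h8⟩ => ?_⟩, hK⟩
    have h9 := h5 ⟨h7, mem_cent.2 fun s hs => mul_inv_eq_iff_eq_mul.1 (h8 s (conj_mem_of_norm (le_norm _ hs) h7))⟩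
    exact ⟨h9, mem_cent.2 fun g hg => mul_inv_eq_iff_eq_mul.1 (h8 g (h3 (conj_mem_of_norm (h4 hg) h9)))⟩
  rcases h with h | h
  · refine ⟨N_(thompsonSubgroupOf 0 (S : Subgroup G)), centerThompsonOf 0 S,
      (le_norm _).trans (H17.normalizer_le_normalizer_thompsonOf 0 _), H17.centerThompsonOf_comm 0 _,
      H17.centerThompsonOf_le 0 _, H17.normalizer_thompsonOf_le_center 0 _, by
        simpa [H17.omegaOne_zero] using H17.omegaOne_center_le 0 (S : Subgroup G), fun x hx => ?_⟩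
    refine Cfsg.Agent.S2799.result S x (H17.centerThompsonOf_le 0 _ hx.1) ?_ (Or.inl h)
    rw [H17.thompsonAOf_eq]
    exact ⟨⟨x, le_norm _ hx.1.1⟩, mem_center_iff.2 fun g => Subtype.ext (mem_cent.1 hx.2 g g.2), rfl⟩
  · obtain ⟨q, hq⟩ : ∃ q, q = QuotientGroup.mk' (pPrimeCore p G) := ⟨_, rfl⟩
    have hker : q.ker = pPrimeCore p G := hq ▸ QuotientGroup.ker_mk' _
    have hd : (S : Subgroup G) ⊓ q.ker = ⊥ := by
      rw [hker]
      exact pg_inf_eq_bot hp S.isPGroup' ((Nat.Prime.coprime_iff_not_dvd hp).1 (H02.pPrimeCore_coprime p G).symm)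
    obtain ⟨L, hL⟩ : ∃ L, L = (pCore p (G ⧸ pPrimeCore p G)).comap q := ⟨_, rfl⟩
    have : L.Normal := hL ▸ inferInstance
    have hQ := hS.inf_normal (K := L) le_top le_normalizer_of_normal
    have hkL : q.ker ≤ L := hL ▸ ker_le_comap _ _
    have hLQ : L ≤ q.ker ⊔ (S ⊓ L) := H23.FP.le_of_pow hQ le_sup_right fun g hg => by
      obtain ⟨n, hn⟩ := H02.pCore_isPGroup p _ ⟨q g, hL.le hg⟩
      exact ⟨n, mem_sup_left (by rw [MonoidHom.mem_ker, map_pow]; exact congrArg Subtype.val hn)⟩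
    refine ⟨N_((S : Subgroup G) ⊓ L), (S ⊓ L) ⊓ C_((S : Subgroup G) ⊓ L), le_norm_inf le_normalizer_of_normal,
      abelian_center _, inf_le_left.trans inf_le_left, norm_inf le_rfl (norm_cent le_rfl), fun z hz =>
        ⟨⟨hz.1, hL.ge (H17.centralizer_pCore_le_of_solvable (H02.pPrimeCore_quotient_pPrimeCore p G) fun y hy => ?_)⟩,
          cent_anti inf_le_left hz.2⟩, fun x hx g hg => ?_⟩
    · obtain ⟨y, rfl⟩ := hq ▸ QuotientGroup.mk'_surjective _ y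
      obtain ⟨k, hk, s, hs, rfl⟩ := (mem_sup_norm le_normalizer_of_normal).1 (hLQ (hL.ge hy))
      rw [map_mul, q.mem_ker.1 hk, one_mul, ← map_mul, ← map_mul, mem_cent.1 hz.2 s hs.1]
    · have h1 : g ∈ q.ker ⊔ N_((S : Subgroup G) ⊓ L) := sup_le (hLQ.trans (sup_le_sup_left (le_norm _) _))
        (inf_le_right.trans le_sup_right) ((sylow_frattini hp hQ le_top le_normalizer_of_normal).ge (mem_top g))
      obtain ⟨k, hk, n, hn, rfl⟩ := (mem_sup_norm le_normalizer_of_normal).1 h1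
      refine mul_inv_eq_one.1 (eq_one_of_mem_of_disj hd (mul_mem hg (inv_mem hx.1.1.1)) ?_)
      rw [show k * n * x * (k * n)⁻¹ * x⁻¹ = k * (n * x * n⁻¹) * k⁻¹ * x⁻¹ by group, mem_cent.1 hx.2 n hn]
      simp [q.mem_ker.1 hk]

end Cfsg.Agent.S1945
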