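import Mathlib
import Cfsg.Statements.S1948
import Cfsg.Agent.H05.CT1
import Cfsg.Agent.H17.Constr

set_option autoImplicit false
open Cfsg

namespace Cfsg.Agent.S1948

/-- Let S be a Sylow p-subgroup of the finite group G. Then G = N_G(S)·O_{p'}(G) if and only if G is p-constrained and N_G(S) controls fusion in S, in the sense that whenever a subgroup Q of S has a conjugate g Q g⁻¹ inside S, the element g is a product n c with n normalizing S and c centralizing Q. -/
theorem result {G : Type*} [Group G] [Finite G] {p : ℕ} [Fact p.Prime] (S : Sylow p G) :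
    Subgroup.normalizer ((S : Subgroup G) : Set G) ⊔ Cfsg.pPrimeCore p G = ⊤ ↔
      (Cfsg.IsPConstrained p G ∧
        ∀ Q : Subgroup G, Q ≤ (S : Subgroup G) → ∀ g : G, Q.map (MulAut.conj g).toMonoidHom ≤ (S : Subgroup G) →
          ∃ n ∈ Subgroup.normalizer ((S : Subgroup G) : Set G), ∃ c ∈ Subgroup.centralizer (Q : Set G), g = n * c) := by
  set O := Cfsg.pPrimeCore p G with hO
  constructor
  · intro h
    refine ⟨?_, fun Q hQ g hg => ?_⟩
    · rw [H17.isPConstrained_iff_quot]
      let T : Sylow p (G ⧸ O) := S.mapSurjective (QuotientGroup.mk'_surjective O)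
      have hT : (T : Subgroup (G ⧸ O)).Normal := by
        refine H26.normal_of_top_le ?_
        rw [← Subgroup.map_top_of_surjective _ (QuotientGroup.mk'_surjective O), ← h, Subgroup.map_sup,
          (H22.map_mk'_eq_bot_iff (O := O)).mpr le_rfl, sup_bot_eq]
        exact H26.le_normalizer_map _ le_rfl
      refine H03.centralizer_pCore_le_of_sylow T (H02.pPrimeCore_quotient_pPrimeCore p G) ?_
      rw [H02.pCore_eq_of_normal_sylow T]
      exact inf_le_left
    · obtain ⟨n, hn, o, ho, rfl⟩ := (H26.mem_sup_of_le_normalizer (N := O)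
        Subgroup.le_normalizer_of_normal).mp (h ▸ Subgroup.mem_top g)
      refine ⟨n, hn, o, fun x hx => ?_, rfl⟩
      rw [← H26.cj_cj, H26.cj_le_iff_le_cj, H26.cj_eq_of_mem_normalizer (inv_mem hn)] at hg
      have h1 : o * x * o⁻¹ * x⁻¹ ∈ (S : Subgroup G) ⊓ O :=
        ⟨(S : Subgroup G).mul_mem (hg (H26.conj_mem_cj hx)) ((S : Subgroup G).inv_mem (hQ hx)), by
          have := mul_mem ho ((inferInstance : O.Normal).conj_mem _ (inv_mem ho) x)
          simpa [mul_assoc] using this⟩
      rw [H02.isPGroup_inf_pPrimeCore S.2, Subgroup.mem_bot] at h1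
      calc x * o = (o * x * o⁻¹ * x⁻¹)⁻¹ * (o * x) := by group
        _ = o * x := by rw [h1]; group
  · rintro ⟨h1, h2⟩
    have h3 := (H26.isSyl_top S).inf_of_le (N := Cfsg.pPrimePCore p G) le_top
      Subgroup.le_normalizer_of_normal
    have h4 := H05.core_sup_of_isSyl h3
    obtain ⟨R, -, hR⟩ := h3.exists_sylow
    have h5 := h1 R
    rw [hR] at h5
    have h6 : Cfsg.pPrimePCore p G ≤ Subgroup.normalizer ((S : Subgroup G) : Set G) ⊔ O := by
      rw [← h4]
      exact sup_le le_sup_right (inf_le_left.trans (Subgroup.le_normalizer.trans le_sup_left))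
    rw [eq_top_iff, ← h3.frattini_sup le_top Subgroup.le_normalizer_of_normal]
    refine sup_le h6 fun g hg => ?_
    obtain ⟨n, hn, c, hc, rfl⟩ := h2 _ inf_le_left g
      ((H26.cj_eq_of_mem_normalizer hg.2).le.trans inf_le_left)
    exact mul_mem (Subgroup.mem_sup_left hn) (h6 (h5 hc))

end Cfsg.Agent.S1948
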