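import Cfsg.Statements.S1949
import Mathlib
import Cfsg.Agent.H27.Four
import Cfsg.Agent.H03.PResidual
-- import your own Cfsg.Agent.* helpers here

set_option autoImplicit false
open Cfsg

namespace Cfsg.Agent.S1949

open scoped Pointwise commutatorElement

/-- Let P be a finite p-group and G a group of automorphisms of P containing the inner automorphisms. Then there is a G-invariant subgroup D of P, contained in the subgroup generated by the elements x⁻¹α(x) with x in P and α in O^p(G), of exponent dividing p when p is odd and dividing 4 when p = 2, with [D, P] ≤ Z(D), such that every automorphism in G of order prime to p that fixes D elementwise is the identity; moreover every maximal abelian subgroup A of D is normal in P and every automorphism in G fixing A elementwise has p-power order. -/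
theorem result {P : Type*} [Group P] [Finite P] {p : ℕ} [Fact p.Prime] (hP : IsPGroup p P)
    (G : Subgroup (MulAut P)) (hG : Cfsg.Inn P ≤ G) :
    ∃ D : Subgroup P,
      (∀ α ∈ G, D.map α.toMonoidHom = D) ∧
      D ≤ Subgroup.closure {y : P | ∃ α ∈ Cfsg.pResidual p ↥G, ∃ x : P, y = x⁻¹ * (α : MulAut P) x} ∧
      (∀ d ∈ D, d ^ p = 1 ∨ (p = 2 ∧ d ^ 4 = 1)) ∧
      ⁅D, (⊤ : Subgroup P)⁆ ≤ D ⊓ Subgroup.centralizer (D : Set P) ∧
      (∀ α ∈ G, (orderOf α).Coprime p → (∀ d ∈ D, α d = d) → α = 1) ∧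
      ∀ A : Subgroup P, A ≤ D → IsMulCommutative ↥A →
        (∀ B : Subgroup P, A ≤ B → B ≤ D → IsMulCommutative ↥B → B = A) →
        A.Normal ∧ ∀ α ∈ G, (∀ a ∈ A, α a = a) → ∃ k : ℕ, orderOf α = p ^ k := by
  obtain ⟨K, hK, h1, h2, h3⟩ := H27.exists_critical_small hP
  set R := Subgroup.closure {y : P | ∃ α ∈ Cfsg.pResidual p ↥G, ∃ x : P, y = x⁻¹ * (α : MulAut P) x} with hR
  have hRinv : ∀ β ∈ G, ∀ y ∈ R, β y ∈ R := by
    intro β hβ y hy
    have : R.map β.toMonoidHom ≤ R := by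
      rw [hR, MonoidHom.map_closure, Subgroup.closure_le]
      rintro _ ⟨_, ⟨α, hα, x, rfl⟩, rfl⟩
      refine Subgroup.subset_closure ⟨⟨β, hβ⟩ * α * ⟨β, hβ⟩⁻¹,
        (inferInstance : (Cfsg.pResidual p ↥G).Normal).conj_mem α hα _, β x, ?_⟩
      simp
    exact this ⟨y, hy, rfl⟩
  have hKinv : ∀ β : MulAut P, ∀ y ∈ K, β y ∈ K := fun β y hy =>
    Subgroup.characteristic_iff_map_le.1 hK β ⟨y, hy, rfl⟩
  have hDinv : ∀ β ∈ G, ∀ y ∈ K ⊓ R, β y ∈ K ⊓ R := fun β hβ y hy => ⟨hKinv β y hy.1, hRinv β hβ y hy.2⟩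
  haveI hDn : (K ⊓ R).Normal := ⟨fun y hy g => hDinv (MulAut.conj g) (hG ⟨g, rfl⟩) y hy⟩
  have hcomm : ⁅K ⊓ R, (⊤ : Subgroup P)⁆ ≤ (K ⊓ R) ⊓ Subgroup.centralizer ((K ⊓ R : Subgroup P) : Set P) :=
    le_inf (Subgroup.commutator_le_left _ _)
      ((Subgroup.commutator_mono inf_le_left le_rfl).trans (h2.trans (inf_le_right.trans
        (Subgroup.centralizer_le (show K ⊓ R ≤ K from inf_le_left)))))
  have hfix : ∀ α ∈ G, (orderOf α).Coprime p → (∀ d ∈ K ⊓ R, α d = d) → α = 1 := by
    intro α hα hc h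
    refine h3 α hc fun x hx => H04.aut_apply_eq_of_coprime hP hc (c := x⁻¹ * α x) (by simp) (h _ ⟨?_, ?_⟩)
    · exact K.mul_mem (K.inv_mem hx) (hKinv α x hx)
    · exact Subgroup.subset_closure ⟨⟨α, hα⟩, H03.mem_pResidual_of_coprime (by
        rwa [← Subgroup.orderOf_coe]), x, rfl⟩
  refine ⟨K ⊓ R, fun α hα => le_antisymm ?_ fun y hy => ?_, inf_le_right, fun d hd => h1 d hd.1, hcomm,
    hfix, fun A hA hAc hmax => ?_⟩
  · rintro _ ⟨y, hy, rfl⟩
    exact hDinv α hα y hy
  · exact ⟨α⁻¹ y, hDinv _ (G.inv_mem hα) y hy, by simp⟩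
  have hCA : ∀ x ∈ K ⊓ R, x ∈ Subgroup.centralizer (A : Set P) → x ∈ A := by
    intro x hx hxc
    have hc : IsMulCommutative ↥(A ⊔ Subgroup.zpowers x) := by
      rw [← Subgroup.le_centralizer_iff_isMulCommutative]
      have e1 : A ≤ Subgroup.centralizer ((A ⊔ Subgroup.zpowers x : Subgroup P) : Set P) := by
        rw [Subgroup.le_centralizer_iff]
        exact sup_le (Subgroup.le_centralizer A) (Subgroup.zpowers_le.2 hxc)
      have e2 : Subgroup.zpowers x ≤ Subgroup.centralizer ((A ⊔ Subgroup.zpowers x : Subgroup P) : Set P) := by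
        rw [Subgroup.le_centralizer_iff]
        exact sup_le (Subgroup.le_centralizer_iff.1 (Subgroup.zpowers_le.2 hxc)) (Subgroup.le_centralizer _)
      exact sup_le e1 e2
    rw [← hmax _ le_sup_left (sup_le hA (Subgroup.zpowers_le.2 hx)) hc]
    exact Subgroup.mem_sup_right (Subgroup.mem_zpowers x)
  constructor
  · refine ⟨fun a ha g => ?_⟩
    have h4 := hcomm (Subgroup.commutator_mem_commutator (hA (A.inv_mem ha)) (Subgroup.mem_top g))
    have h5 := hCA _ h4.1 (Subgroup.centralizer_le hA h4.2)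
    have e : g * a * g⁻¹ = a * ⁅a⁻¹, g⁆ := by rw [commutatorElement_def]; group
    rw [e]
    exact A.mul_mem ha h5
  · intro α hα hfa
    obtain ⟨u, s, hu, hs, ⟨k, hk⟩, h4, e⟩ := H03.exists_pPart_mul (p := p) α
    have hsG : s ∈ G := Subgroup.zpowers_le.2 hα hs
    have hsA : ∀ a ∈ A, s a = a := fun a ha =>
      (show Subgroup.zpowers α ≤ MulAction.stabilizer (MulAut P) a from
        Subgroup.zpowers_le.2 (hfa a ha)) hs
    have hs1 : s = 1 := by
      refine hfix s hsG h4 fun d hd => ?_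
      refine H04.aut_apply_eq_of_coprime hP h4 (c := d⁻¹ * s d) (by simp) (hsA _ (hCA _ ?_ ?_))
      · exact mul_mem (inv_mem hd) (hDinv s hsG d hd)
      · intro a ha
        have h5 := hcomm (Subgroup.commutator_mem_commutator (hA (A.inv_mem ha)) (Subgroup.mem_top d))
        have h6 : d * a * d⁻¹ ∈ A := by
          have e : d * a * d⁻¹ = a * ⁅a⁻¹, d⁆ := by rw [commutatorElement_def]; group
          rw [e]
          exact A.mul_mem ha (hCA _ h5.1 (Subgroup.centralizer_le hA h5.2))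
        have h7 := hsA _ h6
        rw [map_mul, map_mul, map_inv, hsA a ha] at h7
        calc a * (d⁻¹ * s d) = d⁻¹ * (d * a * d⁻¹) * s d := by group
          _ = d⁻¹ * s d * a := by rw [← h7]; group
    exact ⟨k, by rw [e, hs1, mul_one, hk]⟩

end Cfsg.Agent.S1949
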