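import Mathlib
import Cfsg.Statements.S1952
import Cfsg.Agent.S2807

set_option autoImplicit false
open Cfsg

namespace Cfsg.Agent.S1952

open scoped IsMulCommutative

theorem aux_dual0 {V : Type*} [AddCommGroup V] {p : ℕ} [Fact p.Prime] [Module (ZMod p) V] {v : V} (hv : v ≠ 0) :
    ∃ f : V →+ ZMod p, f v ≠ 0 := by
  obtain ⟨f, hf⟩ := Module.Projective.exists_dual_ne_zero (ZMod p) hv
  exact ⟨f.toAddMonoidHom, hf⟩

theorem aux_dual {A : Type*} [CommGroup A] {p : ℕ} [Fact p.Prime] (hA : ∀ a : A, a ^ p = 1) {a : A} (ha : a ≠ 1) :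
    ∃ ψ : A →* Multiplicative (ZMod p), ψ a ≠ 1 := by
  have ha' : (Additive.ofMul a : Additive A) ≠ 0 := ha
  obtain ⟨f, hf⟩ := @aux_dual0 (Additive A) _ p _ (AddCommGroup.zmodModule (fun x => hA x.toMul)) _ ha'
  exact ⟨AddMonoidHom.toMultiplicativeRight f, hf⟩

/-- Let P be a finite p-group with a normal elementary abelian subgroup A of index p, and let x ∈ A and y ∈ P with y outside A. If the product of the p conjugates y^(-i) x y^i (i = 0, …, p−1) is not the identity, then the wreath product Z_p ≀ Z_p, realised as a Sylow p-subgroup of the symmetric group of degree p², is a homomorphic image of P. -/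
theorem result {P : Type*} [Group P] [Finite P] {p : ℕ} [Fact p.Prime] (hP : IsPGroup p P) (A : Subgroup P) [A.Normal]
    (hA : Cfsg.IsElementaryAbelian p A) (hidx : A.index = p) (x y : P) (hx : x ∈ A) (hy : y ∉ A)
    (hprod : ((List.range p).map (fun i => (y ^ i)⁻¹ * x * y ^ i)).prod ≠ 1) :
    ∃ (Q : Sylow p (Equiv.Perm (Fin (p ^ 2)))) (f : P →* ↥(Q : Subgroup (Equiv.Perm (Fin (p ^ 2))))), Function.Surjective f := by
  haveI := hA.1
  have hmem : ∀ i : ℕ, (y ^ i)⁻¹ * x * y ^ i ∈ A := fun i => Subgroup.Normal.conj_mem' inferInstance x hx _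
  let a : A := ∏ i ∈ Finset.range p, ⟨_, hmem i⟩
  have ha : a ≠ 1 := by
    intro h
    apply hprod
    have : ∀ n, ((List.range n).map (fun i => (y ^ i)⁻¹ * x * y ^ i)).prod =
        ((∏ i ∈ Finset.range n, (⟨_, hmem i⟩ : A) : A) : P) := by
      intro n
      induction n with
      | zero => simp
      | succ n ih => rw [List.range_succ, List.map_append, List.prod_append, ih, Finset.prod_range_succ]; simp
    rw [this]
    exact congrArg Subtype.val h
  obtain ⟨ψ, hψ⟩ := aux_dual (p := p) (fun a : A => Subtype.ext (hA.2 a a.2)) ha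
  refine S2807.aux hP A hidx hx hy ψ ?_
  rw [H03.map_iter_eq_prod ψ y hx, ← map_prod]
  exact hψ

end Cfsg.Agent.S1952
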