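import Mathlib
import Cfsg.Statements.S1953
import Cfsg.Agent.H17.Stab2
import Cfsg.Agent.H28.Qd
import Cfsg.Agent.H26.Burn
import Cfsg.Agent.H01.Gaschutz

set_option autoImplicit false
open Cfsg

namespace Cfsg.Agent.S1953

section
open Subgroup H26 H17
open scoped MatrixGroups

universe u
set_option linter.unusedSectionVars false

variable {G : Type u} [Group G] [Finite G] {p : ℕ} [Fact p.Prime]

theorem exists_HK (h : Sec (qd p) G) : ∃ Q : Subgroup G, IsPGroup p Q ∧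
    ∃ (H K : Subgroup G) (_ : (K.subgroupOf H).Normal), 𝐂(Q) ≤ K ∧ K ≤ H ∧ H ≤ 𝐍(Q) ∧
      Nonempty ((↥H ⧸ K.subgroupOf H) ≃* SL(2, ZMod p)) := by
  obtain ⟨Q, hQ, θ, -, hs, h⟩ := H28.nat_of_sec_qd h
  have uniq : ∀ (g : G) (s t : SL(2, ZMod p)), (∀ q ∈ Q, θ (g * q * g⁻¹) = H28.nact s (θ q)) →
      (∀ q ∈ Q, θ (g * q * g⁻¹) = H28.nact t (θ q)) → s = t := fun g s t h1 h2 =>
    H28.nact_ext fun v => by obtain ⟨q, hq, rfl⟩ := hs v; rw [← h1 q hq, h2 q hq]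
  have mul : ∀ (g k : G) (s t : SL(2, ZMod p)), k ∈ 𝐍(Q) → (∀ q ∈ Q, θ (g * q * g⁻¹) = H28.nact s (θ q)) →
      (∀ q ∈ Q, θ (k * q * k⁻¹) = H28.nact t (θ q)) →
      ∀ q ∈ Q, θ (g * k * q * (g * k)⁻¹) = H28.nact (s * t) (θ q) := fun g k s t hk h1 h2 q hq => by
    rw [H28.nact_mul, ← h2 q hq, ← h1 _ ((mem_normalizer_iff.1 hk q).1 hq)]
    congr 1; group
  have one : ∀ c ∈ 𝐂(Q), ∀ q ∈ Q, θ (c * q * c⁻¹) = H28.nact 1 (θ q) := fun c hc q hq => by
    rw [conj_eq_of_cent hc hq, H28.nact_one]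
  let H : Subgroup G :=
    { carrier := {g | g ∈ 𝐍(Q) ∧ ∃ s, ∀ q ∈ Q, θ (g * q * g⁻¹) = H28.nact s (θ q)}
      mul_mem' := fun ⟨h1, s, h2⟩ ⟨h3, t, h4⟩ => ⟨mul_mem h1 h3, s * t, mul _ _ s t h3 h2 h4⟩
      one_mem' := ⟨one_mem _, 1, one 1 (one_mem _)⟩
      inv_mem' := fun {g} ⟨h1, s, h2⟩ => ⟨inv_mem h1, s⁻¹, fun q hq => by
        have := h2 _ ((mem_normalizer_iff.1 (inv_mem h1) q).1 hq)
        rw [show g * (g⁻¹ * q * g⁻¹⁻¹) * g⁻¹ = q by group] at this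
        rw [this, ← H28.nact_mul, inv_mul_cancel, H28.nact_one]⟩ }
  let ψ : H →* SL(2, ZMod p) := MonoidHom.mk' (fun g => g.2.2.choose) fun g k =>
    uniq _ _ _ (g * k).2.2.choose_spec (mul _ _ _ _ k.2.1 g.2.2.choose_spec k.2.2.choose_spec)
  have hψ : Function.Surjective ψ := fun s => by
    obtain ⟨g, hg, h1⟩ := h s
    have hg' : g ∈ H := ⟨hg, s, h1⟩
    exact ⟨⟨g, hg'⟩, uniq g _ _ hg'.2.choose_spec h1⟩
  have e := map_subtype_subgroupOf ψ.ker
  haveI hn : ((ψ.ker.map H.subtype).subgroupOf H).Normal := by rw [e]; infer_instance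
  refine ⟨Q, hQ, H, ψ.ker.map H.subtype, hn, fun c hc => ?_, map_subtype_le _,
    fun _ h => h.1, ⟨(QuotientGroup.quotientMulEquivOfEq e).trans
      (QuotientGroup.quotientKerEquivOfSurjective ψ hψ)⟩⟩
  have hc' : c ∈ H := ⟨H26.centralizer_le_normalizer _ hc, 1, one c hc⟩
  exact ⟨⟨c, hc'⟩, uniq c _ _ hc'.2.choose_spec (one c hc), rfl⟩

/-- a normal subgroup of the fusion system which is not centric can be enlarged -/
theorem grow (hp : p ≠ 2) (h : ¬ Sec (qd p) G) (P : Sylow p G) {Q : Subgroup G} [Q.Normal] (hQ : Q ≤ P)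
    (hc : ¬ (P : Subgroup G) ⊓ 𝐂(Q) ≤ Q) : ∃ W, Q < W ∧ W ≤ P ∧ MCtl (SM 𝐍(W)) P ⊤ := by
  let f := QuotientGroup.mk' Q
  have hf : Function.Surjective f := QuotientGroup.mk'_surjective Q
  have hD : IsStronglyClosed ((P : Subgroup G) ⊓ 𝐂(Q)) P := ⟨inf_le_left, fun x hx g hg =>
    ⟨hg, Normal.conj_mem inferInstance _ hx.2 g⟩⟩
  have hD' := H08.SC.quotient hD Q
  have h1 := H03.AmbF.ctl_of_not_sec_qd (H03.AmbF.zjlike_zj hp (Or.inl rfl)) hp (fun h' => h h'.of_quotient)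
    (P.mapSurjective hf) hD'
  obtain ⟨Z, hZ⟩ : ∃ Z, Z = centerThompsonOf 0 (((P : Subgroup G) ⊓ 𝐂(Q)).map f) := ⟨_, rfl⟩
  replace h1 : H03.Ctl ⊤ 𝐍(Z) ((P : Subgroup G).map f) := hZ ▸ h1
  have hZD : Z ≤ ((P : Subgroup G) ⊓ 𝐂(Q)).map f := hZ ▸ centerThompsonOf_le _ _
  have hZ0 : Z ≠ ⊥ := hZ ▸ (H03.AmbF.zj 0 (Or.inl rfl)).ne _ _ ((P.2.to_le inf_le_left).map f) fun e =>
    hc (by rwa [Subgroup.map_eq_bot_iff, QuotientGroup.ker_mk'] at e)
  have hW : Z.comap f ≤ ((P : Subgroup G) ⊓ 𝐂(Q)) ⊔ Q := by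
    have := comap_mono (f := f) hZD
    rwa [comap_map_eq, QuotientGroup.ker_mk'] at this
  have hWP : Z.comap f ≤ P := hW.trans (sup_le inf_le_left hQ)
  have hQW : Q ≤ Z.comap f := QuotientGroup.le_comap_mk' Q Z
  obtain ⟨n, hn⟩ := (isNilpotent_iff_lowerCentralSeries (S := Q)).1 (P.2.to_le hQ).isNilpotent
  have hnm : ∀ i, (Q.lowerCentralSeries i).Normal := fun i => by
    induction i with
    | zero => exact inferInstanceAs Q.Normal
    | succ i ih => rw [Subgroup.lowerCentralSeries_succ]; infer_instance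
  refine ⟨Z.comap f, lt_of_le_of_ne hQW fun e => hZ0 ?_, hWP, sm_of_chain' P
    (fun i => Nat.casesOn i (Z.comap f) fun j => Q.lowerCentralSeries j) rfl (n := n + 1) hn
    (fun i => ?_) fun i => ?_⟩
  · rw [← map_comap_eq_self_of_surjective hf Z, ← e, Subgroup.map_eq_bot_iff, QuotientGroup.ker_mk']
  · cases i with
    | zero =>
      refine le_trans ((Subgroup.map_eq_bot_iff _).1 ?_) (QuotientGroup.ker_mk' Q).le
      change ⁅Z.comap f, Z.comap f⁆.map f = ⊥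
      rw [Subgroup.map_commutator, map_comap_eq_self_of_surjective hf, commutator_eq_bot_iff']
      exact isMulCommutative_iff_le.1 (hZ ▸ centerThompsonOf_comm _ _)
    | succ i =>
      haveI := hnm (i + 1)
      refine (commutator_mono le_rfl hW).trans (commutator_sup_le' (norm_of_normal _ _) (norm_of_normal _ _)
        ?_ le_rfl)
      exact (commutator_eq_bot_iff'.2 (inf_le_right.trans (centralizer_anti
        (Q.lowerCentralSeries_antitone (Nat.zero_le i))))).le.trans bot_le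
  · cases i with
    | zero =>
      refine ⟨hWP, fun x hx g hg => ?_⟩
      obtain ⟨y, hy, e⟩ := h1 (zpowers (f x)) (f g) (mem_top _) (zpowers_le.2 ⟨x, hWP hx, rfl⟩) (by
        rw [cj_zpowers]; exact zpowers_le.2 ⟨_, hg, by simp⟩)
      change f (g * x * g⁻¹) ∈ Z
      rw [map_mul, map_mul, map_inv, ← e _ (mem_zpowers _)]
      exact (mem_normalizer_iff.1 hy _).1 hx
    | succ i => exact ⟨(Q.lowerCentralSeries_antitone (Nat.zero_le i)).trans hQ,
        fun x hx g _ => (hnm i).conj_mem x hx g⟩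

theorem sm_trans {P L M : Subgroup G} (h1 : MCtl (SM L) P ⊤) (h2 : MCtl (SM M) P L) : MCtl (SM M) P ⊤ := by
  intro A g hA hg hgA
  obtain ⟨x, hx, e⟩ := h1 A g hA hg hgA
  obtain ⟨y, hy, e'⟩ := h2 A x hA hx (by rwa [cj_eq_of_agree e])
  exact ⟨y, hy, fun a ha => (e' a ha).trans (e a ha)⟩

theorem sm_sub {P L : Subgroup G} (hP : P ≤ L) {W : Subgroup L}
    (h : MCtl (SM 𝐍(W)) (P.subgroupOf L) ⊤) : MCtl (SM 𝐍(W.map L.subtype)) P L := by
  intro A g hA hg hgA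
  obtain ⟨x, hx, e⟩ := h (A.subgroupOf L) ⟨g, hg⟩ (subgroupOf_mono L hA) (mem_top _) (by
    rw [cj_subgroupOf]; exact subgroupOf_mono L hgA)
  exact ⟨x, (map_subtype_normalizer W ▸ mem_map_of_mem L.subtype hx).2,
    fun a ha => congrArg Subtype.val (e ⟨a, hP (hA ha)⟩ ha)⟩

theorem sm_radical (P : Sylow p G) {Q X : Subgroup G} (hQ : Q ≤ P) (hPQ : (P : Subgroup G) ≤ 𝐍(Q))
    (hc : (P : Subgroup G) ⊓ 𝐂(Q) ≤ Q) (h1 : X ≤ 𝐍(Q)) (h2 : 𝐍(Q) ≤ 𝐍(X))
    (h3 : pResidualOf p X ≤ Q ⊔ 𝐂(Q)) : MCtl (SM 𝐍((P : Subgroup G) ⊓ X)) P 𝐍(Q) := by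
  have hS := isSyl_of_le P hPQ
  have hC := hS.inf_of_le (H26.centralizer_le_normalizer Q) (H26.normalizer_le_normalizer_centralizer Q)
  have hO : ¬ p ∣ Nat.card (pResidualOf p X) := fun h =>
    hC.not_dvd_pResidualOf_of_central (centralizer_anti hc) (h.trans (card_dvd_of_le (by
      have := pResidualOf_mono (p := p) h3
      rwa [pResidualOf_idem, pResidualOf_sup_eq (P.2.to_le hQ) (le_normalizer_centralizer le_normalizer)]
        at this)))
  have hX := hS.inf_of_le h1 h2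
  have hOL := (pResidualOf_le (p := p) X).trans h1
  haveI : ((pResidualOf p X).subgroupOf 𝐍(Q)).Normal :=
    normal_subgroupOf_of_le_normalizer (le_normalizer_pResidualOf' h2)
  obtain ⟨P₀, hP₀, -⟩ := hS.exists_sylow
  have h4 := H03.Ctl.of_quotient_coprime P₀ (M := 𝐍((P : Subgroup G) ⊓ X).subgroupOf 𝐍(Q))
    (hP₀ ▸ subgroupOf_mono _ (le_normalizer_inf le_normalizer (hPQ.trans h2)))
    ((pResidualOf p X).subgroupOf 𝐍(Q)) (by
      rw [card_subgroupOf hOL]; exact ((Nat.Prime.coprime_iff_not_dvd Fact.out).2 hO).symm)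
    (H03.Ctl.of_le (by
      rintro x -
      obtain ⟨x, rfl⟩ := QuotientGroup.mk'_surjective _ x
      obtain ⟨y, hy, n, hn, e⟩ := hX.frattini' h2 x.2
      obtain ⟨a, ha, b, hb, rfl⟩ := (mem_sup_of_le_normalizer
        (inf_le_right.trans (le_normalizer_pResidualOf X))).1 (hX.sup_pResidualOf.ge hn)
      have h5 : x * (⟨b, hOL hb⟩ : 𝐍(Q))⁻¹ ∈ 𝐍((P : Subgroup G) ⊓ X).subgroupOf 𝐍(Q) := by
        change (x : G) * b⁻¹ ∈ 𝐍((P : Subgroup G) ⊓ X)
        rw [e, ← mul_assoc, mul_inv_cancel_right]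
        exact mul_mem hy (le_normalizer ha)
      refine ⟨_, h5, ?_⟩
      rw [map_mul, map_inv, mul_inv_eq_iff_eq_mul, left_eq_mul]
      exact (QuotientGroup.eq_one_iff _).2 hb))
  rw [hP₀] at h4
  intro A g hA hg hgA
  obtain ⟨x, hx, e⟩ := h4.of_subgroupOf hPQ A g hg hA hgA
  exact ⟨x, ((subgroupOf_map_subtype _ _).le hx).1, e⟩

end

/-- Let p be an odd prime and P a Sylow p-subgroup of the finite group G, and suppose that for no p-subgroup Q of G does N_G(Q)/C_G(Q) have a section isomorphic to SL₂(p). Call a subgroup Q of P centric-radical when Z(Q) is a Sylow p-subgroup of C_G(Q) and the only normal subgroup X of N_G(Q) containing Q·C_G(Q) such that the index of Q·C_G(Q) in X is a power of p is Q·C_G(Q) itself (that is, N_G(Q)/Q·C_G(Q) has no nontrivial normal p-subgroup). Then there is a centric-radical subgroup Q of P contained in every centric-radical subgroup of P; it is normal in P, and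 N_G(Q) controls strong fusion in P: whenever a subgroup A of P has g A g⁻¹ ≤ P, the element g is a product h c with h in N_G(Q) and c centralizing A. -/
theorem result {G : Type*} [Group G] [Finite G] {p : ℕ} [Fact p.Prime] (hp : p ≠ 2) (P : Sylow p G)
    (hfree : ∀ Q : Subgroup G, IsPGroup p ↥Q → ¬ ∃ (H K : Subgroup G) (_ : (K.subgroupOf H).Normal),
      Subgroup.centralizer (Q : Set G) ≤ K ∧ K ≤ H ∧ H ≤ Subgroup.normalizer (Q : Set G) ∧
      Nonempty ((↥H ⧸ K.subgroupOf H) ≃* Matrix.SpecialLinearGroup (Fin 2) (ZMod p)))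
    (cr : Subgroup G → Prop)
    (hcr : ∀ Q : Subgroup G, cr Q ↔ (Q ≤ (P : Subgroup G) ∧
      (∃ R : Sylow p ↥(Subgroup.centralizer (Q : Set G)),
        (R : Subgroup ↥(Subgroup.centralizer (Q : Set G))).map (Subgroup.centralizer (Q : Set G)).subtype = Q ⊓ Subgroup.centralizer (Q : Set G)) ∧
      ∀ X : Subgroup G, X ≤ Subgroup.normalizer (Q : Set G) →
        (∀ n ∈ Subgroup.normalizer (Q : Set G), X.map (MulAut.conj n).toMonoidHom = X) →
        Q ⊔ Subgroup.centralizer (Q : Set G) ≤ X → (∃ k : ℕ, (Q ⊔ Subgroup.centralizer (Q : Set G)).relIndex X = p ^ k) →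
        X = Q ⊔ Subgroup.centralizer (Q : Set G))) :
    ∃ Q : Subgroup G, cr Q ∧ (∀ R : Subgroup G, cr R → Q ≤ R) ∧ (∀ x ∈ (P : Subgroup G), Q.map (MulAut.conj x).toMonoidHom = Q) ∧
      ∀ A : Subgroup G, A ≤ (P : Subgroup G) → ∀ g : G, A.map (MulAut.conj g).toMonoidHom ≤ (P : Subgroup G) →
        ∃ h ∈ Subgroup.normalizer (Q : Set G), ∃ c ∈ Subgroup.centralizer (A : Set G), g = h * c := by
  open Subgroup H26 H17 in
  have hqd : ¬ Sec (qd p) G := fun h => by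
    obtain ⟨Q, hQ, h⟩ := exists_HK h
    exact hfree Q hQ h
  obtain ⟨Q, ⟨hQ, hc⟩, hmax⟩ := exists_max_mem
    (𝓕 := {X : Subgroup G | X ≤ P ∧ MCtl (SM 𝐍(X)) P ⊤})
    ⟨⊥, bot_le, fun A g _ _ _ => SM.of_mem A (norm_of_normal ⊤ ⊥ (mem_top g))⟩
  have hle : ∀ X : Subgroup G, X ≤ P → MCtl (SM 𝐍(X)) P ⊤ → X ≤ Q := fun X h1 h2 => by
    have h3 := sm_sup (H := ⊤) (V₂ := X) hQ (by rwa [top_inf_eq]) (by rwa [top_inf_eq])
    rw [top_inf_eq] at h3
    exact hmax _ ⟨sup_le hQ h1, h3⟩ le_sup_left ▸ le_sup_right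
  have hPQ : (P : Subgroup G) ≤ 𝐍(Q) := fun x hx => by
    obtain ⟨y, hy, e⟩ := hc P x le_rfl (mem_top x) (cj_eq_self_of_mem hx).le
    rw [← cj_eq_iff, ← cj_eq_of_agree fun a ha => e a (hQ ha), cj_eq_of_mem_normalizer hy]
  have hS := isSyl_of_le P hPQ
  have hcen : (P : Subgroup G) ⊓ 𝐂(Q) ≤ Q := by
    by_contra h
    obtain ⟨P₀, hP₀, hP₀'⟩ := hS.exists_sylow
    obtain ⟨W, h1, h2, h3⟩ := grow hp (fun h => hqd h.of_subgroup) P₀ (Q := Q.subgroupOf 𝐍(Q))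
      (hP₀ ▸ subgroupOf_mono _ hQ) fun h1 => h fun x hx => h1 (x := ⟨x, hPQ hx.1⟩) ⟨hP₀ ▸ hx.1, by
        rw [H26.centralizer_subgroupOf le_normalizer]; exact hx.2⟩
    rw [hP₀] at h3
    exact h1.not_ge fun x hx => hle _ (hP₀' ▸ map_mono h2) (sm_trans hc (sm_sub hPQ h3)) ⟨x, hx, rfl⟩
  refine ⟨Q, (hcr Q).2 ⟨hQ, ?_, fun X h1 h2 h3 ⟨k, hk⟩ => ?_⟩, fun R hR => ?_,
    fun x hx => cj_eq_of_mem_normalizer (hPQ hx), fun A hA g hg => sm_iff.1 (hc A g hA (mem_top g) hg)⟩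
  · obtain ⟨R, -, hR⟩ := (hS.inf_of_le (H26.centralizer_le_normalizer Q)
      (H26.normalizer_le_normalizer_centralizer Q)).exists_sylow
    exact ⟨R, hR.trans (le_antisymm (le_inf hcen inf_le_right) (inf_le_inf_right _ hQ))⟩
  · have h2' : 𝐍(Q) ≤ 𝐍(X) := fun n hn => cj_eq_iff.1 (h2 n hn)
    haveI : ((Q ⊔ 𝐂(Q)).subgroupOf X).Normal := normal_subgroupOf_of_le_normalizer
      (h1.trans (le_normalizer_sup le_rfl (H26.normalizer_le_normalizer_centralizer Q)))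
    have h4 : pResidualOf p X ≤ Q ⊔ 𝐂(Q) := pResidualOf_le_of_pow fun x hx =>
      ⟨k, hk ▸ (pow_index_mem ((Q ⊔ 𝐂(Q)).subgroupOf X) ⟨x, hx⟩ :)⟩
    have h5 := hle _ inf_le_left (sm_trans hc (sm_radical P hQ hPQ hcen h1 h2' h4))
    exact le_antisymm ((hS.inf_of_le h1 h2').sup_pResidualOf.ge.trans (sup_le (le_sup_of_le_left h5) h4)) h3
  · obtain ⟨r1, ⟨T, hT⟩, r3⟩ := (hcr R).1 hR
    have hRC : 𝐍(R) ≤ 𝐍(R ⊔ 𝐂(R)) := le_normalizer_sup le_rfl (H26.normalizer_le_normalizer_centralizer R)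
    have h1 := r3 ((Q ⊓ 𝐍(R)) ⊔ (R ⊔ 𝐂(R))) (sup_le inf_le_right (sup_le le_normalizer
      (H26.centralizer_le_normalizer R))) (fun n hn => by
        obtain ⟨h, hh, c, hc', rfl⟩ := sm_iff.1 (hc R n r1 (mem_top n) (cj_le_of_le_of_mem_normalizer le_rfl hn |>.trans r1))
        have hhR : h ∈ 𝐍(R) := by
          have := mul_mem hn (inv_mem (H26.centralizer_le_normalizer R hc'))
          rwa [mul_inv_cancel_right] at this
        refine cj_eq_of_mem_normalizer (mul_mem (le_normalizer_sup (H := zpowers h) (le_normalizer_inf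
          (zpowers_le.2 hh) (zpowers_le.2 (le_normalizer hhR))) (zpowers_le.2 (hRC hhR)) (mem_zpowers h))
          (le_normalizer (mem_sup_right (mem_sup_right hc'))))) le_sup_right (by
        obtain ⟨k, hk⟩ := (P.2.to_le (inf_le_left.trans hQ : Q ⊓ 𝐍(R) ≤ P)).exists_card_eq
        obtain ⟨j, -, hj⟩ := (Nat.dvd_prime_pow Fact.out).1
          (hk ▸ H01.relIndex_sup_dvd_card (inf_le_right.trans hRC))
        exact ⟨j, hj⟩)
    have h2 : (P : Subgroup G) ⊓ 𝐂(R) ≤ R := by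
      have h3 := hT ▸ isSyl_map_subtype T
      exact ((h3.max _ (P.2.to_le inf_le_left) (inf_le_inf_right _ r1) inf_le_right).le).trans inf_le_left
    have h3 : Q ⊓ 𝐍(R) ≤ R := by
      have h4 : Q ⊓ 𝐍(R) ≤ (P : Subgroup G) ⊓ (R ⊔ 𝐂(R)) := le_inf (inf_le_left.trans hQ) (h1 ▸ le_sup_left)
      rw [inf_sup_eq_of_le_normalizer (le_normalizer_centralizer le_normalizer) r1] at h4
      exact h4.trans (sup_le le_rfl h2)
    refine le_sup_right.trans (le_of_inf_normalizer_le (P.2.to_le (sup_le r1 hQ)) le_sup_left ?_)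
    rw [inf_comm, inf_sup_eq_of_le_normalizer (r1.trans hPQ) le_normalizer, inf_comm]
    exact sup_le le_rfl h3

end Cfsg.Agent.S1953
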