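import Cfsg.Statements.S1956
import Mathlib
import Cfsg.Agent.H03.Fusion
-- import your own Cfsg.Agent.* helpers here

set_option autoImplicit false
open Cfsg

namespace Cfsg.Agent.S1956

open scoped Pointwise commutatorElement

/-- Let P be a Sylow p-subgroup of the finite group G such that every element of P of order dividing p (dividing 4 when p = 2) is central in P. Then the fusion of these elements is controlled by N_G(P): if such an element a of P has g a g⁻¹ in P, then g = n c with n normalizing P and c commuting with a. -/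
theorem result {G : Type*} [Group G] [Finite G] {p : ℕ} [Fact p.Prime] (P : Sylow p G)
    (hcen : ∀ a ∈ (P : Subgroup G), (a ^ p = 1 ∨ (p = 2 ∧ a ^ 4 = 1)) → ∀ y ∈ (P : Subgroup G), a * y = y * a) :
    ∀ a ∈ (P : Subgroup G), (a ^ p = 1 ∨ (p = 2 ∧ a ^ 4 = 1)) → ∀ g : G, g * a * g⁻¹ ∈ (P : Subgroup G) →
      ∃ n ∈ Subgroup.normalizer ((P : Subgroup G) : Set G), ∃ c : G, c * a = a * c ∧ g = n * c := by
  intro a ha hs g hg
  have hs' : (g * a * g⁻¹) ^ p = 1 ∨ (p = 2 ∧ (g * a * g⁻¹) ^ 4 = 1) := by
    rcases hs with hs | ⟨h2, hs⟩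
    · left; rw [conj_pow, hs]; group
    · right; refine ⟨h2, ?_⟩; rw [conj_pow, hs]; group
  obtain ⟨c, hc, hn⟩ := H03.exists_mul_mem_normalizer_sylow P
    (C := Subgroup.centralizer ({a} : Set G)) (g := g)
    (fun x hx => Subgroup.mem_centralizer_singleton_iff.2 (hcen a ha hs x hx).symm)
    (fun x hx => Subgroup.mem_centralizer_singleton_iff.2 (by
      have := hcen _ hg hs' x hx
      calc g⁻¹ * x * g * a = g⁻¹ * (x * (g * a * g⁻¹)) * g := by group
        _ = a * (g⁻¹ * x * g) := by rw [← this]; group))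
  refine ⟨g * c, hn, c⁻¹, Subgroup.mem_centralizer_singleton_iff.1 (Subgroup.inv_mem _ hc), by group⟩

end Cfsg.Agent.S1956
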