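import Mathlib
import Cfsg.Statements.S2015
import Cfsg.Agent.H17.Red3

set_option autoImplicit false
universe u
open Cfsg

namespace Cfsg.Agent.S2015

/-- For p ≥ 5, every finite p-group P has a characteristic subgroup K containing Z(P), depending only on P, whose normalizer controls transfer wherever P is a Sylow subgroup: for every finite group G and every embedding ι of P onto a Sylow p-subgroup of G, the intersection of ι(P) with the derived subgroup of G equals its intersection with the derived subgroup of N_G(ι(K)). -/
theorem result (p : ℕ) [Fact p.Prime] (hp : 5 ≤ p) (P : Type u) [Group P] [Finite P] (hP : IsPGroup p P) : ∃ K : Subgroup P, K.Characteristic ∧ Subgroup.center P ≤ K ∧ ∀ (G : Type u) [Group G] [Finite G] (ι : P →* G), Function.Injective ι → (∃ T : Sylow p G, (T : Subgroup G) = ι.range) → ι.range ⊓ commutator G = ι.range ⊓ (commutator ↥(Subgroup.normalizer ((K.map ι : Subgroup G) : Set G))).map (Subgroup.normalizer ((K.map ι : Subgroup G) : Set G)).subtype := by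
  refine ⟨Cfsg.kInfLower P, H17.IsCharPFunctor.characteristic H17.isCharP_kInfLower hP, ?_, ?_⟩
  · rw [← H17.kLo_top]
    exact fun x hx => H17.center_le_kLo ⊤ ⟨Subgroup.mem_top x, fun y _ => Subgroup.mem_center_iff.1 hx y⟩
  · rintro G _ _ ι hι ⟨T, hT⟩
    have h := H17.tr_eq (H17.isConj_ind H17.isCharP_kInfLower) (H17.kLo_tr hp) T
    rw [H17.induced_kInfLower, hT] at h
    rw [h, Subgroup.map_subtype_commutator, ← H17.kLo_top, ← H17.kLo_map hι, ← MonoidHom.range_eq_map]

end Cfsg.Agent.S2015
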