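import Mathlib
import Cfsg.Statements.S2126
import Cfsg.Agent.H12.SzAut

set_option autoImplicit false
open Cfsg

namespace Cfsg.Agent.S2126

open H12.Sz

/-- Outer automorphisms of the Suzuki groups: for q = 2^(2m+1) with m ≥ 1 the outer automorphism group of Sz(q) has order 2m + 1 (field automorphisms only). -/
theorem result {F : Type*} [Field F] [Fintype F] {m : ℕ} (hm : 1 ≤ m) (hF : Fintype.card F = 2 ^ (2 * m + 1)) : Nat.card (Cfsg.Out ↥(Cfsg.Lie.Sz F (2 ^ (m + 1)))) = 2 * m + 1 := by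
  haveI : SzF F m := ⟨hm, hF⟩
  let e := MulAut.congr (lieEquiv (F := F))
  have h1 : Cfsg.Inn ↥(Cfsg.Lie.Sz F (2 ^ (m + 1))) = (Cfsg.Inn (G F m)).map e.toMonoidHom := by
    have key : ∀ g : G F m, e (MulAut.conj g) = MulAut.conj (lieEquiv g) := fun g => by
      ext1 x
      simp [e]
    ext α
    constructor
    · rintro ⟨g, rfl⟩
      obtain ⟨g, rfl⟩ := (lieEquiv (F := F)).surjective g
      exact ⟨_, ⟨g, rfl⟩, key g⟩
    · rintro ⟨_, ⟨g, rfl⟩, rfl⟩
      exact ⟨_, (key g).symm⟩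
  change (Cfsg.Inn ↥(Cfsg.Lie.Sz F (2 ^ (m + 1)))).index = _
  rw [h1, Subgroup.index_map_of_bijective e.bijective, ← card_ringAut (F := F)]
  refine (Nat.card_congr (Equiv.ofBijective ((QuotientGroup.mk' (Cfsg.Inn (G F m))).comp fieldAut) ⟨?_, ?_⟩)).symm
  · rw [injective_iff_map_eq_one]
    intro φ h
    obtain ⟨g, hg⟩ := (QuotientGroup.eq_one_iff _).1 h
    exact fieldAut_inner hg
  · rintro ⟨α⟩
    obtain ⟨g, φ, rfl⟩ := aut_eq α
    refine ⟨φ, ?_⟩
    change (fieldAut φ : Cfsg.Out (G F m)) = ((MulAut.conj g * fieldAut φ : MulAut (G F m)) : Cfsg.Out (G F m))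
    rw [QuotientGroup.mk_mul, (QuotientGroup.eq_one_iff (N := Cfsg.Inn (G F m)) (MulAut.conj g)).2 ⟨g, rfl⟩, one_mul]

end Cfsg.Agent.S2126
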