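import Cfsg.Statements.S2131
import Cfsg.Agent.H15.J1
import Cfsg.Agent.H15.J1Ad
-- import your own Cfsg.Agent.* helpers here

set_option autoImplicit false
open Cfsg

namespace Cfsg.Agent.S2131

/-- The Janko group J₁ (the group generated by two explicit 7 × 7 matrices over the integers modulo 11) has an involution whose centraliser is isomorphic to the direct product of a group of order 2 with the alternating group of degree 5. -/
theorem result : ∃ t : ↥Cfsg.Spor.J1, orderOf t = 2 ∧ Nonempty (↥(Subgroup.centralizer ({t} : Set ↥Cfsg.Spor.J1)) ≃* Multiplicative (ZMod 2) × ↥(alternatingGroup (Fin 5))) := by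
  open H15 H15.J1 in
  rw [J1_eq]
  have := fin4 V h2
  have I : SInj ((S V h2).sub (mdl gg dom4)) := SInj.sub (fun _ _ => V.sem_inj h1 h2) _
  have o := Sem.ok_of_slp _ (L4 V h2).ok fle_so
  obtain ⟨ot, f, f1, f2, -⟩ := a5_of I o f5 (K := ⊤) (by simp)
  refine ⟨_, ot, cent_prod ot (f.codRestrict _ fun a => (f2 ⟨a, rfl⟩).2) (fun a b e => f1 (congrArg Subtype.val e))
    (alternatingGroup.center_eq_bot (by simp)) ((card_cent_le I o fc_ok (a := 120) (card4 V h2)).trans ?_)⟩
  rw [nat_card_alternatingGroup]; simp; decide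

end Cfsg.Agent.S2131
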