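import Cfsg.Statements.S2163
import Cfsg.Agent.H24.Sim3
-- import your own Cfsg.Agent.* helpers here

set_option autoImplicit false
open Cfsg

namespace Cfsg.Agent.S2163

/-- Over a finite field of characteristic two and for n ≥ 3: for every ℓ with 1 ≤ ℓ and 2ℓ ≤ n, the matrix j_ℓ that is the identity plus the entries 1 in positions (n − ℓ + i, i) for i < ℓ (an identity block of size ℓ in the lower left corner) lies in SL_n(F), has order 2, and j_ℓ − 1 has rank ℓ. Together with the conjugacy criterion by rank, these matrices represent the conjugacy classes of involutions of SL_n(F). -/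
theorem result {F : Type*} [Field F] [Fintype F] [CharP F 2] {n : ℕ} (hn : 3 ≤ n) (ℓ : ℕ) (h1 : 1 ≤ ℓ) (h2 : 2 * ℓ ≤ n) :
    ∃ a : Matrix.SpecialLinearGroup (Fin n) F, (a : Matrix (Fin n) (Fin n) F) = 1 + Matrix.of (fun i j : Fin n => if j.val < ℓ ∧ i.val = j.val + (n - ℓ) then (1 : F) else 0) ∧ orderOf a = 2 ∧ ((a : Matrix (Fin n) (Fin n) F) - 1).rank = ℓ := by
  set N : Matrix (Fin n) (Fin n) F :=
    Matrix.of (fun i j : Fin n => if j.val < ℓ ∧ i.val = j.val + (n - ℓ) then (1 : F) else 0) with hN
  have hN2 : N * N = 0 := by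
    ext i j
    rw [Matrix.mul_apply]
    refine Finset.sum_eq_zero fun k _ => ?_
    simp only [hN, Matrix.of_apply]
    split_ifs with h3 h4 <;> first | omega | simp
  have hr : N.rank = ℓ := by
    rw [H24.Sim.rank_eq_of_submatrix N (fun k : Fin ℓ => ⟨k + (n - ℓ), by omega⟩) (fun k : Fin ℓ => ⟨k, by omega⟩)]
    · simp
    · convert isUnit_one
      ext i j
      simp only [hN, Matrix.submatrix_apply, Matrix.of_apply, Matrix.one_apply, j.2, true_and, Nat.add_right_cancel_iff,
        Fin.ext_iff]
    · intro i hi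
      ext j
      simp only [hN, Matrix.of_apply, Pi.zero_apply, ite_eq_right_iff, and_imp]
      intro h3 h4
      exact absurd (Fin.ext h4.symm) (hi ⟨j, h3⟩)
  let a : Matrix.SpecialLinearGroup (Fin n) F := ⟨1 + N, H24.Sim.det_of_unip ⟨2, by simp [pow_two, hN2]⟩⟩
  refine ⟨a, rfl, orderOf_eq_prime (Subtype.ext ?_) fun h => ?_, by simpa [a] using hr⟩
  · change (1 + N) ^ 2 = 1
    have := (H24.Sim.pow_char_pow_eq_one_iff 2 (1 + N) 1).2 (by simp [pow_two, hN2])
    simpa using this
  · have h3 : 1 + N = 1 := congrArg Subtype.val h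
    rw [add_eq_left] at h3
    rw [h3, Matrix.rank_zero] at hr; omega

end Cfsg.Agent.S2163
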