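import Cfsg.Statements.S2165
import Cfsg.Agent.H24.Uni
-- import your own Cfsg.Agent.* helpers here

set_option autoImplicit false
open Cfsg

namespace Cfsg.Agent.S2165

/-- In SU_n(q), q even, n ≥ 3 (matrices of determinant 1 over the field with q² elements preserving Σ u_i v_i^q): for every ℓ with 1 ≤ ℓ and 2ℓ ≤ n, the permutation matrix of the involution of {0, …, n−1} exchanging i and n − ℓ + i for each i < ℓ lies in SU_n(q), has order 2, and differs from the identity by a matrix of rank ℓ. So every rank between 1 and n/2 occurs for involutions of SU_n(q). -/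
theorem result {F : Type*} [Field F] [Fintype F] [CharP F 2] {n q : ℕ} (hF : Fintype.card F = q ^ 2) (hn : 3 ≤ n) (ℓ : ℕ) (h1 : 1 ≤ ℓ) (h2 : 2 * ℓ ≤ n) :
    ∃ a : ↥(Cfsg.SU n F q), (((a : Matrix.SpecialLinearGroup (Fin n) F) : Matrix (Fin n) (Fin n) F) = Matrix.of (fun i j : Fin n => if (j.val < ℓ ∧ i.val = j.val + (n - ℓ)) ∨ (i.val < ℓ ∧ j.val = i.val + (n - ℓ)) ∨ (i = j ∧ ℓ ≤ i.val ∧ i.val < n - ℓ) then (1 : F) else 0)) ∧ orderOf a = 2 ∧ ((((a : Matrix.SpecialLinearGroup (Fin n) F) : Matrix (Fin n) (Fin n) F)) - 1).rank = ℓ := by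
  have hK := Nat.card_eq_fintype_card.trans hF
  let π : Fin n → Fin n := fun i => if h : i.val < ℓ then ⟨i + (n - ℓ), by omega⟩ else
    if n - ℓ ≤ i.val then ⟨i - (n - ℓ), by omega⟩ else i
  have hπ : ∀ i j : Fin n, ((j.val < ℓ ∧ i.val = j.val + (n - ℓ)) ∨ (i.val < ℓ ∧ j.val = i.val + (n - ℓ)) ∨
      (i = j ∧ ℓ ≤ i.val ∧ i.val < n - ℓ)) ↔ π i = j := fun i j => by
    simp only [π, Fin.ext_iff]
    split_ifs <;> (try dsimp only) <;> omega
  have hππ : ∀ i, π (π i) = i := fun i => (hπ _ _).1 (by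
    have := (hπ i _).2 rfl
    simp only [Fin.ext_iff] at this ⊢; omega)
  simp only [hπ]
  set M : Matrix (Fin n) (Fin n) F := Matrix.of fun i j => if π i = j then 1 else 0 with hM
  have hMM : M * M = 1 := by
    ext i j
    rw [Matrix.mul_apply, Finset.sum_eq_single (π i) (fun k _ hk => by simp [hM, hk.symm]) (by simp)]
    simp [hM, Matrix.one_apply, hππ]
  have hst : H24.Uni.st hK M = M := by
    ext i j
    have : π j = i ↔ π i = j := ⟨fun h => by rw [← h, hππ], fun h => by rw [← h, hππ]⟩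
    simp [hM, H24.Uni.st_apply, this, apply_ite (H10.conj hK)]
  have hN : (M - 1) ^ 2 = 0 := by
    have := (H24.Sim.pow_char_pow_eq_one_iff 2 M 1).1 (by simp [pow_two, hMM])
    simpa using this
  have hr : (M - 1).rank = ℓ := by
    apply le_antisymm
    · have : M - 1 = (Matrix.of fun (i : Fin n) (k : Fin ℓ) => if i.val = k ∨ i.val = k + (n - ℓ) then (1 : F) else 0) *
          (M - 1).submatrix (fun k : Fin ℓ => (⟨k, by omega⟩ : Fin n)) id := by
        ext i j
        rw [Matrix.mul_apply]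
        by_cases h3 : i.val < ℓ
        · rw [Finset.sum_eq_single ⟨i, h3⟩ (fun k _ hk => by
            rw [Matrix.of_apply, if_neg (by rw [ne_eq, Fin.ext_iff] at hk; dsimp only at hk; omega), zero_mul]) (by simp)]
          simp
        by_cases h4 : n - ℓ ≤ i.val
        · rw [Finset.sum_eq_single ⟨i - (n - ℓ), by omega⟩ (fun k _ hk => by
            rw [Matrix.of_apply, if_neg (by rw [ne_eq, Fin.ext_iff] at hk; dsimp only at hk; omega), zero_mul]) (by simp)]
          have h5 : π i = ⟨i - (n - ℓ), by omega⟩ := by simp only [π, dif_neg h3, if_pos h4]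
          rw [Matrix.of_apply, if_pos (by right; dsimp only; omega), one_mul, Matrix.submatrix_apply, ← h5]
          simp [hM, hππ, Matrix.one_apply, CharTwo.sub_eq_add, add_comm]
        · have h5 : π i = i := by simp only [π, dif_neg h3, if_neg h4]
          rw [Finset.sum_eq_zero fun k _ => by rw [Matrix.of_apply, if_neg (by omega), zero_mul]]
          simp [hM, h5, Matrix.one_apply]
      rw [this]
      exact (Matrix.rank_mul_le_left _ _).trans (Matrix.rank_le_width _)
    · refine le_trans (le_of_eq ?_) (Matrix.rank_submatrix_le (M - 1) (fun k : Fin ℓ => (⟨k, by omega⟩ : Fin n))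
        (fun k : Fin ℓ => (⟨k + (n - ℓ), by omega⟩ : Fin n)))
      convert (Fintype.card_fin ℓ).symm.trans (Matrix.rank_one (R := F)).symm
      ext i j
      have h3 : (i : ℕ) ≠ j + (n - ℓ) := by omega
      simp [hM, π, Matrix.one_apply, Fin.ext_iff, h3]
  let a : Matrix.SpecialLinearGroup (Fin n) F := ⟨M, H24.Sim.det_of_unip ⟨2, hN⟩⟩
  refine ⟨⟨a, (H24.Uni.mem_SU_iff hK a).2 (by change H24.Uni.st hK M * M = 1; rw [hst, hMM])⟩, rfl,
    orderOf_eq_prime (Subtype.ext (Subtype.ext ?_)) fun h => ?_, hr⟩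
  · change M ^ 2 = 1
    rw [pow_two, hMM]
  · have h3 : M = 1 := congrArg (fun x : Cfsg.SU n F q => x.1.1) h
    rw [h3, sub_self, Matrix.rank_zero] at hr; omega

end Cfsg.Agent.S2165
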