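import Cfsg.Statements.S2164
import Cfsg.Agent.S2165
-- import your own Cfsg.Agent.* helpers here

set_option autoImplicit false
open Cfsg

namespace Cfsg.Agent.S2164

/-- Conjugacy of involutions in the special unitary group SU_n(q), q even, n ≥ 3, realised over the field F with q² elements as the matrices of determinant 1 preserving the form Σ u_i v_i^q: for two elements of order 2 of SU_n(q) the following are equivalent — they are conjugate in SU_n(q); they are conjugate in SL_n(F); the matrices a − 1 and b − 1 have the same rank. -/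
theorem result {F : Type*} [Field F] [Fintype F] [CharP F 2] {n q : ℕ} (hF : Fintype.card F = q ^ 2) (hn : 3 ≤ n) (a b : ↥(Cfsg.SU n F q)) (ha : orderOf a = 2) (hb : orderOf b = 2) :
    (IsConj a b ↔ IsConj (a : Matrix.SpecialLinearGroup (Fin n) F) (b : Matrix.SpecialLinearGroup (Fin n) F)) ∧
    (IsConj a b ↔ (((a : Matrix.SpecialLinearGroup (Fin n) F) : Matrix (Fin n) (Fin n) F) - 1).rank = (((b : Matrix.SpecialLinearGroup (Fin n) F) : Matrix (Fin n) (Fin n) F) - 1).rank) := by
  have hK := Nat.card_eq_fintype_card.trans hF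
  have sq : ∀ a : Cfsg.SU n F q, orderOf a = 2 → (a.1.1 - 1) ^ 2 = 0 := fun a ha => by
    have h1 : a.1.1 ^ 2 = 1 := congrArg (fun x : Cfsg.SU n F q => x.1.1) (ha ▸ pow_orderOf_eq_one a)
    simpa using (H24.Sim.pow_char_pow_eq_one_iff 2 a.1.1 1).1 (by simpa using h1)
  have h1 : IsConj a b → IsConj a.1 b.1 := (Cfsg.SU n F q).subtype.map_isConj
  have h2 : IsConj a.1 b.1 → (a.1.1 - 1).rank = (b.1.1 - 1).rank := fun h =>
    H24.Sim.IsConj.rank_sub_one (H24.Sim.isConj_of_SL h)
  have h3 : (a.1.1 - 1).rank = (b.1.1 - 1).rank → IsConj a b := fun h => by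
    have e1 : 1 ≤ (a.1.1 - 1).rank := by
      by_contra h0
      have : a.1.1 - 1 = 0 := by
        have h4 : Module.finrank F (LinearMap.range (a.1.1 - 1).mulVecLin) = 0 := by
          change (a.1.1 - 1).rank = 0; omega
        rw [Submodule.finrank_eq_zero, LinearMap.range_eq_bot] at h4
        exact Matrix.toLin'.map_eq_zero_iff.1 h4
      have : a = 1 := Subtype.ext (Subtype.ext (sub_eq_zero.1 this))
      simp [this] at ha
    have e2 := Matrix.rank_add_rank_le_card_of_mul_eq_zero ((pow_two _).symm.trans (sq a ha))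
    rw [Fintype.card_fin] at e2
    set ℓ := (a.1.1 - 1).rank with hℓ
    obtain ⟨r, r1, r2, r3⟩ := Cfsg.Agent.S2165.result hF hn ℓ e1 (by omega)
    have key : ∀ μ : F, H10.conj hK μ * μ = 1 → ∃ c : Matrix (Fin n) (Fin n) F,
        H24.Uni.st hK c * c = 1 ∧ Commute c r.1.1 ∧ c.det = μ := fun μ hμ => by
      obtain ⟨ν, rfl⟩ := isSquare_of_charTwo' μ
      have hν : H10.conj hK ν * ν = 1 := by
        have : (H10.conj hK ν * ν - 1) ^ 2 = 0 := by
          rw [map_mul] at hμ; linear_combination hμ + (1 - H10.conj hK ν * ν) * CharTwo.two_eq_zero (R := F)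
        exact sub_eq_zero.1 (pow_eq_zero_iff two_ne_zero |>.1 this)
      refine ⟨Matrix.diagonal fun i => if i.val = 0 ∨ i.val = n - ℓ then ν else 1, ?_, ?_, ?_⟩
      · rw [H24.Uni.st_apply, Matrix.diagonal_map (map_zero _), Matrix.diagonal_transpose, Matrix.diagonal_mul_diagonal,
          ← Matrix.diagonal_one]
        congr 1; ext i; split_ifs <;> simp [hν]
      · ext i j
        rw [Matrix.diagonal_mul, Matrix.mul_diagonal, r1, Matrix.of_apply]
        simp only [Fin.ext_iff]
        split_ifs <;> first | omega | simp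
      · rw [Matrix.det_diagonal, Finset.prod_ite, Finset.prod_const_one, mul_one, Finset.prod_const, ← pow_two]
        congr 1
        rw [Finset.card_eq_two]
        exact ⟨⟨0, by omega⟩, ⟨n - ℓ, by omega⟩, by simp; omega, by ext i; simp [Fin.ext_iff]⟩
    exact (H24.Uni.isConj_SU_of hK (H24.Sim.isConj_of_sq_zero (sq r r2) (sq a ha) r3) key).symm.trans
      (H24.Uni.isConj_SU_of hK (H24.Sim.isConj_of_sq_zero (sq r r2) (sq b hb) (r3.trans h)) key)
  exact ⟨⟨h1, fun h => h3 (h2 h)⟩, fun h => h2 (h1 h), h3⟩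

end Cfsg.Agent.S2164
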