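import Cfsg.Statements.S2166
import Cfsg.Agent.H24.Wall5
-- import your own Cfsg.Agent.* helpers here

set_option autoImplicit false
open Cfsg

namespace Cfsg.Agent.S2166

/-- Conjugacy of involutions in the symplectic group Sp_{2m}(F), F a finite field of characteristic two, m ≥ 2 (Sp taken as the matrices A with A J Aᵀ = J, acting on column vectors, with the alternating form f(u, v) = u ⬝ (J v)). For an involution t write V(t) for the set of vectors v with f(v, t v) = 0 (a subspace). Two involutions a, b are conjugate in Sp_{2m}(F) exactly when a − 1 and b − 1 have the same rank and, in case that rank is even, V(a) and V(b) have the same number of elements. -/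
theorem result {F : Type*} [Field F] [Fintype F] [CharP F 2] {m : ℕ} (hm : 2 ≤ m) (a b : ↥(Matrix.symplecticGroup (Fin m) F)) (ha : orderOf a = 2) (hb : orderOf b = 2) :
    IsConj a b ↔ ((((a : ↥(Matrix.symplecticGroup (Fin m) F)) : Matrix (Fin m ⊕ Fin m) (Fin m ⊕ Fin m) F) - 1).rank = (((b : ↥(Matrix.symplecticGroup (Fin m) F)) : Matrix (Fin m ⊕ Fin m) (Fin m ⊕ Fin m) F) - 1).rank ∧
      (Even (((a : ↥(Matrix.symplecticGroup (Fin m) F)) : Matrix (Fin m ⊕ Fin m) (Fin m ⊕ Fin m) F) - 1).rank → Nat.card {v : Fin m ⊕ Fin m → F // Cfsg.sympForm m F v (Matrix.mulVec ((a : ↥(Matrix.symplecticGroup (Fin m) F)) : Matrix (Fin m ⊕ Fin m) (Fin m ⊕ Fin m) F) v) = 0} = Nat.card {v : Fin m ⊕ Fin m → F // Cfsg.sympForm m F v (Matrix.mulVec ((b : ↥(Matrix.symplecticGroup (Fin m) F)) : Matrix (Fin m ⊕ Fin m) (Fin m ⊕ Fin m) F) v) = 0})) := by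
  have hn : Module.finrank F (Fin m ⊕ Fin m → F) = 2 * m := by simp; omega
  have hσ := (H09.isAltF_spForm (l := Fin m) (F := F)).σ_eq
  have key : ∀ a : Matrix.symplecticGroup (Fin m) F, orderOf a = 2 → (H24.Wall.Alt (H09.spIsomEquiv (Fin m) F a) →
      Nat.card {v : Fin m ⊕ Fin m → F // Cfsg.sympForm m F v (Matrix.mulVec a.1 v) = 0} = Nat.card F ^ (2 * m)) ∧
      (¬ H24.Wall.Alt (H09.spIsomEquiv (Fin m) F a) →
      Nat.card {v : Fin m ⊕ Fin m → F // Cfsg.sympForm m F v (Matrix.mulVec a.1 v) = 0} * Nat.card F =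
        Nat.card F ^ (2 * m)) := fun a ha => by
    have hg := ((H24.Wall.orderOf_two_iff _).1 (((H09.spIsomEquiv (Fin m) F).orderOf_eq a).trans ha)).1
    have hA := H24.Wall.alt_iff (g := H09.spIsomEquiv (Fin m) F a) (fun _ => rfl) H09.spB_alt
    simp only [H09.sympForm_eq]
    simp only [H09.spForm_B] at hA
    refine ⟨fun h => ?_, fun h => ?_⟩
    · rw [Nat.card_congr (Equiv.subtypeUnivEquiv (hA.1 h)), Module.natCard_eq_pow_finrank (K := F), hn]
    · rw [← hn, ← H24.Wall.card_altSet hσ hg h]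
      congr 1
      refine Nat.card_congr (Equiv.subtypeEquivRight fun v => ?_)
      rw [H24.Wall.N_apply, map_sub, H09.spForm_B, H09.spForm_B, H09.spB_alt v, sub_zero]; rfl
  have hg := ((H24.Wall.orderOf_two_iff _).1 (((H09.spIsomEquiv (Fin m) F).orderOf_eq a).trans ha)).1
  have hh := ((H24.Wall.orderOf_two_iff _).1 (((H09.spIsomEquiv (Fin m) F).orderOf_eq b).trans hb)).1
  have hra := H24.Wall.rank_eq (g := H09.spIsomEquiv (Fin m) F a) (fun _ => rfl)
  have hrb := H24.Wall.rank_eq (g := H09.spIsomEquiv (Fin m) F b) (fun _ => rfl)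
  rw [← H24.Wall.isConj_equiv_iff (H09.spIsomEquiv (Fin m) F), H24.Wall.isConj_inv_iff hσ hg hh, ← hra, ← hrb]
  refine and_congr_right fun hr => ⟨fun h _ => ?_, fun h => ?_⟩
  · by_cases h1 : H24.Wall.Alt (H09.spIsomEquiv (Fin m) F a)
    · rw [(key a ha).1 h1, (key b hb).1 (h.1 h1)]
    · exact Nat.eq_of_mul_eq_mul_right (Nat.card_pos (α := F))
        (((key a ha).2 h1).trans ((key b hb).2 (h1 ∘ h.2)).symm)
  · have hq : 1 < Nat.card F := Finite.one_lt_card
    have hp : 0 < Nat.card F ^ (2 * m) := by positivity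
    constructor
    · intro h1
      by_contra h2
      have := (key b hb).2 h2
      rw [← h (h1.even hσ), (key a ha).1 h1] at this
      nlinarith
    · intro h1
      by_contra h2
      have := (key a ha).2 h2
      rw [h (hr ▸ h1.even hσ), (key b hb).1 h1] at this
      nlinarith

end Cfsg.Agent.S2166
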