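import Cfsg.Statements.S2167
import Cfsg.Agent.H24.Wall5
-- import your own Cfsg.Agent.* helpers here

set_option autoImplicit false
open Cfsg

namespace Cfsg.Agent.S2167

/-- For an involution t of the symplectic group Sp_{2m}(F), m ≥ 2, F a finite field of characteristic two (matrices A with A J Aᵀ = J acting on column vectors, alternating form f(u, v) = u ⬝ (J v)): the set V(t) of vectors v with f(v, t v) = 0 has either q^{2m} or q^{2m−1} elements, q the order of F (it is a subspace of codimension at most 1), and if it is the whole space then t − 1 has even rank. -/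
theorem result {F : Type*} [Field F] [Fintype F] [CharP F 2] {m : ℕ} (hm : 2 ≤ m) (a : ↥(Matrix.symplecticGroup (Fin m) F)) (ha : orderOf a = 2) :
    (Nat.card {v : Fin m ⊕ Fin m → F // Cfsg.sympForm m F v (Matrix.mulVec ((a : ↥(Matrix.symplecticGroup (Fin m) F)) : Matrix (Fin m ⊕ Fin m) (Fin m ⊕ Fin m) F) v) = 0} = Fintype.card F ^ (2 * m) ∨ Nat.card {v : Fin m ⊕ Fin m → F // Cfsg.sympForm m F v (Matrix.mulVec ((a : ↥(Matrix.symplecticGroup (Fin m) F)) : Matrix (Fin m ⊕ Fin m) (Fin m ⊕ Fin m) F) v) = 0} * Fintype.card F = Fintype.card F ^ (2 * m)) ∧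
    ((∀ v : Fin m ⊕ Fin m → F, Cfsg.sympForm m F v (Matrix.mulVec ((a : ↥(Matrix.symplecticGroup (Fin m) F)) : Matrix (Fin m ⊕ Fin m) (Fin m ⊕ Fin m) F) v) = 0) → Even (((a : ↥(Matrix.symplecticGroup (Fin m) F)) : Matrix (Fin m ⊕ Fin m) (Fin m ⊕ Fin m) F) - 1).rank) := by
  have hg := ((H24.Wall.orderOf_two_iff _).1 (((H09.spIsomEquiv (Fin m) F).orderOf_eq a).trans ha)).1
  have hr := H24.Wall.rank_eq (g := H09.spIsomEquiv (Fin m) F a) (fun _ => rfl)
  have hn : Module.finrank F (Fin m ⊕ Fin m → F) = 2 * m := by simp; omega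
  have hA := H24.Wall.alt_iff (g := H09.spIsomEquiv (Fin m) F a) (fun _ => rfl) H09.spB_alt
  simp only [H09.sympForm_eq]
  simp only [H09.spForm_B] at hA
  refine ⟨?_, fun h => hr ▸ (hA.2 h).even H09.isAltF_spForm.σ_eq⟩
  by_cases h : H24.Wall.Alt (H09.spIsomEquiv (Fin m) F a)
  · left
    rw [Nat.card_congr (Equiv.subtypeUnivEquiv (hA.1 h)), Module.natCard_eq_pow_finrank (K := F), hn,
      Nat.card_eq_fintype_card]
  · right
    have := H24.Wall.card_altSet H09.isAltF_spForm.σ_eq hg h
    rw [hn, Nat.card_eq_fintype_card (α := F)] at this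
    rw [← this]
    congr 1
    refine Nat.card_congr (Equiv.subtypeEquivRight fun v => ?_)
    rw [H24.Wall.N_apply, map_sub, H09.spForm_B, H09.spForm_B, H09.spB_alt v, sub_zero]; rfl

end Cfsg.Agent.S2167
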