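import Cfsg.Statements.S2172
import Cfsg.Agent.H24.Wall4
-- import your own Cfsg.Agent.* helpers here

set_option autoImplicit false
open Cfsg

namespace Cfsg.Agent.S2172

/-- Splitting of involution classes from O to Ω for the hyperbolic quadratic form Q = Σ x_i y_i in dimension 2m over a finite field F of characteristic two, m ≥ 4. Let t, s be involutions of the commutator subgroup Ω that are conjugate in the full isometry group O. If it is not the case that t − 1 has rank m and Q(v + t v) = 0 for every vector v, then t and s are conjugate by an element of Ω. If t − 1 has rank m and Q(v + t v) = 0 for all v, then t and s are conjugate by an element of Ω exactly when the intersection of the images of t − 1 and s − 1 has even dimension (so the class of t in O meets at most two classes of Ω). -/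
theorem result {F : Type*} [Field F] [Fintype F] [CharP F 2] {m : ℕ} (hm : 4 ≤ m) (t s : ↥(Cfsg.isometryGroup F (Cfsg.quadFormPlus m F))) (ht : orderOf t = 2) (hs : orderOf s = 2) (htO : t ∈ Cfsg.Omega F (Cfsg.quadFormPlus m F)) (hsO : s ∈ Cfsg.Omega F (Cfsg.quadFormPlus m F)) (hconj : IsConj t s) :
    (¬ (((((t : ↥(Cfsg.isometryGroup F (Cfsg.quadFormPlus m F))) : GL (Fin m ⊕ Fin m) F) : Matrix (Fin m ⊕ Fin m) (Fin m ⊕ Fin m) F) - 1).rank = m ∧ ∀ v : Fin m ⊕ Fin m → F, Cfsg.quadFormPlus m F (v + Matrix.mulVec (((t : ↥(Cfsg.isometryGroup F (Cfsg.quadFormPlus m F))) : GL (Fin m ⊕ Fin m) F) : Matrix (Fin m ⊕ Fin m) (Fin m ⊕ Fin m) F) v) = 0) →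
      ∃ g ∈ Cfsg.Omega F (Cfsg.quadFormPlus m F), g * t * g⁻¹ = s) ∧
    ((((((t : ↥(Cfsg.isometryGroup F (Cfsg.quadFormPlus m F))) : GL (Fin m ⊕ Fin m) F) : Matrix (Fin m ⊕ Fin m) (Fin m ⊕ Fin m) F) - 1).rank = m ∧ ∀ v : Fin m ⊕ Fin m → F, Cfsg.quadFormPlus m F (v + Matrix.mulVec (((t : ↥(Cfsg.isometryGroup F (Cfsg.quadFormPlus m F))) : GL (Fin m ⊕ Fin m) F) : Matrix (Fin m ⊕ Fin m) (Fin m ⊕ Fin m) F) v) = 0) →
      ((∃ g ∈ Cfsg.Omega F (Cfsg.quadFormPlus m F), g * t * g⁻¹ = s) ↔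
        Even (Module.finrank F ↥(LinearMap.range (Matrix.toLin' ((((t : ↥(Cfsg.isometryGroup F (Cfsg.quadFormPlus m F))) : GL (Fin m ⊕ Fin m) F) : Matrix (Fin m ⊕ Fin m) (Fin m ⊕ Fin m) F) - 1)) ⊓ LinearMap.range (Matrix.toLin' ((((s : ↥(Cfsg.isometryGroup F (Cfsg.quadFormPlus m F))) : GL (Fin m ⊕ Fin m) F) : Matrix (Fin m ⊕ Fin m) (Fin m ⊕ Fin m) F) - 1)))))) := by
  have hQ := H10.Form.isQuad_ofQuad (H10.qPlus m F)
  have hG := hQ.good_of_finrank (by simp; omega)
  have hn : Module.finrank F (Fin m ⊕ Fin m → F) = 2 * m := by simp; omega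
  have h0 := H24.Wall.omega_conj_iff (H10.qPlus m F) t s
  rw [hQ.commutator_eq_ker_dickson hG (by omega) CharTwo.two_eq_zero] at h0
  have ht' := (H24.Wall.orderOf_two_iff _).1 (((H10.isometryEquiv (H10.qPlus m F)).orderOf_eq t).trans ht)
  have hc := (H24.Wall.isConj_equiv_iff (H10.isometryEquiv (H10.qPlus m F)) _ _).2 hconj
  have hr := H24.Wall.rank_eq (H10.isometryEquiv_apply (H10.qPlus m F) t)
  have ha : H24.Wall.Alt (H10.isometryEquiv (H10.qPlus m F) t) ↔ ∀ v : Fin m ⊕ Fin m → F, Cfsg.quadFormPlus m F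
      (v + Matrix.mulVec (((t : ↥(Cfsg.isometryGroup F (Cfsg.quadFormPlus m F))) : GL (Fin m ⊕ Fin m) F) :
        Matrix (Fin m ⊕ Fin m) (Fin m ⊕ Fin m) F) v) = 0 := by
    rw [H24.Wall.alt_iff_Q hQ]
    refine forall_congr' fun v => ?_
    rw [H24.Wall.N_apply, H10.isometryEquiv_apply (H10.qPlus m F) t]
    have : ∀ a b : Fin m ⊕ Fin m → F, a - b = b + a := fun a b => by
      funext i; simp [CharTwo.sub_eq_add, add_comm]
    rw [this]; rfl
  constructor
  · intro h
    exact h0.2 (H24.Wall.conj_ker_of hQ hG ht'.1 hc fun ⟨h1, h2⟩ => h ⟨by rw [← hr]; omega, ha.1 h1⟩)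
  · rintro ⟨h1, h2⟩
    have he := (ha.2 h2).even hQ.σ_eq
    rw [hr, h1] at he
    refine h0.trans ((H24.Wall.conj_ker_iff_max hQ hG hn hc (ha.2 h2) (hr.trans h1)).trans ?_)
    rw [H24.Wall.W_eq (H10.isometryEquiv_apply (H10.qPlus m F) t), H24.Wall.W_eq (H10.isometryEquiv_apply (H10.qPlus m F) s),
      Nat.even_add]
    simp only [he, iff_true]

end Cfsg.Agent.S2172
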