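import Cfsg.Statements.S2173
import Cfsg.Agent.H24.Wall4
-- import your own Cfsg.Agent.* helpers here

set_option autoImplicit false
open Cfsg

namespace Cfsg.Agent.S2173

/-- For the quadratic form Σ x_i y_i + (z₁² + c z₁ z₂ + d z₂²) in dimension 2m with anisotropic binary part over a finite field F of characteristic two, m ≥ 4 (minus type): two involutions of the commutator subgroup Ω that are conjugate in the full isometry group O are conjugate by an element of Ω (no class of involutions of O inside Ω splits). -/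
theorem result {F : Type*} [Field F] [Fintype F] [CharP F 2] {m : ℕ} (hm : 4 ≤ m) (c d : F) (hcd : ∀ z₁ z₂ : F, z₁ ^ 2 + c * z₁ * z₂ + d * z₂ ^ 2 = 0 → z₁ = 0 ∧ z₂ = 0) (t s : ↥(Cfsg.isometryGroup F (Cfsg.quadFormMinus (m - 1) F c d))) (ht : orderOf t = 2) (hs : orderOf s = 2) (htO : t ∈ Cfsg.Omega F (Cfsg.quadFormMinus (m - 1) F c d)) (hsO : s ∈ Cfsg.Omega F (Cfsg.quadFormMinus (m - 1) F c d)) (hconj : IsConj t s) :
    ∃ g ∈ Cfsg.Omega F (Cfsg.quadFormMinus (m - 1) F c d), g * t * g⁻¹ = s := by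
  haveI := H10.qMinus_nondeg (m := m - 1) (H10.disc_ne_zero_of_aniso hcd)
  have hQ := H10.Form.isQuad_ofQuad (H10.qMinus (m - 1) F c d)
  have hG := hQ.good_of_finrank (by simp; omega)
  refine (H24.Wall.omega_conj_iff (H10.qMinus (m - 1) F c d) t s).2 ?_
  rw [hQ.commutator_eq_ker_dickson hG (by simp) CharTwo.two_eq_zero]
  have ht' := (H24.Wall.orderOf_two_iff _).1 (((H10.isometryEquiv (H10.qMinus (m - 1) F c d)).orderOf_eq t).trans ht)
  refine H24.Wall.conj_ker_of hQ hG ht'.1 ((H24.Wall.isConj_equiv_iff _ _ _).2 hconj) fun ⟨h1, h2⟩ => ?_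
  exact H10.qMinus_not_hasTS (H10.disc_ne_zero_of_aniso hcd) hcd ⟨_, h1.ts _ hQ, by simp at h2; omega⟩

end Cfsg.Agent.S2173
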