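import Mathlib
import Cfsg.Statements.S2174
import Cfsg.Agent.H12.InvF4

set_option autoImplicit false
open Cfsg

namespace Cfsg.Agent.S2174

open H11 H12.Inv H12.Lie

/-- Conjugacy classes of involutions in the Chevalley group of type F₄ over a finite field F of characteristic two (the matrix group generated by the root elements x_r(t)). In this problem's root numbering for type F₄ (the Chevalley data module; fundamental roots p₁, p₂ short and p₃, p₄ long; roots indexed by their coefficient vectors in increasing order) let r = 47 be the highest root (2,4,3,2), s = 44 the highest short root (2,3,2,1), and α = 39 = (1,2,2,1), β = 45 = (2,4,2,1), an orthogonal short/long pair; consider the four elements x_r(1), x_s(1), x_r(1)x_s(1), x_α(1)x_β(1). Then: each invertible matrix equal to one of these four products lies in the group and has order 2; every element of order 2 of the group is conjugate in the group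 to one of them; and no two of them are conjugate in the group (so, the four matrices being distinct, the group has exactly four conjugacy classes of involutions). -/
theorem result {F : Type*} [Field F] [Fintype F] [CharP F 2] :
    (∀ y : GL Cfsg.Lie.chevF4.Idx F, ((y : GL Cfsg.Lie.chevF4.Idx F) : Matrix Cfsg.Lie.chevF4.Idx Cfsg.Lie.chevF4.Idx F) ∈ [Cfsg.Lie.chevF4.x F 47 1, Cfsg.Lie.chevF4.x F 44 1, Cfsg.Lie.chevF4.x F 47 1 * Cfsg.Lie.chevF4.x F 44 1, Cfsg.Lie.chevF4.x F 39 1 * Cfsg.Lie.chevF4.x F 45 1] → y ∈ Cfsg.Lie.chevF4.group F ∧ orderOf y = 2) ∧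
    (∀ g ∈ Cfsg.Lie.chevF4.group F, orderOf g = 2 → ∃ y ∈ Cfsg.Lie.chevF4.group F, ((y : GL Cfsg.Lie.chevF4.Idx F) : Matrix Cfsg.Lie.chevF4.Idx Cfsg.Lie.chevF4.Idx F) ∈ [Cfsg.Lie.chevF4.x F 47 1, Cfsg.Lie.chevF4.x F 44 1, Cfsg.Lie.chevF4.x F 47 1 * Cfsg.Lie.chevF4.x F 44 1, Cfsg.Lie.chevF4.x F 39 1 * Cfsg.Lie.chevF4.x F 45 1] ∧ ∃ h ∈ Cfsg.Lie.chevF4.group F, h * g * h⁻¹ = y) ∧
    (∀ y₁ ∈ Cfsg.Lie.chevF4.group F, ∀ y₂ ∈ Cfsg.Lie.chevF4.group F, ((y₁ : GL Cfsg.Lie.chevF4.Idx F) : Matrix Cfsg.Lie.chevF4.Idx Cfsg.Lie.chevF4.Idx F) ∈ [Cfsg.Lie.chevF4.x F 47 1, Cfsg.Lie.chevF4.x F 44 1, Cfsg.Lie.chevF4.x F 47 1 * Cfsg.Lie.chevF4.x F 44 1, Cfsg.Lie.chevF4.x F 39 1 * Cfsg.Lie.chevF4.x F 45 1] → ((y₂ : GL Cfsg.Lie.chevF4.Idx F) : Matrix Cfsg.Lie.chevF4.Idx Cfsg.Lie.chevF4.Idx F) ∈ [Cfsg.Lie.chevF4.x F 47 1, Cfsg.Lie.chevF4.x F 44 1, Cfsg.Lie.chevF4.x F 47 1 * Cfsg.Lie.chevF4.x F 44 1, Cfsg.Lie.chevF4.x F 39 1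 * Cfsg.Lie.chevF4.x F 45 1] →
      (∃ h ∈ Cfsg.Lie.chevF4.group F, h * y₁ * h⁻¹ = y₂) → ((y₁ : GL Cfsg.Lie.chevF4.Idx F) : Matrix Cfsg.Lie.chevF4.Idx Cfsg.Lie.chevF4.Idx F) = ((y₂ : GL Cfsg.Lie.chevF4.Idx F) : Matrix Cfsg.Lie.chevF4.Idx Cfsg.Lie.chevF4.Idx F)) := by
  refine three_parts (tgt := invF4T.map Prod.fst) (by simp [invF4T, mul_assoc]) (orderOf_XL agreeF4 invF4_r invF4_s)
    (classify_one agreeF4 (grpSys_θ_injective _ _) (grpSys_grp _ _) invF4_0 invF4_c invF4_z) ?_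
  have key : ∀ g, g * XL (grpSys Cfsg.Lie.chevF4 F) [47] * g⁻¹ ≠ XL (grpSys Cfsg.Lie.chevF4 F) [44] := fun g e => by
    refine absurd (ip_eq_of_conj (S := grpSys Cfsg.Lie.chevF4 F) (r := rt _ 47) (s := rt _ 44) (cenU_top (by decide) 1)
      (by decide) (g := g) (by simp [grpSys_grp]) (one_mem _) ?_) (by decide +kernel)
    rwa [mul_one, ← XL_one, ← XL_one]
  simp only [List.forall_mem_map]
  intro p hp p' hp' g e
  have h := eq_of_rank agreeF4 invF4_r hp hp' e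
  have : ∀ p ∈ invF4T, ∀ p' ∈ invF4T, p.2.length = p'.2.length →
    p.1 = p'.1 ∨ p.1 = [47] ∧ p'.1 = [44] ∨ p.1 = [44] ∧ p'.1 = [47] := by decide +kernel
  rcases this p hp p' hp' h with h | ⟨a, b⟩ | ⟨a, b⟩
  · exact h
  · rw [a, b] at e; exact (key g e).elim
  · rw [a, b] at e; exact (key g⁻¹ (by rw [← e]; group)).elim

end Cfsg.Agent.S2174
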