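import Mathlib
import Cfsg.Statements.S2178
import Cfsg.Agent.H12.LieA

set_option autoImplicit false
open Cfsg

namespace Cfsg.Agent.S2178

open Cfsg.Lie H11 H11.StSys H12.Lie

/-- Centralizers of the long and the short root involutions in the Chevalley group G of type F₄ over a finite field F of characteristic two (this problem's root numbering for type F₄, from the Chevalley data module: fundamental roots p₁, p₂ short, p₃, p₄ long, with indices 33, 27, 25, 24, their negatives 14, 20, 22, 23; highest root 47, highest short root 44; U the subgroup generated by the positive root subgroups). For an element t of G with matrix x_47(1): the centralizer of t in G is the subgroup generated by U and the root subgroups X_{−p₁}, X_{−p₂}, X_{−p₃} (the unipotent radical of the maximal parabolic subgroup whose Levi factor has fundamental roots p₁, p₂, p₃, together with that Levi factor's root subgroups; the Levi factor is of type C₃). For an element u of G with matrix x_44(1): the centralizer of u in G is generated by U and X_{−p₂}, X_{−p₃}, X_{−p₄} (the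 same construction for the Levi factor with fundamental roots p₂, p₃, p₄, of type B₃). -/
theorem result {F : Type*} [Field F] [Fintype F] [CharP F 2] (t u : GL Cfsg.Lie.chevF4.Idx F) (ht : (t : Matrix Cfsg.Lie.chevF4.Idx Cfsg.Lie.chevF4.Idx F) = Cfsg.Lie.chevF4.x F 47 1) (hu : (u : Matrix Cfsg.Lie.chevF4.Idx Cfsg.Lie.chevF4.Idx F) = Cfsg.Lie.chevF4.x F 44 1) :
    Cfsg.Lie.chevF4.group F ⊓ Subgroup.centralizer {t} = Cfsg.Lie.chevF4.posUnipotent F ⊔ Cfsg.Lie.chevF4.rootSubgroup F 14 ⊔ Cfsg.Lie.chevF4.rootSubgroup F 20 ⊔ Cfsg.Lie.chevF4.rootSubgroup F 22 ∧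
    Cfsg.Lie.chevF4.group F ⊓ Subgroup.centralizer {u} = Cfsg.Lie.chevF4.posUnipotent F ⊔ Cfsg.Lie.chevF4.rootSubgroup F 20 ⊔ Cfsg.Lie.chevF4.rootSubgroup F 22 ⊔ Cfsg.Lie.chevF4.rootSubgroup F 23 := by
  obtain rfl : t = (matSys chevF4 F).x ⟨47, by decide⟩ 1 := eq_x_iff.1 ht
  obtain rfl : u = (matSys chevF4 F).x ⟨44, by decide⟩ 1 := eq_x_iff.1 hu
  have e14 := rootSubgroup_eq (D := chevF4) F ⟨14, by decide⟩
  have e20 := rootSubgroup_eq (D := chevF4) F ⟨20, by decide⟩
  have e22 := rootSubgroup_eq (D := chevF4) F ⟨22, by decide⟩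
  have e23 := rootSubgroup_eq (D := chevF4) F ⟨23, by decide⟩
  simp only at e14 e20 e22 e23
  rw [e14, e20, e22, e23, group_eq, posUnipotent_eq]
  constructor
  · rw [cent_root hMul_mat (i := ⟨3, by decide⟩) (cenU_top (by decide)) (by decide +kernel), U_sup_MJ,
      sup_assoc, sup_assoc, ← US_union, ← US_union]
    congr 2
    ext s; simp only [Set.mem_setOf_eq, Set.mem_union, Set.mem_singleton_iff]; revert s; decide +kernel
  · rw [cent_root hMul_mat (i := ⟨0, by decide⟩) (cenU_of_terms (by decide) fun s hs c hc => ?_) (by decide +kernel),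
      U_sup_MJ, sup_assoc, sup_assoc, ← US_union, ← US_union]
    · congr 2
      ext s; simp only [Set.mem_setOf_eq, Set.mem_union, Set.mem_singleton_iff]; revert s; decide +kernel
    · refine (CharP.intCast_eq_zero_iff F 2 _).2 ?_
      revert c; revert s; decide +kernel

end Cfsg.Agent.S2178
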