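import Mathlib
import Cfsg.Statements.S2179
import Cfsg.Agent.H12.InvD

set_option autoImplicit false
open Cfsg

namespace Cfsg.Agent.S2179

open Cfsg.Lie H11 H11.StSys H12.Lie H12.Inv

/-- Centralizers of the two remaining classes of involutions in the Chevalley group G of type F₄ over a finite field F of characteristic two (this problem's root numbering for type F₄, from the Chevalley data module: p₁, p₂ short, p₃, p₄ long with indices 33, 27, 25, 24 and negatives 14, 20, 22, 23; U generated by the positive root subgroups). For an element of G with matrix x_47(1)x_44(1) (highest root times highest short root): its centralizer in G is generated by U, X_{−p₂} and X_{−p₃}. For an element of G with matrix x_39(1)x_45(1) (roots (1,2,2,1) and (2,4,2,1), an orthogonal short/long pair): its centralizer in G is generated by X_{p₁}, X_{−p₁}, X_{p₄}, X_{−p₄} and the root subgroups of all positive roots other than p₂ (27), p₃ (25), p₁ + p₂ (34) and p₃ + p₄ (26). -/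
theorem result {F : Type*} [Field F] [Fintype F] [CharP F 2] (w v : GL Cfsg.Lie.chevF4.Idx F) (hw : (w : Matrix Cfsg.Lie.chevF4.Idx Cfsg.Lie.chevF4.Idx F) = Cfsg.Lie.chevF4.x F 47 1 * Cfsg.Lie.chevF4.x F 44 1) (hv : (v : Matrix Cfsg.Lie.chevF4.Idx Cfsg.Lie.chevF4.Idx F) = Cfsg.Lie.chevF4.x F 39 1 * Cfsg.Lie.chevF4.x F 45 1) :
    Cfsg.Lie.chevF4.group F ⊓ Subgroup.centralizer {w} = Cfsg.Lie.chevF4.posUnipotent F ⊔ Cfsg.Lie.chevF4.rootSubgroup F 20 ⊔ Cfsg.Lie.chevF4.rootSubgroup F 22 ∧
    Cfsg.Lie.chevF4.group F ⊓ Subgroup.centralizer {v} = Cfsg.Lie.chevF4.rootSubgroup F 33 ⊔ Cfsg.Lie.chevF4.rootSubgroup F 14 ⊔ Cfsg.Lie.chevF4.rootSubgroup F 24 ⊔ Cfsg.Lie.chevF4.rootSubgroup F 23 ⊔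
      Subgroup.closure {g : GL Cfsg.Lie.chevF4.Idx F | ∃ (r : ℕ) (c : F), Cfsg.Lie.chevF4.IsPosRoot r ∧ r ∉ [27, 25, 34, 26] ∧ (g : Matrix Cfsg.Lie.chevF4.Idx Cfsg.Lie.chevF4.Idx F) = Cfsg.Lie.chevF4.x F r c} := by
  obtain rfl : w = (matSys chevF4 F).x ⟨47, by decide⟩ 1 * (matSys chevF4 F).x ⟨44, by decide⟩ 1 := Units.ext hw
  obtain rfl : v = XL (matSys chevF4 F) [39, 45] := by rw [XL_two (by decide) (by decide)]; exact Units.ext hv
  have e14 := rootSubgroup_eq (D := chevF4) F ⟨14, by decide⟩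
  have e20 := rootSubgroup_eq (D := chevF4) F ⟨20, by decide⟩
  have e22 := rootSubgroup_eq (D := chevF4) F ⟨22, by decide⟩
  have e23 := rootSubgroup_eq (D := chevF4) F ⟨23, by decide⟩
  have e24 := rootSubgroup_eq (D := chevF4) F ⟨24, by decide⟩
  have e33 := rootSubgroup_eq (D := chevF4) F ⟨33, by decide⟩
  simp only at e14 e20 e22 e23 e24 e33
  rw [e14, e20, e22, e23, e24, e33, group_eq, posUnipotent_eq]
  constructor
  · rw [cent_root₂ hMul_mat (i := ⟨3, by decide⟩) (k := ⟨0, by decide⟩) (by decide) (by decide) (by decide +kernel)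
      (cenU_top (by decide)) (cenU_of_terms (by decide) fun s hs c hc => ?_) (by decide +kernel) (by decide +kernel),
      U_sup_MJ, sup_assoc, ← US_union]
    · congr 2
      ext s; simp only [Set.mem_setOf_eq, Set.mem_union, Set.mem_singleton_iff]; revert s; decide +kernel
    · refine (CharP.intCast_eq_zero_iff F 2 _).2 ?_
      revert c; revert s; decide +kernel
  · rw [centF4 hMul_mat, ← US_union, ← US_union, ← US_union]
    have e := closure_x_eq (D := chevF4) (K := F) (fun r => chevF4.IsPosRoot r ∧ r ∉ [27, 25, 34, 26]) fun r h => h.1.1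
    simp only [and_assoc, isPosRoot_iff] at e
    rw [e]
    congr 1
    refine le_antisymm (MJ_le (fun j hj t => x_mem_US ?_ t) fun j hj t => x_mem_US ?_ t) (US_mono ?_)
    · simp only [Set.mem_setOf_eq, Set.mem_union, Set.mem_singleton_iff] at hj ⊢; revert j; decide +kernel
    · simp only [Set.mem_setOf_eq, Set.mem_union, Set.mem_singleton_iff] at hj ⊢; revert j; decide +kernel
    · simp only [Set.subset_def, Set.mem_setOf_eq, Set.mem_union, Set.mem_singleton_iff, InJ]; decide +kernel

end Cfsg.Agent.S2179
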