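import Mathlib
import Cfsg.Statements.S2180
import Cfsg.Agent.H12.InvD

set_option autoImplicit false
open Cfsg

namespace Cfsg.Agent.S2180

open Cfsg.Lie H11 H11.StSys H12.Lie H12.Inv

/-- Centralizers of involutions in the Chevalley group G of type G₂ over a finite field F of characteristic two with at least four elements (this problem's root numbering for type G₂, from the Chevalley data module: a = p₁ short with index 7, b = p₂ long with index 6, −a = 4, −b = 5, 2a + b = 9, 3a + b = 10, 3a + 2b = 11; U generated by the positive root subgroups). For an element z of G with matrix x_{3a+2b}(1): the centralizer of z in G is generated by U and X_{−a}. For an element t of G with matrix x_{2a+b}(1): the centralizer of t in G is generated by X_{2a+b}, X_{3a+b}, X_{3a+2b}, X_b and X_{−b}. -/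
theorem result {F : Type*} [Field F] [Fintype F] [CharP F 2] (hF : 4 ≤ Fintype.card F) (z t : GL Cfsg.Lie.chevG2.Idx F) (hz : (z : Matrix Cfsg.Lie.chevG2.Idx Cfsg.Lie.chevG2.Idx F) = Cfsg.Lie.chevG2.x F 11 1) (ht : (t : Matrix Cfsg.Lie.chevG2.Idx Cfsg.Lie.chevG2.Idx F) = Cfsg.Lie.chevG2.x F 9 1) :
    Cfsg.Lie.chevG2.group F ⊓ Subgroup.centralizer {z} = Cfsg.Lie.chevG2.posUnipotent F ⊔ Cfsg.Lie.chevG2.rootSubgroup F 4 ∧
    Cfsg.Lie.chevG2.group F ⊓ Subgroup.centralizer {t} = Cfsg.Lie.chevG2.rootSubgroup F 9 ⊔ Cfsg.Lie.chevG2.rootSubgroup F 10 ⊔ Cfsg.Lie.chevG2.rootSubgroup F 11 ⊔ Cfsg.Lie.chevG2.rootSubgroup F 6 ⊔ Cfsg.Lie.chevG2.rootSubgroup F 5 := by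
  obtain rfl : z = (matSys chevG2 F).x ⟨11, by decide⟩ 1 := eq_x_iff.1 hz
  obtain rfl : t = XL (matSys chevG2 F) [9] := by rw [XL_one (by decide)]; exact eq_x_iff.1 ht
  have e4 := rootSubgroup_eq (D := chevG2) F ⟨4, by decide⟩
  have e5 := rootSubgroup_eq (D := chevG2) F ⟨5, by decide⟩
  have e6 := rootSubgroup_eq (D := chevG2) F ⟨6, by decide⟩
  have e9 := rootSubgroup_eq (D := chevG2) F ⟨9, by decide⟩
  have e10 := rootSubgroup_eq (D := chevG2) F ⟨10, by decide⟩
  have e11 := rootSubgroup_eq (D := chevG2) F ⟨11, by decide⟩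
  simp only at e4 e5 e6 e9 e10 e11
  rw [e4, e5, e6, e9, e10, e11, group_eq, posUnipotent_eq]
  constructor
  · rw [cent_root hMul_mat (i := ⟨1, by decide⟩) (cenU_top (by decide)) (by decide +kernel), U_sup_MJ]
    congr 2
    ext s; simp only [Set.mem_setOf_eq, Set.mem_union, Set.mem_singleton_iff]; revert s; decide +kernel
  · rw [centG2 hMul_mat, ← US_union, ← US_union, ← US_union, ← US_union]
    refine le_antisymm (sup_le (MJ_le (fun j hj t => x_mem_US ?_ t) fun j hj t => x_mem_US ?_ t) (US_mono ?_))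
      ((US_mono ?_).trans (US_union _ _).le)
    · simp only [Set.mem_setOf_eq, Set.mem_union, Set.mem_singleton_iff] at hj ⊢; revert j; decide +kernel
    · simp only [Set.mem_setOf_eq, Set.mem_union, Set.mem_singleton_iff] at hj ⊢; revert j; decide +kernel
    · simp only [Set.subset_def, Set.mem_setOf_eq, Set.mem_union, Set.mem_singleton_iff]; decide +kernel
    · simp only [Set.subset_def, Set.mem_setOf_eq, Set.mem_union, Set.mem_singleton_iff, InJ]; decide +kernel

end Cfsg.Agent.S2180
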