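import Mathlib
import Cfsg.Statements.S2181
import Cfsg.Agent.H12.InvE7

set_option autoImplicit false
open Cfsg

namespace Cfsg.Agent.S2181

open H11 H12.Inv

/-- The Chevalley group of type E₇ over a finite field of characteristic two (the matrix group generated by the root elements) has exactly five conjugacy classes of elements of order 2. -/
theorem result {F : Type*} [Field F] [Fintype F] [CharP F 2] :
    (ConjClasses.mk '' {g : ↥(Cfsg.Lie.chevE7.group F) | orderOf g = 2}).ncard = 5 := by
  exact ncard_classes (S := grpSys Cfsg.Lie.chevE7 F) (ι := MonoidHom.id _) (tgt := invE7T.map Prod.fst) Function.injective_id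
    (by decide) (fun L hL => ⟨⟨_, rfl⟩, orderOf_XL agreeE7 invE7_r invE7_s L hL⟩)
    (fun z _ hz => by
      obtain ⟨L, a, g, b⟩ := classify_one agreeE7 (grpSys_θ_injective _ _) (grpSys_grp _ _) invE7_0 invE7_c invE7_z z hz
      exact ⟨L, a, g, ⟨_, rfl⟩, b⟩)
    (fun L a L' b g _ => eq_of_rank' agreeE7 invE7_r (by decide +kernel) L a L' b g)

end Cfsg.Agent.S2181
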