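import Mathlib
import Cfsg.Statements.S2182
import Cfsg.Agent.H12.InvTw
import Cfsg.Agent.H12.InvE6

set_option autoImplicit false
open Cfsg

namespace Cfsg.Agent.S2182

open Cfsg.Lie H11 H11.StSys H12.Lie H12.Inv

/-- The twisted group ²E₆(q), q even, realised inside the Chevalley group of type E₆ over the field K with q² elements, has exactly three conjugacy classes of elements of order 2. -/
theorem result {K : Type*} [Field K] [Fintype K] [CharP K 2] (q : ℕ) (hK : Fintype.card K = q ^ 2) :
    (ConjClasses.mk '' {g : ↥(Cfsg.Lie.twistedE6 K q) | orderOf g = 2}).ncard = 3 := by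
  obtain ⟨θ, F⟩ := exists_frF (isPrimePow_of_card two_ne_zero hK) two_ne_zero hK
  obtain ⟨σ, h⟩ := exists_isTw_E6 θ
  have hr := (inclusion_range_gen (D := chevE6) (e6Words K q)).trans
    (TE6.eq_fix F h (grpSys_θ_injective _ _) (grpSys_grp _ _))
  obtain ⟨h1, h2⟩ := clsE6 F h (grpSys_θ_injective _ _) (grpSys_grp _ _)
  rw [← hr] at h1 h2
  have h3 : ∀ p ∈ twE6T.eraseIdx 2, p ∈ twE6T := fun p => List.mem_of_mem_eraseIdx
  exact ncard_classes (Subgroup.inclusion_injective _) (tgt := [[71], [66, 68], [53, 66, 68]]) (by decide)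
    (fun L hL => ⟨h1 L hL, orderOf_XL agreeE6 twE6_r twE6_s L (by clear h1 h2; revert L; decide +kernel)⟩) h2
    fun L a L' b g _ => eq_of_rank' agreeE6 (T := twE6T.eraseIdx 2)
      (List.all_eq_true.2 fun p hp => List.all_eq_true.1 twE6_r p (h3 p hp)) (by decide +kernel) L a L' b g

end Cfsg.Agent.S2182
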