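import Mathlib
import Cfsg.Statements.S2183
import Cfsg.Agent.H12.InvTw

set_option autoImplicit false
open Cfsg

namespace Cfsg.Agent.S2183

open Cfsg.Lie H11 H11.StSys H12.Lie H12.Inv

/-- The twisted group ³D₄(q), q even, realised inside the Chevalley group of type D₄ over the field K with q³ elements, has exactly two conjugacy classes of elements of order 2. -/
theorem result {K : Type*} [Field K] [Fintype K] [CharP K 2] (q : ℕ) (hK : Fintype.card K = q ^ 3) :
    (ConjClasses.mk '' {g : ↥(Cfsg.Lie.twistedD4 K q) | orderOf g = 2}).ncard = 2 := by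
  obtain ⟨θ, F⟩ := exists_frF (isPrimePow_of_card three_ne_zero hK) three_ne_zero hK
  obtain ⟨σ, h⟩ := exists_isTw_D4 θ
  have hr := (inclusion_range_gen (D := chevD4) (d4Words K q)).trans
    (TD4.eq_fix F h (grpSys_θ_injective _ _) (grpSys_grp _ _))
  obtain ⟨h1, h2⟩ := clsD4 F h (grpSys_θ_injective _ _) (grpSys_grp _ _)
  rw [← hr] at h1 h2
  exact ncard_classes (Subgroup.inclusion_injective _) (tgt := twD4T.map Prod.fst) (by decide)
    (fun L hL => ⟨h1 L hL, orderOf_XL agreeD4 twD4_r twD4_s L hL⟩) h2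
    fun L a L' b g _ => eq_of_rank' agreeD4 twD4_r (by decide +kernel) L a L' b g

end Cfsg.Agent.S2183
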