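import Mathlib
import Cfsg.Statements.S2184
import Cfsg.Agent.H12.InvTw

set_option autoImplicit false
open Cfsg

namespace Cfsg.Agent.S2184

open Cfsg.Lie H11 H11.StSys H12.Lie H12.Inv

/-- The twisted group ²F₄(q), q = 2^(2m+1) with m ≥ 0 (realised inside the Chevalley group of type F₄ over the field K with q elements, θ the 2^m-th power map), has exactly two conjugacy classes of elements of order 2; and so does the Tits group, the commutator subgroup of ²F₄(2). -/
theorem result {K : Type*} [Field K] [Fintype K] (m : ℕ) (hK : Fintype.card K = 2 ^ (2 * m + 1)) :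
    (ConjClasses.mk '' {g : ↥(Cfsg.Lie.twistedF4 K (2 ^ m)) | orderOf g = 2}).ncard = 2 ∧ (ConjClasses.mk '' {g : Cfsg.Lie.TitsGroup | orderOf g = 2}).ncard = 2 := by
  constructor
  · obtain ⟨θ, F, σ, h⟩ := exists_rf4 hK
    have := F.char
    have hr := (inclusion_range_gen (D := chevF4) (f4Words K (2 ^ m))).trans
      (RF4.eq_fix F h (grpSys_θ_injective _ _) (grpSys_grp _ _))
    obtain ⟨h1, h2⟩ := clsF4 F h (grpSys_θ_injective _ _) (grpSys_grp _ _)
    rw [← hr] at h1 h2
    exact ncard_classes (Subgroup.inclusion_injective _) (tgt := twF4T.map Prod.fst) (by decide)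
      (fun L hL => ⟨h1 L hL, orderOf_XL agreeF4 twF4_r twF4_s L hL⟩) h2
      fun L a L' b g _ => eq_of_rank' agreeF4 twF4_r (by decide +kernel) L a L' b g
  · obtain ⟨θ, F, σ, h⟩ := exists_rf4 (K := ZMod 2) (m := 0) (by simp)
    have hθ := grpSys_θ_injective chevF4 (ZMod 2)
    have hg := grpSys_grp chevF4 (ZMod 2)
    have hr := (inclusion_range_gen (D := chevF4) (f4Words (ZMod 2) 1)).trans (RF4.eq_fix F h hθ hg)
    unfold TitsGroup twistedF4
    have hr' : ((Subgroup.inclusion (genSubgroup_le (D := chevF4) (f4Words (ZMod 2) 1))).comp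
        (commutator _).subtype).range = ⁅fixS σ, fixS σ⁆ := by
      rw [MonoidHom.range_comp, Subgroup.range_subtype, ← hr, MonoidHom.range_eq_map, ← Subgroup.map_commutator]; rfl
    obtain ⟨h1, h2⟩ := clsF4 F h hθ hg
    have h3 := orderOf_XL (S := grpSys chevF4 (ZMod 2)) agreeF4 twF4_r twF4_s
    refine ncard_classes (ι := (Subgroup.inclusion (genSubgroup_le (D := chevF4) (f4Words (ZMod 2) 1))).comp
      (commutator _).subtype) ((Subgroup.inclusion_injective (genSubgroup_le _)).comp Subtype.val_injective) (tgt := twF4T.map Prod.fst) (by decide)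
      (fun L hL => ⟨hr'.ge (tits_mem F h hθ hg (h1 L hL) (h3 L hL)), h3 L hL⟩) (fun z hz ho => ?_)
      fun L a L' b g _ => eq_of_rank' agreeF4 twF4_r (by decide +kernel) L a L' b g
    obtain ⟨L, a, g, b, e⟩ := h2 z (Subgroup.commutator_le.2 (fun a ha b hb => mul_mem (mul_mem (mul_mem ha hb) (inv_mem ha)) (inv_mem hb)) (hr'.le hz)) ho
    obtain ⟨t, c, e'⟩ := tits_conj F h hθ hg a (inv_mem b)
    refine ⟨L, a, t⁻¹, hr'.ge (inv_mem c), ?_⟩
    rw [show z = g⁻¹ * XL _ L * g⁻¹⁻¹ by rw [← e]; group, e']; group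

end Cfsg.Agent.S2184
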