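import Mathlib
import Cfsg.Statements.S2186
import Cfsg.Agent.H12.LieA

set_option autoImplicit false
open Cfsg

namespace Cfsg.Agent.S2186

open Cfsg.Lie H11 H11.StSys H12.Lie

/-- Let G be the Chevalley group of type G₂ (over a field with at least four elements), D₄, E₆, E₇ or E₈ over a finite field F of characteristic two, and let X be the root subgroup of the highest root (the last root index) — a long root subgroup, of order |F|. For every g in G, the subgroup generated by X and its conjugate g X g⁻¹ is either a 2-group or is conjugate by an element of G to the subgroup generated by X and the root subgroup of the lowest root (index 0, the negative of the highest root), which is a copy of SL₂(F). -/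
theorem result {F : Type*} [Field F] [Fintype F] [CharP F 2] (D : Cfsg.Lie.ChevalleyDatum) (hD : D ∈ [Cfsg.Lie.chevG2, Cfsg.Lie.chevD4, Cfsg.Lie.chevE6, Cfsg.Lie.chevE7, Cfsg.Lie.chevE8]) (hF : D = Cfsg.Lie.chevG2 → 4 ≤ Fintype.card F) (g : GL D.Idx F) (hg : g ∈ D.group F) :
    IsPGroup 2 ↥(D.rootSubgroup F (D.nroots - 1) ⊔ (D.rootSubgroup F (D.nroots - 1)).map (MulAut.conj g).toMonoidHom) ∨
    ∃ h ∈ D.group F, (D.rootSubgroup F (D.nroots - 1) ⊔ (D.rootSubgroup F (D.nroots - 1)).map (MulAut.conj g).toMonoidHom).map (MulAut.conj h).toMonoidHom = D.rootSubgroup F (D.nroots - 1) ⊔ D.rootSubgroup F 0 := by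
  have hD' : D ∈ [chevG2, chevB2, chevD4, chevF4, chevE6, chevE7, chevE8] := by
    simp only [List.mem_cons, List.not_mem_nil, or_false] at hD ⊢; tauto
  have := good_of_mem hD'
  have := cert_of_mem hD'
  obtain ⟨i⟩ := nonempty_node hD'
  have h0 : 0 < D.nroots := (sroot i).pos
  let r : Root D := ⟨D.nroots - 1, by omega⟩
  have e0 : D.rootSubgroup F 0 = (matSys D F).US {r.rev} := by
    rw [← rootSubgroup_eq]; congr 1; simp [r]; omega
  have e1 : D.rootSubgroup F (D.nroots - 1) = (matSys D F).US {r} := rootSubgroup_eq F r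
  rw [e0, e1]
  rw [group_eq] at hg ⊢
  obtain ⟨u, hu, s, e⟩ := pair_cases (S := matSys D F) (r := r)
    (cenU_top fun s => by rw [Fin.le_def]; have := s.2; simp only [r]; omega) hg
  by_cases hs : s = r.rev
  · exact Or.inr ⟨u⁻¹, inv_mem (US_le_grp _ hu), hs ▸ e⟩
  · left
    obtain ⟨ψ, h1, h2⟩ := exists_fv_pos_pos hs
    haveI : Fact (Nat.Prime 2) := ⟨Nat.prime_two⟩
    have h3 := (isPGroup_US (S := matSys D F) 2 (closed_pos ψ) (fun r hr => hr)).to_le
      (sup_le (US_mono (T := {r}) (by rintro _ rfl; exact h1)) (US_mono (T := {s}) (by rintro _ rfl; exact h2)))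
    rw [← e] at h3
    exact h3.of_equiv (Subgroup.equivMapOfInjective _ _ (MulAut.conj u⁻¹).injective).symm

end Cfsg.Agent.S2186
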