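import Mathlib
import Cfsg.Statements.S2189
import Cfsg.Agent.H12.SubF

set_option autoImplicit false
open Cfsg

namespace Cfsg.Agent.S2189

/-- Finite subgroups of an adjoint Chevalley group over an algebraically closed field that contain the group over a finite subfield. Let k be an algebraically closed field of prime characteristic p, G the Chevalley group of type G₂, B₂, D₄, F₄, E₆, E₇ or E₈ over k (the matrix group generated by the root elements x_s(t), t ∈ k), and q = p^a with a ≥ 1. Let L be the subgroup generated by the root elements x_s(t) with t^q = t (the Chevalley group over the field of q elements inside G), and let M be a finite subgroup of G containing L. Then for some r ≥ 1, M contains every root element x_s(t) with t^(q^r) = t and every element of M is a matrix all of whose entries c satisfy c^(q^r) = c (so M lies between the Chevalley group over the field with q^r elements and the group of points of G fixed by the q^r-th power map). -/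
theorem result {k : Type*} [Field k] [IsAlgClosed k] (p : ℕ) [Fact p.Prime] [CharP k p] (D : Cfsg.Lie.ChevalleyDatum) (hD : D ∈ [Cfsg.Lie.chevG2, Cfsg.Lie.chevB2, Cfsg.Lie.chevD4, Cfsg.Lie.chevF4, Cfsg.Lie.chevE6, Cfsg.Lie.chevE7, Cfsg.Lie.chevE8]) (a : ℕ) (ha : 1 ≤ a) (M : Subgroup (GL D.Idx k)) (hMfin : Finite ↥M) (hMG : M ≤ D.group k)
    (hLM : Subgroup.closure {g : GL D.Idx k | ∃ (s : ℕ) (t : k), t ^ (p ^ a) = t ∧ (g : Matrix D.Idx D.Idx k) = D.x k s t} ≤ M) :
    ∃ r : ℕ, 1 ≤ r ∧ Subgroup.closure {g : GL D.Idx k | ∃ (s : ℕ) (t : k), t ^ ((p ^ a) ^ r) = t ∧ (g : Matrix D.Idx D.Idx k) = D.x k s t} ≤ M ∧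
      ∀ g ∈ M, ∀ i j : D.Idx, ((g : Matrix D.Idx D.Idx k) i j) ^ ((p ^ a) ^ r) = (g : Matrix D.Idx D.Idx k) i j := by
  have := H11.good_of_mem hD
  have := H11.cert_of_mem hD
  have hp := (Fact.out : p.Prime)
  have : NeZero ((p ^ a - 1 : ℕ) : k) := ⟨by
    rw [Nat.cast_sub (Nat.one_le_pow _ _ hp.pos), Nat.cast_pow, CharP.cast_eq_zero, zero_pow (by omega)]; simp⟩
  obtain ⟨ζ, hζ⟩ := HasEnoughRootsOfUnity.exists_primitiveRoot k (p ^ a - 1)
  have : Finite (M.subgroupOf (D.group k)) := .of_equiv _ (Subgroup.subgroupOfEquivOfLe hMG).toEquiv.symm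
  obtain ⟨m, h1, F, -, h2, h3, h4⟩ := H12.Lev.sub_main p hD ha hζ (H := M.subgroupOf (D.group k)) fun r t ht =>
    hLM (Subgroup.subset_closure ⟨r, t, ht, H11.grpSys_x_val r t⟩)
  refine ⟨m, h1, (Subgroup.closure_le _).2 ?_, fun g hg => h4 ⟨g, hMG hg⟩ hg⟩
  rintro g ⟨s, t, ht, e⟩
  by_cases hs : s < D.nroots
  · have : g = ((H11.grpSys D k).x ⟨s, hs⟩ t).1 := Units.ext (e.trans (H11.grpSys_x_val ⟨s, hs⟩ t).symm)
    exact this ▸ h3 _ t ((h2 t).1 ht)
  · have : g = 1 := Units.ext (by rw [e, Cfsg.Lie.ChevalleyDatum.x, dif_neg hs]; rfl)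
    exact this ▸ one_mem _

end Cfsg.Agent.S2189
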