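import Mathlib
import Cfsg.Statements.S2190
import Cfsg.Agent.H12.SubF

set_option autoImplicit false
open Cfsg

namespace Cfsg.Agent.S2190

/-- Subfield subgroups of prime degree are maximal. Let K be a finite field with q^r elements, r a prime, q a power of the characteristic, and G the Chevalley group of type G₂, B₂, D₄, F₄, E₆, E₇ or E₈ over K (the matrix group generated by the root elements). Let M be the subgroup of G consisting of the matrices all of whose entries lie in the subfield with q elements (entries c with c^q = c). Then M is a proper subgroup of G and is maximal: every subgroup of G containing M is M or G. -/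
theorem result {K : Type*} [Field K] [Fintype K] (p : ℕ) [Fact p.Prime] [CharP K p] (D : Cfsg.Lie.ChevalleyDatum) (hD : D ∈ [Cfsg.Lie.chevG2, Cfsg.Lie.chevB2, Cfsg.Lie.chevD4, Cfsg.Lie.chevF4, Cfsg.Lie.chevE6, Cfsg.Lie.chevE7, Cfsg.Lie.chevE8]) (a r : ℕ) (ha : 1 ≤ a) (hr : r.Prime) (hK : Fintype.card K = (p ^ a) ^ r) (M : Subgroup (GL D.Idx K))
    (hM : ∀ g : GL D.Idx K, g ∈ M ↔ g ∈ D.group K ∧ ∀ i j : D.Idx, ((g : Matrix D.Idx D.Idx K) i j) ^ (p ^ a) = (g : Matrix D.Idx D.Idx K) i j) :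
    M ≠ D.group K ∧ ∀ H : Subgroup (GL D.Idx K), M ≤ H → H ≤ D.group K → H = M ∨ H = D.group K := by
  have := H11.good_of_mem hD
  have := H11.cert_of_mem hD
  have hp := (Fact.out : p.Prime)
  have hq : 1 < p ^ a := Nat.one_lt_pow (by omega) hp.one_lt
  have hτ := iterateFrobeniusEquiv_def K p a
  have hM' : ∀ g : D.group K, g.1 ∈ M ↔ g ∈ H11.fixS (H11.fieldAut D K (iterateFrobeniusEquiv K p a)) := fun g => by
    simp [hM, H12.Lev.mem_fix_iff, hτ]
  have hx : ∀ s t, ((H11.grpSys D K).x s t).1 ∈ M ↔ t ^ p ^ a = t := fun s t => by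
    rw [hM', H11.mem_fixS, H11.fieldAut_x, hτ]
    exact ⟨fun e => H11.StSys.x_inj (congrArg (H11.grpSys D K).θ e), fun e => by rw [e]⟩
  obtain ⟨ζ, h0⟩ := IsCyclic.exists_ofOrder_eq_natCard (α := Kˣ)
  rw [Nat.card_units, Nat.card_eq_fintype_card, hK] at h0
  have hlt := Nat.pow_lt_pow_right hq hr.one_lt
  rw [pow_one] at hlt
  refine ⟨fun e => ?_, fun H h1 h2 => ?_⟩
  · obtain ⟨α, -⟩ := H12.Lev.dat_of_mem hD
    have h3 := (hx α ζ).1 (by rw [e]; exact Subtype.prop _)
    rw [← Nat.sub_add_cancel hq.le, pow_succ, mul_eq_right₀ ζ.ne_zero, ← Units.val_pow_eq_pow_val, Units.val_eq_one,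
      ← orderOf_dvd_iff_pow_eq_one, h0] at h3
    have := Nat.le_of_dvd (by omega) h3
    omega
  obtain ⟨c, hc⟩ := (by simpa using Nat.pow_sub_one_dvd_pow_sub_one (p ^ a) (one_dvd r) : p ^ a - 1 ∣ (p ^ a) ^ r - 1)
  have hζ := IsPrimitiveRoot.coe_units_iff.2 ((h0 ▸ IsPrimitiveRoot.orderOf ζ).pow (by omega) (hc.trans (mul_comm _ _)))
  obtain ⟨m, a1, F, a2, a3, a4, a5⟩ := H12.Lev.sub_main p hD ha hζ (H := H.subgroupOf (D.group K)) fun s t ht =>
    h1 ((hx s t).2 ht)
  have a6 := Module.natCard_eq_pow_finrank (K := F) (V := K)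
  rw [a2, Nat.card_eq_fintype_card, hK, ← pow_mul _ m] at a6
  rcases hr.eq_one_or_self_of_dvd m ⟨_, Nat.pow_right_injective hq a6⟩ with rfl | rfl
  · exact .inl (le_antisymm (fun g hg => (hM g).2 ⟨h2 hg, by simpa using a5 ⟨g, h2 hg⟩ hg⟩) h1)
  · refine .inr (le_antisymm h2 (Subgroup.subgroupOf_eq_top.1 (top_le_iff.1 (H11.grpSys_grp D K ▸ (Subgroup.closure_le _).2 ?_))))
    rintro _ ⟨s, -, t, rfl⟩
    exact a4 s t ((a3 t).1 (hK ▸ FiniteField.pow_card t))

end Cfsg.Agent.S2190
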