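import Cfsg.Statements.S2197
import Mathlib
import Cfsg.Agent.H27.Tits
-- import your own Cfsg.Agent.* helpers here

set_option autoImplicit false
open Cfsg

namespace Cfsg.Agent.S2197

open scoped Pointwise commutatorElement

open H13 H14.PK H14.PK.TS H27.PKx H27.MG MulAction

/-- the checks -/
noncomputable def chk (x y : ℕ) (qs cs : List ℕ) : Bool := force x fun x => force y fun y =>
  band (band (ordOk 11 1755 x 13) (ordOk 11 1755 y 3)) (band (Nat.beq (tm 11 1755 y x) (tm 11 1755 (tp 11 1755 x 3) y))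
    (grpK 11 1755 qs [[],
   [nat_lit 1, nat_lit 1],
   [nat_lit 3, nat_lit 2],
   [nat_lit 3, nat_lit 4],
   [nat_lit 5, nat_lit 5],
   [nat_lit 6, nat_lit 3],
   [nat_lit 6, nat_lit 3],
   [nat_lit 8, nat_lit 4],
   [nat_lit 8, nat_lit 4],
   [nat_lit 10, nat_lit 5],
   [nat_lit 10, nat_lit 5],
   [nat_lit 11, nat_lit 5],
   [nat_lit 13, nat_lit 6],
   [nat_lit 13, nat_lit 6],
   [nat_lit 15, nat_lit 7],
   [nat_lit 15, nat_lit 7],
   [nat_lit 17, nat_lit 6],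
   [nat_lit 18, nat_lit 6],
   [nat_lit 18, nat_lit 6],
   [nat_lit 20, nat_lit 7],
   [nat_lit 20, nat_lit 7],
   [nat_lit 22, nat_lit 6],
   [nat_lit 23, nat_lit 6],
   [nat_lit 24, nat_lit 3],
   [nat_lit 25, nat_lit 3]] fun E => band (Nat.beq E.length 27) (cjAll 11 1755 y cs E)))

theorem ok : slpK 11 1755 [[nat_lit 0, nat_lit 0, nat_lit 1],
   [nat_lit 2, nat_lit 2, nat_lit 0, nat_lit 1, nat_lit 0, nat_lit 2, nat_lit 1, nat_lit 1, nat_lit 1],
   [nat_lit 2, nat_lit 3, nat_lit 3, nat_lit 3, nat_lit 3, nat_lit 2, nat_lit 3, nat_lit 1, nat_lit 1],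
   [nat_lit 1, nat_lit 1, nat_lit 0, nat_lit 0, nat_lit 1, nat_lit 1],
   [nat_lit 2, nat_lit 2, nat_lit 1, nat_lit 2, nat_lit 1, nat_lit 1, nat_lit 2, nat_lit 1],
   [nat_lit 3, nat_lit 2, nat_lit 3, nat_lit 2, nat_lit 3, nat_lit 2, nat_lit 2],
   [nat_lit 2, nat_lit 2, nat_lit 0, nat_lit 1, nat_lit 2, nat_lit 2, nat_lit 1, nat_lit 0, nat_lit 1, nat_lit 2],
   [nat_lit 1, nat_lit 1, nat_lit 3, nat_lit 1, nat_lit 3, nat_lit 1, nat_lit 2, nat_lit 2],
   [nat_lit 2, nat_lit 4, nat_lit 2],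
   [nat_lit 2, nat_lit 2, nat_lit 1],
   [nat_lit 3, nat_lit 1, nat_lit 2],
   [nat_lit 4, nat_lit 3, nat_lit 4, nat_lit 4, nat_lit 4, nat_lit 3],
   [nat_lit 3, nat_lit 5],
   [nat_lit 1, nat_lit 0, nat_lit 0, nat_lit 1, nat_lit 3, nat_lit 2, nat_lit 0],
   [nat_lit 2, nat_lit 3, nat_lit 1, nat_lit 4, nat_lit 1, nat_lit 1],
   [nat_lit 3, nat_lit 3, nat_lit 2, nat_lit 5],
   [nat_lit 6, nat_lit 6, nat_lit 4],
   [nat_lit 4, nat_lit 6, nat_lit 6, nat_lit 4, nat_lit 5],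
   [nat_lit 4, nat_lit 1, nat_lit 0, nat_lit 4],
   [nat_lit 5, nat_lit 2, nat_lit 2, nat_lit 1, nat_lit 4, nat_lit 3, nat_lit 1],
   [nat_lit 6, nat_lit 3, nat_lit 6, nat_lit 4],
   [nat_lit 21],
   [nat_lit 2, nat_lit 1, nat_lit 8, nat_lit 15, nat_lit 18, nat_lit 19, nat_lit 22, nat_lit 23, nat_lit 23, nat_lit 23, nat_lit 22, nat_lit 21, nat_lit 21],
   [nat_lit 4, nat_lit 3, nat_lit 8, nat_lit 16, nat_lit 19, nat_lit 17, nat_lit 20, nat_lit 20, nat_lit 20, nat_lit 20, nat_lit 23, nat_lit 23, nat_lit 23, nat_lit 23, nat_lit 22, nat_lit 22, nat_lit 22],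
   [nat_lit 5, nat_lit 3, nat_lit 14, nat_lit 17, nat_lit 20, nat_lit 20, nat_lit 21, nat_lit 25, nat_lit 23, nat_lit 24, nat_lit 25, nat_lit 24],
   [nat_lit 5, nat_lit 4, nat_lit 15, nat_lit 21, nat_lit 23, nat_lit 26, nat_lit 26, nat_lit 25, nat_lit 26, nat_lit 26, nat_lit 24, nat_lit 26, nat_lit 26],
   [nat_lit 5, nat_lit 16, nat_lit 19, nat_lit 20, nat_lit 22, nat_lit 23, nat_lit 23, nat_lit 23, nat_lit 23, nat_lit 26, nat_lit 25, nat_lit 25, nat_lit 27, nat_lit 26, nat_lit 27, nat_lit 26],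
   [nat_lit 7, nat_lit 11, nat_lit 21, nat_lit 23, nat_lit 24, nat_lit 24, nat_lit 27, nat_lit 27, nat_lit 26, nat_lit 27, nat_lit 26, nat_lit 26, nat_lit 27],
   [nat_lit 9, nat_lit 8, nat_lit 7, nat_lit 12, nat_lit 18, nat_lit 22, nat_lit 22, nat_lit 25, nat_lit 25, nat_lit 25, nat_lit 29, nat_lit 27, nat_lit 28, nat_lit 29, nat_lit 28],
   [nat_lit 8, nat_lit 23, nat_lit 25, nat_lit 27, nat_lit 26, nat_lit 29, nat_lit 30, nat_lit 29, nat_lit 29, nat_lit 28, nat_lit 30],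
   [nat_lit 11, nat_lit 10, nat_lit 16, nat_lit 26, nat_lit 24, nat_lit 27, nat_lit 29, nat_lit 31, nat_lit 29, nat_lit 29, nat_lit 29, nat_lit 31, nat_lit 29, nat_lit 29],
   [nat_lit 12, nat_lit 11, nat_lit 15, nat_lit 25, nat_lit 32, nat_lit 32, nat_lit 30, nat_lit 32, nat_lit 30, nat_lit 31, nat_lit 31],
   [nat_lit 13, nat_lit 16, nat_lit 22, nat_lit 25, nat_lit 28, nat_lit 28, nat_lit 26, nat_lit 30, nat_lit 30, nat_lit 32, nat_lit 31, nat_lit 32, nat_lit 31, nat_lit 31, nat_lit 32, nat_lit 31],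
   [nat_lit 14, nat_lit 13, nat_lit 19, nat_lit 23, nat_lit 26, nat_lit 27, nat_lit 27, nat_lit 31, nat_lit 34, nat_lit 34, nat_lit 33, nat_lit 34, nat_lit 34, nat_lit 32, nat_lit 34, nat_lit 34],
   [nat_lit 14, nat_lit 27, nat_lit 34, nat_lit 35, nat_lit 35, nat_lit 35, nat_lit 35, nat_lit 33, nat_lit 33],
   [nat_lit 15, nat_lit 25, nat_lit 28, nat_lit 29, nat_lit 29, nat_lit 32, nat_lit 32, nat_lit 32, nat_lit 32, nat_lit 35, nat_lit 35, nat_lit 35, nat_lit 34, nat_lit 34, nat_lit 34],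
   [nat_lit 15, nat_lit 26, nat_lit 30, nat_lit 33, nat_lit 33, nat_lit 33, nat_lit 35, nat_lit 36, nat_lit 35, nat_lit 35, nat_lit 36, nat_lit 37, nat_lit 36],
   [nat_lit 17, nat_lit 22, nat_lit 27, nat_lit 31, nat_lit 31, nat_lit 38, nat_lit 36, nat_lit 36, nat_lit 37, nat_lit 37, nat_lit 36],
   [nat_lit 17, nat_lit 22, nat_lit 28, nat_lit 32, nat_lit 34, nat_lit 36, nat_lit 36, nat_lit 35, nat_lit 38, nat_lit 37, nat_lit 37, nat_lit 37, nat_lit 37, nat_lit 38, nat_lit 39, nat_lit 37],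
   [nat_lit 19, nat_lit 18, nat_lit 29, nat_lit 35, nat_lit 37, nat_lit 39, nat_lit 40, nat_lit 40, nat_lit 38, nat_lit 39, nat_lit 38, nat_lit 38],
   [nat_lit 21, nat_lit 20, nat_lit 19, nat_lit 24, nat_lit 30, nat_lit 33, nat_lit 36, nat_lit 34, nat_lit 38, nat_lit 37, nat_lit 39, nat_lit 40, nat_lit 41, nat_lit 41, nat_lit 40, nat_lit 40, nat_lit 40],
   [nat_lit 20, nat_lit 25, nat_lit 31, nat_lit 34, nat_lit 37, nat_lit 41, nat_lit 40, nat_lit 42, nat_lit 42, nat_lit 41, nat_lit 42, nat_lit 41],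
   [nat_lit 22, nat_lit 21, nat_lit 32, nat_lit 35, nat_lit 36, nat_lit 36, nat_lit 40, nat_lit 40, nat_lit 39, nat_lit 43, nat_lit 43, nat_lit 43, nat_lit 41, nat_lit 43, nat_lit 42, nat_lit 41],
   [nat_lit 23, nat_lit 22, nat_lit 33, nat_lit 36, nat_lit 39, nat_lit 39, nat_lit 40, nat_lit 40, nat_lit 40, nat_lit 43, nat_lit 44, nat_lit 43, nat_lit 43, nat_lit 42, nat_lit 44, nat_lit 42],
   [nat_lit 25, nat_lit 24, nat_lit 23, nat_lit 34, nat_lit 37, nat_lit 38, nat_lit 38, nat_lit 42, nat_lit 42, nat_lit 41, nat_lit 43, nat_lit 44, nat_lit 43, nat_lit 44, nat_lit 45, nat_lit 44],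
   [nat_lit 26, nat_lit 25, nat_lit 29, nat_lit 41, nat_lit 41, nat_lit 43, nat_lit 42, nat_lit 45, nat_lit 44, nat_lit 44, nat_lit 45, nat_lit 44, nat_lit 46, nat_lit 45, nat_lit 46],
   [nat_lit 26, nat_lit 32, nat_lit 36, nat_lit 39, nat_lit 42, nat_lit 42, nat_lit 40, nat_lit 44, nat_lit 44, nat_lit 43, nat_lit 44, nat_lit 46, nat_lit 47, nat_lit 45, nat_lit 47, nat_lit 47, nat_lit 47, nat_lit 47],
   [nat_lit 28, nat_lit 27, nat_lit 26, nat_lit 31, nat_lit 37, nat_lit 43, nat_lit 41, nat_lit 44, nat_lit 46, nat_lit 47, nat_lit 48, nat_lit 47, nat_lit 48, nat_lit 46, nat_lit 46, nat_lit 48],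
   [nat_lit 29, nat_lit 27, nat_lit 32, nat_lit 38, nat_lit 46, nat_lit 46, nat_lit 49, nat_lit 48, nat_lit 49, nat_lit 47, nat_lit 49, nat_lit 47, nat_lit 49, nat_lit 47],
   [],
   [nat_lit 29, nat_lit 35, nat_lit 40, nat_lit 43, nat_lit 44, nat_lit 46, nat_lit 47, nat_lit 49, nat_lit 51, nat_lit 49, nat_lit 50, nat_lit 51, nat_lit 50, nat_lit 49],
   [nat_lit 36, nat_lit 44, nat_lit 47, nat_lit 47, nat_lit 49, nat_lit 49, nat_lit 48, nat_lit 49, nat_lit 51, nat_lit 52, nat_lit 51, nat_lit 50, nat_lit 51, nat_lit 51, nat_lit 50, nat_lit 52]] H27.Tits.Ls (fun Ms => chk (nd (idv 11 1755) Ms 30) (nd (idv 11 1755) Ms 29)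
    (sel 11 1755 Ms [nat_lit 28, nat_lit 27]) (sel 11 1755 Ms [nat_lit 26, nat_lit 25, nat_lit 24, nat_lit 23, nat_lit 22, nat_lit 21, nat_lit 20, nat_lit 19, nat_lit 18, nat_lit 17, nat_lit 16, nat_lit 15, nat_lit 14, nat_lit 13, nat_lit 12, nat_lit 11, nat_lit 10, nat_lit 9, nat_lit 8, nat_lit 7, nat_lit 6, nat_lit 5, nat_lit 4, nat_lit 3, nat_lit 2, nat_lit 1, nat_lit 0])) = true := by decide +kernel

theorem facts : ∃ (x y : Cfsg.Lie.TitsGroup) (Q : Subgroup Cfsg.Lie.TitsGroup), orderOf x = 13 ∧ orderOf y = 3 ∧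
    y * x = x ^ 3 * y ∧ Nat.card Q = 27 ∧ ∀ q ∈ Q, q ≠ 1 → IsConj q y := by
  obtain ⟨S, M⟩ := H27.Tits.model
  obtain ⟨Ms, a, b⟩ := slpK_spec ok M.mem
  simp only [chk, force_eq, band_eq_true] at b
  have hx := nd_prop In.one a 30
  have hy := nd_prop In.one a 29
  obtain ⟨E, -, c1, c2, c3⟩ := grpK_spec (sel_in a _) b.2.2
  obtain ⟨c3, c4⟩ := band_eq_true.1 c3
  exact ⟨_, _, _, hx.order (by norm_num) b.1.1, hy.order (by norm_num) b.1.2,
    by rw [← hy.el_tm hx, Nat.eq_of_beq_eq_true b.2.1, (hx.pow 3).el_tm hy, hx.el_tp],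
    c2.trans (Nat.eq_of_beq_eq_true c3), fun q hq => cjAll_spec hy (sel_in a _) c4 (c1 q hq)⟩

theorem arith : allLt (fun n => bor (bn (Nat.beq (17971200 % (n * (n - 1))) 0))
    (bor (Nat.blt n 27) (memL n [27, 40, 65]))) 4300 = true := by decide +kernel

theorem abst {G Ω : Type*} [Group G] [Fintype Ω] [MulAction G Ω] [FaithfulSMul G Ω] (hΩ : 3 ≤ Fintype.card Ω)
    (h2 : IsMultiplyPretransitive G Ω 2) {x y : G} {Q : Subgroup G} (hx : orderOf x = 13) (hy : orderOf y = 3)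
    (e : y * x = x ^ 3 * y) (hQ : Nat.card Q = 27) (hc : ∀ q ∈ Q, q ≠ 1 → IsConj q y) (hG : Nat.card G = 17971200) : False := by
  classical
  have : Finite G := Nat.finite_of_card_ne_zero (by omega)
  have k0 : ∀ f : Fin 2 ↪ Ω, Fintype.card Ω * (Fintype.card Ω - 1) * Nat.card (stabilizer G f) = 17971200 := fun f => by
    have : IsPretransitive G (Fin 2 ↪ Ω) := h2
    rw [← hG, ← (stabilizer G f).index_mul_card, index_stabilizer_of_transitive, Nat.card_eq_fintype_card (α := _ ↪ _),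
      Fintype.card_embedding_eq]
    simp [Nat.descFactorial, mul_comm]
  have k1 := burn (Ω := Ω) Q fun q hq h1 => card_fix_conj (hc q hq h1)
  have k2 : ∀ q ∈ Subgroup.zpowers x, q ≠ 1 → ∀ p : Ω, q • p = p → x • p = p := fun q hq h1 p hp => by
    have : Fact (Nat.card (Subgroup.zpowers x)).Prime := ⟨by rw [Nat.card_zpowers, hx]; norm_num⟩
    rcases ((stabilizer G p).subgroupOf (Subgroup.zpowers x)).eq_bot_or_eq_top_of_prime_card with c | c
    · exact absurd (congrArg Subtype.val (Subgroup.mem_bot.1 (c.le (show (⟨q, hq⟩ : Subgroup.zpowers x) ∈ _ from hp)))) h1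
    · exact c.ge (Subgroup.mem_top (⟨x, Subgroup.mem_zpowers x⟩ : Subgroup.zpowers x))
  have k3 := burn (Ω := Ω) (Subgroup.zpowers x) (f := Nat.card (fixedBy Ω x)) fun q hq h1 =>
    congrArg (fun s : Set Ω => Nat.card s) (Set.ext fun p => ⟨k2 q hq h1 p, fun hp =>
      (Subgroup.zpowers_le.2 (show x ∈ stabilizer G p from hp)) hq⟩)
  have k4 : Nat.card (fixedBy Ω y) ≤ Nat.card (Quotient (orbitRel (Subgroup.zpowers x) Ω)) :=
    Nat.card_le_card_of_injective (fun p => Quotient.mk _ p.1) fun p q c => by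
      obtain ⟨⟨_, i, rfl⟩, c⟩ := Quotient.exact c
      change x ^ i • q.1 = p.1 at c
      have c1 : y * x ^ i = (x ^ 3) ^ i * y := (show SemiconjBy y x (x ^ 3) from e).zpow_right i
      have c2 : (x ^ i) ^ 2 • q.1 = q.1 := by
        have := congrArg (y • ·) c
        simp only [← mul_smul, c1] at this
        rw [mul_smul, q.2, p.2, ← c, show (x ^ 3) ^ i = x ^ i * (x ^ i) ^ 2 by group, mul_smul] at this
        exact MulAction.injective _ this
      have c3 : x ^ i = ((x ^ i) ^ 2) ^ 7 := by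
        rw [← pow_mul, show 2 * 7 = 13 + 1 from rfl, pow_succ, ← zpow_natCast, ← zpow_mul, mul_comm i, zpow_mul, zpow_natCast, ← hx,
          pow_orderOf_eq_one, one_zpow, one_mul]
      exact Subtype.ext (by rw [← c, c3]; exact (stabilizer G q.1).pow_mem c2 7)
  have k5 : Nat.card (fixedBy Ω y) < Nat.card Ω := by
    obtain ⟨p, hp⟩ := not_forall.1 fun c : ∀ p : Ω, y • p = p => by
      rw [eq_of_smul_eq_smul (m₁ := y) (m₂ := 1) (α := Ω) (by simpa using c), orderOf_one] at hy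
      omega
    exact Finite.card_subtype_lt (x := p) hp
  obtain ⟨f⟩ : Nonempty (Fin 2 ↪ Ω) := Function.Embedding.nonempty_of_card_le (by simp; omega)
  have k6 := allLt_iff.1 arith (Fintype.card Ω) (by
    have := k0 f
    have := Nat.card_pos (α := stabilizer G f)
    by_contra c
    have : 4300 * 4299 ≤ Fintype.card Ω * (Fintype.card Ω - 1) := Nat.mul_le_mul (by omega) (by omega)
    nlinarith)
  rw [← k0 f, mul_assoc, ← mul_assoc, Nat.mul_mod_right] at k6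
  simp only [bor_eq_true, bn_iff, Nat.beq_eq, not_true, false_or, Nat.blt_eq, memL_iff, List.mem_cons, List.not_mem_nil, or_false] at k6
  rw [hQ, Nat.card_eq_fintype_card (α := Ω)] at k1
  rw [Nat.card_zpowers, hx, Nat.card_eq_fintype_card (α := Ω)] at k3
  rw [Nat.card_eq_fintype_card (α := Ω)] at k5
  replace k6 := k6.resolve_left (by omega)
  have k7 : Subsingleton (fixedBy Ω x) := ⟨fun p q => by
    by_contra c
    let f : Fin 2 ↪ Ω := ⟨![p.1, q.1], fun i j h => by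
      fin_cases i <;> fin_cases j <;> first | rfl | exact absurd (Subtype.ext h) c | exact absurd (Subtype.ext h.symm) c⟩
    have a := k0 f
    obtain ⟨r, b⟩ := hx ▸ Subgroup.orderOf_dvd_natCard (s := stabilizer G f) (show x • f = f from by
      ext i; fin_cases i; exacts [p.2, q.2])
    rw [b] at a
    rcases k6 with d | d | d <;> rw [d] at a <;> omega⟩
  have k8 := Finite.card_le_one_iff_subsingleton.2 k7
  have k9 : Fintype.card Ω = 27 ∧ Nat.card (fixedBy Ω x) = 1 ∧ Nat.card (fixedBy Ω y) = 0 := by omega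
  obtain ⟨p⟩ := (Nat.card_eq_one_iff_unique.1 k9.2.1).2
  have : y⁻¹ • p.1 = p.1 := congrArg Subtype.val (k7.1 ⟨_, by
    change x • _ = _
    rw [← mul_smul, show x * y⁻¹ = y⁻¹ * x ^ 3 by rw [eq_inv_mul_iff_mul_eq, ← mul_assoc, e, mul_inv_cancel_right], mul_smul,
      show x ^ 3 • p.1 = p.1 from (stabilizer G p.1).pow_mem p.2 3]⟩ p)
  exact (Finite.card_eq_zero_iff.1 k9.2.2).1 ⟨p, (inv_smul_eq_iff.1 this).symm⟩

/-- The Tits group (the commutator subgroup of ²F₄(2)) has no faithful 2-transitive action on a finite set with more than two points. -/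
theorem result {Ω : Type*} [Fintype Ω] [MulAction Cfsg.Lie.TitsGroup Ω] [FaithfulSMul Cfsg.Lie.TitsGroup Ω] (hΩ : 3 ≤ Fintype.card Ω) :
    ¬ MulAction.IsMultiplyPretransitive Cfsg.Lie.TitsGroup Ω 2 := by
  intro h2
  obtain ⟨x, y, Q, hx, hy, e, hQ, hc⟩ := facts
  exact abst hΩ h2 hx hy e hQ hc H27.Tits.card

end Cfsg.Agent.S2197
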