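import Mathlib
import Cfsg.Statements.S2205
import Cfsg.Agent.H05.PSq2

set_option autoImplicit false
open Cfsg

namespace Cfsg.Agent.S2205

/-- A finite group acting faithfully and 2-transitively on a set with p² + 1 points, p a prime, is doubly primitive — a point stabilizer acts primitively on the remaining p² points — unless p = 2 and the group is the Frobenius group of order 20. -/
theorem result {G Ω : Type*} [Group G] [Finite G] [Fintype Ω] [MulAction G Ω] [FaithfulSMul G Ω] (p : ℕ) (hp : p.Prime) (hΩ : Fintype.card Ω = p ^ 2 + 1) (h2 : MulAction.IsMultiplyPretransitive G Ω 2) (a : Ω) :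
    MulAction.IsPreprimitive ↥(MulAction.stabilizer G a) ↥(SubMulAction.ofStabilizer G a) ∨ (p = 2 ∧ Nat.card G = 20) := by
  classical
  open MulAction H05.PSq Pointwise in
  have h : Hy G Ω p := ⟨hp, Nat.card_eq_fintype_card.trans hΩ,
    fun _ _ _ _ h1 h3 => is_two_pretransitive_iff.1 h2 h1 h3,
    fun g hg => FaithfulSMul.eq_of_smul_eq_smul (α := Ω) fun x => by rw [hg, one_smul]⟩
  refine or_iff_not_imp_left.2 fun hn => ?_
  haveI : MulAction.IsPretransitive (MulAction.stabilizer G a) (SubMulAction.ofStabilizer G a) :=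
    ⟨fun y z => let ⟨g, g1, g2⟩ := h.tr1 (a := a) y.2 z.2; ⟨⟨g, g1⟩, Subtype.ext g2⟩⟩
  obtain ⟨B, hB, hB'⟩ : ∃ B : Set (SubMulAction.ofStabilizer G a),
      MulAction.IsBlock (MulAction.stabilizer G a) B ∧ ¬ MulAction.IsTrivialBlock B := by
    by_contra hc
    push Not at hc
    exact hn ⟨fun hB => hc _ hB⟩
  rw [MulAction.IsTrivialBlock, not_or, Set.not_subsingleton_iff] at hB'
  have hc : Nat.card (SubMulAction.ofStabilizer G a) = p ^ 2 := h.compl a
  have h3 := hB.ncard_block_mul_ncard_orbit_eq hB'.1.nonempty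
  rw [hc] at h3
  have h4 : B.ncard = p := by
    rcases h.tri (Dvd.intro _ h3) with e | e | e
    · exact absurd ((Set.one_lt_ncard_iff_nontrivial).2 hB'.1) (by omega)
    · exact e
    · exact absurd ((Set.eq_univ_iff_ncard B).2 (e.trans hc.symm)) hB'.2
  rw [h4, sq, mul_right_inj' hp.ne_zero] at h3
  let φ := MulAction.toPermHom (MulAction.stabilizer G a) (MulAction.orbit (MulAction.stabilizer G a) B)
  obtain ⟨y, hy⟩ := hB'.1.nonempty
  obtain ⟨z, hz⟩ := (Set.ne_univ_iff_exists_notMem B).1 hB'.2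
  refine h.main (a := a) (L := φ.ker.map (Subgroup.subtype _)) ⟨Subgroup.map_subtype_le _,
    BG.le_norm_iff.2 ?_⟩ (fun e => ?_) y.2 z.2 fun e => ?_
  · rintro g hg _ ⟨k, hk, rfl⟩
    exact ⟨_, φ.normal_ker.conj_mem k hk ⟨g, hg⟩, rfl⟩
  · rw [Subgroup.map_eq_bot_iff_of_injective _ (Subgroup.subtype_injective _),
      MonoidHom.ker_eq_bot_iff] at e
    have h5 := Subgroup.card_dvd_of_injective φ e
    rw [Nat.card_perm, show Nat.card (MulAction.orbit (MulAction.stabilizer G a) B) = p from h3,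
      ← (MulAction.stabilizer (MulAction.stabilizer G a) y).index_mul_card,
      MulAction.index_stabilizer_of_transitive, hc, ← Nat.mul_factorial_pred hp.ne_zero, sq, mul_assoc] at h5
    have := hp.dvd_factorial.1 ((Dvd.intro _ rfl).trans (Nat.dvd_of_mul_dvd_mul_left hp.pos h5))
    have := hp.pos
    omega
  · obtain ⟨_, ⟨k, hk, rfl⟩, e⟩ := H05.PSq.mem_orb.1 e
    have h6 := congrArg Subtype.val
      (DFunLike.congr_fun (show φ k = 1 from hk) ⟨B, MulAction.mem_orbit_self B⟩)
    have h5 : k • B = B := h6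
    exact hz (h5.le ⟨y, hy, Subtype.ext e⟩)

end Cfsg.Agent.S2205
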