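import Mathlib
import Cfsg.Statements.S2209
import Cfsg.Agent.H12.LieA

set_option autoImplicit false
open Cfsg

namespace Cfsg.Agent.S2209

open Cfsg.Lie H11 H11.StSys H12.Lie in
theorem aux {F : Type*} [Field F] (D : ChevalleyDatum) [Good D] [Cert D] (L : List ℕ) (i : Node D)
    (h0 : D.nroots - 1 < D.nroots) (h1 : ∀ j : Node D, D.cartan j (D.nroots - 1) = if j = i then 1 else 0)
    (h2 : ∀ s ∈ L, ∃ j : Node D, j ≠ i ∧ s = D.nroots - (D.simple j + 1))
    (h3 : ∀ j : Node D, j ≠ i → D.nroots - (D.simple j + 1) ∈ L)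
    (t : GL D.Idx F) (ht : (t : Matrix D.Idx D.Idx F) = D.x F (D.nroots - 1) 1) :
    D.group F ⊓ Subgroup.centralizer {t} = D.posUnipotent F ⊔ Subgroup.closure {g : GL D.Idx F | ∃ s ∈ L, ∃ c : F, (g : Matrix D.Idx D.Idx F) = D.x F s c} := by
  let r : Root D := ⟨D.nroots - 1, h0⟩
  obtain rfl : t = (matSys D F).x r 1 := eq_x_iff.1 ht
  have e1 : {g : GL D.Idx F | ∃ s ∈ L, ∃ c : F, (g : Matrix D.Idx D.Idx F) = D.x F s c} =
      {g : GL D.Idx F | ∃ (s : ℕ) (c : F), s ∈ L ∧ (g : Matrix D.Idx D.Idx F) = D.x F s c} := by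
    ext g; simp
  rw [group_eq, posUnipotent_eq, e1, closure_x_eq _ (fun s hs => by obtain ⟨j, -, rfl⟩ := h2 s hs; omega),
    cent_root hMul_mat (i := i) (cenU_top fun s => by rw [Fin.le_def]; have := s.2; simp only [r]; omega)
      (by ext j; rw [Pi.single_apply]; exact h1 j), U_sup_MJ]
  congr 2
  ext s
  constructor
  · rintro ⟨j, hj, rfl⟩; exact h3 j hj
  · intro hs
    obtain ⟨j, hj, e⟩ := h2 s hs
    exact ⟨j, hj, Fin.ext e⟩

/-- Centralizer of a long root involution in the Chevalley groups of type E₆, E₇, E₈ over a finite field F of characteristic two. Let G be the group generated by the root elements, U the subgroup generated by the positive root subgroups, r the highest root (the last root index: 71, 125, 239 respectively), and t the element of G with matrix x_r(1). Then the centralizer of t in G is the subgroup generated by U together with the root subgroups X_{−p} for the fundamental roots p orthogonal to r — all fundamental roots except p₂ for E₆, except p₁ for E₇, except p₈ for E₈ (numbering with p₁–p₃–p₄–…–p_l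 the long chain and p₂ joined to p₄); the indices of these negative fundamental roots are 15, 29, 32, 34, 35 (E₆), 47, 52, 56, 59, 61, 62 (E₇), 77, 98, 104, 109, 113, 116, 118 (E₈). (This is the unipotent radical of the corresponding maximal parabolic subgroup extended by the root subgroups of its Levi factor, of type A₅, D₆, E₇ respectively.) -/
theorem result {F : Type*} [Field F] [Fintype F] [CharP F 2] (d : Cfsg.Lie.ChevalleyDatum × List ℕ)
    (hd : d ∈ [(Cfsg.Lie.chevE6, [15, 29, 32, 34, 35]), (Cfsg.Lie.chevE7, [47, 52, 56, 59, 61, 62]), (Cfsg.Lie.chevE8, [77, 98, 104, 109, 113, 116, 118])])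
    (t : GL d.1.Idx F) (ht : (t : Matrix d.1.Idx d.1.Idx F) = d.1.x F (d.1.nroots - 1) 1) :
    d.1.group F ⊓ Subgroup.centralizer {t} = d.1.posUnipotent F ⊔ Subgroup.closure {g : GL d.1.Idx F | ∃ s ∈ d.2, ∃ c : F, (g : Matrix d.1.Idx d.1.Idx F) = d.1.x F s c} := by
  simp only [List.mem_cons, List.not_mem_nil, or_false] at hd
  rcases hd with rfl | rfl | rfl
  · exact aux Cfsg.Lie.chevE6 _ ⟨1, by decide⟩ (by decide) (by decide +kernel) (by decide +kernel) (by decide +kernel) t ht
  · exact aux Cfsg.Lie.chevE7 _ ⟨0, by decide⟩ (by decide) (by decide +kernel) (by decide +kernel) (by decide +kernel) t ht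
  · exact aux Cfsg.Lie.chevE8 _ ⟨7, by decide⟩ (by decide) (by decide +kernel) (by decide +kernel) (by decide +kernel) t ht

end Cfsg.Agent.S2209
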