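import Mathlib
import Cfsg.Statements.S2214
import Cfsg.Agent.H12.FixN
import Cfsg.Agent.H11.CertAll

set_option autoImplicit false
open Cfsg

namespace Cfsg.Agent.S2214

/-- Let k be an algebraically closed field of prime characteristic p, G the adjoint Chevalley group of type G₂, B₂, D₄, F₄, E₆, E₇ or E₈ over k (the matrix group generated by the root elements x_s(t), t ∈ k, acting on the Lie algebra), q = p^a with a ≥ 1, and K a subgroup of G containing every root element x_s(t) with t^q = t and consisting of matrices all of whose entries c satisfy c^q = c. Then the centralizer of K in G is trivial, and the normalizer of K in G is exactly the set of elements of G all of whose entries c satisfy c^q = c. -/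
theorem result {k : Type*} [Field k] [IsAlgClosed k] (p : ℕ) [Fact p.Prime] [CharP k p] (D : Cfsg.Lie.ChevalleyDatum) (hD : D ∈ [Cfsg.Lie.chevG2, Cfsg.Lie.chevB2, Cfsg.Lie.chevD4, Cfsg.Lie.chevF4, Cfsg.Lie.chevE6, Cfsg.Lie.chevE7, Cfsg.Lie.chevE8]) (a : ℕ) (ha : 1 ≤ a) (K : Subgroup (GL D.Idx k)) (hKG : K ≤ D.group k)
    (hLK : Subgroup.closure {g : GL D.Idx k | ∃ (s : ℕ) (t : k), t ^ (p ^ a) = t ∧ (g : Matrix D.Idx D.Idx k) = D.x k s t} ≤ K)
    (hKfix : ∀ g ∈ K, ∀ i j : D.Idx, ((g : Matrix D.Idx D.Idx k) i j) ^ (p ^ a) = (g : Matrix D.Idx D.Idx k) i j) :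
    D.group k ⊓ Subgroup.centralizer (K : Set (GL D.Idx k)) = ⊥ ∧
    ∀ g : GL D.Idx k, g ∈ D.group k → (g ∈ Subgroup.normalizer (K : Set (GL D.Idx k)) ↔ ∀ i j : D.Idx, ((g : Matrix D.Idx D.Idx k) i j) ^ (p ^ a) = (g : Matrix D.Idx D.Idx k) i j) := by
  have := H11.good_of_mem hD
  have := H11.cert_of_mem hD
  let τ : k ≃+* k := iterateFrobeniusEquiv k p a
  have hτ : ∀ t, τ t = t ^ p ^ a := fun t => iterateFrobeniusEquiv_def k p a t
  have hfix : ∀ g : D.group k, g ∈ H11.fixS (H11.fieldAut D k τ) ↔ ∀ i j : D.Idx,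
      ((g : GL D.Idx k) : Matrix D.Idx D.Idx k) i j ^ (p ^ a) = ((g : GL D.Idx k) : Matrix D.Idx D.Idx k) i j := fun g => by
    rw [H11.mem_fixS, Subtype.ext_iff, Units.ext_iff, H11.fieldAut_val, ← Matrix.ext_iff]
    simp only [Matrix.map_apply, hτ]
  have h1 : ∀ r t, τ t = t → (H11.grpSys D k).x r t ∈ K.subgroupOf (D.group k) := fun r t ht =>
    hLK (Subgroup.subset_closure ⟨r, t, (hτ t).symm.trans ht, H11.grpSys_x_val r t⟩)
  have h2 : K.subgroupOf (D.group k) ≤ H11.fixS (H11.fieldAut D k τ) := fun g hg => (hfix g).2 (hKfix _ hg)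
  refine ⟨eq_bot_iff.2 fun g hg => ?_, fun g hg => ?_⟩
  · have : (⟨g, hg.1⟩ : D.group k) = 1 :=
      H12.FixN.cent_triv (H11.grpSys_grp D k) (H11.grpSys_θ_injective D k) fun r =>
        Subtype.ext (hg.2 _ (h1 r 1 (map_one τ))).symm
    exact congrArg Subtype.val this
  · rw [← hfix ⟨g, hg⟩, ← H12.FixN.norm_fix τ h1 h2, Subgroup.mem_normalizer_iff, Subgroup.mem_normalizer_iff]
    refine ⟨fun h x => h x, fun h x => ⟨fun hx => (h ⟨x, hKG hx⟩).1 hx, fun hx => ?_⟩⟩
    have hx' : x ∈ D.group k := by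
      have := mul_mem (mul_mem (inv_mem hg) (hKG hx)) hg
      simpa [mul_assoc] using this
    exact (h ⟨x, hx'⟩).2 hx

end Cfsg.Agent.S2214
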