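import Mathlib
import Cfsg.Statements.S2221
import Cfsg.Agent.H05.SylB

set_option autoImplicit false
open Cfsg

namespace Cfsg.Agent.S2221

theorem small {G : Type*} [Group G] [Finite G] (P : Subgroup G) (h : Nat.card P = 4) (h2 : ∀ g ∈ P, g * g = 1) :
    ∃ S₁ S₂ : Subgroup G, S₁ ≠ ⊥ ∧ S₂ ≠ ⊥ ∧ Cfsg.IsInternalDirectProduct S₁ S₂ P := by
  have o : ∀ g ∈ P, g ≠ 1 → Nat.card (Subgroup.zpowers g) = 2 := fun g hg g1 => by
    rw [Nat.card_zpowers, orderOf_eq_prime (by rw [sq, h2 g hg]) g1]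
  have cm : ∀ a ∈ P, ∀ b ∈ P, a * b = b * a := fun a ha b hb => by
    rw [eq_inv_of_mul_eq_one_left (h2 _ (mul_mem ha hb)), mul_inv_rev, ← eq_inv_of_mul_eq_one_left (h2 a ha),
      ← eq_inv_of_mul_eq_one_left (h2 b hb)]
  obtain ⟨a, ha, a1⟩ := P.bot_or_exists_ne_one.resolve_left fun e => by simp [e] at h
  have la := Subgroup.zpowers_le.2 ha
  obtain ⟨b, hb, ba⟩ := SetLike.exists_of_lt (la.lt_of_ne fun e => by have := o a ha a1; rw [e] at this; omega)
  have lb := Subgroup.zpowers_le.2 hb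
  have b1 : b ≠ 1 := fun e => ba (e ▸ one_mem _)
  have : Fact (Nat.card (Subgroup.zpowers b)).Prime := ⟨by rw [o b hb b1]; exact Nat.prime_two⟩
  refine ⟨_, _, Subgroup.zpowers_ne_bot.2 a1, Subgroup.zpowers_ne_bot.2 b1, la, lb, fun x hx y hy => cm x (la hx) y (lb hy), ?_, ?_⟩
  · rcases ((Subgroup.zpowers a).subgroupOf (Subgroup.zpowers b)).eq_bot_or_eq_top_of_prime_card with e | e
    · exact (Subgroup.subgroupOf_eq_bot.1 e).eq_bot
    · exact absurd (Subgroup.subgroupOf_eq_top.1 e (Subgroup.mem_zpowers b)) ba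
  · refine Subgroup.eq_of_le_of_card_ge (sup_le la lb) ?_
    have h1 := Subgroup.card_dvd_of_le (sup_le la lb)
    have h3 : Nat.card (Subgroup.zpowers a) < Nat.card ↥(Subgroup.zpowers a ⊔ Subgroup.zpowers b) :=
      lt_of_not_ge fun k => ba ((Subgroup.eq_of_le_of_card_ge le_sup_left k).ge (Subgroup.mem_sup_right (Subgroup.mem_zpowers b)))
    rw [h] at h1 ⊢
    rw [o a ha a1] at h3
    have := Nat.le_of_dvd (by norm_num) h1
    interval_cases (Nat.card ↥(Subgroup.zpowers a ⊔ Subgroup.zpowers b)) <;> omega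

/-- Direct decomposability of the Sylow 2-subgroups of the alternating groups. Let n ≥ 4 and let P be a Sylow 2-subgroup of the alternating group of degree n. Then P is the internal direct product of two nontrivial subgroups if and only if n = 4, n = 5, or n ≡ 2, 3 (mod 4) with 4⌊n/4⌋ not a power of 2. In the remaining cases (n ≡ 0, 1 (mod 4) with n ≥ 8, or n ≡ 2, 3 (mod 4) with 4⌊n/4⌋ a power of 2) P is directly indecomposable. -/
theorem result (n : ℕ) (hn : 4 ≤ n)
    (P : Sylow 2 (alternatingGroup (Fin n))) :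
    (∃ S₁ S₂ : Subgroup (alternatingGroup (Fin n)), S₁ ≠ ⊥ ∧ S₂ ≠ ⊥ ∧
        Cfsg.IsInternalDirectProduct S₁ S₂ (P : Subgroup (alternatingGroup (Fin n)))) ↔
      (n = 4 ∨ n = 5 ∨ ((n % 4 = 2 ∨ n % 4 = 3) ∧ ∀ r : ℕ, 4 * (n / 4) ≠ 2 ^ r)) := by
  by_cases h6 : 6 ≤ n
  · obtain ⟨W, hW⟩ := (P.isPGroup'.map (alternatingGroup (Fin n)).subtype).exists_le_sylow
    have hi := (alternatingGroup (Fin n)).subtype_injective
    have e : (P : Subgroup (alternatingGroup (Fin n))).map (alternatingGroup (Fin n)).subtype = H05.SylA.ev W := by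
      rw [← P.is_maximal' W.isPGroup'.comap_subtype (Subgroup.map_le_iff_le_comap.1 hW), Subgroup.map_comap_eq,
        Subgroup.range_subtype, inf_comm]; rfl
    have := H05.SylA.main (W := W) (by simpa using h6)
    rw [Fintype.card_fin] at this
    rw [or_iff_right (by omega), or_iff_right (by omega), ← this, ← e]
    constructor
    · rintro ⟨A, B, a1, b1, h1, h2, h3, h4, h5⟩
      refine ⟨A.map _, B.map _, mt (Subgroup.map_eq_bot_iff_of_injective A hi).1 a1,
        mt (Subgroup.map_eq_bot_iff_of_injective B hi).1 b1, Subgroup.map_mono h1, Subgroup.map_mono h2, ?_,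
        by rw [← Subgroup.map_inf _ _ _ hi, h4, Subgroup.map_bot], by rw [← Subgroup.map_sup, h5]⟩
      rintro _ ⟨a, ha, rfl⟩ _ ⟨b, hb, rfl⟩
      exact congrArg Subtype.val (h3 a ha b hb)
    · rintro ⟨A, B, a1, b1, h1, h2, h3, h4, h5⟩
      have hA := Subgroup.map_comap_eq_self (h1.trans (Subgroup.map_le_range _ _))
      have hB := Subgroup.map_comap_eq_self (h2.trans (Subgroup.map_le_range _ _))
      refine ⟨A.comap (alternatingGroup (Fin n)).subtype, B.comap (alternatingGroup (Fin n)).subtype,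
        fun k => a1 (by rw [← hA, k, Subgroup.map_bot]), fun k => b1 (by rw [← hB, k, Subgroup.map_bot]),
        (Subgroup.map_le_map_iff_of_injective hi).1 (hA.symm ▸ h1), (Subgroup.map_le_map_iff_of_injective hi).1 (hB.symm ▸ h2),
        fun a ha b hb => Subtype.ext (h3 _ ha _ hb), Subgroup.map_injective hi ?_, Subgroup.map_injective hi ?_⟩
      · rw [Subgroup.map_inf _ _ _ hi, hA, hB, h4, Subgroup.map_bot]
      · rw [Subgroup.map_sup, hA, hB, h5]
  have hc : Nat.card P = 4 ∧ ∀ g : Equiv.Perm (Fin n), Equiv.Perm.sign g = 1 → g * g * (g * g) = 1 → g * g = 1 := by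
    rw [P.card_eq_multiplicity]
    obtain rfl | rfl : n = 4 ∨ n = 5 := by omega
    · refine ⟨?_, by decide +kernel⟩
      rw [nat_card_alternatingGroup]; simp; decide +kernel
    · refine ⟨?_, by decide +kernel⟩
      rw [nat_card_alternatingGroup]; simp; decide +kernel
  refine iff_of_true (small _ hc.1 fun g hg => Subtype.ext (hc.2 g g.2 ?_)) (by omega)
  have := congrArg (fun t : (P : Subgroup (alternatingGroup (Fin n))) => ((t : alternatingGroup (Fin n)) : Equiv.Perm (Fin n)))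
    (pow_card_eq_one' (x := ⟨g, hg⟩))
  rw [hc.1] at this
  simpa [pow_succ, mul_assoc] using this

end Cfsg.Agent.S2221
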