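import Mathlib
import Cfsg.Statements.S2231
import Cfsg.Agent.H03.Qd2

set_option autoImplicit false
open Cfsg

namespace Cfsg.Agent.S2231

open H09 H17 H26 in
theorem aux {p : ℕ} [Fact p.Prime] {K : Type*} [Field K] [Fintype K] [CharP K p] :
    ∃ P : Sylow p (Matrix.SpecialLinearGroup (Fin 2) K), IsMulCommutative P := by
  let f : Multiplicative K →* Matrix.SpecialLinearGroup (Fin 2) K :=
    MonoidHom.mk' (fun a => up a.toAdd) fun a b => (up_mul a.toAdd b.toAdd).symm
  have hf : Function.Injective f := fun a b h => Multiplicative.toAdd.injective (up_injective (K := K) h)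
  obtain ⟨n, -, hn⟩ := FiniteField.card K p
  have h1 : Nat.card f.range = Fintype.card K := by
    rw [← Nat.card_congr (MonoidHom.ofInjective hf).toEquiv]; simp
  refine ⟨(IsPGroup.of_card (h1.trans hn)).toSylow fun h => ?_, (inferInstance : IsMulCommutative f.range)⟩
  have h2 := f.range.card_mul_index
  rw [h1, card_SL_two] at h2
  rw [Nat.eq_of_mul_eq_mul_left Fintype.card_pos h2, hn, ← pow_mul] at h
  have := (Nat.dvd_sub_iff_right (Nat.one_le_pow _ _ (Fact.out : p.Prime).pos)
    (dvd_pow_self p (by simp))).1 h
  exact (Fact.out : p.Prime).one_lt.ne' (Nat.dvd_one.1 this)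

/-- Let p be an odd prime and K a finite field of characteristic p. Then Qd(p) (the natural semidirect product of an elementary abelian group of order p² by SL₂(p)) is not involved in the projective special linear group PSL₂(K). -/
theorem result {p : ℕ} [Fact p.Prime] (hp : p ≠ 2) {K : Type*} [Field K] [Fintype K] [CharP K p] : ¬ Cfsg.Involves ↥(Cfsg.qd p) (Matrix.ProjectiveSpecialLinearGroup (Fin 2) K) := by
  obtain ⟨P, hP⟩ := aux (p := p) (K := K)
  exact fun h => H03.not_sec_qd_of_comm_sylow P hP (H17.sec_iff_involves.2 h).of_quotient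

end Cfsg.Agent.S2231
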