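import Mathlib
import Cfsg.Statements.S2232
import Cfsg.Agent.H18.SU3
import Cfsg.Agent.H03.Qd2

set_option autoImplicit false
open scoped Pointwise
open Cfsg

namespace Cfsg.Agent.S2232

open Subgroup in
def TIp (p : ℕ) (G : Type*) [Group G] : Prop :=
  ∀ P Q : Subgroup G, IsPGroup p P → IsPGroup p Q → P ⊓ Q ≠ ⊥ → IsPGroup p (P ⊔ Q : Subgroup G)

open Subgroup in
theorem lift {p : ℕ} [Fact p.Prime] {K X : Type*} [Group K] [Finite K] [Group X] (φ : K →* X)
    (hφ : Function.Surjective φ) {R : Subgroup K} (hR : IsPGroup p R) {P : Subgroup X}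
    (hP : IsPGroup p P) (hle : R ≤ P.comap φ) :
    ∃ S : Subgroup K, IsPGroup p S ∧ R ≤ S ∧ S.map φ = P := by
  obtain ⟨S, hS⟩ := (hR.comap_of_injective (P.comap φ).subtype Subtype.val_injective).exists_le_sylow
  refine ⟨(S : Subgroup (P.comap φ)).map (P.comap φ).subtype, S.2.map _, fun x hx =>
    ⟨⟨x, hle hx⟩, hS hx, rfl⟩, ?_⟩
  have hs : Function.Surjective (φ.subgroupComap P) := φ.subgroupComap_surjective_of_surjective P hφ
  have : Finite P := Finite.of_surjective _ hs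
  have e : ((S.mapSurjective hs : Sylow p P) : Subgroup P) = ⊤ :=
    ((S.mapSurjective hs).is_maximal' (hP.to_subgroup ⊤) le_top).symm
  apply le_antisymm
  · rintro _ ⟨_, ⟨y, -, rfl⟩, rfl⟩; exact y.2
  · intro x hx
    obtain ⟨y, hy, e⟩ : (⟨x, hx⟩ : P) ∈ (S : Subgroup (P.comap φ)).map (φ.subgroupComap P) := by
      rw [← Sylow.coe_mapSurjective hs, e]; trivial
    exact ⟨y, ⟨y, hy, rfl⟩, congrArg Subtype.val e⟩

open Subgroup in
theorem TIp.sec {p : ℕ} [Fact p.Prime] {G X : Type*} [Group G] [Finite G] [Group X] (h : TIp p G)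
    (hs : H17.Sec X G) : TIp p X := by
  obtain ⟨K, φ, hφ⟩ := hs
  intro P Q hP hQ h0
  obtain ⟨R, hR, -, e⟩ := lift φ hφ (R := ⊥) IsPGroup.of_bot (hP.to_inf_left (K := Q)) bot_le
  obtain ⟨S, hS, h1, e1⟩ := lift φ hφ hR hP (map_le_iff_le_comap.1 (e.le.trans inf_le_left))
  obtain ⟨T, hT, h2, e2⟩ := lift φ hφ hR hQ (map_le_iff_le_comap.1 (e.le.trans inf_le_right))
  have := h (S.map K.subtype) (T.map K.subtype) (hS.map _) (hT.map _) (by
    rw [← map_inf _ _ _ K.subtype_injective, Ne, map_eq_bot_iff_of_injective _ K.subtype_injective]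
    intro e3
    apply h0
    rw [← e, eq_bot_iff.2 ((le_inf h1 h2).trans e3.le), Subgroup.map_bot])
  rw [← Subgroup.map_sup] at this
  rw [← e1, ← e2, ← Subgroup.map_sup]
  exact (this.of_equiv (equivMapOfInjective _ _ K.subtype_injective).symm).map φ

open Subgroup in
theorem tip_of_rk {p : ℕ} [Fact p.Prime] {G : Type*} [Group G] [Finite G] {B U : Subgroup G} {w : G}
    (h : H18.RK B U w) (hp : IsPGroup p U) (h0 : U ≠ ⊥) (hc : ¬ p ∣ Nat.card (H18.torus B w)) :
    TIp p G := by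
  intro P Q hP hQ h1
  obtain ⟨g, hg⟩ := h.exists_conj_le hp h0 hc hP
  obtain ⟨k, hk⟩ := h.exists_conj_le hp h0 hc hQ
  obtain ⟨⟨x, hx⟩, x1⟩ := ne_bot_iff_exists_ne_one.1 h1
  have x1 : x ≠ 1 := fun e => x1 (Subtype.ext e)
  have hb : g * k⁻¹ ∈ B := h.mem_B_of_conj (hk x hx.2) (by simpa using x1)
    (by simpa [mul_assoc] using h.le (hg x hx.1))
  have : P ⊔ Q ≤ U.comap (MulAut.conj g).toMonoidHom := sup_le hg fun y hy => by
    simpa [mul_assoc] using h.conj _ hb _ (hk y hy)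
  exact (hp.comap_of_injective _ (MulAut.conj g).injective).to_le this

open Subgroup H03 in
theorem not_tip {p : ℕ} [Fact p.Prime] : ¬ TIp p (QA (ZMod p)) := by
  intro h
  obtain ⟨S, hS⟩ := QA.exists_sylow_S0 (p := p)
  have : (QA.S0 : Subgroup (QA (ZMod p))).Normal := ⟨fun x hx g => by
    have h1 := h _ _ S.2 (g • S).2 (fun e => QA.V_ne_bot (eq_bot_iff.2 ((le_inf
      (QA.isPGroup_V.le_sylow_of_normal S) (QA.isPGroup_V.le_sylow_of_normal (g • S))).trans e.le)))
    rw [← hS, ← S.is_maximal' h1 le_sup_left]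
    refine mem_sup_right ?_
    rw [Sylow.coe_subgroup_smul]
    exact smul_mem_pointwise_smul x (MulAut.conj g) _ (hS ▸ hx)⟩
  have e := QA.eq_top_of_normal (K := QA.S0) (F := ZMod p) le_rfl
  exact QA.B_ne_top (F := ZMod p) (eq_top_iff.2 fun g _ =>
    QA.mem_B.2 (QA.mem_S0.1 (e ▸ mem_top g)).2.1)

/-- Let p be an odd prime, q a power of p and K a finite field with q² elements. Then Qd(p) (the natural semidirect product of an elementary abelian group of order p² by SL₂(p)) is not involved in the projective special unitary group PSU₃(q) realised over K. -/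
theorem result {p : ℕ} [Fact p.Prime] (hp : p ≠ 2) {K : Type*} [Field K] [Fintype K] [CharP K p] (n : ℕ) (hn : 1 ≤ n) (hK : Fintype.card K = (p ^ n) ^ 2) : ¬ Cfsg.Involves ↥(Cfsg.qd p) (Cfsg.PSU 3 K (p ^ n)) := by
  haveI : H18.U3.UF K (p ^ n) := ⟨hK⟩
  intro h
  have h1 := (tip_of_rk (H18.U3.rkP (F := K)) H18.U3.isPGroup_UP H18.U3.UP_ne_bot
    (H18.U3.not_dvd_torusP (p := p))).sec (H17.sec_iff_involves.2 h)
  refine not_tip (h1.sec ?_)
  exact H17.Sec.of_hom (H03.QA.equivP p).toMonoidHom (H03.QA.equivP p).injective (MonoidHom.id _)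
    Function.surjective_id

end Cfsg.Agent.S2232
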