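import Mathlib
import Cfsg.Statements.S2238
import Cfsg.Agent.H12.Sz8

set_option autoImplicit false
open Cfsg

namespace Cfsg.Agent.S2238

open H12.Sz H12.CC

/-- The partition of the Suzuki group: with q = 2^(2m+1), m ≥ 1, r = 2^m and the Suzuki group realised as the stabiliser in SL₄ of the Suzuki–Tits ovoid, every non-identity element lies in exactly one subgroup that is either a Sylow 2-subgroup or a cyclic subgroup of order q − 1, q + 2r + 1 or q − 2r + 1. -/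
theorem result {F : Type*} [Field F] [Fintype F] {m : ℕ} (hm : 1 ≤ m) (hF : Fintype.card F = 2 ^ (2 * m + 1)) (g : ↥(Cfsg.Sz F m)) (hg : g ≠ 1) :
    ∃! U : Subgroup ↥(Cfsg.Sz F m), ((∃ P : Sylow 2 ↥(Cfsg.Sz F m), U = (P : Subgroup ↥(Cfsg.Sz F m))) ∨
      (IsCyclic ↥U ∧ Nat.card ↥U ∈ ({2 ^ (2 * m + 1) - 1, 2 ^ (2 * m + 1) + 2 ^ (m + 1) + 1, 2 ^ (2 * m + 1) - 2 ^ (m + 1) + 1} : Set ℕ))) ∧ g ∈ U := by
  haveI : SzF F m := ⟨hm, hF⟩
  have key : ∀ P : Subgroup (G F m), ((∃ Q : Sylow 2 (G F m), P = (Q : Subgroup (G F m))) ∨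
      (IsCyclic P ∧ Nat.card P ∈ ({2 ^ (2 * m + 1) - 1, 2 ^ (2 * m + 1) + 2 ^ (m + 1) + 1,
        2 ^ (2 * m + 1) - 2 ^ (m + 1) + 1} : Set ℕ))) ↔ Part P := fun P => by
    rw [← hF]
    constructor
    · rintro (⟨Q, rfl⟩ | ⟨h1, h2⟩)
      · exact Or.inl (sylow_eq_cj Q)
      · exact Or.inr (oddPart_of_cyclic h1 h2)
    · rintro (⟨y, rfl⟩ | h)
      · exact Or.inl ⟨y • sylowU F m, rfl⟩
      · exact Or.inr ⟨h.cyclic, h.card⟩
  obtain ⟨P, hP, hx⟩ := exists_part (x := g)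
  exact ⟨P, ⟨(key P).2 hP, hx⟩, fun Q hQ => ((key Q).1 hQ.1).eq hP hg hQ.2 hx⟩

end Cfsg.Agent.S2238
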