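import Mathlib
import Cfsg.Statements.S2239
import Cfsg.Agent.H12.Sz8

set_option autoImplicit false
open Cfsg

namespace Cfsg.Agent.S2239

open H12.Sz H12.CC

/-- Subfield subgroups of the Suzuki group: let q = 2^(2m+1) and s = 2^(2k+1) with m, k ≥ 1 and 2k+1 dividing 2m+1 (so q is a power of s), both groups realised as stabilisers in SL₄ of the Suzuki–Tits ovoid. Then Sz(q) has a subgroup isomorphic to Sz(s), and any two subgroups of Sz(q) isomorphic to Sz(s) are conjugate. -/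
theorem result {F : Type*} [Field F] [Fintype F] {m : ℕ} (hm : 1 ≤ m) (hF : Fintype.card F = 2 ^ (2 * m + 1)) {K : Type*} [Field K] [Fintype K] {k : ℕ} (hk : 1 ≤ k) (hK : Fintype.card K = 2 ^ (2 * k + 1)) (hdiv : 2 * k + 1 ∣ 2 * m + 1) :
    (∃ S : Subgroup ↥(Cfsg.Sz F m), Nonempty (↥S ≃* ↥(Cfsg.Sz K k))) ∧
    ∀ S₁ S₂ : Subgroup ↥(Cfsg.Sz F m), Nonempty (↥S₁ ≃* ↥(Cfsg.Sz K k)) → Nonempty (↥S₂ ≃* ↥(Cfsg.Sz K k)) →
      ∃ g : ↥(Cfsg.Sz F m), S₂ = S₁.map (MulAut.conj g).toMonoidHom := by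
  haveI : SzF F m := ⟨hm, hF⟩
  haveI : SzF K k := ⟨hk, hK⟩
  obtain ⟨φ⟩ := exists_hom (F := F) hK hdiv
  refine ⟨⟨_, SzSub_equiv φ⟩, ?_⟩
  have key : ∀ S : Subgroup (G F m), Nonempty (S ≃* G K k) → ∃ g, S = cj g (SzSub φ.fieldRange) := by
    rintro S ⟨e⟩
    obtain ⟨E, g, hE, rfl⟩ := sub_of_not_solvable (M := S) fun h =>
      not_solvable (solvable_of_surjective (f := e.toMonoidHom) e.surjective)
    have h1 := Nat.card_congr e.toEquiv
    have h8 := card_ge (F := K)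
    rw [card_cj, card_SzSub E hE, card_G] at h1
    have h2 := order_mono h1 hE (by omega)
    refine ⟨g, ?_⟩
    rw [subfield_eq_of_card (E := E) (E' := φ.fieldRange)]
    rw [h2, ← Nat.card_eq_fintype_card]
    exact Nat.card_congr φ.rangeRestrictFieldEquiv.toEquiv
  intro S₁ S₂ h1 h2
  obtain ⟨g, rfl⟩ := key S₁ h1
  obtain ⟨h, rfl⟩ := key S₂ h2
  exact ⟨h * g⁻¹, ((cj_cj _ _ _).trans (by rw [inv_mul_cancel_right])).symm⟩

end Cfsg.Agent.S2239
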