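import Mathlib
import Cfsg.Statements.S2241
import Cfsg.Agent.H12.Sz4

set_option autoImplicit false
open Cfsg

namespace Cfsg.Agent.S2241

open H12.Sz H12.CC

/-- Real 2-elements of the Suzuki group: with q = 2^(2m+1), m ≥ 1, and the group realised as the stabiliser in SL₄ of the Suzuki–Tits ovoid, a non-identity element of a Sylow 2-subgroup is conjugate to its inverse if and only if it is an involution; in particular no element of order 4 is conjugate to its inverse. -/
theorem result {F : Type*} [Field F] [Fintype F] {m : ℕ} (hm : 1 ≤ m) (hF : Fintype.card F = 2 ^ (2 * m + 1)) (P : Sylow 2 ↥(Cfsg.Sz F m)) (g : ↥(Cfsg.Sz F m)) (hg : g ∈ (P : Subgroup ↥(Cfsg.Sz F m))) (h1 : g ≠ 1) :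
    IsConj g g⁻¹ ↔ orderOf g = 2 := by
  haveI : SzF F m := ⟨hm, hF⟩
  refine ⟨fun h => ?_, fun h => ?_⟩
  · obtain ⟨y, hy⟩ := sylow_eq_cj P
    rw [hy, mem_cj] at hg
    obtain ⟨a, b, hab⟩ := hg
    obtain ⟨c, hc⟩ := isConj_iff.1 h
    have e : (y⁻¹ * c * y) * uu a b * (y⁻¹ * c * y)⁻¹ = (uu a b)⁻¹ := by
      rw [← hab]
      calc _ = y⁻¹ * (c * g * c⁻¹) * y := by group
        _ = _ := by rw [hc]; group
    have h1' : (uu a b : G F m) ≠ 1 := by
      rw [← hab]
      simpa [mul_assoc, inv_mul_eq_one, eq_comm (a := y)] using h1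
    have hB := mem_B_of_conj (uu_mem_U a b) h1' (by rw [e]; exact inv_mem (uu_mem_B _ _))
    obtain ⟨s, t, k, hk⟩ := mem_B'.1 hB
    have e2 : uu s t * (hh k * uu a b * (hh k)⁻¹) = (uu a b : G F m)⁻¹ * uu s t := by
      rw [← e, hk]; group
    rw [hh_conj, uu_inv, uu_mul, uu_mul, uu_inj] at e2
    have ha : a = 0 := by
      by_contra ha
      have hk1 : th (k : F) = 1 := mul_right_cancel₀ ha (by linear_combination e2.1)
      have hk2 : (k : F) = 1 := th_inj (by rw [hk1, map_one])
      have := e2.2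
      rw [hk1, hk2] at this
      exact th_add_ne (c := s) ha (by grind)
    have : g ^ 2 = 1 := by
      have := (uu_sq_eq_one (m := m) (a := a) (b := b)).2 ha
      rw [← hab, show y⁻¹ * g * y = y⁻¹ * g * y⁻¹⁻¹ by simp, conj_pow] at this
      simpa [mul_assoc, inv_mul_eq_one, eq_comm (a := y)] using this
    exact orderOf_eq_prime this h1
  · have := pow_orderOf_eq_one g
    rw [h, sq] at this
    rw [inv_eq_of_mul_eq_one_right this]

end Cfsg.Agent.S2241
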