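import Mathlib
import Cfsg.Statements.S2244
import Cfsg.Agent.H12.WkC
import Cfsg.Agent.H11.StMat

set_option autoImplicit false
open Cfsg

namespace Cfsg.Agent.S2244

theorem ex_c {F : Type*} [Field F] [Fintype F] {k : ℕ} (hk : 0 < k) (h : k + 1 < Fintype.card F) :
    ∃ c : F, c ≠ 0 ∧ c ^ (k : ℤ) ≠ 1 := by
  by_contra! e
  have := Nat.le_of_dvd hk ((FiniteField.forall_pow_eq_one_iff F k).1 fun x => Units.ext (by simpa using e x x.ne_zero))
  omega

open H11 H11.StSys H12.Lev Cfsg.Lie in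
theorem main {F : Type*} [Field F] [Fintype F] {D : ChevalleyDatum} [Good D] [Cert D] {k : ℕ} (hk : 0 < k)
    (hF : k + 1 < Fintype.card F) (h : ∀ γ δ : Root D, IsPos γ → γ < δ → Sep k γ δ)
    (h' : ∀ i (β : Root D), IsPos β → β ≠ sroot i → 0 < wt β i → ∃ ε, Occ (sroot i) ε β)
    (X : Subgroup (GL D.Idx F)) (hXU : X ≤ D.posUnipotent F)
    (hwc : ∀ g ∈ D.group F, X.map (MulAut.conj g).toMonoidHom ≤ D.posUnipotent F → X.map (MulAut.conj g).toMonoidHom = X) :
    ∃ J : Set ℕ, (∀ j ∈ J, j < D.rank) ∧ X = D.unipotentRadical F J := by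
  obtain ⟨c, h0, hc⟩ := ex_c hk hF
  rw [posUnipotent_eq, group_eq] at *
  obtain ⟨J, rfl⟩ := weakly_closed h0 hc h h' hXU fun g hg e x hx =>
    (hwc g hg (by rintro _ ⟨y, hy, rfl⟩; exact e y hy)).le ⟨x, hx, rfl⟩
  exact ⟨Fin.val '' J, by rintro _ ⟨j, -, rfl⟩; exact j.2, by
    rw [unipotentRadical_eq, Set.preimage_image_eq _ Fin.val_injective]⟩

open H11 H12.Lev in

/-- Weakly closed unipotent subgroups of Chevalley groups: let G be the Chevalley group of type G₂, B₂, D₄, F₄, E₆, E₇ or E₈ over a finite field F (the matrix group generated by the root elements), with |F| ≠ 2, and |F| ≠ 3 as well for the types G₂, B₂, D₄, F₄. Let U be the subgroup generated by the positive root subgroups. If X ≤ U is weakly closed in U with respect to G (every G-conjugate of X lying in U equals X), then X is the unipotent radical U_J of a standard parabolic subgroup for some set J of fundamental roots. -/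
theorem result {F : Type*} [Field F] [Fintype F] (D : Cfsg.Lie.ChevalleyDatum) (hD : D ∈ [Cfsg.Lie.chevG2, Cfsg.Lie.chevB2, Cfsg.Lie.chevD4, Cfsg.Lie.chevF4, Cfsg.Lie.chevE6, Cfsg.Lie.chevE7, Cfsg.Lie.chevE8])
    (h2 : Fintype.card F ≠ 2) (h3 : D ∈ [Cfsg.Lie.chevG2, Cfsg.Lie.chevB2, Cfsg.Lie.chevD4, Cfsg.Lie.chevF4] → Fintype.card F ≠ 3)
    (X : Subgroup (GL D.Idx F)) (hXU : X ≤ D.posUnipotent F)
    (hwc : ∀ g ∈ D.group F, X.map (MulAut.conj g).toMonoidHom ≤ D.posUnipotent F → X.map (MulAut.conj g).toMonoidHom = X) :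
    ∃ J : Set ℕ, (∀ j ∈ J, j < D.rank) ∧ X = D.unipotentRadical F J := by
  have h1 := Fintype.one_lt_card (α := F)
  simp only [List.mem_cons, List.not_mem_nil, or_false] at hD h3
  rcases hD with rfl | rfl | rfl | rfl | rfl | rfl | rfl
  · exact main two_pos (by have := h3 (by simp); omega) sepG2 occG2 X hXU hwc
  · exact main two_pos (by have := h3 (by simp); omega) (sep_of agreeB2 sepB2) occB2 X hXU hwc
  · exact main two_pos (by have := h3 (by simp); omega) (sep_of agreeD4 sepD4) (occ_SL slD4) X hXU hwc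
  · exact main two_pos (by have := h3 (by simp); omega) (sep_of agreeF4 sepF4) occF4 X hXU hwc
  · exact main one_pos (by omega) (sep_of agreeE6 sepE6) (occ_SL slE6) X hXU hwc
  · exact main one_pos (by omega) (sep_of agreeE7 sepE7) (occ_SL slE7) X hXU hwc
  · exact main one_pos (by omega) (sep_of agreeE8 sepE8) (occ_SL slE8) X hXU hwc

end Cfsg.Agent.S2244
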