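import Mathlib
import Cfsg.Statements.S2251
import Cfsg.Agent.H12.Sz8

set_option autoImplicit false
open Cfsg

namespace Cfsg.Agent.S2251

open H12.Sz H12.CC

/-- The subgroups of the Suzuki group: with q = 2^(2m+1), m ≥ 1, r = 2^m and the group realised as the stabiliser in SL₄ of the Suzuki–Tits ovoid, every proper subgroup is contained in the normalizer of a Sylow 2-subgroup, or in the normalizer of a cyclic subgroup of order q − 1, q + 2r + 1 or q − 2r + 1, or in a subgroup isomorphic to a smaller Suzuki group Sz(s) with s = 2^(2k+1) ≥ 8 and 2k+1 a proper divisor of 2m+1. -/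
theorem result {F : Type*} [Field F] [Fintype F] {m : ℕ} (hm : 1 ≤ m) (hF : Fintype.card F = 2 ^ (2 * m + 1)) (M : Subgroup ↥(Cfsg.Sz F m)) (hM : M ≠ ⊤) :
    (∃ P : Sylow 2 ↥(Cfsg.Sz F m), M ≤ Subgroup.normalizer ((P : Subgroup ↥(Cfsg.Sz F m)) : Set ↥(Cfsg.Sz F m))) ∨
    (∃ U : Subgroup ↥(Cfsg.Sz F m), IsCyclic ↥U ∧ Nat.card ↥U ∈ ({2 ^ (2 * m + 1) - 1, 2 ^ (2 * m + 1) + 2 ^ (m + 1) + 1, 2 ^ (2 * m + 1) - 2 ^ (m + 1) + 1} : Set ℕ) ∧
      M ≤ Subgroup.normalizer (U : Set ↥(Cfsg.Sz F m))) ∨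
    (∃ (K : Type) (_ : Field K) (_ : Fintype K) (k : ℕ), 1 ≤ k ∧ k < m ∧ Fintype.card K = 2 ^ (2 * k + 1) ∧ 2 * k + 1 ∣ 2 * m + 1 ∧
      ∃ S : Subgroup ↥(Cfsg.Sz F m), Nonempty (↥S ≃* ↥(Cfsg.Sz K k)) ∧ M ≤ S) := by
  haveI : SzF F m := ⟨hm, hF⟩
  rcases classify M with ⟨g, hg⟩ | ⟨A, hA, h⟩ | ⟨E, g, hE, rfl⟩
  · exact Or.inl ⟨g • sylowU F m, by rw [coe_smul_sylow, normalizer_cj, coe_sylowU, normalizer_U]; exact hg⟩
  · exact Or.inr (Or.inl ⟨A, hA.cyclic, by rw [← hF]; exact hA.card, h⟩)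
  · right; right
    haveI := Fintype.ofFinite E
    obtain ⟨k, hk⟩ := subfield_szF E hE
    letI := Fintype.ofFinite (GaloisField 2 (2 * k + 1))
    have hK : Fintype.card (GaloisField 2 (2 * k + 1)) = 2 ^ (2 * k + 1) := by
      rw [← Nat.card_eq_fintype_card, GaloisField.card 2 _ (by omega)]
    haveI : SzF (GaloisField 2 (2 * k + 1)) k := ⟨hk.hm, hK⟩
    have hd := dvd_of_hom E.subtype
    let e := FiniteField.ringEquivOfCardEq (hK.trans hk.hF.symm)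
    obtain ⟨f⟩ := SzSub_equiv (m := m) (E.subtype.comp e.toRingHom)
    have hr : (E.subtype.comp e.toRingHom).fieldRange = E := by
      ext x
      exact ⟨by rintro ⟨y, rfl⟩; exact (e y).2, fun hx => ⟨e.symm ⟨x, hx⟩, by simp⟩⟩
    rw [hr] at f
    refine ⟨_, inferInstance, inferInstance, k, hk.hm, ?_, hK, hd, _, ⟨(cjEquiv g _).symm.trans f⟩, le_rfl⟩
    have h1 := Nat.le_of_dvd (by omega) hd
    refine lt_of_le_of_ne (by omega) ?_
    rintro rfl
    have : E = ⊤ := subfield_eq_of_card (by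
      rw [Nat.card_eq_fintype_card, hk.hF, Nat.card_congr Subfield.topEquiv.toEquiv, Nat.card_eq_fintype_card, hF])
    exact hM (by rw [this, SzSub_top, cj_top])

end Cfsg.Agent.S2251
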