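import Mathlib
import Cfsg.Statements.S2254
import Cfsg.Agent.H03.NilS2

set_option autoImplicit false
open Cfsg

namespace Cfsg.Agent.S2254

/-- Let n ≡ 3 (mod 4). Then every nilpotent subgroup of the symmetric group on n letters has order at most 3 times the order of a Sylow 2-subgroup of the symmetric group on n − 3 letters; the bound is attained by a nilpotent subgroup isomorphic to the direct product of such a Sylow 2-subgroup with a cyclic group of order 3; and any two nilpotent subgroups attaining the bound are conjugate. -/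
theorem result  (n : ℕ) (hn : n % 4 = 3)
    (P : Sylow 2 (Equiv.Perm (Fin (n - 3)))) :
    (∀ N : Subgroup (Equiv.Perm (Fin n)), Group.IsNilpotent N → Nat.card N ≤ 3 * Nat.card P) ∧
    (∃ M : Subgroup (Equiv.Perm (Fin n)), Group.IsNilpotent M ∧ Nat.card M = 3 * Nat.card P ∧
      Nonempty (M ≃* (↥(P : Subgroup (Equiv.Perm (Fin (n - 3)))) × Multiplicative (ZMod 3)))) ∧
    (∀ N₁ N₂ : Subgroup (Equiv.Perm (Fin n)), Group.IsNilpotent N₁ → Group.IsNilpotent N₂ →
      Nat.card N₁ = 3 * Nat.card P → Nat.card N₂ = 3 * Nat.card P →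
      ∃ g : Equiv.Perm (Fin n), N₂ = N₁.map (MulAut.conj g).toMonoidHom) := by
  have hP := H03.NilS.card_sylow_sym P
  refine ⟨fun N hN => hP ▸ (H03.NilS.sym_three hn N).1, ?_, fun N₁ N₂ h1 h2 e1 e2 => ?_⟩
  · obtain ⟨f, hf, -⟩ := H03.NilS.exists_emb (n := n) (by omega)
    exact ⟨_, H03.NilS.range_spec P.isPGroup'
      (f.comp ((P : Subgroup (Equiv.Perm (Fin (n - 3)))).subtype.prodMap (MonoidHom.id _)))
      (hf.comp (Subtype.coe_injective.prodMap Function.injective_id))⟩
  · rw [hP] at e1 e2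
    obtain ⟨c₁, hc₁, t₁⟩ := (H03.NilS.sym_three hn N₁).2 e1
    obtain ⟨c₂, hc₂, t₂⟩ := (H03.NilS.sym_three hn N₂).2 e2
    exact H03.NilS.conj_of_max (fun N hN => (H03.NilS.sym_three hn N).1) N₁ N₂ e1 e2 t₂.orderOf hc₁ hc₂
      (Equiv.Perm.isConj_iff_cycleType_eq.2 (t₁.trans t₂.symm))

end Cfsg.Agent.S2254
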