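import Mathlib
import Cfsg.Statements.S2256
import Cfsg.Agent.H03.NilS2

set_option autoImplicit false
open Cfsg

namespace Cfsg.Agent.S2256

/-- Let n ≡ 3 (mod 4) with n ≥ 7. Then every nilpotent subgroup of the alternating group on n letters has order at most 3 times the order of a Sylow 2-subgroup of the alternating group on n − 3 letters; the bound is attained by a nilpotent subgroup isomorphic to the direct product of such a Sylow 2-subgroup with a cyclic group of order 3; and any two nilpotent subgroups of the alternating group attaining the bound are conjugate in it. -/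
theorem result  (n : ℕ) (hn : n % 4 = 3) (h7 : 7 ≤ n)
    (P : Sylow 2 (alternatingGroup (Fin (n - 3)))) :
    (∀ N : Subgroup (alternatingGroup (Fin n)), Group.IsNilpotent N → Nat.card N ≤ 3 * Nat.card P) ∧
    (∃ M : Subgroup (alternatingGroup (Fin n)), Group.IsNilpotent M ∧ Nat.card M = 3 * Nat.card P ∧
      Nonempty (M ≃* (↥(P : Subgroup (alternatingGroup (Fin (n - 3)))) × Multiplicative (ZMod 3)))) ∧
    (∀ N₁ N₂ : Subgroup (alternatingGroup (Fin n)), Group.IsNilpotent N₁ → Group.IsNilpotent N₂ →
      Nat.card N₁ = 3 * Nat.card P → Nat.card N₂ = 3 * Nat.card P →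
      ∃ g : alternatingGroup (Fin n), N₂ = N₁.map (MulAut.conj g).toMonoidHom) := by
  have hP := H03.NilS.card_sylow_alt (by omega) P
  have key : ∀ N : Subgroup (alternatingGroup (Fin n)), Group.IsNilpotent N → Nat.card N ≤ 3 * Nat.card P ∧
      (Nat.card N = 3 * Nat.card P → ∃ c ∈ N, (c : Equiv.Perm (Fin n)).IsThreeCycle) := by
    intro N hN
    have e := Subgroup.equivMapOfInjective N (alternatingGroup (Fin n)).subtype Subtype.coe_injective
    have := Group.nilpotent_of_mulEquiv e
    have h := H03.NilS.alt_three hn h7 _ (Subgroup.map_subtype_le N)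
    rw [← Nat.card_congr e.toEquiv] at h
    refine ⟨by omega, fun h1 => ?_⟩
    obtain ⟨_, ⟨c, hc, rfl⟩, t⟩ := h.2 (by omega)
    exact ⟨c, hc, t⟩
  refine ⟨fun N hN => (key N hN).1, ?_, fun N₁ N₂ h1 h2 e1 e2 => ?_⟩
  · obtain ⟨f, hf, hs⟩ := H03.NilS.exists_emb (n := n) (by omega)
    exact ⟨_, H03.NilS.range_spec P.isPGroup'
      ((f.comp (((alternatingGroup (Fin (n - 3))).subtype.comp
        (P : Subgroup (alternatingGroup (Fin (n - 3)))).subtype).prodMap (MonoidHom.id _))).codRestrict
        (alternatingGroup (Fin n)) fun x => Equiv.Perm.mem_alternatingGroup.2 ((hs _).trans x.1.1.2))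
      (fun a b h => (hf.comp ((Subtype.coe_injective.comp Subtype.coe_injective).prodMap
        Function.injective_id)) (congrArg Subtype.val h))⟩
  · obtain ⟨c₁, hc₁, t₁⟩ := (key N₁ h1).2 e1
    obtain ⟨c₂, hc₂, t₂⟩ := (key N₂ h2).2 e2
    obtain ⟨e, he⟩ := IsPGroup.iff_card.1 P.isPGroup'
    rw [he] at e1 e2 key
    exact H03.NilS.conj_of_max (fun N hN => (key N hN).1) N₁ N₂ e1 e2
      (by rw [← Subgroup.orderOf_coe]; exact t₂.orderOf) hc₁ hc₂
      (alternatingGroup.isThreeCycle_isConj (by simp; omega) t₁ t₂)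

end Cfsg.Agent.S2256
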