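import Mathlib
import Cfsg.Statements.S2257
import Cfsg.Agent.H04.Solu2

set_option autoImplicit false
open Cfsg

namespace Cfsg.Agent.S2257

/-- Let G = PSL_2(F) with F a field of order q = 2^p, p prime, and for x ∈ G call the solubilizer of x the set of y ∈ G such that x and y generate a solvable subgroup. Then the solubilizer of an involution has 3q(q − 1) elements; that of a non-identity element of order dividing q − 1 has 2q(q − 1) elements; and that of a non-identity element of order dividing q + 1 has 2(q + 1) elements. -/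
theorem result (p : ℕ) (hp : p.Prime) {F : Type*} [Field F] [Fintype F]
    (hF : Fintype.card F = 2 ^ p) (x : Matrix.ProjectiveSpecialLinearGroup (Fin 2) F) :
    (orderOf x = 2 → Nat.card {y : Matrix.ProjectiveSpecialLinearGroup (Fin 2) F // Group.IsSolvable ↥(Subgroup.closure ({x, y} : Set (Matrix.ProjectiveSpecialLinearGroup (Fin 2) F)))} = 3 * 2 ^ p * (2 ^ p - 1)) ∧
    (x ≠ 1 → orderOf x ∣ 2 ^ p - 1 → Nat.card {y : Matrix.ProjectiveSpecialLinearGroup (Fin 2) F // Group.IsSolvable ↥(Subgroup.closure ({x, y} : Set (Matrix.ProjectiveSpecialLinearGroup (Fin 2) F)))} = 2 * 2 ^ p * (2 ^ p - 1)) ∧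
    (x ≠ 1 → orderOf x ∣ 2 ^ p + 1 → Nat.card {y : Matrix.ProjectiveSpecialLinearGroup (Fin 2) F // Group.IsSolvable ↥(Subgroup.closure ({x, y} : Set (Matrix.ProjectiveSpecialLinearGroup (Fin 2) F)))} = 2 * (2 ^ p + 1)) := by
  haveI : Fact (Nat.Prime 2) := ⟨Nat.prime_two⟩
  haveI : CharP F 2 := charP_of_card_eq_prime_pow hF
  have hd : L.Dk.dd F = 1 := by
    have : Fintype.card F % 2 = 0 := by rw [hF, Nat.pow_mod]; simp [hp.ne_zero]
    rcases L.Dk.dd_cases (F := F) with h | h <;> omega
  have h2 : 2 ∣ 2 ^ p := dvd_pow_self 2 hp.ne_zero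
  have h1 : 1 < 2 ^ p := Nat.one_lt_two_pow hp.ne_zero
  refine ⟨fun h => ?_, fun h0 h => ?_, fun h0 h => ?_⟩
  · have := H04.Solu.card_inv_two hp hF h
    rwa [hd, one_mul, hF, ← mul_assoc] at this
  · have := H04.Solu.card_sub 2 hp hF (Or.inl rfl) h0 (fun e => by rw [e] at h; omega) (hF ▸ h)
    rwa [hd, one_mul, hF, ← mul_assoc] at this
  · have := H04.Solu.card_add 2 hp hF (Or.inl rfl) h0 (fun e => by rw [e] at h; omega) (hF ▸ h)
    rwa [hd, one_mul, hF] at this

end Cfsg.Agent.S2257
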