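import Mathlib
import Cfsg.Statements.S2258
import Cfsg.Agent.H04.Solu2

set_option autoImplicit false
open Cfsg

namespace Cfsg.Agent.S2258

/-- Let G = PSL_2(F) with F a field of order q = 3^p, p an odd prime, and for x ∈ G call the solubilizer of x the set of y ∈ G such that x and y generate a solvable subgroup. Then the solubilizer of an involution has q(q + 1) elements; that of an element of order 3 has q(q + 5)/2 elements; that of an element of order neither 1 nor 2 dividing q − 1 has q(q − 1) elements; and that of an element of order neither 1 nor 2 dividing q + 1 has q + 1 elements. -/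
theorem result (p : ℕ) (hp : p.Prime) (hodd : Odd p) {F : Type*} [Field F] [Fintype F]
    (hF : Fintype.card F = 3 ^ p) (x : Matrix.ProjectiveSpecialLinearGroup (Fin 2) F) :
    (orderOf x = 2 → Nat.card {y : Matrix.ProjectiveSpecialLinearGroup (Fin 2) F // Group.IsSolvable ↥(Subgroup.closure ({x, y} : Set (Matrix.ProjectiveSpecialLinearGroup (Fin 2) F)))} = 3 ^ p * (3 ^ p + 1)) ∧
    (orderOf x = 3 → 2 * Nat.card {y : Matrix.ProjectiveSpecialLinearGroup (Fin 2) F // Group.IsSolvable ↥(Subgroup.closure ({x, y} : Set (Matrix.ProjectiveSpecialLinearGroup (Fin 2) F)))} = 3 ^ p * (3 ^ p + 5)) ∧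
    (x ≠ 1 → orderOf x ≠ 2 → orderOf x ∣ 3 ^ p - 1 → Nat.card {y : Matrix.ProjectiveSpecialLinearGroup (Fin 2) F // Group.IsSolvable ↥(Subgroup.closure ({x, y} : Set (Matrix.ProjectiveSpecialLinearGroup (Fin 2) F)))} = 3 ^ p * (3 ^ p - 1)) ∧
    (x ≠ 1 → orderOf x ≠ 2 → orderOf x ∣ 3 ^ p + 1 → Nat.card {y : Matrix.ProjectiveSpecialLinearGroup (Fin 2) F // Group.IsSolvable ↥(Subgroup.closure ({x, y} : Set (Matrix.ProjectiveSpecialLinearGroup (Fin 2) F)))} = 3 ^ p + 1) := by
  haveI : Fact (Nat.Prime 3) := ⟨Nat.prime_three⟩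
  haveI : CharP F 3 := charP_of_card_eq_prime_pow hF
  have hd : L.Dk.dd F = 2 := by
    have : Fintype.card F % 2 = 1 := by rw [hF, Nat.pow_mod]; simp
    rcases L.Dk.dd_cases (F := F) with h | h <;> omega
  refine ⟨fun h => ?_, fun h => ?_, fun h0 h2 h => ?_, fun h0 h2 h => ?_⟩
  · have := H04.Solu.card_inv_three hp hodd hF h
    rw [hd, hF] at this
    exact Nat.eq_of_mul_eq_mul_left two_pos this
  · have := H04.Solu.card_un_three hp hodd hF h
    rw [hd, hF] at this
    refine this.trans ?_
    obtain ⟨k, hk⟩ : ∃ k, 3 ^ p = k + 1 := ⟨3 ^ p - 1, by have : 0 < 3 ^ p := by positivity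
                                                          omega⟩
    rw [hk, Nat.add_sub_cancel]; ring
  · have := H04.Solu.card_sub 3 hp hF (Or.inr ⟨rfl, hodd⟩) h0 h2 (hF ▸ h)
    rw [hd, hF] at this
    exact Nat.eq_of_mul_eq_mul_left two_pos this
  · have := H04.Solu.card_add 3 hp hF (Or.inr ⟨rfl, hodd⟩) h0 h2 (hF ▸ h)
    rw [hd, hF] at this
    exact Nat.eq_of_mul_eq_mul_left two_pos this

end Cfsg.Agent.S2258
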