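import Mathlib
import Cfsg.Statements.S2259
import Cfsg.Agent.H12.Sz9

set_option autoImplicit false
open Cfsg

namespace Cfsg.Agent.S2259

open H12.Sz H12.CC Subgroup

section
variable {F : Type*} [Field F] [Fintype F] {m : ℕ} [hS : SzF F m]

def Sol (x : G F m) : Set (G F m) := {y | (∃ p : Ov F m, x • p = p ∧ y • p = p) ∨
  ∃ A : Subgroup (G F m), OddPart A ∧ x ∈ normalizer (A : Set (G F m)) ∧ y ∈ normalizer (A : Set (G F m))}

theorem solv_iff (x y : G F m) :
    Group.IsSolvable (closure ({x, y} : Set (G F m))) ↔ y ∈ Sol x := by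
  have ha : x ∈ closure ({x, y} : Set (G F m)) := subset_closure (by simp)
  have hb : y ∈ closure ({x, y} : Set (G F m)) := subset_closure (by simp)
  constructor
  · intro hs
    rcases classify (closure ({x, y} : Set (G F m))) with ⟨g, h⟩ | ⟨A, hA, h⟩ | ⟨E, g, hE, h⟩
    · exact Or.inl ⟨_, mem_cj_B.1 (h ha), mem_cj_B.1 (h hb)⟩
    · exact Or.inr ⟨A, hA, h ha, h hb⟩
    · haveI := Fintype.ofFinite E
      obtain ⟨j, hj⟩ := subfield_szF E hE
      obtain ⟨f⟩ := SzSub_equiv (m := m) E.subtype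
      rw [Subfield.fieldRange_subtype] at f
      rw [h] at hs
      exact absurd (solvable_of_surjective (f := ((cjEquiv g _).symm.trans f).toMonoidHom) (MulEquiv.surjective _))
        not_solvable
  · rintro (⟨p, h1, h2⟩ | ⟨A, hA, h1, h2⟩)
    · obtain ⟨g, rfl⟩ := exists_smul_inf p
      refine solvable_of_le_B (g := g) ?_
      rw [closure_le]
      rintro _ (rfl | rfl)
      exacts [mem_cj_B.2 h1, mem_cj_B.2 h2]
    · refine hA.solvable ?_
      rw [closure_le]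
      rintro _ (rfl | rfl)
      exacts [h1, h2]

theorem sol_conj (g x : G F m) : (Sol (g * x * g⁻¹)).ncard = (Sol x).ncard := by
  have key : ∀ g x y : G F m, y ∈ Sol x → g * y * g⁻¹ ∈ Sol (g * x * g⁻¹) := by
    rintro g x y (⟨p, h1, h2⟩ | ⟨A, hA, h1, h2⟩)
    · exact Or.inl ⟨g • p, by simp [mul_smul, h1], by simp [mul_smul, h2]⟩
    · exact Or.inr ⟨_, hA.cj g, by rwa [normalizer_cj, conj_mem_cj], by rwa [normalizer_cj, conj_mem_cj]⟩
  rw [← Set.ncard_image_of_injective (Sol x) (MulAut.conj g).injective]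
  congr 1
  ext y
  constructor
  · intro h
    exact ⟨g⁻¹ * y * g⁻¹⁻¹, by simpa [mul_assoc] using key g⁻¹ _ _ h, by simp [mul_assoc]⟩
  · rintro ⟨y, hy, rfl⟩
    exact key g x y hy

theorem sol_fpf {x : G F m} (hx : FPF x) : (Sol x).ncard = 4 * Nat.card (centralizer {x}) := by
  rw [← hx.isT.card_normalizer]
  change _ = (normalizer ((centralizer {x} : Subgroup (G F m)) : Set (G F m)) : Set (G F m)).ncard
  congr 1
  ext y
  constructor
  · rintro (⟨p, h1, -⟩ | ⟨A, hA, h1, h2⟩)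
    · exact absurd h1 (hx p)
    · rwa [hA.abCC.cent x (hA.mem_of_odd h1 hx.isT.odd (pow_card_of_mem (mem_cent x))) hx.ne_one]
  · exact fun h => Or.inr ⟨_, hx.isT.oddPart, le_normalizer (mem_cent x), h⟩

theorem sol_hh {k : Fˣ} (hk : k ≠ 1) :
    (Sol (hh k : G F m)).ncard = 2 * Fintype.card F ^ 2 * (Fintype.card F - 1) := by
  have e : Sol (hh k : G F m) = ((B F m : Set (G F m)) ∪ cj ww (B F m)) ∪ Set.range fun l => hh l * ww := by
    ext y
    constructor
    · rintro (⟨p, h1, h2⟩ | ⟨A, hA, h1, h2⟩)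
      · rcases fix_hh hk h1 with rfl | rfl
        · exact Or.inl (Or.inl h2)
        · exact Or.inl (Or.inr (mem_cj_B.2 (by simpa using h2)))
      · obtain rfl : A = H F m := hA.abCC.eq abCC_H (by simpa [hh_eq_one] using hk)
          (hA.mem_of_odd h1 odd_q_sub (hh_pow_card k)) (hh_mem_H k)
        rcases mem_normalizer_H.1 h2 with ⟨l, rfl⟩ | ⟨l, rfl⟩
        exacts [Or.inl (Or.inl (hh_mem_B l)), Or.inr ⟨l, rfl⟩]
    · rintro ((h | h) | ⟨l, rfl⟩)
      · exact Or.inl ⟨inf, by simp, h⟩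
      · exact Or.inl ⟨pt 0 0, by simp, by simpa using mem_cj_B.1 h⟩
      · exact Or.inr ⟨_, oddPart_H, le_normalizer (hh_mem_H k), mem_normalizer_H.2 (Or.inr ⟨l, rfl⟩)⟩
  have e2 : (B F m : Set (G F m)) ∩ cj ww (B F m) = H F m := by
    ext y
    simp only [Set.mem_inter_iff, SetLike.mem_coe, mem_cj_B, mem_H', ww_inf]
    rfl
  have h1 := Set.ncard_union_add_ncard_inter (B F m : Set (G F m)) (cj ww (B F m))
  rw [e2] at h1
  change _ + Nat.card (H F m) = Nat.card (B F m) + Nat.card (cj ww (B F m)) at h1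
  classical
  rw [e, Set.ncard_union_eq (Set.disjoint_right.2 (by
      rintro _ ⟨l, rfl⟩ (h | h)
      · simpa [mul_smul] using mem_B.1 h
      · simpa [mul_smul] using mem_cj_B.1 h)),
    Set.ncard_range_of_injective (fun _ _ h => hh_inj.1 (mul_right_cancel h)), Nat.card_eq_fintype_card,
    Fintype.card_units, ← card_H (m := m), h1, card_cj, card_B, card_H]
  ring

theorem sol_U {x : G F m} (xU : x ∈ U F m) (x1 : x ≠ 1) {A A' : Subgroup (G F m)} (h : IsT A) (h' : IsT A')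
    (e : Nat.card A = Fintype.card F + 2 ^ (m + 1) + 1) (e' : Nat.card A' = Fintype.card F - 2 ^ (m + 1) + 1) :
    (Sol x).ncard = Nat.card (B F m) + (SolP x (H F m)).ncard + (SolP x A).ncard + (SolP x A').ncard := by
  have h8 := card_ge (F := F)
  have he := e_lt (F := F)
  have he' : 0 < 2 ^ (m + 1) := by positivity
  have dj : ∀ {A A' : Subgroup (G F m)}, OddPart A → OddPart A' → Nat.card A ≠ Nat.card A' →
      Disjoint (SolP x A) (SolP x A') := fun h h' hne => Set.disjoint_left.2 (by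
    rintro y ⟨yB, g, h1, h2⟩ ⟨-, k, h3, h4⟩
    have := congrArg (fun S : Subgroup (G F m) => Nat.card S) ((h.cj g).unique (h'.cj k) xU x1 h1 h3 h2 h4 yB)
    simp only [card_cj] at this
    exact hne this)
  have dB : ∀ A, Disjoint (B F m : Set (G F m)) (SolP x A) := fun A => Set.disjoint_left.2 fun y h1 h2 => h2.1 h1
  have n2 : Nat.card (H F m) ≠ Nat.card A' := fun hc => by
    have := Nat.eq_one_of_dvd_coprimes (cop_q' (F := F)) (hc ▸ h'.card_dvd) (card_H (F := F) ▸ dvd_rfl)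
    rw [card_H] at this
    omega
  rw [show Nat.card (B F m) = (B F m : Set (G F m)).ncard from rfl, ← Set.ncard_union_eq (dB _),
    ← Set.ncard_union_eq (Set.disjoint_union_left.2 ⟨dB _, dj oddPart_H h.oddPart (by rw [card_H]; omega)⟩),
    ← Set.ncard_union_eq (Set.disjoint_union_left.2 ⟨Set.disjoint_union_left.2 ⟨dB _, dj oddPart_H h'.oddPart n2⟩,
      dj h.oddPart h'.oddPart (by omega)⟩)]
  congr 1
  ext y
  constructor
  · rintro (⟨p, h1, h2⟩ | ⟨C, hC, h1, h2⟩)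
    · obtain rfl := fix_U xU x1 h1
      exact Or.inl (Or.inl (Or.inl h2))
    by_cases yB : y ∈ B F m
    · exact Or.inl (Or.inl (Or.inl yB))
    rcases hC with ⟨g, rfl⟩ | hC
    · exact Or.inl (Or.inl (Or.inr ⟨yB, g, h1, h2⟩))
    rcases hC.card with e1 | e1
    · obtain ⟨g, rfl⟩ := h.conj_of_card hC (e.trans e1.symm)
      exact Or.inl (Or.inr ⟨yB, g, h1, h2⟩)
    · obtain ⟨g, rfl⟩ := h'.conj_of_card hC (e'.trans e1.symm)
      exact Or.inr ⟨yB, g, h1, h2⟩
  · rintro (((h1 | ⟨-, g, h1, h2⟩) | ⟨-, g, h1, h2⟩) | ⟨-, g, h1, h2⟩)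
    exacts [Or.inl ⟨inf, U_le_B xU, h1⟩, Or.inr ⟨_, oddPart_H.cj g, h1, h2⟩, Or.inr ⟨_, h.oddPart.cj g, h1, h2⟩,
      Or.inr ⟨_, h'.oddPart.cj g, h1, h2⟩]

theorem sol_two {x : G F m} (hx : orderOf x = 2) :
    (Sol x).ncard = Fintype.card F ^ 2 * (4 * Fintype.card F - 3) := by
  obtain ⟨g, hg⟩ := invol_conj (x := x) (by rintro rfl; simp at hx) (hx ▸ pow_orderOf_eq_one x)
  obtain ⟨A, A', h, h', e, e', -⟩ := exists_tori (F := F)
  have x1 : (uu 0 1 : G F m) ≠ 1 := by simp [uu_eq_one]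
  have x2 : (uu 0 1 : G F m) ^ 2 = 1 := uu_sq_eq_one.2 rfl
  rw [← sol_conj g, hg, sol_U (uu_mem_U _ _) x1 h h' e e',
    oddPart_H.ncard_solP (uu_mem_U _ _) x1 (oddPart_H.ncard_conj_invol x2 x1),
    h.oddPart.ncard_solP (uu_mem_U _ _) x1 (h.oddPart.ncard_conj_invol x2 x1),
    h'.oddPart.ncard_solP (uu_mem_U _ _) x1 (h'.oddPart.ncard_conj_invol x2 x1),
    centralizer_Z (uu_mem_Z _) x1, card_B, card_U, card_H, e, e', ← mul_add, ← mul_add, ← mul_add]
  have h8 := card_ge (F := F)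
  have he := e_lt (F := F)
  generalize 2 ^ (m + 1) = t at *
  congr 1
  omega

theorem sol_four {x : G F m} (hx : orderOf x = 4) :
    (Sol x).ncard = Fintype.card F ^ 2 * (Fintype.card F + 3) := by
  have h4 : x ^ 4 = 1 := by have := pow_orderOf_eq_one x; rwa [hx] at this
  have h2 : x ^ 2 ≠ 1 := pow_ne_one_of_lt_orderOf (by norm_num) (by omega)
  obtain ⟨g, a, b, hg⟩ := two_elt_conj (x := x) (n := 2) h4
  have k2 : (uu a b : G F m) ^ 2 ≠ 1 := by rw [← hg, conj_pow]; simpa using h2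
  have a0 : a ≠ 0 := fun e => k2 (uu_sq_eq_one.2 e)
  have x1 : (uu a b : G F m) ≠ 1 := by simp [uu_eq_one, a0]
  obtain ⟨A, A', h, h', e, e', -⟩ := exists_tori (F := F)
  have hH : SolP (uu a b : G F m) (H F m) = ∅ := by
    refine Set.eq_empty_of_forall_notMem ?_
    rintro y ⟨-, g, h1, -⟩
    rcases (oddPart_H.cj g).mem_or h1 with h3 | -
    · exact x1 ((oddPart_H.cj g).eq_one h3 (uu_pow_four a b))
    rw [normalizer_cj] at h1
    obtain ⟨z, hz, e⟩ := h1
    have e' : g * z * g⁻¹ = uu a b := e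
    rcases mem_normalizer_H.1 hz with ⟨l, rfl⟩ | ⟨l, rfl⟩
    · exact x1 ((oddPart_H.cj g).eq_one (e' ▸ conj_mem_cj.2 (hh_mem_H l)) (uu_pow_four a b))
    · exact k2 (by rw [← e', conj_pow, sq, hw_sq]; simp)
  rw [← sol_conj g, hg, sol_U (uu_mem_U _ _) x1 h h' e e', hH,
    h.oddPart.ncard_solP (uu_mem_U _ _) x1 (h.ncard_four (uu_pow_four a b) k2),
    h'.oddPart.ncard_solP (uu_mem_U _ _) x1 (h'.ncard_four (uu_pow_four a b) k2),
    card_cent_four a0, card_B, e, e']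
  have h8 := card_ge (F := F)
  have he := e_lt (F := F)
  generalize 2 ^ (m + 1) = t at *
  simp only [Set.ncard_empty, Nat.add_sub_cancel]
  zify [he.le, show 1 ≤ Fintype.card F by omega]
  ring

theorem sol_H {x : G F m} (x1 : x ≠ 1) (hx : orderOf x ∣ Fintype.card F - 1) :
    (Sol x).ncard = 2 * Fintype.card F ^ 2 * (Fintype.card F - 1) := by
  have h1 := orderOf_dvd_iff_pow_eq_one.1 hx
  rcases elt_cases x with ⟨g, hg⟩ | ⟨g, k, hk, hg⟩ | h
  · exact absurd hg (not_conj_U x1 odd_q_sub h1 g)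
  · rw [← sol_conj g, hg, sol_hh hk]
  · exact absurd (eq_one_of_pow (cop_q'.coprime_dvd_left h.isT.card_dvd) (pow_card_of_mem (mem_cent x)) h1) x1

end

/-- Let G be the Suzuki group Sz(q), q = 2^(2m+1) with 2m + 1 prime and m ≥ 1, realised inside Sp_4(F) for F the field of order q, write r = 2^(m+1) (so r² = 2q), and for x ∈ G call the solubilizer of x the set of y ∈ G such that x and y generate a solvable subgroup. Then the solubilizer of an involution has q²(4q − 3) elements; that of an element of order 4 has q²(q + 3) elements; that of a non-identity element of order dividing q − 1 has 2q²(q − 1) elements; that of a non-identity element of order dividing q + r + 1 has 4(q + r + 1) elements; and that of a non-identity element of order dividing q − r + 1 has 4(q − r + 1) elements. -/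
theorem result {F : Type*} [Field F] [Fintype F] {m : ℕ} (hm : 1 ≤ m)
    (hp : (2 * m + 1).Prime) (hF : Fintype.card F = 2 ^ (2 * m + 1)) (x : ↥(Cfsg.Lie.Sz F (2 ^ (m + 1)))) :
    (orderOf x = 2 → Nat.card {y : ↥(Cfsg.Lie.Sz F (2 ^ (m + 1))) // Group.IsSolvable ↥(Subgroup.closure ({x, y} : Set (↥(Cfsg.Lie.Sz F (2 ^ (m + 1))))))} = (2 ^ (2 * m + 1)) ^ 2 * (4 * 2 ^ (2 * m + 1) - 3)) ∧
    (orderOf x = 4 → Nat.card {y : ↥(Cfsg.Lie.Sz F (2 ^ (m + 1))) // Group.IsSolvable ↥(Subgroup.closure ({x, y} : Set (↥(Cfsg.Lie.Sz F (2 ^ (m + 1))))))} = (2 ^ (2 * m + 1)) ^ 2 * (2 ^ (2 * m + 1) + 3)) ∧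
    (x ≠ 1 → orderOf x ∣ 2 ^ (2 * m + 1) - 1 →
      Nat.card {y : ↥(Cfsg.Lie.Sz F (2 ^ (m + 1))) // Group.IsSolvable ↥(Subgroup.closure ({x, y} : Set (↥(Cfsg.Lie.Sz F (2 ^ (m + 1))))))} = 2 * (2 ^ (2 * m + 1)) ^ 2 * (2 ^ (2 * m + 1) - 1)) ∧
    (x ≠ 1 → orderOf x ∣ 2 ^ (2 * m + 1) + 2 ^ (m + 1) + 1 → Nat.card {y : ↥(Cfsg.Lie.Sz F (2 ^ (m + 1))) // Group.IsSolvable ↥(Subgroup.closure ({x, y} : Set (↥(Cfsg.Lie.Sz F (2 ^ (m + 1))))))} = 4 * (2 ^ (2 * m + 1) + 2 ^ (m + 1) + 1)) ∧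
    (x ≠ 1 → orderOf x ∣ 2 ^ (2 * m + 1) - 2 ^ (m + 1) + 1 → Nat.card {y : ↥(Cfsg.Lie.Sz F (2 ^ (m + 1))) // Group.IsSolvable ↥(Subgroup.closure ({x, y} : Set (↥(Cfsg.Lie.Sz F (2 ^ (m + 1))))))} = 4 * (2 ^ (2 * m + 1) - 2 ^ (m + 1) + 1)) := by
  haveI : SzF F m := ⟨hm, hF⟩
  let e := lieEquiv (F := F)
  obtain ⟨x, rfl⟩ := e.surjective x
  have key : Nat.card {y : ↥(Cfsg.Lie.Sz F (2 ^ (m + 1))) // Group.IsSolvable ↥(Subgroup.closure
      ({e x, y} : Set (↥(Cfsg.Lie.Sz F (2 ^ (m + 1))))))} = (Sol x).ncard := by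
    refine (Nat.card_congr (e.toEquiv.subtypeEquiv fun y => ?_)).symm
    rw [← solv_iff]
    have : closure ({e x, e y} : Set (↥(Cfsg.Lie.Sz F (2 ^ (m + 1))))) =
        (closure ({x, y} : Set (G F m))).map e.toMonoidHom := by
      rw [MonoidHom.map_closure, Set.image_pair]; rfl
    change _ ↔ Group.IsSolvable ↥(closure ({e x, e y} : Set (↥(Cfsg.Lie.Sz F (2 ^ (m + 1))))))
    rw [this]
    let f := e.subgroupMap (closure ({x, y} : Set (G F m)))
    exact ⟨fun _ => solvable_of_surjective (f := f.toMonoidHom) f.surjective,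
      fun h => @solvable_of_surjective _ _ _ _ f.symm.toMonoidHom f.symm.surjective h⟩
  rw [key, e.orderOf_eq, ← hF, Ne, e.map_eq_one_iff]
  refine ⟨sol_two, sol_four, sol_H, fun x1 h => ?_, fun x1 h => ?_⟩
  · have h1 := orderOf_dvd_iff_pow_eq_one.1 h
    have hx := fpf_of_pow x1 t1_dvd h1
    rw [sol_fpf hx, hx.isT.card.resolve_right fun e =>
      x1 (eq_one_of_pow tori_coprime h1 (e ▸ pow_card_of_mem (mem_cent x)))]
  · have h1 := orderOf_dvd_iff_pow_eq_one.1 h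
    have hx := fpf_of_pow x1 t2_dvd h1
    rw [sol_fpf hx, hx.isT.card.resolve_left fun e =>
      x1 (eq_one_of_pow tori_coprime (e ▸ pow_card_of_mem (mem_cent x)) h1)]

end Cfsg.Agent.S2259
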