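import Cfsg.Statements.S2269
import Cfsg.Agent.H24.Alt
-- import your own Cfsg.Agent.* helpers here

set_option autoImplicit false
open Cfsg

namespace Cfsg.Agent.S2269

/-- Let n ≥ 5 and let P be an abelian Sylow p-subgroup of the alternating group A_n. Then N(P)/C(P) (taken in A_n) has even order, or P is cyclic, except when n = 5 and p = 2, where P is a four-group and N(P)/C(P) has order 3. -/
theorem result (n : ℕ) (hn : 5 ≤ n) {p : ℕ} [Fact p.Prime]
    (P : Sylow p (alternatingGroup (Fin n))) (hP : IsMulCommutative (P : Subgroup (alternatingGroup (Fin n)))) :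
    (¬ (n = 5 ∧ p = 2) → 2 ∣ ((Subgroup.centralizer ((P : Subgroup (alternatingGroup (Fin n))) : Set (alternatingGroup (Fin n)))).subgroupOf (Subgroup.normalizer ((P : Subgroup (alternatingGroup (Fin n))) : Set (alternatingGroup (Fin n))))).index ∨ IsCyclic (P : Subgroup (alternatingGroup (Fin n)))) ∧
    ((n = 5 ∧ p = 2) → ((Subgroup.centralizer ((P : Subgroup (alternatingGroup (Fin n))) : Set (alternatingGroup (Fin n)))).subgroupOf (Subgroup.normalizer ((P : Subgroup (alternatingGroup (Fin n))) : Set (alternatingGroup (Fin n))))).index = 3 ∧ IsKleinFour (P : Subgroup (alternatingGroup (Fin n)))) := by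
  have hp' : p.Prime := Fact.out
  have : Nontrivial (Fin n) := Fin.nontrivial_iff_two_le.2 (by omega)
  refine ⟨fun h => ?_, ?_⟩
  · by_cases hp : p = 2
    · subst hp
      exfalso
      let e := H24.Alt.embA (Fin.castLEEmb (show 6 ≤ n by omega))
      let a : alternatingGroup (Fin 6) := ⟨Equiv.swap 0 1 * Equiv.swap 1 2 * Equiv.swap 2 3 * Equiv.swap 4 5, Equiv.Perm.mem_alternatingGroup.2 (by decide)⟩
      let b : alternatingGroup (Fin 6) := ⟨Equiv.swap 0 2 * Equiv.swap 4 5, Equiv.Perm.mem_alternatingGroup.2 (by decide)⟩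
      have h1 : IsPGroup 2 (Subgroup.zpowers b ⊔ Subgroup.zpowers a : Subgroup _) := IsPGroup.to_sup_of_normal_right'
        (IsPGroup.of_card (n := 1) (by rw [Nat.card_zpowers]; exact orderOf_eq_prime (by decide) (by decide)))
        (IsPGroup.of_card (n := 2) (by rw [Nat.card_zpowers]; exact orderOf_eq_prime_pow (by decide) (by decide)))
        (Subgroup.zpowers_le.2 (H20.mem_normalizer_iff_cj.2 (by
          rw [H20.cj_zpowers, show b * a * b⁻¹ = a⁻¹ by decide, Subgroup.zpowers_inv])))
      obtain ⟨g, -, hg⟩ := (H20.sylIn_top P).exists_conj_le (h1.map e) le_top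
      have h2 := congrArg Subtype.val (hP.is_comm.comm
        ⟨_, hg (H20.conj_mem_cj.2 ⟨a, Subgroup.mem_sup_right (Subgroup.mem_zpowers a), rfl⟩)⟩
        ⟨_, hg (H20.conj_mem_cj.2 ⟨b, Subgroup.mem_sup_left (Subgroup.mem_zpowers b), rfl⟩)⟩)
      simp only [Subgroup.coe_mul, conj_mul, mul_left_inj, mul_right_inj, ← map_mul] at h2
      exact absurd (H24.Alt.embA_injective _ h2) (by decide)
    have hp3 : 3 ≤ p := by have := hp'.two_le; omega
    by_cases hn' : p + 2 ≤ n
    · obtain ⟨x, hx⟩ := (Equiv.Perm.exists_with_cycleType_iff (Fin n) (m := {p})).2 ⟨by simp; omega, by simp; omega⟩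
      have h1 : orderOf x = p := by simp [← Equiv.Perm.lcm_cycleType, hx]
      obtain ⟨t, ht, e⟩ := H24.Alt.exists_conj_even (Equiv.Perm.isConj_iff_cycleType_eq.2 x.cycleType_inv.symm)
        (by simpa [← Equiv.Perm.sum_cycleType, hx])
      refine Or.inl (H24.Alt.two_dvd_index P hP (x := ⟨x, by
        simp [Equiv.Perm.sign_of_cycleType, hx, pow_succ, (hp'.odd_of_ne_two hp).neg_one_pow]⟩) (t := ⟨t, ht⟩)
        (IsPGroup.of_card (n := 1) (by rw [Nat.card_zpowers, ← Subgroup.orderOf_coe, h1, pow_one])) (Subtype.ext e) fun h => hp ?_)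
      exact (Nat.prime_dvd_prime_iff_eq hp' Nat.prime_two).1 (h1 ▸ orderOf_dvd_of_pow_eq_one (by
        rw [pow_two]; nth_rw 1 [← show x⁻¹ = x from congrArg Subtype.val h]; simp))
    · refine Or.inr (isCyclic_of_card_dvd_prime (p := p) ?_)
      obtain ⟨k, hk⟩ := P.isPGroup'.exists_card_eq
      have h1 : p ^ k ∣ n.factorial := by
        rw [← hk]
        refine (Subgroup.card_subgroup_dvd_card _).trans ((Subgroup.card_subgroup_dvd_card _).trans ?_)
        simp [Fintype.card_perm]
      rw [hk]
      refine (pow_dvd_pow p (show k ≤ 1 from ?_)).trans (pow_one p).dvd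
      by_contra! h2
      have := (hp'.pow_dvd_factorial_iff (b := 2) (Nat.log_lt_of_lt_pow (by omega) (by nlinarith))).1 ((pow_dvd_pow p h2).trans h1)
      simp at this
      have := (Nat.le_div_iff_mul_le hp'.pos).1 this
      omega
  · rintro ⟨rfl, rfl⟩
    have h60 : Nat.card (alternatingGroup (Fin 5)) = 60 := by
      have := two_mul_card_alternatingGroup (α := Fin 5)
      rw [Fintype.card_perm] at this
      simp [Nat.factorial] at this ⊢; omega
    have h4 : Nat.card P = 4 := by
      rw [P.card_eq_multiplicity, h60, show 60 = 2 ^ 2 * 15 by rfl, Nat.factorization_mul (by simp) (by simp), Nat.factorization_pow]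
      simp [Nat.factorization_eq_zero_of_not_dvd, Nat.prime_two.factorization]
    have h15 := (P : Subgroup (alternatingGroup (Fin 5))).card_mul_index
    rw [h4, h60] at h15
    refine ⟨?_, h4, ?_⟩
    · have hC := Subgroup.le_centralizer (P : Subgroup (alternatingGroup (Fin 5)))
      have h1 := (Subgroup.relIndex_dvd_index_of_le (Subgroup.centralizer_le_normalizer _)).trans (Subgroup.index_dvd_of_le hC)
      have h2 : (Subgroup.normalizerMonoidHom (P : Subgroup (alternatingGroup (Fin 5)))).ker.index ∣ 24 := by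
        rw [Subgroup.index_ker]
        refine (Subgroup.card_subgroup_dvd_card _).trans ((Subgroup.card_dvd_of_injective (MulAut.toPerm _)
          fun _ _ h => MulEquiv.toEquiv_injective h).trans ?_)
        rw [Nat.card_perm, h4]; rfl
      rw [Subgroup.normalizerMonoidHom_ker] at h2
      rw [show (P : Subgroup (alternatingGroup (Fin 5))).index = 15 by omega] at h1
      refine ((Nat.dvd_prime Nat.prime_three).1 (Nat.dvd_gcd h1 h2)).resolve_left fun h => ?_
      have h3 := (MonoidHom.ker_transferSylow_isComplement' P (Subgroup.relIndex_eq_one.1 h)).card_mul_card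
      rw [h4, h60] at h3
      rcases (MonoidHom.normal_ker (MonoidHom.transferSylow P (Subgroup.relIndex_eq_one.1 h))).eq_bot_or_eq_top with e | e
      · simp [e] at h3
      · rw [e, Subgroup.card_top, h60] at h3; omega
    · have : Nontrivial P := Finite.one_lt_card_iff_nontrivial.1 (by omega)
      refine (Monoid.exponent_eq_prime_iff Nat.prime_two).2 fun x hx => orderOf_eq_prime (Subtype.ext (Subtype.ext ?_)) hx
      exact (by decide +kernel : ∀ y : Equiv.Perm (Fin 5), Equiv.Perm.sign y = 1 → y ^ 4 = 1 → y ^ 2 = 1) _ x.1.2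
        (congrArg (fun z : P => z.1.1) (h4 ▸ pow_card_eq_one' : x ^ 4 = 1))

end Cfsg.Agent.S2269
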