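import Mathlib
import Cfsg.Agent.L.RU5
-- Template for statement S2278 (row 2278; see /opt/grader/pristine/manifest.json for weights).
-- Copy to Cfsg/Agent/S2278.lean and replace the sorry. The statement below is byte-identical to the frozen
-- statement Cfsg.CfsgFrozen.S2278 (Cfsg/Statements/S2278.lean; the theorem Cfsg.sl_three_generated_by_two_conjugate_regular_unipotents);
-- the grader kernel-checks Cfsg.Agent.S2278.result against that frozen type. Keep the theorem IN THIS FILE
-- (a `result` declared elsewhere and merely imported here is not credited); helpers may live anywhere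
-- under Cfsg/Agent/.
import Cfsg.Statements.S2278
-- import your own Cfsg.Agent.* helpers here

set_option autoImplicit false
open Cfsg

namespace Cfsg.Agent.S2278

/-- Let F be a finite field. Then SL_3(F) is generated by two conjugate regular unipotent elements: there are u with u − 1 nilpotent and (u − 1)² ≠ 0, and g, such that u and g u g⁻¹ generate SL_3(F). -/
theorem result {F : Type*} [Field F] [Fintype F] :
    ∃ u g : Matrix.SpecialLinearGroup (Fin 3) F, IsNilpotent ((u : Matrix (Fin 3) (Fin 3) F) - 1) ∧ ((u : Matrix (Fin 3) (Fin 3) F) - 1) ^ (3 - 1) ≠ 0 ∧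
      Subgroup.closure ({u, g * u * g⁻¹} : Set (Matrix.SpecialLinearGroup (Fin 3) F)) = ⊤ := by
  obtain ⟨u, g, h1, h2⟩ := L.RU.gen2c_three (F := F)
  exact ⟨u, g, h1.1, h1.2, h2⟩

end Cfsg.Agent.S2278
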