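import Mathlib
import Cfsg.Agent.L.RU5
-- Template for statement S2279 (row 2279; see /opt/grader/pristine/manifest.json for weights).
-- Copy to Cfsg/Agent/S2279.lean and replace the sorry. The statement below is byte-identical to the frozen
-- statement Cfsg.CfsgFrozen.S2279 (Cfsg/Statements/S2279.lean; the theorem Cfsg.sl_generated_by_two_regular_unipotents);
-- the grader kernel-checks Cfsg.Agent.S2279.result against that frozen type. Keep the theorem IN THIS FILE
-- (a `result` declared elsewhere and merely imported here is not credited); helpers may live anywhere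
-- under Cfsg/Agent/.
import Cfsg.Statements.S2279
-- import your own Cfsg.Agent.* helpers here

set_option autoImplicit false
open Cfsg

namespace Cfsg.Agent.S2279

/-- Let F be a finite field with q elements and n ≥ 4. Then SL_n(F) is generated by two regular unipotent elements (elements u with u − 1 nilpotent and (u − 1)^(n−1) ≠ 0); if q is prime, the two can be taken conjugate in SL_n(F). -/
theorem result {F : Type*} [Field F] [Fintype F] (n : ℕ) (hn : 4 ≤ n) :
    (∃ u v : Matrix.SpecialLinearGroup (Fin n) F, (IsNilpotent ((u : Matrix (Fin n) (Fin n) F) - 1) ∧ ((u : Matrix (Fin n) (Fin n) F) - 1) ^ (n - 1) ≠ 0) ∧ (IsNilpotent ((v : Matrix (Fin n) (Fin n) F) - 1) ∧ ((v : Matrix (Fin n) (Fin n) F) - 1) ^ (n - 1) ≠ 0) ∧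
      Subgroup.closure ({u, v} : Set (Matrix.SpecialLinearGroup (Fin n) F)) = ⊤) ∧
    ((Fintype.card F).Prime → ∃ u g : Matrix.SpecialLinearGroup (Fin n) F, (IsNilpotent ((u : Matrix (Fin n) (Fin n) F) - 1) ∧ ((u : Matrix (Fin n) (Fin n) F) - 1) ^ (n - 1) ≠ 0) ∧
      Subgroup.closure ({u, g * u * g⁻¹} : Set (Matrix.SpecialLinearGroup (Fin n) F)) = ⊤) := by
  by_cases h : n = 4 ∧ (2 : F) ≠ 0
  · obtain ⟨rfl, h2⟩ := h
    exact ⟨L.RU.odd_four h2, L.RU.prime_four h2⟩
  · have := L.RU.gen2c (F := F) (n := n) (by omega) fun h4 => by_contra fun h2 => h ⟨h4, h2⟩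
    exact ⟨this.gen2, fun _ => this⟩

end Cfsg.Agent.S2279
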