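import Mathlib
import Cfsg.Agent.L.RU5
-- Template for statement S2280 (row 2280; see /opt/grader/pristine/manifest.json for weights).
-- Copy to Cfsg/Agent/S2280.lean and replace the sorry. The statement below is byte-identical to the frozen
-- statement Cfsg.CfsgFrozen.S2280 (Cfsg/Statements/S2280.lean; the theorem Cfsg.sl_generated_by_three_conjugate_regular_unipotents);
-- the grader kernel-checks Cfsg.Agent.S2280.result against that frozen type. Keep the theorem IN THIS FILE
-- (a `result` declared elsewhere and merely imported here is not credited); helpers may live anywhere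
-- under Cfsg/Agent/.
import Cfsg.Statements.S2280
-- import your own Cfsg.Agent.* helpers here

set_option autoImplicit false
open Cfsg

namespace Cfsg.Agent.S2280

/-- Let F be a finite field and n ≥ 3. Then SL_n(F) is generated by three conjugate regular unipotent elements: there are u with u − 1 nilpotent and (u − 1)^(n−1) ≠ 0, and g, h, such that u, g u g⁻¹ and h u h⁻¹ generate SL_n(F). -/
theorem result {F : Type*} [Field F] [Fintype F] (n : ℕ) (hn : 3 ≤ n) :
    ∃ u g h : Matrix.SpecialLinearGroup (Fin n) F, (IsNilpotent ((u : Matrix (Fin n) (Fin n) F) - 1) ∧ ((u : Matrix (Fin n) (Fin n) F) - 1) ^ (n - 1) ≠ 0) ∧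
      Subgroup.closure ({u, g * u * g⁻¹, h * u * h⁻¹} : Set (Matrix.SpecialLinearGroup (Fin n) F)) = ⊤ := by
  by_cases h : n = 4 ∧ (2 : F) ≠ 0
  · obtain ⟨rfl, h2⟩ := h
    exact L.RU.three_four h2
  · obtain ⟨u, g, h1, h2⟩ :=
      L.RU.gen2c (F := F) (n := n) hn fun h4 => by_contra fun h2 => h ⟨h4, h2⟩
    refine ⟨u, g, g, h1, ?_⟩
    simpa using h2

end Cfsg.Agent.S2280
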