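import Mathlib
import Cfsg.Statements.S2286
import Cfsg.Agent.H09.PresSL2
import Cfsg.Agent.H09.SL2Basic

set_option autoImplicit false
open Cfsg

namespace Cfsg.Agent.S2286

/-- For every finite field F, SL_2(F) and PSL_2(F) have presentations with 3 generators and at most 9 relations; when F has characteristic 2, PSL_2(F) has a presentation with 3 generators and at most 5 relations. -/
theorem result {F : Type*} [Field F] [Fintype F] :
    (∃ rels : Finset (FreeGroup (Fin 3)), rels.card ≤ 9 ∧ Nonempty (PresentedGroup (↑rels : Set (FreeGroup (Fin 3))) ≃* Matrix.SpecialLinearGroup (Fin 2) F)) ∧ (∃ rels : Finset (FreeGroup (Fin 3)), rels.card ≤ 9 ∧ Nonempty (PresentedGroup (↑rels : Set (FreeGroup (Fin 3))) ≃* Matrix.ProjectiveSpecialLinearGroup (Fin 2) F)) ∧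
    (CharP F 2 → ∃ rels : Finset (FreeGroup (Fin 3)), rels.card ≤ 5 ∧ Nonempty (PresentedGroup (↑rels : Set (FreeGroup (Fin 3))) ≃* Matrix.ProjectiveSpecialLinearGroup (Fin 2) F)) := by
  have h := H09.SL2_pg (K := F)
  have h8 : H09.PG (Matrix.SpecialLinearGroup (Fin 2) F) 3 8 := h.pad le_rfl (by split_ifs <;> simp)
  refine ⟨(h8.pad le_rfl (by simp)).final, (H09.PSL_pg h8).final, fun _ => ?_⟩
  rw [if_pos (CharTwo.two_eq_zero)] at h
  refine (h.equiv ((QuotientGroup.quotientMulEquivOfEq ?_).trans QuotientGroup.quotientBot).symm).final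
  refine eq_bot_iff.2 fun g hg => (H09.SL2.mem_center_iff'.1 hg).elim id fun e => e.trans (Subtype.ext ?_)
  ext i j
  simp [CharTwo.neg_eq]

end Cfsg.Agent.S2286
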