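import Mathlib
import Cfsg.Statements.S2291
import Cfsg.Agent.H09.SUn5

set_option autoImplicit false
open Cfsg

namespace Cfsg.Agent.S2291

/-- Let F be a field with q² elements and n ≥ 3 with (n, q) ≠ (3, 2). Then the simple group PSU_n(q) (for the standard Hermitian form) has a presentation with 2 generators and at most 80 relations. -/
theorem result {F : Type*} [Field F] [Fintype F] (q n : ℕ) (hF : Fintype.card F = q ^ 2) (hn : 3 ≤ n) (h32 : ¬ (n = 3 ∧ q = 2)) :
    ∃ rels : Finset (FreeGroup (Fin 2)), rels.card ≤ 80 ∧ Nonempty (PresentedGroup (↑rels : Set (FreeGroup (Fin 2))) ≃* Cfsg.PSU n F q) := by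
  have : Fact (Nat.card F = q ^ 2) := ⟨by simpa using hF⟩
  have := H09.SU_center (F := F) (q := q) (n := n) (by omega)
  obtain ⟨a, b, h⟩ := H09.PSU_two (F := F) hn fun a b => h32 ⟨a, b⟩
  have k : H09.PG (Cfsg.PSU n F q) 6 40 := by
    by_cases c : n = 3
    · subst c; exact (H09.SU3_pg fun e => h32 ⟨rfl, e⟩).center.pad (by omega) (by omega)
    · exact (H09.SUn_pg (by omega)).center
  exact H09.PG.final ⟨_, (k.two h).mono (by omega)⟩

end Cfsg.Agent.S2291
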