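import Mathlib
import Cfsg.Statements.S2292
import Cfsg.Agent.H09.PresSp

set_option autoImplicit false
open Cfsg

namespace Cfsg.Agent.S2292

/-- Let F be a finite field with q elements and m ≥ 2 with (m, q) ≠ (2, 2). Then the simple group PSp_2m(F) has a presentation with 2 generators and at most 80 relations. -/
theorem result {F : Type*} [Field F] [Fintype F] (m : ℕ) (hm : 2 ≤ m) (h22 : ¬ (m = 2 ∧ Fintype.card F = 2)) :
    ∃ rels : Finset (FreeGroup (Fin 2)), rels.card ≤ 80 ∧ Nonempty (PresentedGroup (↑rels : Set (FreeGroup (Fin 2))) ≃* Cfsg.PSp m F) := by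
  have := H09.Sp_center (K := F) (n := m)
  obtain ⟨n, rfl⟩ : ∃ n, m = n + 2 := ⟨m - 2, by omega⟩
  have h2 := H09.Sp_two_gen (K := F) (n := n) (or_iff_not_imp_left.2 fun h => by
    classical
    by_contra! e
    exact h22 ⟨by omega, le_antisymm ((Finset.card_le_card (s := Finset.univ) (t := {(0 : F), 1}) fun a _ => by
      by_cases c : a = 0 <;> simp [c, e a]).trans Finset.card_le_two) Fintype.one_lt_card⟩)
  rcases n with - | n
  · exact ((H09.Sp4_pg.center.two_quot h2).pad le_rfl (by simp)).final
  · exact (((H09.Sp_pg (H09.SLn_pg (by omega)) H09.Sp4_pg).center.two_quot h2).pad le_rfl (by split_ifs <;> simp)).final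

end Cfsg.Agent.S2292
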