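import Mathlib
import Cfsg.Statements.S2296
import Cfsg.Agent.H09.PresSp

set_option autoImplicit false
open Cfsg

namespace Cfsg.Agent.S2296

/-- Let F be a finite field. Sp_2n(F) has a presentation with 10 generators and at most 58 relations for n ≥ 4, with 9 generators and at most 57 relations for n = 4 or 5, and with 8 generators and at most 52 relations for n = 3; in each case PSp_2n(F) has a presentation with the same number of generators and at most one more relation. -/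
theorem result {F : Type*} [Field F] [Fintype F] (n : ℕ) :
    (4 ≤ n → (∃ rels : Finset (FreeGroup (Fin 10)), rels.card ≤ 58 ∧ Nonempty (PresentedGroup (↑rels : Set (FreeGroup (Fin 10))) ≃* Matrix.symplecticGroup (Fin n) F)) ∧ (∃ rels : Finset (FreeGroup (Fin 10)), rels.card ≤ 59 ∧ Nonempty (PresentedGroup (↑rels : Set (FreeGroup (Fin 10))) ≃* Cfsg.PSp n F))) ∧
    ((n = 4 ∨ n = 5) → (∃ rels : Finset (FreeGroup (Fin 9)), rels.card ≤ 57 ∧ Nonempty (PresentedGroup (↑rels : Set (FreeGroup (Fin 9))) ≃* Matrix.symplecticGroup (Fin n) F)) ∧ (∃ rels : Finset (FreeGroup (Fin 9)), rels.card ≤ 58 ∧ Nonempty (PresentedGroup (↑rels : Set (FreeGroup (Fin 9))) ≃* Cfsg.PSp n F))) ∧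
    (n = 3 → (∃ rels : Finset (FreeGroup (Fin 8)), rels.card ≤ 52 ∧ Nonempty (PresentedGroup (↑rels : Set (FreeGroup (Fin 8))) ≃* Matrix.symplecticGroup (Fin n) F)) ∧ (∃ rels : Finset (FreeGroup (Fin 8)), rels.card ≤ 53 ∧ Nonempty (PresentedGroup (↑rels : Set (FreeGroup (Fin 8))) ≃* Cfsg.PSp n F))) := by
  have := H09.Sp_center (K := F) (n := n)
  have h1 : ∀ m r d s, H09.PG (Matrix.SpecialLinearGroup (Fin (m + 3)) F) d r → 7 ≤ s.1 → r + 25 + s.1 ≤ s.2 →
      H09.PG (Matrix.symplecticGroup (Fin (m + 3)) F) s.1 (Prod.snd s) := fun m r d s h p q =>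
    let ⟨_, _, e⟩ := H09.SL_two_gen (K := F) (m + 3)
    (H09.Sp_pg ⟨_, h.two e⟩ H09.Sp4_pg).pad p (by omega)
  have h2 : ∀ m, H09.PG (Matrix.SpecialLinearGroup (Fin (m + 3)) F) 5 22 := fun m =>
    (H09.SLn_pg (by omega)).pad le_rfl (by split_ifs <;> simp)
  refine ⟨fun h => ?_, fun h => ?_, fun h => ?_⟩ <;> obtain ⟨m, rfl⟩ : ∃ m, n = m + 3 := ⟨n - 3, by omega⟩
  · have h3 := (h1 m _ _ (10, 58) (h2 m) (by simp) (by simp))
    exact ⟨h3.final, h3.center.final⟩
  · have h3 := (h1 m _ _ (9, 57) (h2 m) (by simp) (by simp))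
    exact ⟨h3.final, h3.center.final⟩
  · obtain rfl : m = 0 := by omega
    have h3 := (h1 0 _ _ (8, 52) H09.SL3_pg (by simp) (by simp))
    exact ⟨h3.final, h3.center.final⟩

end Cfsg.Agent.S2296
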