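import Cfsg.Statements.S2332
import Cfsg.Agent.H28.Sr1
-- import your own Cfsg.Agent.* helpers here

set_option autoImplicit false
open Cfsg

namespace Cfsg.Agent.S2332
open Module
set_option linter.unusedVariables false
set_option linter.style.haveILetI false


/-- Smallest degree of a non-linear irreducible complex representation of SL_n over a finite field with q elements, for n ≥ 3 and (n, q) not one of (3, 2), (3, 4), (4, 2), (4, 3): every irreducible complex representation of SL_n(F) of degree at least 2 has degree at least (q^n − q)/(q − 1), and there is an irreducible complex representation of exactly that degree. -/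
theorem result {F : Type*} [Field F] [Fintype F] [DecidableEq F] (n : ℕ) (hn : 3 ≤ n)
    (hex : (n, Fintype.card F) ≠ (3, 2) ∧ (n, Fintype.card F) ≠ (3, 4) ∧ (n, Fintype.card F) ≠ (4, 2) ∧ (n, Fintype.card F) ≠ (4, 3)) :
    (∀ (k : ℕ) (ρ : Representation ℂ (Matrix.SpecialLinearGroup (Fin n) F) (Fin k → ℂ)), ρ.IsIrreducible → 2 ≤ k → (Fintype.card F ^ n - Fintype.card F) / (Fintype.card F - 1) ≤ k) ∧
    (∃ ρ : Representation ℂ (Matrix.SpecialLinearGroup (Fin n) F) (Fin ((Fintype.card F ^ n - Fintype.card F) / (Fintype.card F - 1)) → ℂ), ρ.IsIrreducible) := by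
  have hq := Fintype.one_lt_card (α := F)
  refine ⟨fun k ρ h hk => Nat.div_le_of_le_mul (H28.Sr.bound hn (fun e h => ?_) (fun e h => ?_) ρ
    (L.MR.ker_ne_top ρ h hk)), ?_⟩
  · rcases (Nat.dvd_prime Nat.prime_three).1 h with h | h
    · exact hex.1 (by rw [e, show Fintype.card F = 2 by omega])
    · exact hex.2.1 (by rw [e, show Fintype.card F = 4 by omega])
  · rcases (Nat.dvd_prime Nat.prime_two).1 h with h | h
    · exact hex.2.2.1 (by rw [e, show Fintype.card F = 2 by omega])
    · exact hex.2.2.2 (by rw [e, show Fintype.card F = 3 by omega])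
  haveI : Nontrivial (Projectivization F (Fin n → F)) := ⟨⟨Projectivization.mk F (Pi.single ⟨0, by omega⟩ 1) (by simp),
    Projectivization.mk F (Pi.single ⟨1, by omega⟩ 1) (by simp), fun h => by
      obtain ⟨a, ha⟩ := (Projectivization.mk_eq_mk_iff' F _ _ _ _).1 h
      simpa [Pi.single_apply, Fin.ext_iff] using congrFun ha ⟨0, by omega⟩⟩⟩
  have h1 := (H05.isIrr_perm_sub_one_iff (G := Matrix.SpecialLinearGroup (Fin n) F)
    (Projectivization F (Fin n → F))).2 inferInstance
  obtain ⟨ρ, hρ, -⟩ := H05.Cfsg.IsIrrCharacter.exists_rep h1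
  have h2 := Projectivization.card F (Fin n → F)
  have h3 : 1 ≤ Nat.card (Projectivization F (Fin n → F)) := Nat.card_pos
  rw [← H05.charDegree_eq_of_apply_one (χ := fun g : Matrix.SpecialLinearGroup (Fin n) F =>
    (Nat.card (MulAction.fixedBy (Projectivization F (Fin n → F)) g) : ℂ) - 1) (n := (Fintype.card F ^ n - Fintype.card F) / (Fintype.card F - 1)) (by
    rw [show Fintype.card F ^ n - Fintype.card F = (Fintype.card F - 1) * (Nat.card (Projectivization F (Fin n → F)) - 1) by
      rw [Nat.mul_sub_one, mul_comm, ← Nat.card_eq_fintype_card, ← h2]; simp; omega, Nat.mul_div_cancel_left _ (by omega)]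
    simp [-Nat.card_eq_fintype_card, h3])]
  exact ⟨ρ, hρ⟩

end Cfsg.Agent.S2332
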