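import Mathlib
import Cfsg.Agent.L.MinRep
-- Template for statement S2333 (row 2333; see /opt/grader/pristine/manifest.json for weights).
-- Copy to Cfsg/Agent/S2333.lean and replace the sorry. The statement below is byte-identical to the frozen
-- statement Cfsg.CfsgFrozen.S2333 (Cfsg/Statements/S2333.lean; the theorem Cfsg.cmax4_symplectic_even_min_irreducible_degree);
-- the grader kernel-checks Cfsg.Agent.S2333.result against that frozen type. Keep the theorem IN THIS FILE
-- (a `result` declared elsewhere and merely imported here is not credited); helpers may live anywhere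
-- under Cfsg/Agent/.
import Cfsg.Statements.S2333
-- import your own Cfsg.Agent.* helpers here

set_option autoImplicit false
open Cfsg

namespace Cfsg.Agent.S2333

/-- For a finite field F of even order q and n ≥ 2 with (n, q) ≠ (2, 2), every irreducible complex representation of the symplectic group Sp_{2n}(F) of degree at least 2 has degree at least (q^n − 1)(q^n − q)/(2(q + 1)). -/
theorem result {F : Type*} [Field F] [Fintype F] [DecidableEq F] (n : ℕ) (hn : 2 ≤ n) (heven : Even (Fintype.card F)) (hex : (n, Fintype.card F) ≠ (2, 2)) :
    (∀ (k : ℕ) (ρ : Representation ℂ (Matrix.symplecticGroup (Fin n) F) (Fin k → ℂ)), ρ.IsIrreducible → 2 ≤ k → (Fintype.card F ^ n - 1) * (Fintype.card F ^ n - Fintype.card F) / (2 * (Fintype.card F + 1)) ≤ k) := by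
  intro k ρ h hk
  have h2 : (2 : F) = 0 := by
    have := FiniteField.even_card_iff_char_two.2 (Nat.even_iff.1 heven)
    have h3 := ringChar.Nat.cast_ringChar (R := F)
    rwa [this] at h3
  have := L.MR.sp_bound_even (K := ℂ) (by simpa using (CharP.char_is_prime F (ringChar F)).ne_zero)
    h2 hn ρ (L.MR.sp_ker_le hn hex ρ h hk)
  exact Nat.div_le_of_le_mul (by simpa using this)

end Cfsg.Agent.S2333
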