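import Mathlib
import Cfsg.Agent.L.MinRep
-- Template for statement S2334 (row 2334; see /opt/grader/pristine/manifest.json for weights).
-- Copy to Cfsg/Agent/S2334.lean and replace the sorry. The statement below is byte-identical to the frozen
-- statement Cfsg.CfsgFrozen.S2334 (Cfsg/Statements/S2334.lean; the theorem Cfsg.cmax4_special_unitary_odd_dim_min_irreducible_degree);
-- the grader kernel-checks Cfsg.Agent.S2334.result against that frozen type. Keep the theorem IN THIS FILE
-- (a `result` declared elsewhere and merely imported here is not credited); helpers may live anywhere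
-- under Cfsg/Agent/.
import Cfsg.Statements.S2334
-- import your own Cfsg.Agent.* helpers here

set_option autoImplicit false
open Cfsg

namespace Cfsg.Agent.S2334

/-- For odd n ≥ 3 and a finite field F with q² elements, (n, q) ≠ (3, 2), every irreducible complex representation of the special unitary group SU_n(q) (the determinant-one isometries of the standard Hermitian form over F) of degree at least 2 has degree at least (q^n − q)/(q + 1). -/
theorem result {F : Type*} [Field F] [Fintype F] [DecidableEq F] (n q : ℕ) (hn : 3 ≤ n) (hodd : Odd n) (hF : Fintype.card F = q ^ 2) (hex : (n, q) ≠ (3, 2)) :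
    (∀ (k : ℕ) (ρ : Representation ℂ (Cfsg.SU n F q) (Fin k → ℂ)), ρ.IsIrreducible → 2 ≤ k → (q ^ n - q) / (q + 1) ≤ k) := by
  intro k ρ h hk
  have := L.MR.su_bound' hF hn hex ρ h hk
  rw [if_neg (Nat.not_even_iff_odd.2 hodd)] at this
  obtain ⟨m, rfl⟩ := hodd
  refine Nat.div_le_of_le_mul (le_trans (le_of_eq ?_) this)
  rw [show (2 * m + 1) / 2 = m by omega, Nat.sub_mul, one_mul, pow_succ]

end Cfsg.Agent.S2334
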