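import Mathlib
import Cfsg.Statements.S2337
import Cfsg.Agent.H12.Sz9

set_option autoImplicit false
open Cfsg

namespace Cfsg.Agent.S2337

open H12.Sz H12.CC Subgroup

section
variable {F : Type*} [Field F] [Fintype F] {m : ℕ} [hS : SzF F m]

include hS in
theorem ac_sq (ψ : AddChar F ℂ) (x : F) : ψ x * ψ x = 1 := by
  rw [← AddChar.map_add_eq_mul, CharTwo.add_self_eq_zero, AddChar.map_zero_eq_one]

include hS in
theorem ac_neg (ψ : AddChar F ℂ) {x : F} (h : ψ x ≠ 1) : ψ x = -1 :=
  (mul_self_eq_one_iff.1 (ac_sq ψ x)).resolve_left h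

theorem rad_ne {ψ : AddChar F ℂ} (hψ : ψ ≠ 1) {a : F} (a0 : a ≠ 0) (h : ∀ c, ψ (th a * c + a * th c) = 1) :
    ψ (a * th a) ≠ 1 := fun h1 => hψ <| by
  ext x
  have a1 : a * th a ≠ 0 := by simp [a0]
  have h2 : ∀ c, ψ (a * th a * (c + th c)) = 1 := fun c => by
    rw [← h (a * c), map_mul th]
    congr 1
    ring
  obtain ⟨c, hc | hc⟩ := range_add_th (x / (a * th a))
  · rw [← mul_div_cancel₀ x a1, hc, h2]; rfl
  · rw [← mul_div_cancel₀ x a1, hc, mul_add, AddChar.map_add_eq_mul, h2, mul_one, h1]; simp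

theorem exists_rad {ψ : AddChar F ℂ} (hψ : ψ ≠ 1) :
    ∃ r, ψ (r * th r) ≠ 1 ∧ ∀ a, a ≠ 0 → a ≠ r → ∃ c, ψ (th a * c + a * th c) ≠ 1 := by
  by_cases h : ∃ r, r ≠ 0 ∧ ∀ c, ψ (th r * c + r * th c) = 1
  · obtain ⟨r, r0, hr⟩ := h
    refine ⟨r, rad_ne hψ r0 hr, fun a a0 ar => ?_⟩
    by_contra hc
    push Not at hc
    refine rad_ne hψ (a := a + r) (fun e => ar (by grind)) (fun c => ?_) ?_
    · rw [show th (a + r) * c + (a + r) * th c = (th a * c + a * th c) + (th r * c + r * th c) by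
        rw [map_add]; ring, AddChar.map_add_eq_mul, hc, hr, one_mul]
    · rw [show (a + r) * th (a + r) = a * th a + r * th r + (th a * r + a * th r) by rw [map_add]; ring,
        AddChar.map_add_eq_mul, AddChar.map_add_eq_mul, hc, ac_neg ψ (rad_ne hψ a0 hc), ac_neg ψ (rad_ne hψ r0 hr)]
      simp
  · push Not at h
    obtain ⟨x, hx⟩ : ∃ x, ψ x ≠ 1 := by
      by_contra hc
      push Not at hc
      exact hψ (by ext x; simp [hc])
    obtain ⟨r, rfl⟩ := Finite.surjective_of_injective (f := fun x : F => x * th x) (fun _ _ => mul_th_inj) x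
    exact ⟨r, hx, fun a a0 _ => h a a0⟩

theorem dim_bound {W : Type*} [AddCommGroup W] [Module ℂ W] [FiniteDimensional ℂ W] [Nontrivial W]
    (T : F → F → Module.End ℂ W) (hT : ∀ a b c d, T a b * T c d = T (a + c) (b + d + th a * c))
    {ψ : AddChar F ℂ} (hψ : ψ ≠ 1) (hZ : ∀ b, T 0 b = ψ b • 1) : 2 ^ m ≤ Module.finrank ℂ W := by
  classical
  obtain ⟨r, hr, hrad⟩ := exists_rad hψ
  have t0 : ∀ a b, T a b = ψ b • T a 0 := fun a b => by
    have := hT 0 b a 0
    simpa [hZ] using this.symm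
  have t1 : ∀ a, a ≠ 0 → a ≠ r → LinearMap.trace ℂ W (T a 0) = 0 := fun a a0 ar => by
    obtain ⟨c, hc⟩ := hrad a a0 ar
    have e1 := LinearMap.trace_mul_comm ℂ (T c 0 * T a 0) (T c (c * th c))
    rw [← mul_assoc, hT, hT, hT, hT] at e1
    rw [show c + a + c = a by grind, show c + c + a = a by grind,
      show 0 + 0 + th c * a + c * th c + th (c + a) * c = th a * c + a * th c by rw [map_add]; grind,
      show c * th c + 0 + th c * c + 0 + th (c + c) * a = 0 by rw [CharTwo.add_self_eq_zero]; grind, t0 a, map_smul,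
      ac_neg ψ hc] at e1
    simp only [smul_eq_mul] at e1
    linear_combination (-1 / 2) * e1
  let S : Finset F := Finset.univ.filter fun x => ψ (th r * x) = 1
  have hS1 : Fintype.card F ≤ 2 * S.card := by
    have := Finset.card_le_card_of_injOn (s := Sᶜ) (t := S) (fun x => x + r) (fun x hx => by
      simp only [S, Finset.coe_compl, Finset.coe_filter, Finset.mem_univ, true_and, Set.mem_compl_iff,
        Set.mem_setOf_eq] at hx ⊢
      rw [mul_add, AddChar.map_add_eq_mul, ac_neg ψ hx, mul_comm (th r), ac_neg ψ hr]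
      simp) (fun _ _ _ _ h => add_right_cancel h)
    have := S.card_add_card_compl
    omega
  have hli : LinearIndependent ℂ fun a : S => T a 0 := by
    rw [Fintype.linearIndependent_iff]
    intro g hg a
    have := congrArg (fun X => LinearMap.trace ℂ W (T a (a * th (a : F)) * X)) hg
    simp only [Finset.mul_sum, mul_smul_comm, map_sum, map_smul, mul_zero, map_zero, hT] at this
    rw [Finset.sum_eq_single a] at this
    · rw [CharTwo.add_self_eq_zero, show (a : F) * th (a : F) + 0 + th (a : F) * a = 0 by grind, hZ] at this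
      simpa [Module.finrank_pos.ne'] using this
    · intro b _ hb
      rw [t0, map_smul, t1, smul_zero, smul_zero]
      · exact fun e => hb (Subtype.ext (by grind))
      · intro e
        have h1 := (Finset.mem_filter.1 a.2).2
        have h2 := (Finset.mem_filter.1 b.2).2
        exact hr (by rw [mul_comm]; nth_rewrite 2 [← e]; rw [mul_add, AddChar.map_add_eq_mul, h1, h2, one_mul])
    · simp
  have h1 := hli.fintype_card_le_finrank
  rw [Fintype.card_coe, Module.finrank_linearMap] at h1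
  rw [hS.hF, pow_succ, mul_comm 2 m, pow_mul] at hS1
  exact (pow_le_pow_iff_left₀ (by positivity) (by positivity) two_ne_zero).1 (by nlinarith)

theorem deg_bound {k : ℕ} (ρ : G F m →* Module.End ℂ (Fin k → ℂ)) (h : ρ (uu 0 1) ≠ 1) :
    2 ^ m * (Fintype.card F - 1) ≤ k := by
  classical
  let W : AddChar F ℂ → Submodule ℂ (Fin k → ℂ) := fun ψ =>
    { carrier := {v | ∀ b, ρ (uu 0 b) v = ψ b • v}
      add_mem' := fun ha hb b => by simp [ha b, hb b]
      zero_mem' := by simp
      smul_mem' := fun c v hv b => by rw [map_smul, hv b, smul_comm] }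
  have mW : ∀ ψ v, v ∈ W ψ ↔ ∀ b, ρ (uu 0 b) v = ψ b • v := fun _ _ => Iff.rfl
  obtain ⟨ψ, hψ, hW⟩ : ∃ ψ, ψ ≠ 1 ∧ W ψ ≠ ⊥ := by
    by_contra hc
    push Not at hc
    refine h (LinearMap.ext fun v => ?_)
    have h1 : ∀ ψ : AddChar F ℂ, ∑ b, ψ b • ρ (uu 0 b) v ∈ W ψ := fun ψ => (mW _ _).2 fun c => by
      rw [map_sum, Finset.smul_sum, ← Equiv.sum_comp (Equiv.addLeft c)]
      refine Finset.sum_congr rfl fun b _ => ?_
      rw [map_smul, ← Module.End.mul_apply, ← map_mul, uu_mul, smul_smul, Equiv.coe_addLeft, AddChar.map_add_eq_mul]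
      simp [← add_assoc, CharTwo.add_self_eq_zero]
    have h2 : ∑ ψ : AddChar F ℂ, ∑ b, ψ b • ρ (uu 0 b) v = (Fintype.card F : ℂ) • v := by
      rw [Finset.sum_comm]
      simp [← Finset.sum_smul, AddChar.sum_apply_eq_ite]
    rw [Finset.sum_eq_single 1 (fun ψ _ hψ => by simpa [hc ψ hψ] using h1 ψ) (by simp)] at h2
    have h3 := (mW _ _).1 (h2 ▸ h1 1) 1
    rw [map_smul] at h3
    simpa using smul_right_injective _ (Nat.cast_ne_zero.2 Fintype.card_ne_zero) (h3.trans (by simp))
  haveI := Submodule.nontrivial_iff_ne_bot.2 hW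
  have hinv : ∀ a b, ∀ v ∈ W ψ, ρ (uu a b) v ∈ W ψ := fun a b v hv => (mW _ _).2 fun c => by
    rw [← Module.End.mul_apply, ← map_mul, ← uu_comm_Z, map_mul, Module.End.mul_apply, (mW _ _).1 hv, map_smul]
  have h1 := dim_bound (W := W ψ) (fun a b => (ρ (uu a b)).restrict (hinv a b)) (fun a b c d => by
    ext v
    simp [← uu_mul]) hψ (fun b => by
    ext v
    simp [(mW _ _).1 v.2])
  let f : (Fˣ → W ψ) →ₗ[ℂ] (Fin k → ℂ) := ∑ l : Fˣ, (ρ (hh l)⁻¹) ∘ₗ (W ψ).subtype ∘ₗ LinearMap.proj l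
  have hf : Function.Injective f := by
    rw [injective_iff_map_eq_zero]
    intro w hw
    have h2 : ∑ l : Fˣ, ρ (hh l)⁻¹ (w l) = 0 := by simpa [f] using hw
    have h3 : ∀ b, ∑ l : Fˣ, ψ ((l : F) ^ 2 * th (l : F) * b) • ρ (hh l)⁻¹ (w l) = 0 := fun b => by
      have := congrArg (ρ (uu 0 b)) h2
      rw [map_sum, map_zero] at this
      rw [← this]
      refine Finset.sum_congr rfl fun l _ => ?_
      rw [← map_smul, ← (mW _ _).1 (w l).2, ← Module.End.mul_apply, ← Module.End.mul_apply, ← map_mul, ← map_mul,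
        ← mul_zero (th (l : F)), ← hh_conj, mul_zero]
      congr 2
      group
    have hli := (AddChar.linearIndependent F ℂ).comp (fun l : Fˣ => ψ.mulShift ((l : F) ^ 2 * th (l : F)))
      fun l l' e => Units.ext (sq_th_inj (AddChar.to_mulShift_inj_of_isPrimitive (AddChar.IsPrimitive.of_ne_one hψ) e))
    funext l
    have h4 : ρ (hh l)⁻¹ (w l) = 0 := funext fun i =>
      Fintype.linearIndependent_iff.1 hli (fun l => ρ (hh l)⁻¹ (w l) i) (funext fun b => by
        simpa [mul_comm] using congrFun (h3 b) i) l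
    have h5 := congrArg (ρ (hh l)) h4
    rw [← Module.End.mul_apply, ← map_mul, mul_inv_cancel] at h5
    simpa using h5
  have h2 := LinearMap.finrank_le_finrank_of_injective hf
  simp only [Module.finrank_pi_fintype, Finset.sum_const, Finset.card_univ, Fintype.card_units, smul_eq_mul,
    Module.finrank_self, Fintype.card_fin, mul_one] at h2
  exact le_trans (by rw [mul_comm]; gcongr) h2

end

/-- For the Suzuki group Sz(q), q = 2^(2m+1) with m ≥ 1 (realised inside Sp₄ over the field with q elements), every irreducible complex representation of degree at least 2 has degree at least 2^m·(q − 1). -/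
theorem result {F : Type*} [Field F] [Fintype F] (m : ℕ) (hm : 1 ≤ m) (hF : Fintype.card F = 2 ^ (2 * m + 1)) :
    (∀ (k : ℕ) (ρ : Representation ℂ (Cfsg.Lie.Sz F (2 ^ (m + 1))) (Fin k → ℂ)), ρ.IsIrreducible → 2 ≤ k → 2 ^ m * (2 ^ (2 * m + 1) - 1) ≤ k) := by
  haveI : SzF F m := ⟨hm, hF⟩
  intro k ρ hρ hk
  rw [← hF]
  refine deg_bound (ρ.comp (lieEquiv (F := F)).toMonoidHom) fun h => ?_
  rcases (MonoidHom.normal_ker (ρ.comp (lieEquiv (F := F)).toMonoidHom)).eq_bot_or_eq_top with h1 | h1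
  · have : (uu 0 1 : G F m) ∈ (⊥ : Subgroup (G F m)) := h1 ▸ h
    simp [uu_eq_one] at this
  have h2 : ∀ g, ρ g = 1 := fun g => by
    have : (lieEquiv (F := F)).symm g ∈ (ρ.comp (lieEquiv (F := F)).toMonoidHom).ker := h1 ▸ mem_top _
    simpa using this
  obtain ⟨k, rfl⟩ : ∃ j, k = j + 2 := ⟨k - 2, by omega⟩
  let S : Subrepresentation ρ := ⟨LinearMap.ker (LinearMap.proj 0), fun g v hv => by simpa [h2] using hv⟩
  rcases eq_bot_or_eq_top S with h3 | h3
  · have : (Pi.single 1 1 : Fin (k + 2) → ℂ) ∈ S.toSubmodule := by simp [S]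
    rw [h3] at this
    simpa using congrFun ((Submodule.mem_bot ℂ).1 this) 1
  · have : (Pi.single 0 1 : Fin (k + 2) → ℂ) ∈ S.toSubmodule := by rw [h3]; trivial
    simp [S] at this

end Cfsg.Agent.S2337
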