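import Cfsg.Statements.S2338
import Cfsg.Agent.H28.Gt4
import Cfsg.Agent.H11.PoinAll
-- import your own Cfsg.Agent.* helpers here

set_option autoImplicit false
open Cfsg

namespace Cfsg.Agent.S2338
open Module
set_option linter.unusedVariables false
set_option linter.style.haveILetI false

open H11 H11.StSys Cfsg.Lie H28 H28.Gt

theorem ari {m D n : ℕ} (hn : 3 ^ m = n + 1) (h8 : 8 ≤ n) (h : D ∣ (n * (n + 2)) * ((n + 1) ^ 4 + (n + 1) ^ 2 + 1) * (n + 1) ^ 4)
    (h' : (n + 1) ^ 4 + (n + 1) ^ 2 ≤ D + 2 * (n + 1)) : (n + 1) ^ 4 + (n + 1) ^ 2 + 1 ≤ D := by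
  by_contra! h0
  obtain ⟨j, hj⟩ := Nat.exists_eq_add_of_le (Nat.le_of_lt_succ h0)
  obtain ⟨r, rfl⟩ := Nat.exists_eq_add_of_le h8
  have a : D ∣ (8 + r) * (8 + r + 2) * (j + 1) * (8 + r + 1) ^ 4 :=
    (Nat.dvd_add_right (dvd_mul_right D ((8 + r) * (8 + r + 2) * (8 + r + 1) ^ 4))).1 (by convert h using 1; rw [hj]; ring)
  have k : ∀ X c Y, D ∣ X → X = D * c + Y → 0 < Y → Y + j < (8 + r + 1) ^ 4 + (8 + r + 1) ^ 2 → False := fun X c Y a b c d => by
    have := Nat.le_of_dvd c ((Nat.dvd_add_right (dvd_mul_right _ _)).1 (b ▸ a))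
    omega
  rcases j.eq_zero_or_pos with rfl | j0
  · refine k _ ((8 + r + 1) ^ 2 - 2) (2 * (8 + r + 1) ^ 2) a ?_ (by positivity) (by nlinarith [Nat.zero_le (r ^ 2), Nat.zero_le (r ^ 3), Nat.zero_le (r ^ 4)])
    rw [show D = _ from hj.symm, show (8 + r + 1) ^ 2 - 2 = r ^ 2 + 18 * r + 79 from Nat.sub_eq_of_eq_add (by ring)]; ring
  have b := dvd_mul_gcd_of_dvd_mul a
  obtain ⟨i, -, hi⟩ := (Nat.dvd_prime_pow Nat.prime_three).1 (show gcd D ((8 + r + 1) ^ 4) ∣ 3 ^ (m * 4) by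
    rw [pow_mul, hn]; exact gcd_dvd_right _ _)
  have c := gcd_dvd_left D ((8 + r + 1) ^ 4)
  rw [hi] at b c
  have e : (8 + r + 1) ^ 2 ∣ D + j := hj ▸ ⟨(8 + r + 1) ^ 2 + 1, by ring⟩
  have g : 3 ^ i ∣ j := by
    rcases le_total i (m * 2) with l | l <;> replace l := pow_dvd_pow 3 l <;> rw [pow_mul, hn] at l
    · exact (Nat.dvd_add_right c).1 (l.trans e)
    · exact absurd (Nat.le_of_dvd j0 ((Nat.dvd_add_right (l.trans c)).1 e)) (by nlinarith)
  have g1 := Nat.le_of_dvd j0 g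
  obtain l | rfl | l := lt_trichotomy i m
  · have l1 : 3 ^ (i + 1) ≤ 8 + r + 1 := hn ▸ Nat.pow_le_pow_right (by decide) l
    have l2 : 3 * ((8 + r) * (8 + r + 2) * (j + 1) * 3 ^ i) ≤ (8 + r) * (8 + r + 2) * (2 * (8 + r + 1) + 1) * (8 + r + 1) := by
      rw [mul_left_comm, ← pow_succ']; gcongr; omega
    refine k _ 0 ((8 + r) * (8 + r + 2) * (j + 1) * 3 ^ i) b (by simp) (by positivity) ?_
    have : j ≤ 2 * (8 + r + 1) := by omega
    nlinarith [Nat.zero_le (r ^ 2), Nat.zero_le (r ^ 3), Nat.zero_le (r ^ 4)]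
  · rw [hn] at b g g1
    obtain ⟨c, rfl⟩ := g
    obtain rfl | rfl : c = 1 ∨ c = 2 := by
      have : c ≤ 2 := Nat.le_of_mul_le_mul_left (show (8 + r + 1) * c ≤ (8 + r + 1) * 2 by omega) (by omega)
      have : c ≠ 0 := by rintro rfl; simp at j0
      omega
    · exact k _ 1 ((r + 9) ^ 2 * (r + 7)) b (by nlinarith) (by positivity) (by nlinarith [Nat.zero_le (r ^ 2), Nat.zero_le (r ^ 3), Nat.zero_le (r ^ 4)])
    · exact k _ 2 ((r + 9) * (r + 8) * (r + 6)) b (by nlinarith) (by positivity)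
        (by nlinarith [Nat.zero_le (r ^ 2), Nat.zero_le (r ^ 3), Nat.zero_le (r ^ 4)])
  · have l1 : 3 ^ (m + 1) ≤ 3 ^ i := Nat.pow_le_pow_right (by decide) l
    omega

theorem poin2 (q : ℕ) : poin (Set.univ : Set (Node chevG2)) q = (1 + q + q ^ 2 + q ^ 3 + q ^ 4 + q ^ 5) * poin (nodeSet chevG2 1) q := by
  rw [← nodeSet_full (l := 2) rfl, show 2 ^ 2 - 1 = 3 from rfl, poin_of_chk agreeG2
    ⟨6, 0x78956ba57b98, 0x40505030204030100020100, 0x50403020100, 0x101010⟩ 3 1 1 [0, 1, 2, 3, 4, 5] (by decide +kernel) (by decide +kernel)]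
  simp only [List.map_cons, List.map_nil, List.sum_cons, List.sum_nil]
  ring


/-- Lower bounds for the degrees of non-linear irreducible complex representations of the Chevalley group of type G₂ over a finite field with q elements: the degree is at least q³ + 1 when q ≡ 1 (mod 3) and q > 4, at least q³ − 1 when q ≡ 2 (mod 3) and q > 2, and at least q⁴ + q² + 1 when q ≡ 0 (mod 3) and q > 3. -/
theorem result {F : Type*} [Field F] [Fintype F] (k : ℕ) (ρ : Representation ℂ (Cfsg.Lie.chevG2.group F) (Fin k → ℂ)) (hρ : ρ.IsIrreducible) (hk : 2 ≤ k) :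
    (Fintype.card F % 3 = 1 → 4 < Fintype.card F → Fintype.card F ^ 3 + 1 ≤ k) ∧
    (Fintype.card F % 3 = 2 → 2 < Fintype.card F → Fintype.card F ^ 3 - 1 ≤ k) ∧
    (Fintype.card F % 3 = 0 → 3 < Fintype.card F → Fintype.card F ^ 4 + Fintype.card F ^ 2 + 1 ≤ k) := by
  obtain ⟨ψ, hψ⟩ := L.Wt.exists_addChar (K := ℂ) (F := F) (Nat.cast_ne_zero.2 (CharP.ringChar_ne_zero_of_finite _))
  let p : Rg F (chevG2.group F) (Fin k → ℂ) := ⟨grpSys chevG2 F, ρ, ψ, hψ⟩
  obtain ⟨n, hn⟩ : ∃ n, Fintype.card F = n + 1 := ⟨_, (Nat.sub_add_cancel Fintype.card_pos).symm⟩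
  have h1 : 2 ≤ n → p.x 11 1 ≠ 1 := fun h e => by
    obtain ⟨t, ht⟩ := exists_pow_ne_one_of_isCyclic (G := Fˣ) one_ne_zero (by rw [Nat.card_units, Nat.card_eq_fintype_card, hn]; omega)
    haveI := (chev_simple (K := F) (D := chevG2) (by simp) fun _ => ⟨t, t.ne_zero, by simpa using ht⟩).1
    have := (MonoidHom.ker_eq_bot_iff ρ).1 (ρ.normal_ker.eq_bot_or_eq_top.resolve_right (L.MR.ker_ne_top ρ hρ hk)) (e.trans ρ.map_one.symm)
    exact one_ne_zero (x_eq_one (S := grpSys chevG2 F) (r := rt _ 11) (by rw [← p.X_val (rt _ 11), this, map_one]))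
  have h2 : (n + 1) % 3 ≠ 0 → (3 : F) ≠ 0 := fun h e => h (Nat.mod_eq_zero_of_dvd (by
    obtain ⟨m, a, b⟩ := FiniteField.card F (ringChar F)
    rw [← hn, b, (Nat.prime_dvd_prime_iff_eq a Nat.prime_three).1 ((ringChar.spec F 3).1 e)]
    exact dvd_pow_self 3 m.ne_zero))
  rw [hn]
  refine ⟨fun a b => ?_, fun a b => ?_, fun a b => ?_⟩
  · have : Fact (Nat.Prime 3) := ⟨Nat.prime_three⟩
    obtain ⟨w, hw⟩ := exists_prime_orderOf_dvd_card' (G := Fˣ) 3 (by rw [Nat.card_units, Nat.card_eq_fintype_card, hn]; omega)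
    obtain ⟨y, hy⟩ := not_forall.1 (mt (Finite.injective_iff_surjective (f := fun s : Fˣ => s ^ 3)).2 fun e => by
      simpa [e (a₂ := 1) (show w ^ 3 = 1 ^ 3 by rw [← hw, pow_orderOf_eq_one, one_pow])] using hw)
    simpa using (Rg.boundA hn (h1 (by omega)) (h2 (by omega)) (by omega)).2 ⟨y⁻¹, by simp, fun s e => hy ⟨Units.mk0 s (by
      rintro rfl; simp at e), Units.ext (by simpa [eq_comm] using (eq_inv_mul_iff_mul_eq₀ y.ne_zero).1 e)⟩⟩
  · simpa using (Rg.boundA hn (h1 (by omega)) (h2 (by omega)) (by omega)).1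
  obtain ⟨m, hp, hm⟩ := FiniteField.card F (ringChar F)
  have e3 : ringChar F = 3 := ((Nat.prime_dvd_prime_iff_eq Nat.prime_three hp).1 (Nat.prime_three.dvd_of_dvd_pow (hm ▸ hn ▸ Nat.dvd_of_mod_eq_zero a))).symm
  haveI : CharP F 3 := ringChar.of_eq e3
  rw [e3, hn] at hm
  have h8 : 8 ≤ n := by
    by_contra! c
    have : (m : ℕ) < 2 := (Nat.pow_lt_pow_iff_right (a := 3) (by decide)).1 (by omega)
    have := Nat.pow_le_pow_right (n := 3) (by decide) (Nat.le_of_lt_succ this)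
    omega
  have d := Rg.dim_eq (p := p) hn
  rw [Module.finrank_fin_fun] at d
  refine (Rg.boundB hn h8 (h1 (by omega))).elim (by simp) fun c => ari hm.symm h8 ?_ (by simpa using c.2)
  haveI := StSys.finite_of_gen (grpSys_grp chevG2 F)
  have k1 : ∀ r : Root chevG2, IsPos r ∨ r = rt _ 4 → ∀ t, p.S.x r t ∈ Subgroup.normalizer (p.S.US {rt _ 11} : Set (chevG2.group F)) :=
    fun r hr => x_mem_normalizer (by revert r; simp only [Set.mem_singleton_iff]; decide +kernel) fun s e u i j hi hj k => by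
      have a1 := Ex.pair_lin (rt chevG2 11) k
      have a2 := mul_nonneg (zero_le_one.trans hi) ((by decide +kernel : ∀ r : Root chevG2, IsPos r ∨ r = rt _ 4 → 0 ≤ pair (rt _ 11) r) r hr)
      rw [show s = rt _ 11 from e, pair_self] at a1
      exact (by decide +kernel : ∀ u : Root chevG2, 2 ≤ pair (rt _ 11) u → u = rt _ 11) u (by omega)
  have k2 : p.S.PJ (nodeSet _ 1) ≤ Subgroup.normalizer (p.S.US {rt _ 11} : Set (chevG2.group F)) :=
    PJ_le (sup_le (US_le.2 fun r a => k1 r (.inl a)) (H_le_normalizer _)) fun j hj =>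
      n_mem_of (k1 _ (.inl (isPos_sroot j))) (k1 _ (.inr (by revert j; simp only [nodeSet, Set.mem_ofPred_eq]; decide +kernel))) _
  have k3 := Ex.dvd_of_irr ρ ψ (z := p.S.x (rt _ 11)) (fun s t => (p.S.add _ _ _).symm) (p.S.PJ (nodeSet _ 1)) (fun g hg t =>
    (mem_US_singleton.1 ((Subgroup.mem_normalizer_iff.1 (k2 hg) _).1 (x_mem_US (Set.mem_singleton _) t))).imp fun _ e => e)
    fun s t e => x_inj (congrArg p.S.θ e)
  have k4 := (p.S.PJ (nodeSet _ 1)).index_mul_card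
  rw [← Subgroup.card_top (G := chevG2.group F), ← grpSys_grp, ← PJ_univ, card_PJ Set.univ, poin2, mul_left_comm, ← card_PJ] at k4
  rw [Nat.eq_of_mul_eq_mul_right Nat.card_pos k4, Nat.card_eq_fintype_card, hn, Module.finrank_fin_fun,
    show Module.finrank ℂ (Wl.eig _ ψ 0) = p.d [(11, 0)] from congrArg (fun A : Submodule ℂ _ => Module.finrank ℂ A) (Submodule.ext fun v => by
      simp [Wl.mem_eig, Rg.J, Rg.x, ← p.X_val]; rfl)] at k3
  refine (Nat.dvd_add_right k3).1 ⟨(1 + (n + 1) + (n + 1) ^ 2 + (n + 1) ^ 3 + (n + 1) ^ 4 + (n + 1) ^ 5) * (n + 1), ?_⟩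
  rw [c.1] at d
  exact Eq.trans (by ring) (congrArg (· * _) d.symm)

end Cfsg.Agent.S2338
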