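import Cfsg.Statements.S2339
import Cfsg.Agent.H28.Ex7
import Cfsg.Agent.H11.PoinAll
-- import your own Cfsg.Agent.* helpers here

set_option autoImplicit false
open Cfsg

namespace Cfsg.Agent.S2339
open Module
set_option linter.unusedVariables false
set_option linter.style.haveILetI false

open H11 Cfsg.Lie H28.Ex


/-- For the Chevalley group of type E₈ over a finite field with q elements, every irreducible complex representation of degree at least 2 has degree at least q(q¹² + 1)(q¹⁰ + 1)(q⁶ + 1). -/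
theorem result {F : Type*} [Field F] [Fintype F] (k : ℕ) (ρ : Representation ℂ (Cfsg.Lie.chevE8.group F) (Fin k → ℂ)) (hρ : ρ.IsIrreducible) (hk : 2 ≤ k) :
    Fintype.card F * (Fintype.card F ^ 12 + 1) * (Fintype.card F ^ 10 + 1) * (Fintype.card F ^ 6 + 1) ≤ k := by
  have hp := FiniteField.isPrimePow_card F
  obtain ⟨n, hn⟩ : ∃ n, Fintype.card F = n + 1 + 1 := ⟨_, (Nat.sub_add_cancel hp.two_le).symm⟩
  haveI := (chev_simple (K := F) (D := chevE8) (by simp) (by rintro (e | e) <;> exact absurd (congrArg (·.rank) e) (by decide))).1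
  have b := bound1 agreeE8 slE8 ρ hρ hk (rt _ 239) (e := 28) (by decide +kernel) (nd _ 1) hn (dl := [0,0,1,0,1,2,0,1,2,3,0,1,2,3,4,0,1,2,3,4,5,0,1,2,3,4,5,2,3,4,5,6,4,5,6,7,6,7,8,8,9,10,0,1,2,3,4,5,6,3,4,5,6,7,5,6,7,8,7,8,9,9,10,11,6,7,8,9,8,9,10,10,11,12,9,10,11,11,12,13,12,13,14,15,10,11,12,12,13,14,13,14,15,16,14,15,16,17,18,15,16,17,18,19,20,21,16,17,18,19,20,21,22,22,23,24,25,26,27,28])
    (by decide +kernel) (by simp only [agreeE8.wt_eq]; decide +kernel) (J := nodeSet _ 127)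
    (by simp only [nodeSet, Set.mem_ofPred_eq, agreeE8.wt_eq]; decide +kernel) (nodeSet_full (D := chevE8) (l := 8) rfl ▸ poinE8_255 _)
  rw [hn] at hp ⊢
  refine fin hp b (r := 8) (M := (n + 1 + 1) ^ 30 - 1) ?_ ?_ ?_ ⟨_, by rw [mul_assoc, mul_assoc]⟩ ?_
  · zify; rw [← sub_nonneg]; ring_nf; positivity
  · simp only [List.map_cons, List.map_nil, List.sum_cons, List.sum_nil]; ring
  · zify [Nat.one_le_pow 30 _ hp.pos]; ring
  rcases lt_or_ge n 7 with a | a
  · left; interval_cases n <;> decide +kernel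
  obtain ⟨n, rfl⟩ := Nat.exists_eq_add_of_le a
  refine .inr ⟨by omega, (n + 9) ^ 24 + (n + 9) ^ 20 + (n + 9) ^ 18 + (n + 9) ^ 14 + (n + 9) ^ 12 + (n + 9) ^ 8 + (n + 9) ^ 2 + 1, .inl ?_, ?_, ?_⟩
  · zify [Nat.one_le_pow 30 _ hp.pos]; ring
  all_goals zify; rw [← sub_pos]; ring_nf; positivity

end Cfsg.Agent.S2339
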