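import Cfsg.Statements.S2341
import Cfsg.Agent.H28.Ex7
import Cfsg.Agent.S1070
-- import your own Cfsg.Agent.* helpers here

set_option autoImplicit false
open Cfsg

namespace Cfsg.Agent.S2341
open Module
set_option linter.unusedVariables false
set_option linter.style.haveILetI false

open H11 H11.StSys Cfsg.Lie H28.Ex
set_option synthInstance.maxSize 4096


/-- For the twisted group ²E₆(q), realised over the field with q² elements (q a prime power), every irreducible complex representation of degree at least 2 has degree at least q(q⁶ − q³ + 1)(q⁴ + 1). -/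
theorem result {K : Type*} [Field K] [Fintype K] (q : ℕ) (hq : IsPrimePow q) (hK : Fintype.card K = q ^ 2) :
    (∀ (k : ℕ) (ρ : Representation ℂ (Cfsg.Lie.twistedE6 K q) (Fin k → ℂ)), ρ.IsIrreducible → 2 ≤ k → q * (q ^ 6 - q ^ 3 + 1) * (q ^ 4 + 1) ≤ k) := by
  intro k ρ h1 h2
  obtain ⟨θ, F⟩ := exists_frF hq two_ne_zero hK
  obtain ⟨σ, h⟩ := exists_isTw_E6 θ
  have e0 := TE6.eq_fix F h (grpSys_θ_injective _ _) (grpSys_grp _ _)
  let e : twistedE6 K q ≃* fixS σ := (MonoidHom.ofInjective (Subgroup.inclusion_injective _)).trans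
    (.subgroupCongr ((inclusion_range_gen _).trans e0))
  haveI := StSys.finite_of_gen (grpSys_grp chevE6 K)
  haveI : Representation.IsIrreducible (G := fixS (cx2 F h).σ) (ρ.comp e.symm.toMonoidHom) :=
    H05.isIrreducible_comp_of_surjective ρ _ e.symm.surjective
  obtain ⟨n, rfl⟩ : ∃ n, q = n + 1 + 1 := ⟨_, (Nat.sub_add_cancel hq.two_le).symm⟩
  have b := bound agreeE6 (cx2 F h) (R := R6) (fun _ => rfl) (ρ.comp e.symm.toMonoidHom) (((MonoidHom.ker_eq_bot_iff ρ).1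
    (((S1070.result hq hK).1.eq_bot_or_eq_top_of_normal _ ρ.normal_ker).resolve_right (L.MR.ker_ne_top ρ h1 h2))).comp e.symm.injective)
    (rt _ 71) (show r6 _ = _ by decide +kernel) (e := 10) (by decide +kernel) (nd _ 1) (show r6 _ = _ by decide +kernel) F.card_fix
    (dl := [0,2,0,1,3,4,4,5,6,8,9,10]) (by decide +kernel) (by decide +kernel) (J := {j | j ∈ nds _ [0, 2, 3, 4, 5]})
    (by simp only [Set.mem_ofPred_eq]; decide +kernel) (N := ∑ a ∈ Finset.range 24, (n + 1 + 1) ^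
      [0, 1, 2, 4, 6, 5, 7, 6, 8, 9, 10, 10, 11, 11, 12, 13, 14, 15, 16, 15, 17, 19, 20, 21].getD a 0) (by
      have a1 := (TE6.tw F h (grpSys_grp _ _)).card (R := ℕ) (TE6.hq F h)
      have a2 := (TE6.tw F h (grpSys_grp _ _)).card_PJ (R := ℕ) (TE6.hq F h) {j | j ∈ nds _ [0, 2, 3, 4, 5]}
      rw [e0] at a1 a2
      rw [nds_all chevE6 (L := [0, 1, 2, 3, 4, 5]) (by decide), (TE6.simpAct h).poinF_step orbD_E6 (nds _ [0, 1, 2, 3, 4, 5]) (nds _ [0, 2, 3, 4, 5]) 24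
        (fun a j => (([[0, 1, 0, 0, 0, 0], [0, -1, 0, 1, 0, 0], [0, 0, 1, -1, 1, 0], [1, 0, -1, 1, -1, 1], [-1, 0, 0, 1, 0, -1], [1, 1, 0, -1, 0, 1], [-1, 1, 1, -1, 1, -1], [1, -1, 0, 0, 0, 1], [-1, -1, 1, 0, 1, -1], [0, 1, -1, 1, -1, 0], [0, -1, -1, 2, -1, 0], [0, 2, 0, -1, 0, 0], [0, 1, 1, -2, 1, 0], [0, -2, 0, 1, 0, 0], [0, -1, 1, -1, 1, 0], [1, 1, -1, 0, -1, 1], [1, -1, -1, 1, -1, 1], [-1, 1, 0, 0, 0, -1], [-1, -1, 0, 1, 0, -1], [1, 0, 0, -1, 0, 1], [-1, 0, 1, -1, 1, -1], [0, 0, -1, 1, -1, 0], [0, 1, 0, -1, 0, 0], [0, -1, 0, 0, 0, 0]] : List (List ℤ)).getD a []).getD j 0)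
        (fun a => [0, 1, 2, 4, 6, 5, 7, 6, 8, 9, 10, 10, 11, 11, 12, 13, 14, 15, 16, 15, 17, 19, 20, 21].getD a 0) (by decide +kernel),
        mul_left_comm, ← a2] at a1
      exact a1)
  have p1 : (n + 1 + 1) ^ 3 ≤ (n + 1 + 1) ^ 6 := Nat.pow_le_pow_right hq.pos (by decide)
  rw [Module.finrank_fin_fun] at b
  refine fin hq b (r := 2) (M := (n + 1 + 1) ^ 12 - 1) ?_ ?_ ?_ ⟨_, mul_assoc ..⟩ ?_
  · zify [p1]; rw [← sub_nonneg]; ring_nf; positivity
  · simp only [List.map_cons, List.map_nil, List.sum_cons, List.sum_nil]; zify [p1]; ring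
  · simp only [Finset.sum_range_succ, List.getD_cons_succ, List.getD_cons_zero]; zify [p1, Nat.one_le_pow 12 _ hq.pos]; ring
  rcases n with _ | n
  · left; decide +kernel
  refine .inr ⟨by omega, (n + 3) ^ 8 * (n + 1) + (n + 3) ^ 6 * (n + 2) * (n + 4) + (n + 3) ^ 3 * (n + 2) * (n + 4) + (n + 3) ^ 2 * (n + 1) + (n + 2) * (n + 4), .inr ?_, ?_, ?_⟩
  · zify [p1, Nat.one_le_pow 12 _ hq.pos]; ring
  all_goals zify [p1]; rw [← sub_pos]; ring_nf; positivity

end Cfsg.Agent.S2341
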