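import Cfsg.Statements.S2342
import Cfsg.Agent.H11.TwOD
import Cfsg.Agent.L.MinRep
import Cfsg.Agent.S0135
import Cfsg.Agent.S1071
-- import your own Cfsg.Agent.* helpers here

set_option autoImplicit false
open Cfsg

namespace Cfsg.Agent.S2342
open H11 Cfsg.Lie

open L.Wt Module

section
variable {R V F : Type*} [Group R] [AddCommGroup V] [Module ℂ V] [FiniteDimensional ℂ V] [Field F] [Fintype F] (ρ : R →* End ℂ V)

/-- averaging operator -/
noncomputable def av (f : F → R) : End ℂ V := (Fintype.card F : ℂ)⁻¹ • ∑ t, ρ (f t)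

variable {ρ}
omit [FiniteDimensional ℂ V] in
theorem mul_av {f : F → R} (hf : ∀ t u, f (t + u) = f t * f u) (u : F) : ρ (f u) * av ρ f = av ρ f := by
  simp only [av, mul_smul_comm, Finset.mul_sum, ← map_mul, ← hf]
  exact congrArg _ (Equiv.sum_comp (Equiv.addLeft u) fun t => ρ (f t))

omit [FiniteDimensional ℂ V] [Field F] in
theorem av_apply [Nonempty F] {f : F → R} {v : V} (h : ∀ t, ρ (f t) v = v) : av ρ f v = v := by
  simp [av, h, ← Nat.cast_smul_eq_nsmul ℂ, smul_smul]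

theorem core {S : Type*} [Fintype S] {z : F → R} (hz : ∀ t u, z (t + u) = z t * z u) {a : S → F → R}
    (ha : ∀ s, ∃ g, ∀ t, a s t = g * z t * g⁻¹) {Q : Subgroup R} (h1 : ∀ s t, a s t ∈ Q) (h2 : ∀ x ∈ Q, ∀ y ∈ Q, ∃ t, x * y = y * x * z t)
    (h3 : ∀ x ∈ Q, ∀ t, x * z t = z t * x) (h4 : ∀ s u t, u ≠ 0 → IsConj (a s u * z t) (a s u))
    (h5 : ∀ μ : R → ℂ, (∀ x ∈ Q, ∀ y ∈ Q, μ (x * y) = μ x * μ y) → (∀ t, μ (z t) = 1) → ∃ s, ∀ t, μ (a s t) = 1) (h6 : ∀ t, z t ∈ Q) :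
    Fintype.card S * finrank ℂ V + Fintype.card F * finrank ℂ (wt (fun t => ρ (z t)) 1) ≤
      Fintype.card S * ((Fintype.card F + 1) * finrank ℂ (wt (fun t => ρ (z t)) 1)) := by
  classical
  set W := wt (fun t => ρ (z t)) 1
  have hq : (Fintype.card F : ℂ) ≠ 0 := by simp
  have z0 : z 0 = 1 := by simpa using hz 0 0
  have c1 {g g'} (e : IsConj g g') : (ρ g).trace ℂ V = (ρ g').trace ℂ V := by
    obtain ⟨c, rfl⟩ := isConj_iff.1 e
    rw [map_mul, LinearMap.trace_mul_comm, ← map_mul, inv_mul_cancel_left]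
  have a1 (s t u) : a s (t + u) = a s t * a s u := by obtain ⟨g, e⟩ := ha s; simp [e, hz, mul_assoc]
  have w1 (v) : av ρ z v ∈ W := fun t => by rw [← End.mul_apply, mul_av hz]; simp
  have w2 {v} (hv : v ∈ W) : av ρ z v = v := av_apply fun t => by simpa using hv t
  have w3 {x} (hx : x ∈ Q) {v} (hv : v ∈ W) : ρ x v ∈ W := fun t => by
    rw [← End.mul_apply, ← map_mul, ← h3 x hx, map_mul, End.mul_apply, hv t]; simp
  have w4 {x y} (hx : x ∈ Q) (hy : y ∈ Q) {v} (hv : v ∈ W) : ρ x (ρ y v) = ρ y (ρ x v) := by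
    obtain ⟨t, e⟩ := h2 x hx y hy
    rw [← End.mul_apply, ← map_mul, e, map_mul, map_mul, End.mul_apply, hv t]; simp
  have w5 (s) {x} (hx : x ∈ Q) {v} (hv : v ∈ W) : av ρ (a s) (ρ x v) = ρ x (av ρ (a s) v) := by simp [av, w4 (h1 s _) hx hv]
  have w6 (s) {v} (hv : v ∈ W) : av ρ (a s) v ∈ W := by
    simp only [av, LinearMap.smul_apply, LinearMap.sum_apply]; exact W.smul_mem _ (W.sum_mem fun t _ => w3 (h1 s t) hv)
  have t1 : ∑ t, (ρ (z t)).trace ℂ V = Fintype.card F * finrank ℂ W := by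
    rw [← (show LinearMap.IsProj W (av ρ z) from ⟨w1, fun _ => w2⟩).trace]; simp [av, hq]
  have t2 (s) : Fintype.card F * finrank ℂ (LinearMap.range (av ρ (a s) * av ρ z)) + finrank ℂ V = (Fintype.card F + 1) * finrank ℂ W := by
    have e : IsIdempotentElem (av ρ (a s) * av ρ z) := LinearMap.ext fun v => by
      simp only [End.mul_apply]
      rw [w2 (w6 s (w1 v)), av_apply fun t => by rw [← End.mul_apply, mul_av (a1 s)]]
    obtain ⟨g, hg⟩ := ha s
    have e2 (u) : ∑ t, (ρ (a s u * z t)).trace ℂ V = Fintype.card F * ((ρ (z u)).trace ℂ V + if u = 0 then (finrank ℂ W - finrank ℂ V : ℂ) else 0) := by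
      split_ifs with h
      · simp [h, hg, z0, t1]
      · rw [Finset.sum_congr rfl fun t _ => (c1 (h4 s u t h)).trans (c1 (isConj_iff.2 ⟨g, (hg u).symm⟩)).symm]; simp
    refine Nat.cast_injective (R := ℂ) ?_
    push_cast
    rw [← (LinearMap.IsIdempotentElem.isProj_range _ e).trace]
    simp only [av, smul_mul_smul_comm, Finset.sum_mul_sum, ← map_mul, map_smul, map_sum, e2, ← Finset.mul_sum, Finset.sum_add_distrib, t1]
    simp; field_simp; ring
  have t3 : finrank ℂ W ≤ ∑ s, finrank ℂ (LinearMap.range (av ρ (a s) * av ρ z)) := by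
    rw [← finrank_pi_fintype]
    refine LinearMap.finrank_le_finrank_of_injective (f := LinearMap.pi fun s => (av ρ (a s) * av ρ z).rangeRestrict.comp W.subtype)
      (LinearMap.ker_eq_bot.1 (by_contra fun h => ?_))
    obtain ⟨v, e1, e2⟩ := (Submodule.ne_bot_iff _).1 h
    have e3 (s) : av ρ (a s) v = 0 := by simpa [w2 v.2] using congrArg Subtype.val (congrFun e1 s)
    obtain ⟨χ, w, e4, e5, e6⟩ := exists_wt (fun x : Q => ρ x) _ (W ⊓ ⨅ s, LinearMap.ker (av ρ (a s))) rfl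
      ((Submodule.ne_bot_iff _).2 ⟨v, by simp [e3], by simpa using e2⟩) (fun x v hv => by
        simp only [Submodule.mem_inf, Submodule.mem_iInf, LinearMap.mem_ker] at hv ⊢
        exact ⟨w3 x.2 hv.1, fun s => by rw [w5 s x.2 hv.1, hv.2, map_zero]⟩) fun x y v hv => w4 x.2 y.2 hv.1
    simp only [Submodule.mem_inf, Submodule.mem_iInf, LinearMap.mem_ker] at e4
    have e7 {x} (hx : x ∈ Q) : ρ x w = (if h : x ∈ Q then χ ⟨x, h⟩ else 1) • w := by rw [dif_pos hx]; exact e6 ⟨x, hx⟩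
    obtain ⟨s, hs⟩ := h5 (fun x => if h : x ∈ Q then χ ⟨x, h⟩ else 1) (fun x hx y hy => smul_left_injective ℂ e5 (by
      simp only [← e7 (mul_mem hx hy), map_mul, End.mul_apply, e7 hy, map_smul, e7 hx, smul_smul, mul_comm]))
      fun t => smul_left_injective ℂ e5 (by simp only [← e7 (h6 t)]; exact e4.1 t)
    exact e5 ((av_apply fun t => by rw [e7 (h1 s t), hs, one_smul]).symm.trans (e4.2 s))
  calc _ ≤ Fintype.card S * finrank ℂ V + Fintype.card F * ∑ s, finrank ℂ (LinearMap.range (av ρ (a s) * av ρ z)) := by gcongr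
    _ = ∑ s : S, (Fintype.card F + 1) * finrank ℂ W := by
      rw [← Finset.sum_congr rfl fun s _ => t2 s]; simp [Finset.sum_add_distrib, Finset.mul_sum, add_comm]
    _ = _ := by simp

theorem heis {z : F → R} (hz : ∀ t u, z (t + u) = z t * z u) (hH : ∀ c ≠ 0, ∃ h, ∀ t, z (c * t) = h * z t * h⁻¹) (h0 : ρ (z 1) ≠ 1)
    {I J : Type*} [Fintype J] {x : I → R} {y : J → R} {β : I → J → F} (hx : ∀ i t, x i * z t = z t * x i) (hy : ∀ j t, y j * z t = z t * y j)
    (hc : ∀ i k, x i * x k = x k * x i) (hxy : ∀ i j, x i * y j = y j * x i * z (β i j)) (hβ : ∀ j k, j ≠ k → ∃ i, β i j = β i k + 1) :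
    finrank ℂ (wt (fun t => ρ (z t)) 1) + (Fintype.card F - 1) * Fintype.card J ≤ finrank ℂ V := by
  classical
  set f := fun t => ρ (z t)
  have z0 : z 0 = 1 := by simpa using hz 0 0
  have z1 (n : ℕ) : z 1 ^ n = z n := by induction n <;> simp [*, pow_succ]
  obtain ⟨v, hv⟩ : ∃ v, f 1 v ≠ v := by_contra fun e => h0 (LinearMap.ext (by simpa using e))
  obtain ⟨χ, h1, w, -, h2, h3⟩ := exists_wt_ne_one f ⊤ (fun _ _ _ => trivial) (fun t u v _ => by
    simp only [f, ← End.mul_apply, ← map_mul, ← hz, add_comm]) (n := ringChar F) (by simpa using (CharP.char_is_prime F (ringChar F)).ne_zero)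
    (by simp [f, ← map_pow, z1, z0]) trivial hv
  have h4 (t u) : χ (t + u) = χ t * χ u := smul_left_injective ℂ h2 (by
    simp only [← h3 _, f, hz, map_mul, End.mul_apply]; rw [show ρ (z u) w = _ from h3 u, map_smul, show ρ (z t) w = _ from h3 t, smul_smul, mul_comm])
  let ψ : AddChar F ℂ := ⟨χ, smul_left_injective ℂ h2 (by simp [← h3 _, f, z0]), h4⟩
  have hψ : ψ ≠ 1 := fun e => h1 (DFunLike.congr_fun e 1)
  have h5 (g) : Function.Injective (ρ g) := fun a b e => by simpa [← End.mul_apply, ← map_mul] using congrArg (ρ g⁻¹) e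
  have h6 {g} (hg : ∀ t, g * z t = z t * g) (v) (hv : v ∈ wt f χ) : ρ g v ∈ wt f χ := fun t => by
    rw [← End.mul_apply, ← map_mul, ← hg, map_mul, End.mul_apply, hv t, map_smul]
  have h7 := heis_le (fun i => ρ (x i)) (fun j => ρ (y j)) (fun i j => χ (β i j)) (wt f χ) ((Submodule.ne_bot_iff _).2 ⟨w, h3, h2⟩)
    (fun i => h6 (hx i)) (fun j => h6 (hy j)) (fun _ => h5 _) (fun _ => h5 _) (fun a b v _ => by simp only [← End.mul_apply, ← map_mul, hc a])
    (fun i j v hv => by rw [← End.mul_apply, ← map_mul, hxy, map_mul, End.mul_apply, hv _, map_mul]; simp) fun j k e => by_contra fun h => by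
      obtain ⟨i, hi⟩ := hβ j k h
      exact h1 ((mul_eq_left₀ (ψ.val_isUnit (β i k)).ne_zero).1 ((h4 ..).symm.trans (hi ▸ e i)))
  have h8 := sum_finrank_le f ⊤ (Finset.univ.image fun c t => ψ (t * c))
  rw [Finset.sum_image fun c _ d _ e => eq_of_mulShift hψ (congrFun e), ← Finset.add_sum_erase _ _ (Finset.mem_univ 0), finrank_top] at h8
  refine le_trans (add_le_add (le_of_eq ?_) ?_) h8
  · rw [show (fun t => ψ (t * 0)) = 1 by ext; simp, top_inf_eq]
  · rw [← Finset.card_univ, ← Finset.card_erase_of_mem (Finset.mem_univ 0), ← smul_eq_mul]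
    refine Finset.card_nsmul_le_sum _ _ _ fun c hc => h7.trans (top_inf_eq (wt f χ) ▸ ?_)
    obtain ⟨h, e⟩ := hH c (Finset.ne_of_mem_erase hc)
    refine finrank_wt_le (ρ h⁻¹) (h5 _) fun v _ hv => ⟨trivial, fun t => ?_⟩
    rw [← End.mul_apply, ← map_mul, show z t * h⁻¹ = h⁻¹ * z (c * t) by simp [e, mul_assoc], map_mul, End.mul_apply, hv _, map_smul, mul_comm]; rfl

end

section
open Polynomial H11.StSys
variable {K G : Type*} [Field K] [Group G] {q : ℕ} {θ : K ≃+* K} (F : FrF 3 q θ)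

include F in
theorem root {f : K[X]} (h0 : 0 < f.natDegree) (h1 : f.natDegree ≤ q ^ 2 + q + 1) (h : ∀ s, θ (f.eval s) = f.eval s) : ∃ s, f.eval s = 0 := by
  have := F.finite
  have := Fintype.ofFinite K
  obtain ⟨n, rfl⟩ := Nat.exists_eq_add_of_lt F.lt
  by_contra! e
  have h2 : f ^ (1 + n) - 1 = 0 := eq_zero_of_natDegree_lt_card_of_eval_eq_zero _ Function.injective_id (fun s => by
    simpa [sub_eq_zero, F.eq, pow_succ, e s] using h s) ((natDegree_sub_le ..).trans_lt (by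
      rw [natDegree_one, natDegree_pow, max_eq_left (Nat.zero_le _), ← Nat.card_eq_fintype_card, F.card]; nlinarith))
  simpa [sub_eq_zero.1 h2, h0.ne'] using natDegree_pow f (1 + n)

/-- valuation -/
def v8 (l : List K) (i : ℕ) : K := l.getD ([0, 0, 0, 1, 0, 2, 0, 3, 0, 0, 0, 4, 0, 5, 0, 0, 0, 6, 0, 7].getD i 0) 0

theorem ev_X17 (v : ℕ → K) : Pol.ev v (Pol.X 17) = v 17 := Pol.ev_X v (by norm_num)
theorem ev_X19 (v : ℕ → K) : Pol.ev v (Pol.X 19) = v 19 := Pol.ev_X v (by norm_num)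

variable {x : Root chevD4 → K → G} (hx : StRel x)
include hx

open Pol in
theorem ids (a b c d e f g h : K) :
    wordG x [(14, a + e), (19, b + f), (16, c + g), (15, d + h)] = wordG x [(14, a), (19, b), (16, c), (15, d)] * wordG x [(14, e), (19, f), (16, g), (15, h)] ∧
    wordG x [(17, a + e), (20, b + f), (21, c + g), (22, d + h)] = wordG x [(17, a), (20, b), (21, c), (22, d)] * wordG x [(17, e), (20, f), (21, g), (22, h)] ∧
    wordG x [(14, a), (19, b), (16, c), (15, d)] * wordG x [(17, e), (20, f), (21, g), (22, h)] = wordG x [(17, e), (20, f), (21, g), (22, h)] *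
      wordG x [(14, a), (19, b), (16, c), (15, d)] * wordG x [(23, a * h + -(b * e + c * f + d * g))] ∧
    wordG x [(18, a), (13, b), (12, c)] * wordG x [(14, d)] = wordG x [(14, d), (19, -(a * d)), (16, b * d), (15, c * d)] *
      wordG x [(17, b * c * d), (20, -(c * a * d)), (21, -(a * b * d)), (22, -(a * b * c * d))] * wordG x [(23, -(a * b * c * d * d))] *
      wordG x [(18, a), (13, b), (12, c)] := by
  have hp : ((0 : ℕ) : K) = 0 := Nat.cast_zero
  have k := fun w w' => wordG_eq_of_col agreeD4 hx hp (v8 [a, b, c, d, e, f, g, h]) (f := 50) (k := 3) (w := w) (w' := w')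
  simp only [← wordG_append, List.cons_append, List.nil_append]
  refine ⟨?_, ?_, ?_, ?_⟩
  · simpa [ev_add _ hp, ev_X2, ev_X3, ev_X5, ev_X7, ev_X11, ev_X13, ev_X17, ev_X19, v8] using
      k [(14, add 0 (X 2) (X 11)), (19, add 0 (X 3) (X 13)), (16, add 0 (X 5) (X 17)), (15, add 0 (X 7) (X 19))]
        [(14, X 2), (19, X 3), (16, X 5), (15, X 7), (14, X 11), (19, X 13), (16, X 17), (15, X 19)] (by decide +kernel)
  · simpa [ev_add _ hp, ev_X2, ev_X3, ev_X5, ev_X7, ev_X11, ev_X13, ev_X17, ev_X19, v8] using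
      k [(17, add 0 (X 2) (X 11)), (20, add 0 (X 3) (X 13)), (21, add 0 (X 5) (X 17)), (22, add 0 (X 7) (X 19))]
        [(17, X 2), (20, X 3), (21, X 5), (22, X 7), (17, X 11), (20, X 13), (21, X 17), (22, X 19)] (by decide +kernel)
  · simpa [ev_add _ hp, ev_mul _ hp, ev_neg _ hp, ev_X2, ev_X3, ev_X5, ev_X7, ev_X11, ev_X13, ev_X17, ev_X19, v8] using
      k [(14, X 2), (19, X 3), (16, X 5), (15, X 7), (17, X 11), (20, X 13), (21, X 17), (22, X 19)]
        [(17, X 11), (20, X 13), (21, X 17), (22, X 19), (14, X 2), (19, X 3), (16, X 5), (15, X 7), (23, add 0 (mul 0 (X 2) (X 19))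
          (neg 0 (add 0 (add 0 (mul 0 (X 3) (X 11)) (mul 0 (X 5) (X 13))) (mul 0 (X 7) (X 17)))))] (by decide +kernel)
  · simpa [ev_mul _ hp, ev_neg _ hp, ev_X2, ev_X3, ev_X5, ev_X7, v8] using
      k [(18, X 2), (13, X 3), (12, X 5), (14, X 7)] [(14, X 7), (19, neg 0 (mul 0 (X 2) (X 7))), (16, mul 0 (X 3) (X 7)), (15, mul 0 (X 5) (X 7)),
        (17, mul 0 (mul 0 (X 3) (X 5)) (X 7)), (20, neg 0 (mul 0 (mul 0 (X 5) (X 2)) (X 7))), (21, neg 0 (mul 0 (mul 0 (X 2) (X 3)) (X 7))),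
        (22, neg 0 (mul 0 (mul 0 (mul 0 (X 2) (X 3)) (X 5)) (X 7))), (23, neg 0 (mul 0 (mul 0 (mul 0 (mul 0 (X 2) (X 3)) (X 5)) (X 7)) (X 7))),
        (18, X 2), (13, X 3), (12, X 5)] (by decide +kernel)

end

section
open Polynomial H11.StSys H11.Lx
variable {K G : Type*} [Field K] [Group G] {q : ℕ} {θ : K ≃+* K} (F : FrF 3 q θ) {S : StSys chevD4 K G} {σ : MulAut G} (h : IsTw S σ grD4a θ)
include F h

theorem mem3 {a b c : ℕ} {ε δ γ : ℤ} (ha : (Sw chevD4 a b ∧ Sw chevD4 a c ∧ c < chevD4.nroots) ∧ grD4a a = [(b, ε, 1)] ∧ grD4a b = [(c, δ, 1)] ∧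
    grD4a c = [(a, γ, 1)] ∧ γ * (δ * ε) = 1) (t : K) : wordG S.x [(a, t), (b, ε * θ t), (c, δ * ε * θ (θ t))] ∈ fixS σ := by
  obtain ⟨⟨a1, a2, a3⟩, a4, a5, a6, a7⟩ := ha
  have e : (γ : K) * (δ * ε * θ (θ (θ t))) = t := by rw [show θ (θ (θ t)) = t from F.iter t, ← mul_assoc]; norm_cast; simp [a7]
  rw [mem_fixS, h.wordG rfl (by simp [a1.1, a1.2.1, a3])]
  simp [a4, a5, a6, appW, e, S.rel.swap a2, ← mul_assoc, S.rel.swap a1]

theorem bound {V : Type*} [AddCommGroup V] [Module ℂ V] [FiniteDimensional ℂ V] (ρ : fixS σ →* End ℂ V) (hρ : Function.Injective ρ) :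
    q ^ 5 + q ≤ finrank ℂ V + q ^ 3 + 1 := by
  classical
  have := F.finite
  have := Fintype.ofFinite K
  have hq : Fintype.card (Fx θ) = q := Nat.card_eq_fintype_card.symm.trans F.card_fix
  have hK : Fintype.card K = q ^ 3 := Nat.card_eq_fintype_card.symm.trans F.card
  have θ3 (t) : θ (θ (θ t)) = t := F.iter t
  have θ1 (t : Fx θ) : θ t = t := t.2
  have m1 (a : ℕ) (ha : a < chevD4.nroots ∧ grD4a a = [(a, 1, 1)]) (t : Fx θ) : wordG S.x [(a, (t : K))] ∈ fixS σ := by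
    simpa using h.xNat_mem ha (θ1 t)
  have mn (r : Root chevD4) (h1 : grD4a r = [(r.1, 1, 1)] ∧ grD4a r.rev = [(r.rev.1, 1, 1)]) (c : Fx θ) : S.n r c ∈ fixS σ := by
    have a (r : Root chevD4) (e : grD4a r = [(r.1, 1, 1)]) (t : Fx θ) : S.x r t ∈ fixS σ := by simpa using m1 r ⟨r.2, e⟩ t
    exact mul_mem (mul_mem (a _ h1.1 c) (a _ h1.2 (-c⁻¹))) (a _ h1.1 c)
  have x14 : xNat S.x 14 = S.x (rt _ 14) := funext (xNat_val S.x (rt _ 14))
  have x22 : xNat S.x 22 = S.x (rt _ 22) := funext (xNat_val S.x (rt _ 22))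
  have x23 : xNat S.x 23 = S.x (rt _ 23) := funext (xNat_val S.x (rt _ 23))
  let z (t : Fx θ) : fixS σ := ⟨_, m1 23 (by decide +kernel) t⟩
  let X (i : Fx θ × K) : fixS σ := ⟨wordG S.x [(14, i.1), (19, i.2), (16, -θ i.2), (15, -θ (θ i.2))], by
    simpa using mul_mem (m1 14 (by decide +kernel) i.1) (mem3 F h (a := 19) (b := 16) (c := 15) (ε := -1) (δ := 1) (γ := -1) (by decide +kernel) i.2)⟩
  let Y (i : K × Fx θ) : fixS σ := ⟨wordG S.x [(17, i.1), (20, -θ i.1), (21, -θ (θ i.1)), (22, i.2)], by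
    simpa [mul_assoc] using mul_mem (mem3 F h (a := 17) (b := 20) (c := 21) (ε := -1) (δ := 1) (γ := -1) (by decide +kernel) i.1) (m1 22 (by decide +kernel) i.2)⟩
  let l (s : K) : fixS σ := ⟨wordG S.x [(18, s), (13, θ s), (12, θ (θ s))], by
    simpa using mem3 F h (a := 18) (b := 13) (c := 12) (ε := 1) (δ := 1) (γ := 1) (by decide +kernel) s⟩
  let tr : K →+ Fx θ := .mk' (fun s => ⟨s + θ s + θ (θ s), show θ _ = _ by simp [θ3]; ring⟩) fun a b => Subtype.ext (by simp; ring)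
  let nm (s : K) : Fx θ := ⟨s * θ s * θ (θ s), show θ _ = _ by simp [θ3]; ring⟩
  have hz (t u) : z (t + u) = z t * z u := Subtype.ext (by simp [z, S.rel.xNat_add])
  have hX (i k) : X (i + k) = X i * X k := Subtype.ext (by simpa [X, add_comm] using (ids S.rel i.1 i.2 (-θ i.2) (-θ (θ i.2)) k.1 k.2 (-θ k.2) (-θ (θ k.2))).1)
  have hY (i k) : Y (i + k) = Y i * Y k := Subtype.ext (by simpa [Y, add_comm] using (ids S.rel i.1 (-θ i.1) (-θ (θ i.1)) i.2 k.1 (-θ k.1) (-θ (θ k.1)) k.2).2.1)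
  have hXY (i j) : X i * Y j = Y j * X i * z (i.1 * j.2 - tr (i.2 * j.1)) := Subtype.ext (by
    simpa [X, Y, z, tr, sub_eq_add_neg] using (ids S.rel i.1 i.2 (-θ i.2) (-θ (θ i.2)) j.1 (-θ j.1) (-θ (θ j.1)) j.2).2.2.1)
  have hL (s) (t : Fx θ) : l s * X (t, 0) = X (t, -(s * t)) * Y (θ s * θ (θ s) * t, -(nm s * t)) * z (-(nm s * t * t)) * l s := Subtype.ext (by
    simpa [X, Y, z, l, nm, θ1, θ3, S.rel.xNat_zero] using (ids S.rel s (θ s) (θ (θ s)) t 0 0 0 0).2.2.2)
  let ψ : Node chevD4 → ℤ := cor (rt _ 23)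
  let Q := (S.US {r | 0 < fv ψ r}).comap (fixS σ).subtype
  have c0 := fun c g y => comm_mem_lev (S := S) (closed_pos ψ) (fun _ a => a) (c := c) (g := g) (y := y)
  have hzQ (t) : (z t).1 ∈ S.US (lev ψ {r | 0 < fv ψ r} 2) := wordG_mem (L := [23]) rfl (by simp only [mem_lev, Set.mem_ofPred_eq]; decide +kernel)
  have hXQ (i) : X i ∈ Q := wordG_mem (L := [14, 19, 16, 15]) rfl (by simp only [Set.mem_ofPred_eq]; decide +kernel)
  have hYQ (i) : Y i ∈ Q := wordG_mem (L := [17, 20, 21, 22]) rfl (by simp only [Set.mem_ofPred_eq]; decide +kernel)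
  have h3 (x) (hx : x ∈ Q) (t) : x * z t = z t * x := Subtype.ext (by
    have := c0 2 _ _ hx (hzQ t)
    rw [show lev ψ {r | 0 < fv ψ r} (2 + 1) = ∅ from Set.eq_empty_of_forall_notMem (by simp only [mem_lev, Set.mem_ofPred_eq]; decide +kernel),
      US_empty, Subgroup.mem_bot, mul_assoc, mul_assoc, inv_mul_eq_one, eq_inv_mul_iff_mul_eq] at this
    exact this)
  have hl (s t) : l s * z t = z t * l s := Subtype.ext (commute_US (L := [18, 13, 12]) (L' := [23]) (by decide +kernel) _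
    (wordG_mem (L := [18, 13, 12]) rfl fun _ a => a) _ (wordG_mem (L := [23]) rfl fun _ a => a))
  have hn (r : Root chevD4) (h1 : grD4a r = [(r.1, 1, 1)] ∧ grD4a r.rev = [(r.rev.1, 1, 1)]) (s) (h2 : pair r (rt _ 23) = 1 ∧
      H11.wt s = H11.wt (rt chevD4 23) - pair r (rt _ 23) • H11.wt r) : ∃ g : fixS σ, ∀ t : Fx θ, S.x s t = (g * z t * g⁻¹ :) :=
    ⟨⟨_, mn r h1 (eta r (rt _ 23))⟩, fun t => by
      have : (eta r (rt _ 23) : K) ≠ 0 := by rcases eta_sq r (rt _ 23) with e | e <;> simp [e]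
      simpa [z, refl_eq h2.2, h2.1, this, x23] using (n_conj (S := S) r (rt _ 23) this t).symm⟩
  obtain ⟨gA, hA⟩ := hn (rt _ 22) (by decide +kernel) (rt _ 14) (by decide +kernel)
  obtain ⟨gD, hD⟩ := hn (rt _ 14) (by decide +kernel) (rt _ 22) (by decide +kernel)
  have eA (t) : X (t, 0) = gA * z t * gA⁻¹ := Subtype.ext (by rw [← hA]; simp [X, S.rel.xNat_zero, x14])
  have eD (t) : Y (0, t) = gD * z t * gD⁻¹ := Subtype.ext (by rw [← hD]; simp [Y, S.rel.xNat_zero, x22])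
  have hq1 := F.lt
  obtain ⟨s1, hs1⟩ : ∃ s, tr s = 1 := by
    obtain ⟨s, hs⟩ := root F (f := Polynomial.X ^ q ^ 2 + (Polynomial.X ^ q + Polynomial.X - 1)) (by
      rw [natDegree_add_eq_left_of_natDegree_lt] <;> simp only [natDegree_X_pow]; positivity; compute_degree!; constructor <;> nlinarith)
      (by compute_degree!; omega) fun s => by simp [sq, pow_mul, ← F.eq, θ3]; ring
    exact ⟨s, Subtype.ext (by simp [sq, pow_mul, ← F.eq] at hs; simp [tr]; linear_combination hs)⟩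
  have b1 := heis (ρ := ρ) hz (fun c hc => ⟨⟨S.h (rt _ 14) c, mul_mem (mn _ (by decide +kernel) c) (mn _ (by decide +kernel) (-1))⟩, fun t => Subtype.ext (by
      simpa [z, x23, show pair (rt chevD4 14) (rt _ 23) = 1 by decide +kernel] using (h_conj (S := S) (rt _ 14) (rt _ 23) (c := c) (by simpa using hc) t).symm)⟩)
    (fun e => one_ne_zero (x_eq_one (S := S) (r := rt _ 23) (t := 1) (by
      simpa [z, x23] using congrArg (fun g => S.θ g.1) (hρ (e.trans ρ.map_one.symm))))) (fun i => h3 _ (hXQ i)) (fun i => h3 _ (hYQ i))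
    (fun i k => by rw [← hX, add_comm, hX]) hXY fun j k e => by
      by_cases a : j.2 = k.2
      · have a1 : k.1 - j.1 ≠ 0 := fun b => e (Prod.ext (sub_eq_zero.1 b).symm a)
        exact ⟨(0, s1 / (k.1 - j.1)), by
          rw [← hs1, show tr s1 = tr (s1 / (k.1 - j.1) * k.1) - tr (s1 / (k.1 - j.1) * j.1) by rw [← map_sub, ← mul_sub, div_mul_cancel₀ s1 a1]]; simp; ring⟩
      · exact ⟨((j.2 - k.2)⁻¹, 0), by simp [← sub_eq_iff_eq_add', ← mul_sub, sub_ne_zero.2 a]⟩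
  have b2 := core (ρ := ρ) hz (a := fun (s : Option K) t => s.elim (Y (0, t)) fun s => l s * X (t, 0) * (l s)⁻¹)
    (by rintro (_ | s); exacts [⟨gD, eD⟩, ⟨l s * gA, fun t => by simp [eA, mul_assoc]⟩]) (Q := Q)
    (by
      rintro (_ | s) t
      exacts [hYQ _, by simpa [hL] using mul_mem (mul_mem (hXQ _) (hYQ _)) (show z _ ∈ Q from US_mono (fun _ a => a.1) (hzQ _))])
    (fun x hx y hy => by
      have := c0 1 _ _ hy (US_mono (fun r a => mem_lev.2 ⟨a, a⟩) hx)
      rw [show lev ψ {r | 0 < fv ψ r} (1 + 1) = {rt _ 23} from Set.ext (by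
        simp only [mem_lev, Set.mem_ofPred_eq, Set.mem_singleton_iff]; decide +kernel), mem_US_singleton] at this
      obtain ⟨t, e⟩ := this
      have e2 := mem_fixS.1 (x⁻¹ * y⁻¹ * x * y).2
      have e3 := h.act1 (a := 23) (by decide +kernel) t
      simp only [Subgroup.coe_mul, Subgroup.coe_inv] at e2
      simp only [wordG_cons, wordG_nil, mul_one, x23] at e3
      erw [e, e3] at e2
      refine ⟨⟨t, x_inj (congrArg S.θ e2)⟩, Subtype.ext ?_⟩
      simp only [z, Subgroup.coe_mul, wordG_cons, wordG_nil, mul_one, x23, ← e]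
      simp [mul_assoc]) h3
    (by
      rintro (_ | s) u t hu
      · refine (isConj_iff.2 ⟨X (t / u, 0), ?_⟩).symm
        simp [hXY, hu, mul_assoc, h3 _ (hXQ _)]
      · refine (isConj_iff.2 ⟨l s * (Y (0, t / u))⁻¹ * (l s)⁻¹, ?_⟩).symm
        have := hXY (u, 0) (0, t / u)
        simp only [mul_div_cancel₀ _ hu, zero_mul, map_zero, sub_zero] at this
        have e2 : (l s)⁻¹ * z t = z t * (l s)⁻¹ := (Commute.inv_left (hl s t) :)
        have e3 : X (u, 0) * z t = (Y (0, t / u))⁻¹ * (X (u, 0) * Y (0, t / u)) := by rw [this]; simp [mul_assoc]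
        rw [Option.elim_some, mul_assoc _ _ (z t), e2, ← mul_assoc _ (z t), mul_assoc _ _ (z t), e3]
        simp only [mul_inv_rev, inv_inv, mul_assoc, inv_mul_cancel_left])
    (fun μ m1 m2 => by
      obtain ⟨ψ₀, hψ⟩ := exists_addChar (K := ℂ) (F := Fx θ) (Nat.cast_ne_zero.2 (CharP.ringChar_ne_zero_of_finite _))
      have hψ' : ψ₀.compAddMonoidHom tr ≠ 1 := fun e => hψ (AddChar.ext _ _ fun t => by
        simpa [show tr (t * s1) = t from Subtype.ext (by simp [tr, θ1, ← mul_add, show s1 + θ s1 + θ (θ s1) = 1 from congrArg Subtype.val hs1])]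
          using DFunLike.congr_fun e (t * s1))
      have m3 : μ 1 = 1 := by simpa [show z 0 = 1 by simpa using hz 0 0] using m2 0
      let χ : AddChar _ ℂ := ⟨fun i => μ (X i), by simpa [show X 0 = 1 by simpa using hX 0 0], fun a b => by rw [hX, m1 _ (hXQ _) _ (hXQ _)]⟩
      let χ' : AddChar _ ℂ := ⟨fun i => μ (Y i), by simpa [show Y 0 = 1 by simpa using hY 0 0], fun a b => by rw [hY, m1 _ (hYQ _) _ (hYQ _)]⟩
      obtain ⟨α, hα⟩ := exists_eq_mulShift hψ (χ.compAddMonoidHom (.inl ..))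
      obtain ⟨β, hβ⟩ := exists_eq_mulShift hψ' (χ.compAddMonoidHom (.inr ..))
      obtain ⟨γ, hγ⟩ := exists_eq_mulShift hψ' (χ'.compAddMonoidHom (.inl ..))
      obtain ⟨δ, hδ⟩ := exists_eq_mulShift hψ (χ'.compAddMonoidHom (.inr ..))
      by_cases d0 : δ = 0
      · exact ⟨none, fun t => (hδ t).trans (by simp [d0])⟩
      have d1 : (C (δ : K) * Polynomial.X ^ (q ^ 2 + q + 1)).natDegree = q ^ 2 + q + 1 := natDegree_C_mul_X_pow _ _ (by simpa using d0)
      have d2 : (C (α : K) - (C β * Polynomial.X + C (θ β) * Polynomial.X ^ q + C (θ (θ β)) * Polynomial.X ^ q ^ 2) + (C γ * Polynomial.X ^ (q ^ 2 + q) +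
          C (θ γ) * Polynomial.X ^ (q ^ 2 + 1) + C (θ (θ γ)) * Polynomial.X ^ (q + 1)) - C (δ : K) * Polynomial.X ^ (q ^ 2 + q + 1)).natDegree = q ^ 2 + q + 1 := by
        rw [natDegree_sub_eq_right_of_natDegree_lt, d1]; rw [d1, Nat.lt_succ_iff]; compute_degree!; exact ⟨hq1.le, by positivity⟩
      obtain ⟨s, hs⟩ := root F (d2.symm ▸ Nat.succ_pos _) d2.le fun s => by simp [sq, pow_mul, pow_add, ← F.eq, θ3, θ1]; ring
      refine ⟨some s, fun t => ?_⟩
      simp only [Option.elim, hL, mul_inv_cancel_right]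
      rw [m1 _ (mul_mem (hXQ _) (hYQ _)) _ (US_mono (fun _ a => a.1) (hzQ _)), m2, m1 _ (hXQ _) _ (hYQ _), mul_one]
      change χ _ * χ' _ = 1
      rw [← Prod.fst_add_snd (t, _), ← Prod.fst_add_snd (_, -(nm s * t)), χ.map_add_eq_mul, χ'.map_add_eq_mul]
      erw [hα, hβ, hγ, hδ]
      simp only [AddChar.compAddMonoidHom_apply, ← AddChar.map_add_eq_mul]
      convert ψ₀.map_zero_eq_one
      simp [sq, pow_mul, pow_add, ← F.eq] at hs
      exact Subtype.ext (by simp [tr, nm, θ1, θ3]; linear_combination t * hs))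
    fun t => US_mono (fun _ a => a.1) (hzQ t)
  simp only [Fintype.card_prod, Fintype.card_option, hq, hK] at b1 b2
  obtain ⟨n, rfl⟩ := Nat.exists_eq_add_of_lt hq1
  rw [Nat.add_sub_cancel] at b1
  have b3 : (1 + n + 1) ^ 4 * (((1 + n + 1) ^ 3 + 1) * (1 + n)) ≤ (1 + n + 1) ^ 4 * finrank ℂ (L.Wt.wt (fun t => ρ (z t)) 1) := by nlinarith
  have := Nat.le_of_mul_le_mul_left b3 (by positivity)
  nlinarith

end

/-- For the twisted group ³D₄(q), realised over the field with q³ elements (q a prime power), every irreducible complex representation of degree at least 2 has degree at least q(q⁴ − q² + 1). -/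
theorem result {K : Type*} [Field K] [Fintype K] (q : ℕ) (hq : IsPrimePow q) (hK : Fintype.card K = q ^ 3) :
    (∀ (k : ℕ) (ρ : Representation ℂ (Cfsg.Lie.twistedD4 K q) (Fin k → ℂ)), ρ.IsIrreducible → 2 ≤ k → q * (q ^ 4 - q ^ 2 + 1) ≤ k) := by
  intro k ρ h1 h2
  obtain ⟨θ, F⟩ := exists_frF hq three_ne_zero hK
  obtain ⟨σ, h⟩ := exists_isTw_D4 θ
  let e : twistedD4 K q ≃* fixS σ := (MonoidHom.ofInjective (Subgroup.inclusion_injective _)).trans
    (.subgroupCongr ((inclusion_range_gen _).trans (have := F.finite; TD4.eq_fix F h (grpSys_θ_injective _ _) (grpSys_grp _ _))))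
  have b := bound F h (ρ.comp e.symm.toMonoidHom) (((MonoidHom.ker_eq_bot_iff ρ).1 (((S1071.result hq hK).1.eq_bot_or_eq_top_of_normal _
    ρ.normal_ker).resolve_right (L.MR.ker_ne_top ρ h1 h2))).comp e.symm.injective)
  have := F.finite
  have := StSys.finite_of_gen (grpSys_grp chevD4 K)
  have := Finite.of_equiv _ e.symm.toEquiv
  have d := S0135.result ρ
  rw [Module.finrank_fin_fun] at b d
  rw [Nat.card_congr e.toEquiv, TD4.card F h (grpSys_θ_injective _ _) (grpSys_grp _ _)] at d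
  have hq1 := F.lt
  have p1 (n) : 1 ≤ q ^ n := Nat.one_le_pow _ _ hq.pos
  zify [p1, Nat.pow_le_pow_right hq.pos (show 2 ≤ 4 by decide)] at b d hq1 ⊢
  generalize (q : ℤ) = x at b d hq1
  by_contra! a
  rw [show (k : ℤ) = (x ^ 4 + x ^ 3 + 1) * (x - 1) by linarith] at d
  have d2 : x ^ 4 + x ^ 3 + 1 ∣ 81 := (Int.dvd_iff_dvd_of_dvd_sub ⟨-81 + 81 * x ^ 3 + 81 * x ^ 4 - 81 * x ^ 6 - 162 * x ^ 7 - 81 * x ^ 8 + 81 * x ^ 9 +
    243 * x ^ 10 + 243 * x ^ 11 - 112 * x ^ 12 + 20 * x ^ 13 + 282 * x ^ 14 - 114 * x ^ 15 - 676 * x ^ 16 - 319 * x ^ 17 + 712 * x ^ 18 + 463 * x ^ 19 -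
    541 * x ^ 20 - 427 * x ^ 21 + 361 * x ^ 22 + 112 * x ^ 23 - 456 * x ^ 24 - 312 * x ^ 25 + 295 * x ^ 26 + 361 * x ^ 27, by ring⟩).1
    (((dvd_mul_right ..).trans d).mul_left (-112 + 344 * x + 656 * x ^ 2 + 361 * x ^ 3))
  obtain rfl | a : x = 2 ∨ 3 ≤ x := by omega
  · norm_num at d2
  · have := Int.le_of_dvd (by decide) d2
    have := pow_le_pow_left₀ (by decide) a 4
    have := pow_le_pow_left₀ (by decide) a 3
    omega

end Cfsg.Agent.S2342
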