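import Cfsg.Statements.S2343
import Cfsg.Agent.H11.Ree5
import Cfsg.Agent.L.MinRep
import Cfsg.Agent.S1073
-- import your own Cfsg.Agent.* helpers here

set_option autoImplicit false
open Cfsg

namespace Cfsg.Agent.S2343
open H11 Cfsg.Lie

open L.Wt Module in
theorem bound {K R V : Type*} [Field K] [Fintype K] [Group R] [Finite R] [AddCommGroup V] [Module ℂ V] [FiniteDimensional ℂ V]
    {φ : K ≃+* K} {x : K → K → K → R} {h : Kˣ →* R} {P H B : Subgroup R} {k l q : ℕ} {n a : R} {T A} (X : RX φ x h P H)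
    (G : RG k l q P H B n a T A) (hq : Fintype.card K = q) (ρ : R →* End ℂ V) (hρ : Function.Injective ρ) :
    q * (q - 1) + 1 ≤ finrank ℂ V := by
  classical
  let f (p : K × K) := ρ (x 0 p.1 p.2)
  have hf (p p') : f p * f p' = f (p + p') := by simp [f, ← map_mul, X.mul]
  have hc (p p' v) : f p (f p' v) = f p' (f p v) := by rw [← End.mul_apply, hf, add_comm, ← hf]; rfl
  obtain ⟨y, hy⟩ : ∃ y, f (0, 1) y ≠ y := by
    by_contra! e
    exact one_ne_zero (X.inj ((hρ ((LinearMap.ext e).trans ρ.map_one.symm)).trans X.zero.symm)).2.2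
  obtain ⟨χ, h1, w, -, h2, h3⟩ := exists_wt_ne_one f ⊤ (fun _ _ _ => trivial) (fun p p' v _ => hc p p' v) (n := 3) (by norm_num)
    (by simp [f, ← map_pow, X.cube, X.zero]) trivial hy
  have h4 (p p') : χ (p + p') = χ p * χ p' := smul_left_injective ℂ h2 (by
    simp only [← h3 _, ← hf, End.mul_apply]; rw [h3 p', map_smul, h3, smul_smul, mul_comm])
  have h5 : χ 0 = 1 := smul_left_injective ℂ h2 (by simp [← h3 _, f, X.zero])
  let ψ : AddChar K ℂ := ⟨fun v => χ (0, v), h5, fun u v => by rw [← h4]; simp⟩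
  have hψ : ψ ≠ 1 := fun e => h1 (DFunLike.congr_fun e 1)
  let Φ (c : Kˣ × K) (p : K × K) := χ (c.1 * φ c.1 * p.1, c.1 ^ 2 * φ c.1 * p.2 + c.2 * (c.1 * φ c.1 * p.1))
  have h6 (c : Kˣ) : (c * φ c : K) ≠ 0 := by simp
  have hΦ : Function.Injective Φ := fun ⟨c, t⟩ ⟨d, s⟩ e => by
    have e1 : (c ^ 2 * φ c : K) = d ^ 2 * φ d := eq_of_mulShift hψ fun v => by simpa [Φ, ψ, mul_comm v] using congrFun e (0, v)
    have e2 := congrArg φ e1
    simp only [map_mul, map_pow, X.φφ] at e2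
    obtain rfl : c = d := Units.ext (mul_left_cancel₀ (show (φ c ^ 2 * c ^ 3 : K) ≠ 0 by simp) (by
      linear_combination (c ^ 2 * φ c + d ^ 2 * φ d) * e1 - d * e2))
    refine congrArg _ (eq_of_mulShift hψ fun v => ?_)
    have := congrFun e (v / (c * φ c), 0)
    simp only [Φ, mul_div_cancel₀ _ (h6 c), mul_zero, zero_add] at this
    rw [← Prod.fst_add_snd (v, _), ← Prod.fst_add_snd (v, s * v), h4, h4] at this
    refine (mul_comm t v ▸ mul_comm s v ▸ mul_left_cancel₀ (fun e => ?_) this :)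
    exact one_ne_zero (by rw [← h5, ← add_neg_cancel (v, 0), h4, e, zero_mul] : (1 : ℂ) = 0)
  have h7 (c) : 1 ≤ finrank ℂ ↥(⊤ ⊓ wt f (Φ c)) := one_le_finrank (v := ρ (x c.2 0 0 * h c.1)⁻¹ w) ⟨trivial, fun p => by
    rw [← map_smul, ← h3, ← End.mul_apply, ← End.mul_apply, ← map_mul, ← map_mul]
    congr 2
    rw [eq_inv_mul_iff_mul_eq, ← mul_assoc, conj_mul_conj', X.conj, X.conj_P]; simp⟩
    fun e => h2 (by simpa [← End.mul_apply, ← map_mul] using congrArg (ρ (x c.2 0 0 * h c.1)) e)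
  have h8 : (Finset.univ.image Φ).card = q * (q - 1) := by
    simp [Finset.card_image_of_injective _ hΦ, Fintype.card_units, hq, mul_comm]
  by_cases h9 : wt (fun v => f (0, v)) 1 = ⊥
  · have h10 : ∑ v, f (0, v) = 0 := LinearMap.ext fun y => h9.le fun v => by
      simp only [LinearMap.sum_apply, map_sum, ← End.mul_apply, hf, Pi.one_apply, one_smul]
      exact Equiv.sum_comp (Equiv.addLeft v) (fun u => f (0, u) y) ▸ by simp
    have h11 {g g'} (e : IsConj g g') : (ρ g).trace ℂ V = (ρ g').trace ℂ V := by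
      obtain ⟨c, rfl⟩ := isConj_iff.1 e
      rw [map_mul, LinearMap.trace_mul_comm, ← map_mul, inv_mul_cancel_left]
    have h12 : (ρ (h (-1))).trace ℂ V = 0 := by
      have := congrArg (fun F => (F * ρ (h (-1))).trace ℂ V) h10
      simp only [Finset.sum_mul, map_sum, zero_mul, map_zero, f, ← map_mul] at this
      rw [Finset.sum_congr rfl fun v _ => (h11 (isConj_iff.2 ⟨x 0 0 (-v), show _ * h (-1) * _ = _ by
        rw [mul_assoc, ← mul_inv_cancel_right (_ * _⁻¹) (h (-1))⁻¹, X.inv, inv_inv, X.conj_neg, ← mul_assoc, X.mul]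
        congr 2 <;> simp; linear_combination -v * X.three⟩)).symm] at this
      simpa using this
    have h13 {g} (e : g * g = 1) (e' : g ≠ 1) : (ρ g).trace ℂ V = 0 := (h11 (G.s.inv _ _ (two_iff.2 ⟨e, e'⟩) (two_iff.2 ⟨by
      simp [← map_mul], fun e => X.two_ne (by
        simpa [neg_eq_iff_add_eq_zero, one_add_one_eq_two] using congrArg Units.val (X.h_inj (e.trans h.map_one.symm)))⟩))).trans h12
    obtain ⟨S, hS⟩ := H26.exists_isSyl 2 (⊤ : Subgroup R)
    have := Fintype.ofFinite S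
    obtain ⟨s, t, e1, e2, e3⟩ : ∃ s t : S, s ≠ 1 ∧ t ≠ 1 ∧ s ≠ t := by
      obtain ⟨s, t, u, e1, e2, e3⟩ := Fintype.two_lt_card_iff.1 (show 2 < Fintype.card S by
        rw [← Nat.card_eq_fintype_card, G.card_syl2 hS]; decide)
      exact ⟨s⁻¹ * t, s⁻¹ * u, by simpa [inv_mul_eq_one], by simpa [inv_mul_eq_one], by simpa⟩
    have e4 := G.mul_self hS.pg s.2
    have e5 := G.mul_self hS.pg t.2
    have e6 := G.mul_self hS.pg (mul_mem s.2 t.2)
    have e7 : ρ t * ρ s = ρ s * ρ t := by rw [← map_mul, ← map_mul, G.le_cent hS.pg le_rfl s.2 _ t.2]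
    have e8 : IsIdempotentElem ((4⁻¹ : ℂ) • ((1 + ρ s) * (1 + ρ t))) := by
      have e4 := congrArg ρ e4
      have e5 := congrArg ρ e5
      rw [map_mul, map_one] at e4 e5
      rw [IsIdempotentElem, smul_mul_smul_comm, show (1 + ρ s) * (1 + ρ t) * ((1 + ρ s) * (1 + ρ t)) = (4 : ℂ) • ((1 + ρ s) * (1 + ρ t)) by
        rw [show (4 : ℂ) = 1 + 1 + 1 + 1 by norm_num]; simp only [add_smul, one_smul]
        linear_combination (norm := noncomm_ring) (1 + ρ s) * e7 * (1 + ρ t) + e4 * (1 + ρ t) * (1 + ρ t) + (1 + ρ s) * e5 + (1 + ρ s) * e5, smul_smul]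
      norm_num
    have e9 := (LinearMap.IsIdempotentElem.isProj_range _ e8).trace
    simp only [mul_add, add_mul, one_mul, mul_one, map_smul, map_add, ← map_mul, LinearMap.trace_one, h13 e4 (by simpa), h13 e5 (by simpa),
      h13 e6 fun e => e3 (Subtype.ext (mul_left_cancel (e4.trans e.symm))), add_zero, smul_eq_mul] at e9
    have e10 := (inv_mul_eq_iff_eq_mul₀ (by norm_num)).1 e9
    norm_cast at e10
    have := card_mul_le f ⊤ (Finset.univ.image Φ) (m := 1) fun χ e => by obtain ⟨c, -, rfl⟩ := Finset.mem_image.1 e; exact h7 c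
    rw [h8, finrank_top, G.q0] at this
    obtain ⟨r, hr⟩ := G.odd_q.mul (odd_ro k 0)
    rw [G.q0, mul_left_comm] at *; omega
  · obtain ⟨χ, v, e1, e2, e3⟩ := exists_wt f _ _ rfl h9 (fun p v hv u => by rw [hc, hv u]; simp) fun p p' v _ => hc p p' v
    have := card_mul_le f ⊤ (insert χ (Finset.univ.image Φ)) (m := 1) fun χ e => by
      obtain rfl | e := Finset.mem_insert.1 e
      · exact one_le_finrank ⟨trivial, e3⟩ e2
      · obtain ⟨c, -, rfl⟩ := Finset.mem_image.1 e; exact h7 c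
    rwa [Finset.card_insert_of_notMem fun e => ?_, h8, mul_one, finrank_top] at this
    obtain ⟨c, -, rfl⟩ := Finset.mem_image.1 e
    have := (e3 (0, (c.1 ^ 2 * φ c.1)⁻¹)).symm.trans (e1 _)
    simp only [Φ, mul_inv_cancel₀ (show (c.1 ^ 2 * φ c.1 : K) ≠ 0 by simp), mul_zero, add_zero] at this
    exact h1 (smul_left_injective ℂ e2 this)

/-- For the Ree group ²G₂(q), q = 3^(2m+1) with m ≥ 1 (realised over the field with q elements), every irreducible complex representation of degree at least 2 has degree at least q² − q + 1. -/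
theorem result {K : Type*} [Field K] [Fintype K] (m : ℕ) (hm : 1 ≤ m) (hK : Fintype.card K = 3 ^ (2 * m + 1)) :
    (∀ (k : ℕ) (ρ : Representation ℂ (Cfsg.Lie.twistedG2 K (3 ^ m)) (Fin k → ℂ)), ρ.IsIrreducible → 2 ≤ k → (3 ^ (2 * m + 1)) ^ 2 - 3 ^ (2 * m + 1) + 1 ≤ k) := by
  intro j ρ h1 h2
  obtain ⟨k, n, a, T, A, -, G, -⟩ := Ree.exists_rg hK
  obtain ⟨φ, x, h, -, X⟩ := Ree.exists_rx hK
  have := bound X G hK ρ ((MonoidHom.ker_eq_bot_iff ρ).1 (((S1073.result hm hK).1.eq_bot_or_eq_top_of_normal _ ρ.normal_ker).resolve_right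
    (L.MR.ker_ne_top ρ h1 h2)))
  rwa [Nat.mul_sub_one, ← sq, Module.finrank_fin_fun] at this

end Cfsg.Agent.S2343
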