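import Cfsg.Statements.S2344
import Cfsg.Agent.H28.Om8
-- import your own Cfsg.Agent.* helpers here

set_option autoImplicit false
open Cfsg

namespace Cfsg.Agent.S2344
open Module
set_option linter.unusedVariables false
set_option linter.style.haveILetI false


/-- For a finite field F of odd order q > 3 and n ≥ 3, every irreducible complex representation of degree at least 2 of Ω_{2n+1}(F) (the commutator subgroup of the isometry group of the quadratic form x₀² + x₁y₁ + ⋯ + x_ny_n) has degree at least (q^{2n} − 1)/(q² − 1). -/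
theorem result {F : Type*} [Field F] [Fintype F] (n : ℕ) (hn : 3 ≤ n) (hodd : Odd (Fintype.card F)) (h3 : 3 < Fintype.card F) :
    (∀ (k : ℕ) (ρ : Representation ℂ (Cfsg.Omega F (Cfsg.quadFormOdd n F)) (Fin k → ℂ)), ρ.IsIrreducible → 2 ≤ k → (Fintype.card F ^ (2 * n) - 1) / (Fintype.card F ^ 2 - 1) ≤ k) := by
  intro k ρ h hk
  obtain ⟨t, rfl⟩ : ∃ t, n = t + 3 := ⟨n - 3, by omega⟩
  haveI := H10.qOdd_nondeg (m := t + 3) (H10.two_ne_zero_of_odd_card hodd)
  haveI := Fact.mk (H10.Form.isQuad_ofQuad (H10.qOdd (t + 3) F))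
  have hN : finrank F (Unit ⊕ (Fin (t + 3) ⊕ Fin (t + 3)) → F) = 2 * (t + 3) + 1 := by simp; omega
  obtain ⟨σ, h1, h2⟩ := H28.Om.transfer (H10.commutatorEquiv (H10.isometryEquiv (H10.qOdd (t + 3) F))) (by omega) ρ h hk
  exact Nat.div_le_of_le_mul (by simpa using H28.Om.bound_odd h2 hN h3)

end Cfsg.Agent.S2344
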