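import Cfsg.Statements.S2345
import Cfsg.Agent.H28.Om8
-- import your own Cfsg.Agent.* helpers here

set_option autoImplicit false
open Cfsg

namespace Cfsg.Agent.S2345
open Module
set_option linter.unusedVariables false
set_option linter.style.haveILetI false


/-- For a finite field F with q > 3 elements and n ≥ 4, every irreducible complex representation of degree at least 2 of Ω⁺_{2n}(F) (the commutator subgroup of the isometry group of the hyperbolic quadratic form x₁y₁ + ⋯ + x_ny_n) has degree at least (q^n − 1)(q^{n−1} + q)/(q² − 1). -/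
theorem result {F : Type*} [Field F] [Fintype F] (n : ℕ) (hn : 4 ≤ n) (h3 : 3 < Fintype.card F) :
    (∀ (k : ℕ) (ρ : Representation ℂ (Cfsg.Omega F (Cfsg.quadFormPlus n F)) (Fin k → ℂ)), ρ.IsIrreducible → 2 ≤ k → (Fintype.card F ^ n - 1) * (Fintype.card F ^ (n - 1) + Fintype.card F) / (Fintype.card F ^ 2 - 1) ≤ k) := by
  intro k ρ h hk
  obtain ⟨t, rfl⟩ : ∃ t, n = t + 3 + 1 := ⟨n - 4, by omega⟩
  haveI := Fact.mk (H10.Form.isQuad_ofQuad (H10.qPlus (t + 3 + 1) F))
  have hN : finrank F (Fin (t + 3 + 1) ⊕ Fin (t + 3 + 1) → F) = 2 * (t + 3) + 2 := by simp; omega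
  obtain ⟨σ, h1, h2⟩ := H28.Om.transfer (H10.commutatorEquiv (H10.isometryEquiv (H10.qPlus (t + 3 + 1) F))) (by omega) ρ h hk
  have q0 := Fintype.card_pos (α := F)
  have := H28.Om.bound_even h2 hN (ε := 1) (.inl ⟨rfl, h3⟩) (by
    rw [(H10.Form.isQuad_ofQuad _).cnt_plus hN H10.qPlus_hasTS, Nat.card_eq_fintype_card]
    zify [Nat.one_le_pow _ _ q0]; ring)
  refine Nat.div_le_of_le_mul ?_
  zify [Nat.one_le_pow _ _ q0]
  rw [Nat.add_sub_cancel]
  convert this using 1
  · ring
  · simp

end Cfsg.Agent.S2345
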