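import Cfsg.Statements.S2346
import Cfsg.Agent.H28.Om8
-- import your own Cfsg.Agent.* helpers here

set_option autoImplicit false
open Cfsg

namespace Cfsg.Agent.S2346
open Module
set_option linter.unusedVariables false
set_option linter.style.haveILetI false


/-- For a finite field F with q elements, n ≥ 4, and a, b ∈ F with z₁² + a z₁z₂ + b z₂² anisotropic, every irreducible complex representation of degree at least 2 of Ω⁻_{2n}(F) (the commutator subgroup of the isometry group of x₁y₁ + ⋯ + x_{n−1}y_{n−1} + z₁² + a z₁z₂ + b z₂²) has degree at least (q^n + 1)(q^{n−1} − q)/(q² − 1). -/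
theorem result {F : Type*} [Field F] [Fintype F] (n : ℕ) (hn : 4 ≤ n) (a b : F) (hab : ∀ z₁ z₂ : F, z₁ ^ 2 + a * z₁ * z₂ + b * z₂ ^ 2 = 0 → z₁ = 0 ∧ z₂ = 0) :
    (∀ (k : ℕ) (ρ : Representation ℂ (Cfsg.Omega F (Cfsg.quadFormMinus (n - 1) F a b)) (Fin k → ℂ)), ρ.IsIrreducible → 2 ≤ k → (Fintype.card F ^ n + 1) * (Fintype.card F ^ (n - 1) - Fintype.card F) / (Fintype.card F ^ 2 - 1) ≤ k) := by
  intro k ρ h hk
  obtain ⟨t, rfl⟩ : ∃ t, n = t + 3 + 1 := ⟨n - 4, by omega⟩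
  have hD := H10.disc_ne_zero_of_aniso hab
  haveI := H10.qMinus_nondeg (m := t + 3) hD
  haveI := Fact.mk (H10.Form.isQuad_ofQuad (H10.qMinus (t + 3) F a b))
  have hN : finrank F ((Fin (t + 3) ⊕ Fin (t + 3)) ⊕ Fin 2 → F) = 2 * (t + 3) + 2 := by simp; omega
  obtain ⟨σ, h1, h2⟩ := H28.Om.transfer (H10.commutatorEquiv (H10.isometryEquiv (H10.qMinus (t + 3) F a b))) (by omega) ρ h hk
  have q0 := Fintype.card_pos (α := F)
  have := H28.Om.bound_even h2 hN (ε := -1) (.inr ⟨rfl, H10.qMinus_not_hasTS hD hab⟩) (by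
    rw [(H10.Form.isQuad_ofQuad _).cnt_minus hN (H10.qMinus_not_hasTS hD hab), Nat.card_eq_fintype_card]
    zify [Nat.one_le_pow _ _ q0]; ring)
  refine Nat.div_le_of_le_mul ?_
  rw [Nat.add_sub_cancel]
  zify [Nat.one_le_pow _ _ q0, Nat.le_self_pow (show t + 3 ≠ 0 by omega)]
  convert this using 1
  · ring
  · simp

end Cfsg.Agent.S2346
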