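import Cfsg.Statements.S2347
import Cfsg.Agent.H28.Wl3
-- import your own Cfsg.Agent.* helpers here

set_option autoImplicit false
open Cfsg

namespace Cfsg.Agent.S2347
open Module
set_option linter.unusedVariables false
set_option linter.style.haveILetI false


/-- Smallest degree of a non-linear irreducible complex representation of the symplectic group Sp_{2n} over a finite field of odd order q, n ≥ 2: every irreducible complex representation of degree at least 2 has degree at least (q^n − 1)/2, and there is an irreducible complex representation of exactly that degree (a Weil representation). -/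
theorem result {F : Type*} [Field F] [Fintype F] [DecidableEq F] (n : ℕ) (hn : 2 ≤ n) (hodd : Odd (Fintype.card F)) :
    (∀ (k : ℕ) (ρ : Representation ℂ (Matrix.symplecticGroup (Fin n) F) (Fin k → ℂ)), ρ.IsIrreducible → 2 ≤ k → (Fintype.card F ^ n - 1) / 2 ≤ k) ∧
    (∃ ρ : Representation ℂ (Matrix.symplecticGroup (Fin n) F) (Fin ((Fintype.card F ^ n - 1) / 2) → ℂ), ρ.IsIrreducible) := by
  have h2 := H28.Wl.two_ne hodd
  refine ⟨fun k ρ h hk => ?_, ?_⟩
  · have := L.MR.sp_bound_odd (K := ℂ) (by simpa using (CharP.char_is_prime F (ringChar F)).ne_zero) h2 hn ρ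
      (L.MR.sp_ker_le hn (fun e => by rw [show Fintype.card F = 2 from (Prod.ext_iff.1 e).2] at hodd; exact absurd hodd (by decide)) ρ h hk)
    exact Nat.div_le_of_le_mul (by simpa using this)
  obtain ⟨χ, h1, -⟩ := H28.Wl.exists_chars hn h2
  obtain ⟨h3, h4⟩ := h1 true (-1) (by simp)
  obtain ⟨ρ, hρ, -⟩ := H05.Cfsg.IsIrrCharacter.exists_rep h3
  have : 2 * charDegree (χ true (-1)) + 1 = Fintype.card F ^ n := Nat.cast_injective (R := ℂ) (by
    push_cast; rw [H05.Cfsg.IsIrrCharacter.charDegree_eq h3, h4]; ring)
  rw [show (Fintype.card F ^ n - 1) / 2 = charDegree (χ true (-1)) by omega]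
  exact ⟨ρ, hρ⟩

end Cfsg.Agent.S2347
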