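import Cfsg.Statements.S2353
import Mathlib
-- import your own Cfsg.Agent.* helpers here

set_option autoImplicit false
open Cfsg

namespace Cfsg.Agent.S2353

open Polynomial Matrix MatrixGroups

/-- free generators -/
def A {R : Type*} [CommRing R] (t : R) (i : ℕ) : SL(2, R) :=
  ⟨!![1 + t ^ (i + 1) * t ^ (i + 1), t ^ (i + 1); t ^ (i + 1), 1], by simp [det_fin_two]⟩

theorem A_val {R : Type*} [CommRing R] (t : R) (i : ℕ) :
    (A t i).1 = !![1 + t ^ (i + 1) * t ^ (i + 1), t ^ (i + 1); t ^ (i + 1), 1] := rfl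

theorem A_inv {R : Type*} [CommRing R] (t : R) (i : ℕ) :
    (A t i)⁻¹.1 = !![1, -t ^ (i + 1); -t ^ (i + 1), 1 + t ^ (i + 1) * t ^ (i + 1)] := by
  rw [Matrix.SpecialLinearGroup.coe_inv, A_val, adjugate_fin_two_of]

theorem map_lift {R S : Type*} [CommRing R] [CommRing S] (φ : R →+* S) (t : R) (w : FreeGroup ℕ) :
    SpecialLinearGroup.map φ (FreeGroup.lift (A t) w) = FreeGroup.lift (A (φ t)) w :=
  FreeGroup.lift_unique ((SpecialLinearGroup.map φ).comp (FreeGroup.lift (A t))) fun i => by
    ext a b; fin_cases a <;> fin_cases b <;> simp [A_val]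

theorem K {F : Type*} [Field F] {f h c : F[X]} (h1 : h.degree ≤ f.degree) (h2 : f ≠ 0) (h3 : 0 < c.degree) :
    f.degree < (h + c * f).degree := by
  have : f.degree < (c * f).degree := by
    rw [mul_comm]; exact degree_lt_degree_mul_X h2 |>.trans_le (by
      rw [degree_mul, degree_mul, degree_X]; exact add_le_add_right (Nat.WithBot.one_le_iff_zero_lt.2 h3) _)
  rwa [degree_add_eq_right_of_degree_lt (h1.trans_lt this)]

theorem pp {F : Type*} [Field F] (L : List (ℕ × Bool)) (hL : FreeGroup.IsReduced L) (v : Fin 2 → F[X])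
    (hv : v = (FreeGroup.lift (A (X : F[X])) (FreeGroup.mk L)).1 *ᵥ ![1, 1]) :
    (L = [] ∧ v = ![1, 1]) ∨ ∃ x ∈ L.head?, if x.2 then (v 0 + -X ^ (x.1 + 1) * v 1).degree < (v 1).degree
      else (v 1 + X ^ (x.1 + 1) * v 0).degree < (v 0).degree := by
  induction L generalizing v with
  | nil => exact Or.inl ⟨rfl, by simp [hv]⟩
  | cons x L ih =>
    have h0 : ∀ i : ℕ, 0 < (X ^ (i + 1) : F[X]).degree := fun i => by rw [degree_X_pow]; exact_mod_cast i.succ_pos
    have h1 : ∀ i j : ℕ, i ≠ j → 0 < (X ^ (i + 1) - X ^ (j + 1) : F[X]).degree := fun i j h => by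
      rcases lt_or_gt_of_ne h with h | h
      · rw [degree_sub_eq_right_of_degree_lt (by simpa using by exact_mod_cast Nat.succ_lt_succ h)]; exact h0 _
      · rw [degree_sub_eq_left_of_degree_lt (by simpa using by exact_mod_cast Nat.succ_lt_succ h)]; exact h0 _
    have h2 := ih (List.IsChain.tail hL) _ rfl
    refine Or.inr ⟨x, rfl, ?_⟩
    rw [FreeGroup.lift_mk, List.map_cons, List.prod_cons, ← FreeGroup.lift_mk] at hv
    replace hv := hv.trans (mulVec_mulVec _ _ _).symm
    generalize (FreeGroup.lift (A (X : F[X])) (FreeGroup.mk L)).1 *ᵥ ![1, 1] = u at *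
    obtain ⟨i, b⟩ := x
    have h3 : ∀ y ∈ L.head?, i = y.1 → b = y.2 := fun y hy => hL.rel_head? hy
    cases b
    · replace hv := hv.trans (congrArg (· *ᵥ u) (A_inv X i))
      have e0 : v 0 = u 0 + -X ^ (i + 1) * u 1 := by simp [hv, mulVec, dotProduct]
      have e1 : v 1 + X ^ (i + 1) * v 0 = u 1 := by simp [hv, mulVec, dotProduct]; ring
      rw [if_neg (by simp), e1, e0]
      rcases h2 with ⟨-, rfl⟩ | ⟨⟨j, c⟩, hy, h⟩
      · exact K (by simp) (by simp) (by simpa using h0 i)
      cases c
      · have := K (c := -X ^ (j + 1)) h.le (ne_zero_of_degree_gt h) (by simpa using h0 j)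
        simp only [neg_mul, add_neg_cancel_right] at this
        exact K this.le (ne_zero_of_degree_gt this) (by simpa using h0 i)
      · have := K h.le (ne_zero_of_degree_gt h) (h1 j i fun e => by simpa using h3 _ hy e.symm)
        convert this using 2; ring
    · replace hv := hv.trans (congrArg (· *ᵥ u) (A_val X i))
      have e1 : v 1 = u 1 + X ^ (i + 1) * u 0 := by simp [hv, mulVec, dotProduct]; ring
      have e0 : v 0 + -X ^ (i + 1) * v 1 = u 0 := by simp [hv, mulVec, dotProduct]; ring
      rw [if_pos rfl, e0, e1]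
      rcases h2 with ⟨-, rfl⟩ | ⟨⟨j, c⟩, hy, h⟩
      · exact K (by simp) (by simp) (h0 i)
      cases c
      · have := K h.le (ne_zero_of_degree_gt h) (h1 i j fun e => by simpa using h3 _ hy e)
        convert this using 2; ring
      · have := K h.le (ne_zero_of_degree_gt h) (h0 j)
        simp only [neg_mul, neg_add_cancel_right] at this
        exact K this.le (ne_zero_of_degree_gt this) (h0 i)

/-- A non-trivial law holds in PSL_2 over only finitely many finite fields: for every non-trivial element w of the free group on countably many generators there is N such that over every finite field with at least N elements some substitution of elements of PSL_2 into w is not the identity. -/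
theorem result (w : FreeGroup ℕ) (hw : w ≠ 1) :
    ∃ N : ℕ, ∀ (F : Type*) [Field F] [Fintype F], N ≤ Fintype.card F →
      ∃ f : ℕ → Matrix.ProjectiveSpecialLinearGroup (Fin 2) F, FreeGroup.lift f w ≠ 1 := by
  let P : ∀ {R : Type _} [CommRing R], SL(2, R) → R := fun g => g.1 0 0 + g.1 0 1 - (g.1 1 0 + g.1 1 1)
  refine ⟨(P (FreeGroup.lift (A (X : ℤ[X])) w)).natDegree + 1, fun F _ _ hF => ?_⟩
  by_contra! h
  have h1 := pp (F := F) _ (FreeGroup.isReduced_toWord (x := w)) _ rfl
  rw [w.mk_toWord] at h1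
  set W := FreeGroup.lift (A (X : F[X])) w with hW
  have h2 : W.1 0 0 + W.1 0 1 - (W.1 1 0 + W.1 1 1) = (P (FreeGroup.lift (A (X : ℤ[X])) w)).map (Int.castRingHom F) := by
    have := map_lift (mapRingHom (Int.castRingHom F)) X w
    simp only [coe_mapRingHom, map_X] at this
    simp [P, hW, ← this]
  have h3 : W.1 0 0 + W.1 0 1 - (W.1 1 0 + W.1 1 1) = 0 := by
    refine eq_zero_of_natDegree_lt_card_of_eval_eq_zero' _ Finset.univ (fun c _ => ?_) (h2 ▸ natDegree_map_le.trans_lt hF)
    have h4 := map_lift (evalRingHom c) X w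
    have h5 := h fun i => QuotientGroup.mk (A c i)
    rw [← FreeGroup.lift_unique ((QuotientGroup.mk' _).comp (FreeGroup.lift (A c))) (by simp)] at h5
    obtain ⟨r, -, hr⟩ := Matrix.SpecialLinearGroup.mem_center_iff.1 ((QuotientGroup.eq_one_iff (FreeGroup.lift (A c) w)).1 h5)
    have h6 : ∀ i j, (W.1 i j).eval c = scalar (Fin 2) r i j := fun i j => by
      rw [hr]; simpa [hW] using congrArg (fun g : SL(2, F) => g.1 i j) h4
    simp [h6]
  rcases h1 with ⟨h1, -⟩ | ⟨⟨j, c⟩, -, h1⟩
  · exact hw (by simpa using h1)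
  have h4 : (W.1 *ᵥ ![1, 1]) 0 = (W.1 *ᵥ ![1, 1]) 1 := by simpa [mulVec, dotProduct, sub_eq_zero] using h3
  have h0 : 0 < (X ^ (j + 1) : F[X]).degree := by rw [degree_X_pow]; exact_mod_cast j.succ_pos
  rw [h4] at h1
  cases c
  · simpa using K (c := -X ^ (j + 1)) h1.le (ne_zero_of_degree_gt h1) (by simpa using h0)
  · simpa using K h1.le (ne_zero_of_degree_gt h1) h0

end Cfsg.Agent.S2353
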