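import Mathlib
import Cfsg.Statements.S2354
import Cfsg.Agent.H12.Sz6

set_option autoImplicit false
open Cfsg

namespace Cfsg.Agent.S2354

open H12.Sz Polynomial Matrix

def lft (a : ℕ × Bool) : ℕ := cond a.2 (2 * a.1 + 1) (2 * a.1 + 2)
def rgt (a : ℕ × Bool) : ℕ := cond a.2 (2 * a.1 + 2) (2 * a.1 + 1)

section
variable {F : Type*} [Field F] [Fintype F] {m : ℕ} [hS : SzF F m]

def Good (d : ℕ) (g : F → G F m) : Prop := ∃ v : Fin 4 → F[X], v 0 ≠ 0 ∧ (∀ i, (v i).natDegree ≤ (v 0).natDegree) ∧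
  (v 0).natDegree ≤ d ∧ ∀ x, mat (g x) *ᵥ ![1, 0, 0, 0] = fun i => (v i).eval x

theorem Good.step {d k : ℕ} {g : F → G F m} (h : Good d g) {p : F[X]} (h1 : 1 ≤ p.natDegree) (hk : p.natDegree ≤ k) :
    Good (2 ^ (m + 1) * k + d) fun x => uu 0 (p.eval x) * ww * g x := by
  obtain ⟨v, v0, hv, hd, e⟩ := h
  have p0 : p ≠ 0 := by rintro rfl; simp at h1
  have e2 : 2 ≤ 2 ^ (m + 1) := by
    have : 0 < 2 ^ m := by positivity
    omega
  have a1 : (p ^ 2 ^ (m + 1) * v 0).natDegree = 2 ^ (m + 1) * p.natDegree + (v 0).natDegree := by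
    rw [natDegree_mul (pow_ne_zero _ p0) v0, natDegree_pow]
  have a2 : ∀ i j, (p * v i + v j).natDegree ≤ p.natDegree + (v 0).natDegree := fun i j =>
    natDegree_add_le_of_degree_le (natDegree_mul_le.trans (by have := hv i; omega)) (by have := hv j; omega)
  have a3 : p.natDegree < 2 ^ (m + 1) * p.natDegree := by nlinarith
  have a4 : (p ^ 2 ^ (m + 1) * v 0 + (p * v 1 + v 3)).natDegree = 2 ^ (m + 1) * p.natDegree + (v 0).natDegree := by
    rw [natDegree_add_eq_left_of_natDegree_lt (by have := a2 1 3; omega), a1]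
  refine ⟨![p ^ 2 ^ (m + 1) * v 0 + (p * v 1 + v 3), p * v 0 + v 2, v 1, v 0], fun h => ?_, fun i => ?_, ?_, fun x => ?_⟩
  · simp only [cons_val_zero] at h
    rw [h, natDegree_zero] at a4
    omega
  · simp only [cons_val_zero, a4]
    have := a2 0 2
    have := hv 1
    fin_cases i <;> simp [a4] <;> omega
  · simp only [cons_val_zero, a4]
    gcongr
  · rw [mat_mul, ← Matrix.mulVec_mulVec, e]
    ext i
    fin_cases i <;> simp [uM, wM, ff, th_apply, Matrix.mulVec, dotProduct, Fin.sum_univ_four, add_assoc]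

theorem good_one : Good 0 fun _ : F => (1 : G F m) :=
  ⟨![1, 0, 0, 0], by simp, fun i => by fin_cases i <;> simp, by simp, fun x => by
    ext i; fin_cases i <;> simp⟩

def ltr (x : F) (a : ℕ × Bool) : G F m := uu 0 (x ^ lft a) * ww * uu 0 (x ^ rgt a)

theorem good_list (K : ℕ) (L : List (ℕ × Bool)) : ∀ a, (∀ b ∈ a :: L, 2 * b.1 + 2 ≤ K) → FreeGroup.IsReduced (a :: L) →
    Good (2 ^ (m + 1) * K * (L.length + 1)) fun x : F => uu 0 (x ^ rgt a) * ((L.map (ltr x)).prod * ww) := by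
  induction L with
  | nil =>
    intro a ha _
    have := ha a (by simp)
    simpa using (good_one (F := F)).step (p := X ^ rgt a) (k := K) (by obtain ⟨i, _ | _⟩ := a <;> simp [rgt])
      (by obtain ⟨i, _ | _⟩ := a <;> simp [rgt] at this ⊢ <;> omega)
  | cons b L ih =>
    intro a ha hr
    have h1 := ha a (by simp)
    have h2 := ha b (by simp)
    rw [FreeGroup.isReduced_cons_cons] at hr
    have h3 : rgt a ≠ lft b ∧ 1 ≤ rgt a ∧ rgt a ≤ K ∧ lft b ≤ K := by
      have := hr.1
      obtain ⟨i, _ | _⟩ := a <;> obtain ⟨j, _ | _⟩ := b <;> simp [rgt, lft] at this h1 h2 ⊢ <;> omega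
    have h4 : (X ^ rgt a + X ^ lft b : F[X]).natDegree = max (rgt a) (lft b) := by
      rcases lt_or_gt_of_ne h3.1 with h | h
      · rw [natDegree_add_eq_right_of_natDegree_lt (by simpa using h), max_eq_right h.le, natDegree_X_pow]
      · rw [natDegree_add_eq_left_of_natDegree_lt (by simpa using h), max_eq_left h.le, natDegree_X_pow]
    have := (ih b (fun c hc => ha c (List.mem_cons_of_mem _ hc)) hr.2).step (p := X ^ rgt a + X ^ lft b) (k := K)
      (by omega) (by omega)
    convert this using 1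
    · simp only [List.length_cons]; ring
    · funext x
      simp [ltr, ← mul_assoc, uu_mul]

end

/-- A non-trivial law holds in only finitely many Suzuki groups: for every non-trivial element w of the free group on countably many generators there is N such that for q = 2^(2m+1) with m ≥ N some substitution of elements of the Suzuki group over the field with q elements into w is not the identity. -/
theorem result (w : FreeGroup ℕ) (hw : w ≠ 1) :
    ∃ N : ℕ, ∀ (F : Type*) [Field F] [Fintype F] (m : ℕ), 1 ≤ m → N ≤ m →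
      Fintype.card F = 2 ^ (2 * m + 1) →
      ∃ f : ℕ → ↥(Cfsg.Lie.Sz F (2 ^ (m + 1))), FreeGroup.lift f w ≠ 1 := by
  obtain ⟨a, L, hL⟩ : ∃ a L, w.toWord = a :: L := List.exists_cons_of_ne_nil (by simpa using hw)
  obtain ⟨K, hK⟩ : ∃ K, ∀ b ∈ a :: L, 2 * b.1 + 2 ≤ K :=
    ⟨((a :: L).map fun b => 2 * b.1 + 2).sum, fun b hb => List.le_sum_of_mem (List.mem_map_of_mem hb)⟩
  refine ⟨K * (L.length + 2), fun F _ _ m hm hN hF => ?_⟩
  haveI : SzF F m := ⟨hm, hF⟩
  have h0 := hK a (by simp)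
  obtain ⟨v, v0, -, hd, e⟩ := (good_list (F := F) K L a hK (hL ▸ FreeGroup.isReduced_toWord)).step (p := X ^ lft a)
    (k := K) (by obtain ⟨i, _ | _⟩ := a <;> simp [lft]) (by obtain ⟨i, _ | _⟩ := a <;> simp [lft] at h0 ⊢ <;> omega)
  obtain ⟨x, hx⟩ := exists_eval_ne_zero_of_natDegree_lt_card (v 0) v0 (by
    rw [Cardinal.mk_fintype, Nat.cast_lt, hF]
    have h1 : m < 2 ^ m := Nat.lt_two_pow_self
    have h2 : 2 ^ (2 * m + 1) = 2 ^ (m + 1) * 2 ^ m := by ring
    have h3 : 0 < 2 ^ (m + 1) := by positivity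
    calc _ ≤ 2 ^ (m + 1) * (K * (L.length + 2)) := hd.trans (le_of_eq (by ring))
      _ < _ := by rw [h2]; gcongr; omega)
  refine ⟨fun i => lieEquiv (ltr x (i, true)), fun h => hx ?_⟩
  have h1 : FreeGroup.lift (fun i => lieEquiv (ltr (m := m) x (i, true))) w = lieEquiv ((a :: L).map (ltr x)).prod := by
    rw [← w.mk_toWord, FreeGroup.lift_mk, hL, map_list_prod, List.map_map]
    congr 1
    refine List.map_congr_left ?_
    rintro ⟨i, _ | _⟩ -
    · simp [← map_inv, ltr, lft, rgt, uu_inv, mul_assoc]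
    · rfl
  rw [h1, MulEquiv.map_eq_one_iff] at h
  have h2 := congrFun (e x) 0
  have h3 : uu 0 (eval x (X ^ lft a)) * ww * (uu 0 (x ^ rgt a) * ((L.map (ltr x)).prod * ww)) = (ww : G F m) := by
    conv_rhs => rw [← one_mul ww, ← h]
    simp [ltr, mul_assoc]
  beta_reduce at h2
  rw [h3] at h2
  rw [← h2]
  simp [wM]

end Cfsg.Agent.S2354
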