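import Mathlib
import Cfsg.Statements.S2356
import Cfsg.Agent.H18.SU3Inv

set_option autoImplicit false
open scoped Pointwise
open Cfsg

namespace Cfsg.Agent.S2356

open H18.U3

/-- Let q be odd, F the field with q² elements, S = SU_3(F) (determinant-one isometries of the standard Hermitian form) and t an involution of S. Then: exactly q(q−1) involutions other than t commute with t; exactly q(q−2)(q²−1) involutions do not commute with t but commute with some involution commuting with t; exactly (q+1)(q²−1) involutions x do not commute with t and admit no involution commuting with both t and x; and every involution can be reached from t in at most three steps, each step going to an involution that commutes with the previous one (the commuting involution graph is connected of diameter 3). -/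
theorem result {F : Type*} [Field F] [Fintype F] {q : ℕ} (hq : Odd q)
    (hF : Fintype.card F = q ^ 2) (t : ↥(Cfsg.SU 3 F q)) (ht : t ≠ 1) (ht2 : t * t = 1) :
    Nat.card {x : ↥(Cfsg.SU 3 F q) // x ≠ 1 ∧ x * x = 1 ∧ x ≠ t ∧ Commute t x} = q * (q - 1) ∧
    Nat.card {x : ↥(Cfsg.SU 3 F q) // x ≠ 1 ∧ x * x = 1 ∧ ¬ Commute t x ∧
        ∃ y : ↥(Cfsg.SU 3 F q), y ≠ 1 ∧ y * y = 1 ∧ Commute t y ∧ Commute y x} = q * (q - 2) * (q ^ 2 - 1) ∧
    Nat.card {x : ↥(Cfsg.SU 3 F q) // x ≠ 1 ∧ x * x = 1 ∧ ¬ Commute t x ∧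
        ∀ y : ↥(Cfsg.SU 3 F q), y ≠ 1 → y * y = 1 → ¬ (Commute t y ∧ Commute y x)} = (q + 1) * (q ^ 2 - 1) ∧
    ∀ x : ↥(Cfsg.SU 3 F q), x ≠ 1 → x * x = 1 →
      ∃ y z : ↥(Cfsg.SU 3 F q), y ≠ 1 ∧ y * y = 1 ∧ z ≠ 1 ∧ z * z = 1 ∧
        Commute t y ∧ Commute y z ∧ Commute z x := by
  haveI : UF F q := ⟨hF⟩
  have h2 : (2 : F) ≠ 0 := H10.two_ne_zero_of_odd_card (hF ▸ hq.pow)
  obtain ⟨g, rfl⟩ := exists_conj h2 ht ht2
  set e := MulAut.conj g
  have c1 : ∀ x y : SU 3 F q, Commute (e x) (e y) ↔ Commute x y := fun x y =>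
    ⟨fun h => h.of_map e.injective, fun h => h.map e⟩
  have c2 : ∀ x : SU 3 F q, e x * e x = 1 ↔ x * x = 1 := fun x => by
    rw [← map_mul, map_eq_one_iff _ e.injective]
  have c3 : ∀ x : SU 3 F q, e x ≠ 1 ↔ x ≠ 1 := fun x => map_ne_one_iff _ e.injective
  refine ⟨?_, ?_, ?_, ?_⟩
  · rw [← cnt1 h2]
    exact Nat.card_congr (e.toEquiv.subtypeEquiv fun x => by
      simp only [MulEquiv.toEquiv_eq_coe, EquivLike.coe_coe, c1, c2, c3, e.injective.ne_iff]).symm
  · rw [← cnt2 h2]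
    exact Nat.card_congr (e.toEquiv.subtypeEquiv fun x => by
      rw [e.surjective.exists (p := fun y => y ≠ 1 ∧ y * y = 1 ∧ Commute (e (iv (ee 0))) y ∧ _)]
      simp only [MulEquiv.toEquiv_eq_coe, EquivLike.coe_coe, c1, c2, c3]).symm
  · rw [← cnt3 h2]
    exact Nat.card_congr (e.toEquiv.subtypeEquiv fun x => by
      rw [e.surjective.forall (p := fun y => y ≠ 1 → y * y = 1 → ¬ (Commute (e (iv (ee 0))) y ∧ _))]
      simp only [MulEquiv.toEquiv_eq_coe, EquivLike.coe_coe, c1, c2, c3]).symm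
  · intro x x1 x2
    obtain ⟨x, rfl⟩ := e.surjective x
    obtain ⟨v, rfl⟩ := exists_iv h2 ((c3 x).1 x1) ((c2 x).1 x2)
    obtain ⟨y, z, a1, a2, a3, a4, a5, a6, a7⟩ := diam h2 v
    exact ⟨e y, e z, (c3 _).2 a1, (c2 _).2 a2, (c3 _).2 a3, (c2 _).2 a4, (c1 _ _).2 a5, (c1 _ _).2 a6,
      (c1 _ _).2 a7⟩

end Cfsg.Agent.S2356
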