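import Cfsg.Statements.S2357
import Cfsg.Agent.H11.Ree4
-- import your own Cfsg.Agent.* helpers here

set_option autoImplicit false
open Cfsg

namespace Cfsg.Agent.S2357
open H11 Cfsg.Lie

/-- Let R be the small Ree group over the field with q = 3^(2m+1) ≥ 27 elements and write φ for Euler's totient function. Then R has exactly q²(q²−q+1) involutions, (q²−1)(q³+1) elements of order 3, and q²(q−1)(q³+1) elements of order 6 and as many of order 9; for i > 2 dividing q−1 it has φ(i)q³(q³+1)/2 elements of order i; for i > 1 dividing (q+1)/4 it has φ(i)q³(q−1)(q²−q+1)/6 elements of order i and φ(i)q³(q−1)(q²−q+1)/2 elements of order 2i; and for i > 1 dividing q − 3^(m+1) + 1 (respectively q + 3^(m+1) + 1) it has φ(i)q³(q²−1)(q + 3^(m+1) + 1)/6 (respectively φ(i)q³(q²−1)(q − 3^(m+1) + 1)/6) elements of order i. -/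
theorem result {K : Type*} [Field K] [Fintype K] {m : ℕ} (hm : 1 ≤ m)
    (hK : Fintype.card K = 3 ^ (2 * m + 1)) :
    Nat.card {g : ↥(Cfsg.Lie.twistedG2 K (3 ^ m)) // orderOf g = 2} = (3 ^ (2 * m + 1)) ^ 2 * ((3 ^ (2 * m + 1)) ^ 2 - 3 ^ (2 * m + 1) + 1) ∧
    Nat.card {g : ↥(Cfsg.Lie.twistedG2 K (3 ^ m)) // orderOf g = 3} = ((3 ^ (2 * m + 1)) ^ 2 - 1) * ((3 ^ (2 * m + 1)) ^ 3 + 1) ∧
    Nat.card {g : ↥(Cfsg.Lie.twistedG2 K (3 ^ m)) // orderOf g = 6} = (3 ^ (2 * m + 1)) ^ 2 * (3 ^ (2 * m + 1) - 1) * ((3 ^ (2 * m + 1)) ^ 3 + 1) ∧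
    Nat.card {g : ↥(Cfsg.Lie.twistedG2 K (3 ^ m)) // orderOf g = 9} = (3 ^ (2 * m + 1)) ^ 2 * (3 ^ (2 * m + 1) - 1) * ((3 ^ (2 * m + 1)) ^ 3 + 1) ∧
    (∀ i : ℕ, 2 < i → i ∣ 3 ^ (2 * m + 1) - 1 →
      2 * Nat.card {g : ↥(Cfsg.Lie.twistedG2 K (3 ^ m)) // orderOf g = i} = Nat.totient i * (3 ^ (2 * m + 1)) ^ 3 * ((3 ^ (2 * m + 1)) ^ 3 + 1)) ∧
    (∀ i : ℕ, 1 < i → i ∣ (3 ^ (2 * m + 1) + 1) / 4 →
      6 * Nat.card {g : ↥(Cfsg.Lie.twistedG2 K (3 ^ m)) // orderOf g = i} =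
          Nat.totient i * (3 ^ (2 * m + 1)) ^ 3 * (3 ^ (2 * m + 1) - 1) * ((3 ^ (2 * m + 1)) ^ 2 - 3 ^ (2 * m + 1) + 1) ∧
        2 * Nat.card {g : ↥(Cfsg.Lie.twistedG2 K (3 ^ m)) // orderOf g = 2 * i} =
          Nat.totient i * (3 ^ (2 * m + 1)) ^ 3 * (3 ^ (2 * m + 1) - 1) * ((3 ^ (2 * m + 1)) ^ 2 - 3 ^ (2 * m + 1) + 1)) ∧
    (∀ i : ℕ, 1 < i → i ∣ 3 ^ (2 * m + 1) - 3 ^ (m + 1) + 1 →
      6 * Nat.card {g : ↥(Cfsg.Lie.twistedG2 K (3 ^ m)) // orderOf g = i} =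
        Nat.totient i * (3 ^ (2 * m + 1)) ^ 3 * ((3 ^ (2 * m + 1)) ^ 2 - 1) * (3 ^ (2 * m + 1) + 3 ^ (m + 1) + 1)) ∧
    (∀ i : ℕ, 1 < i → i ∣ 3 ^ (2 * m + 1) + 3 ^ (m + 1) + 1 →
      6 * Nat.card {g : ↥(Cfsg.Lie.twistedG2 K (3 ^ m)) // orderOf g = i} =
        Nat.totient i * (3 ^ (2 * m + 1)) ^ 3 * ((3 ^ (2 * m + 1)) ^ 2 - 1) * (3 ^ (2 * m + 1) - 3 ^ (m + 1) + 1)) := by
  obtain ⟨k, n, a, T, A, hk, G, -⟩ := Ree.exists_rg hK
  obtain ⟨-, h1, h2, h3⟩ := G.nums hk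
  have h4 {i d} (h : 1 < d) (hd : d ∣ ro k i) := (G.count_T (hd.mul_left 2) fun e => h.ne' (Nat.eq_one_of_dvd_coprimes
    (odd_ro k i).coprime_two_left e hd)).trans (by rw [(G.ra i).card_odd (odd_ro k i) hd, G.cardR])
  have h5 {i d} (h : 1 < d) (hd : d ∣ ro k i) := (G.count_T (Nat.mul_dvd_mul_left 2 hd) fun e => absurd (Nat.le_of_dvd two_pos e)
    (by omega)).trans (by rw [(G.s.tor i).card_even (G.ra i) (odd_ro k i) hd, G.cardR])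
  refine ⟨G.count2, (G.count_P one_pos).trans (by rw [pow_one, G.card3, mul_comm]), G.count6, (G.count_P two_pos).trans
    (by rw [show 3 ^ 2 = 9 from rfl, G.card9, mul_comm]), ?_⟩
  rw [h1, h2, h3, G.q23, G.q0, G.q2, G.q3]
  generalize 3 ^ (2 * m + 1) = q at *
  have h6 (i) := (odd_ro k i).pos
  refine ⟨fun i h hi => Nat.eq_of_mul_eq_mul_right (h6 0) ?_, fun i h hi => ⟨Nat.eq_of_mul_eq_mul_right (h6 1) ?_,
    Nat.eq_of_mul_eq_mul_right (h6 1) ?_⟩, fun i h hi => Nat.eq_of_mul_eq_mul_right (h6 2) ?_, fun i h hi => Nat.eq_of_mul_eq_mul_right (h6 3) ?_⟩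
  · obtain ⟨d, rfl⟩ | e := i.even_or_odd
    · rw [← two_mul] at h hi ⊢
      have hd := Nat.dvd_of_mul_dvd_mul_left two_pos hi
      have := h5 (by omega) hd
      rw [Nat.totient_two_mul_of_odd ((odd_ro k 0).of_dvd_nat hd)]
      simp [rk, rs] at this; linarith
    · have := h4 (by omega) (e.coprime_two_right.dvd_of_dvd_mul_left hi)
      simp [rk, rs] at this; linarith
  · have := h4 h hi; simp [rk, rs] at this; linarith
  · have := h5 h hi; simp [rk, rs] at this; linarith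
  · have := h4 h hi; simp [rk, rs] at this; linarith
  · have := h4 h hi; simp [rk, rs] at this; linarith

end Cfsg.Agent.S2357
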