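import Mathlib
import Cfsg.Statements.S2360
import Cfsg.Agent.H18.SU3Inv

set_option autoImplicit false
open scoped Pointwise
open Cfsg

namespace Cfsg.Agent.S2360

open H18.U3

/-- Let q be odd, F the field with q² elements and S = SU_3(F) (determinant-one isometries of the standard Hermitian form). Then all involutions of S are conjugate; there are exactly q²(q²−q+1) of them; the centralizer of an involution has order q(q+1)(q²−1), the order of the full unitary group of degree 2; and for two distinct commuting involutions t and x there is exactly one further involution commuting with both. -/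
theorem result {F : Type*} [Field F] [Fintype F] {q : ℕ} (hq : Odd q)
    (hF : Fintype.card F = q ^ 2) (t : ↥(Cfsg.SU 3 F q)) (ht : t ≠ 1) (ht2 : t * t = 1) :
    (∀ x : ↥(Cfsg.SU 3 F q), x ≠ 1 → x * x = 1 → ∃ g : ↥(Cfsg.SU 3 F q), g * t * g⁻¹ = x) ∧
    Nat.card {x : ↥(Cfsg.SU 3 F q) // x ≠ 1 ∧ x * x = 1} = q ^ 2 * (q ^ 2 - q + 1) ∧
    Nat.card ↥(Subgroup.centralizer ({t} : Set ↥(Cfsg.SU 3 F q))) = q * (q + 1) * (q ^ 2 - 1) ∧
    ∀ x : ↥(Cfsg.SU 3 F q), x ≠ 1 → x * x = 1 → x ≠ t → Commute t x →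
      Nat.card {y : ↥(Cfsg.SU 3 F q) // y ≠ 1 ∧ y * y = 1 ∧ y ≠ t ∧ y ≠ x ∧ Commute t y ∧ Commute x y} = 1 := by
  haveI : UF F q := ⟨hF⟩
  have h2 : (2 : F) ≠ 0 := H10.two_ne_zero_of_odd_card (hF ▸ hq.pow)
  have hq2 := two_le (F := F)
  have a1 : ∀ x : SU 3 F q, x ≠ 1 → x * x = 1 → ∃ g : SU 3 F q, g * t * g⁻¹ = x := by
    intro x x1 x2
    obtain ⟨g, rfl⟩ := exists_conj h2 ht ht2
    obtain ⟨k, rfl⟩ := exists_conj h2 x1 x2
    exact ⟨k * g⁻¹, by simp [mul_assoc]⟩
  have a2 : Nat.card {x : SU 3 F q // x ≠ 1 ∧ x * x = 1} = q ^ 2 * (q ^ 2 - q + 1) := by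
    apply Nat.eq_of_mul_eq_mul_left (show 0 < q + 1 by omega)
    have := card_inv h2 (q := q) fun _ => True
    simp only [and_true] at this
    rw [this, Nat.card_congr (Equiv.subtypeUnivEquiv fun _ => trivial)]
    have h := (H10.stdU_isUnitary (ncard (F := F)) 3).cnt_ne_zero_succ (c := 1) one_ne_zero (map_one _)
      (n := 2) (by simp)
    simp only [even_two, if_true] at h
    refine Eq.trans h ?_
    have : q ≤ q ^ 2 := by nlinarith
    zify [this]; ring
  refine ⟨a1, a2, ?_, ?_⟩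
  · have h1 : Nat.card (MulAction.orbit (ConjAct (SU 3 F q)) t) = q ^ 2 * (q ^ 2 - q + 1) := by
      rw [← a2]
      refine Nat.card_congr (Equiv.subtypeEquivRight fun x => ?_)
      rw [ConjAct.mem_orbit_conjAct, isConj_comm, isConj_iff]
      refine ⟨?_, fun h => a1 x h.1 h.2⟩
      rintro ⟨g, rfl⟩
      exact ⟨by simpa using ht, by simp [mul_assoc, ← mul_assoc t t, ht2]⟩
    have h3 := (MulAction.stabilizer (ConjAct (SU 3 F q)) t).card_mul_index
    rw [MulAction.index_stabilizer, ← Nat.card_coe_set_eq, h1, ← Subgroup.nat_card_centralizer_nat_card_stabilizer] at h3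
    have h4 : Nat.card (ConjAct (SU 3 F q)) = q ^ 3 * (q ^ 2 - 1) * (q ^ 3 + 1) := by
      rw [← card_G (F := F)]; exact Nat.card_congr (iso (F := F)).toEquiv.symm
    apply Nat.eq_of_mul_eq_mul_right (show 0 < q ^ 2 * (q ^ 2 - q + 1) by positivity)
    rw [h3, h4]
    have : q ≤ q ^ 2 := by nlinarith
    have : 1 ≤ q ^ 2 := by nlinarith
    zify [*]; ring
  · obtain ⟨g, rfl⟩ := exists_conj h2 ht ht2
    set e := MulAut.conj g
    have c1 : ∀ x y : SU 3 F q, Commute (e x) (e y) ↔ Commute x y := fun x y =>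
      ⟨fun h => h.of_map e.injective, fun h => h.map e⟩
    have c2 : ∀ x : SU 3 F q, e x * e x = 1 ↔ x * x = 1 := fun x => by
      rw [← map_mul, map_eq_one_iff _ e.injective]
    have c3 : ∀ x : SU 3 F q, e x ≠ 1 ↔ x ≠ 1 := fun x => map_ne_one_iff _ e.injective
    intro x x1 x2 x3 x4
    obtain ⟨x, rfl⟩ := e.surjective x
    rw [← third h2 ((c3 x).1 x1) ((c2 x).1 x2) (e.injective.ne_iff.1 x3) ((c1 _ _).1 x4)]
    exact Nat.card_congr (e.toEquiv.subtypeEquiv fun x => by
      simp only [MulEquiv.toEquiv_eq_coe, EquivLike.coe_coe, c1, c2, c3, e.injective.ne_iff]).symm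

end Cfsg.Agent.S2360
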