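import Mathlib
import Cfsg.Statements.S2431
import Cfsg.Agent.L.PSL2Max4
import Cfsg.Agent.L.SL2Char
import Cfsg.Agent.BG.Api2

set_option autoImplicit false
open Cfsg

namespace Cfsg.Agent.S2431

/-- Let F be a finite field with q elements, q odd, and S a Sylow 2-subgroup of SL₂ over F. The centraliser of S is the centre of SL₂ (of order 2); S is its own normaliser when q ≡ ±1 mod 8, and has index 3 in its normaliser when q ≡ ±3 mod 8. -/
theorem result {F : Type*} [Field F] [Fintype F] (hodd : Odd (Fintype.card F)) (S : Sylow 2 (Matrix.SpecialLinearGroup (Fin 2) F)) :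
    Subgroup.centralizer ((S : Subgroup (Matrix.SpecialLinearGroup (Fin 2) F)) : Set (Matrix.SpecialLinearGroup (Fin 2) F)) = Subgroup.center (Matrix.SpecialLinearGroup (Fin 2) F) ∧
    ((Fintype.card F % 8 = 1 ∨ Fintype.card F % 8 = 7) →
      Subgroup.normalizer ((S : Subgroup (Matrix.SpecialLinearGroup (Fin 2) F)) : Set (Matrix.SpecialLinearGroup (Fin 2) F)) = (S : Subgroup (Matrix.SpecialLinearGroup (Fin 2) F))) ∧
    ((Fintype.card F % 8 = 3 ∨ Fintype.card F % 8 = 5) →
      Nat.card (Subgroup.normalizer ((S : Subgroup (Matrix.SpecialLinearGroup (Fin 2) F)) : Set (Matrix.SpecialLinearGroup (Fin 2) F))) = 3 * Nat.card S) := by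
  open L L.SLc Subgroup in
  classical
  have h2 : (2 : F) ≠ 0 := two_ne_zero_of_odd hodd
  have hG : Nat.card (SL2 F) = (Fintype.card F - 1) * Fintype.card F * (Fintype.card F + 1) := by
    rw [H09.card_SL_two]
    obtain ⟨k, hk⟩ : ∃ k, Fintype.card F = k + 1 := ⟨Fintype.card F - 1, by
      have := Fintype.card_pos (α := F); omega⟩
    rw [hk, show (k + 1) ^ 2 - 1 = k * (k + 2) from Nat.sub_eq_of_eq_add (by ring)]
    simp; ring
  obtain ⟨m, hm⟩ := hodd
  have hm1 : 1 ≤ m := by have := Fintype.one_lt_card (α := F); omega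
  have mem2 : ∀ x : SL2 F, (S : Subgroup (SL2 F)) ≤ normalizer (zpowers x : Set (SL2 F)) ∨
      x ∈ normalizer ((S : Subgroup (SL2 F)) : Set (SL2 F)) → (∃ k, x ^ 2 ^ k = 1) →
      x ∈ (S : Subgroup (SL2 F)) := by
    rintro x hx ⟨k, hk⟩
    have h1 : IsPGroup 2 (zpowers x) := by
      obtain ⟨j, -, hj⟩ := (Nat.dvd_prime_pow Nat.prime_two).1 (orderOf_dvd_of_pow_eq_one hk)
      exact IsPGroup.of_card (by rw [Nat.card_zpowers, hj])
    have h3 : IsPGroup 2 ↥((S : Subgroup (SL2 F)) ⊔ zpowers x) := by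
      rcases hx with hx | hx
      · exact BG.pg_sup' S.isPGroup' h1 hx
      · exact BG.pg_sup S.isPGroup' h1 (zpowers_le.2 hx)
    rw [← S.is_maximal' h3 le_sup_left]
    exact mem_sup_right (mem_zpowers x)
  have tor : ∀ y : SL2 F, (y : M2 F).trace = 0 → ∃ c, Nat.card (centralizer ({y} : Set (SL2 F))) = 4 * c ∧
      ∃ d, Odd d ∧ Nat.card (SL2 F) = 8 * c * d ∧ (4 * c = 2 * m ∨ 4 * c = 2 * m + 2) := by
    intro y hy
    have hy4 : orderOf y = 4 := by
      have e1 := sq_eq_neg_one_of_trace hy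
      refine orderOf_eq_prime_pow (p := 2) (n := 1) ?_ ?_
      · rw [pow_one, sq, e1]; exact L.SLc.neg_one_ne_one h2
      · rw [show 2 ^ (1 + 1) = 2 * 2 from rfl, pow_mul, sq y, e1]; simp
    obtain ⟨c, hc⟩ : 4 ∣ Nat.card (centralizer ({y} : Set (SL2 F))) :=
      hy4 ▸ orderOf_dvd_natCard _ (mem_centralizer_singleton_iff.2 rfl)
    refine ⟨c, hc, ?_⟩
    rw [hG, hm]
    rcases card_torus (trace_sq_ne_of_zero h2 hy) with ⟨-, h⟩ | ⟨-, h⟩ <;> rw [hc, hm] at h
    · obtain rfl : m = 2 * c := by omega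
      refine ⟨(2 * (2 * c) + 1) * (2 * c + 1), Odd.mul ⟨_, rfl⟩ ⟨_, rfl⟩, ?_, Or.inl (by ring)⟩
      simp only [Nat.add_sub_cancel]; ring
    · obtain ⟨j, rfl⟩ : ∃ j, c = j + 1 := ⟨c - 1, by omega⟩
      obtain rfl : m = 2 * j + 1 := by omega
      refine ⟨(2 * (2 * j + 1) + 1) * (2 * j + 1), Odd.mul ⟨_, rfl⟩ ⟨_, rfl⟩, ?_, Or.inr (by ring)⟩
      simp only [Nat.add_sub_cancel]; ring
  obtain ⟨y, hy, hSN⟩ : ∃ y : SL2 F, (y : M2 F).trace = 0 ∧ (S : Subgroup (SL2 F)) ≤
      normalizer (centralizer ({y} : Set (SL2 F)) : Set (SL2 F)) := by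
    let y0 : SL2 F := ⟨!![0, -1; 1, 0], by simp [Matrix.det_fin_two]⟩
    have hy0 : (y0 : M2 F).trace = 0 := by simp [y0, Matrix.trace_fin_two]
    obtain ⟨c, hc, d, hd, h1, h3⟩ := tor y0 hy0
    set N := normalizer (centralizer ({y0} : Set (SL2 F)) : Set (SL2 F)) with hN
    have hi : N.index = d := by
      have := N.card_mul_index
      rw [hN, card_normalizer_torus (trace_sq_ne_of_zero h2 hy0), hc, h1, ← hN] at this
      exact Nat.eq_of_mul_eq_mul_left (show 0 < 8 * c by omega) (by linarith)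
    obtain ⟨q, hq⟩ := S.isPGroup'.nonempty_fixed_point_of_prime_not_dvd_card (SL2 F ⧸ N)
      (by rw [← index, hi]; exact hd.not_two_dvd_nat)
    obtain ⟨x, rfl⟩ := QuotientGroup.mk_surjective q
    have hy1 : ((x * y0 * x⁻¹ : SL2 F) : M2 F).trace = 0 := by rw [SL2_trace_conj, hy0]
    refine ⟨x * y0 * x⁻¹, hy1, fun u hu => ?_⟩
    have h4 : ((u * x : SL2 F) : SL2 F ⧸ N) = x := hq ⟨u, hu⟩
    rw [eq_comm, QuotientGroup.eq, hN, mem_normalizer_torus (trace_sq_ne_of_zero h2 hy0)] at h4
    rw [mem_normalizer_torus (trace_sq_ne_of_zero h2 hy1)]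
    refine h4.imp (fun h => ?_) fun h => ?_
    · conv_rhs => rw [← h]
      group
    · rw [show (x * y0 * x⁻¹)⁻¹ = x * y0⁻¹ * x⁻¹ by group, ← h]; group
  have hy4 := trace_sq_ne_of_zero h2 hy
  have hys : ¬ IsScal (y : M2 F) := not_isScal_of_disc (SL2_disc hy4)
  obtain ⟨c, hc, d, hd, hGc, hcm⟩ := tor y hy
  set T := centralizer ({y} : Set (SL2 F)) with hT
  have nT : ∀ t ∈ T, (S : Subgroup (SL2 F)) ≤ normalizer (zpowers t : Set (SL2 F)) := by
    intro t ht u hu
    refine mem_normalizer_fintype fun n hn => ?_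
    have hnT : n ∈ T := zpowers_le.2 ht hn
    by_cases h : u ∈ T
    · rw [mul_comm_of_mem_centralizer hys h hnT, mul_inv_cancel_right]; exact hn
    · rw [conj_eq_inv_of_notMem hy4 (hSN hu) h hnT]; exact inv_mem hn
  have yT : y ∈ T := mem_centralizer_singleton_iff.2 rfl
  have yS : y ∈ (S : Subgroup (SL2 F)) := mem2 y (Or.inl (nT y yT))
    ⟨2, by rw [show 2 ^ 2 = 2 * 2 from rfl, pow_mul, sq y, sq_eq_neg_one_of_trace hy]; simp⟩
  have c0 : c ≠ 0 := by omega
  obtain ⟨a, b, hb, hab⟩ := Nat.exists_eq_two_pow_mul_odd c0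
  have hS : Nat.card S = 2 ^ (a + 3) := by
    rw [S.card_eq_multiplicity, hGc, hab, show 8 * (2 ^ a * b) * d = 2 ^ (a + 3) * (b * d) by ring,
      Nat.factorization_mul (by positivity) (hb.mul hd).pos.ne', Finsupp.add_apply,
      Nat.factorization_eq_zero_of_not_dvd (hb.mul hd).not_two_dvd_nat, Nat.prime_two.factorization_pow]
    simp
  obtain ⟨w, wS, wT⟩ : ∃ w ∈ (S : Subgroup (SL2 F)), w ∉ T := by
    by_contra hno
    push Not at hno
    have := card_dvd_of_le (H := (S : Subgroup (SL2 F))) (K := T) hno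
    rw [hS, hc, hab, show 4 * (2 ^ a * b) = 2 ^ (a + 2) * b by ring, pow_succ] at this
    exact hb.not_two_dvd_nat (Nat.dvd_of_mul_dvd_mul_left (by positivity) this)
  have K1 : ∀ x ∈ normalizer ((S : Subgroup (SL2 F)) : Set (SL2 F)),
      x ∈ normalizer (T : Set (SL2 F)) → x ∈ (S : Subgroup (SL2 F)) := by
    intro x hx hxT
    refine mem2 x (Or.inr hx) ?_
    by_cases h : x ∈ T
    · have h1 : x * x ∈ (S : Subgroup (SL2 F)) := by
        have h3 := conj_eq_inv_of_notMem hy4 (hSN wS) wT (T.inv_mem h)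
        rw [inv_inv] at h3
        rw [show x * x = (x * w * x⁻¹) * w⁻¹ by rw [mul_assoc x w, mul_assoc x, h3]]
        exact S.1.mul_mem ((mem_normalizer_iff.1 hx _).1 wS) (S.1.inv_mem wS)
      obtain ⟨k, hk⟩ := S.isPGroup' ⟨_, h1⟩
      exact ⟨k + 1, by rw [pow_succ', pow_mul, sq]; exact congrArg Subtype.val hk⟩
    · exact ⟨2, by
        rw [show 2 ^ 2 = 2 * 2 from rfl, pow_mul, sq x, sq_eq_neg_one_of_notMem hy4 hxT h]; simp⟩
  refine ⟨le_antisymm (fun x hx => ?_) (center_le_centralizer _), fun h8 => ?_, fun h8 => ?_⟩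
  · have h1 : x ∈ T := mem_centralizer_singleton_iff.2 (hx y yS).symm
    have h3 := conj_eq_inv_of_notMem hy4 (hSN wS) wT h1
    rw [hx w wS, mul_inv_cancel_right] at h3
    rw [mem_center_iff_isScal, ← sq_eq_one_iff h2, sq]
    exact mul_eq_one_iff_eq_inv.2 h3
  · refine le_antisymm (fun x hx => K1 x hx ?_) le_normalizer
    have hcy := isCyclic_centralizer_SL hy4
    obtain ⟨r, hr⟩ : ∃ r : T, orderOf r = 8 := by
      have : (Finset.univ.filter fun r : T => orderOf r = 8).card = Nat.totient 8 :=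
        IsCyclic.card_orderOf_eq_totient (by rw [← Nat.card_eq_fintype_card, hc]; omega)
      obtain ⟨r, hr⟩ := Finset.card_pos.1 (by rw [this]; decide)
      exact ⟨r, (Finset.mem_filter.1 hr).2⟩
    have hr' : orderOf (r : SL2 F) = 8 := by rw [orderOf_coe, hr]
    have rS : (r : SL2 F) ∈ (S : Subgroup (SL2 F)) := mem2 r (Or.inl (nT r r.2))
      ⟨3, orderOf_dvd_iff_pow_eq_one.1 (by rw [hr']; norm_num)⟩
    have rs : ¬ IsScal ((r : SL2 F) : M2 F) := fun h => by
      have := orderOf_dvd_of_pow_eq_one ((sq_eq_one_iff h2).2 h)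
      rw [hr'] at this; omega
    have r4 := trace_sq_ne_of_mem hy4 r.2 rs
    have eC := centralizer_eq_of_mem hys r.2 rs
    have h1 : x * r * x⁻¹ ∈ (S : Subgroup (SL2 F)) := (mem_normalizer_iff.1 hx _).1 rS
    have h3 : x * r * x⁻¹ ∈ T := by
      by_contra h
      have h4 : (x * r * x⁻¹) ^ 4 = 1 := by
        rw [show 4 = 2 * 2 from rfl, pow_mul, sq (x * r * x⁻¹), sq_eq_neg_one_of_notMem hy4 (hSN h1) h]
        simp
      rw [conj_pow, mul_inv_eq_one, mul_eq_left] at h4
      have := orderOf_dvd_of_pow_eq_one h4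
      rw [hr'] at this; omega
    rw [hT, ← eC, mem_normalizer_torus r4]
    exact eq_or_eq_inv_of_mem r4 (by rw [eC]; exact h3) (SL2_trace_conj _ _)
  · have a0 : a = 0 := by
      by_contra h
      obtain ⟨j, rfl⟩ : ∃ j, a = j + 1 := ⟨a - 1, by omega⟩
      rw [pow_succ, mul_assoc, mul_left_comm] at hab
      omega
    rw [a0] at hS
    rw [hS]
    set N := normalizer ((S : Subgroup (SL2 F)) : Set (SL2 F)) with hN
    have d8 : 8 ∣ Nat.card N := by
      have := card_dvd_of_le (le_normalizer (H := (S : Subgroup (SL2 F))))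
      rwa [hS] at this
    have le24 : Nat.card N ≤ 24 := by
      let _ : MulAction N (SL2 F) :=
        MulAction.compHom _ ((MulAut.conj : SL2 F →* MulAut (SL2 F)).comp N.subtype)
      have sm : ∀ (g : N) (u : SL2 F), g • u = g * u * (g : SL2 F)⁻¹ := fun g u => rfl
      have e1 := (MulAction.stabilizer N y).card_mul_index
      rw [MulAction.index_stabilizer] at e1
      have e2 : (MulAction.orbit N y).ncard ≤ 6 := by
        have hsub : MulAction.orbit N y ⊆ ((S : Subgroup (SL2 F)) : Set (SL2 F)) \ {1, -1} := by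
          rintro _ ⟨g, rfl⟩
          refine ⟨(mem_normalizer_iff.1 g.2 _).1 yS, fun h => hys ?_⟩
          rw [← SL2_isScal_conj g, SL2_scal_iff]
          exact h
        have m1 : (-1 : SL2 F) ∈ (S : Subgroup (SL2 F)) := by
          rw [← sq_eq_neg_one_of_trace hy]; exact S.1.mul_mem yS yS
        have := Set.ncard_le_ncard hsub
        rw [Set.ncard_sdiff (by
          rintro _ (rfl | rfl)
          exacts [S.1.one_mem, m1]), Set.ncard_pair (L.SLc.neg_one_ne_one h2).symm,
          ← Nat.card_coe_set_eq] at this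
        change _ ≤ Nat.card S - 2 at this
        rw [hS] at this
        exact this
      have e3 : Nat.card (MulAction.stabilizer N y) ≤ 4 := by
        have h1 : Nat.card (MulAction.stabilizer N y) ≤ Nat.card ↥((S : Subgroup (SL2 F)) ⊓ T) := by
          have hm : ∀ g : MulAction.stabilizer N y, (g.1 : SL2 F) ∈ T := fun g =>
            mem_centralizer_singleton_iff.2 (mul_inv_eq_iff_eq_mul.1 g.2)
          exact Nat.card_le_card_of_injective
            (fun g => ⟨g.1, K1 _ g.1.2 (le_normalizer (hm g)), hm g⟩)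
            fun g g' h => Subtype.ext (Subtype.ext (Subtype.mk.inj h))
        have h3 := card_dvd_of_le (inf_le_left : (S : Subgroup (SL2 F)) ⊓ T ≤ _)
        have h4 : Nat.card ↥((S : Subgroup (SL2 F)) ⊓ T) ≠ 8 := fun h => by
          have := eq_of_le_of_card_ge (inf_le_left : (S : Subgroup (SL2 F)) ⊓ T ≤ _) (by rw [h, hS]; rfl)
          exact wT (this.ge wS).2
        rw [hS] at h3
        have h5 := Nat.le_of_dvd (by norm_num) h3
        generalize Nat.card ↥((S : Subgroup (SL2 F)) ⊓ T) = e at *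
        interval_cases e <;> omega
      nlinarith
    have d3 : 3 ∣ Nat.card N := by
      obtain ⟨f, hf⟩ := L.Dk.exists_A4_psl h2
      have h4 : Nat.card (Fin 4) = 4 := by simp
      let π := QuotientGroup.mk' (center (SL2 F))
      have hπ : Function.Surjective π := QuotientGroup.mk'_surjective _
      have cm : ∀ K : Subgroup (Matrix.ProjectiveSpecialLinearGroup (Fin 2) F),
          Nat.card (K.comap π) = 2 * Nat.card K := by
        intro K
        have e1 := (K.comap π).card_mul_index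
        have e2 := K.card_mul_index
        have e3 := (center (SL2 F)).card_mul_index
        rw [H09.card_center_SL, hm, Fintype.card_fin, Nat.add_sub_cancel, Nat.gcd_mul_right_right] at e3
        rw [index_comap_of_surjective _ hπ, ← e3, show (center (SL2 F)).index = _ from e2.symm,
          ← mul_assoc] at e1
        exact Nat.eq_of_mul_eq_mul_right (Nat.pos_of_ne_zero index_ne_zero_of_finite) e1
      set V := alternatingGroup.kleinFour (Fin 4)
      have hV := alternatingGroup.normal_kleinFour h4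
      let S' : Sylow 2 (SL2 F) := Sylow.ofCard ((V.map f).comap π) (by
        rw [← S.card_eq_multiplicity, hS, cm, card_map_of_injective hf,
          alternatingGroup.kleinFour_card_of_card_eq_four h4]; rfl)
      have h1 : f.range.comap π ≤ normalizer ((S' : Subgroup (SL2 F)) : Set (SL2 F)) := by
        rintro g ⟨u, hu⟩
        refine mem_normalizer_fintype ?_
        rintro n ⟨v, hv, hv'⟩
        exact ⟨u * v * u⁻¹, hV.conj_mem v hv u, by simp only [map_mul, map_inv, hu, hv']⟩
      have h3 := card_dvd_of_le h1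
      rw [cm, ← Nat.card_congr (MonoidHom.ofInjective hf).toEquiv, L.Dk.card_A4] at h3
      have e1 := N.card_mul_index
      have e2 := (normalizer ((S' : Subgroup (SL2 F)) : Set (SL2 F))).card_mul_index
      rw [hN, S.coe_coe, ← S.card_eq_index_normalizer] at e1
      rw [S'.coe_coe, ← S'.card_eq_index_normalizer, ← e1] at e2
      rw [S'.coe_coe, Nat.eq_of_mul_eq_mul_right Nat.card_pos e2] at h3
      exact (show 3 ∣ 2 * 12 by norm_num).trans h3
    have : 0 < Nat.card N := Nat.card_pos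
    change Nat.card N = 24
    omega

end Cfsg.Agent.S2431
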