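import Mathlib
import Cfsg.Statements.S2444
import Cfsg.Agent.H03.OreB

set_option autoImplicit false
open Cfsg

namespace Cfsg.Agent.S2444

/-- In the special linear group SL(n,F) over a finite field F, with n ≥ 2 and (n, |F|) not (2,2) or (2,3), every element is a commutator a·b·a⁻¹·b⁻¹ of two elements of SL(n,F). -/
theorem result {F : Type*} [Field F] [Fintype F] (n : ℕ) (hn : 2 ≤ n) (hex : n = 2 → 4 ≤ Fintype.card F) :
    ∀ g : Matrix.SpecialLinearGroup (Fin n) F, ∃ a b : Matrix.SpecialLinearGroup (Fin n) F, g = a * b * a⁻¹ * b⁻¹ := by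
  intro g
  open H03.Ore Polynomial Matrix in
  obtain ⟨A, B, h1, h2, h3⟩ : ∃ A B : Matrix (Fin n) (Fin n) F, A.det = 1 ∧ B.det = 1 ∧ A * g * B = B * A := by
    by_cases h : ∃ c : F, toLin' g.1 = c • (1 : Module.End F _)
    · obtain ⟨c, hc⟩ := h
      have h1 : g.1 = c • 1 := toLin'.injective (by simp [hc, Module.End.one_eq_id])
      obtain ⟨A, B, h2, h3, h4⟩ := scalar_comm (n := n) (by omega) (c := c) (by simpa [h1] using g.2)
      exact ⟨A, B, h2, h3, by simp [h1, h4]⟩
    obtain ⟨a, f, f1, f2, f3, f4⟩ : ∃ (a : F) (f : F[X]), f.Monic ∧ f.natDegree + 1 = n ∧ f.eval a ≠ 0 ∧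
        a * ((-1) ^ f.natDegree * f.coeff 0) = 1 := by
      obtain ⟨k, rfl⟩ : ∃ k, n = k + 2 := ⟨n - 2, by omega⟩
      classical
      rcases k with _ | k
      · obtain ⟨a, ha⟩ : ∃ a : F, a ∉ ({0, 1, -1} : Finset F) := by
          by_contra! e
          have := Finset.card_le_three (a := (0 : F)) (b := 1) (c := -1)
          have := hex rfl
          rw [Finset.eq_univ_of_forall e, Finset.card_univ] at *
          omega
        simp only [Finset.mem_insert, Finset.mem_singleton, not_or] at ha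
        refine ⟨a, X - C a⁻¹, monic_X_sub_C _, by simp, fun e => ?_, by simp [ha.1]⟩
        have : a ^ 2 = 1 := by
          rw [eval_sub, eval_X, eval_C, sub_eq_zero] at e
          rw [sq]; nth_rw 2 [e]; exact mul_inv_cancel₀ ha.1
        exact (sq_eq_one_iff.1 this).elim ha.2.1 ha.2.2
      obtain ⟨s, hs⟩ : ∃ s : F, 1 + (s + (-1) ^ (k + 2)) ≠ 0 := by
        by_contra! e
        exact one_ne_zero (α := F) (by linear_combination e 1 - e 0)
      have h1 : (X ^ (k + 2) + (C s * X + C ((-1) ^ (k + 2))) : F[X]).natDegree = k + 2 := by compute_degree!; simp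
      refine ⟨1, X ^ (k + 2) + (C s * X + C ((-1) ^ (k + 2))), by monicity!; omega, by rw [h1], by simpa using hs, ?_⟩
      rw [h1, coeff_add, coeff_add, coeff_C_zero]
      simp [← mul_pow]
    obtain ⟨X, R, h1, h2, h3⟩ := comm_of_not_scalar (by simp) h f1 (by simpa using f2) f3 f4
    refine ⟨LinearMap.toMatrix' X, LinearMap.toMatrix' R, by simpa using h1, by simpa using h2, ?_⟩
    simpa [LinearMap.toMatrix'_mul] using congrArg LinearMap.toMatrix' h3
  obtain ⟨a, b, h⟩ : ∃ a b : Matrix.SpecialLinearGroup (Fin n) F, a * g * b = b * a := ⟨⟨A, h1⟩, ⟨B, h2⟩, Subtype.ext h3⟩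
  exact ⟨a⁻¹, b, by rw [inv_inv, eq_mul_inv_iff_mul_eq, mul_assoc, eq_inv_mul_iff_mul_eq, ← mul_assoc, h]⟩

end Cfsg.Agent.S2444
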