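import Mathlib
import Cfsg.Agent.L.PSL2Tr
-- Template for statement S2450 (row 2450; see /opt/grader/pristine/manifest.json for weights).
-- Copy to Cfsg/Agent/S2450.lean and replace the sorry. The statement below is byte-identical to the frozen
-- statement Cfsg.CfsgFrozen.S2450 (Cfsg/Statements/S2450.lean; the theorem Cfsg.ore_psl_two_product_of_two_nontrivial_classes_not_a_class);
-- the grader kernel-checks Cfsg.Agent.S2450.result against that frozen type. Keep the theorem IN THIS FILE
-- (a `result` declared elsewhere and merely imported here is not credited); helpers may live anywhere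
-- under Cfsg/Agent/.
import Cfsg.Statements.S2450
-- import your own Cfsg.Agent.* helpers here

set_option autoImplicit false
open Cfsg

namespace Cfsg.Agent.S2450

open L in
theorem aux {F : Type*} [Field F] {s : SL2 F} (hs : ¬ IsScal (s : M2 F)) :
    ∃ x : SL2 F, ((x * s * x⁻¹ : SL2 F) : M2 F) 1 0 ≠ 0 := by
  by_cases h1 : (s : M2 F) 1 0 = 0
  · by_cases h2 : (s : M2 F) 0 1 = 0
    · refine ⟨H09.sl2 1 0 1 1 (by ring), fun e => hs ⟨h2, h1, ?_⟩⟩
      change (_ * s * _ : SL2 F) 1 0 = 0 at e
      simp only [H09.sl2_inv, H09.SL2.mul_apply, H09.sl2_00, H09.sl2_01, H09.sl2_10, H09.sl2_11] at e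
      change s 1 0 = 0 at h1; change s 0 1 = 0 at h2; change s 0 0 = s 1 1
      linear_combination e - h1 + h2
    · refine ⟨H09.sl2 0 (-1) 1 0 (by ring), fun e => h2 ?_⟩
      change (_ * s * _ : SL2 F) 1 0 = 0 at e
      simp only [H09.sl2_inv, H09.SL2.mul_apply, H09.sl2_00, H09.sl2_01, H09.sl2_10, H09.sl2_11] at e
      change s 0 1 = 0
      linear_combination -e
  · exact ⟨1, by simpa using h1⟩

/-- The Arad–Herzog conjecture for PSL(2,q): let F be a finite field with q ≥ 4 elements. For any two non-identity elements a, b of PSL(2,F), the set of products of a conjugate of a with a conjugate of b is not a single conjugacy class. -/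
theorem result {F : Type*} [Field F] [Fintype F] (h4 : 4 ≤ Fintype.card F)
    (a b : Matrix.ProjectiveSpecialLinearGroup (Fin 2) F) (ha : a ≠ 1) (hb : b ≠ 1) (c : Matrix.ProjectiveSpecialLinearGroup (Fin 2) F) :
    {g : Matrix.ProjectiveSpecialLinearGroup (Fin 2) F | ∃ u v : Matrix.ProjectiveSpecialLinearGroup (Fin 2) F, g = (u * a * u⁻¹) * (v * b * v⁻¹)} ≠ {g | IsConj c g} := by
  intro h
  obtain ⟨s, rfl⟩ := QuotientGroup.mk_surjective a
  obtain ⟨t, rfl⟩ := QuotientGroup.mk_surjective b
  obtain ⟨w, rfl⟩ := QuotientGroup.mk_surjective c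
  obtain ⟨x, hx⟩ := aux (L.mk_ne_one_iff.1 ha)
  obtain ⟨y, hy⟩ := aux (L.mk_ne_one_iff.1 hb)
  set s' := x * s * x⁻¹ with hs'
  set t' := y * t * y⁻¹ with ht'
  set γ := (w : L.M2 F).trace
  let f : Polynomial F := Polynomial.C (-(s' 1 0 * t' 1 0)) * Polynomial.X ^ 2 +
    Polynomial.C (s' 1 0 * t' 0 0 - s' 0 0 * t' 1 0 + s' 1 1 * t' 1 0 - s' 1 0 * t' 1 1) * Polynomial.X
  set k := ((s' * t' : L.SL2 F) : L.M2 F).trace with hk
  have h1 : ∀ r : F, (f.eval r + k) ^ 2 = γ ^ 2 := by
    intro r
    have h2 : IsConj (QuotientGroup.mk w : Matrix.ProjectiveSpecialLinearGroup (Fin 2) F)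
        (QuotientGroup.mk (H09.sl2 1 r 0 1 (by ring) * s' * (H09.sl2 1 r 0 1 (by ring))⁻¹ * t')) := by
      refine (Set.ext_iff.1 h _).1 ⟨QuotientGroup.mk (H09.sl2 1 r 0 1 (by ring) * x), QuotientGroup.mk y, ?_⟩
      simp only [← QuotientGroup.mk_inv, ← QuotientGroup.mk_mul, hs', ht', mul_assoc, mul_inv_rev]
    rw [L.trace_sq_of_isConj h2, hk, Matrix.trace_fin_two, Matrix.trace_fin_two]
    congr 1
    change _ + ((s' * t') 0 0 + (s' * t') 1 1) = (_ * s' * _ * t' : L.SL2 F) 0 0 + (_ * s' * _ * t' : L.SL2 F) 1 1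
    simp only [f, H09.sl2_inv, H09.SL2.mul_apply, H09.sl2_00, H09.sl2_01, H09.sl2_10, H09.sl2_11, Polynomial.eval_add,
      Polynomial.eval_mul, Polynomial.eval_C, Polynomial.eval_X, Polynomial.eval_pow]
    ring
  have h3 : ∀ c : F, (f + Polynomial.C c).natDegree ≤ 2 := fun c => by simp only [f]; compute_degree
  have h5 : ∀ c : F, f + Polynomial.C c ≠ 0 := fun c e => by
    have := congrArg (Polynomial.coeff · 2) e
    simp only [f, Polynomial.coeff_add, Polynomial.coeff_C_mul, Polynomial.coeff_X_pow, Polynomial.coeff_X,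
      Polynomial.coeff_C] at this
    simp at this
    exact this.elim hx hy
  by_cases h2 : (2 : F) = 0
  · refine h5 (k - γ) (Polynomial.eq_zero_of_natDegree_lt_card_of_eval_eq_zero _ Function.injective_id (fun r => ?_)
      (lt_of_le_of_lt (h3 _) (by omega)))
    rw [Polynomial.eval_add, Polynomial.eval_C, id]
    exact pow_eq_zero_iff two_ne_zero |>.1 (by linear_combination h1 r + (γ ^ 2 - γ * (f.eval r + k)) * h2)
  · have := Nat.odd_iff.1 (L.odd_card_iff.2 h2)
    refine mul_ne_zero (h5 (k - γ)) (h5 (k + γ)) (Polynomial.eq_zero_of_natDegree_lt_card_of_eval_eq_zero _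
      Function.injective_id (fun r => ?_) (lt_of_le_of_lt Polynomial.natDegree_mul_le ?_))
    · rw [Polynomial.eval_mul, Polynomial.eval_add, Polynomial.eval_add (p := f), Polynomial.eval_C, Polynomial.eval_C, id]
      linear_combination h1 r
    · have := h3 (k - γ); have := h3 (k + γ); omega

end Cfsg.Agent.S2450
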