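import Mathlib
import Cfsg.Agent.L.PSL2Tr
-- Template for statement S2455 (row 2455; see /opt/grader/pristine/manifest.json for weights).
-- Copy to Cfsg/Agent/S2455.lean and replace the sorry. The statement below is byte-identical to the frozen
-- statement Cfsg.CfsgFrozen.S2455 (Cfsg/Statements/S2455.lean; the theorem Cfsg.ore_psl_two_odd_square_of_nonunipotent_class_covers_group);
-- the grader kernel-checks Cfsg.Agent.S2455.result against that frozen type. Keep the theorem IN THIS FILE
-- (a `result` declared elsewhere and merely imported here is not credited); helpers may live anywhere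
-- under Cfsg/Agent/.
import Cfsg.Statements.S2455
-- import your own Cfsg.Agent.* helpers here

set_option autoImplicit false
open Cfsg

namespace Cfsg.Agent.S2455

/-- A strong covering result in the direction of Thompson's conjecture (non-identity elements) for PSL(2,q), q odd: let F be a finite field of odd characteristic p with at least 5 elements and let x ∈ PSL(2,F) have order greater than 2 and not divisible by p (so x is not unipotent). Then every non-identity element of PSL(2,F) is a product of two conjugates of x. -/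
theorem result {F : Type*} [Field F] [Fintype F] (p : ℕ) [Fact p.Prime] [CharP F p] (hp : p ≠ 2) (h5 : 5 ≤ Fintype.card F)
    (x : Matrix.ProjectiveSpecialLinearGroup (Fin 2) F) (hx2 : 2 < orderOf x) (hxp : ¬ p ∣ orderOf x) : ∀ g : Matrix.ProjectiveSpecialLinearGroup (Fin 2) F, g ≠ 1 → ∃ u v : Matrix.ProjectiveSpecialLinearGroup (Fin 2) F, g = (u * x * u⁻¹) * (v * x * v⁻¹) := by
  intro g hg
  have h2 := L.two_ne_zero_of_charP (F := F) p hp
  obtain ⟨s, rfl⟩ := QuotientGroup.mk_surjective x
  have h0 : (s : L.M2 F).trace ≠ 0 := fun e => by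
    have : orderOf (QuotientGroup.mk s : Matrix.ProjectiveSpecialLinearGroup (Fin 2) F) ≤ 2 :=
      orderOf_le_of_pow_eq_one two_pos (by
        rw [← QuotientGroup.mk_pow, sq, L.sq_eq_neg_one_of_trace e]; exact H09.PSL2.mk_eq_one_iff.2 (Or.inr rfl))
    omega
  have h4 : (s : L.M2 F).trace ^ 2 ≠ 4 := fun e => by
    have h1 : (QuotientGroup.mk s : Matrix.ProjectiveSpecialLinearGroup (Fin 2) F) ^ p = 1 := by
      rw [← QuotientGroup.mk_pow, H09.PSL2.mk_eq_one_iff, ← L.SL2_scal_iff, L.SL2_coe_pow]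
      have : (s : L.M2 F).trace = 2 * 1 ∨ (s : L.M2 F).trace = 2 * (-1) :=
        (sq_eq_sq_iff_eq_or_eq_neg.1 (by rw [e]; norm_num)).imp id (fun e => by rw [e]; ring)
      rcases this with e | e <;> rw [L.pow_char_of_par p e (by simp)] <;> exact L.isScal_smul_one _
    rcases (Nat.dvd_prime Fact.out).1 (orderOf_dvd_of_pow_eq_one h1) with h | h
    · omega
    · exact hxp h.symm.dvd
  obtain ⟨t, rfl, ht⟩ : ∃ t : L.SL2 F, QuotientGroup.mk t = g ∧ ((t : L.M2 F).trace ^ 2 ≠ 4 ∨ (t : L.M2 F).trace = 2) := by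
    obtain ⟨t, rfl⟩ := QuotientGroup.mk_surjective g
    by_cases h : (t : L.M2 F).trace = -2
    · exact ⟨-t, H09.PSL2.mk_eq_mk_iff.2 (Or.inr rfl), Or.inr (by rw [L.trace_neg', h, neg_neg])⟩
    · exact ⟨t, rfl, or_iff_not_imp_left.2 fun e => (sq_eq_sq_iff_eq_or_eq_neg.1
        (show _ = (2 : F) ^ 2 by rw [not_not.1 e]; norm_num)).resolve_right h⟩
  obtain ⟨y, z, hy, hz, rfl⟩ := L.exists_trace_pair (L.mk_ne_one_iff.1 hg) (s : L.M2 F).trace (-(s : L.M2 F).trace)
    (ht.imp id fun h => ⟨h, Or.inl fun e => mul_ne_zero h2 h0 (by linear_combination -e)⟩)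
  obtain ⟨u, hu⟩ := isConj_iff.1 (L.isConj_mk_iff.2 (Or.inl (L.isConj_SL_of_disc h4 hy.symm)))
  obtain ⟨v, hv⟩ := isConj_iff.1 (L.isConj_mk_iff.2 (Or.inr (L.isConj_SL_of_disc (h := -z) h4
    (by rw [L.trace_neg', hz, neg_neg]))))
  exact ⟨u, v, by rw [hu, hv]; rfl⟩

end Cfsg.Agent.S2455
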