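import Mathlib
import Cfsg.Agent.L.PSL2Tr
-- Template for statement S2456 (row 2456; see /opt/grader/pristine/manifest.json for weights).
-- Copy to Cfsg/Agent/S2456.lean and replace the sorry. The statement below is byte-identical to the frozen
-- statement Cfsg.CfsgFrozen.S2456 (Cfsg/Statements/S2456.lean; the theorem Cfsg.ore_psl_two_even_square_of_split_torus_class_covers_group);
-- the grader kernel-checks Cfsg.Agent.S2456.result against that frozen type. Keep the theorem IN THIS FILE
-- (a `result` declared elsewhere and merely imported here is not credited); helpers may live anywhere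
-- under Cfsg/Agent/.
import Cfsg.Statements.S2456
-- import your own Cfsg.Agent.* helpers here

set_option autoImplicit false
open Cfsg

namespace Cfsg.Agent.S2456

/-- A strong covering result in the direction of Thompson's conjecture (non-identity elements) for PSL(2,q), q even: let F be a finite field of characteristic 2 with q ≥ 4 elements and let x ∈ PSL(2,F) have order greater than 2 and not dividing q + 1. Then every non-identity element of PSL(2,F) is a product of two conjugates of x. -/
theorem result {F : Type*} [Field F] [Fintype F] [CharP F 2] (h4 : 4 ≤ Fintype.card F)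
    (x : Matrix.ProjectiveSpecialLinearGroup (Fin 2) F) (hx2 : 2 < orderOf x) (hxq : ¬ orderOf x ∣ Fintype.card F + 1) : ∀ g : Matrix.ProjectiveSpecialLinearGroup (Fin 2) F, g ≠ 1 → ∃ u v : Matrix.ProjectiveSpecialLinearGroup (Fin 2) F, g = (u * x * u⁻¹) * (v * x * v⁻¹) := by
  intro g hg
  have h2 : (2 : F) = 0 := by exact_mod_cast CharP.cast_eq_zero F 2
  obtain ⟨s, rfl⟩ := QuotientGroup.mk_surjective x
  have h0 : (s : L.M2 F).trace ≠ 0 := fun e => by
    have : orderOf (QuotientGroup.mk s : Matrix.ProjectiveSpecialLinearGroup (Fin 2) F) ≤ 2 :=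
      orderOf_le_of_pow_eq_one two_pos (by
        rw [← QuotientGroup.mk_pow, sq, L.sq_eq_neg_one_of_trace e]; exact H09.PSL2.mk_eq_one_iff.2 (Or.inr rfl))
    omega
  have h4 : (s : L.M2 F).trace ^ 2 ≠ 4 := fun e =>
    h0 (pow_eq_zero_iff two_ne_zero |>.1 (by linear_combination e + 2 * h2))
  have h5 : ¬ L.NoEig (s : L.M2 F) := fun e => hxq (by
    rw [← L.card_centralizer_SL_noEig e]
    exact (orderOf_map_dvd (QuotientGroup.mk' _) s).trans
      (Subgroup.orderOf_dvd_natCard _ (L.mem_centralizer_SL.2 rfl)))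
  rw [L.noEig_iff, L.SLc.det_SL] at h5
  push Not at h5
  obtain ⟨t, rfl⟩ := QuotientGroup.mk_surjective g
  obtain ⟨y, z, hy, hz, rfl⟩ := L.exists_trace_pair (L.mk_ne_one_iff.1 hg) (s : L.M2 F).trace (s : L.M2 F).trace
    (or_iff_not_imp_left.2 fun e => ⟨(pow_eq_zero_iff two_ne_zero |>.1 (by
      linear_combination not_not.1 e + 2 * h2)).trans h2.symm, Or.inr h5⟩)
  obtain ⟨u, hu⟩ := isConj_iff.1 (L.isConj_mk_iff.2 (Or.inl (L.isConj_SL_of_disc h4 hy.symm)))
  obtain ⟨v, hv⟩ := isConj_iff.1 (L.isConj_mk_iff.2 (Or.inl (L.isConj_SL_of_disc h4 hz.symm)))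
  exact ⟨u, v, by rw [hu, hv]; rfl⟩

end Cfsg.Agent.S2456
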