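import Mathlib
import Cfsg.Agent.H20.SzE
import Cfsg.Agent.H20.SzC
import Cfsg.Agent.H12.Sz3
import Cfsg.Agent.S0840
-- Template for statement S2457 (row 2457; see /opt/grader/pristine/manifest.json for weights).
-- Copy to Cfsg/Agent/S2457.lean and replace the sorry. The statement below is byte-identical to the frozen
-- statement Cfsg.CfsgFrozen.S2457 (Cfsg/Statements/S2457.lean; the theorem Cfsg.ore_suzuki_square_of_any_class_of_order_above_two_covers_group);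
-- the grader kernel-checks Cfsg.Agent.S2457.result against that frozen type. Keep the theorem IN THIS FILE
-- (a `result` declared elsewhere and merely imported here is not credited); helpers may live anywhere
-- under Cfsg/Agent/.
import Cfsg.Statements.S2457
-- import your own Cfsg.Agent.* helpers here

set_option autoImplicit false
open Cfsg

open H05 H12.Sz H12.CC H20.CCX Classical

namespace Cfsg.Agent.S2457

theorem of_ne {Γ : Type*} [Group Γ] [Fintype Γ] {x g x' g' : Γ} (hx : IsConj x' x) (hg : IsConj g' g)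
    (h : x' ^ 2 = g' ∨ ∑ χ, tm x' g' χ ≠ 0) : ∃ u v : Γ, g = u * x * u⁻¹ * (v * x * v⁻¹) := by
  obtain ⟨a, b, ha, hb, e⟩ : ∃ a b, IsConj x' a ∧ IsConj x' b ∧ a * b = g' := by
    rcases h with h | h
    · exact ⟨x', x', .refl _, .refl _, (sq x').symm.trans h⟩
    have h1 := Cfsg.Agent.S0840.result x' x' g'
    have h2 : Nonempty {y // IsConj x' y} := ⟨⟨x', .refl _⟩⟩
    rw [finsum_eq_sum_of_fintype] at h1
    have h3 : Nat.card {p : Γ × Γ // IsConj x' p.1 ∧ IsConj x' p.2 ∧ p.1 * p.2 = g'} ≠ 0 := fun h0 => by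
      rw [h0, Nat.cast_zero] at h1
      exact mul_ne_zero (div_ne_zero (mul_ne_zero card_ne_zero_complex' card_ne_zero_complex') card_ne_zero_complex) h h1.symm
    obtain ⟨⟨p, hp⟩⟩ := (Nat.card_ne_zero.1 h3).1
    exact ⟨p.1, p.2, hp⟩
  obtain ⟨c, rfl⟩ := isConj_iff.1 hg
  obtain ⟨u, rfl⟩ := isConj_iff.1 (hx.symm.trans ha)
  obtain ⟨v, rfl⟩ := isConj_iff.1 (hx.symm.trans hb)
  exact ⟨c * u, c * v, by rw [← e]; group⟩
where
  card_ne_zero_complex' {α : Type _} [Finite α] [Nonempty α] : (Nat.card α : ℂ) ≠ 0 := by exact_mod_cast Nat.card_pos.ne'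

theorem main {F : Type*} [Field F] [Fintype F] {m : ℕ} [hS : SzF F m] (x : G F m) (hx : x ^ 2 ≠ 1) (g : G F m)
    (hg : g ≠ 1) : ∃ u v : G F m, g = u * x * u⁻¹ * (v * x * v⁻¹) := by
  obtain ⟨j, A₁, A₂, hj, hq, t1, t2, hs, D⟩ := exists_szD (F := F)
  obtain ⟨W₁, W₂, X, P₁, P₂, T⟩ := D.exists_tab
  have E : Tw j (st F m) (uu 0 1) (uu 1 0) (Z F m) :=
    ⟨by simp [uu_pow_two], uu_pow_four _ _, by simp [uu_eq_one], hq ▸ card_cent_invol, hq ▸ card_cent_four one_ne_zero,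
      not_conj_inv one_ne_zero, st_U (uu_mem_U _ _) (by simp [uu_eq_one]), st_U (uu_mem_U _ _) (by simp [uu_eq_one]),
      hq ▸ card_Z, fun z hz z1 => (isConj_iff.2 (invol_conj z1 (sq_of_mem_Z hz))).symm⟩
  have R : ∀ {A : Subgroup (G F m)}, IsT A → ∀ y ∈ A, IsConj y y⁻¹ := fun h y hy => by
    obtain ⟨s, h1, h2, h3⟩ := h.oddPart.exists_invol
    exact isConj_iff.2 ⟨s, by rw [← h.oddPart.inverts h1 h2 h3 hy, inv_eq_of_mul_eq_one_left h2]⟩
  have cov : ∀ g : G F m, g ≠ 1 → ∃ g', IsConj g' g ∧ (g' = uu 0 1 ∨ (g' = uu 1 0 ∨ g' = (uu 1 0)⁻¹) ∨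
      g' ≠ 1 ∧ (g' ∈ H F m ∨ g' ∈ A₁ ∨ g' ∈ A₂)) := fun g g1 => by
    rcases elt_cases g with ⟨y, h⟩ | ⟨y, k, hk, h⟩ | h
    · by_cases h2 : g ^ 2 = 1
      · exact ⟨_, (isConj_iff.2 (invol_conj g1 h2)).symm, .inl rfl⟩
      · rcases four_conj (pow_four_of_conj h) h2 with h | h
        exacts [⟨_, h, .inr (.inl (.inl rfl))⟩, ⟨_, h, .inr (.inl (.inr rfl))⟩]
    · exact ⟨_, (isConj_iff.2 ⟨y, h⟩).symm, .inr (.inr ⟨mt hh_eq_one.1 hk, .inl (hh_mem_H k)⟩)⟩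
    · rcases (hs ▸ h : g ∈ supp ⊤ A₁ ∪ supp ⊤ A₂) with ⟨-, y, -, h⟩ | ⟨-, y, -, h⟩
      · exact ⟨_, (isConj_iff.2 ⟨y, rfl⟩).symm, .inr (.inr ⟨by simpa using g1, .inr (.inl h)⟩)⟩
      · exact ⟨_, (isConj_iff.2 ⟨y, rfl⟩).symm, .inr (.inr ⟨by simpa using g1, .inr (.inr h)⟩)⟩
  have key : ∀ x x' : G F m, IsConj x' x → (x' = uu 1 0 ∨ x' ≠ 1 ∧ (x' ∈ H F m ∨ x' ∈ A₁ ∨ x' ∈ A₂)) →
      ∀ g : G F m, g ≠ 1 → ∃ u v : G F m, g = u * x * u⁻¹ * (v * x * v⁻¹) := fun x x' h1 h2 g g1 => by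
    obtain ⟨g', h3, h4⟩ := cov g g1
    exact of_ne h1 h3 ((E.SS_ne D T (R t2) (R t1) h2 h4).imp_left fun h => by rw [h.1, h.2, E.sq])
  obtain ⟨x', h1, rfl | (h2 | rfl) | h2⟩ := cov x fun e => hx (by simp [e])
  · obtain ⟨c, rfl⟩ := isConj_iff.1 h1
    exact absurd (by rw [conj_pow, sq_of_mem_Z (uu_mem_Z 1)]; simp) hx
  · exact key x x' h1 (.inl h2) g hg
  · obtain ⟨u, v, e⟩ := key x⁻¹ _ (inv_inv (uu 1 0 : G F m) ▸ isConj_inv h1) (.inl rfl) g⁻¹ (inv_ne_one.2 hg)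
    exact ⟨v, u, by rw [← inv_inv g, e]; group⟩
  · exact key x x' h1 (.inr h2) g hg

/-- A strong covering result in the direction of Thompson's conjecture (non-identity elements) for the Suzuki groups: let q = 2^(2m+1) ≥ 8, F the field with q elements and Sz(q) the Suzuki group over F. For every element x of Sz(q) of order greater than 2, every non-identity element of Sz(q) is a product of two conjugates of x. -/
theorem result {F : Type*} [Field F] [Fintype F] (m : ℕ) (hm : 1 ≤ m) (hF : Fintype.card F = 2 ^ (2 * m + 1))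
    (x : Cfsg.Lie.Sz F (2 ^ (m + 1))) (hx2 : 2 < orderOf x) : ∀ g : Cfsg.Lie.Sz F (2 ^ (m + 1)), g ≠ 1 → ∃ u v : Cfsg.Lie.Sz F (2 ^ (m + 1)), g = (u * x * u⁻¹) * (v * x * v⁻¹) := by
  have hS : SzF F m := ⟨hm, hF⟩
  intro g hg
  let e := lieEquiv (F := F)
  obtain ⟨u, v, h⟩ := main (e.symm x) (fun h => by
    rw [← map_pow, map_eq_one_iff _ e.symm.injective] at h
    exact absurd (Nat.le_of_dvd two_pos (orderOf_dvd_of_pow_eq_one h)) (by omega)) (e.symm g) (by simpa using hg)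
  exact ⟨e u, e v, by simpa using congrArg e h⟩

end Cfsg.Agent.S2457
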