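import Mathlib
import Cfsg.Statements.S2459
import Cfsg.Agent.H16.Th1

set_option autoImplicit false
open Cfsg

namespace Cfsg.Agent.S2459

open Polynomial

/-- A form of Thompson's conjecture for PSL(3,q), q > 2 (covering the non-identity elements), with a semisimple class: for F a finite field of characteristic p with more than 2 elements there is an element x of PSL(3,F) of order prime to p such that every non-identity element of PSL(3,F) is a product of two conjugates of x. -/
theorem result {F : Type*} [Field F] [Fintype F] (p : ℕ) [Fact p.Prime] [CharP F p] (h3 : 3 ≤ Fintype.card F) :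
    ∃ x : Matrix.ProjectiveSpecialLinearGroup (Fin 3) F, ¬ p ∣ orderOf x ∧ ∀ g : Matrix.ProjectiveSpecialLinearGroup (Fin 3) F, g ≠ 1 → ∃ u v : Matrix.ProjectiveSpecialLinearGroup (Fin 3) F, g = (u * x * u⁻¹) * (v * x * v⁻¹) := by
  classical
  obtain ⟨t, h1, h2⟩ : ∃ t : F, 2 - t ≠ 0 ∧ 2 + t ≠ 0 := by
    by_contra! e
    have := Finset.card_le_two (a := (2 : F)) (b := -2)
    rw [Finset.eq_univ_of_forall (s := {2, -2}) fun t => ?_, Finset.card_univ] at this
    · omega
    by_cases h : 2 - t = 0
    · simp [← sub_eq_zero.1 h]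
    · simp [eq_neg_of_add_eq_zero_right (e t h)]
  let x : Matrix.SpecialLinearGroup (Fin 3) F := ⟨!![1, 0, 0; 0, 0, -1; 0, 1, t], by simp [Matrix.det_fin_three]⟩
  refine ⟨QuotientGroup.mk x, fun h => ?_, fun g hg => ?_⟩
  · refine H16.Th.not_dvd_orderOf' p (G := Matrix.SpecialLinearGroup (Fin 3) F)
      ⟨⟨Subtype.val, rfl⟩, fun _ _ => rfl⟩ Subtype.val_injective (x := x)
      (P := (X - C 1) * (X ^ 2 - C t * X + C 1)) (Separable.mul separable_X_sub_C (H16.Th.sep_quad fun e => ?_) ?_)
      ?_ (h.trans (orderOf_map_dvd (QuotientGroup.mk' _) x))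
    · exact mul_ne_zero h1 h2 (by linear_combination -e)
    · refine ⟨-C (2 - t)⁻¹ * (X + 1 - C t), C (2 - t)⁻¹, ?_⟩
      have := congrArg C (inv_mul_cancel₀ h1)
      simp only [map_mul, map_sub, map_one, map_ofNat] at this ⊢
      linear_combination this
    · change aeval x.1 _ = 0
      simp only [map_mul, map_sub, map_add, aeval_X, aeval_C, map_one, sq, x, Algebra.algebraMap_eq_smul_one,
        Matrix.one_fin_three]
      ext i j
      fin_cases i <;> fin_cases j <;> simp
  · obtain ⟨g, rfl⟩ := QuotientGroup.mk_surjective g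
    obtain ⟨u, v, h⟩ := H16.Th.sl3 h1 (x := x) rfl g fun h => hg ((QuotientGroup.eq_one_iff _).2 h)
    exact ⟨QuotientGroup.mk u, QuotientGroup.mk v, congrArg _ h⟩

end Cfsg.Agent.S2459
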