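import Mathlib
import Cfsg.Statements.S2460
import Cfsg.Agent.H16.Th3

set_option autoImplicit false
open Cfsg

namespace Cfsg.Agent.S2460

open Polynomial Matrix H16.Th

/-- A form of Thompson's conjecture for the simple groups PSp(4,q), q ≥ 3 (covering the non-identity elements), with a semisimple class: for F a finite field of characteristic p with at least 3 elements there is an element x of PSp(4,F) of order prime to p such that every non-identity element of PSp(4,F) is a product of two conjugates of x. -/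
theorem result {F : Type*} [Field F] [Fintype F] (p : ℕ) [Fact p.Prime] [CharP F p] (h3 : 3 ≤ Fintype.card F) :
    ∃ x : Cfsg.PSp 2 F, ¬ p ∣ orderOf x ∧ ∀ g : Cfsg.PSp 2 F, g ≠ 1 → ∃ u v : Cfsg.PSp 2 F, g = (u * x * u⁻¹) * (v * x * v⁻¹) := by
  classical
  suffices ∃ (x y : GL (Fin 2) F) (P : F[X]), P.Separable ∧ aeval (lv x).1 P = 0 ∧ x.1 = x.1ᵀ ∧ Fp x.1 ∧ Fp (x⁻¹).1ᵀ ∧
      Fp y.1ᵀ ∧ IsConj (lv x) (lv y) ∧ (x * y).1 1 1 = -(x * y).1 0 0 by
    obtain ⟨x, y, P, h1, h2, h3, h4, h5, h6, h7, h8⟩ := this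
    exact ⟨_, fun h => not_dvd_orderOf' p (symplecticGroup (Fin 2) F).subtype Subtype.val_injective (x := lv x) h1 h2
      (h.trans (orderOf_map_dvd (QuotientGroup.mk' _) _)), sp4_main h3 h4 h5 h6 h7 h8⟩
  by_cases h2 : (2 : F) = 0
  · obtain ⟨a, a0, a1⟩ : ∃ a : F, a ≠ 0 ∧ a ≠ 1 := by
      by_contra! e
      have := Finset.card_le_two (a := (0 : F)) (b := 1)
      rw [Finset.eq_univ_of_forall (s := {0, 1}) fun t => by by_cases h : t = 0 <;> simp [h, e], Finset.card_univ] at this
      omega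
    have a2 : a * a ≠ 1 := fun h => a1 (sub_eq_zero.1 (pow_eq_zero_iff two_ne_zero |>.1 (by
      linear_combination h + (1 - a) * h2)))
    have f : ∀ c : F, c * c ≠ 1 → Fp (c • (1 : Matrix (Fin 2) (Fin 2) F)) := fun c hc S h => by
      have : (c * c - 1) • S = 0 := by rw [sub_smul, one_smul, sub_eq_zero]; simpa [smul_smul] using h
      exact (smul_eq_zero.1 this).resolve_left (sub_ne_zero.2 hc)
    have f' : Fp (a⁻¹ • (1 : Matrix (Fin 2) (Fin 2) F))ᵀ := by
      rw [transpose_smul, transpose_one]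
      exact f _ (by rwa [← mul_inv, Ne, inv_eq_one])
    let x : GL (Fin 2) F := ⟨a • 1, a⁻¹ • 1, by simp [smul_smul, a0], by simp [smul_smul, a0]⟩
    refine ⟨x, x⁻¹, X ^ 2 - C (a + a⁻¹) * X + C 1, sep_quad fun e => a2 (sub_eq_zero.1 (pow_eq_zero_iff two_ne_zero |>.1 ?_)),
      ?_, by simp [x], f a a2, f', f', conj_tr (by simp [x]), by simpa [eq_neg_iff_add_eq_zero, one_add_one_eq_two] using h2⟩
    · field_simp at e
      linear_combination e
    · change aeval (fromBlocks (a • 1) 0 0 (a⁻¹ • 1)ᵀ) _ = 0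
      simp only [map_mul, map_sub, map_add, aeval_X, aeval_C, map_one, sq, Algebra.algebraMap_eq_smul_one]
      ext (i | i) (j | j) <;> fin_cases i <;> fin_cases j <;> simp [mul_apply] <;> field_simp <;> ring
  obtain ⟨a, s, h, hc⟩ : ∃ a s : F, s ^ 2 = 2 * a ^ 2 - 6 * a + 3 ∧ a - 2 - s ≠ 0 := by
    obtain ⟨s, a, h⟩ := FiniteField.exists_root_sum_quadratic (R := F) (f := X ^ 2) (g := -(C 2 * X ^ 2 - C 6 * X + C 3))
      (degree_X_pow 2) (by rw [degree_neg]; compute_degree!) (FiniteField.odd_card_of_char_ne_two fun h => h2 (by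
        simpa [h] using ringChar.Nat.cast_ringChar (R := F)))
    simp only [eval_neg, eval_add, eval_sub, eval_mul, eval_pow, eval_X, eval_C] at h
    by_cases h4 : a - 2 - s = 0
    · exact ⟨a, -s, by linear_combination h, fun h5 => h2 (by
        have : 2 * s = 0 := by linear_combination h5 - h4
        obtain rfl := (mul_eq_zero.1 this).resolve_left h2
        linear_combination 2 * h + 2 * (2 * a - 2) * h4)⟩
    · exact ⟨a, s, by linear_combination h, h4⟩
  have h4 : (4 : F) ≠ 0 := fun e => mul_ne_zero h2 h2 (by linear_combination e)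
  have h8 : (8 : F) ≠ 0 := fun e => mul_ne_zero h2 h4 (by linear_combination e)
  let x : GL (Fin 2) F := ⟨!![0, 1; 1, 2], !![-2, 1; 1, 0], by simp [one_fin_two], by simp [one_fin_two]⟩
  let y : GL (Fin 2) F := GeneralLinearGroup.mkOfDetNeZero !![a, a - 2 + s; a - 2 - s, 2 - a] (by
    rw [det_fin_two_of, show a * (2 - a) - (a - 2 + s) * (a - 2 - s) = -1 by linear_combination h]; simp)
  have f : ∀ z : Matrix (Fin 2) (Fin 2) F, z.det = -1 → z.trace ^ 2 = 4 → Fp z := fun z e e' =>
    fp_two (by rw [e]; exact fun h => h2 (by linear_combination -h)) (by rw [e, e']; simpa using h4.symm)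
  refine ⟨x, y, (X ^ 2 - C 2 * X + C (-1)) * (X ^ 2 - C (-2) * X + C (-1)), (sep_quad fun e => h8 ?_).mul
    (sep_quad fun e => h8 ?_) ⟨-1 - C 4⁻¹ * (X - 2), C 4⁻¹ * (X - 2), ?_⟩, ?_, ?_, f _ (by simp [x]) (by simp [x]; norm_num),
    f _ (by simp [x, det_fin_two]) (by simp [x]; norm_num), f _ ?_ (by simp [y]; norm_num),
    MonoidHom.map_isConj _ (isConj_iff.2 ⟨GeneralLinearGroup.mkOfDetNeZero !![1, a; 0, a - 2 - s] (by simpa using hc),
      mul_inv_eq_iff_eq_mul.2 (Units.ext ?_)⟩), ?_⟩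
  · linear_combination e
  · linear_combination e
  · have := congrArg C (inv_mul_cancel₀ h4)
    simp only [map_mul, map_neg, map_one, map_ofNat] at this ⊢
    linear_combination (X ^ 2 - 2 * X) * this
  · change aeval (fromBlocks !![0, 1; 1, 2] 0 0 !![-2, 1; 1, 0]ᵀ) _ = 0
    simp only [map_mul, map_sub, map_add, aeval_X, aeval_C, sq, Algebra.algebraMap_eq_smul_one]
    ext (i | i) (j | j) <;> fin_cases i <;> fin_cases j <;> simp [mul_apply, one_apply] <;> norm_num
  · ext i j; fin_cases i <;> fin_cases j <;> rfl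
  · simp [y, det_fin_two]; linear_combination h
  · ext i j; fin_cases i <;> fin_cases j <;> simp [x, y, mul_apply] <;> first | ring1 | linear_combination h
  · simp [x, y, mul_apply]; ring

end Cfsg.Agent.S2460
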