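import Mathlib
import Cfsg.Statements.S2466

set_option autoImplicit false
open Cfsg

namespace Cfsg.Agent.S2466

/-- Adjacency of odd primes in the prime graph of the alternating groups: let r ≠ s be odd primes at most n. The alternating group of degree n has an element of order r·s if and only if r + s ≤ n. -/
theorem result (n r s : ℕ) (hr : r.Prime) (hs : s.Prime) (hr2 : r ≠ 2) (hs2 : s ≠ 2) (hrs : r ≠ s) (hrn : r ≤ n) (hsn : s ≤ n) :
    (r * s ∈ Set.range (orderOf : alternatingGroup (Fin n) → ℕ)) ↔ r + s ≤ n := by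
  constructor
  · rintro ⟨g, hg⟩
    rw [← Subgroup.orderOf_coe, ← Equiv.Perm.lcm_cycleType] at hg
    have h1 := (g : Equiv.Perm (Fin n)).sum_cycleType_le
    rw [Fintype.card_fin] at h1
    have key : ∀ p : ℕ, p.Prime → ∀ m : Multiset ℕ, p ∣ m.lcm → ∃ a ∈ m, p ∣ a := by
      intro p hp m
      induction m using Multiset.induction_on with
      | empty => intro h; exact absurd (Nat.dvd_one.1 (by simpa using h)) hp.one_lt.ne'
      | cons a m ih =>
        intro h
        rw [Multiset.lcm_cons] at h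
        rcases (Nat.Prime.dvd_mul hp).1 (h.trans (Nat.lcm_dvd_mul _ _)) with h | h
        · exact ⟨a, Multiset.mem_cons_self _ _, h⟩
        · obtain ⟨b, hb, h⟩ := ih h
          exact ⟨b, Multiset.mem_cons_of_mem hb, h⟩
    obtain ⟨a, ha, hra⟩ := key r hr _ (hg ▸ dvd_mul_right r s)
    obtain ⟨b, hb, hsb⟩ := key s hs _ (hg ▸ dvd_mul_left s r)
    have ha2 := Equiv.Perm.two_le_of_mem_cycleType ha
    have hb2 := Equiv.Perm.two_le_of_mem_cycleType hb
    by_cases hab : a = b
    · subst hab
      have h2 := Nat.le_of_dvd (by omega) (((Nat.coprime_primes hr hs).2 hrs).mul_dvd_of_dvd_of_dvd hra hsb)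
      have h3 := Multiset.le_sum_of_mem ha
      have := hr.two_le; have := hs.two_le
      nlinarith
    · have h2 := Multiset.le_sum_of_mem ((Multiset.mem_erase_of_ne (Ne.symm hab)).2 hb)
      have h3 := Multiset.sum_erase ha
      have := Nat.le_of_dvd (by omega) hra
      have := Nat.le_of_dvd (by omega) hsb
      omega
  · intro h
    obtain ⟨g, hg⟩ := (Equiv.Perm.exists_with_cycleType_iff (α := Fin n) (m := {r, s})).2 ⟨by simpa using h, by
      simp [hr.two_le, hs.two_le]⟩
    refine ⟨⟨g, ?_⟩, ?_⟩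
    · rw [Equiv.Perm.mem_alternatingGroup, Equiv.Perm.sign_of_cycleType, hg]
      apply Even.neg_one_pow
      obtain ⟨a, rfl⟩ := hr.odd_of_ne_two hr2
      obtain ⟨b, rfl⟩ := hs.odd_of_ne_two hs2
      exact ⟨a + b + 2, by simp; ring⟩
    · rw [← Subgroup.orderOf_coe, ← Equiv.Perm.lcm_cycleType]
      simp [hg, lcm_eq_nat_lcm, ((Nat.coprime_primes hr hs).2 hrs).lcm_eq_mul]

end Cfsg.Agent.S2466
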