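import Mathlib
import Cfsg.Statements.S2467

set_option autoImplicit false
open Cfsg

namespace Cfsg.Agent.S2467

/-- Adjacency of 2 and an odd prime in the prime graph of the alternating groups: let r be an odd prime at most n, with n ≥ 4. The alternating group of degree n has an element of order 2r if and only if r + 4 ≤ n. -/
theorem result (n r : ℕ) (hn : 4 ≤ n) (hr : r.Prime) (hr2 : r ≠ 2) (hrn : r ≤ n) :
    (2 * r ∈ Set.range (orderOf : alternatingGroup (Fin n) → ℕ)) ↔ r + 4 ≤ n := by
  have hr3 : 3 ≤ r := by have := hr.two_le; omega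
  obtain ⟨t, ht⟩ := hr.odd_of_ne_two hr2
  constructor
  · rintro ⟨g, hg⟩
    rw [← Subgroup.orderOf_coe, ← Equiv.Perm.lcm_cycleType] at hg
    have h1 := (g : Equiv.Perm (Fin n)).sum_cycleType_le
    have h0 := g.2
    rw [Equiv.Perm.mem_alternatingGroup, Equiv.Perm.sign_of_cycleType, neg_one_pow_eq_one_iff_even (by decide)] at h0
    rw [Fintype.card_fin] at h1
    have h2 : ∀ a ∈ (g : Equiv.Perm (Fin n)).cycleType, a = 2 ∨ a = r ∨ a = 2 * r := by
      intro a ha
      have h3 := Multiset.dvd_lcm ha
      have h4 := Equiv.Perm.two_le_of_mem_cycleType ha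
      rw [hg] at h3
      obtain ⟨x, y, hx, hy, rfl⟩ := (Nat.dvd_mul).1 h3
      rcases (Nat.dvd_prime Nat.prime_two).1 hx with rfl | rfl <;> rcases (Nat.dvd_prime hr).1 hy with rfl | rfl <;> omega
    generalize (g : Equiv.Perm (Fin n)).cycleType = m at *
    have h3 : m = Multiset.replicate (m.count 2) 2 + Multiset.replicate (m.count r) r + Multiset.replicate (m.count (2 * r)) (2 * r) := by
      ext a
      simp only [Multiset.count_add, Multiset.count_replicate]
      by_cases ha : a ∈ m
      · rcases h2 a ha with rfl | rfl | rfl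
        · rw [if_pos rfl, if_neg (by omega), if_neg (by omega)]; rfl
        · rw [if_pos rfl, if_neg (by omega), if_neg (by omega)]; simp
        · rw [if_pos rfl, if_neg (by omega), if_neg (by omega)]; simp
      · rw [Multiset.count_eq_zero.2 ha]
        split_ifs with h4 h5 h6 h7 h8 h9 h10 <;> subst_vars <;> simp_all
    generalize m.count 2 = a at h3
    generalize m.count r = b at h3
    generalize m.count (2 * r) = c at h3
    subst h3
    simp only [Multiset.sum_add, Multiset.sum_replicate, smul_eq_mul, Multiset.card_add, Multiset.card_replicate] at h0 h1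
    have h4 : ¬ (a = 0 ∧ c = 0) := by
      rintro ⟨rfl, rfl⟩
      have : 2 * r ∣ r := hg ▸ Multiset.lcm_dvd.2 fun x hx => by
        simp only [Multiset.replicate_zero, zero_add, add_zero] at hx
        rw [Multiset.eq_of_mem_replicate hx]
      have := Nat.le_of_dvd (by omega) this
      omega
    have h5 : ¬ (b = 0 ∧ c = 0) := by
      rintro ⟨rfl, rfl⟩
      have : 2 * r ∣ 2 := hg ▸ Multiset.lcm_dvd.2 fun x hx => by
        simp only [Multiset.replicate_zero, zero_add, add_zero] at hx
        rw [Multiset.eq_of_mem_replicate hx]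
      have := Nat.le_of_dvd (by omega) this
      omega
    have h6 : (a + c) % 2 = 0 := by
      rw [Nat.even_iff] at h0
      subst ht
      have : a * 2 + b * (2 * t + 1) + c * (2 * (2 * t + 1)) + (a + b + c) = 2 * (a + b * t + b + c * (2 * t + 1)) + (a + c) := by ring
      omega
    rcases Nat.eq_zero_or_pos c with rfl | hc
    · have : r ≤ b * r := Nat.le_mul_of_pos_left _ (by omega)
      omega
    · rcases Nat.eq_zero_or_pos a with rfl | ha
      · have : 2 * (2 * r) ≤ c * (2 * r) := Nat.mul_le_mul_right _ (by omega)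
        omega
      · have : 2 * r ≤ c * (2 * r) := Nat.le_mul_of_pos_left _ hc
        omega
  · intro h
    obtain ⟨g, hg⟩ := (Equiv.Perm.exists_with_cycleType_iff (α := Fin n) (m := {2, 2, r})).2 ⟨by simp; omega, by
      simp [hr.two_le]⟩
    refine ⟨⟨g, ?_⟩, ?_⟩
    · rw [Equiv.Perm.mem_alternatingGroup, Equiv.Perm.sign_of_cycleType, hg]
      apply Even.neg_one_pow
      exact ⟨t + 4, by simp; omega⟩
    · rw [← Subgroup.orderOf_coe, ← Equiv.Perm.lcm_cycleType]
      have h2 : Nat.lcm 2 r = 2 * r := ((Nat.coprime_primes Nat.prime_two hr).2 hr2.symm).lcm_eq_mul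
      simp only [hg, Multiset.insert_eq_cons, Multiset.lcm_cons, Multiset.lcm_singleton, normalize_eq, lcm_eq_nat_lcm]
      rw [← Nat.lcm_assoc, Nat.lcm_self, h2]

end Cfsg.Agent.S2467
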