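import Mathlib
import Cfsg.Agent.L.PSL2Sub
-- Template for statement S2471 (row 2471; see /opt/grader/pristine/manifest.json for weights).
-- Copy to Cfsg/Agent/S2471.lean and replace the sorry. The statement below is byte-identical to the frozen
-- statement Cfsg.CfsgFrozen.S2471 (Cfsg/Statements/S2471.lean; the theorem Cfsg.kfact5_psl_two_odd_no_element_of_order_twice_characteristic);
-- the grader kernel-checks Cfsg.Agent.S2471.result against that frozen type. Keep the theorem IN THIS FILE
-- (a `result` declared elsewhere and merely imported here is not credited); helpers may live anywhere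
-- under Cfsg/Agent/.
import Cfsg.Statements.S2471
-- import your own Cfsg.Agent.* helpers here

set_option autoImplicit false
open Cfsg

namespace Cfsg.Agent.S2471

/-- In PSL(2,q) with q odd, the characteristic p is isolated from 2 in the prime graph: for F a finite field of odd characteristic p with at least 5 elements, PSL(2,F) has no element of order 2p. -/
theorem result {F : Type*} [Field F] [Fintype F] (p : ℕ) [Fact p.Prime] [CharP F p] (hp : p ≠ 2) (h5 : 5 ≤ Fintype.card F) (g : Matrix.ProjectiveSpecialLinearGroup (Fin 2) F) :
    orderOf g ≠ 2 * p := by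
  intro e
  have hpp : p.Prime := Fact.out
  have h1 := L.Dk.char_dvd_card (F := F) p
  rcases L.Dk.orderOf_psl p g with h | h | h
  · have := Nat.le_of_dvd hpp.pos (orderOf_dvd_of_pow_eq_one h)
    have := hpp.pos
    omega
  · have h2 : p ∣ Fintype.card F - 1 := (Dvd.intro_left _ (by rw [e, ← mul_assoc])).trans h
    exact hpp.not_dvd_one ((Nat.dvd_sub_iff_right (by omega) h1).1 h2)
  · have h2 : p ∣ Fintype.card F + 1 := (Dvd.intro_left _ (by rw [e, ← mul_assoc])).trans h
    exact hpp.not_dvd_one ((Nat.dvd_add_right h1).1 h2)

end Cfsg.Agent.S2471
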