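import Mathlib
import Cfsg.Statements.S2474
import Cfsg.Agent.H16.SpecO

set_option autoImplicit false
open Cfsg

namespace Cfsg.Agent.S2474

/-- For q odd and n ≥ 3 the simple groups PΩ(2n+1,q) and PSp(2n,q) (which have the same order but different sets of element orders) have the same prime graph: for all distinct primes r, s, one of them has an element of order r·s if and only if the other does. -/
theorem result {F : Type*} [Field F] [Fintype F] (hodd : Odd (Fintype.card F)) (n : ℕ) (hn : 3 ≤ n) (r s : ℕ) (hr : r.Prime) (hs : s.Prime) (hrs : r ≠ s) :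
    (r * s ∈ Set.range (orderOf : Cfsg.POmega F (Cfsg.quadFormOdd n F) → ℕ)) ↔ (r * s ∈ Set.range (orderOf : Cfsg.PSp n F → ℕ)) := by
  obtain ⟨p, hc⟩ := CharP.exists F
  haveI := Fact.mk (CharP.char_is_prime F p)
  have h2 := H16.two_ne_zero_of_odd hodd
  have hp2 : p ≠ 2 := fun h => (H16.odd_char p h2).not_two_dvd_nat h.symm.dvd
  have k2 : ∀ s : ℕ, s.Prime → s ≠ 2 → ((2 * s ∈ Set.range (orderOf : Cfsg.POmega F (Cfsg.quadFormOdd n F) → ℕ)) ↔
      (2 * s ∈ Set.range (orderOf : Cfsg.PSp n F → ℕ))) := fun s hs hs2 => by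
    by_cases hsp : s = p
    · rw [hsp]
      exact iff_of_true (H16.om_two_p p (by omega) hodd) (H16.psp_two_p p (by omega) hodd)
    · rw [H16.om_two_iff p (by omega) hodd hs hs2 hsp, H16.psp_two_iff p (by omega) hodd hs hs2 hsp]
  have kp : ∀ s : ℕ, s.Prime → s ≠ 2 → s ≠ p →
      ((p * s ∈ Set.range (orderOf : Cfsg.POmega F (Cfsg.quadFormOdd n F) → ℕ)) ↔
      (p * s ∈ Set.range (orderOf : Cfsg.PSp n F → ℕ))) := fun s hs hs2 hsp => by
    rw [H16.om_ps_iff p h2 (by omega) hs hs2 hsp, H16.psp_ps_iff p hs hs2 hsp]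
  by_cases hr2 : r = 2
  · subst hr2; exact k2 s hs hrs.symm
  by_cases hs2 : s = 2
  · subst hs2; rw [mul_comm]; exact k2 r hr hrs
  by_cases hrp : r = p
  · subst hrp; exact kp s hs hs2 hrs.symm
  by_cases hsp : s = p
  · subst hsp; rw [mul_comm]; exact kp r hr hr2 hrs
  rw [H16.om_rs_iff p h2 (by omega) hr hs hrs hr2 hs2 hrp hsp, H16.psp_rs_iff p hr hs hrs hr2 hs2 hrp hsp]

end Cfsg.Agent.S2474
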