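import Mathlib
import Cfsg.Agent.L.PSL2Sub
-- Template for statement S2475 (row 2475; see /opt/grader/pristine/manifest.json for weights).
-- Copy to Cfsg/Agent/S2475.lean and replace the sorry. The statement below is byte-identical to the frozen
-- statement Cfsg.CfsgFrozen.S2475 (Cfsg/Statements/S2475.lean; the theorem Cfsg.kfact5_psl_two_spectrum);
-- the grader kernel-checks Cfsg.Agent.S2475.result against that frozen type. Keep the theorem IN THIS FILE
-- (a `result` declared elsewhere and merely imported here is not credited); helpers may live anywhere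
-- under Cfsg/Agent/.
import Cfsg.Statements.S2475
-- import your own Cfsg.Agent.* helpers here

set_option autoImplicit false
open Cfsg

namespace Cfsg.Agent.S2475

/-- The set of element orders of PSL(2,q): let F be a finite field of characteristic p with q ≥ 4 elements and d = gcd(2, q − 1). The orders of elements of PSL(2,F) are exactly the divisors of p, of (q − 1)/d and of (q + 1)/d. -/
theorem result {F : Type*} [Field F] [Fintype F] (p : ℕ) [Fact p.Prime] [CharP F p] (h4 : 4 ≤ Fintype.card F) :
    Set.range (orderOf : Matrix.ProjectiveSpecialLinearGroup (Fin 2) F → ℕ) =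
      {m : ℕ | m ∣ p ∨ m ∣ (Fintype.card F - 1) / Nat.gcd 2 (Fintype.card F - 1) ∨ m ∣ (Fintype.card F + 1) / Nat.gcd 2 (Fintype.card F - 1)} := by
  ext m
  constructor
  · rintro ⟨g, rfl⟩
    exact (L.Dk.orderOf_psl p g).imp orderOf_dvd_of_pow_eq_one (Or.imp L.Dk.dvd_div_dd L.Dk.dvd_div_dd)
  · have key : ∀ g : Matrix.ProjectiveSpecialLinearGroup (Fin 2) F, m ∣ orderOf g →
        m ∈ Set.range (orderOf : Matrix.ProjectiveSpecialLinearGroup (Fin 2) F → ℕ) := fun g h =>
      ⟨g ^ (orderOf g / m), orderOf_pow_orderOf_div (orderOf_pos g).ne' h⟩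
    rintro (h | h | h)
    · obtain ⟨g, hg⟩ := L.Dk.exists_orderOf_char (F := F) p
      exact key g (hg ▸ h)
    · obtain ⟨g, hg⟩ := L.Dk.exists_orderOf_sub h4
      exact key g (L.Dk.eq_div_dd hg ▸ h)
    · obtain ⟨g, hg⟩ := L.Dk.exists_orderOf_add (F := F)
      exact key g (L.Dk.eq_div_dd hg ▸ h)

end Cfsg.Agent.S2475
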