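import Cfsg.Statements.S2478
import Cfsg.Agent.H16.CntSL
-- import your own Cfsg.Agent.* helpers here

set_option autoImplicit false
open Cfsg

namespace Cfsg.Agent.S2478

open H16.Cnt H24.Sim Finset

theorem Z_rec {q : ℕ} (hq : 1 ≤ q) (k : ℕ) {j : ℕ} (hj : 1 ≤ j) :
    (1 - (q : PowerSeries ℤ) * PowerSeries.X ^ j) * PowerSeries.mk (fun n => (Z (NN q) (k + 1) j n : ℤ)) =
      (1 - PowerSeries.X ^ j) * PowerSeries.mk fun n => (Z (NN q) k (j + 1) n : ℤ) := by
  ext n
  rw [sub_mul, sub_mul, one_mul, one_mul, mul_assoc, ← nsmul_eq_mul, map_sub, map_sub, map_nsmul,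
    PowerSeries.coeff_X_pow_mul', PowerSeries.coeff_X_pow_mul']
  simp only [PowerSeries.coeff_mk]
  rw [Z, sum_range_succ']
  split_ifs with h h0
  · rw [Z, sum_subset (range_mono (by omega : n - j + 1 ≤ n)) fun m _ hm => if_neg (by
      rw [mem_range] at hm; nlinarith)]
    obtain ⟨n, rfl⟩ : ∃ m, n = m + 1 := ⟨n - 1, by omega⟩
    rw [sum_range_succ', sum_range_succ']
    push_cast
    rw [nsmul_eq_mul, mul_add, mul_sum, sum_congr rfl (g := fun m => (q : ℤ) * if j * (m + 1) ≤ n + 1 - j then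
      (NN q j (m + 1) : ℤ) * Z (NN q) k (j + 1) (n + 1 - j - j * (m + 1)) else 0) fun m _ => by
        rw [show j * (m + 1 + 1) = j + j * (m + 1) by ring, Nat.sub_sub]
        split_ifs <;> first | omega | (simp [NN]; try ring)]
    simp [NN, h0, Nat.cast_sub hq]
    ring
  · rw [sum_eq_zero fun m _ => if_neg (by nlinarith)]; simp [NN]
  · omega
  · omega

theorem Z_le {q : ℕ} (hq : 1 ≤ q) (k n : ℕ) : Z (NN q) k 1 n ≤ q ^ n := by
  have h : ∀ k j, 1 ≤ j → ∃ R : PowerSeries ℤ, (∀ n, 0 ≤ PowerSeries.coeff n R) ∧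
      1 - (q : PowerSeries ℤ) * PowerSeries.X ^ (j + k) = (1 - (q : PowerSeries ℤ) * PowerSeries.X ^ j) *
        PowerSeries.mk (fun n => (Z (NN q) k j n : ℤ)) + (1 - (q : PowerSeries ℤ) * PowerSeries.X) * R := fun k => by
    induction k with
    | zero =>
      intro j _
      have : PowerSeries.mk (fun n => (Z (NN q) 0 j n : ℤ)) = 1 := by ext n; simp [Z, PowerSeries.coeff_one]
      exact ⟨0, by simp, by simp [this]⟩
    | succ k ih =>
      intro j hj
      obtain ⟨R, h1, h2⟩ := ih (j + 1) (by omega)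
      refine ⟨R + PowerSeries.X ^ j * PowerSeries.mk fun n => (Z (NN q) k (j + 1) n : ℤ), fun n => ?_, ?_⟩
      · rw [map_add, PowerSeries.coeff_X_pow_mul']
        refine add_nonneg (h1 n) ?_
        split_ifs <;> simp
      · rw [Z_rec hq k hj, show j + (k + 1) = j + 1 + k by ring, h2]; ring
  obtain ⟨R, h1, h2⟩ := h k 1 le_rfl
  have h3 := PowerSeries.mk_one_mul_one_sub_eq_one ℤ
  have h4 : PowerSeries.mk (fun n => (q : ℤ) ^ n) * (1 - (q : PowerSeries ℤ) * PowerSeries.X) = 1 := by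
    have := congrArg (PowerSeries.rescale (q : ℤ)) h3
    rw [map_mul, map_sub, map_one, PowerSeries.rescale_X, PowerSeries.rescale_mk] at this
    simpa using this
  have h5 : PowerSeries.mk (fun n => (Z (NN q) k 1 n : ℤ)) + R + (q : PowerSeries ℤ) * (PowerSeries.X ^ (1 + k) *
      PowerSeries.mk fun n => (q : ℤ) ^ n) = PowerSeries.mk fun n => (q : ℤ) ^ n := by
    linear_combination -(PowerSeries.mk fun n => (q : ℤ) ^ n) * h2 -
      (PowerSeries.mk (fun n => (Z (NN q) k 1 n : ℤ)) + R) * h4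
  have h6 := congrArg (PowerSeries.coeff n) h5
  rw [map_add, map_add, ← nsmul_eq_mul, map_nsmul, PowerSeries.coeff_X_pow_mul'] at h6
  simp only [PowerSeries.coeff_mk, nsmul_eq_mul] at h6
  have := h1 n
  have h7 : (0 : ℤ) ≤ q * if 1 + k ≤ n then (q : ℤ) ^ (n - (1 + k)) else 0 := by split_ifs <;> positivity
  exact_mod_cast (by linarith : (Z (NN q) k 1 n : ℤ) ≤ q ^ n)

/-- The number of conjugacy classes of GL(n,q): for F a finite field with q elements and n ≥ 1, the number k of conjugacy classes of GL(n,F) satisfies q^n − q^(n−1) ≤ k ≤ q^n. -/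
theorem result {F : Type*} [Field F] [Fintype F] (n : ℕ) (hn : 1 ≤ n) :
    Fintype.card F ^ n - Fintype.card F ^ (n - 1) ≤ Nat.card (ConjClasses (Matrix.GeneralLinearGroup (Fin n) F)) ∧ Nat.card (ConjClasses (Matrix.GeneralLinearGroup (Fin n) F)) ≤ Fintype.card F ^ n := by
  classical
  haveI := Fintype.ofFinite (ConjClasses (Matrix.GeneralLinearGroup (Fin n) F))
  constructor
  · obtain ⟨m, rfl⟩ : ∃ m, n = m + 1 := ⟨n - 1, by omega⟩
    have h1 := card_monic (F := F) m (· ≠ 0)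
    rw [Nat.card_eq_fintype_card (α := {c : F // _}), Fintype.card_subtype_compl, Fintype.card_subtype_eq, Nat.sub_mul, one_mul,
      ← pow_succ'] at h1
    rw [Nat.add_sub_cancel, ← h1]
    have h2 : ∀ f : {f : Polynomial F // f.Monic ∧ f.natDegree = m + 1 ∧ f.coeff 0 ≠ 0},
        ∃ g : Matrix.GeneralLinearGroup (Fin (m + 1)) F, g.1.charpoly = f.1 := fun f => by
      obtain ⟨A, -, hA⟩ := exists_irred_typ (n := Fin (m + 1)) f.2.1 (by simpa using f.2.2.1)
      obtain ⟨g, rfl⟩ : IsUnit A := by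
        rw [Matrix.isUnit_iff_isUnit_det, Matrix.det_eq_sign_charpoly_coeff, hA]
        exact (isUnit_one.neg.pow _).mul f.2.2.2.isUnit
      exact ⟨g, hA⟩
    choose g hg using h2
    refine Nat.card_le_card_of_injective (fun f => ConjClasses.mk (g f)) fun f f' h => Subtype.ext ?_
    rw [← hg, ← hg, ← prod_typ, ← prod_typ, (typ_eq_iff _ _).2 ((isConj_GL_iff _ _).1 (ConjClasses.mk_eq_mk_iff_isConj.1 h))]
  · rw [Nat.card_eq_fintype_card]
    refine (card_le_Z (NN (Fintype.card F)) Polynomial.natDegree (fun _ a => a.Monic ∧ a.coeff 0 ≠ 0) card_NN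
      (fun (C : ConjClasses (Matrix.GeneralLinearGroup (Fin n) F)) i => hs (typ (rp C).1) i) n 1 n univ one_pos
      (fun C _ i _ => ⟨monic_hs (isTyp_typ _) i, hs_coeff_ne_zero (isTyp_typ _) ((isUnit_iff _).1 (rp C).isUnit) i⟩)
      (fun C _ => sum_deg_hs _) fun C _ D _ h => ?_).trans (Z_le Fintype.card_pos _ _)
    rw [← mk_rp C, ← mk_rp D, ConjClasses.mk_eq_mk_iff_isConj, isConj_GL_iff, ← typ_eq_iff]
    refine eq_of_hs (isTyp_typ _) (isTyp_typ _) fun i hi => ?_
    by_cases hn : i ≤ n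
    · exact h i (mem_Ico.2 ⟨hi, by omega⟩)
    · rw [hs_typ_eq_one _ (by omega), hs_typ_eq_one _ (by omega)]

end Cfsg.Agent.S2478
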