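import Mathlib
import Cfsg.Statements.S2479
import Cfsg.Agent.H16.CntSL

set_option autoImplicit false
open Cfsg

namespace Cfsg.Agent.S2479

/-- The number of conjugacy classes of SL(n,q): for F a finite field with q elements, the number k of conjugacy classes of SL(n,F) satisfies q^(n−1) < k and k ≤ (5/2)·q^(n−1) for n ≥ 2, and k ≤ q^(n−1) + 3q^(n−2) for n ≥ 3. -/
theorem result {F : Type*} [Field F] [Fintype F] (n : ℕ) (hn : 2 ≤ n) :
    Fintype.card F ^ (n - 1) < Nat.card (ConjClasses (Matrix.SpecialLinearGroup (Fin n) F)) ∧ 2 * Nat.card (ConjClasses (Matrix.SpecialLinearGroup (Fin n) F)) ≤ 5 * Fintype.card F ^ (n - 1) ∧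
      (3 ≤ n → Nat.card (ConjClasses (Matrix.SpecialLinearGroup (Fin n) F)) ≤ Fintype.card F ^ (n - 1) + 3 * Fintype.card F ^ (n - 2)) := by
  have hq : 2 ≤ Fintype.card F := Fintype.one_lt_card
  have h1 := H16.Cnt.card_SL_le_BSL (F := F) (n := n) (by omega)
  refine ⟨H16.Cnt.lt_card_SL hn, ?_, fun h3 => h1.trans (H16.Cnt.BSL_le hq h3)⟩
  have := H16.Cnt.BSL_le' hq (n := n) (by omega)
  omega

end Cfsg.Agent.S2479
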