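import Mathlib
import Cfsg.Statements.S2485
import Cfsg.Agent.L.PSL2Max4
import Cfsg.Agent.L.PSL2Tr

set_option autoImplicit false
open scoped Pointwise
open Cfsg

namespace Cfsg.Agent.S2485

open L L.Dk Matrix Subgroup in
open scoped MatrixGroups in
theorem syl {q k : ℕ} [Fact q.Prime] (hk : q + 1 = 2 ^ k) (hq : 7 ≤ q) (H : Sylow 2 PGL(2, ZMod q)) :
    ∃ A : GL (Fin 2) (ZMod q), (A : M2 (ZMod q)).trace = 0 ∧ NoEig (A : M2 (ZMod q)) ∧
      jj (ProjGenLinGroup.mk A) ≠ 4 ∧ (H : Subgroup PGL(2, ZMod q)) = torN A := by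
  have hk3 : 2 ≤ k := by
    by_contra h
    have : 2 ^ k ≤ 2 ^ 1 := Nat.pow_le_pow_right (by norm_num) (by omega)
    omega
  obtain ⟨j, rfl⟩ := Nat.exists_eq_add_of_le hk3
  have hH : 2 * (q + 1) ∣ Nat.card H := by
    rw [hk, ← pow_succ']
    apply H.pow_dvd_card_of_pow_dvd_card
    rw [card_PGL2, ZMod.card, pow_succ', ← hk]
    refine Dvd.dvd.mul_left ?_ _
    rw [show q ^ 2 - 1 = (q - 1) * (q + 1) by
      obtain ⟨r, rfl⟩ := Nat.exists_eq_add_of_le' (show 1 ≤ q by omega)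
      simp only [Nat.add_sub_cancel]; exact Nat.sub_eq_of_eq_add (by ring)]
    refine Nat.mul_dvd_mul_right ?_ _
    rw [pow_add] at hk
    omega
  have hH' := Nat.le_of_dvd Nat.card_pos hH
  have : Nontrivial H := Finite.one_lt_card_iff_nontrivial.1 (by omega)
  have := H.isPGroup'.center_nontrivial
  obtain ⟨z, hz⟩ := exists_prime_orderOf_dvd_card' (G := center (H : Subgroup PGL(2, ZMod q))) 2
    (((H.isPGroup'.to_subgroup _).card_eq_or_dvd).resolve_left Finite.one_lt_card.ne')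
  obtain ⟨A, hA⟩ := ProjGenLinGroup.mk_surjective (z.1.1 : PGL(2, ZMod q))
  have hz' : orderOf (z.1.1 : PGL(2, ZMod q)) = 2 := by
    rw [Subgroup.orderOf_coe, Subgroup.orderOf_coe, hz]
  have h1 : (z.1.1 : PGL(2, ZMod q)) ≠ 1 := fun e => by simp [e] at hz'
  have h2 : jj (ProjGenLinGroup.mk A) = 0 := by
    rw [hA, ← pow_two_iff h1, ← orderOf_dvd_iff_pow_eq_one, hz']
  have h20 : (2 : ZMod q) ≠ 0 := fun e => by
    have := (ZMod.natCast_eq_zero_iff 2 q).1 (by exact_mod_cast e)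
    have := Nat.le_of_dvd (by norm_num) this
    omega
  have h4 : jj (ProjGenLinGroup.mk A) ≠ 4 := by rw [h2]; exact (four_ne_zero' h20).symm
  have hle : (H : Subgroup PGL(2, ZMod q)) ≤ torN A := fun g hg => by
    rw [mem_torN h4, hA]
    have := congrArg Subtype.val (mem_center_iff.1 z.2 ⟨g, hg⟩)
    simp only [coe_mul] at this
    rw [this, mul_inv_cancel_right, ← hA]
    exact self_mem_tor
  have h5 := card_le_of_le hle
  rw [card_torN h4] at h5
  have h6 : Nat.card (tor A) = q + 1 := by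
    have := card_tor h4
    rw [ZMod.card] at this
    omega
  have ht : (A : M2 (ZMod q)).trace = 0 := by simpa using jj_mk_iff.1 h2
  refine ⟨A, ht, ?_, h4, eq_of_le_of_card_ge hle (by rw [card_torN h4]; omega)⟩
  have h1 : (Fintype.card (ZMod q) - 1) * Nat.card (tor A) =
      Nat.card (Subgroup.centralizer ({A} : Set (GL (Fin 2) (ZMod q)))) := by
    rw [← card_map_quot _ _ (Subgroup.center_le_centralizer _), H09.card_center_GL]; rfl
  rcases trichotomy (A : M2 (ZMod q)) with ⟨a, b, hab, ht, hd⟩ | ⟨a, ht, hd⟩ | h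
  · rw [card_centralizer_GL_split hab ht hd, sq, h6, ZMod.card] at h1
    have := Nat.eq_of_mul_eq_mul_left (by omega) h1
    omega
  · exact absurd (jj_mk_iff.2 (by rw [ht, hd]; ring)) h4
  · exact h

open L L.Dk Matrix Subgroup in
open scoped MatrixGroups in
theorem two {q k : ℕ} [Fact q.Prime] (hk : q + 1 = 2 ^ k) (hq : 7 ≤ q) (H K : Sylow 2 PGL(2, ZMod q)) :
    (H : Subgroup PGL(2, ZMod q)) ⊓ K ≠ ⊥ := by
  obtain ⟨A, tA, nA, jA, eA⟩ := syl hk hq H
  obtain ⟨B, tB, nB, jB, eB⟩ := syl hk hq K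
  rw [eA, eB]
  have h20 : (2 : ZMod q) ≠ 0 := fun e => by
    have := (ZMod.natCast_eq_zero_iff 2 q).1 (by exact_mod_cast e)
    have := Nat.le_of_dvd (by norm_num) this
    omega
  intro hbot
  have sA := m2_sq (A : M2 (ZMod q))
  have sB := m2_sq (B : M2 (ZMod q))
  rw [tA, zero_smul, zero_sub] at sA
  rw [tB, zero_smul, zero_sub] at sB
  set C := (A : M2 (ZMod q)) * B - B * A with hC
  have cA : C * A = -(A * C) := by
    rw [hC, sub_mul, mul_sub, mul_assoc (B : M2 (ZMod q)), ← mul_assoc (A : M2 (ZMod q)) A, sA]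
    simp [mul_assoc]
  have cB : C * B = -(B * C) := by
    rw [hC, sub_mul, mul_sub, mul_assoc (A : M2 (ZMod q)) B, ← mul_assoc (B : M2 (ZMod q)) B, sB]
    simp [mul_assoc]; abel
  by_cases h0 : C = 0
  · have : ProjGenLinGroup.mk B ∈ torN A ⊓ torN B :=
      ⟨tor_le (mem_tor.2 (sub_eq_zero.1 h0).symm), tor_le self_mem_tor⟩
    rw [hbot, mem_bot, pmk_eq_one] at this
    exact nB.not_isScal this
  by_cases hd : C.det = 0
  · obtain ⟨v, hv, hv'⟩ := Matrix.exists_mulVec_eq_zero_iff.2 hd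
    obtain ⟨c, hc⟩ := exists_smul_of_ker h0 hv hv' (w := (A : M2 (ZMod q)).mulVec v)
      (by rw [mulVec_mulVec, cA, neg_mulVec, ← mulVec_mulVec, hv']; simp)
    exact nA c v hv hc
  · have key : ∀ X : GL (Fin 2) (ZMod q), jj (ProjGenLinGroup.mk X) ≠ 4 → C * X = -(X * C) →
        ProjGenLinGroup.mk (mkGL C hd) ∈ torN X := by
      intro X jX hX
      rw [mem_torN jX, pmk_conj (A' := -X) hd (by simp [hX]), mem_tor]
      simp
    have : ProjGenLinGroup.mk (mkGL C hd) ∈ torN A ⊓ torN B := ⟨key A jA cA, key B jB cB⟩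
    rw [hbot, mem_bot, pmk_eq_one] at this
    have h1 : C = C 0 0 • (1 : M2 (ZMod q)) := this.eq_smul
    have h2 : C.trace = 0 := by rw [hC, trace_sub, trace_mul_comm, sub_self]
    rw [h1, trace_smul, trace_one] at h2
    simp [h20] at h2
    exact h0 (by rw [h1, h2, zero_smul])

/-- Let q = 2^k − 1 ≥ 7 be a prime and let G = PGL(2,q), the general linear group of degree 2 over the field with q elements modulo its centre. Then any two Sylow 2-subgroups of G have a non-trivial intersection: for a Sylow 2-subgroup H and every x ∈ G, H ∩ H^x ≠ 1. -/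
theorem result {q k : ℕ} [Fact q.Prime] (hk : q + 1 = 2 ^ k) (hq : 7 ≤ q)
    (H : Sylow 2 (GL (Fin 2) (ZMod q) ⧸ Subgroup.center (GL (Fin 2) (ZMod q))))
    (x : GL (Fin 2) (ZMod q) ⧸ Subgroup.center (GL (Fin 2) (ZMod q))) :
    (H : Subgroup (GL (Fin 2) (ZMod q) ⧸ Subgroup.center (GL (Fin 2) (ZMod q)))) ⊓ MulAut.conj x • (H : Subgroup _) ≠ ⊥ := by
  exact two hk hq H (x • H)

end Cfsg.Agent.S2485
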