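import Mathlib
import Cfsg.Statements.S2488
import Cfsg.Agent.BG.Api2
import Cfsg.Agent.L.Torus

set_option autoImplicit false
open scoped Pointwise
open Cfsg

namespace Cfsg.Agent.S2488

theorem f1 : ∀ σ : Equiv.Perm (Fin 6), Equiv.Perm.sign σ = 1 → σ ^ 3 = 1 ∨ σ ^ 4 = 1 ∨ σ ^ 5 = 1 := by
  decide +kernel
theorem f2 : (Finset.univ.filter fun σ : Equiv.Perm (Fin 6) => σ ^ 5 = 1).card = 145 := by
  decide +kernel
theorem f3 : (Finset.univ.filter fun σ : Equiv.Perm (Fin 6) => σ ^ 3 = 1).card = 81 := by
  decide +kernel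

set_option maxHeartbeats 800000 in
open Subgroup in
theorem two {G : Type*} [Group G] [Finite G] (N : Subgroup G) [N.Normal]
    (e : N ≃* alternatingGroup (Fin 6)) (hidx : N.index = 4) (H K : Sylow 2 G) :
    (H : Subgroup G) ⊓ K ≠ ⊥ := by
  classical
  have hN : Nat.card N = 360 := by
    rw [Nat.card_congr e.toEquiv, nat_card_alternatingGroup]; simp [Nat.factorial]
  have hG : Nat.card G = 1440 := by rw [← N.card_mul_index, hN, hidx]
  let φ : N →* Equiv.Perm (Fin 6) := (alternatingGroup (Fin 6)).subtype.comp e.toMonoidHom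
  have hφ : Function.Injective φ := Subtype.val_injective.comp e.injective
  have powN : ∀ (g : N) (n : ℕ), φ g ^ n = 1 → (g : G) ^ n = 1 := fun g n h => by
    rw [← map_pow, ← map_one φ] at h
    exact congrArg Subtype.val (hφ h)
  have ordN : ∀ g ∈ N, orderOf g ∣ 3 ∨ orderOf g ∣ 4 ∨ orderOf g ∣ 5 := fun g hg => by
    simp only [orderOf_dvd_iff_pow_eq_one]
    exact (f1 (φ ⟨g, hg⟩) (e ⟨g, hg⟩).2).imp (powN ⟨g, hg⟩ _) (Or.imp (powN ⟨g, hg⟩ _) (powN ⟨g, hg⟩ _))
  have oddN : ∀ g : G, (orderOf g).Coprime 2 → g ∈ N := fun g hg => by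
    rw [← QuotientGroup.eq_one_iff, ← orderOf_eq_one_iff]
    refine Nat.eq_one_of_dvd_coprimes (hg.pow_right 2) (orderOf_map_dvd (QuotientGroup.mk' N) g) ?_
    have := orderOf_dvd_natCard (g : G ⧸ N)
    rwa [← index, hidx] at this
  have cop : ∀ a b : G, a ∈ N → b ∈ N → Commute a b → (orderOf a).Coprime (orderOf b) →
      orderOf a = 1 ∨ orderOf b = 1 := fun a b ha hb hab hc => by
    have h1 := ordN _ (N.mul_mem ha hb)
    rw [hab.orderOf_mul_eq_mul_orderOf_of_coprime hc] at h1
    have h2 : orderOf a * orderOf b ≤ 5 := by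
      rcases h1 with h | h | h <;> have := Nat.le_of_dvd (by norm_num) h <;> omega
    have p1 := orderOf_pos a
    have p2 := orderOf_pos b
    have a5 : orderOf a ≤ 5 := by nlinarith
    have b5 : orderOf b ≤ 5 := by nlinarith
    generalize orderOf a = m at *
    generalize orderOf b = n at *
    interval_cases m <;> interval_cases n <;> simp_all
  have syl : ∀ K : Sylow 2 G, ∃ z ∈ N, orderOf z = 2 ∧ centralizer {z} = (K : Subgroup G) := by
    intro K
    have h32 : 2 ^ 5 ∣ Nat.card K := K.pow_dvd_card_of_pow_dvd_card (by rw [hG]; norm_num)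
    have hne : (K : Subgroup G) ⊓ N ≠ ⊥ := fun h => by
      have h1 := BG.card_sup_of_disj (K := N) (H := (K : Subgroup G)) (by
        rw [normalizer_eq_top]; exact le_top) (by rw [inf_comm, h])
      have h2 := card_subgroup_dvd_card (N ⊔ (K : Subgroup G))
      rw [h1, hN, hG] at h2
      have := (Nat.mul_dvd_mul_left 360 h32).trans h2
      omega
    obtain ⟨z, hz, z1, z2, zc⟩ : ∃ z ∈ (K : Subgroup G) ⊓ N, z ≠ 1 ∧ z ^ 2 = 1 ∧
        ∀ g ∈ (K : Subgroup G), g * z = z * g := by
      have h1 := BG.pg_fix_ne_bot Nat.prime_two K.isPGroup' (K := (K : Subgroup G) ⊓ N)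
        K.isPGroup'.to_inf_left (fun g hg => mem_normalizer_fintype fun n hn =>
          ⟨K.1.mul_mem (K.1.mul_mem hg hn.1) (K.1.inv_mem hg),
            Subgroup.Normal.conj_mem inferInstance _ hn.2 g⟩) hne
      have h2 : IsPGroup 2 ↥(((K : Subgroup G) ⊓ N) ⊓ centralizer ((K : Subgroup G) : Set G)) :=
        K.isPGroup'.to_inf_left.to_inf_left
      obtain ⟨z, hz⟩ := exists_prime_orderOf_dvd_card' 2
        (h2.card_eq_or_dvd.resolve_left fun h => h1 (card_eq_one.1 h))
      have hz' : orderOf (z : G) = 2 := by rw [orderOf_coe, hz]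
      exact ⟨z, z.2.1, fun h => by simp [h] at hz', orderOf_dvd_iff_pow_eq_one.1 (by rw [hz']),
        fun g hg => z.2.2 g hg⟩
    have hz2 : orderOf z = 2 := orderOf_eq_prime z2 z1
    refine ⟨z, hz.2, hz2, K.is_maximal' ?_ fun g hg => mem_centralizer_singleton_iff.2 (zc g hg)⟩
    refine IsPGroup.of_card (n := (Nat.card (centralizer ({z} : Set G))).primeFactorsList.length)
      (Nat.eq_prime_pow_of_unique_prime_dvd Nat.card_pos.ne' fun {p} hp hd => ?_)
    by_contra hp2
    have := Fact.mk hp
    obtain ⟨c, hc⟩ := exists_prime_orderOf_dvd_card' p hd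
    have hc' : orderOf (c : G) = p := by rw [orderOf_coe, hc]
    have h2 : (orderOf (c : G)).Coprime 2 := by
      rw [hc']; exact (Nat.coprime_primes hp Nat.prime_two).2 hp2
    rcases cop c z (oddN _ h2) hz.2 (mem_centralizer_singleton_iff.1 c.2) (by rwa [hz2]) with h | h
    · exact hp.one_lt.ne' (hc' ▸ h)
    · omega
  obtain ⟨z, hz, z2, eH⟩ := syl H
  obtain ⟨y, hy, y2, eK⟩ := syl K
  have zz : z * z = 1 := by rw [← sq, ← z2, pow_orderOf_eq_one]
  have yy : y * y = 1 := by rw [← sq, ← y2, pow_orderOf_eq_one]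
  have zi : z⁻¹ = z := inv_eq_of_mul_eq_one_right zz
  have yi : y⁻¹ = y := inv_eq_of_mul_eq_one_right yy
  set x := z * y with hx
  have hxN : x ∈ N := N.mul_mem hz hy
  have heven : 2 ∣ Nat.card (centralizer ({x} : Set G)) := by
    by_contra hodd
    have hcl := L.card_carrier_mul x
    have cnt : ∀ n : ℕ, x ^ n = 1 → Nat.card (ConjClasses.mk x).carrier ≤
        (Finset.univ.filter fun σ : Equiv.Perm (Fin 6) => σ ^ n = 1).card := by
      intro n hn
      have hm : ∀ g : (ConjClasses.mk x).carrier, (g : G) ∈ N ∧ (g : G) ^ n = 1 := fun g => by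
        obtain ⟨c, hc⟩ := isConj_iff.1 (ConjClasses.mk_eq_mk_iff_isConj.1
          (ConjClasses.mem_carrier_iff_mk_eq.1 g.2).symm)
        rw [← hc]
        exact ⟨Subgroup.Normal.conj_mem inferInstance _ hxN c, by rw [conj_pow, hn]; simp⟩
      rw [← Nat.card_eq_finsetCard]
      refine Nat.card_le_card_of_injective (fun g => ⟨φ ⟨g, (hm g).1⟩, ?_⟩) fun a b h => ?_
      · simp only [Finset.mem_filter, Finset.mem_univ, true_and]
        rw [← map_pow, ← map_one φ]; congr 1; exact Subtype.ext (hm g).2
      · have h1 : φ ⟨a, (hm a).1⟩ = φ ⟨b, (hm b).1⟩ := Subtype.mk.inj h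
        exact Subtype.ext (congrArg (fun g : N => (g : G)) (hφ h1))
    have hxd : orderOf x ∣ Nat.card (centralizer ({x} : Set G)) :=
      orderOf_dvd_natCard _ (mem_centralizer_singleton_iff.2 rfl)
    have no : ∀ p : ℕ, p.Prime → p ≠ 2 → p ∣ Nat.card (centralizer ({x} : Set G)) →
        (orderOf x).Coprime p → orderOf x = 1 := by
      intro p hp hp2 hd hc0
      have := Fact.mk hp
      obtain ⟨c, hc⟩ := exists_prime_orderOf_dvd_card' p hd
      have hc' : orderOf (c : G) = p := by rw [orderOf_coe, hc]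
      have h2 : (orderOf (c : G)).Coprime 2 := by
        rw [hc']; exact (Nat.coprime_primes hp Nat.prime_two).2 hp2
      rcases cop c x (oddN _ h2) hxN (mem_centralizer_singleton_iff.1 c.2)
        (by rw [hc']; exact hc0.symm) with h | h
      · exact absurd (hc' ▸ h) hp.one_lt.ne'
      · exact h
    have hx1 : orderOf x ≠ 1 := fun h => by
      rw [orderOf_eq_one_iff] at h
      rw [h, centralizer_eq_top_iff_subset.2 (by simp), card_top, hG] at hodd
      omega
    have hd : Nat.card (centralizer ({x} : Set G)) ∣ 45 := by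
      have h1 := card_subgroup_dvd_card (centralizer ({x} : Set G))
      rw [hG, show 1440 = 45 * 2 ^ 5 by norm_num] at h1
      exact (Nat.Coprime.pow_right 5
        ((Nat.prime_two.coprime_iff_not_dvd).2 hodd).symm).dvd_of_dvd_mul_right h1
    have hd' := Nat.le_of_dvd (by norm_num) hd
    rw [hG] at hcl
    rcases ordN x hxN with h | h | h
    · have h3 : orderOf x = 3 := ((Nat.dvd_prime (by norm_num)).1 h).resolve_left hx1
      have c1 := cnt 3 (by rw [← h3, pow_orderOf_eq_one])
      have c2 := no 5 (by norm_num) (by norm_num)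
      rw [f3] at c1
      rw [h3] at c2 hxd
      have c3 := fun h => c2 h (by norm_num)
      clear c2 no cnt
      generalize Nat.card (centralizer ({x} : Set G)) = d at *
      interval_cases d <;> omega
    · exact hx1 (Nat.eq_one_of_dvd_coprimes (show Nat.Coprime 4 45 by norm_num) h (hxd.trans hd))
    · have h3 : orderOf x = 5 := ((Nat.dvd_prime (by norm_num)).1 h).resolve_left hx1
      have c1 := cnt 5 (by rw [← h3, pow_orderOf_eq_one])
      have c2 := no 3 (by norm_num) (by norm_num)
      rw [f2] at c1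
      rw [h3] at c2 hxd
      have c3 := fun h => c2 h (by norm_num)
      clear c2 no cnt
      generalize Nat.card (centralizer ({x} : Set G)) = d at *
      interval_cases d <;> omega
  have hzx : z * x * z = x⁻¹ := by
    rw [hx, mul_inv_rev, zi, yi, ← mul_assoc, zz, one_mul]
  let f : centralizer ({x} : Set G) → centralizer ({x} : Set G) := fun c =>
    ⟨z * c * z, mem_centralizer_singleton_iff.2 (by
      have h1 : Commute (c : G) x := mem_centralizer_singleton_iff.1 c.2
      have h3 := (h1.inv_right.map (MulAut.conj z))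
      simp only [MulAut.conj_apply, zi] at h3
      rw [← hzx, show z * (z * x * z) * z = x by
        simp only [← mul_assoc, zz, one_mul]; rw [mul_assoc, zz, mul_one]] at h3
      exact h3)⟩
  have hf : Function.Involutive f := fun c => Subtype.ext (by
    change z * (z * c * z) * z = c
    simp only [← mul_assoc, zz, one_mul]; rw [mul_assoc, zz, mul_one])
  let _ := Fintype.ofFinite (centralizer ({x} : Set G))
  obtain ⟨t, ht, t1⟩ := Equiv.Perm.exists_fixed_point_of_prime' (p := 2) (n := 1)
    (by rwa [← Nat.card_eq_fintype_card]) (σ := hf.toPerm f) (by ext c; simp [sq, hf c])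
    (a := 1) (Subtype.ext (by change z * 1 * z = 1; rw [mul_one, zz]))
  have t2 : z * t * z = t := congrArg Subtype.val ht
  have t3 : Commute (t : G) z := by
    change t * z = z * t
    conv_lhs => rw [← t2, mul_assoc, zz, mul_one]
  have t4 : Commute (t : G) x := mem_centralizer_singleton_iff.1 t.2
  have t5 : Commute (t : G) y := by
    have : y = z * x := by rw [hx, ← mul_assoc, zz, one_mul]
    rw [this]; exact t3.mul_right t4
  intro hbot
  have : (t : G) ∈ (H : Subgroup G) ⊓ K := by
    rw [← eH, ← eK]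
    exact ⟨mem_centralizer_singleton_iff.2 t3, mem_centralizer_singleton_iff.2 t5⟩
  rw [hbot, mem_bot] at this
  exact t1 (Subtype.ext this)

/-- Let G be a finite group with a normal subgroup N of index 4 isomorphic to the alternating group of degree 6 and with trivial centralizer in G (so G is the full automorphism group of A₆). Then any two Sylow 2-subgroups of G have a non-trivial intersection: for a Sylow 2-subgroup H and every x ∈ G, H ∩ H^x ≠ 1. -/
theorem result {G : Type*} [Group G] [Finite G] (N : Subgroup G) [N.Normal]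
    (e : N ≃* alternatingGroup (Fin 6)) (hidx : N.index = 4)
    (hC : Subgroup.centralizer (N : Set G) = ⊥)
    (H : Sylow 2 G) (x : G) :
    (H : Subgroup G) ⊓ MulAut.conj x • (H : Subgroup G) ≠ ⊥ := by
  exact two N e hidx H (x • H)

end Cfsg.Agent.S2488
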