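import Mathlib
import Cfsg.Statements.S2490
import Cfsg.Agent.BG.Api4
import Cfsg.Agent.H01.BG1

set_option autoImplicit false
open Cfsg

namespace Cfsg.Agent.S2490

open BG Subgroup

section
variable {G : Type*} [Group G] [Finite G]

theorem sylow_mod {p : ℕ} (hp : p.Prime) {P H : Subgroup G} (h : IsSylowIn p P H) :
    (N_(P)).relIndex H ≡ 1 [MOD p] := by
  have := Fact.mk hp
  obtain ⟨Q, rfl⟩ := h.exists_sylow hp
  have h2 := card_sylow_modEq_one p H
  rw [Q.card_eq_index_normalizer] at h2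
  rw [relIndex, subgroupOf_normalizer_eq (map_subtype_le _), subgroupOf,
    comap_map_eq_self_of_injective H.subtype_injective]
  exact h2

omit [Finite G] in
theorem cent_idx {p : ℕ} (hp : p.Prime) {P : Subgroup G} (hP : Nat.card P = p) : (C_(P)).relIndex N_(P) ∣ p - 1 := by
  haveI := cyclic_of_prime (hP ▸ hp : (Nat.card P).Prime)
  haveI : Finite P := Nat.finite_of_card_ne_zero (hP ▸ hp.ne_zero)
  have := index_ker P.normalizerMonoidHom ▸ card_subgroup_dvd_card P.normalizerMonoidHom.range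
  rwa [normalizerMonoidHom_ker, IsCyclic.card_mulAut, hP, Nat.totient_prime hp] at this

/-- no commuting pair -/
def Sep (G : Type*) [Group G] (a b : ℕ) : Prop :=
  ∀ X Y : Subgroup G, a ∣ Nat.card X → b ∣ Nat.card Y → ¬ X ≤ C_(Y)

omit [Finite G] in
theorem Sep.symm {a b : ℕ} (h : Sep G a b) : Sep G b a := fun X Y h1 h2 h3 => h Y X h2 h1 (cent_symm h3)

theorem sep_of {a b : ℕ} (ha : a.Prime) (hb : b.Prime) (hab : a ≠ b) (h : ¬ ∃ g : G, orderOf g = a * b) :
    Sep G a b := fun X Y h1 h2 h3 => by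
  obtain ⟨x, hx, ox⟩ := exists_orderOf_eq_prime ha h1
  obtain ⟨y, hy, oy⟩ := exists_orderOf_eq_prime hb h2
  refine h ⟨x * y, ?_⟩
  rw [Commute.orderOf_mul_eq_mul_orderOf_of_coprime (le_cent_iff.1 h3 x hx y hy)
    (by rw [ox, oy]; exact (Nat.coprime_primes ha hb).2 hab), ox, oy]

theorem sr {p r : ℕ} (hp : p.Prime) (hr : r.Prime) (h : Sep G p r) {P R : Subgroup G} (hP : IsPGroup p P)
    (hR : IsPGroup r R) (hn : R ≤ N_(P)) : Nat.card R ∣ Nat.card P - 1 := by
  refine (semiregular_of_prime fun X hX hc => ?_).card_dvd hn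
  by_contra h0
  exact h _ X (pg_dvd hp (pg_le hP inf_le_left) h0) (pg_prime_eq hr (pg_le hR hX) hc dvd_rfl).symm.dvd
    inf_le_right

theorem fr {p r k : ℕ} (hp : p.Prime) (hr : r.Prime) (h : Sep G p r) {K H P : Subgroup G} (hK : K ≤ H)
    (hn : H ≤ N_(K)) (hP : IsSylowIn p P K) (hk : r ^ k ∣ K.relIndex H) : r ^ k ∣ Nat.card P - 1 := by
  rw [← sylow_frattini hp hP hK hn, relIndex_sup (inf_le_left.trans hn)] at hk
  obtain ⟨R, hR⟩ := sylow_exists hr (H ⊓ N_(P))
  exact (hR.pow_dvd hr (hk.trans (BG.relIndex_dvd_card _ _))).trans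
    (sr hp hr h (hP.pg hp) (hR.pg hr) (hR.le.trans inf_le_right))

theorem pcard (hG : Nat.card G = 7920) {p : ℕ} (hp : p.Prime) {P : Subgroup G} (hP : IsPGroup p P) (h0 : P ≠ ⊥) :
    (p = 2 ∧ Nat.card P ∈ [2, 4, 8, 16]) ∨ (p = 3 ∧ Nat.card P ∈ [3, 9]) ∨ (p = 5 ∧ Nat.card P = 5) ∨
      (p = 11 ∧ Nat.card P = 11) := by
  obtain ⟨n, hn⟩ := pg_card hp hP
  have h1 : p ^ n ∣ 7920 := hn ▸ hG ▸ card_dvd_top P
  have h2 : n ≠ 0 := by rintro rfl; exact h0 (BG.card_eq_one.1 hn)
  have h3 : p ∣ 2 ^ 4 * 3 ^ 2 * 5 * 11 := (dvd_pow_self p h2).trans h1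
  have h4 : n < 5 := by
    by_contra h
    have h5 : p ^ 5 ∣ 7920 := (pow_dvd_pow p (by omega)).trans h1
    have h6 : p < 7 := by
      by_contra h6
      have := Nat.le_of_dvd (by norm_num) h5
      have := Nat.pow_le_pow_left (show 7 ≤ p by omega) 5
      omega
    have := hp.two_le
    interval_cases p <;> omega
  rw [hn]
  simp only [hp.dvd_mul, hp.prime.dvd_pow_iff_dvd (show (4 : ℕ) ≠ 0 by norm_num),
    hp.prime.dvd_pow_iff_dvd (show (2 : ℕ) ≠ 0 by norm_num), Nat.prime_dvd_prime_iff_eq hp Nat.prime_two,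
    Nat.prime_dvd_prime_iff_eq hp Nat.prime_three, Nat.prime_dvd_prime_iff_eq hp Nat.prime_five,
    Nat.prime_dvd_prime_iff_eq hp Nat.prime_eleven] at h3
  rcases h3 with ((rfl | rfl) | rfl) | rfl <;> interval_cases n <;> simp_all

/-- the colouring -/
structure Col (G : Type*) [Group G] (c : ℕ → Prop) : Prop where
  card : Nat.card G = 7920
  c11 : c 11
  ex : ¬ c 2 ∨ ¬ c 3 ∨ ¬ c 5
  sep : ∀ a b, a.Prime → b.Prime → a ∣ 7920 → b ∣ 7920 → c a → ¬ c b → Sep G a b

variable {c : ℕ → Prop} (h : Col G c)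
include h

theorem case1 (N : Subgroup G) [hN : N.Normal] (h0 : N ≠ ⊥) : 11 ∣ Nat.card N := by
  by_contra h11
  have hc := N.card_mul_index
  rw [h.card] at hc
  have hn : ⊤ ≤ N_(N) := by rw [normalizer_eq_top]
  have key : ∀ p r k : ℕ, p.Prime → r.Prime → p ∣ Nat.card N → Sep G p r → ¬ r ∣ Nat.card N → r ^ k ∣ 7920 →
      ∃ m, r ^ k ∣ m - 1 ∧ m ∣ Nat.card N ∧ m ∈ [2, 4, 8, 16, 3, 9, 5] := by
    intro p r k hp hr hd hs hrN hk
    obtain ⟨P, hP⟩ := sylow_exists hp N
    refine ⟨Nat.card P, fr hp hr hs le_top hn hP ?_, card_dvd hP.le, ?_⟩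
    · rw [relIndex_top_right]
      exact ((Nat.Prime.coprime_iff_not_dvd hr).2 hrN).pow_left k |>.dvd_of_dvd_mul_left (hc ▸ hk)
    · rcases pcard h.card hp (hP.pg hp) (hP.ne_bot hp rfl hd) with ⟨-, e⟩ | ⟨-, e⟩ | ⟨-, e⟩ | ⟨rfl, -⟩
      · simp at e ⊢; omega
      · simp at e ⊢; omega
      · simp [e]
      · exact absurd hd h11
  have dN : ∀ p, p ∣ Nat.card N → p ∣ 7920 := fun p hp => hp.trans (hc ▸ Dvd.intro _ rfl)
  have hA : ∀ p : ℕ, p.Prime → p ∣ Nat.card N → c p := fun p hp hd => by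
    by_contra hcp
    obtain ⟨m, h1, -, h2⟩ := key p 11 1 hp Nat.prime_eleven hd
      (h.sep 11 p Nat.prime_eleven hp (by norm_num) (dN p hd) h.c11 hcp).symm h11 (by norm_num)
    simp at h2; omega
  obtain ⟨p, hp, hd⟩ := exists_prime_dvd_card h0
  have key2 : ∀ r k : ℕ, r.Prime → ¬ c r → k ≠ 0 → r ^ k ∣ 7920 →
      ∃ m, r ^ k ∣ m - 1 ∧ m ∣ Nat.card N ∧ m ∈ [2, 4, 8, 16, 3, 9, 5] := fun r k hr hcr hk0 hk =>
    key p r k hp hr hd (h.sep p r hp hr (dN p hd) ((dvd_pow_self r hk0).trans hk) (hA p hp hd) hcr)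
      (fun e => hcr (hA r hr e)) hk
  have c2 : c 2 := by
    by_contra e
    obtain ⟨m, h1, -, h2⟩ := key2 2 4 Nat.prime_two e (by norm_num) (by norm_num)
    simp at h2; omega
  have c3 : c 3 := by
    by_contra e
    obtain ⟨m, h1, -, h2⟩ := key2 3 2 Nat.prime_three e (by norm_num) (by norm_num)
    simp at h2; omega
  have c5 : ¬ c 5 := by have := h.ex; tauto
  obtain ⟨m, h1, h16, h2⟩ := key2 5 1 Nat.prime_five c5 (by norm_num) (by norm_num)
  obtain rfl : m = 16 := by simp at h2; omega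
  obtain ⟨Q, hQ⟩ := sylow_exists Nat.prime_five (⊤ : Subgroup G)
  have hQc : Nat.card Q = 5 := by
    rcases pcard h.card Nat.prime_five (hQ.pg Nat.prime_five)
      (hQ.ne_bot Nat.prime_five rfl (by rw [card_top, h.card]; norm_num)) with e | e | e | e <;> omega
  have h3 := sylow_mod Nat.prime_five hQ
  rw [relIndex_top_right] at h3
  have h4 := (N_(Q)).card_mul_index
  rw [h.card] at h4
  have h5 : ∀ s : ℕ, s.Prime → c s → s ∣ Nat.card N_(Q) → s ∣ 4 := fun s hs hcs hsd => by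
    obtain ⟨X, hX, hXc⟩ := exists_card_eq_prime hs hsd
    have := sr Nat.prime_five hs (h.sep s 5 hs Nat.prime_five (hsd.trans (h4 ▸ Dvd.intro _ rfl)) (by norm_num)
      hcs c5).symm (hQ.pg Nat.prime_five) (pg_of_card_eq hXc) hX
    rwa [hXc, hQc] at this
  have h6 : ¬ 3 ∣ Nat.card N_(Q) := fun e => by have := h5 3 Nat.prime_three c3 e; omega
  have h7 : ¬ 11 ∣ Nat.card N_(Q) := fun e => by have := h5 11 Nat.prime_eleven h.c11 e; omega
  have h8 : ¬ 2 ∣ Nat.card N_(Q) := fun e => by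
    rw [← card_inf_mul_relIndex N N_(Q), Nat.prime_two.dvd_mul] at e
    rcases e with e | e
    · refine h.sep 2 5 Nat.prime_two Nat.prime_five (by norm_num) (by norm_num) c2 c5 _ Q e hQc.symm.dvd
        (le_cent_of_coprime inf_le_right (norm_inf (le_top.trans hn) (norm_norm (le_norm Q))) ?_)
      rw [hQc]
      exact ((Nat.Prime.coprime_iff_not_dvd Nat.prime_five).2
        (not_dvd_of_le (fun e => c5 (hA 5 Nat.prime_five e)) inf_le_left)).symm
    · obtain ⟨a, ha⟩ := h16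
      obtain ⟨b, hb⟩ := e.trans (relIndex_dvd_index_of_normal N _)
      rw [ha, hb] at hc
      have : 32 * (a * b) = 7920 := by rw [← hc]; ring
      omega
  have h9 : Nat.card N_(Q) ∣ 5 := by
    have e : Nat.card N_(Q) ∣ 5 * (2 ^ 4 * 3 ^ 2 * 11) := Dvd.intro _ h4
    refine Nat.Coprime.dvd_of_dvd_mul_right (Nat.Coprime.mul_right (Nat.Coprime.mul_right ?_ ?_) ?_) e
    · exact ((Nat.Prime.coprime_iff_not_dvd Nat.prime_two).2 h8).symm.pow_right 4
    · exact ((Nat.Prime.coprime_iff_not_dvd Nat.prime_three).2 h6).symm.pow_right 2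
    · exact ((Nat.Prime.coprime_iff_not_dvd Nat.prime_eleven).2 h7).symm
  have h10 : Nat.card N_(Q) = 5 := Nat.dvd_antisymm h9 (hQc ▸ card_dvd (le_norm Q))
  rw [h10] at h4
  rw [show (N_(Q)).index = 1584 by omega] at h3
  exact absurd h3 (by decide)

theorem syl {P : Subgroup G} (hP : Nat.card P = 11) {K : Subgroup G} (hK : P ≤ K) : IsSylowIn 11 P K := by
  refine (isSylowIn_mk Nat.prime_eleven le_top (pg_of_card_eq hP) ?_).sub hK le_top
  have := P.card_mul_index
  rw [hP, h.card] at this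
  rw [relIndex_top_right]
  omega

theorem le_of_normal {P : Subgroup G} (hP : Nat.card P = 11) (N : Subgroup G) [hN : N.Normal] (h0 : N ≠ ⊥) :
    P ≤ N :=
  le_of_prime_of_inf_ne (hP ▸ Nat.prime_eleven) (((syl h hP le_top).inf_normal le_top
    (by rw [normalizer_eq_top])).ne_bot Nat.prime_eleven rfl (case1 h N h0))

theorem ti {P Q : Subgroup G} (hP : Nat.card P = 11) (hQ : Nat.card Q = 11) (hne : P ≠ Q) : P ⊓ N_(Q) = ⊥ :=
  inf_eq_bot_of_prime (hP ▸ Nat.prime_eleven) fun e => hne (eq_of_le_of_card_eq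
    (IsSylowIn.le_of_norm_pg' (syl h hQ le_top) Nat.prime_eleven (pg_of_card_eq hP) le_top e) (hP.trans hQ.symm))

theorem case45 {P : Subgroup G} (hP : Nat.card P = 11) (h45 : (N_(P)).index = 45) : False := by
  classical
  haveI := Fact.mk Nat.prime_eleven
  have cH : Nat.card N_(P) = 176 := by
    have := (N_(P)).card_mul_index
    rw [h45, h.card] at this
    omega
  have cI : (C_(P)).relIndex N_(P) ∣ 2 :=
    Nat.dvd_gcd (m := 10) (n := 176) (cent_idx Nat.prime_eleven hP) (cH ▸ BG.relIndex_dvd_card _ _)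
  have cC : Nat.card C_(P) * (C_(P)).relIndex N_(P) = 176 := cH ▸ card_mul_relIndex (cent_le_norm P)
  have cI' : (C_(P)).relIndex N_(P) ≤ 2 := Nat.le_of_dvd two_pos cI
  obtain ⟨g, hg⟩ : ∃ g, g ∉ N_(P) := by
    by_contra e
    push Not at e
    rw [(eq_top_iff' _).2 e, index_top] at h45
    omega
  have hQ : Nat.card (cj g P) = 11 := by rw [card_cj, hP]
  have hPQ : P ≠ cj g P := fun e => hg (cj_eq_self_iff.1 e.symm)
  have iQ : (N_(cj g P)).index = 45 := by rw [← cj_norm, index_cj, h45]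
  generalize cj g P = Q at hQ hPQ iQ
  obtain ⟨t, ⟨⟨htQ, htP⟩, htC⟩, ht1⟩ : ∃ t ∈ (N_(Q) ⊓ N_(P)) ⊓ C_(P), t ≠ 1 := by
    refine exists_mem_ne_one fun e => ?_
    have h1 := card_inf_mul_relIndex N_(Q) N_(P)
    have h2 : (N_(Q)).relIndex N_(P) ≤ 45 := by
      rw [← iQ, ← relIndex_top_right]
      exact relIndex_le_of_le_right le_top (BG.relIndex_ne_zero _ _)
    have h3 := card_inf_mul_relIndex C_(P) (N_(Q) ⊓ N_(P))
    have h4 : (C_(P)).relIndex (N_(Q) ⊓ N_(P)) ≤ 2 :=
      (relIndex_le_of_le_right inf_le_right (BG.relIndex_ne_zero _ _)).trans cI'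
    rw [inf_comm C_(P), e, card_bot, one_mul] at h3
    rw [cH, ← h3] at h1
    have := Nat.mul_le_mul h4 h2
    omega
  by_cases htQ' : t ∈ C_(Q)
  · have hPK : P ≤ C_[t] := le_cent1_iff.2 htC
    have hQK : Q ≤ C_[t] := le_cent1_iff.2 htQ'
    have sP := syl h hP hPK
    have m1 := sylow_mod Nat.prime_eleven sP
    have m2 := card_inf_mul_relIndex N_(P) C_[t]
    have m3 : (N_(P)).relIndex C_[t] ≠ 1 := fun e => ne_bot_of_prime (hQ ▸ Nat.prime_eleven)
      (eq_bot_mono (ti h hQ hP hPQ.symm) (le_inf le_rfl (hQK.trans (relIndex_eq_one.1 e))))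
    have m4 : (N_(P)).relIndex C_[t] ≤ 45 := by
      rw [← h45, ← relIndex_top_right]
      exact relIndex_le_of_le_right le_top (BG.relIndex_ne_zero _ _)
    have m5 := (C_[t]).card_mul_index
    rw [h.card, ← m2] at m5
    have m6 : 44 ∣ Nat.card ↥(C_(P) ⊓ C_[t]) := by
      refine Nat.Coprime.mul_dvd_of_dvd_of_dvd (m := 4) (n := 11) (by norm_num) ?_
        (hP ▸ card_dvd (le_inf (abelian_iff.1 (abelian_of_cyclic (cyclic_of_prime (hP ▸ Nat.prime_eleven)))) hPK))
      have o2 : IsPGroup 2 (zpowers t) := by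
        have e1 : Nat.card (zpowers t) ∣ 16 * 11 := (card_dvd (zpowers_le.2 htP)).trans cH.dvd
        have e2 : ¬ 11 ∣ Nat.card (zpowers t) := fun e => by
          obtain ⟨X, hX, hXc⟩ := exists_card_eq_prime Nat.prime_eleven e
          have a1 : X = P := by_contra fun ne => ne_bot_of_prime (hXc ▸ Nat.prime_eleven)
            (eq_bot_mono (ti h hXc hP ne) (le_inf le_rfl (hX.trans (zpowers_le.2 htP))))
          have a2 : X = Q := by_contra fun ne => ne_bot_of_prime (hXc ▸ Nat.prime_eleven)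
            (eq_bot_mono (ti h hXc hQ ne) (le_inf le_rfl (hX.trans (zpowers_le.2 htQ))))
          exact hPQ (a1.symm.trans a2)
        obtain ⟨k, -, hk⟩ := (Nat.dvd_prime_pow Nat.prime_two (m := 4)).1
          (((Nat.Prime.coprime_iff_not_dvd Nat.prime_eleven).2 e2).symm.dvd_of_dvd_mul_right e1)
        exact pg_of_card hk
      obtain ⟨T, hT, htT⟩ := sylow_superset Nat.prime_two o2 (zpowers_le.2 htC)
      have h8 : 2 ^ 3 ∣ Nat.card T := hT.pow_dvd Nat.prime_two (by
        have := BG.relIndex_ne_zero C_(P) N_(P)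
        generalize (C_(P)).relIndex N_(P) = i at cC cI' this
        interval_cases i <;> omega)
      have hT2 := hT.pg Nat.prime_two
      refine dvd_trans ?_ (card_dvd (inf_le_inf_right C_[t] hT.le))
      by_cases hz : t ∈ C_(T)
      · rw [inf_eq_left.2 (le_cent1_iff.2 hz)]
        exact dvd_trans (by norm_num) h8
      · have a1 : T ⊓ C_(T) < T ⊓ C_[t] := lt_of_le_of_ne (inf_le_inf_left T (cent_le_cent1 (htT (mem_zpowers t))))
          fun e => hz (e.ge ⟨htT (mem_zpowers t), mem_cent1_self t⟩).2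
        have a2 := card_lt a1
        have a3 := one_lt_card (pg_center_ne_bot Nat.prime_two hT2 (ne_bot_of_mem (htT (mem_zpowers t)) ht1))
        obtain ⟨k, hk⟩ := pg_card Nat.prime_two (pg_le hT2 (inf_le_left : T ⊓ C_[t] ≤ T))
        rw [hk] at a2 ⊢
        rcases k with _ | _ | k
        · omega
        · omega
        · exact ⟨2 ^ k, by ring⟩
    have hle : C_(P) ⊓ C_[t] ≤ N_(P) ⊓ C_[t] := inf_le_inf_right _ (cent_le_norm P)
    obtain ⟨a, ha⟩ := m6.trans (card_dvd hle)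
    have m7 : (N_(P)).relIndex C_[t] = 12 ∨ (N_(P)).relIndex C_[t] = 45 := by
      have e : (N_(P)).relIndex C_[t] ∣ 7920 := m5 ▸ (Dvd.intro_left _ rfl).mul_right _
      unfold Nat.ModEq at m1
      generalize (N_(P)).relIndex C_[t] = n at m1 m3 m4 e
      interval_cases n <;> omega
    rcases m7 with m7 | m7
    · have a1 : Nat.card ↥(N_(P) ⊓ C_[t]) = 44 := by
        have e1 : Nat.card ↥(N_(P) ⊓ C_[t]) ∣ 176 := cH ▸ card_dvd inf_le_left
        have e2 : Nat.card ↥(N_(P) ⊓ C_[t]) ∣ 660 := ⟨(C_[t]).index, by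
          rw [m7] at m5
          apply Nat.eq_of_mul_eq_mul_left (show 0 < 12 by norm_num)
          rw [show 12 * 660 = 7920 from rfl, ← m5]; ring⟩
        exact Nat.dvd_antisymm (Nat.dvd_gcd e1 e2) ⟨a, ha⟩
      have a2 : C_(P) ⊓ C_[t] = N_(P) ⊓ C_[t] :=
        eq_of_le_of_card_le hle (a1 ▸ Nat.le_of_dvd (card_pos _) m6)
      have a3 := H01.prfT1_17.burnside sP (by rw [inf_comm, ← a2]; exact inf_le_left)
      have a4 := a3.card
      rw [← m2, a1, m7, hP] at a4
      have sp : Sep G 3 11 := fun X Y hX hY hc => by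
        obtain ⟨Y', b1, b2⟩ := exists_card_eq_prime Nat.prime_eleven hY
        obtain ⟨y, -, rfl⟩ := sylow_trans Nat.prime_eleven (syl h hP le_top) (syl h b2 le_top)
        have b3 := hX.trans (card_dvd (hc.trans (cent_anti b1)))
        rw [← cj_cent, card_cj] at b3
        have : 3 ∣ 176 := b3.trans (Dvd.intro _ cC)
        omega
      obtain ⟨S, hS⟩ := sylow_exists Nat.prime_three (piCoreOf {11}ᶜ C_[t])
      have a5 := fr (k := 1) Nat.prime_three Nat.prime_eleven sp a3.le_left a3.normal hS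
        (by rw [a3.relIndex_left, hP]; norm_num)
      rcases pcard h.card Nat.prime_three (hS.pg Nat.prime_three)
        (hS.ne_bot Nat.prime_three rfl (by omega)) with e | ⟨-, e⟩ | e | e
      · omega
      · simp at e; omega
      · omega
      · omega
    · have a1 : (C_[t]).index ∣ 4 := ⟨a, by
        rw [m7, ha] at m5
        apply Nat.eq_of_mul_eq_mul_left (show 0 < 1980 by norm_num)
        rw [show 1980 * 4 = 7920 from rfl, ← m5]; ring⟩
      have a2 : (C_[t]).normalCore.index ∣ (C_[t]).index.factorial := by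
        rw [Subgroup.normalCore_eq_ker, index_ker]
        have := card_subgroup_dvd_card (MulAction.toPermHom G (G ⧸ C_[t])).range
        rwa [Nat.card_perm] at this
      have a3 : (C_[t]).normalCore ≠ ⊥ := fun e => by
        rw [e, index_bot, h.card] at a2
        have := Nat.le_of_dvd (by norm_num)
          (a2.trans (Nat.factorial_dvd_factorial (Nat.le_of_dvd (by norm_num) a1)))
        simp [Nat.factorial] at this
      have a4 : C_((C_[t]).normalCore) ≠ ⊥ := ne_bot_of_mem (le_cent1_iff.1 (normalCore_le _)) ht1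
      have a5 := (le_of_normal h hP _ a4).trans (cent_anti (le_of_normal h hQ _ a3))
      exact ne_bot_of_prime (hP ▸ Nat.prime_eleven)
        (eq_bot_mono (ti h hP hQ hPQ) (le_inf le_rfl (le_norm_of_cent a5)))
  · let φ : {a : P // a ≠ 1} × Q → G ⧸ N_(Q) := fun x => ((x.2 : G) * (x.1.1 : G) : G)
    have hφ : Function.Injective φ := by
      rintro ⟨⟨⟨a, ha⟩, a1⟩, ⟨y, hy⟩⟩ ⟨⟨⟨a', ha'⟩, a1'⟩, ⟨y', hy'⟩⟩ e
      have e1 : (y * a)⁻¹ * (y' * a') ∈ N_(Q) := QuotientGroup.eq.1 e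
      have e2 := mul_mem e1 (inv_mem (mul_mem (mul_mem htQ e1) (inv_mem htQ)))
      have ta : t * a = a * t := (mem_cent.1 htC a ha).symm
      have ta' : t * a' = a' * t := (mem_cent.1 htC a' ha').symm
      have hw : y⁻¹ * y' ∈ Q := mul_mem (inv_mem hy) hy'
      have e3 : (y * a)⁻¹ * (y' * a') * (t * ((y * a)⁻¹ * (y' * a')) * t⁻¹)⁻¹ =
          a⁻¹ * ((y⁻¹ * y') * (t * (y⁻¹ * y') * t⁻¹)⁻¹) * a⁻¹⁻¹ := by
        calc _ = a⁻¹ * (y⁻¹ * y') * (a' * t) * a'⁻¹ * (y⁻¹ * y')⁻¹ * (a * t⁻¹) := by group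
          _ = a⁻¹ * (y⁻¹ * y') * (t * a') * a'⁻¹ * (y⁻¹ * y')⁻¹ * (t⁻¹ * (t * a) * t⁻¹) := by rw [ta']; group
          _ = _ := by rw [ta]; group
      rw [e3] at e2
      have hne : cj a⁻¹ Q ≠ Q := fun e => a1 (Subtype.ext (eq_one_of_mem_of_disj (ti h hP hQ hPQ) ha
        (inv_mem_iff.1 (cj_eq_self_iff.1 e))))
      have e4 := eq_one_of_mem_of_disj (ti h (by rw [card_cj, hQ]) hQ hne)
        (conj_mem_cj a⁻¹ (mul_mem hw (inv_mem (conj_mem_of_norm htQ hw)))) e2
      have e5 : y⁻¹ * y' = 1 := by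
        by_contra ne
        refine htQ' (cent1_eq_of_prime (hQ ▸ Nat.prime_eleven) hw ne ▸ mem_cent1.2 ?_)
        rw [conj_eq_one_iff, mul_inv_eq_one, eq_mul_inv_iff_mul_eq] at e4
        exact e4.symm
      obtain rfl : y = y' := inv_mul_eq_one.1 e5
      have e6 : a⁻¹ * a' = 1 := eq_one_of_mem_of_disj (ti h hP hQ hPQ) (mul_mem (inv_mem ha) ha')
        (by simpa [mul_assoc] using e1)
      obtain rfl : a = a' := inv_mul_eq_one.1 e6
      rfl
    have h1 := Nat.card_le_card_of_injective φ hφ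
    haveI := Fintype.ofFinite P
    rw [Nat.card_prod, ← index_eq_card, iQ, hQ, Nat.card_eq_fintype_card, Fintype.card_subtype_compl,
      Fintype.card_subtype_eq, ← Nat.card_eq_fintype_card, hP] at h1
    omega

theorem main : IsSimpleGroup G := by
  haveI := Fact.mk Nat.prime_eleven
  haveI : Nontrivial G := Finite.one_lt_card_iff_nontrivial.1 (by rw [h.card]; norm_num)
  refine ⟨fun M hM => ?_⟩
  by_contra hne
  push Not at hne
  obtain ⟨P, -, hP⟩ := exists_card_eq_prime (H := (⊤ : Subgroup G)) Nat.prime_eleven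
    (by rw [card_top, h.card]; norm_num)
  have m1 := sylow_mod Nat.prime_eleven (syl h hP le_top)
  rw [relIndex_top_right] at m1
  have m2 := (N_(P)).card_mul_index
  rw [h.card] at m2
  have cI := cent_idx Nat.prime_eleven hP
  have cC := card_mul_relIndex (cent_le_norm P)
  have m3 : 660 ∣ Nat.card N_(P) ∨ (N_(P)).index = 45 ∨ (N_(P)).index = 144 := by
    obtain ⟨a, ha⟩ : 11 ∣ Nat.card N_(P) := hP ▸ card_dvd (le_norm P)
    rw [ha] at m2 ⊢
    have e : (N_(P)).index ∣ 720 := ⟨a, by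
      apply Nat.eq_of_mul_eq_mul_left (show 0 < 11 by norm_num)
      rw [show 11 * 720 = 7920 from rfl, ← m2]; ring⟩
    have e' : (N_(P)).index ∈ Nat.divisors 720 := Nat.mem_divisors.2 ⟨e, by norm_num⟩
    have e2 : ∀ n ∈ Nat.divisors 720, n % 11 = 1 % 11 → n = 1 ∨ n = 12 ∨ n = 45 ∨ n = 144 := by decide +kernel
    rcases e2 _ e' m1 with e | e | e | e <;> rw [e] at m2 <;> omega
  rcases m3 with m3 | m3 | m3
  · have hc : ∀ b : ℕ, b.Prime → b ∣ 7920 → b ∣ Nat.card C_(P) → c b := fun b hb h1 h2 => by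
      by_contra e
      exact (h.sep 11 b Nat.prime_eleven hb (by norm_num) h1 h.c11 e).symm _ P h2 hP.symm.dvd le_rfl
    obtain ⟨a, ha⟩ := m3
    have hi := Nat.le_of_dvd (by norm_num) cI
    have d2 : 2 ∣ Nat.card C_(P) ∧ 3 ∣ Nat.card C_(P) := by
      rw [ha] at cC
      generalize (C_(P)).relIndex N_(P) = i at cC cI hi
      interval_cases i <;> omega
    have c2 := hc 2 Nat.prime_two (by norm_num) d2.1
    have c3 := hc 3 Nat.prime_three (by norm_num) d2.2
    have c5 : ¬ c 5 := by have := h.ex; tauto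
    obtain ⟨S, hS⟩ := sylow_exists Nat.prime_three C_(P)
    have a5 := fr (k := 1) Nat.prime_three Nat.prime_five
      (h.sep 3 5 Nat.prime_three Nat.prime_five (by norm_num) (by norm_num) c3 c5) (cent_le_norm P)
      (norm_le_norm_cent P) hS (by
        rw [pow_one]
        exact (Nat.prime_five.dvd_mul.1 (by rw [cC, ha]; omega)).resolve_left
          fun e => c5 (hc 5 Nat.prime_five (by norm_num) e))
    rcases pcard h.card Nat.prime_three (hS.pg Nat.prime_three)
      (hS.ne_bot Nat.prime_three rfl d2.2) with e | ⟨-, e⟩ | e | e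
    · omega
    · simp at e; omega
    · omega
    · omega
  · exact case45 h hP m3
  · have hPM := le_of_normal h hP M hne.1
    have hn : ⊤ ≤ N_(M) := by rw [normalizer_eq_top]
    have a1 := sylow_frattini Nat.prime_eleven (syl h hP hPM) le_top hn
    have a2 : M.relIndex N_(P) ≠ 1 := fun e => hne.2 (by
      rw [← a1]; exact (sup_eq_left.2 (inf_le_right.trans (relIndex_eq_one.1 e))).symm)
    have a3 := card_inf_mul_relIndex M N_(P)
    have a4 : P = M ⊓ N_(P) := by
      refine eq_of_le_of_card_le (le_inf hPM (le_norm P)) ?_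
      obtain ⟨a, ha⟩ : 11 ∣ Nat.card ↥(M ⊓ N_(P)) := hP ▸ card_dvd (le_inf hPM (le_norm P))
      rw [m3] at m2
      rw [ha, show Nat.card N_(P) = 55 by omega] at a3
      rw [ha, hP]
      have : a * M.relIndex N_(P) = 5 := by linarith [mul_assoc 11 a (M.relIndex N_(P))]
      rcases (Nat.dvd_prime Nat.prime_five).1 (Dvd.intro_left _ this) with e | e
      · exact absurd e a2
      · rw [e] at this; omega
    have a5 := H01.prfT1_17.burnside (syl h hP hPM)
      (a4 ▸ abelian_iff.1 (abelian_of_cyclic (cyclic_of_prime (hP ▸ Nat.prime_eleven))))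
    haveI : (piCoreOf {11}ᶜ M).Normal := normalizer_eq_top_iff.1 (top_le_iff.1 (norm_pcore _ hn))
    refine (isPi_compl Nat.prime_eleven).1 (pcore_isPi {11}ᶜ M) (case1 h _ fun e => ?_)
    rw [← a5.eq_right e] at hn
    rw [top_le_iff.1 hn, index_top] at m3
    omega

end

/-- Let G be a finite group of order 7920 = 2⁴·3²·5·11 (the order of the smallest Mathieu group) and suppose its prime graph (vertices the prime divisors of the order, distinct p, q joined when there is an element of order pq) is disconnected: the prime divisors split into two non-empty parts with no element of order pq for p in one part and q in the other. Then G is simple. -/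
theorem result {G : Type*} [Group G] [Finite G] (hord : Nat.card G = 7920)
    (hdisc : (∃ A : Set ℕ, (∃ a ∈ A, a.Prime ∧ a ∣ Nat.card G) ∧ (∃ b ∉ A, b.Prime ∧ b ∣ Nat.card G) ∧
      ∀ a ∈ A, ∀ b ∉ A, a.Prime → b.Prime → a ∣ Nat.card G → b ∣ Nat.card G → ¬ ∃ g : G, orderOf g = a * b)) :
    IsSimpleGroup G := by
  obtain ⟨A, ⟨a, haA, ha, had⟩, ⟨b, hbA, hb, hbd⟩, hs⟩ := hdisc
  have pr : ∀ q : ℕ, q.Prime → q ∣ Nat.card G → q = 2 ∨ q = 3 ∨ q = 5 ∨ q = 11 := fun q hq hd => by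
    obtain ⟨X, -, hX⟩ := BG.exists_card_eq_prime (H := (⊤ : Subgroup G)) hq (by rwa [Subgroup.card_top])
    have := pcard hord hq (BG.pg_of_card_eq hX) (BG.ne_bot_of_prime (hX ▸ hq))
    tauto
  by_cases h11 : 11 ∈ A
  · refine main (c := (· ∈ A)) ⟨hord, h11, ?_, fun x y hx hy h1 h2 h3 h4 =>
      sep_of hx hy (fun e => h4 (e ▸ h3)) (hs x h3 y h4 hx hy (hord ▸ h1) (hord ▸ h2))⟩
    rcases pr b hb hbd with rfl | rfl | rfl | rfl <;> tauto
  · refine main (c := (· ∉ A)) ⟨hord, h11, ?_, fun x y hx hy h1 h2 h3 h4 =>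
      (sep_of hy hx (fun e => h4 (e ▸ h3)) (hs y (not_not.1 h4) x h3 hy hx (hord ▸ h2) (hord ▸ h1))).symm⟩
    rcases pr a ha had with rfl | rfl | rfl | rfl <;> tauto

end Cfsg.Agent.S2490
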