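import Mathlib
import Cfsg.Statements.S2493
import Cfsg.Agent.H05.Ore2

set_option autoImplicit false
open Cfsg

namespace Cfsg.Agent.S2493

/-- Let n ≥ 5 and let G be a finite perfect group whose centre has order 2 with G/Z(G) isomorphic to the alternating group of degree n (the double cover of the alternating group). Then every element of G is a commutator. -/
theorem result {G : Type*} [Group G] [Finite G] (hperf : commutator G = ⊤) {n : ℕ} (hn : 5 ≤ n)
    (hZ : Nat.card (Subgroup.center G) = 2) (e : G ⧸ Subgroup.center G ≃* alternatingGroup (Fin n))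
    (g : G) :
    ∃ a b : G, a * b * a⁻¹ * b⁻¹ = g := by
  obtain ⟨m, rfl⟩ : ∃ m, n = m + 1 := ⟨n - 1, by omega⟩
  obtain ⟨z, hz1, hz⟩ := (Nat.card_eq_two_iff' (1 : Subgroup.center G)).1 hZ
  let π : G →* Equiv.Perm (Fin (m + 1)) :=
    (alternatingGroup _).subtype.comp (e.toMonoidHom.comp (QuotientGroup.mk' _))
  have hk : ∀ y, π y = 1 ↔ y ∈ Subgroup.center G := fun y => by simp [π]
  have h : H05.Ore.DC π (z : G) :=
    { sur := fun σ hσ => by
        obtain ⟨x, hx⟩ := (e.surjective.comp (QuotientGroup.mk'_surjective _)) ⟨σ, hσ⟩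
        exact ⟨x, congrArg Subtype.val hx⟩
      sgn := fun x => (e (QuotientGroup.mk' _ x)).2
      cen := fun g => Subgroup.mem_center_iff.1 z.2 g
      ne := fun h => hz1 (Subtype.ext h)
      zz := by
        have := congrArg Subtype.val (hZ ▸ pow_card_eq_one' (x := z))
        rwa [sq] at this
      πz := (hk _).2 z.2
      ker := fun y hy => by
        by_cases h : y = 1
        · exact Or.inl h
        · exact Or.inr (congrArg Subtype.val
            (hz ⟨y, (hk y).1 hy⟩ fun r => h (congrArg Subtype.val r)))
      perf := hperf }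
  exact h.comm (by omega) g

end Cfsg.Agent.S2493
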