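import Mathlib
import Cfsg.Statements.S2495
import Cfsg.Agent.H16.SpecHalf

set_option autoImplicit false
open Cfsg

namespace Cfsg.Agent.S2495

open Module Matrix in

/-- Let q be an odd prime power, n ≥ 4 even, and L = PSL(n,q). Then L has an element of order q^(n/2) + 1 if and only if the 2-part of n exceeds the 2-part of q − 1. -/
theorem result {F : Type*} [Field F] [Fintype F] {q : ℕ} (hF : Fintype.card F = q) (hodd : Odd q)
    {n : ℕ} (hn : 4 ≤ n) (heven : Even n) :
    (∃ g : Matrix.ProjectiveSpecialLinearGroup (Fin n) F, orderOf g = q ^ (n / 2) + 1) ↔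
      padicValNat 2 (q - 1) < padicValNat 2 n := by
  classical
  subst hF
  obtain ⟨m, rfl⟩ : 2 ∣ n := heven.two_dvd
  obtain ⟨p, _, k, hp, hk⟩ := FiniteField.card' F
  haveI := Fact.mk hp
  have hq : 2 ≤ Fintype.card F := Fintype.one_lt_card
  have e1 : ((Fintype.card F : ℤ) - 1).natAbs = Fintype.card F - 1 := by omega
  have e2 : ((Fintype.card F : ℤ) ^ m + 1).natAbs = Fintype.card F ^ m + 1 := by
    rw [← Int.natAbs_natCast (_ + 1)]; push_cast; rfl
  rw [Nat.mul_div_cancel_left _ two_pos, ← e1, ← e2]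
  constructor
  · rintro ⟨g, hg⟩
    obtain ⟨g, rfl⟩ := QuotientGroup.mk_surjective g
    let K := g.1.charpoly.SplittingField
    haveI : Finite K := Module.finite_of_finite F
    have hs : H16.Spl K (H16.slι _ F g) := H16.spl_splittingField _
    obtain ⟨r, hr, h1, h2⟩ := H27.zsigmondy_of_three_le (a := Fintype.card F) (n := 2 * m) hq (by omega)
      (by rintro ⟨h, -⟩; rw [h] at hodd; exact absurd hodd (by decide))
    have hc : ∀ e, (r : ℤ) ∣ (Fintype.card F : ℤ) ^ e - 1 ↔ r ∣ Fintype.card F ^ e - 1 := fun e => by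
      rw [← Int.natCast_dvd_natCast, Nat.cast_sub (Nat.one_le_pow _ _ (by omega))]
      push_cast; rfl
    refine H16.half_forward' (H16.slι _ F) H16.sl_center p hs g.2 ((Int.odd_coe_nat _).2 hodd) (by omega)
      (Int.natCast_dvd_natCast.2 (hk ▸ dvd_pow_self p k.pos.ne')) ?_ (by omega) (by simp) ?_ (fun l hl => ?_) hg hr
      ((hc _).2 h1) fun e he he2 => by rw [hc]; exact h2 e he he2
    · simp only [_root_.zpow_natCast]
      exact (FiniteField.frobeniusAlgHom F K : K →+* K).injective
    · simp only [_root_.zpow_natCast]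
      exact H16.eigs_frob hs
    · exact H16.exists_algebraMap_of_pow_card (by rwa [_root_.zpow_natCast] at hl)
  · intro h
    obtain ⟨K, _, _, _, hK1, hK⟩ := H16.exists_field_ext F (d := 2 * m) (by omega)
    rw [Nat.card_eq_fintype_card (α := F)] at hK
    obtain ⟨γ, hγ0, hγ⟩ := H16.exists_orderOf_field K dvd_rfl
    have hx : Algebra.norm F (γ ^ (Fintype.card F - 1)) = 1 := by
      rw [map_pow, FiniteField.pow_card_sub_one_eq_one _ (Algebra.norm_ne_zero_iff.2 hγ0)]
    obtain ⟨y, hy⟩ := H16.sl_of_alg (F := F) hK1 hx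
    obtain ⟨c, hc⟩ := (hy _).1 dvd_rfl
    refine H16.exists_orderOf_of_dvd_orderOf (x := y) (H16.half_backward (by omega) (by omega) hK1 hx ?_ ?_ h hc ?_)
    · have h1 : Fintype.card F - 1 ∣ orderOf γ := by
        rw [hγ, hK]; simpa using Nat.sub_dvd_pow_sub_pow (Fintype.card F) 1 (2 * m)
      rw [orderOf_pow_of_dvd (by omega) h1, e1, ← Nat.cast_mul, Nat.div_mul_cancel h1, hγ, hK,
        Nat.cast_sub (Nat.one_le_pow _ _ (by omega))]
      push_cast
      rw [abs_of_nonneg (sub_nonneg.2 (one_le_pow₀ (by omega)))]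
    · exact (one_lt_pow₀ (by omega) (by omega)).ne'
    · rw [e1]
      refine FiniteField.pow_card_sub_one_eq_one _ ?_
      rintro rfl
      exact pow_ne_zero _ (pow_ne_zero _ hγ0) (hc.trans (map_zero _))

end Cfsg.Agent.S2495
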