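import Mathlib
import Cfsg.Statements.S2496
import Cfsg.Agent.H16.SpecHalf

set_option autoImplicit false
open Cfsg

namespace Cfsg.Agent.S2496

open Module Matrix in

/-- Let q be an odd prime power, n ≥ 4 even, and U = PSU(n,q) (realised over the field with q² elements). Then U has an element of order q^(n/2) + (−1)^(n/2) — that is, q^(n/2) + 1 when n/2 is even and q^(n/2) − 1 when n/2 is odd — if and only if the 2-part of n exceeds the 2-part of q + 1. -/
theorem result {F : Type*} [Field F] [Fintype F] {q : ℕ} (hF : Fintype.card F = q ^ 2) (hodd : Odd q)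
    {n : ℕ} (hn : 4 ≤ n) (heven : Even n) :
    (∃ g : Cfsg.PSU n F q, orderOf g = if Even (n / 2) then q ^ (n / 2) + 1 else q ^ (n / 2) - 1) ↔
      padicValNat 2 (q + 1) < padicValNat 2 n := by
  classical
  rw [← Nat.card_eq_fintype_card] at hF
  obtain ⟨m, rfl⟩ : 2 ∣ n := heven.two_dvd
  obtain ⟨p, a, hp, _, hq⟩ := H10.exists_q_eq_pow hF
  haveI := Fact.mk hp
  have hq2 := H10.two_le_q hF
  have hq3 : 3 ≤ q := by obtain ⟨t, ht⟩ := hodd; omega
  have e1 : ((-q : ℤ) - 1).natAbs = q + 1 := by omega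
  have hqm : ∀ k, 1 ≤ q ^ k := fun k => Nat.one_le_pow _ _ (by omega)
  have e2 : ((-q : ℤ) ^ m + 1).natAbs = if Even m then q ^ m + 1 else q ^ m - 1 := by
    split_ifs with h
    · rw [h.neg_pow, ← Int.natAbs_natCast (_ + 1)]; push_cast; rfl
    · rw [(Nat.not_even_iff_odd.1 h).neg_pow, ← Nat.cast_pow]
      have := hqm m
      omega
  rw [Nat.mul_div_cancel_left _ two_pos, ← e1, ← e2]
  constructor
  · rintro ⟨g, hg⟩
    obtain ⟨g, rfl⟩ := QuotientGroup.mk_surjective g
    let K := g.1.1.charpoly.SplittingField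
    haveI : Finite K := Module.finite_of_finite F
    have hs : H16.Spl K (H16.suι _ F q g) := H16.spl_splittingField _
    obtain ⟨r, hr, h1, h2⟩ := H16.exists_primitive_neg (m := m) hq3 (by omega)
    obtain ⟨h3, h4⟩ := H16.eigs_unitary hF hs ((H24.Uni.mem_SU_iff hF _).1 g.2)
    refine H16.half_forward' (H16.suι _ F q) (H16.su_center hF (by omega)) p hs g.1.2
      ((Int.odd_coe_nat _).2 hodd).neg (by omega) ?_ h3 (by omega) (by simp) h4 (fun l hl => ?_) hg hr h1 h2
    · rw [dvd_neg, Int.natCast_dvd_natCast, hq]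
      exact dvd_pow_self p (by rintro rfl; simp at hq; omega)
    · apply H16.exists_algebraMap_of_pow_card
      rw [← Nat.card_eq_fintype_card, hF, ← _root_.zpow_natCast, Nat.cast_pow, ← neg_sq]
      exact H16.zpow_pow_fixed hl 2
  · intro h
    obtain ⟨K, _, _, _, hK1, hK⟩ := H16.exists_field_ext F (d := m) (by omega)
    rw [hF, ← pow_mul] at hK
    obtain ⟨γ, hγ0, hγ⟩ := H16.exists_orderOf_field K dvd_rfl
    obtain ⟨ψ0, hψ0⟩ := H16.exists_frob_q hF K
    let ψ : K ≃+* K := RingEquiv.ofBijective ψ0 (Finite.injective_iff_bijective.1 ψ0.injective)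
    obtain ⟨I, hI⟩ := H16.exists_invAlg_unitary (H10.conj_conj hF) (H10.exists_not_fixed hF) (H16.swapTau ψ)
      (H16.swapTau_alg (H10.conj_conj hF) ψ fun c => by
        change ψ0 _ = _; rw [hψ0, H10.conj_apply, map_pow])
      (H16.swapTau_swapTau ψ) (1, 0) (by simp) (H16.pair_socle _ (by simp [H16.swapTau_apply]))
    have hA : finrank F (K × K) = 2 * m := by rw [finrank_prod, hK1]; omega
    have hγ1 := pow_ne_zero (q + 1) hγ0
    have hN := Algebra.norm_ne_zero_iff (R := F).2 hγ0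
    have hx : Algebra.norm F ((γ ^ (q + 1), (ψ (γ ^ (q + 1)))⁻¹) : K × K) = 1 := by
      have h1 : ψ (γ ^ (q + 1)) = (γ ^ (q + 1)) ^ q := hψ0 _
      have h2 := FiniteField.pow_card_sub_one_eq_one _ hN
      rw [← Nat.card_eq_fintype_card, hF, show q ^ 2 - 1 = (q + 1) * (q - 1) from Nat.sq_sub_sq _ 1] at h2
      rw [H16.norm_prod_mk, h1, Algebra.norm_inv, map_pow, map_pow, map_pow, mul_inv_eq_one₀
        (pow_ne_zero _ (pow_ne_zero _ hN))]
      conv_rhs => rw [show q = (q - 1) + 1 by omega, pow_succ, show q - 1 + 1 = q by omega, ← pow_mul, h2, one_mul]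
    have hu := hI ▸ H16.swapTau_unit ψ hγ1
    obtain ⟨y, hy⟩ := H16.su_of_alg hF I (by omega) hA hu hx
    obtain ⟨c, hc⟩ := (hy _).1 dvd_rfl
    refine H16.exists_orderOf_of_dvd_orderOf (x := y) (H16.half_backward (by omega) (by omega) hA hx ?_ ?_ h hc ?_)
    · have h1 : q + 1 ∣ orderOf γ := by
        rw [hγ, hK]; exact (show q + 1 ∣ q ^ 2 - 1 from (Nat.sq_sub_sq _ 1).symm ▸ Dvd.intro _ rfl).trans
          (by simpa [pow_mul] using Nat.sub_dvd_pow_sub_pow (q ^ 2) 1 m)
      rw [H16.orderOf_pair, orderOf_pow_of_dvd (by omega) h1, e1, ← Nat.cast_mul, Nat.div_mul_cancel h1, hγ, hK,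
        Even.neg_pow (even_two_mul m), ← Nat.cast_pow]
      have := hqm (2 * m)
      omega
    · intro h1
      have h2 := congrArg Int.natAbs h1
      rw [Int.natAbs_pow, Int.natAbs_neg, Int.natAbs_natCast] at h2
      exact (Nat.one_lt_pow (by omega) hq2).ne' h2
    · have h4 := congrArg (· ^ orderOf y) hu
      simp only [mul_pow, one_pow, ← map_pow I.τ] at h4
      rw [hc, I.τ_alg, ← map_mul, ← map_one (algebraMap F (K × K)), H10.conj_apply, ← pow_succ] at h4
      rw [e1]
      exact (algebraMap F (K × K)).injective h4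

end Cfsg.Agent.S2496
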