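import Mathlib
import Cfsg.Agent.L.PSL2Tr
import Cfsg.Agent.L.PSL2Sub
-- Template for statement S2503 (row 2503; see /opt/grader/pristine/manifest.json for weights).
-- Copy to Cfsg/Agent/S2503.lean and replace the sorry. The statement below is byte-identical to the frozen
-- statement Cfsg.CfsgFrozen.S2503 (Cfsg/Statements/S2503.lean; the theorem Cfsg.kfact7_psl_two_even_triple_abelian_factorization);
-- the grader kernel-checks Cfsg.Agent.S2503.result against that frozen type. Keep the theorem IN THIS FILE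
-- (a `result` declared elsewhere and merely imported here is not credited); helpers may live anywhere
-- under Cfsg/Agent/.
import Cfsg.Statements.S2503
-- import your own Cfsg.Agent.* helpers here

set_option autoImplicit false
open Cfsg

namespace Cfsg.Agent.S2503

open L in
theorem aux {F : Type*} [Field F] {A B : M2 F} (h : NoEig A) (h0 : (A * B - B * A).det = 0) : B * A = A * B := by
  by_contra h1
  obtain ⟨v, hv, h2⟩ := Matrix.exists_mulVec_eq_zero_iff.2 h0
  obtain ⟨c, hc⟩ := exists_smul_of_ker (fun e => h1 (sub_eq_zero.1 e).symm) hv h2 (w := A.mulVec v) (by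
    have : (A * B - B * A) * A = A.adjugate * (A * B - B * A) := by
      rw [m2_ext_iff]; simp [m2_mul_apply, Matrix.adjugate_fin_two]; refine ⟨?_, ?_, ?_, ?_⟩ <;> ring
    rw [Matrix.mulVec_mulVec, this, ← Matrix.mulVec_mulVec, h2, Matrix.mulVec_zero])
  exact h c v hv hc

/-- Let F be a finite field with q = 2^t ≥ 4 elements and L = PSL(2,F). Then L has a cyclic subgroup A of order q + 1 and an elementary abelian 2-subgroup B of order q such that L = ABA: every element of L is a product a·b·a' with a, a' ∈ A and b ∈ B. -/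
theorem result {F : Type*} [Field F] [Fintype F]
    (h2 : 2 ∣ Fintype.card F) (h4 : 4 ≤ Fintype.card F) :
    ∃ A B : Subgroup (Matrix.ProjectiveSpecialLinearGroup (Fin 2) F),
      IsCyclic A ∧ Nat.card A = Fintype.card F + 1 ∧ IsMulCommutative B ∧ (∀ b ∈ B, b * b = 1) ∧
        Nat.card B = Fintype.card F ∧
        ∀ g : Matrix.ProjectiveSpecialLinearGroup (Fin 2) F, ∃ a ∈ A, ∃ b ∈ B, ∃ c ∈ A, g = a * b * c := by
  classical
  have h2' : (2 : F) = 0 := H09.two_eq_zero_of_even_card (even_iff_two_dvd.2 h2)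
  have hsq : ∀ c : F, ∃ r, c = r * r := fun c => FiniteField.isSquare_of_char_two (L.ringChar_eq_two h2') c
  obtain ⟨s, hs⟩ := L.exists_noEig_SL (F := F)
  have ht := hs.SL_trace_sq
  let φ : Multiplicative F →* Matrix.ProjectiveSpecialLinearGroup (Fin 2) F :=
    MonoidHom.mk' (fun b => QuotientGroup.mk (L.SLc.un b.toAdd)) fun a b => by rw [toAdd_mul, L.SLc.un_add]; rfl
  have hφ : Function.Injective φ := (injective_iff_map_eq_one φ).2 fun b hb =>
    (L.SLc.isScal_un (b := b.toAdd)).1 (not_not.1 (mt L.mk_ne_one_iff.2 (not_not.2 hb)))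
  have hd : L.Dk.dd F = 1 := ((L.Dk.dd_cases (F := F)).resolve_right (by omega)).2
  refine ⟨L.Dk.torusBar s, φ.range, L.Dk.isCyclic_torusBar ht, ?_, inferInstance, ?_, ?_, fun g => ?_⟩
  · have := L.Dk.card_torusBar s
    rwa [hd, one_mul, L.card_centralizer_SL_noEig hs] at this
  · rintro _ ⟨b, rfl⟩
    rw [← map_mul, show b * b = 1 from (show b.toAdd + b.toAdd = 0 by linear_combination b.toAdd * h2'), map_one]
  · rw [← Nat.card_congr (MonoidHom.ofInjective hφ).toEquiv, Nat.card_eq_fintype_card, Fintype.card_multiplicative]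
  obtain ⟨x, rfl⟩ := QuotientGroup.mk_surjective g
  suffices h : ∃ a ∈ L.SLc.C s, ∃ b : F, x * s * x⁻¹ = a * (L.SLc.un b * s * (L.SLc.un b)⁻¹) * a⁻¹ by
    obtain ⟨a, ha, b, h⟩ := h
    refine ⟨_, ⟨a, ha, rfl⟩, _, ⟨Multiplicative.ofAdd b, rfl⟩, _, ⟨(a * L.SLc.un b)⁻¹ * x, ?_, rfl⟩, ?_⟩
    · rw [SetLike.mem_coe, Subgroup.mem_centralizer_singleton_iff]
      calc _ = (a * L.SLc.un b)⁻¹ * (x * s * x⁻¹) * x := by group
        _ = _ := by rw [h]; group
    · exact congrArg QuotientGroup.mk (a₂ := a * L.SLc.un b * ((a * L.SLc.un b)⁻¹ * x)) (by group)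
  set s' := x * s * x⁻¹
  obtain ⟨b, hb⟩ := hsq ((((s * s : L.SL2 F) : L.M2 F).trace - ((s * s' : L.SL2 F) : L.M2 F).trace) / (s : L.M2 F) 1 0 ^ 2)
  set s'' := L.SLc.un b * s * (L.SLc.un b)⁻¹ with hs''
  have h1 : ((s * s'' : L.SL2 F) : L.M2 F).trace = ((s * s' : L.SL2 F) : L.M2 F).trace := by
    have := hs.apply10
    rw [div_eq_iff (pow_ne_zero _ this)] at hb
    rw [hs'', L.SL2_coe_mul, L.SL2_coe_mul, L.SL2_coe_mul, L.SL2_coe_inv, L.SLc.coe_un, Matrix.trace_fin_two]
    rw [L.SL2_coe_mul, Matrix.trace_fin_two] at hb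
    simp only [L.m2_mul_apply, Matrix.adjugate_fin_two, Matrix.of_apply, Matrix.cons_val', Matrix.cons_val_zero,
      Matrix.cons_val_one, Matrix.cons_val_fin_one] at hb ⊢
    linear_combination hb
  have t1 : (s' : L.M2 F).trace = (s : L.M2 F).trace := L.SL2_trace_conj _ _
  have t2 : (s'' : L.M2 F).trace = (s : L.M2 F).trace := L.SL2_trace_conj _ _
  by_cases h0 : ((s : L.M2 F) * s'' - s'' * s).det = 0
  · have h0' : ((s : L.M2 F) * s' - s' * s).det = 0 := by
      rw [L.det_comm, L.SLc.det_SL, L.SLc.det_SL, t2, ← L.SL2_coe_mul, h1] at h0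
      rwa [L.det_comm, L.SLc.det_SL, L.SLc.det_SL, t1, ← L.SL2_coe_mul]
    refine ⟨1, one_mem _, b, ?_⟩
    rw [one_mul, inv_one, mul_one, ← hs'']
    have h3 : ((s * s : L.SL2 F) : L.M2 F).trace ≠ ((s * s⁻¹ : L.SL2 F) : L.M2 F).trace := by
      rw [mul_inv_cancel, L.SL2_coe_mul, L.m2_sq, L.SLc.det_SL]
      intro e; apply ht
      simp at e
      linear_combination e
    rcases L.eq_or_eq_inv_of_mem ht (L.mem_centralizer_SL.2 (aux hs h0)) t2 with e | e <;>
      rcases L.eq_or_eq_inv_of_mem ht (L.mem_centralizer_SL.2 (aux hs h0')) t1 with e' | e' <;> rw [e, e'] at h1 ⊢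
    · exact absurd h1 h3
    · exact absurd h1.symm h3
  · obtain ⟨P, hP, h3, h5⟩ := L.exists_conj_pair h0 (A' := s) (B' := s') rfl rfl (t2.trans t1.symm)
      (by rw [L.SLc.det_SL, L.SLc.det_SL]) h1
    obtain ⟨r, hr⟩ := hsq P.det
    have hr0 : r ≠ 0 := by rintro rfl; exact hP (by simpa using hr)
    have hd : (r⁻¹ • P).det = 1 := by rw [Matrix.det_smul, hr, Fintype.card_fin]; field_simp
    refine ⟨L.mkSL _ hd, L.mem_centralizer_SL.2 ?_, b, ?_⟩
    · change (r⁻¹ • P) * _ = _ * (r⁻¹ • P)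
      rw [smul_mul_assoc, mul_smul_comm, h3]
    · rw [eq_mul_inv_iff_mul_eq, L.SL2_ext_iff, ← hs'']
      change _ * (r⁻¹ • P) = (r⁻¹ • P) * _
      rw [smul_mul_assoc, mul_smul_comm, h5]

end Cfsg.Agent.S2503
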