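import Mathlib
import Cfsg.Agent.L.PSL2Tr
-- Template for statement S2507 (row 2507; see /opt/grader/pristine/manifest.json for weights).
-- Copy to Cfsg/Agent/S2507.lean and replace the sorry. The statement below is byte-identical to the frozen
-- statement Cfsg.CfsgFrozen.S2507 (Cfsg/Statements/S2507.lean; the theorem Cfsg.kfact7_psl_two_even_conjugacy_class_sizes);
-- the grader kernel-checks Cfsg.Agent.S2507.result against that frozen type. Keep the theorem IN THIS FILE
-- (a `result` declared elsewhere and merely imported here is not credited); helpers may live anywhere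
-- under Cfsg/Agent/.
import Cfsg.Statements.S2507
-- import your own Cfsg.Agent.* helpers here

set_option autoImplicit false
open Cfsg

namespace Cfsg.Agent.S2507

/-- Let F be a finite field with q = 2^f ≥ 4 elements. The conjugacy class sizes of PSL(2,F) are exactly 1, q(q − 1), q² − 1 and q(q + 1). -/
theorem result {F : Type*} [Field F] [Fintype F]
    (h2 : 2 ∣ Fintype.card F) (h4 : 4 ≤ Fintype.card F) :
    Set.range (fun g : (Matrix.ProjectiveSpecialLinearGroup (Fin 2) F) => (Subgroup.centralizer ({g} : Set (Matrix.ProjectiveSpecialLinearGroup (Fin 2) F))).index) =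
      {1, Fintype.card F * (Fintype.card F - 1), Fintype.card F ^ 2 - 1, Fintype.card F * (Fintype.card F + 1)} := by
  classical
  have h2' : (2 : F) = 0 := H09.two_eq_zero_of_even_card (even_iff_two_dvd.2 h2)
  have hp : ∀ s : L.SL2 F, ¬ L.IsScal (s : L.M2 F) → (s : L.M2 F).trace = 0 →
      (Subgroup.centralizer ({s} : Set (L.SL2 F))).index = Fintype.card F ^ 2 - 1 := fun s h1 h3 => by
    have := (Subgroup.centralizer ({s} : Set (L.SL2 F))).card_mul_index
    rw [L.card_centralizer_SL_par_two h2' h1 h3, L.SLc.card_SL2] at this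
    exact Nat.eq_of_mul_eq_mul_left Fintype.card_pos this
  ext n
  simp only [Set.mem_range, Set.mem_insert_iff, Set.mem_singleton_iff]
  constructor
  · rintro ⟨g, rfl⟩
    obtain ⟨s, rfl⟩ := QuotientGroup.mk_surjective g
    rw [L.index_psl_of_trace (Or.inl h2')]
    by_cases h1 : L.IsScal (s : L.M2 F)
    · left
      rw [(L.SL2_scal_iff_two h2').1 h1, Subgroup.index_eq_one, eq_top_iff]
      intro x _; simp [Subgroup.mem_centralizer_singleton_iff]
    by_cases h3 : (s : L.M2 F).trace = 0
    · exact Or.inr (Or.inr (Or.inl (hp s h1 h3)))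
    rcases L.card_torus (g := s) (fun e => h3 (pow_eq_zero_iff two_ne_zero |>.1 (by linear_combination e + 2 * h2'))) with h | h
    · exact Or.inr (Or.inr (Or.inr (L.SLc.index_C_of_sub h.2)))
    · exact Or.inr (Or.inl (L.SLc.index_C_of_add h.2))
  · rintro (rfl | rfl | rfl | rfl)
    · refine ⟨1, ?_⟩
      rw [Subgroup.index_eq_one, eq_top_iff]
      intro x _; simp [Subgroup.mem_centralizer_singleton_iff]
    · obtain ⟨s, hs⟩ := L.exists_noEig_SL (F := F)
      exact ⟨QuotientGroup.mk s, (L.index_psl_of_trace (Or.inl h2')).trans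
        (L.SLc.index_C_of_add (L.card_centralizer_SL_noEig hs))⟩
    · exact ⟨QuotientGroup.mk (L.SLc.un 1), (L.index_psl_of_trace (Or.inl h2')).trans
        (hp _ (mt L.SLc.isScal_un.1 one_ne_zero) ((L.SLc.trace_un 1).trans h2'))⟩
    · obtain ⟨a, ha⟩ := L.SLc.exists_unit_sq_ne_one h4
      exact ⟨QuotientGroup.mk (L.SLc.dg a), (L.index_psl_of_trace (Or.inl h2')).trans
        (L.SLc.index_C_of_sub (L.SLc.card_C_dg ha))⟩

end Cfsg.Agent.S2507
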