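import Mathlib
import Cfsg.Agent.L.PSL2Tr
-- Template for statement S2508 (row 2508; see /opt/grader/pristine/manifest.json for weights).
-- Copy to Cfsg/Agent/S2508.lean and replace the sorry. The statement below is byte-identical to the frozen
-- statement Cfsg.CfsgFrozen.S2508 (Cfsg/Statements/S2508.lean; the theorem Cfsg.kfact7_psl_two_odd_conjugacy_class_sizes);
-- the grader kernel-checks Cfsg.Agent.S2508.result against that frozen type. Keep the theorem IN THIS FILE
-- (a `result` declared elsewhere and merely imported here is not credited); helpers may live anywhere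
-- under Cfsg/Agent/.
import Cfsg.Statements.S2508
-- import your own Cfsg.Agent.* helpers here

set_option autoImplicit false
open Cfsg

namespace Cfsg.Agent.S2508

/-- Let F be a finite field with q elements, q odd and q ≥ 7. If q ≡ 1 (mod 4) the conjugacy class sizes of PSL(2,F) are exactly 1, (q² − 1)/2, q(q + 1)/2, q(q − 1) and q(q + 1); if q ≡ 3 (mod 4) they are exactly 1, (q² − 1)/2, q(q − 1)/2, q(q + 1) and q(q − 1). -/
theorem result {F : Type*} [Field F] [Fintype F]
    (hodd : ¬ 2 ∣ Fintype.card F) (h7 : 7 ≤ Fintype.card F) :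
    (Fintype.card F % 4 = 1 →
      Set.range (fun g : (Matrix.ProjectiveSpecialLinearGroup (Fin 2) F) => (Subgroup.centralizer ({g} : Set (Matrix.ProjectiveSpecialLinearGroup (Fin 2) F))).index) =
        {1, (Fintype.card F ^ 2 - 1) / 2, Fintype.card F * (Fintype.card F + 1) / 2,
          Fintype.card F * (Fintype.card F - 1), Fintype.card F * (Fintype.card F + 1)}) ∧
    (Fintype.card F % 4 = 3 →
      Set.range (fun g : (Matrix.ProjectiveSpecialLinearGroup (Fin 2) F) => (Subgroup.centralizer ({g} : Set (Matrix.ProjectiveSpecialLinearGroup (Fin 2) F))).index) =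
        {1, (Fintype.card F ^ 2 - 1) / 2, Fintype.card F * (Fintype.card F - 1) / 2,
          Fintype.card F * (Fintype.card F + 1), Fintype.card F * (Fintype.card F - 1)}) := by
  classical
  have h2 : (2 : F) ≠ 0 := L.two_ne_zero_of_odd (Nat.odd_iff.2 (by omega))
  have h4 : (4 : F) ≠ 0 := L.four_ne_zero_of (h2 := h2)
  have hp : ∀ s : L.SL2 F, ¬ L.IsScal (s : L.M2 F) → (s : L.M2 F).trace ^ 2 = 4 →
      (Subgroup.centralizer ({QuotientGroup.mk s} : Set (Matrix.ProjectiveSpecialLinearGroup (Fin 2) F))).index =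
        (Fintype.card F ^ 2 - 1) / 2 := fun s h1 h3 => by
    rw [L.index_psl_of_trace (Or.inr fun e => h4 (by rw [← h3, e]; ring))]
    have := (Subgroup.centralizer ({s} : Set (L.SL2 F))).card_mul_index
    rw [L.card_centralizer_SL_par h2 h1 h3, L.SLc.card_SL2, mul_comm 2, mul_assoc] at this
    have := Nat.eq_of_mul_eq_mul_left Fintype.card_pos this
    omega
  have h0 : ∀ s : L.SL2 F, (s : L.M2 F).trace = 0 →
      (Fintype.card F % 4 = 1 → (Subgroup.centralizer ({QuotientGroup.mk s} :
        Set (Matrix.ProjectiveSpecialLinearGroup (Fin 2) F))).index = Fintype.card F * (Fintype.card F + 1) / 2) ∧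
      (Fintype.card F % 4 = 3 → (Subgroup.centralizer ({QuotientGroup.mk s} :
        Set (Matrix.ProjectiveSpecialLinearGroup (Fin 2) F))).index = Fintype.card F * (Fintype.card F - 1) / 2) := by
    intro s hs
    have h5 := L.index_psl_of_trace_zero h2 hs
    have h6 : orderOf s = 4 := orderOf_eq_prime_pow (p := 2) (n := 1)
      (by rw [pow_one, sq, L.sq_eq_neg_one_of_trace hs]; exact L.SLc.neg_one_ne_one h2)
      (by rw [show 2 ^ (1 + 1) = 2 * 2 by rfl, pow_mul, sq s, L.sq_eq_neg_one_of_trace hs]; simp)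
    have h8 := Subgroup.orderOf_dvd_natCard (Subgroup.centralizer ({s} : Set (L.SL2 F))) (L.mem_centralizer_SL.2 rfl)
    rw [h6] at h8
    rcases L.card_torus (L.trace_sq_ne_of_zero h2 hs) with h | h
    · rw [L.SLc.index_C_of_sub h.2] at h5; rw [h.2] at h8
      exact ⟨fun _ => by omega, fun _ => by omega⟩
    · rw [L.SLc.index_C_of_add h.2] at h5; rw [h.2] at h8
      exact ⟨fun _ => by omega, fun _ => by omega⟩
  have h1 : (Subgroup.centralizer ({1} : Set (Matrix.ProjectiveSpecialLinearGroup (Fin 2) F))).index = 1 := by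
    rw [Subgroup.index_eq_one, eq_top_iff]
    intro x _; simp [Subgroup.mem_centralizer_singleton_iff]
  have key : ∀ s : L.SL2 F, (s : L.M2 F).trace ^ 2 ≠ 4 → ¬ Nat.card (L.SLc.C s) ∣ 4 → ∃ z : L.SL2 F,
      (Subgroup.centralizer ({QuotientGroup.mk z} : Set (Matrix.ProjectiveSpecialLinearGroup (Fin 2) F))).index =
        (L.SLc.C s).index := by
    intro s hs h
    have := L.isCyclic_centralizer_SL hs
    obtain ⟨z, hz⟩ := IsCyclic.exists_ofOrder_eq_natCard (α := L.SLc.C s)
    have h5 : (z : L.SL2 F) ^ 4 ≠ 1 := fun e => h (hz ▸ orderOf_dvd_of_pow_eq_one (Subtype.ext e))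
    refine ⟨z, ?_⟩
    rw [L.index_psl_of_trace (Or.inr fun e => h5 (by
      rw [show 4 = 2 * 2 by rfl, pow_mul, sq z.1, L.sq_eq_neg_one_of_trace e]; simp)),
      L.centralizer_eq_of_mem (L.SLc.not_isScal_of_trace hs) z.2 (fun e => h5 (by
        rw [show 4 = 2 * 2 by rfl, pow_mul, (L.SLc.sq_eq_one_iff h2).2 e, one_pow]))]
  have main : ∀ m, (∀ s : L.SL2 F, (s : L.M2 F).trace = 0 → (Subgroup.centralizer ({QuotientGroup.mk s} :
        Set (Matrix.ProjectiveSpecialLinearGroup (Fin 2) F))).index = m) → ∀ n,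
      n ∈ Set.range (fun g : (Matrix.ProjectiveSpecialLinearGroup (Fin 2) F) =>
        (Subgroup.centralizer ({g} : Set (Matrix.ProjectiveSpecialLinearGroup (Fin 2) F))).index) ↔
      n = 1 ∨ n = (Fintype.card F ^ 2 - 1) / 2 ∨ n = m ∨ n = Fintype.card F * (Fintype.card F - 1) ∨
        n = Fintype.card F * (Fintype.card F + 1) := by
    intro m hm n
    constructor
    · rintro ⟨g, rfl⟩
      obtain ⟨s, rfl⟩ := QuotientGroup.mk_surjective g
      by_cases h5 : L.IsScal (s : L.M2 F)
      · left
        rw [not_not.1 (mt L.mk_ne_one_iff.1 (not_not.2 h5))]; exact h1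
      by_cases h3 : (s : L.M2 F).trace ^ 2 = 4
      · exact Or.inr (Or.inl (hp s h5 h3))
      by_cases h6 : (s : L.M2 F).trace = 0
      · exact Or.inr (Or.inr (Or.inl (hm s h6)))
      refine Or.inr (Or.inr (Or.inr ?_))
      rcases L.card_torus h3 with h | h
      · exact Or.inr ((L.index_psl_of_trace (Or.inr h6)).trans (L.SLc.index_C_of_sub h.2))
      · exact Or.inl ((L.index_psl_of_trace (Or.inr h6)).trans (L.SLc.index_C_of_add h.2))
    · rintro (rfl | rfl | rfl | rfl | rfl)
      · exact ⟨1, h1⟩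
      · exact ⟨QuotientGroup.mk (L.SLc.un 1), hp _ (mt L.SLc.isScal_un.1 one_ne_zero)
          (by rw [L.SLc.trace_un]; norm_num)⟩
      · exact ⟨QuotientGroup.mk (L.mkSL (L.comp 0 1) (L.det_comp _ _)), hm _ (L.trace_comp _ _)⟩
      · obtain ⟨s, hs⟩ := L.exists_noEig_SL (F := F)
        obtain ⟨z, hz⟩ := key s hs.SL_trace_sq (by
          rw [L.card_centralizer_SL_noEig hs]; exact fun e => by have := Nat.le_of_dvd (by decide) e; omega)
        exact ⟨QuotientGroup.mk z, hz.trans (L.SLc.index_C_of_add (L.card_centralizer_SL_noEig hs))⟩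
      · obtain ⟨a, ha⟩ := L.SLc.exists_unit_sq_ne_one (F := F) (by omega)
        obtain ⟨z, hz⟩ := key _ (L.SLc.trace_sq_dg ha) (by
          rw [L.SLc.card_C_dg ha]; exact fun e => by have := Nat.le_of_dvd (by decide) e; omega)
        exact ⟨QuotientGroup.mk z, hz.trans (L.SLc.index_C_of_sub (L.SLc.card_C_dg ha))⟩
  refine ⟨fun h => Set.ext fun n => ?_, fun h => Set.ext fun n => ?_⟩
  · rw [main _ (fun s hs => (h0 s hs).1 h)]; simp
  · rw [main _ (fun s hs => (h0 s hs).2 h)]; simp only [Set.mem_insert_iff, Set.mem_singleton_iff]; tauto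

end Cfsg.Agent.S2508
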