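import Mathlib
import Cfsg.Statements.S2510
import Cfsg.Agent.H16.SpecMat

set_option autoImplicit false
open Cfsg

namespace Cfsg.Agent.S2510

/-- Let F be a finite field with q = p^a elements, n ≥ 2 (with q ≥ 4 when n = 2), L = PSL(n, F), and let r be a prime dividing q − 1 and not dividing n. Then for every m the direct product L × L × L × (ℤ/r)^m has the same set of element orders as L × L × L; and if n − 1 ≠ p^j for every j ≥ 0 (so never when n = 2, since 1 = p^0), then already L × L × (ℤ/r)^m has the same set of element orders as L × L. -/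
theorem result {F : Type*} [Field F] [Fintype F] (p a n r m : ℕ) (hp : p.Prime) (ha : 1 ≤ a) (hF : Fintype.card F = p ^ a)
    (hn : 2 ≤ n) (hn2 : n = 2 → 4 ≤ Fintype.card F) (hr : r.Prime) (hrq : r ∣ Fintype.card F - 1) (hrn : ¬ r ∣ n) :
    Set.range (orderOf : Matrix.ProjectiveSpecialLinearGroup (Fin n) F × Matrix.ProjectiveSpecialLinearGroup (Fin n) F × Matrix.ProjectiveSpecialLinearGroup (Fin n) F × Multiplicative (Fin m → ZMod r) → ℕ) =
      Set.range (orderOf : Matrix.ProjectiveSpecialLinearGroup (Fin n) F × Matrix.ProjectiveSpecialLinearGroup (Fin n) F × Matrix.ProjectiveSpecialLinearGroup (Fin n) F → ℕ) ∧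
    ((¬ ∃ j : ℕ, n - 1 = p ^ j) →
      Set.range (orderOf : Matrix.ProjectiveSpecialLinearGroup (Fin n) F × Matrix.ProjectiveSpecialLinearGroup (Fin n) F × Multiplicative (Fin m → ZMod r) → ℕ) =
        Set.range (orderOf : Matrix.ProjectiveSpecialLinearGroup (Fin n) F × Matrix.ProjectiveSpecialLinearGroup (Fin n) F → ℕ)) := by
  haveI := Fact.mk hp
  haveI : CharP F p := charP_of_card_eq_prime_pow hF
  obtain ⟨c, hc⟩ := H16.psl_singer (F := F) (n := n) p (by omega)
  obtain ⟨K, ⟨y, hy⟩, hK⟩ := H16.psl_unip (F := F) p hn hr hrq hrn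
  have H1 := H16.psl_H1 p (by omega) hr hrq hrn hc
  refine ⟨H16.spec_three hp c ⟨y, (Dvd.intro _ rfl).trans hy⟩ H1 m, fun h => H16.spec_two hp c H1 ?_ m⟩
  rintro s ⟨x, hx⟩
  refine ⟨y, (Nat.mul_dvd_mul_left r (pow_dvd_pow p ?_)).trans hy⟩
  rcases s with _ | s
  · exact Nat.zero_le _
  obtain ⟨g, rfl⟩ := QuotientGroup.mk_surjective x
  have h1 := H16.lt_of_orderOf_mk_eq (H16.slι n F) H16.sl_center p hx
  rw [Fintype.card_fin] at h1
  have h2 : n - 1 ≠ p ^ s := fun e => h ⟨s, e⟩
  exact hK s (by omega)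

end Cfsg.Agent.S2510
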