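import Mathlib
import Cfsg.Statements.S2511
import Cfsg.Agent.H16.SpecU

set_option autoImplicit false
open Cfsg

namespace Cfsg.Agent.S2511

/-- Let F be a finite field with q² elements, q = p^a, n ≥ 3 with (n, q) ≠ (3, 2), L = PSU(n, q) realised over F, and let r be a prime dividing q + 1 and not dividing n. Then for every m the direct product L × L × L × (ℤ/r)^m has the same set of element orders as L × L × L; and if n − 1 is not a power of p, then already L × L × (ℤ/r)^m has the same set of element orders as L × L. -/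
theorem result {F : Type*} [Field F] [Fintype F] (p a n q r m : ℕ) (hp : p.Prime) (ha : 1 ≤ a) (hq : q = p ^ a) (hF : Fintype.card F = q ^ 2)
    (hn : 3 ≤ n) (hn3 : ¬ (n = 3 ∧ q = 2)) (hr : r.Prime) (hrq : r ∣ q + 1) (hrn : ¬ r ∣ n) :
    Set.range (orderOf : Cfsg.PSU n F q × Cfsg.PSU n F q × Cfsg.PSU n F q × Multiplicative (Fin m → ZMod r) → ℕ) = Set.range (orderOf : Cfsg.PSU n F q × Cfsg.PSU n F q × Cfsg.PSU n F q → ℕ) ∧
    ((¬ ∃ j : ℕ, n - 1 = p ^ j) →
      Set.range (orderOf : Cfsg.PSU n F q × Cfsg.PSU n F q × Multiplicative (Fin m → ZMod r) → ℕ) = Set.range (orderOf : Cfsg.PSU n F q × Cfsg.PSU n F q → ℕ)) := by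
  haveI := Fact.mk hp
  haveI : CharP F p := charP_of_card_eq_prime_pow (f := a * 2) (by rw [hF, hq, pow_mul])
  have hF' : Nat.card F = q ^ 2 := by rw [Nat.card_eq_fintype_card, hF]
  have hn2 : 2 ≤ n := by omega
  obtain ⟨c, hc⟩ := H16.psu_torus hF' hn2
  obtain ⟨K, ⟨y, hy⟩, hK⟩ := H16.psu_unip hF' p hn2 hr hrq hrn
  have H1 := H16.psu_H1 hF' p hn2 hr hrq hrn hc
  refine ⟨H16.spec_three hp c ⟨y, (Dvd.intro _ rfl).trans hy⟩ H1 m, fun h => H16.spec_two hp c H1 ?_ m⟩
  rintro s ⟨x, hx⟩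
  refine ⟨y, (Nat.mul_dvd_mul_left r (pow_dvd_pow p ?_)).trans hy⟩
  rcases s with _ | s
  · exact Nat.zero_le _
  obtain ⟨g, rfl⟩ := QuotientGroup.mk_surjective x
  have h1 := H16.lt_of_orderOf_mk_eq (H16.suι n F q) (H16.su_center hF' hn2) p hx
  rw [Fintype.card_fin] at h1
  have h2 : n - 1 ≠ p ^ s := fun e => h ⟨s, e⟩
  exact hK s (by omega)

end Cfsg.Agent.S2511
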