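import Mathlib
import Cfsg.Statements.S2512
import Cfsg.Agent.H16.SpecSp

set_option autoImplicit false
open Cfsg

namespace Cfsg.Agent.S2512

/-- Let F be a finite field of odd order q = p^a, n ≥ 2 (with q ≥ 3 automatic), and L = PSp(2n, F). Then for every m the direct product L × L × L × (ℤ/2)^m has the same set of element orders as L × L × L; and if 2n − 1 is not a power of p, then already L × L × (ℤ/2)^m has the same set of element orders as L × L. -/
theorem result {F : Type*} [Field F] [Fintype F] (p a n m : ℕ) (hp : p.Prime) (ha : 1 ≤ a) (hF : Fintype.card F = p ^ a) (hodd : Odd (Fintype.card F))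
    (hn : 2 ≤ n) :
    Set.range (orderOf : Cfsg.PSp n F × Cfsg.PSp n F × Cfsg.PSp n F × Multiplicative (Fin m → ZMod 2) → ℕ) = Set.range (orderOf : Cfsg.PSp n F × Cfsg.PSp n F × Cfsg.PSp n F → ℕ) ∧
    ((¬ ∃ j : ℕ, 2 * n - 1 = p ^ j) →
      Set.range (orderOf : Cfsg.PSp n F × Cfsg.PSp n F × Multiplicative (Fin m → ZMod 2) → ℕ) = Set.range (orderOf : Cfsg.PSp n F × Cfsg.PSp n F → ℕ)) := by
  haveI := Fact.mk hp
  haveI : CharP F p := charP_of_card_eq_prime_pow hF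
  have h2 : (2 : F) ≠ 0 := H10.two_ne_zero_of_odd_card hodd
  have hq : Odd (Fintype.card F ^ n) := hodd.pow
  obtain ⟨c, hc1, hc2⟩ : ∃ c : Cfsg.PSp n F,
      (¬ 4 ∣ Fintype.card F ^ n - 1 → Fintype.card F ^ n - 1 ∣ 2 * orderOf c) ∧
      (¬ 4 ∣ Fintype.card F ^ n + 1 → Fintype.card F ^ n + 1 ∣ 2 * orderOf c) := by
    by_cases h : 4 ∣ Fintype.card F ^ n - 1
    · obtain ⟨c, hc⟩ := H16.psp_torus_one (F := F) (n := n) p h2 (by omega) (Or.inr dvd_rfl)
      exact ⟨c, fun h' => absurd h h', fun _ => hc⟩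
    · obtain ⟨c, hc⟩ := H16.psp_torus_one (F := F) (n := n) p h2 (by omega) (Or.inl dvd_rfl)
      refine ⟨c, fun _ => hc, fun h' => absurd ?_ h'⟩
      obtain ⟨t, ht⟩ := hq
      omega
  obtain ⟨K, ⟨y, hy⟩, hK⟩ := H16.psp_unip (F := F) p h2 hn
  have H1 := H16.psp_H1 p h2 (by omega) hc1 hc2
  refine ⟨H16.spec_three hp c ⟨y, (Dvd.intro _ rfl).trans hy⟩ H1 m, fun h => H16.spec_two hp c H1 ?_ m⟩
  rintro s ⟨x, hx⟩
  refine ⟨y, (Nat.mul_dvd_mul_left 2 (pow_dvd_pow p ?_)).trans hy⟩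
  rcases s with _ | s
  · exact Nat.zero_le _
  obtain ⟨g, rfl⟩ := QuotientGroup.mk_surjective x
  have h1 := H16.lt_of_orderOf_mk_eq (H16.spι (Fin n) F) H16.sp_center p hx
  rw [Fintype.card_sum, Fintype.card_fin] at h1
  have h3 : 2 * n - 1 ≠ p ^ s := fun e => h ⟨s, e⟩
  obtain ⟨t, ht⟩ : Odd (p ^ s) := (H16.odd_char p h2).pow
  exact hK s (by omega)

end Cfsg.Agent.S2512
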