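import Mathlib
import Cfsg.Statements.S2513
import Cfsg.Agent.H16.SpecMat

set_option autoImplicit false
open Cfsg

namespace Cfsg.Agent.S2513

open Matrix in
theorem singer_pad {F : Type*} [Field F] [Fintype F] (hF : Fintype.card F = 2) {n j : ℕ} (hj : 0 < j)
    (hjn : j ≤ n) : ∃ y : ProjectiveSpecialLinearGroup (Fin n) F, 2 ^ j - 1 ∣ orderOf y := by
  haveI : Fact (Nat.Prime 2) := ⟨Nat.prime_two⟩
  haveI : CharP F 2 := charP_of_card_eq_prime_pow (f := 1) (by simpa using hF)
  haveI : NeZero j := ⟨hj.ne'⟩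
  have h1 : ∀ c : F, c ≠ 0 → c = 1 := fun c hc => by
    simpa [hF] using FiniteField.pow_card_sub_one_eq_one c hc
  let K := FiniteField.Extension F 2 j
  obtain ⟨γ, hγ0, hγ⟩ := H16.exists_orderOf_field K dvd_rfl
  rw [FiniteField.natCard_extension, Nat.card_eq_fintype_card, hF] at hγ
  let b := Module.finBasisOfFinrankEq F (K × (Fin (n - j) → F)) (n := n)
    (by rw [Module.finrank_prod, FiniteField.finrank_extension, Module.finrank_fin_fun]; omega)
  let ρ := Algebra.leftMulMatrix b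
  have hu : IsUnit ((γ, 1) : K × (Fin (n - j) → F)) :=
    IsUnit.of_mul_eq_one (γ⁻¹, 1) (Prod.ext (mul_inv_cancel₀ hγ0) (mul_one _))
  let g : Matrix.SpecialLinearGroup (Fin n) F := ⟨ρ (γ, 1),
    h1 _ ((Matrix.isUnit_iff_isUnit_det _).1 (hu.map ρ)).ne_zero⟩
  refine ⟨g, ?_⟩
  obtain ⟨c, hc⟩ := (H16.orderOf_mk_dvd_iff (H16.slι n F) H16.sl_center g _).1 dvd_rfl
  change ρ _ ^ _ = _ at hc
  rw [← map_pow, ← Algebra.algebraMap_eq_smul_one, ← ρ.commutes] at hc
  have h2 := congrArg Prod.fst (Algebra.leftMulMatrix_injective b hc)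
  change γ ^ _ = algebraMap F K c at h2
  have hc0 : c ≠ 0 := by
    rintro rfl
    exact pow_ne_zero _ hγ0 (h2.trans (map_zero _))
  rw [h1 c hc0, map_one] at h2
  exact hγ ▸ orderOf_dvd_of_pow_eq_one h2

theorem exists_mul_mem {i n : ℕ} (hi : 0 < i) (hin : i ≤ n) : ∃ j, i ∣ j ∧ n / 2 < j ∧ j ≤ n := by
  refine ⟨i * (n / i), Dvd.intro _ rfl, ?_, Nat.mul_div_le _ _⟩
  have h1 := Nat.div_add_mod n i
  have h2 := Nat.mod_lt n hi
  have h3 : 1 ≤ n / i := (Nat.one_le_div_iff hi).2 hin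
  have h4 : i ≤ i * (n / i) := Nat.le_mul_of_pos_right _ h3
  omega

open Matrix Polynomial in
theorem order_dvd {F : Type*} [Field F] [Fintype F] (hF : Fintype.card F = 2) {n N : ℕ}
    (hN : ∀ j, n / 2 < j → j ≤ n → 2 ^ j - 1 ∣ N) (x : ProjectiveSpecialLinearGroup (Fin n) F) :
    ∃ k, orderOf x ∣ N * 2 ^ k := by
  haveI : Fact (Nat.Prime 2) := ⟨Nat.prime_two⟩
  haveI : CharP F 2 := charP_of_card_eq_prime_pow (f := 1) (by simpa using hF)
  obtain ⟨g, rfl⟩ := QuotientGroup.mk_surjective x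
  let K := g.1.charpoly.SplittingField
  haveI : Finite K := Module.finite_of_finite F
  have hs : H16.Spl K g.1 := H16.spl_splittingField g.1
  refine H16.orderOf_mk_dvd_of_eigs' (H16.slι n F) H16.sl_center 2 hs (c := 1) fun β hβ => ?_
  have hβ0 : β ≠ 0 := H16.ne_zero_of_mem_eigs hs (by rw [g.2]; exact one_ne_zero) hβ
  have hint : IsIntegral F β := Algebra.IsIntegral.isIntegral β
  have h1 : (minpoly F β).natDegree ≤ n := by
    have := natDegree_le_of_dvd (minpoly.dvd F β (H16.mem_eigs.1 hβ)) g.1.charpoly_monic.ne_zero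
    rwa [charpoly_natDegree_eq_dim, Fintype.card_fin] at this
  obtain ⟨j, hj, hj1, hj2⟩ := exists_mul_mem (minpoly.natDegree_pos hint) h1
  let L := IntermediateField.adjoin F {β}
  haveI : Fintype L := Fintype.ofFinite L
  have hL : Fintype.card L = 2 ^ (minpoly F β).natDegree := by
    rw [Module.card_eq_pow_finrank (K := F), IntermediateField.adjoin.finrank hint, hF]
  have h2 : (IntermediateField.AdjoinSimple.gen F β) ^ (2 ^ (minpoly F β).natDegree - 1) = 1 := by
    rw [← hL]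
    exact FiniteField.pow_card_sub_one_eq_one _ fun e => hβ0 (congrArg Subtype.val e)
  have h3 : β ^ (2 ^ (minpoly F β).natDegree - 1) = 1 := congrArg Subtype.val h2
  obtain ⟨t, ht⟩ := (Nat.pow_sub_one_dvd_pow_sub_one 2 hj).trans (hN j hj1 hj2)
  rw [ht, pow_mul, h3, one_pow, map_one]

/-- Let F be the field with two elements, n ≥ 2, L = PSL(n, F) and k₀ = ⌊(n + 3)/2⌋. Then for every k ≥ k₀ the direct product of k copies of L has the same set of element orders as the direct product of k₀ copies of L. -/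
theorem result {F : Type*} [Field F] [Fintype F] (hF : Fintype.card F = 2) (n k : ℕ) (hn : 2 ≤ n) (hk : (n + 3) / 2 ≤ k) :
    Set.range (orderOf : (Fin k → Matrix.ProjectiveSpecialLinearGroup (Fin n) F) → ℕ) = Set.range (orderOf : (Fin ((n + 3) / 2) → Matrix.ProjectiveSpecialLinearGroup (Fin n) F) → ℕ) := by
  apply Set.Subset.antisymm
  · rintro _ ⟨x, rfl⟩
    obtain ⟨s, ⟨u, hu⟩, hs⟩ := H16.exists_max_ppow (Matrix.ProjectiveSpecialLinearGroup (Fin n) F) Nat.prime_two
    have h1 : ∀ i : Fin ((n + 3) / 2), ∃ y : Matrix.ProjectiveSpecialLinearGroup (Fin n) F,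
        (i.1 = 0 → 2 ^ s ∣ orderOf y) ∧ (0 < i.1 → 2 ^ (n / 2 + i.1) - 1 ∣ orderOf y) := by
      intro i
      rcases Nat.eq_zero_or_pos i.1 with h | h
      · exact ⟨u, fun _ => hu.symm.dvd, fun h' => absurd h h'.ne'⟩
      · obtain ⟨y, hy⟩ := singer_pad hF (n := n) (j := n / 2 + i.1) (by omega) (by have := i.2; omega)
        exact ⟨y, fun h' => absurd h' h.ne', fun _ => hy⟩
    choose y hy1 hy2 using h1
    apply H16.exists_orderOf_of_dvd_orderOf (x := y)
    have hy : ∀ i, orderOf (y i) ∣ orderOf y := fun i =>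
      orderOf_dvd_of_pow_eq_one (congrFun (pow_orderOf_eq_one y) i)
    have hN : ∀ j, n / 2 < j → j ≤ n → 2 ^ j - 1 ∣ orderOf y := fun j h1 h2 => by
      have := hy2 ⟨j - n / 2, by omega⟩ (by simp only; omega)
      simp only [show n / 2 + (j - n / 2) = j by omega] at this
      exact this.trans (hy _)
    apply orderOf_dvd_of_pow_eq_one
    ext i
    obtain ⟨t, ht⟩ := order_dvd hF hN (x i)
    exact orderOf_dvd_iff_pow_eq_one.1 ((H16.dvd_lcm_of_dvd_mul_pow Nat.prime_two hs ht).trans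
      (Nat.lcm_dvd ((hy1 ⟨0, by omega⟩ rfl).trans (hy _)) dvd_rfl))
  · rintro _ ⟨x, rfl⟩
    refine ⟨fun i => if h : i.1 < (n + 3) / 2 then x ⟨i.1, h⟩ else 1, ?_⟩
    rw [orderOf_eq_orderOf_iff]
    intro t
    constructor
    · intro h
      ext i
      have := congrFun h ⟨i.1, by have := i.2; omega⟩
      simpa using this
    · intro h
      ext i
      by_cases hi : i.1 < (n + 3) / 2
      · have := congrFun h ⟨i.1, hi⟩
        simpa [hi] using this
      · simp [hi]

end Cfsg.Agent.S2513
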