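import Mathlib
import Cfsg.Statements.S2514

set_option autoImplicit false
open Cfsg

namespace Cfsg.Agent.S2514

theorem aux_dvd_max {G : Type*} [Group G] [Finite G] (g : G) :
    ∃ n, (n ∈ Set.range (orderOf : G → ℕ) ∧ ∀ m ∈ Set.range (orderOf : G → ℕ), n ∣ m → m = n) ∧ orderOf g ∣ n := by
  classical
  have hfin : ({n | n ∈ Set.range (orderOf : G → ℕ) ∧ orderOf g ∣ n} : Set ℕ).Finite :=
    (Set.finite_range _).subset fun _ h => h.1
  obtain ⟨n, hn, hmax⟩ := hfin.exists_maximalFor id _ ⟨orderOf g, ⟨g, rfl⟩, dvd_rfl⟩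
  refine ⟨n, ⟨hn.1, fun m hm hnm => ?_⟩, hn.2⟩
  have hm0 : 0 < m := by obtain ⟨x, rfl⟩ := hm; exact orderOf_pos x
  have hle : n ≤ m := Nat.le_of_dvd hm0 hnm
  exact le_antisymm (hmax ⟨hm, hn.2.trans hnm⟩ hle) hle

theorem aux_exists_order {G : Type*} [Group G] [Finite G] {n d : ℕ} (hn : n ∈ Set.range (orderOf : G → ℕ))
    (hd : d ∣ n) : ∃ y : G, orderOf y = d := by
  obtain ⟨x, rfl⟩ := hn
  refine ⟨x ^ (orderOf x / d), ?_⟩
  rw [orderOf_pow_of_dvd (Nat.div_pos (Nat.le_of_dvd (orderOf_pos x) hd)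
    (Nat.pos_of_dvd_of_pos hd (orderOf_pos x))).ne' (Nat.div_dvd_of_dvd hd)]
  exact Nat.div_div_self hd (orderOf_pos x).ne'

theorem aux_eq_of_pow {X Y : Type*} [Monoid X] [Monoid Y] (x : X) (y : Y) (h : ∀ n : ℕ, x ^ n = 1 ↔ y ^ n = 1) :
    orderOf x = orderOf y := by
  apply Nat.dvd_antisymm
  · rw [orderOf_dvd_iff_pow_eq_one, h]; exact pow_orderOf_eq_one y
  · rw [orderOf_dvd_iff_pow_eq_one, ← h]; exact pow_orderOf_eq_one x

/-- For a finite group X write μ(X) for the set of element orders of X that are maximal under divisibility. Let G and H be finite groups and k ≥ 1 such that μ(H) ⊆ μ(G) and μ(G) has fewer than k elements outside μ(H). Then the direct product of k copies of G has the same set of element orders as the direct product of k − 1 copies of G with H. -/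
theorem result {G H : Type*} [Group G] [Finite G] [Group H] [Finite H] (k : ℕ) (hk : 1 ≤ k)
    (hsub : {n : ℕ | n ∈ Set.range (orderOf : H → ℕ) ∧ ∀ m ∈ Set.range (orderOf : H → ℕ), n ∣ m → m = n} ⊆ {n : ℕ | n ∈ Set.range (orderOf : G → ℕ) ∧ ∀ m ∈ Set.range (orderOf : G → ℕ), n ∣ m → m = n})
    (hfew : ({n : ℕ | n ∈ Set.range (orderOf : G → ℕ) ∧ ∀ m ∈ Set.range (orderOf : G → ℕ), n ∣ m → m = n} \ {n : ℕ | n ∈ Set.range (orderOf : H → ℕ) ∧ ∀ m ∈ Set.range (orderOf : H → ℕ), n ∣ m → m = n}).ncard < k) :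
    Set.range (orderOf : (Fin k → G) → ℕ) = Set.range (orderOf : (Fin (k - 1) → G) × H → ℕ) := by
  classical
  obtain ⟨k, rfl⟩ : ∃ j, k = j + 1 := ⟨k - 1, by omega⟩
  show Set.range (orderOf : (Fin (k + 1) → G) → ℕ) = Set.range (orderOf : (Fin k → G) × H → ℕ)
  set MG := {n : ℕ | n ∈ Set.range (orderOf : G → ℕ) ∧ ∀ m ∈ Set.range (orderOf : G → ℕ), n ∣ m → m = n} with hMG
  set MH := {n : ℕ | n ∈ Set.range (orderOf : H → ℕ) ∧ ∀ m ∈ Set.range (orderOf : H → ℕ), n ∣ m → m = n} with hMH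
  ext N
  constructor
  · rintro ⟨x, rfl⟩
    choose μ hμ hdvd using fun i => aux_dvd_max (x i)
    by_cases hex : ∃ i, μ i ∈ MH
    · obtain ⟨i, hi⟩ := hex
      obtain ⟨h, hh⟩ := aux_exists_order hi.1 (hdvd i)
      refine ⟨(fun j => x (i.succAbove j), h), (aux_eq_of_pow _ _ fun n => ?_)⟩
      simp only [Prod.ext_iff, Prod.pow_fst, Prod.pow_snd, Prod.fst_one, Prod.snd_one, funext_iff,
        Pi.pow_apply, Pi.one_apply]
      rw [Fin.forall_iff_succAbove i, ← orderOf_dvd_iff_pow_eq_one (x := h), hh,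
        orderOf_dvd_iff_pow_eq_one, and_comm]
    · push Not at hex
      have hfin : (MG \ MH).Finite := ((Set.finite_range _).subset fun _ h => h.1).sdiff
      have hni : ¬ Function.Injective μ := by
        intro hinj
        have h1 : (Set.range μ).ncard = k + 1 := by
          rw [← Set.image_univ, Set.ncard_image_of_injective _ hinj, Set.ncard_univ]; simp
        have h2 : (Set.range μ).ncard ≤ (MG \ MH).ncard :=
          Set.ncard_le_ncard (by rintro _ ⟨i, rfl⟩; exact ⟨hμ i, hex i⟩) hfin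
        omega
      obtain ⟨i, j, hij, hne⟩ : ∃ i j, μ i = μ j ∧ i ≠ j := by
        by_contra hc; push Not at hc; exact hni fun a b h => hc a b h
      obtain ⟨j', rfl⟩ := Fin.exists_succAbove_eq hne.symm
      obtain ⟨y, hy⟩ := aux_exists_order (hμ i).1
        (Nat.lcm_dvd (hdvd i) (hij ▸ hdvd (i.succAbove j')))
      refine ⟨(Function.update (fun j => x (i.succAbove j)) j' y, 1), (aux_eq_of_pow _ _ fun n => ?_)⟩
      simp only [Prod.ext_iff, Prod.pow_fst, Prod.pow_snd, Prod.fst_one, Prod.snd_one, funext_iff,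
        Pi.pow_apply, Pi.one_apply, one_pow, and_true]
      rw [Fin.forall_iff_succAbove i]
      have hyn : y ^ n = 1 ↔ x i ^ n = 1 ∧ x (i.succAbove j') ^ n = 1 := by
        simp only [← orderOf_dvd_iff_pow_eq_one, hy, Nat.lcm_dvd_iff]
      constructor
      · intro h
        have h0 := h j'
        rw [Function.update_self, hyn] at h0
        refine ⟨h0.1, fun a => ?_⟩
        by_cases ha : a = j'
        · rw [ha]; exact h0.2
        · have := h a; rwa [Function.update_of_ne ha] at this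
      · rintro ⟨h1, h2⟩ a
        by_cases ha : a = j'
        · rw [ha, Function.update_self, hyn]; exact ⟨h1, h2 j'⟩
        · rw [Function.update_of_ne ha]; exact h2 a
  · rintro ⟨⟨x, h⟩, rfl⟩
    obtain ⟨m, hm, hd⟩ := aux_dvd_max h
    obtain ⟨y, hy⟩ := aux_exists_order (hsub hm).1 hd
    refine ⟨Fin.cons y x, aux_eq_of_pow _ _ fun n => ?_⟩
    simp only [Prod.ext_iff, Prod.pow_fst, Prod.pow_snd, Prod.fst_one, Prod.snd_one, funext_iff,
        Pi.pow_apply, Pi.one_apply]
    rw [Fin.forall_fin_succ]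
    simp only [Fin.cons_zero, Fin.cons_succ]
    rw [← orderOf_dvd_iff_pow_eq_one (x := y), hy, orderOf_dvd_iff_pow_eq_one, and_comm]

end Cfsg.Agent.S2514
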