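import Cfsg.Statements.S3626
import Cfsg.Agent.H11.Ree4
import Cfsg.Agent.H27.Spec2
import Cfsg.Agent.H27.Spec
-- import your own Cfsg.Agent.* helpers here

set_option autoImplicit false
open Cfsg

namespace Cfsg.Agent.S3626
open H11 Cfsg.Lie

section
open Matrix H27 SemidirectProduct
open scoped MatrixGroups
variable {K : Type*} [Field K]

theorem key {g g' X : Matrix (Fin 2) (Fin 2) K} {ε s s' : K} (h : ε • (g * X * g') = X) (h0 : ε ^ 2 = 1) (h1 : g * g = s • g - 1)
    (h2 : g' * g' = s' • g' - 1) : (s' - ε * s) • X = 0 := by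
  have e1 := congrArg (· * (s' • 1 - g')) h
  have e2 := congrArg (ε • (s • 1 - g) * ·) h
  simp only [smul_mul_assoc, mul_smul_comm, mul_sub, mul_assoc, mul_one, h2] at e1
  simp only [smul_mul_assoc, mul_smul_comm, sub_mul, ← mul_assoc, one_mul, h1, smul_smul, ← sq, h0, one_smul] at e2
  linear_combination (norm := module) e2 - e1

variable [Fact (Nat.Prime 3)] [CharP K 3]

/-- the twisted tensor square of the natural module -/
noncomputable def sm (g : Multiplicative (ZMod 2) × SL(2, K)) (X : Matrix (Fin 2) (Fin 2) K) : Matrix (Fin 2) (Fin 2) K :=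
  (AddChar.zmodChar 2 (neg_one_sq (R := K))).toMonoidHom g.1 • (g.2 * X * ((g.2 : Matrix (Fin 2) (Fin 2) K).map (frobenius K 3))ᵀ)

/-- the action -/
@[reducible] noncomputable def act : DistribMulAction (Multiplicative (ZMod 2) × SL(2, K)) (Matrix (Fin 2) (Fin 2) K) where
  smul := sm
  one_smul X := show sm _ _ = _ by simp [sm]
  mul_smul g g' X := show sm _ _ = sm _ (sm _ _) by simp [sm, -AddChar.toMonoidHom_apply, Matrix.map_mul, mul_smul, mul_assoc]
  smul_zero g := show sm _ _ = _ by simp [sm]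
  smul_add g X Y := show sm _ _ = sm _ _ + sm _ _ by simp [sm, mul_add, add_mul]

theorem exists_φ (hs : ∀ s : K, s ^ 2 ≠ -1) :
    ∃ φ : Multiplicative (ZMod 2) × PSL(2, K) →* MulAut (Multiplicative (Matrix (Fin 2) (Fin 2) K)),
      (∀ c X, φ c X = X → X = 1 ∨ c ^ 2 = 1 ∨ c ^ 3 = 1) ∧ ∃ y : _ ⋊[φ] _, y.right ^ 3 = 1 ∧ y ^ 3 ≠ 1 := by
  let := act (K := K)
  have h3 : (3 : K) = 0 := by exact_mod_cast CharP.cast_eq_zero K 3
  have h0 (g : Multiplicative (ZMod 2) × SL(2, K)) (X : Matrix (Fin 2) (Fin 2) K) :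
    g • X = (-1 : K) ^ g.1.toAdd.val • (g.2 * X * ((g.2 : Matrix (Fin 2) (Fin 2) K).map (frobenius K 3))ᵀ) := rfl
  have hπ : Function.Surjective ((MonoidHom.id (Multiplicative (ZMod 2))).prodMap (QuotientGroup.mk' (Subgroup.center SL(2, K)))) :=
    .prodMap Function.surjective_id (QuotientGroup.mk'_surjective _)
  let φ := MonoidHom.liftOfSurjective _ hπ ⟨actHom _ (Matrix (Fin 2) (Fin 2) K), fun ⟨z, g⟩ hg => by
    obtain ⟨rfl, e⟩ := Prod.mk.inj hg
    obtain ⟨r, h1, h2⟩ := Matrix.SpecialLinearGroup.mem_center_iff.1 ((QuotientGroup.eq_one_iff g).1 e)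
    ext1 X
    obtain rfl | rfl := sq_eq_one_iff.1 h1 <;> ext i j <;> simp [h0, ← h2]⟩
  have h1 (g : Multiplicative (ZMod 2) × SL(2, K)) (X) : φ (g.1, (g.2 : PSL(2, K))) X = .ofAdd (g • X.toAdd) := DFunLike.congr_fun (MonoidHom.liftOfRightInverse_comp_apply _ _ _ _ g) X
  have h2 (g : SL(2, K)) (n) (r : K) (e : (g : Matrix (Fin 2) (Fin 2) K) ^ n = r • 1) (h : r ^ 2 = 1) : (g : PSL(2, K)) ^ n = 1 :=
    (QuotientGroup.eq_one_iff (g ^ n)).2 (Matrix.SpecialLinearGroup.mem_center_iff.2 ⟨r, h, by simp [e, smul_one_eq_diagonal]⟩)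
  have h4 (g : Matrix (Fin 2) (Fin 2) K) (e : g.det = 1) : g * g = g.trace • g - 1 := by
    rw [det_fin_two] at e
    ext i j; fin_cases i <;> fin_cases j <;> simp [mul_apply, trace_fin_two] <;> grind
  refine ⟨φ, fun c X e => ?_, ⟨.ofAdd !![0, 0; 0, 1], 1, (H12.upSL 1 : SL(2, K))⟩, Prod.ext (one_pow _) (h2 _ _ 1 ?_ (one_pow _)), fun e => ?_⟩
  · obtain ⟨⟨z, g⟩, rfl⟩ := hπ c
    refine or_iff_not_imp_left.2 fun hX => ?_
    have e2 := h4 g g.2
    have e3 := h4 ((g : Matrix (Fin 2) (Fin 2) K).map (frobenius K 3))ᵀ (by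
      rw [det_transpose, ← RingHom.mapMatrix_apply, ← RingHom.map_det, g.det_coe, map_one])
    rw [show trace ((g : Matrix (Fin 2) (Fin 2) K).map (frobenius K 3))ᵀ = trace (g : Matrix (Fin 2) (Fin 2) K) ^ 3 by
      rw [← frobenius_def]; simp [trace_fin_two]] at e3
    have e1 := (smul_eq_zero.1 (key ((h0 (z, g) _).symm.trans (congrArg Multiplicative.toAdd ((h1 (z, g) X).symm.trans e))) (by
      rw [← pow_mul, mul_comm, pow_mul]; simp) e2 e3)).resolve_right hX
    generalize trace (g : Matrix (Fin 2) (Fin 2) K) = s at *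
    obtain rfl | e4 := eq_or_ne s 0
    · exact .inl (Prod.ext (show z ^ 2 = 1 by clear * -; revert z; decide) (h2 g 2 (-1) (by simp [sq, e2]) neg_one_sq))
    obtain rfl | rfl : z = 1 ∨ z = .ofAdd 1 := by clear * -; revert z; decide
    · have e5 : s ^ 2 = 1 := mul_left_cancel₀ e4 (by simp at e1; linear_combination e1)
      refine .inr (Prod.ext (one_pow _) (h2 g 3 (-s) ?_ (by rwa [neg_sq])))
      rw [pow_succ, sq, e2, sub_mul, smul_mul_assoc, e2, smul_sub, smul_smul, ← sq, e5]; simp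
    · exact (hs s (mul_left_cancel₀ e4 (by simp [ZMod.val_one] at e1; linear_combination e1))).elim
  · ext i j; fin_cases i <;> fin_cases j <;> simp [pow_succ, H12.upSL]; linear_combination h3
  · have := congrArg (·.left.toAdd 0 0) e
    have e1 (i X) := h1 ((1, H12.upSL 1) ^ i) X
    simp only [Prod.pow_mk, QuotientGroup.mk_pow] at e1
    simp only [sd_pow_left, Finset.prod_range_succ, Prod.pow_mk, e1] at this
    simp only [h0, Matrix.SpecialLinearGroup.coe_pow] at this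
    simp [H12.upSL, pow_succ, vecMul, dotProduct, vecHead] at this
    exact one_ne_zero (α := K) (by linear_combination 2 * h3 - this)

theorem range_eq {F R : Type*} [Group F] [Group R] {a b : ℕ} (h1 : ∀ f : F, ∃ g : R, orderOf g = orderOf f)
    (h2 : ∀ g : R, (∃ f : F, orderOf f = orderOf g) ∨ orderOf g ∣ a ∨ orderOf g ∣ b) (h3 : ∀ d, d ∣ a ∨ d ∣ b → ∃ g : R, orderOf g = d) :
    Set.range (orderOf : F × R × R → ℕ) = Set.range (orderOf : R × R × R → ℕ) := by
  have k (x y z : R) (h : (∃ f : F, orderOf f = orderOf x) ∨ ∃ g : R, orderOf g = (orderOf x).lcm (orderOf y)) :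
      (orderOf x).lcm ((orderOf y).lcm (orderOf z)) ∈ Set.range (orderOf : F × R × R → ℕ) := by
    obtain ⟨f, e⟩ | ⟨g, e⟩ := h
    · exact ⟨(f, y, z), by simp [Prod.orderOf_mk, e]⟩
    · exact ⟨(1, g, z), by simp [Prod.orderOf_mk, e, Nat.lcm_assoc]⟩
  refine Set.Subset.antisymm ?_ ?_
  · rintro _ ⟨⟨f, y, z⟩, rfl⟩
    obtain ⟨g, e⟩ := h1 f
    exact ⟨(g, y, z), by simp [Prod.orderOf_mk, e]⟩
  · rintro _ ⟨⟨x, y, z⟩, rfl⟩
    have k1 := k x y z
    have k2 := k y z x
    have k3 := k z x y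
    rw [← Nat.lcm_assoc, Nat.lcm_comm _ (orderOf x)] at k2
    rw [Nat.lcm_comm _ (Nat.lcm _ _), Nat.lcm_assoc] at k3
    simp only [Prod.orderOf_mk]
    obtain e | e | e := h2 x <;> obtain e' | e' | e' := h2 y <;> obtain e'' | e'' | e'' := h2 z <;> first
      | exact k1 (.inl e) | exact k2 (.inl e') | exact k3 (.inl e'') | exact k1 (.inr (h3 _ (by simp [Nat.lcm_dvd e e'])))
      | exact k2 (.inr (h3 _ (by simp [Nat.lcm_dvd e' e'']))) | exact k3 (.inr (h3 _ (by simp [Nat.lcm_dvd e'' e])))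

end

/-- Let R be the small Ree group over the field with q = 3^(2m+1) ≥ 27 elements. Then there are finite groups of arbitrarily large order with exactly the same set of element orders as R × R × R. -/
theorem result {K : Type*} [Field K] [Fintype K] {m : ℕ} (hm : 1 ≤ m) (hK : Fintype.card K = 3 ^ (2 * m + 1)) (N : ℕ) :
    ∃ (H : Type) (_ : Group H) (_ : Fintype H), N < Fintype.card H ∧
      Set.range (orderOf : H → ℕ) = Set.range (orderOf : ↥(Cfsg.Lie.twistedG2 K (3 ^ m)) × ↥(Cfsg.Lie.twistedG2 K (3 ^ m)) × ↥(Cfsg.Lie.twistedG2 K (3 ^ m)) → ℕ) := by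
  obtain ⟨k, n, a, T, A, -, G, ⟨e⟩⟩ := Ree.exists_rg hK
  have : Fact (Nat.Prime 3) := ⟨by decide⟩
  have := charP_of_card_eq_prime_pow hK
  obtain ⟨φ, h1, y, h2, h3⟩ := exists_φ (K := K) fun s hs => FiniteField.isSquare_neg_one_iff.1 ⟨s, by rw [← hs, sq]⟩ (by
    have := G.q1; omega)
  have h4 (X : Multiplicative (Matrix (Fin 2) (Fin 2) K)) : X ^ 3 = 1 := by
    ext i j; simpa using .inl (CharP.cast_eq_zero K 3)
  have h5 {d} (h : 2 ∣ d) (h' : ∃ g : twistedG2 K (3 ^ m), orderOf g = d) (g : twistedG2 K (3 ^ m)) (hg : orderOf g ∣ d) :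
      ∃ f : _ ⋊[φ] _, orderOf f = orderOf g := by
    obtain ⟨x, rfl⟩ := h'
    obtain ⟨z, hz⟩ := isConj_iff.1 (G.s.inv _ _ (orderOf_pow_orderOf_div (orderOf_pos x).ne' h) G.a2)
    refine H27.exists_orderOf_eq_of_dvd (x := .inr (e ⟨z * x * z⁻¹, mem_cent.2 ?_⟩)) ?_
    · rwa [orderOf_injective _ SemidirectProduct.inr_injective, MulEquiv.orderOf_eq, Subgroup.orderOf_mk (H := Subgroup.centralizer _), orderOf_cj]
    · rw [← hz, ← conj_pow]; exact (Commute.refl _).pow_left _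
  rw [← range_eq (F := _ ⋊[φ] _) (a := ro k 2) (b := ro k 3) (fun f => ?_) (fun g => ?_) fun d h => G.orders.2 (by tauto)]
  · refine H27.exists_large (((SemidirectProduct.rightHom (φ := φ)).comp (.fst _ _)).ker ⊓ (MonoidHom.snd _ _).ker) (fun e => ?_) Nat.prime_three
      (fun v hv => ?_) N
    · exact one_ne_zero (α := Matrix (Fin 2) (Fin 2) K)
        (congrArg (·.1.left) (Subgroup.mem_bot.1 (e.le (show (.inl (.ofAdd 1), 1) ∈ _ from ⟨rfl, rfl⟩))))
    · exact Prod.ext (by simpa using H27.sd_pow_mul_eq_one v.1 1 3 ((pow_one _).trans hv.1) h4) (by rw [Prod.pow_snd, show v.2 = 1 from hv.2, one_pow]; rfl)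
  · by_cases h : ∀ X, φ f.right X = X → X = 1
    · exact ⟨e.symm f.right, by
        rw [Subgroup.orderOf_coe, MulEquiv.orderOf_eq]
        exact Nat.dvd_antisymm (orderOf_map_dvd SemidirectProduct.rightHom f)
          (orderOf_dvd_of_pow_eq_one (H27.sd_pow_eq_one_of_fpf f _ (pow_orderOf_eq_one _) h))⟩
    · push Not at h
      obtain ⟨X, h6, h7⟩ := h
      exact G.orders.2 (((h1 _ X h6).resolve_left h7).imp (fun h => orderOf_dvd_of_pow_eq_one (H27.sd_pow_mul_eq_one f _ 3 h h4))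
        fun h => .inl (orderOf_dvd_of_pow_eq_one (H27.sd_pow_mul_eq_one f _ 3 h h4)))
  · obtain h | h | h | h | h := G.orders.1 ⟨g, rfl⟩
    · exact .inl (h5 (by decide) (G.orders.2 (by simp)) g h)
    · exact .inl (H27.exists_orderOf_eq_of_dvd (x := y) (by
        rwa [orderOf_eq_prime_pow (p := 3) (n := 1) (x := y) h3 (H27.sd_pow_mul_eq_one y _ 3 h2 h4)]))
    · exact .inl (h5 (by simp) (G.orders.2 (by simp)) g h)
    · exact .inl (h5 (by simp) (G.orders.2 (by simp)) g h)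
    · exact .inr h

end Cfsg.Agent.S3626
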