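import Cfsg.Statements.S2515
import Cfsg.Agent.S3626
import Cfsg.Agent.L.PSL2Sub
-- import your own Cfsg.Agent.* helpers here

set_option autoImplicit false
open Cfsg

namespace Cfsg.Agent.S2515
open H11

theorem maxset {H : Type*} [Group H] {L : Set ℕ} (h1 : L ⊆ Set.range (orderOf : H → ℕ)) (h2 : ∀ g : H, ∃ m ∈ L, orderOf g ∣ m)
    (h3 : ∀ n ∈ L, ∀ m ∈ L, n ∣ m → m = n) :
    {n : ℕ | n ∈ Set.range (orderOf : H → ℕ) ∧ ∀ m ∈ Set.range (orderOf : H → ℕ), n ∣ m → m = n} = L := by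
  ext n
  refine ⟨fun ⟨⟨g, e⟩, h⟩ => ?_, fun h => ⟨h1 h, ?_⟩⟩
  · obtain ⟨m, hm, h'⟩ := h2 g
    exact h m (h1 hm) (e ▸ h') ▸ hm
  · rintro _ ⟨g, rfl⟩ e
    obtain ⟨m, hm, h'⟩ := h2 g
    exact Nat.dvd_antisymm (h3 n h m hm (e.trans h') ▸ h') e

/-- Let q = 3^α with α ≥ 3 odd. There is a finite group H having a non-trivial normal 3-subgroup and whose element orders maximal under divisibility are exactly 6, 9, q − 1 and (q + 1)/2. -/
theorem result (α : ℕ) (hα : 3 ≤ α) (hodd : Odd α) :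
    ∃ (H : Type) (_ : Group H) (_ : Fintype H), (∃ P : Subgroup H, P.Normal ∧ P ≠ ⊥ ∧ IsPGroup 3 ↥P) ∧
      {n : ℕ | n ∈ Set.range (orderOf : H → ℕ) ∧ ∀ m ∈ Set.range (orderOf : H → ℕ), n ∣ m → m = n} = ({6, 9, 3 ^ α - 1, (3 ^ α + 1) / 2} : Set ℕ) := by
  classical
  have : Fact (Nat.Prime 3) := ⟨by decide⟩
  let K := GaloisField 3 α
  have : Fintype K := .ofFinite _
  have hK : Fintype.card K = 3 ^ α := by rw [← Nat.card_eq_fintype_card, GaloisField.card 3 α (by omega)]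
  obtain ⟨k, hk, h27, h3⟩ : ∃ k, 3 ^ α = 8 * k + 3 ∧ 3 ≤ k ∧ 3 ∣ k := by
    obtain ⟨a, rfl⟩ := hodd
    have h1 : 27 ≤ 3 ^ (2 * a + 1) := Nat.pow_le_pow_right (n := 3) (by decide) hα
    have h2 : 3 ^ (2 * a + 1) % 8 = 3 := by rw [pow_succ, pow_mul, Nat.mul_mod, Nat.pow_mod]; simp
    have h3 : 9 ∣ 3 ^ (2 * a + 1) := pow_dvd_pow 3 (by omega : 2 ≤ _)
    generalize 3 ^ (2 * a + 1) = q at h1 h2 h3
    exact ⟨q / 8, by omega, by omega, by omega⟩
  rw [hk] at hK ⊢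
  obtain ⟨φ, h1, y, h2, h3⟩ := S3626.exists_φ (K := K) fun s hs => FiniteField.isSquare_neg_one_iff.1 ⟨s, by rw [← hs, sq]⟩ (by omega)
  have h4 (X : Multiplicative (Matrix (Fin 2) (Fin 2) K)) : X ^ 3 = 1 := by
    ext i j; simpa using .inl (CharP.cast_eq_zero K 3)
  have hd : L.Dk.dd K = 2 := ((L.Dk.dd_cases (F := K)).resolve_left (by omega)).2
  have h5 (x) {n} (h : orderOf x = n) (h' : n % 2 = 1) : 2 * n ∈ Set.range (orderOf : _ ⋊[φ] _ → ℕ) := ⟨.inr (.ofAdd 1, x), by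
    rw [orderOf_injective _ SemidirectProduct.inr_injective, Prod.orderOf_mk, h, show orderOf (Multiplicative.ofAdd (1 : ZMod 2)) = 2 from
      orderOf_eq_prime rfl (by decide), (Nat.coprime_two_left.2 (Nat.odd_iff.2 h')).lcm_eq_mul]⟩
  refine ⟨_ ⋊[φ] _, _, .ofFinite _, ⟨(SemidirectProduct.rightHom (φ := φ)).ker, inferInstance, fun e => ?_, fun v => ⟨1, Subtype.ext ?_⟩⟩,
    maxset ?_ (fun f => ?_) ?_⟩
  · exact one_ne_zero (α := Matrix (Fin 2) (Fin 2) K) (congrArg (·.left) (Subgroup.mem_bot.1 (e.le (show .inl (.ofAdd 1) ∈ _ from rfl))))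
  · simpa using H27.sd_pow_mul_eq_one v.1 1 3 ((pow_one _).trans v.2) h4
  · rintro _ (rfl | rfl | rfl | rfl)
    · obtain ⟨x, hx⟩ := exists_prime_orderOf_dvd_card' (G := Matrix.ProjectiveSpecialLinearGroup (Fin 2) K) 3 (by
        have := L.Dk.card_psl (F := K)
        rw [hd, hK] at this
        exact (by decide : Nat.Coprime 3 2).dvd_of_dvd_mul_left (by rw [this]; exact Dvd.dvd.mul_right (by omega) _))
      exact h5 x hx rfl
    · exact ⟨y, orderOf_eq_prime_pow (p := 3) (n := 1) (x := y) h3 (H27.sd_pow_mul_eq_one y _ 3 h2 h4)⟩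
    · obtain ⟨x, hx⟩ := L.Dk.exists_orderOf_sub (F := K) (by omega)
      rw [hd, hK] at hx
      exact hx ▸ h5 x rfl (by omega)
    · obtain ⟨x, hx⟩ := L.Dk.exists_orderOf_add (F := K)
      rw [hd, hK] at hx
      exact ⟨.inr (1, x), by rw [orderOf_injective _ SemidirectProduct.inr_injective, Prod.orderOf_mk, orderOf_one, Nat.lcm_one_left]; omega⟩
  · by_cases h : ∀ X, φ f.right X = X → X = 1
    · have k {m} (hm : m ∈ ({6, 9, 8 * k + 3 - 1, (8 * k + 3 + 1) / 2} : Set ℕ)) (h2 : 2 ∣ m) (e : orderOf f.right.2 ∣ m) :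
          ∃ m ∈ ({6, 9, 8 * k + 3 - 1, (8 * k + 3 + 1) / 2} : Set ℕ), orderOf f ∣ m :=
        ⟨m, hm, orderOf_dvd_of_pow_eq_one (H27.sd_pow_eq_one_of_fpf f _ (Prod.ext (orderOf_dvd_iff_pow_eq_one.1
          ((orderOf_dvd_card (x := f.right.1)).trans h2)) (orderOf_dvd_iff_pow_eq_one.1 e)) h)⟩
      obtain e | e | e := L.Dk.orderOf_psl 3 f.right.2
      · exact k (.inl rfl) (by decide) ((orderOf_dvd_of_pow_eq_one e).trans (by decide))
      all_goals rw [hd, hK] at e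
      · exact k (.inr (.inr (.inl rfl))) (by omega) (dvd_of_mul_left_dvd e)
      · exact k (.inr (.inr (.inr rfl))) (by omega) (Nat.dvd_div_of_mul_dvd e)
    · push Not at h
      obtain ⟨X, h6, h7⟩ := h
      exact ((h1 _ X h6).resolve_left h7).elim (fun h => ⟨6, by simp, orderOf_dvd_of_pow_eq_one (H27.sd_pow_mul_eq_one f _ 3 h h4)⟩)
        fun h => ⟨9, by simp, orderOf_dvd_of_pow_eq_one (H27.sd_pow_mul_eq_one f _ 3 h h4)⟩
  · rintro _ (rfl | rfl | rfl | rfl) _ (rfl | rfl | rfl | rfl) e <;> first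
      | rfl | omega | exact absurd (Nat.le_of_dvd (by omega) e) (by omega) | exact Nat.eq_of_dvd_of_lt_two_mul (by omega) e (by omega)

end Cfsg.Agent.S2515
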