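import Mathlib
import Cfsg.Statements.S2516

set_option autoImplicit false
open Cfsg

namespace Cfsg.Agent.S2516

theorem aux_pow {F : Type*} [Field F] {V : Type*} [AddCommGroup V] [Module F V]
    {G : Type*} [Group G] (ρ : Representation F G V)
    (x : Multiplicative V ⋊[(MulAutMultiplicative V).symm.toMonoidHom.comp
        ((DistribMulAction.toAddAut ((V →ₗ[F] V)ˣ) V).comp ρ.asGroupHom)] G) (n : ℕ) :
    (x ^ n).right = x.right ^ n ∧
      Multiplicative.toAdd (x ^ n).left = (∑ i ∈ Finset.range n, ρ x.right ^ i) (Multiplicative.toAdd x.left) := by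
  induction n with
  | zero => rw [pow_zero]; simp
  | succ n ih =>
    rw [pow_succ, SemidirectProduct.mul_right, SemidirectProduct.mul_left, ih.1, toAdd_mul, ih.2,
      Finset.sum_range_succ, LinearMap.add_apply, ← map_pow]
    exact ⟨(pow_succ _ _).symm, rfl⟩

/-- Let F be a field of characteristic p > 0, V a non-zero finite-dimensional F-vector space, G a finite group and ρ a representation of G on V; form the semidirect product V ⋊ G. For g ∈ G of order k, the coset Vg contains an element of order pk if and only if the minimal polynomial of ρ(g) does not divide 1 + X + ⋯ + X^(k−1). -/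
theorem result {F : Type*} [Field F] (p : ℕ) [Fact p.Prime] [CharP F p] {V : Type*} [AddCommGroup V] [Module F V] [FiniteDimensional F V] [Nontrivial V]
    {G : Type*} [Group G] [Finite G] (ρ : Representation F G V) (g : G) :
    (∃ x : Multiplicative V ⋊[(MulAutMultiplicative V).symm.toMonoidHom.comp
        ((DistribMulAction.toAddAut ((V →ₗ[F] V)ˣ) V).comp ρ.asGroupHom)] G,
        x.right = g ∧ orderOf x = p * orderOf g) ↔
      ¬ (minpoly F (ρ g) ∣ ∑ i ∈ Finset.range (orderOf g), (Polynomial.X : Polynomial F) ^ i) := by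
  have hp : p.Prime := Fact.out
  rw [minpoly.dvd_iff, map_sum]
  simp only [map_pow, Polynomial.aeval_X]
  have hk := orderOf_pos g
  constructor
  · rintro ⟨x, rfl, hx⟩ h0
    have h1 : x ^ orderOf x.right = 1 := by
      obtain ⟨h1, h2⟩ := aux_pow ρ x (orderOf x.right)
      rw [h0] at h2
      ext
      · exact h2
      · rw [h1, pow_orderOf_eq_one]; rfl
    have := Nat.le_of_dvd hk (orderOf_dvd_of_pow_eq_one h1)
    rw [hx] at this
    have := hp.two_le
    nlinarith
  · intro h0
    obtain ⟨v, hv⟩ : ∃ v, (∑ i ∈ Finset.range (orderOf g), ρ g ^ i) v ≠ 0 := by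
      by_contra hc
      push Not at hc
      exact h0 (LinearMap.ext hc)
    refine ⟨⟨Multiplicative.ofAdd v, g⟩, rfl, ?_⟩
    set x : Multiplicative V ⋊[(MulAutMultiplicative V).symm.toMonoidHom.comp
        ((DistribMulAction.toAddAut ((V →ₗ[F] V)ˣ) V).comp ρ.asGroupHom)] G := ⟨Multiplicative.ofAdd v, g⟩ with hx
    obtain ⟨h1, h2⟩ := aux_pow ρ x (orderOf g)
    have hy : orderOf (x ^ orderOf g) = p := by
      apply orderOf_eq_prime
      · obtain ⟨h3, h4⟩ := aux_pow ρ (x ^ orderOf g) p
        have h5 : (x ^ orderOf g).right = 1 := by rw [h1]; exact pow_orderOf_eq_one g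
        rw [h5] at h3 h4
        ext
        · have : Multiplicative.toAdd ((x ^ orderOf g) ^ p).left = 0 := by
            rw [h4]; simp [← Nat.cast_smul_eq_nsmul F]
          exact this
        · rw [h3, one_pow]; rfl
      · intro h3
        rw [h3] at h2
        exact hv h2.symm
    have hd : orderOf g ∣ orderOf x := by
      rw [orderOf_dvd_iff_pow_eq_one]
      have := (aux_pow ρ x (orderOf x)).1
      rw [pow_orderOf_eq_one] at this
      exact this.symm
    rw [orderOf_pow_of_dvd hk.ne' hd] at hy
    rw [← hy, Nat.div_mul_cancel hd]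

end Cfsg.Agent.S2516
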