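import Mathlib
import Cfsg.Statements.S2517
import Cfsg.Agent.H16.Sq5
import Cfsg.Agent.H16.SpecO

set_option autoImplicit false
open Cfsg

namespace Cfsg.Agent.S2517

/-- Let F be a finite field of odd order q, let Ω₉ be the simple orthogonal group PΩ(9, F), and let Ω₈⁻ be the commutator subgroup of the isometry group of a minus-type non-singular quadratic form on V = F⁸ (the simple group PΩ⁻(8, F), acting on its natural module V). Then Ω₉ and the semidirect product V ⋊ Ω₈⁻ have exactly the same set of element orders. -/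
theorem result {F : Type*} [Field F] [Fintype F] (hF : Odd (Fintype.card F)) (a b : F)
    (hab : ∀ z₁ z₂ : F, z₁ ^ 2 + a * z₁ * z₂ + b * z₂ ^ 2 = 0 → z₁ = 0 ∧ z₂ = 0) :
    Set.range (orderOf : Cfsg.POmega F (Cfsg.quadFormOdd 4 F) → ℕ) =
      Set.range (orderOf :
        (Multiplicative (((Fin 3 ⊕ Fin 3) ⊕ Fin 2) → F)) ⋊[
          (MulAutMultiplicative (((Fin 3 ⊕ Fin 3) ⊕ Fin 2) → F)).symm.toMonoidHom.comp
           ((DistribMulAction.toAddAut (LinearMap.GeneralLinearGroup F (((Fin 3 ⊕ Fin 3) ⊕ Fin 2) → F))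
              (((Fin 3 ⊕ Fin 3) ⊕ Fin 2) → F)).comp
            (Matrix.GeneralLinearGroup.toLin.toMonoidHom.comp
              ((Cfsg.isometryGroup F (Cfsg.quadFormMinus 3 F a b)).subtype.comp
                (Cfsg.Omega F (Cfsg.quadFormMinus 3 F a b)).subtype)))]
          ↥(Cfsg.Omega F (Cfsg.quadFormMinus 3 F a b)) → ℕ) := by
  obtain ⟨p, hp⟩ := CharP.exists F
  haveI : Fact p.Prime := ⟨CharP.char_is_prime F p⟩
  have h2 : (2 : F) ≠ 0 := by
    intro h
    have : ringChar F = 2 := CharP.ringChar_of_prime_eq_zero Nat.prime_two h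
    have := FiniteField.even_card_of_char_two this
    rw [Nat.odd_iff] at hF
    omega
  have hd := H10.disc_ne_zero_of_aniso hab
  haveI := H10.qMinus_nondeg (m := 3) hd
  haveI := H10.qOdd_nondeg (m := 4) h2
  rw [H16.Sq.range_aff_odd (H10.Form.isQuad_ofQuad (H10.qMinus 3 F a b)) h2 p (by simp)
    (H10.qMinus_not_hasTS (m := 3) hd hab)
    (ρ := (H10.isometryEquiv (H10.qMinus 3 F a b)).toMonoidHom.comp (Cfsg.Omega F (Cfsg.quadFormMinus 3 F a b)).subtype)
    ((H10.isometryEquiv (H10.qMinus 3 F a b)).injective.comp Subtype.val_injective) (fun _ _ => rfl) ?_]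
  · ext t
    exact (H16.mem_range_pOmega_odd h2 (by omega)).trans
      (H16.Sq.range_om9 (H10.Form.isQuad_ofQuad (H10.qOdd 4 F)) h2 p (by simp))
  refine (MonoidHom.range_comp _ _).trans ((congrArg _ (Subgroup.range_subtype _)).trans ?_)
  exact (map_commutator_eq _ _).trans (by rw [MonoidHom.range_eq_top.2 (MulEquiv.surjective _)]; rfl)

end Cfsg.Agent.S2517
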