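import Cfsg.Statements.S2518
import Cfsg.Agent.H11.G2Sp
import Cfsg.Agent.S1059
import Cfsg.Agent.L.PSL2Sub
-- import your own Cfsg.Agent.* helpers here

set_option autoImplicit false
open Cfsg

namespace Cfsg.Agent.S2518
open H11 Cfsg.Lie



/-- Let F₃ be the field with 3 elements and F₁₃ the field with 13 elements. The Chevalley group G₂(F₃) and PSL(2, F₁₃) have the same prime graph: the same prime divisors of their orders, and for distinct primes r, s an element of order rs in one iff in the other. -/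
theorem result {F : Type*} [Field F] [Fintype F] (hF : Fintype.card F = 3) {E : Type*} [Field E] [Fintype E] (hE : Fintype.card E = 13) :
    ((∀ r : ℕ, r.Prime → (r ∣ Nat.card ↥(Cfsg.Lie.chevG2.group F) ↔ r ∣ Nat.card (Matrix.ProjectiveSpecialLinearGroup (Fin 2) E))) ∧
      (∀ r s : ℕ, r.Prime → s.Prime → r ≠ s → ((∃ x : ↥(Cfsg.Lie.chevG2.group F), orderOf x = r * s) ↔ (∃ y : (Matrix.ProjectiveSpecialLinearGroup (Fin 2) E), orderOf y = r * s)))) := by
  have := charP_of_card_eq_prime (p := 3) hF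
  have : Fact (Nat.Prime 13) := ⟨by decide⟩
  have := charP_of_card_eq_prime (p := 13) hE
  have hd : L.Dk.dd E = 2 := by rw [L.Dk.dd, hE]; rfl
  have h1 := L.Dk.card_psl (F := E)
  rw [hd, hE] at h1
  have k {r s n : ℕ} (hr : r.Prime) (hs : s.Prime) (h : r ≠ s) (hn : n ∈ [8, 13, 7, 6, 12, 9]) (e : r * s ∣ n) : r * s = 6 :=
    (by decide +kernel : ∀ n ∈ [8, 13, 7, 6, 12, 9], ∀ r < 14, ∀ s < 14, r.Prime → s.Prime → r ≠ s → r * s ∣ n → r * s = 6) n hn
      r (by have := Nat.le_of_dvd (by simp at hn; omega) ((dvd_mul_right r s).trans e); simp at hn; omega)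
      s (by have := Nat.le_of_dvd (by simp at hn; omega) ((dvd_mul_left s r).trans e); simp at hn; omega) hr hs h e
  refine ⟨fun r hr => ?_, fun r s hr hs h => ⟨fun ⟨g, e⟩ => ?_, fun ⟨g, e⟩ => ?_⟩⟩
  · rw [S1059.result hF, show Nat.card _ = 1092 by omega]
    exact ⟨fun e => hr.dvd_of_dvd_pow (n := 6) (e.trans (by decide)), fun e => e.trans (by decide)⟩
  · obtain ⟨y, hy⟩ := L.Dk.exists_orderOf_sub (F := E) (by omega)
    refine ⟨y, ?_⟩
    rw [hd, hE] at hy
    rw [show orderOf y = 6 by omega]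
    obtain h2 | h2 | h2 | h2 | h2 | h2 | h2 := e ▸ G2.order_dvd 3 hF g
    exacts [(k hr hs h (by simp) h2).symm, (k hr hs h (by simp) h2).symm, (k hr hs h (by simp) h2).symm, (k hr hs h (by simp) h2).symm,
      (k hr hs h (by simp) h2).symm, by omega, (k hr hs h (by simp) (h2 2 (by decide))).symm]
  · refine (G2.exists_ord_q 3 hF 6 (by simp)).imp fun y hy => hy.trans (.symm ?_)
    obtain h2 | h2 | h2 := L.Dk.orderOf_psl 13 g
    · exact k hr hs h (by simp) (e ▸ orderOf_dvd_of_pow_eq_one h2)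
    all_goals rw [hd, hE, e] at h2
    · exact k hr hs h (n := 6) (by simp) (Nat.dvd_of_mul_dvd_mul_left two_pos h2)
    · exact k hr hs h (n := 7) (by simp) (Nat.dvd_of_mul_dvd_mul_left two_pos h2)

end Cfsg.Agent.S2518
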