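import Cfsg.Statements.S2519
import Cfsg.Agent.H11.G2Sp
import Cfsg.Agent.H11.Mult
-- import your own Cfsg.Agent.* helpers here

set_option autoImplicit false
open Cfsg

namespace Cfsg.Agent.S2519
open H11 Cfsg.Lie

theorem anti {p q : ℕ} (hp : p.Prime) (h : p ∣ q) (hq : 5 ≤ q) : ∀ n ∈ [p * (q + 1), p * (q - 1), p * p, q ^ 2 - 1, q ^ 2 + q + 1, q ^ 2 - q + 1],
    ∀ m ∈ [p * (q + 1), p * (q - 1), p * p, q ^ 2 - 1, q ^ 2 + q + 1, q ^ 2 - q + 1], n ∣ m → m = n := by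
  have h0 := Nat.le_of_dvd (by omega) h
  have h1 : 5 * q ≤ q ^ 2 := by nlinarith
  have h2 : p ∣ q ^ 2 := h.trans (dvd_pow_self q two_ne_zero)
  have h3 {n a} (e : p ∣ a) (e' : n = a + 1 ∨ a = n + 1 := by omega) : ¬ p ∣ n := fun d => hp.one_lt.ne' (Nat.dvd_one.1 (by
    obtain rfl | rfl := e'
    exacts [(Nat.dvd_add_right e).1 d, (Nat.dvd_add_right d).1 e]))
  have h4 : ∀ n ∈ [q ^ 2 - 1, q ^ 2 + q + 1, q ^ 2 - q + 1], ¬ p ∣ n ∧ q + 1 < n := by
    simp only [List.forall_mem_cons, List.not_mem_nil, false_imp_iff, implies_true, and_true]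
    exact ⟨⟨h3 h2, by omega⟩, ⟨h3 (dvd_add h2 h), by omega⟩, h3 (Nat.dvd_sub h2 h), by omega⟩
  have h5 : ∀ n ∈ [q + 1, q - 1, p], ∀ m ∈ [q + 1, q - 1, p], n ∣ m → m = n := by
    have a := h3 (n := q + 1) h
    have b := h3 (n := q - 1) h
    have c {n} (d : ¬ p ∣ n) (e : n ∣ p) : n = 1 := ((Nat.dvd_prime hp).1 e).resolve_right fun e => d e.symm.dvd
    simp only [List.forall_mem_cons, List.not_mem_nil, false_imp_iff, implies_true, and_true, true_and]
    exact ⟨⟨fun e => by have := Nat.le_of_dvd (by omega) e; omega, fun e => by have := c a e; omega⟩,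
      ⟨fun e => Nat.eq_of_dvd_of_lt_two_mul (by omega) e (by omega), fun e => by have := c b e; omega⟩, fun e => (a e).elim, fun e => (b e).elim⟩
  intro n hn m hm e
  rw [show ∀ a b c d e f, [p * a, p * b, p * c, d, e, f] = [a, b, c].map (p * ·) ++ [d, e, f] from fun _ _ _ _ _ _ => rfl, List.mem_append] at hn hm
  obtain hn | hn := hn <;> obtain hm | hm := hm
  · obtain ⟨n, hn', rfl⟩ := List.mem_map.1 hn
    obtain ⟨m, hm', rfl⟩ := List.mem_map.1 hm
    rw [h5 n hn' m hm' (Nat.dvd_of_mul_dvd_mul_left hp.pos e)]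
  · obtain ⟨n, -, rfl⟩ := List.mem_map.1 hn
    exact absurd ((dvd_mul_right _ _).trans e) (h4 m hm).1
  · obtain ⟨m, hm, rfl⟩ := List.mem_map.1 (id hm)
    have := hp.pos
    have := Nat.le_of_dvd (by simp at hm; omega) ((hp.coprime_iff_not_dvd.2 (h4 n hn).1).symm.dvd_of_dvd_mul_left e)
    have := (h4 n hn).2
    simp at hm; omega
  · simp at hn hm
    exact Nat.eq_of_dvd_of_lt_two_mul (by omega) e (by omega)

/-- Let F be a finite field of odd order q = p^a ≥ 5. The element orders of the Chevalley group G₂(F) that are maximal under divisibility are exactly p(q + 1), p(q − 1), q² − 1, q² + q + 1, q² − q + 1, together with p² when p is 3 or 5. -/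
theorem result {F : Type*} [Field F] [Fintype F] (p a : ℕ) (hp : p.Prime) (hp2 : p ≠ 2) (ha : 1 ≤ a) (hF : Fintype.card F = p ^ a) (hq5 : 5 ≤ Fintype.card F) :
    {n : ℕ | n ∈ Set.range (orderOf : ↥(Cfsg.Lie.chevG2.group F) → ℕ) ∧ ∀ m ∈ Set.range (orderOf : ↥(Cfsg.Lie.chevG2.group F) → ℕ), n ∣ m → m = n} =
      ({p * (p ^ a + 1), p * (p ^ a - 1), p ^ (2 * a) - 1, p ^ (2 * a) + p ^ a + 1, p ^ (2 * a) - p ^ a + 1} : Set ℕ) ∪
        (if p = 3 ∨ p = 5 then ({p ^ 2} : Set ℕ) else ∅) := by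
  have := Fact.mk hp
  have := charP_of_card_eq_prime_pow (p := p) hF
  have hK : ∃ a : F, a ≠ 0 ∧ a ≠ 1 := exists_ne_of_card ⟨Finset.univ, by rw [Finset.card_univ]; omega⟩
  have h1 := G2.exists_ord_q p hF
  have h2 := (G2.exists_ord_p hK p).2
  have h3 := anti hp (dvd_pow_self p (by omega : a ≠ 0)) (hF ▸ hq5)
  simp only [pow_mul', ← sq] at h3 ⊢
  generalize p ^ a = q at *
  set L := _ ∪ (_ : Set ℕ) with hL
  have h4 : L ⊆ Set.range (orderOf : chevG2.group F → ℕ) := by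
    rintro n (h | h)
    · exact h1 n (by simp at h ⊢; tauto)
    · split_ifs at h with e
      exacts [h ▸ h2 e, h.elim]
  have h5 (g : chevG2.group F) : ∃ m ∈ L, orderOf g ∣ m := by
    obtain e | e | e | e | e | e | e := G2.order_dvd p hF g
    exacts [⟨_, by simp [hL], e⟩, ⟨_, by simp [hL], e⟩, ⟨_, by simp [hL], e⟩, ⟨_, by simp [hL], e⟩, ⟨_, by simp [hL], e⟩, absurd e.1 hp2, by
      by_cases h : p = 3 ∨ p = 5
      · exact ⟨_, .inr (by simp [h]), e 2 (by rcases h with rfl | rfl <;> decide)⟩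
      · refine ⟨p * (q + 1), by simp [hL], (pow_one p ▸ e 1 (by_contra fun h' => ?_)).mul_right _⟩
        exact h ((by decide : ∀ p < 7, p.Prime → p ≠ 2 → p = 3 ∨ p = 5) p (by simpa using h') hp hp2)]
  have h6 {n} (h : n ∈ L) : n ∈ [p * (q + 1), p * (q - 1), p ^ 2, q ^ 2 - 1, q ^ 2 + q + 1, q ^ 2 - q + 1] := by
    rcases h with h | h
    · simp at h ⊢; tauto
    · split_ifs at h
      exacts [by simp [show n = _ from h], h.elim]
  ext n
  refine ⟨fun ⟨⟨g, e⟩, h⟩ => ?_, fun h => ⟨h4 h, ?_⟩⟩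
  · obtain ⟨m, hm, h'⟩ := h5 g
    exact h m (h4 hm) (e ▸ h') ▸ hm
  · rintro _ ⟨g, rfl⟩ e
    obtain ⟨m, hm, h'⟩ := h5 g
    exact Nat.dvd_antisymm (h3 n (h6 h) m (h6 hm) (e.trans h') ▸ h') e

end Cfsg.Agent.S2519
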