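import Cfsg.Statements.S2520
import Cfsg.Agent.H11.G2Sp
-- import your own Cfsg.Agent.* helpers here

set_option autoImplicit false
open Cfsg

namespace Cfsg.Agent.S2520
open H11 Cfsg.Lie



/-- Let F be a finite field with q = 2^a ≥ 4 elements and G₂(F) the Chevalley group of type G₂ over it. Every element order of G₂(F) maximal under divisibility lies in the set {8, 12, 2(q + 1), 2(q − 1), q² − 1, q² + q + 1, q² − q + 1}, and every member of that set is an element order of G₂(F). -/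
theorem result {F : Type*} [Field F] [Fintype F] (a : ℕ) (ha : 2 ≤ a) (hF : Fintype.card F = 2 ^ a) :
    {n : ℕ | n ∈ Set.range (orderOf : ↥(Cfsg.Lie.chevG2.group F) → ℕ) ∧ ∀ m ∈ Set.range (orderOf : ↥(Cfsg.Lie.chevG2.group F) → ℕ), n ∣ m → m = n} ⊆ ({8, 12, 2 * (2 ^ a + 1), 2 * (2 ^ a - 1), 2 ^ (2 * a) - 1, 2 ^ (2 * a) + 2 ^ a + 1, 2 ^ (2 * a) - 2 ^ a + 1} : Set ℕ) ∧
    ({8, 12, 2 * (2 ^ a + 1), 2 * (2 ^ a - 1), 2 ^ (2 * a) - 1, 2 ^ (2 * a) + 2 ^ a + 1, 2 ^ (2 * a) - 2 ^ a + 1} : Set ℕ) ⊆ Set.range (orderOf : ↥(Cfsg.Lie.chevG2.group F) → ℕ) := by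
  have := charP_of_card_eq_prime_pow (p := 2) hF
  have hK : ∃ a : F, a ≠ 0 ∧ a ≠ 1 := by
    classical
    obtain ⟨x, hx⟩ := Finset.exists_mem_notMem_of_card_lt_card (s := ({0, 1} : Finset F)) (t := Finset.univ) (Finset.card_le_two.trans_lt (by
      rw [Finset.card_univ, hF]; exact Nat.pow_lt_pow_right (m := 1) one_lt_two ha))
    exact ⟨x, by simpa using hx.2⟩
  have h : ({8, 12, 2 * (2 ^ a + 1), 2 * (2 ^ a - 1), 2 ^ (2 * a) - 1, 2 ^ (2 * a) + 2 ^ a + 1, 2 ^ (2 * a) - 2 ^ a + 1} : Set ℕ) ⊆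
      Set.range (orderOf : chevG2.group F → ℕ) := by
    have h1 := G2.exists_ord_q 2 hF
    have h2 := (G2.exists_ord_p hK 2).1 rfl
    simp only [List.forall_mem_cons, ← pow_mul'] at h1
    rintro _ (rfl | rfl | rfl | rfl | rfl | rfl | rfl)
    exacts [h2.1, h2.2, h1.2.2.2.2.1, h1.2.2.2.1, h1.1, h1.2.1, h1.2.2.1]
  refine ⟨?_, h⟩
  rintro _ ⟨⟨g, rfl⟩, hg⟩
  have k {m} (e : orderOf g ∣ m) (hm : m ∈ _ := by simp [← pow_mul']) := hg m (h hm) e ▸ hm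
  obtain e | e | e | e | e | e | e := G2.order_dvd 2 hF g
  exacts [k e, k e, k e, k e, k e, k e.2, k (e 3 (by decide))]

end Cfsg.Agent.S2520
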