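import Cfsg.Statements.S2523
import Cfsg.Agent.H11.EG6
-- import your own Cfsg.Agent.* helpers here

set_option autoImplicit false
open Cfsg

namespace Cfsg.Agent.S2523
open H11 Cfsg.Lie

open H11 H11.EG L.RD

/-- Let F be a finite field with at least 9 elements and let G be one of PSL(n, F) (n ≥ 2), PSp(2m, F) (m ≥ 2), PΩ(2m+1, F) (m ≥ 3, here q odd), PΩ⁺(2m, F) (m ≥ 4), or the Chevalley group of type G₂, F₄, E₆, E₇ or E₈ over F. Then G is the square of one of its conjugacy classes (Thompson's conjecture on products of conjugacy classes, not his conjecture on class sizes): there is a conjugacy class C of G with C·C = G, i.e. every element of G is a product of two elements of C. -/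
theorem result {F : Type*} [Field F] [Fintype F] (hF : 9 ≤ Fintype.card F) {G : Type*} [Group G] [Finite G]
    (hG : (∃ n : ℕ, 2 ≤ n ∧ Nonempty (G ≃* Matrix.ProjectiveSpecialLinearGroup (Fin n) F)) ∨
      (∃ m : ℕ, 2 ≤ m ∧ Nonempty (G ≃* Cfsg.PSp m F)) ∨
      (∃ m : ℕ, 3 ≤ m ∧ Odd (Fintype.card F) ∧ Nonempty (G ≃* Cfsg.POmega F (Cfsg.quadFormOdd m F))) ∨
      (∃ m : ℕ, 4 ≤ m ∧ Nonempty (G ≃* Cfsg.POmega F (Cfsg.quadFormPlus m F))) ∨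
      Nonempty (G ≃* ↥(Cfsg.Lie.chevG2.group F)) ∨ Nonempty (G ≃* ↥(Cfsg.Lie.chevF4.group F)) ∨
      Nonempty (G ≃* ↥(Cfsg.Lie.chevE6.group F)) ∨ Nonempty (G ≃* ↥(Cfsg.Lie.chevE7.group F)) ∨ Nonempty (G ≃* ↥(Cfsg.Lie.chevE8.group F))) :
    ∃ c : G, ∀ g : G, ∃ x y : G, g = (x * c * x⁻¹) * (y * c * y⁻¹) := by
  have hK : 9 ≤ Nat.card F := by rwa [Nat.card_eq_fintype_card]
  have h2 : ∃ a : F, a ≠ 0 ∧ a ≠ 1 := by
    obtain ⟨t, h, h', -⟩ := four hK 0 1 0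
    exact ⟨t, h, h'⟩
  change Sq G
  rcases hG with ⟨n, hn, ⟨e⟩⟩ | ⟨n, hn, ⟨e⟩⟩ | ⟨n, hn, ho, ⟨e⟩⟩ | ⟨n, hn, ⟨e⟩⟩ | ⟨⟨e⟩⟩ | ⟨⟨e⟩⟩ | ⟨⟨e⟩⟩ | ⟨⟨e⟩⟩ | ⟨⟨e⟩⟩
  · obtain ⟨n, rfl⟩ := Nat.exists_eq_add_of_le' hn
    cases n with
    | zero => exact (sqL2 hK).of_equiv e
    | succ n =>
      obtain ⟨S, hS, -⟩ := sysA F n
      exact (sqA hK n).of_equiv (e.trans (quotEquiv S hS))
  · obtain ⟨n, rfl⟩ := Nat.exists_eq_add_of_le' hn
    obtain ⟨S, hS, -⟩ := sysC n (.inr h2)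
    exact (sqC hK n).of_equiv (e.trans (quotEquiv S hS))
  · obtain ⟨n, rfl⟩ := Nat.exists_eq_add_of_le' hn
    obtain ⟨S, hS, -⟩ := sysB (F := F) (fun h => by
      have := (FiniteField.even_card_iff_char_two (F := F)).1 (CharP.ringChar_of_prime_eq_zero Nat.prime_two (by exact_mod_cast h))
      rw [Nat.odd_iff] at ho; omega) (n + 1)
    exact (sqB hK n).of_equiv (e.trans (quotEquiv S hS))
  · obtain ⟨n, rfl⟩ := Nat.exists_eq_add_of_le' hn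
    obtain ⟨S, hS, -⟩ := sysD F (n + 1)
    exact (sqD hK n).of_equiv (e.trans (quotEquiv S hS))
  · exact (sqG2 hK).of_equiv e
  · exact (sqF4 hK).of_equiv e
  · exact (sqE6 hK).of_equiv e
  · exact (sqE7 hK).of_equiv e
  · exact (sqE8 hK).of_equiv e

end Cfsg.Agent.S2523
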