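import Cfsg.Statements.S2524
import Cfsg.Agent.H28.Wl3
-- import your own Cfsg.Agent.* helpers here

set_option autoImplicit false
open Cfsg

namespace Cfsg.Agent.S2524
open Module
set_option linter.unusedVariables false
set_option linter.style.haveILetI false


/-- Let F be a finite field of odd order q and G = Sp(2n, F) with n ≥ 2. Then G has exactly four irreducible complex characters of degree (q^n + 1)/2 or (q^n − 1)/2 (two of each), and every other non-principal irreducible character has degree at least (q^n − 1)(q^n − q)/(2(q + 1)). -/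
theorem result {F : Type*} [Field F] [Fintype F] (hodd : Odd (Fintype.card F)) (n : ℕ) (hn : 2 ≤ n) :
    Nat.card {χ : Cfsg.IrrCharacter ↥(Matrix.symplecticGroup (Fin n) F) // (χ : ↥(Matrix.symplecticGroup (Fin n) F) → ℂ) 1 = (((Fintype.card F) ^ n + 1 : ℕ) : ℂ) / 2} = 2 ∧
    Nat.card {χ : Cfsg.IrrCharacter ↥(Matrix.symplecticGroup (Fin n) F) // (χ : ↥(Matrix.symplecticGroup (Fin n) F) → ℂ) 1 = (((Fintype.card F) ^ n - 1 : ℕ) : ℂ) / 2} = 2 ∧
    ∀ χ : Cfsg.IrrCharacter ↥(Matrix.symplecticGroup (Fin n) F),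
      (χ : ↥(Matrix.symplecticGroup (Fin n) F) → ℂ) 1 ≠ 1 →
      (χ : ↥(Matrix.symplecticGroup (Fin n) F) → ℂ) 1 ≠ (((Fintype.card F) ^ n + 1 : ℕ) : ℂ) / 2 →
      (χ : ↥(Matrix.symplecticGroup (Fin n) F) → ℂ) 1 ≠ (((Fintype.card F) ^ n - 1 : ℕ) : ℂ) / 2 →
      (((Fintype.card F) ^ n - 1 : ℕ) : ℝ) * (((Fintype.card F) ^ n - Fintype.card F : ℕ) : ℝ) / (2 * ((Fintype.card F : ℕ) + 1 : ℝ)) ≤ ‖(χ : ↥(Matrix.symplecticGroup (Fin n) F) → ℂ) 1‖ := by
  have h0 : 1 ≤ Fintype.card F ^ n := Nat.one_le_pow _ _ Fintype.card_pos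
  refine ⟨H28.Wl.card_weil hn hodd (.inl rfl) (by push_cast; ring),
    H28.Wl.card_weil hn hodd (.inr rfl) (by push_cast [h0]; ring), fun θ a b c => ?_⟩
  obtain ⟨χ, h1, -, h4⟩ := H28.Wl.exists_chars hn (H28.Wl.two_ne hodd)
  rcases h4 θ.1 θ.2 a with ⟨s, ε, rfl | rfl, h⟩ | h
  · exact (b (by have := (h1 s 1 (by simp)).2; rw [← h] at this; push_cast; linear_combination this / 2)).elim
  · exact (c (by have := (h1 s (-1) (by simp)).2; rw [← h] at this; push_cast [h0]; linear_combination this / 2)).elim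
  rw [← H05.Cfsg.IsIrrCharacter.charDegree_eq θ.2, Complex.norm_natCast, div_le_iff₀ (by positivity)]
  exact_mod_cast h.trans_eq (mul_comm _ _)

end Cfsg.Agent.S2524
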