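import Cfsg.Statements.S2525
import Cfsg.Agent.H11.PG
import Cfsg.Agent.S1062
-- import your own Cfsg.Agent.* helpers here

set_option autoImplicit false
open Cfsg

namespace Cfsg.Agent.S2525
open H11 Cfsg.Lie

theorem z3 : ∀ x : ZMod 3, x ^ 2 + 1 ≠ 0 := by decide

section nt
variable {r q : ℕ} [hr : Fact r.Prime] (h2 : r ≠ 2)

theorem dv (a : ℤ) : (r : ℤ) ∣ a ↔ (a : ZMod r) = 0 := (ZMod.intCast_zmod_eq_zero_iff_dvd a r).symm

theorem pw (k : ℕ) : (q : ZMod r) ^ k = 1 ↔ orderOf (q : ZMod r) ∣ k := orderOf_dvd_iff_pow_eq_one.symm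

theorem dk {e k : ℕ} (h : k ≠ 0) : e ∣ k ↔ e ∈ k.divisors := by simp [h]

include h2

theorem two_ne : (2 : ZMod r) ≠ 0 := fun e =>
  h2 ((Nat.prime_dvd_prime_iff_eq hr.1 Nat.prime_two).1 ((ZMod.natCast_eq_zero_iff 2 r).1 e))

theorem neg (k : ℕ) : (q : ZMod r) ^ k + 1 = 0 ↔ orderOf (q : ZMod r) ∣ 2 * k ∧ ¬ orderOf (q : ZMod r) ∣ k := by
  rw [← pw, ← pw, pow_mul', sq_eq_one_iff, add_eq_zero_iff_eq_neg]
  exact ⟨fun e => ⟨.inr e, fun e' => two_ne h2 (by linear_combination e - e')⟩, fun e => e.1.resolve_left e.2⟩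

theorem a1 : (r : ℤ) ∣ (q + 1) * (q ^ 3 - 1) ↔ orderOf (q : ZMod r) ∈ [1, 2, 3] := by
  have := neg (q := q) h2 1
  rw [dv]; push_cast
  rw [mul_eq_zero, sub_eq_zero, pw, ← pow_one (q : ZMod r), this, pow_one, dk, dk, dk] <;> try decide
  generalize orderOf (q : ZMod r) = e
  simp [show Nat.divisors 2 = {1, 2} by decide, show Nat.divisors 3 = {1, 3} by decide]; omega

theorem a2 : (r : ℤ) ∣ (q - 1) * (q ^ 3 + 1) ↔ orderOf (q : ZMod r) ∈ [1, 2, 6] := by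
  rw [dv]; push_cast
  rw [mul_eq_zero, sub_eq_zero, neg h2, ← orderOf_eq_one_iff, dk, dk] <;> try decide
  generalize orderOf (q : ZMod r) = e
  simp [show Nat.divisors 6 = {1, 2, 3, 6} by decide, show Nat.divisors 3 = {1, 3} by decide]; omega

omit h2 in
theorem a3 : (r : ℤ) ∣ q ^ 4 - 1 ↔ orderOf (q : ZMod r) ∈ [1, 2, 4] := by
  rw [dv]; push_cast
  rw [sub_eq_zero, pw, dk] <;> try decide
  simp [show Nat.divisors 4 = {1, 2, 4} by decide]

theorem a4 : (r : ℤ) ∣ q ^ 4 + 1 ↔ orderOf (q : ZMod r) = 8 := by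
  rw [dv]; push_cast
  rw [neg h2, dk, dk] <;> try decide
  generalize orderOf (q : ZMod r) = e
  simp [show Nat.divisors 4 = {1, 2, 4} by decide, show Nat.divisors 8 = {1, 2, 4, 8} by decide]; omega

theorem a5 : (r : ℤ) ∣ q ^ 4 - q ^ 2 + 1 ↔ orderOf (q : ZMod r) = 12 := by
  have h6 := neg (q := q) h2 6
  have h3 := neg (q := q) h2 2
  rw [dv]; push_cast
  refine ⟨fun e => ?_, fun e => ?_⟩
  · have h1 := h6.1 (by linear_combination ((q : ZMod r) ^ 2 + 1) * e)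
    have h4 : ¬ orderOf (q : ZMod r) ∣ 4 := fun a => by
      have b := h3.2 ⟨a, fun b => h1.2 (b.trans (by decide))⟩
      obtain rfl : r = 3 := (Nat.prime_dvd_prime_iff_eq hr.1 Nat.prime_three).1 ((ZMod.natCast_eq_zero_iff 3 r).1 (by
        push_cast; linear_combination e - ((q : ZMod r) ^ 2 - 2) * b))
      exact z3 _ b
    rw [dk, dk] at * <;> try decide
    generalize orderOf (q : ZMod r) = e at *
    simp [show Nat.divisors 4 = {1, 2, 4} by decide, show Nat.divisors 6 = {1, 2, 3, 6} by decide,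
      show Nat.divisors 12 = {1, 2, 3, 4, 6, 12} by decide] at h1 h4; omega
  · rw [e] at h6 h3
    refine (mul_eq_zero.1 (?_ : ((q : ZMod r) ^ 2 + 1) * _ = 0)).resolve_left fun a => (h3.1 a).1.elim (by omega)
    linear_combination h6.2 (by decide)

theorem a123 {m : ℕ} (hm : r ∣ m) (h : (m : ℤ) ∣ ((q + 1) * (q ^ 3 - 1)) ^ 4 ∨ (m : ℤ) ∣ ((q - 1) * (q ^ 3 + 1)) ^ 4 ∨
    (m : ℤ) ∣ (q ^ 4 - 1) ^ 4) : orderOf (q : ZMod r) ∈ [1, 2, 3, 4, 6] := by
  have k {a : ℤ} (e : (m : ℤ) ∣ a ^ 4) := (Nat.prime_iff_prime_int.1 hr.1).dvd_of_dvd_pow ((Int.natCast_dvd_natCast.2 hm).trans e)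
  obtain h | h | h := h
  · have := (a1 h2).1 (k h); revert this; generalize orderOf (q : ZMod r) = e; revert e; decide
  · have := (a2 h2).1 (k h); revert this; generalize orderOf (q : ZMod r) = e; revert e; decide
  · have := a3.1 (k h); revert this; generalize orderOf (q : ZMod r) = e; revert e; decide

end nt

/-- both orders occur in one torus -/
def Adj (k l : ℕ) : Prop := (k ∈ [1, 2, 3] ∧ l ∈ [1, 2, 3]) ∨ (k ∈ [1, 2, 6] ∧ l ∈ [1, 2, 6]) ∨ (k ∈ [1, 2, 4] ∧ l ∈ [1, 2, 4]) ∨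
  (k = 8 ∧ l = 8) ∨ (k = 12 ∧ l = 12)

variable {F : Type*} [Field F] [Fintype F] {n : ℕ} (hn : 1 ≤ n) (hF : Fintype.card F = 2 ^ n) {r s : ℕ} [hr : Fact r.Prime]
  [hs : Fact s.Prime] (h2 : s ≠ 2)
include hn hF h2

theorem odd_odd (h1 : r ≠ 2) (hrs : r ≠ s) : (∃ x : chevF4.group F, orderOf x = r * s) ↔
    Adj (orderOf (Fintype.card F : ZMod r)) (orderOf (Fintype.card F : ZMod s)) := by
  have := charP_of_card_eq_prime_pow (p := 2) hF
  obtain ⟨Ω, _, _, _, _, φ, τ, hτ, T, hj⟩ := exists_untw (D := chevF4) F 2 fun _ _ _ => torS_F4 _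
  have hq : (Fintype.card F : Ω) = 0 := by rw [hF, Nat.cast_pow, CharP.cast_eq_zero, zero_pow (by omega)]
  constructor
  · rintro ⟨g, hg⟩
    rw [← orderOf_injective _ (fieldHom_injective φ)] at hg
    obtain ⟨x, c, u, -, -, -, e, ⟨k, hk⟩, -, w, hw⟩ := T.jordan 2 (hj.le ⟨g, rfl⟩)
      (orderOf_pos_iff.1 (hg ▸ Nat.mul_pos hr.1.pos hs.1.pos))
    rw [hg, hk] at e
    have k0 {p : ℕ} (hp : p.Prime) (h : p ≠ 2) (a : p ∣ r * s) : (p : ℤ) ∣ orderOf c := Int.natCast_dvd_natCast.2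
      (((Nat.coprime_primes hp Nat.prime_two).2 h).pow_right k |>.dvd_of_dvd_mul_left (e ▸ a))
    have kr := k0 hr.1 h1 (dvd_mul_right ..)
    have ks := k0 hs.1 h2 (dvd_mul_left ..)
    have pr {a : ℤ} (e : (orderOf c : ℤ) ∣ a ^ 4) : (r : ℤ) ∣ a ∧ (s : ℤ) ∣ a :=
      ⟨(Nat.prime_iff_prime_int.1 hr.1).dvd_of_dvd_pow (kr.trans e), (Nat.prime_iff_prime_int.1 hs.1).dvd_of_dvd_pow (ks.trans e)⟩
    obtain (h | h | h) | ⟨h | h, -⟩ := F4W.cases0 hw
    · exact .inl ((pr h).imp (a1 h1).1 (a1 h2).1)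
    · exact .inr (.inl ((pr h).imp (a2 h1).1 (a2 h2).1))
    · exact .inr (.inr (.inl ((pr h).imp a3.1 a3.1)))
    · exact .inr (.inr (.inr (.inl ⟨(a4 h1).1 (kr.trans h), (a4 h2).1 (ks.trans h)⟩)))
    · exact .inr (.inr (.inr (.inr ⟨(a5 h1).1 (kr.trans h), (a5 h2).1 (ks.trans h)⟩)))
  have k (l : List (Fin 4)) (t) (ht : F4W.tp (fun i => fastF4.cor ((l.map Fin.val).foldr fastF4.rf (fastF4.sim i))) = t) {a : ℤ}
      (h : a ∣ F4W.cp4 t (Fintype.card F)) (a1 : (r : ℤ) ∣ a) (a2 : (s : ℤ) ∣ a) : ∃ x : chevF4.group F, orderOf x = r * s := by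
    have e := (F4W.det_wp l (Fintype.card F)).trans (congrArg (F4W.cp4 · _) ht)
    have h0 := congrArg (Int.cast (R := Ω)) e |>.trans_ne (c := 0) (by simp [F4W.cp4, hq])
    obtain ⟨c, c1, c2⟩ := exists_prime_c h0 hr.1 (e ▸ a1.trans h)
    obtain ⟨d, d1, d2⟩ := exists_prime_c h0 hs.1 (e ▸ a2.trans h)
    obtain ⟨g, hg⟩ := T.exists_ord (fieldHom_injective φ) hj _ (c := c * d) (by rw [map_mul, c1, d1])
    exact ⟨g, by rw [hg, (Commute.all c d).orderOf_mul_eq_mul_orderOf_of_coprime (by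
      rw [c2, d2]; exact (Nat.coprime_primes hr.1 hs.1).2 hrs), c2, d2]⟩
  rintro (h | h | h | h | h)
  · exact k [0, 1, 3] (-1, 0, 1, -1) (by decide +kernel) ⟨-1, by simp only [F4W.cp4]; ring⟩ ((a1 h1).2 h.1) ((a1 h2).2 h.2)
  · exact k [1, 2, 3] (1, 0, -1, -1) (by decide +kernel) ⟨-1, by simp only [F4W.cp4]; ring⟩ ((a2 h1).2 h.1) ((a2 h2).2 h.2)
  · exact k [1, 2, 1, 2, 3] (0, 0, 0, -1) (by decide +kernel) ⟨-1, by simp only [F4W.cp4]; ring⟩ (a3.2 h.1) (a3.2 h.2)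
  · exact k [0, 1, 2, 1, 2, 3] (0, 0, 0, 1) (by decide +kernel) ⟨1, by simp only [F4W.cp4]; ring⟩ ((a4 h1).2 h.1) ((a4 h2).2 h.2)
  · exact k [0, 1, 2, 3] (0, -1, 0, 1) (by decide +kernel) ⟨1, by simp only [F4W.cp4]; ring⟩ ((a5 h1).2 h.1) ((a5 h2).2 h.2)

theorem two_odd : (∃ x : chevF4.group F, orderOf x = 2 * s) ↔ orderOf (Fintype.card F : ZMod s) ∈ [1, 2, 3, 4, 6] := by
  have := charP_of_card_eq_prime_pow (p := 2) hF
  obtain ⟨Ω, _, _, _, _, φ, τ, hτ, T, hj⟩ := exists_untw (D := chevF4) F 2 fun _ _ _ => torS_F4 _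
  have hq : (Fintype.card F : Ω) = 0 := by rw [hF, Nat.cast_pow, CharP.cast_eq_zero, zero_pow (by omega)]
  have hc := (Nat.coprime_primes Nat.prime_two hs.1).2 h2.symm
  constructor
  · rintro ⟨g, hg⟩
    rw [← orderOf_injective _ (fieldHom_injective φ)] at hg
    obtain ⟨x, c, u, hu, -, -, e, ⟨k, hk⟩, h3, w, hw⟩ := T.jordan 2 (hj.le ⟨g, rfl⟩)
      (orderOf_pos_iff.1 (hg ▸ Nat.mul_pos two_pos hs.1.pos))
    have h4 : s ∣ orderOf c := (hc.symm.pow_right k).dvd_of_dvd_mul_left (hk ▸ e ▸ hg ▸ dvd_mul_left ..)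
    obtain ⟨α, hα⟩ : ∃ α, IsPos α ∧ chiOf c α = 1 := by_contra fun h => by
      rw [show u = 1 from (StSys.US_empty (S := grpSys chevF4 Ω)).le (StSys.US_mono (fun s hs => h ⟨s, hs⟩) hu), orderOf_one,
        one_mul, hg] at e
      exact absurd (h3.eq_one_of_dvd (e ▸ dvd_mul_right ..)) (by decide)
    refine (F4W.cases1 hw (fun t e => Units.ext (τ.injective ?_)) hα.2).elim (a123 h2 h4) fun h =>
      absurd ((hc.symm.pow_right 3).eq_one_of_dvd (h4.trans h)) hs.1.ne_one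
    rw [hτ, ← Units.val_pow_eq_pow_val, e, Units.val_one, map_one]
  intro h
  by_cases h1 : orderOf (Fintype.card F : ZMod s) = 1
  · have : NeZero (s : Ω) := ⟨fun e => absurd (hc.eq_one_of_dvd ((CharP.cast_eq_zero_iff Ω 2 s).1 e)) (by decide)⟩
    obtain ⟨ζ, hζ⟩ := HasEnoughRootsOfUnity.exists_primitiveRoot Ω s
    have h3 := (hζ.isUnit_unit hs.1.ne_zero).eq_orderOf.trans
      (orderOf_injective (MonoidHom.mulSingle (fun _ : Node chevF4 => Ωˣ) (nd _ 3)) (Pi.mulSingle_injective (M := fun _ : Node chevF4 => Ωˣ) (nd _ 3)) _).symm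
    rw [h3]
    refine T.exists_ord_p (fieldHom_injective φ) Fintype.one_lt_card hτ hj 2 (w := 1) (α := rt _ 44) rfl ?_ ?_ (h3 ▸ hc)
    · rw [show corM (1 : Weyl chevF4).1 = 1 from corM_one, mul_one, mact_smul, mact_one, ← mul_inv_eq_one, ← zpow_sub_one,
        ← orderOf_dvd_iff_zpow_eq_one, ← h3, dv]
      simp [orderOf_eq_one_iff.1 h1]
    · refine Finset.prod_eq_one fun i _ => ?_
      by_cases e : i = nd _ 3
      · rw [e, show wt (rt chevF4 44) (nd _ 3) = 0 by decide +kernel, zpow_zero]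
      · simp [e]
  have k (l : List (Fin 4)) (t) (ht : F4W.tp (fun i => fastF4.cor ((l.map Fin.val).foldr fastF4.rf (fastF4.sim i))) = t ∧
      (l.map Fin.val).foldr fastF4.rf 44 = 44) {a : ℤ} (h : a ∣ F4W.cp4 t (Fintype.card F)) (a1 : (s : ℤ) ∣ a) :
      ∃ x : chevF4.group F, orderOf x = 2 * s := by
    have e := (F4W.det_wp l (Fintype.card F)).trans (congrArg (F4W.cp4 · _) ht.1)
    have h0 := congrArg (Int.cast (R := Ω)) e |>.trans_ne (c := 0) (by simp [F4W.cp4, hq])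
    obtain ⟨c, c1, c2⟩ := exists_prime_c h0 hs.1 (e ▸ a1.trans h)
    have hw : (wp sW l : Weyl chevF4).1 (rt _ 44) = rt _ 44 := Fin.ext ((agreeF4.wp_val l _).trans ht.2)
    refine c2 ▸ T.exists_ord_p (fieldHom_injective φ) Fintype.one_lt_card hτ hj 2 hw c1 (orderOf_eq_one_iff.1 ?_) (c2 ▸ hc)
    have h3 := chiOf_mact (Weyl.aut (wp sW l)) (c ^ (Fintype.card F : ℤ)) (rt _ 44)
    rw [mact_mul, mact_smul, mact_one] at c1
    rw [c1, hw] at h3
    have h4 (m : ℤ) : chiOf (c ^ m) (rt _ 44) = chiOf c (rt _ 44) ^ m := by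
      simp only [chiOf, Pi.pow_apply, ← Finset.prod_zpow, ← zpow_mul, mul_comm]
    have h5 : orderOf (chiOf c (rt _ 44)) ∣ s := by
      rw [← Int.natCast_dvd_natCast, orderOf_dvd_iff_zpow_eq_one, ← h4, ← c2, zpow_natCast, pow_orderOf_eq_one]; simp [chiOf]
    refine ((Nat.dvd_prime hs.1).1 h5).resolve_right fun e => h1 ?_
    rw [h4, eq_comm, ← mul_inv_eq_one, ← zpow_sub_one, ← orderOf_dvd_iff_zpow_eq_one, e, dv] at h3
    exact orderOf_eq_one_iff.2 (by simpa [sub_eq_zero] using h3)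
  simp only [List.mem_cons, h1, false_or, List.not_mem_nil, or_false] at h
  obtain h | h | h | h := h
  · exact k [1, 2, 3] (1, 0, -1, -1) (by decide +kernel) ⟨-1, by simp only [F4W.cp4]; ring⟩ ((a2 h2).2 (by simp [h]))
  · refine k [2, 3] (1, 0, 1, 1) (by decide +kernel) (a := (Fintype.card F) ^ 3 - 1) ⟨Fintype.card F - 1, by simp only [F4W.cp4]; ring⟩ ?_
    rw [dv]; push_cast; rw [sub_eq_zero, pw, h]
  · exact k [1, 2, 1, 2, 3] (0, 0, 0, -1) (by decide +kernel) ⟨-1, by simp only [F4W.cp4]; ring⟩ (a3.2 (by simp [h]))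
  · exact k [1, 2, 3] (1, 0, -1, -1) (by decide +kernel) ⟨-1, by simp only [F4W.cp4]; ring⟩ ((a2 h2).2 (by simp [h]))

theorem ord_mem (h : s ∣ Nat.card (chevF4.group F)) : orderOf (Fintype.card F : ZMod s) ∈ [1, 2, 3, 4, 6, 8, 12] := by
  have k (m : ℕ) (hm : m ≠ 0) (e : s ∣ Fintype.card F ^ m - 1) : orderOf (Fintype.card F : ZMod s) ∈ m.divisors := by
    rw [← dk hm, ← pw, ← sub_eq_zero, ← Nat.cast_pow, ← Nat.cast_one, ← Nat.cast_sub (Nat.one_le_pow _ _ Fintype.card_pos),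
      ZMod.natCast_eq_zero_iff]; exact e
  rw [S1062.result rfl, hs.1.dvd_mul, hs.1.dvd_mul, hs.1.dvd_mul, hs.1.dvd_mul] at h
  obtain (((h | h) | h) | h) | h := h
  · rw [hF, ← pow_mul] at h
    exact absurd ((Nat.prime_dvd_prime_iff_eq hs.1 Nat.prime_two).1 (hs.1.dvd_of_dvd_pow h)) h2
  all_goals have := k _ (by decide) h; revert this; generalize orderOf (Fintype.card F : ZMod s) = e; revert e; decide

omit hn hF h2 hr hs

/-- Let F be a finite field with q = 2^n elements and G = F₄(F). For an odd prime r let e(r, q) be the multiplicative order of q modulo r. Two distinct primes r, s dividing the order of G are non-adjacent in the prime graph of G (no element of order rs) if and only if, up to swapping r and s, either r = 2 and e(s, q) ∈ {8, 12}, or r, s are both odd with k = e(r, q) < l = e(s, q) and one of: l ∈ {8, 12}; l = 6 and k ∈ {3, 4}; l = 4 and k = 3. -/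
theorem result {F : Type*} [Field F] [Fintype F] (n : ℕ) (hn : 1 ≤ n) (hF : Fintype.card F = 2 ^ n)
    (r s : ℕ) (hr : r.Prime) (hs : s.Prime) (hrs : r ≠ s) (hrG : r ∣ Nat.card ↥(Cfsg.Lie.chevF4.group F)) (hsG : s ∣ Nat.card ↥(Cfsg.Lie.chevF4.group F)) :
    (¬ ∃ x : ↥(Cfsg.Lie.chevF4.group F), orderOf x = r * s) ↔
      ((r = 2 ∧ orderOf ((Fintype.card F : ℕ) : ZMod s) ∈ ({8, 12} : Finset ℕ)) ∨ (s = 2 ∧ orderOf ((Fintype.card F : ℕ) : ZMod r) ∈ ({8, 12} : Finset ℕ)) ∨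
       (r ≠ 2 ∧ s ≠ 2 ∧
         ((orderOf ((Fintype.card F : ℕ) : ZMod r) < orderOf ((Fintype.card F : ℕ) : ZMod s) ∧ (orderOf ((Fintype.card F : ℕ) : ZMod s) ∈ ({8, 12} : Finset ℕ) ∨ (orderOf ((Fintype.card F : ℕ) : ZMod s) = 6 ∧ orderOf ((Fintype.card F : ℕ) : ZMod r) ∈ ({3, 4} : Finset ℕ)) ∨ (orderOf ((Fintype.card F : ℕ) : ZMod s) = 4 ∧ orderOf ((Fintype.card F : ℕ) : ZMod r) = 3))) ∨
          (orderOf ((Fintype.card F : ℕ) : ZMod s) < orderOf ((Fintype.card F : ℕ) : ZMod r) ∧ (orderOf ((Fintype.card F : ℕ) : ZMod r) ∈ ({8, 12} : Finset ℕ) ∨ (orderOf ((Fintype.card F : ℕ) : ZMod r) = 6 ∧ orderOf ((Fintype.card F : ℕ) : ZMod s) ∈ ({3, 4} : Finset ℕ)) ∨ (orderOf ((Fintype.card F : ℕ) : ZMod r) = 4 ∧ orderOf ((Fintype.card F : ℕ) : ZMod s) = 3)))))) := by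
  have := Fact.mk hr
  have := Fact.mk hs
  by_cases h1 : r = 2
  · subst h1
    have := ord_mem hn hF hrs.symm hsG
    rw [two_odd hn hF hrs.symm]
    generalize orderOf (Fintype.card F : ZMod s) = e at *
    simp [hrs.symm] at this ⊢; omega
  by_cases h2 : s = 2
  · subst h2
    have := ord_mem hn hF hrs hrG
    rw [mul_comm, two_odd hn hF hrs]
    generalize orderOf (Fintype.card F : ZMod r) = e at *
    simp [hrs] at this ⊢; omega
  have a := ord_mem hn hF h1 hrG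
  have b := ord_mem hn hF h2 hsG
  rw [odd_odd hn hF h2 h1 hrs]
  generalize orderOf (Fintype.card F : ZMod r) = e at *
  generalize orderOf (Fintype.card F : ZMod s) = f at *
  simp only [h1, h2, false_and, false_or, ne_eq, not_false_eq_true, true_and, Adj]
  revert f; revert e; decide


end Cfsg.Agent.S2525
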