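import Cfsg.Statements.S2532
import Cfsg.Agent.H24.Alt
-- import your own Cfsg.Agent.* helpers here

set_option autoImplicit false
open Cfsg

namespace Cfsg.Agent.S2532

open Finset MulAction Equiv

/-- There is a function `f` of two natural-number arguments such that, whenever `m ≥ f(n, r)`, every subgroup of order `n` of the alternating group of degree `m` centralizes some subgroup of that alternating group isomorphic to the alternating group of degree `r`. -/
theorem result :
    ∃ f : ℕ → ℕ → ℕ, ∀ (m r : ℕ) (H : Subgroup ↥(alternatingGroup (Fin m))), f (Nat.card H) r ≤ m →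
      ∃ K : Subgroup ↥(alternatingGroup (Fin m)), Nonempty (↥K ≃* ↥(alternatingGroup (Fin r))) ∧
        K ≤ Subgroup.centralizer (H : Set ↥(alternatingGroup (Fin m))) := by
  classical
  refine ⟨fun n r => 2 ^ n * (n * r) + 1, fun m r H hm => ?_⟩
  have := Fintype.ofFinite (Subgroup H)
  have h1 : Fintype.card (Subgroup H) ≤ 2 ^ Nat.card H := by
    simpa using Fintype.card_le_of_injective _ (SetLike.coe_injective (A := Subgroup H))
  obtain ⟨S, hS⟩ := Fintype.exists_lt_card_fiber_of_mul_lt_card (fun x : Fin m => stabilizer H x) (n := Nat.card H * r)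
    ((Nat.mul_le_mul_right _ h1).trans_lt (by simpa using hm))
  have h2 := card_le_mul_card_image (f := Quotient.mk (orbitRel H (Fin m))) (univ.filter fun x => stabilizer H x = S) (Nat.card H)
    (by
      rintro ⟨x⟩ -
      rw [Nat.card_eq_fintype_card]
      refine card_le_card_of_surjOn (fun h : H => h • x) fun y hy => ?_
      simp only [coe_filter, Set.mem_ofPred_eq] at hy
      obtain ⟨h, e⟩ := orbitRel_apply.1 (Quotient.exact (show Quotient.mk _ y = Quotient.mk _ x from hy.2))
      exact ⟨h, by simp, e⟩)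
  obtain ⟨f, hf⟩ := Function.Embedding.exists_of_card_le_finset (α := Fin r)
    (s := (univ.filter fun x => stabilizer H x = S).image (Quotient.mk (orbitRel H (Fin m))))
    (by simpa using (Nat.lt_of_mul_lt_mul_left (hS.trans_le h2)).le)
  choose x h3 h4 using fun i => mem_image.1 (mem_coe.1 (hf ⟨i, rfl⟩))
  simp only [mem_filter, mem_univ, true_and] at h3
  let e : (H ⧸ S) × Fin r ↪ Fin m := ⟨fun p => p.1.out • x p.2, fun p q h => by
    have h5 : p.2 = q.2 := f.injective (by
      rw [← h4, ← h4]; exact Quotient.sound (orbitRel_apply.2 ⟨_, (eq_inv_smul_iff.2 h).trans (smul_smul _ _ _) |>.symm⟩))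
    refine Prod.ext ?_ h5
    rw [← p.1.out_eq, ← q.1.out_eq, Quotient.eq, QuotientGroup.leftRel_apply]
    refine (h3 q.2).le ?_
    rw [mem_stabilizer_iff, mul_smul, inv_smul_eq_iff]
    exact h.symm.trans (by rw [← h5])⟩
  have he : ∀ (h : H) q i, h • e (q, i) = e (h • q, i) := fun h q i => by
    obtain ⟨s, hs⟩ := QuotientGroup.mk_out_eq_mul S (h * q.out)
    have : (s : H) • x i = x i := by rw [← mem_stabilizer_iff, h3]; exact s.2
    change h • q.out • x i = (h • q).out • x i
    rw [show h • q = ((h * q.out : H) : H ⧸ S) by rw [← smul_eq_mul, ← Quotient.smul_mk, QuotientGroup.out_eq'], hs, mul_smul, mul_smul, this]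
  let φ : alternatingGroup (Fin r) →* alternatingGroup ((H ⧸ S) × Fin r) := MonoidHom.mk'
    (fun σ => ⟨prodCongrRight fun _ => σ.1, by simp [Perm.sign_prodCongrRight, Perm.mem_alternatingGroup.1 σ.2]⟩) fun _ _ => rfl
  refine ⟨((H24.Alt.embA e).comp φ).range, ⟨(MonoidHom.ofInjective (f := (H24.Alt.embA e).comp φ) ((H24.Alt.embA_injective e).comp fun σ τ h =>
    Subtype.ext (Perm.ext fun i => congrArg (fun z : alternatingGroup ((H ⧸ S) × Fin r) => (z.1 ((1 : H), i)).2) h))).symm⟩, ?_⟩
  rintro _ ⟨σ, rfl⟩ h hh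
  refine Subtype.ext (Perm.ext fun y => ?_)
  change h.1 ((H24.Alt.embA e (φ σ)).1 y) = (H24.Alt.embA e (φ σ)).1 (h.1 y)
  by_cases hy : y ∈ Set.range e
  · obtain ⟨⟨q, i⟩, rfl⟩ := hy
    rw [show h.1 (e (q, i)) = _ from he ⟨h, hh⟩ q i, H24.Alt.embA_apply, H24.Alt.embA_apply]
    exact he ⟨h, hh⟩ q _
  · rw [H24.Alt.embA_apply_of_notMem _ _ hy, H24.Alt.embA_apply_of_notMem]
    rintro ⟨⟨q, i⟩, h5⟩
    exact hy ⟨_, (he (⟨h, hh⟩ : H)⁻¹ q i).symm.trans (inv_smul_eq_iff.2 h5)⟩

end Cfsg.Agent.S2532
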