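import Mathlib
import Cfsg.Statements.S2551
import Cfsg.Agent.H03.A8Sub
import Cfsg.Agent.L.SLRep

set_option autoImplicit false
open Cfsg

namespace Cfsg.Agent.S2551

open Subgroup MulAction in
theorem two {F : Type*} [Field F] [Fintype F] (hF : Fintype.card F = 2)
    (H : Subgroup (GL (Fin 4) F)) (hH : Nat.card H = 2520) (v w v' w' : Fin 4 → F) (h1 : v ≠ 0)
    (h2 : w ≠ 0) (h3 : v ≠ w) (h4 : v' ≠ 0) (h5 : w' ≠ 0) (h6 : v' ≠ w') :
    ∃ g ∈ H, g • v = v' ∧ g • w = w' := by
  classical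
  have h01 : ∀ a : F, a = 0 ∨ a = 1 := fun a => by
    by_contra hno
    push Not at hno
    have : ({0, 1, a} : Finset F).card ≤ 2 := hF ▸ Finset.card_le_univ _
    rw [Finset.card_eq_three.2 ⟨0, 1, a, zero_ne_one, hno.1.symm, hno.2.symm, rfl⟩] at this
    omega
  have h11 : (1 : F) + 1 = 0 := (h01 _).resolve_right (by simp)
  have hvv : ∀ v : Fin 4 → F, v + v = 0 := fun v => by
    rw [← one_smul F v, ← add_smul, h11, zero_smul]
  let Ω : Set ((Fin 4 → F) × (Fin 4 → F)) := {p | p.1 ≠ 0 ∧ p.2 ≠ 0 ∧ p.1 ≠ p.2}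
  have hΩ : Ω.ncard = 210 := by
    have : Ω = ↑((Finset.univ.erase (0 : Fin 4 → F)).offDiag) := by
      ext p; simp [Ω]
    rw [this, Set.ncard_coe_finset, Finset.offDiag_card, Finset.card_erase_of_mem (Finset.mem_univ _)]
    simp [hF]
  have hsub : ∀ p ∈ Ω, ∀ g : GL (Fin 4) F, g • p ∈ Ω := fun p hp g =>
    ⟨(smul_ne_zero_iff_ne g).2 hp.1, (smul_ne_zero_iff_ne g).2 hp.2.1,
      fun e => hp.2.2 (smul_left_cancel g e)⟩
  have hG : Nat.card (GL (Fin 4) F) = 20160 := by
    rw [Matrix.card_GL_field, hF]; decide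
  have hnot : ∀ p ∈ Ω, p.2 ∉ F ∙ p.1 := fun p hp e => by
    obtain ⟨c, hc⟩ := Submodule.mem_span_singleton.1 e
    rcases h01 c with rfl | rfl
    · exact hp.2.1 (by simpa using hc.symm)
    · exact hp.2.2 (by simpa using hc)
  have hcard : ∀ p ∈ Ω, (Nat.card (stabilizer H p) = 12 ∧ orbit H p = Ω) ∨
      Nat.card (stabilizer H p) = 24 := by
    intro p hp
    have o1 : orbit (GL (Fin 4) F) p = Ω := by
      apply Set.Subset.antisymm
      · rintro _ ⟨g, rfl⟩; exact hsub p hp g
      · intro q hq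
        obtain ⟨g, e1, e2⟩ := L.SR.exists_map_pair (ι := Fin 4) (by simp) hp.1 (hnot p hp) hq.1 (hnot q hq)
        exact ⟨Matrix.SpecialLinearGroup.toGL g, Prod.ext e1 e2⟩
    have c1 := (stabilizer (GL (Fin 4) F) p).card_mul_index
    rw [index_stabilizer, o1, hΩ, hG] at c1
    have c2 := (stabilizer H p).card_mul_index
    rw [index_stabilizer, hH] at c2
    have o2 : orbit H p ⊆ Ω := by rintro _ ⟨g, rfl⟩; exact hsub p hp g
    have c3 := Set.ncard_le_ncard o2
    have c4 : Nat.card (stabilizer H p) ∣ Nat.card (stabilizer (GL (Fin 4) F) p) :=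
      card_dvd_of_injective ((H.subtype.comp (stabilizer H p).subtype).codRestrict _ fun x => x.2)
        fun x y e => Subtype.ext (Subtype.ext
          (congrArg (fun z : stabilizer (GL (Fin 4) F) p => z.1) e))
    rw [show Nat.card (stabilizer (GL (Fin 4) F) p) = 96 by omega] at c4
    have c5 : Nat.card (stabilizer H p) ∣ 24 :=
      (show Nat.gcd 96 2520 = 24 by norm_num) ▸ Nat.dvd_gcd c4 (Dvd.intro _ c2)
    have c6 := Nat.le_of_dvd (by norm_num) c5
    by_cases h12 : Nat.card (stabilizer H p) = 12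
    · exact Or.inl ⟨h12, Set.eq_of_subset_of_ncard_le o2 (by rw [h12] at c2; omega)⟩
    · right
      rw [hΩ] at c3
      generalize Nat.card (stabilizer H p) = d at *
      interval_cases d <;> omega
  by_cases hex : ∃ p ∈ Ω, orbit H p = Ω
  · obtain ⟨p, hp, ho⟩ := hex
    have a1 : (v, w) ∈ orbit H p := by rw [ho]; exact ⟨h1, h2, h3⟩
    have a2 : (v', w') ∈ orbit H p := by rw [ho]; exact ⟨h4, h5, h6⟩
    rw [← orbit_eq_iff.2 a1] at a2
    obtain ⟨g, hg⟩ := a2
    exact ⟨g, g.2, congrArg Prod.fst hg, congrArg Prod.snd hg⟩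
  exfalso
  have h24 : ∀ p ∈ Ω, Nat.card (stabilizer H p) = 24 := fun p hp =>
    (hcard p hp).resolve_left fun h => hex ⟨p, hp, h.2⟩
  have K : ∀ u x : Fin 4 → F, x ≠ 0 → u ≠ x → ∀ g : H, g • u = u → g • x = x + u → u = 0 := by
    intro u x hx hux g e1 e2
    by_contra hu
    have e3 : ∀ g : H, g • u = u → (g • x = x ∨ g • x = x + u) → g⁻¹ • x = g • x := by
      intro g e1 e2
      rw [inv_smul_eq_iff]
      rcases e2 with e2 | e2
      · rw [e2, e2]
      · rw [e2, smul_add, e1, e2, add_assoc, hvv, add_zero]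
    let T : Subgroup H :=
      { carrier := {g | g • u = u ∧ (g • x = x ∨ g • x = x + u)}
        one_mem' := by simp
        mul_mem' := by
          rintro a b ⟨a1, a2⟩ ⟨b1, b2⟩
          refine ⟨by rw [mul_smul, b1, a1], ?_⟩
          rcases b2 with b2 | b2
          · rwa [mul_smul, b2]
          · rw [mul_smul, b2, smul_add, a1]
            rcases a2 with a2 | a2
            · right; rw [a2]
            · left; rw [a2, add_assoc, hvv, add_zero]
        inv_mem' := by
          rintro a ⟨a1, a2⟩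
          exact ⟨by rw [inv_smul_eq_iff, a1], by rw [e3 a a1 a2]; exact a2⟩ }
    have hle : stabilizer H (u, x) ≤ T := fun a ha =>
      ⟨congrArg Prod.fst ha, Or.inl (congrArg Prod.snd ha)⟩
    have hne : x + u ≠ x := by simpa using hu
    have hi : ((stabilizer H (u, x)).subgroupOf T).index = 2 := by
      rw [index_eq_two_iff]
      refine ⟨⟨g, e1, Or.inr e2⟩, fun b => ?_⟩
      simp only [mem_subgroupOf, mem_stabilizer_iff, Prod.smul_mk, Prod.mk.injEq, coe_mul, mul_smul,
        e1, e2, smul_add, b.2.1, true_and]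
      rcases b.2.2 with b2 | b2
      · rw [b2]; exact Or.inr ⟨rfl, hne⟩
      · rw [b2, add_assoc, hvv, add_zero]; exact Or.inl ⟨rfl, hne⟩
    have c1 := ((stabilizer H (u, x)).subgroupOf T).card_mul_index
    rw [hi, Nat.card_congr (subgroupOfEquivOfLe hle).toEquiv, h24 (u, x) ⟨hu, hx, hux⟩] at c1
    have c2 := card_subgroup_dvd_card T
    rw [← c1, hH] at c2
    omega
  let e : Fin 4 → Fin 4 → F := fun i => Pi.single i 1
  have hexp : ∀ u : Fin 4 → F, u = u 0 • e 0 + u 1 • e 1 + u 2 • e 2 + u 3 • e 3 := fun u => by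
    ext i; fin_cases i <;> simp [e]
  have he : ∀ i, e i ≠ 0 := fun i h => by simpa [e] using congrFun h i
  have lin : ∀ (g : H) (c : F) (u : Fin 4 → F), g • c • u = c • g • u := fun g c u => smul_comm _ _ _
  have triv : ∀ g : H, g • e 0 = e 0 → g • e 1 = e 1 → g • e 2 = e 2 → g = 1 := by
    intro g a0 a1 a2
    have fx : ∀ u : Fin 4 → F, u 3 = 0 → g • u = u := fun u hu => by
      rw [hexp u]; simp only [smul_add, lin, a0, a1, a2, hu, zero_smul, smul_zero]
    have a3 : g • e 3 = e 3 := by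
      rcases h01 ((g • e 3) 3) with c | c
      · exact smul_left_cancel g (fx _ c)
      · have hu : (g • e 3 - e 3) 3 = 0 := by simp [c, e]
        exact sub_eq_zero.1 (K _ (e 3) (he 3) (fun h => by simpa [e, hu] using congrFun h 3) g
          (fx _ hu) (by simp))
    have : ∀ u : Fin 4 → F, g • u = u := fun u => by
      rw [hexp u]; simp only [smul_add, lin, a0, a1, a2, a3]
    refine Subtype.ext (Units.ext (Matrix.toLin'.injective (LinearMap.ext fun u => ?_)))
    rw [OneMemClass.coe_one, Units.val_one, Matrix.toLin'_one]; exact this u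
  have hp : (e 0, e 1) ∈ Ω := ⟨he 0, he 1, fun h => by simpa [e] using congrFun h 0⟩
  have hinj : Function.Injective fun s : stabilizer H (e 0, e 1) =>
      ((s.1 • e 2) 2, (s.1 • e 2) 3) := by
    intro s t hst
    have fx : ∀ (g : stabilizer H (e 0, e 1)) (u : Fin 4 → F), u 2 = 0 → u 3 = 0 → g.1 • u = u :=
      fun g u hu hu' => by
        have a0 : g.1 • e 0 = e 0 := congrArg Prod.fst g.2
        have a1 : g.1 • e 1 = e 1 := congrArg Prod.snd g.2
        rw [hexp u]; simp only [smul_add, lin, a0, a1, hu, hu', zero_smul, smul_zero]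
    simp only [Prod.mk.injEq] at hst
    set u := s.1 • e 2 - t.1 • e 2 with hu
    have u2 : u 2 = 0 := by simp [hu, hst.1]
    have u3 : u 3 = 0 := by simp [hu, hst.2]
    have k1 : (t⁻¹ * s).1 • e 2 = e 2 + u := by
      rw [coe_mul, mul_smul, coe_inv, inv_smul_eq_iff, smul_add, fx t u u2 u3, hu]; abel
    have k2 := K u (e 2) (he 2) (fun h => by simpa [e, u2] using congrFun h 2) _ (fx _ u u2 u3) k1
    rw [k2, add_zero] at k1
    have := triv _ (congrArg Prod.fst (t⁻¹ * s).2) (congrArg Prod.snd (t⁻¹ * s).2) k1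
    exact (inv_mul_eq_one.1 (Subtype.ext this)).symm
  have := Nat.card_le_card_of_injective _ hinj
  rw [h24 _ hp] at this
  simp [hF] at this

/-- Let F be the field with 2 elements. GL_4(F) (≅ A_8) has a subgroup isomorphic to the alternating group A_7, and every such subgroup acts 2-transitively on the 15 non-zero vectors of F⁴: any ordered pair of distinct non-zero vectors is carried to any other by some element of the subgroup. -/
theorem result {F : Type*} [Field F] [Fintype F] (hF : Fintype.card F = 2) : (∃ H : Subgroup (Matrix.GeneralLinearGroup (Fin 4) F), Nonempty (H ≃* alternatingGroup (Fin 7))) ∧ ∀ H : Subgroup (Matrix.GeneralLinearGroup (Fin 4) F), Nonempty (H ≃* alternatingGroup (Fin 7)) → ∀ v w v' w' : Fin 4 → F, v ≠ 0 → w ≠ 0 → v ≠ w → v' ≠ 0 → w' ≠ 0 → v' ≠ w' → ∃ g ∈ H, (g : Matrix (Fin 4) (Fin 4) F).mulVec v = v' ∧ (g : Matrix (Fin 4) (Fin 4) F).mulVec w = w' := by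
  refine ⟨?_, fun H ⟨e⟩ v w v' w' h1 h2 h3 h4 h5 h6 => two hF H ?_ v w v' w' h1 h2 h3 h4 h5 h6⟩
  · obtain ⟨e⟩ := H03.exists_gl4_alt8
    let r : F ≃+* ZMod 2 := FiniteField.ringEquivOfCardEq (hF.trans (ZMod.card 2).symm)
    let e1 : GL (Fin 4) F ≃* GL (Fin 4) (ZMod 2) := Units.mapEquiv (r.mapMatrix (m := Fin 4)).toMulEquiv
    let ι : Fin 7 ↪ Fin 8 := Fin.castSuccEmb
    let φ : alternatingGroup (Fin 7) →* alternatingGroup (Fin 8) :=
      ((Equiv.Perm.viaEmbeddingHom ι).comp (alternatingGroup (Fin 7)).subtype).codRestrict _ fun x => by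
        rw [Equiv.Perm.mem_alternatingGroup]
        change Equiv.Perm.sign (Equiv.Perm.viaEmbedding x.1 ι) = 1
        rw [Equiv.Perm.viaEmbedding, Equiv.Perm.sign_extendDomain]
        exact x.2
    have hφ : Function.Injective φ := fun x y h =>
      Subtype.ext (Equiv.Perm.viaEmbeddingHom_injective ι (congrArg Subtype.val h))
    let ψ := (e1.trans e).symm.toMonoidHom.comp φ
    exact ⟨ψ.range, ⟨(MonoidHom.ofInjective ((e1.trans e).symm.injective.comp hφ)).symm⟩⟩
  · rw [Nat.card_congr e.toEquiv, nat_card_alternatingGroup]; simp [Nat.factorial]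

end Cfsg.Agent.S2551
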