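import Mathlib
import Cfsg.Statements.S2556
import Cfsg.Agent.H12.SzAut
import Cfsg.Agent.H12.LinPoly
import Cfsg.Agent.H02.PCore

set_option autoImplicit false
open Cfsg

namespace Cfsg.Agent.S2556

open H12.Sz H12.CC H12.LP Subgroup

section
variable {F : Type*} [Field F] [Fintype F] {m : ℕ} [hS : SzF F m]

noncomputable def thE : F ≃+* F := RingEquiv.ofBijective th ⟨th_inj, th_surj⟩

@[simp] theorem thE_apply (x : F) : thE x = th x := rfl

theorem thE_comm (φ : F ≃+* F) : φ * thE = thE * φ := RingEquiv.ext fun x => map_th (φ : F →+* F) x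

theorem thE_four : (thE : F ≃+* F) * thE * (thE * thE) ≠ 1 := fun h => by
  classical
  obtain ⟨k, hk⟩ := IsCyclic.exists_ofOrder_eq_natCard (α := Fˣ)
  rw [Nat.card_eq_fintype_card, Fintype.card_units] at hk
  have h1 : th (th (th (th (k : F)))) = k := DFunLike.congr_fun h (k : F)
  rw [th_th, th_th] at h1
  have := Nat.le_of_dvd (by norm_num) (orderOf_dvd_of_pow_eq_one (x := k) (n := 3) (Units.ext
    (mul_left_cancel₀ k.ne_zero (show (k : F) * (k : F) ^ 3 = k * 1 by linear_combination h1))))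
  have := card_ge (F := F)
  omega

theorem semilinear {A B : F →+ F} (h : ∀ x, B (x * th x) = A x * th (A x)) :
    ∃ (l : F) (φ : F ≃+* F), ∀ x, A x = l * φ x := by
  classical
  obtain ⟨a, ha⟩ := exists_sum A
  obtain ⟨b, hb⟩ := exists_sum B
  obtain ⟨h1, h2⟩ := quad_zero (M := fun φ ψ => a φ * th (a (thE⁻¹ * ψ)) + if ψ = φ * thE then b φ else 0) fun x => by
    simp only [add_mul, Finset.sum_add_distrib, ite_mul, zero_mul, Finset.sum_ite_eq', Finset.mem_univ, if_true]
    rw [CharTwo.add_eq_zero]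
    calc _ = A x * th (A x) := by
          rw [ha, map_sum, Finset.sum_mul_sum]
          refine Finset.sum_congr rfl fun φ _ => ?_
          rw [← Equiv.sum_comp (Equiv.mulLeft thE)]
          refine Finset.sum_congr rfl fun ψ _ => ?_
          simp only [Equiv.coe_mulLeft, inv_mul_cancel_left, map_mul]
          change _ * (_ * th (ψ x)) = _
          ring
      _ = _ := by
          rw [← h, hb]
          simp only [map_mul]
          rfl
  have t1 : (thE : F ≃+* F) ≠ 1 := fun e => thE_four (F := F) (by simp [e])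
  have h3 : ∀ ψ, a ψ ≠ 0 → a (thE * ψ) = 0 := fun ψ hψ => by
    have := h2 (thE * ψ)
    rw [inv_mul_cancel_left] at this
    simpa [t1, hψ] using this
  have h4 : ∀ φ ψ, a φ ≠ 0 → a ψ ≠ 0 → φ ≠ ψ → φ = thE * thE * ψ := fun φ ψ hφ hψ hne => by
    by_contra hc
    have := h1 φ (thE * ψ)
    simp only [h3 ψ hψ, inv_mul_cancel_left, zero_mul, zero_add] at this
    rw [if_neg (by rw [thE_comm, mul_right_inj]; exact hne.symm),
      if_neg (by rw [mul_assoc, thE_comm, ← mul_assoc]; exact hc)] at this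
    simp [hφ, hψ] at this
  by_cases h0 : ∃ φ, a φ ≠ 0
  · obtain ⟨φ, hφ⟩ := h0
    refine ⟨a φ, φ, fun x => ?_⟩
    rw [ha, Finset.sum_eq_single φ (fun ψ _ hne => ?_) (by simp)]
    by_contra hc
    have e1 := h4 ψ φ (left_ne_zero_of_mul hc) hφ hne
    have e2 := h4 φ ψ hφ (left_ne_zero_of_mul hc) hne.symm
    rw [e1, ← mul_assoc, eq_comm, mul_eq_right] at e2
    exact thE_four e2
  · push Not at h0
    exact ⟨0, 1, fun x => by simp [ha, h0]⟩

def iu (a b : F) : U F m := ⟨uu a b, uu_mem_U a b⟩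

theorem iu_mul (a b c d : F) : (iu a b * iu c d : U F m) = iu (a + c) (b + d + th a * c) := Subtype.ext (uu_mul a b c d)

theorem iu_inj {a b c d : F} : (iu a b : U F m) = iu c d ↔ a = c ∧ b = d := Subtype.ext_iff.trans uu_inj

theorem iu_surj (u : U F m) : ∃ a b, u = iu a b := by
  obtain ⟨_, a, b, rfl⟩ := u
  exact ⟨a, b, rfl⟩

noncomputable def cE : F × F ≃ U F m := Equiv.ofBijective (fun p => iu p.1 p.2)
  ⟨fun _ _ h => Prod.ext_iff.2 (iu_inj.1 h), fun u => by obtain ⟨a, b, rfl⟩ := iu_surj u; exact ⟨(a, b), rfl⟩⟩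

theorem cE_symm (a b : F) : cE.symm (iu a b : U F m) = (a, b) := cE.symm_apply_apply (a, b)

noncomputable def mkHom (f : F →+ F) (k : Fˣ) (φ : F ≃+* F) : U F m →* U F m := MonoidHom.mk'
  (fun u => iu (th (k : F) * φ (cE.symm u).1) ((k : F) ^ 2 * th (k : F) * φ (cE.symm u).2 + f (cE.symm u).1))
  fun u v => by
    obtain ⟨a, b, rfl⟩ := iu_surj u
    obtain ⟨c, d, rfl⟩ := iu_surj v
    have e := map_th (φ : F →+* F) a
    simp only [RingHom.coe_coe] at e
    simp only [iu_mul, cE_symm, map_add, map_mul, th_th, e]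
    congr 1 <;> ring

theorem mkHom_iu (f : F →+ F) (k : Fˣ) (φ : F ≃+* F) (a b : F) :
    mkHom f k φ (iu a b : U F m) = iu (th (k : F) * φ a) ((k : F) ^ 2 * th (k : F) * φ b + f a) := by
  simp [mkHom, cE_symm]

noncomputable def mkAut (f : F →+ F) (k : Fˣ) (φ : F ≃+* F) : MulAut (U F m) :=
  MulEquiv.ofBijective (mkHom f k φ) (Finite.injective_iff_bijective.1 fun u v h => by
    obtain ⟨a, b, rfl⟩ := iu_surj u
    obtain ⟨c, d, rfl⟩ := iu_surj v
    rw [mkHom_iu, mkHom_iu, iu_inj] at h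
    obtain rfl : a = c := by simpa using h.1
    obtain rfl : b = d := by simpa using h.2
    rfl)

theorem mkAut_iu (f : F →+ F) (k : Fˣ) (φ : F ≃+* F) (a b : F) :
    mkAut f k φ (iu a b : U F m) = iu (th (k : F) * φ a) ((k : F) ^ 2 * th (k : F) * φ b + f a) := mkHom_iu f k φ a b

theorem aut_ext {α β : MulAut (U F m)} (h : ∀ a b, α (iu a b) = β (iu a b)) : α = β :=
  MulEquiv.ext fun u => by obtain ⟨a, b, rfl⟩ := iu_surj u; exact h a b

theorem iu_sq (a b : F) : (iu a b * iu a b : U F m) = iu 0 (a * th a) := Subtype.ext (uu_sq a b)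

theorem aut_Z (α : MulAut (U F m)) (b : F) : ∃ c, α (iu 0 b) = iu 0 c := by
  obtain ⟨a, rfl⟩ := Finite.surjective_of_injective (f := fun x : F => x * th x) (fun _ _ => mul_th_inj) b
  obtain ⟨c, d, e⟩ := iu_surj (α (iu a 0))
  exact ⟨c * th c, by beta_reduce; rw [← iu_sq a 0, map_mul, e, iu_sq]⟩

theorem aut_bij : Function.Bijective fun p : (F →+ F) × Fˣ × (F ≃+* F) => (mkAut p.1 p.2.1 p.2.2 : MulAut (U F m)) := by
  constructor
  · rintro ⟨f, k, φ⟩ ⟨g, l, ψ⟩ h
    have h1 : ∀ a, th (k : F) * φ a = th (l : F) * ψ a ∧ f a = g a := fun a => by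
      simpa [mkAut_iu, iu_inj] using DFunLike.congr_fun h (iu a 0)
    obtain rfl : k = l := Units.ext (th_inj (by simpa using (h1 1).1))
    obtain rfl : φ = ψ := RingEquiv.ext fun a => by simpa using (h1 a).1
    obtain rfl : f = g := AddMonoidHom.ext fun a => (h1 a).2
    rfl
  · intro α
    choose A C hA using fun a => iu_surj (α (iu a 0))
    choose B hB using aut_Z α
    have h1 : ∀ a b, α (iu a b) = iu (A a) (B b + C a) := fun a b => by
      rw [show (iu a b : U F m) = iu 0 b * iu a 0 by simp [iu_mul], map_mul, hA, hB, iu_mul]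
      simp
    have h2 : ∀ a b c d, A (a + c) = A a + A c ∧
        B (b + d + th a * c) + C (a + c) = B b + C a + (B d + C c) + th (A a) * A c := fun a b c d => by
      have := map_mul α (iu a b) (iu c d)
      rwa [iu_mul, h1, h1, h1, iu_mul, iu_inj] at this
    have h0 : A 0 = 0 ∧ C 0 = 0 := by
      have := hA 0
      rw [show (iu 0 0 : U F m) = 1 from Subtype.ext uu_zero, map_one, ← show (iu 0 0 : U F m) = 1 from Subtype.ext uu_zero,
        iu_inj] at this
      exact ⟨this.1.symm, this.2.symm⟩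
    let A' : F →+ F := AddMonoidHom.mk' A fun a c => (h2 a 0 c 0).1
    let B' : F →+ F := AddMonoidHom.mk' B fun b d => by simpa [h0] using (h2 0 b 0 d).2
    have h3 : ∀ x, B (x * th x) = A x * th (A x) := fun x => by
      have := map_mul α (iu x 0) (iu x 0)
      rw [iu_sq, hB, hA, iu_sq, iu_inj] at this
      exact this.2
    obtain ⟨l, φ, hl⟩ := semilinear (A := A') (B := B') h3
    obtain ⟨k, rfl⟩ := th_surj l
    have hl' : ∀ x, A x = th k * φ x := hl
    have k0 : k ≠ 0 := by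
      rintro rfl
      have e : α (iu 1 0) * α (iu 1 0) = 1 := by
        rw [hA, iu_sq, hl']; simpa using Subtype.ext uu_zero
      rw [← map_mul, iu_sq, map_eq_one_iff _ α.injective, Subtype.ext_iff] at e
      simpa using (uu_eq_one.1 e).2
    have h4 : ∀ b, B b = k ^ 2 * th k * φ b := fun b => by
      obtain ⟨a, rfl⟩ := Finite.surjective_of_injective (f := fun x : F => x * th x) (fun _ _ => mul_th_inj) b
      simp only [h3, hl', map_mul, th_th, ← map_th (φ : F →+* F), RingHom.coe_coe]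
      have := map_th (φ : F →+* F) a
      simp only [RingHom.coe_coe] at this
      rw [this]
      ring
    refine ⟨(AddMonoidHom.mk' C fun a c => ?_, Units.mk0 k k0, φ), aut_ext fun a b => ?_⟩
    · have := (h2 a 0 c 0).2
      have e := map_th (φ : F →+* F) a
      simp only [RingHom.coe_coe] at e
      simp only [h4, hl', map_mul, map_zero, zero_add, mul_zero, th_th, e] at this
      linear_combination this
    · simp [mkAut_iu, h1, h4, hl']

noncomputable def cenHom : Multiplicative (F →+ F) →* MulAut (U F m) := MonoidHom.mk' (fun f => mkAut f.toAdd 1 1)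
  fun f g => aut_ext fun a b => by simp [mkAut_iu, add_assoc, add_comm (g.toAdd a)]

theorem cenHom_iu (f : Multiplicative (F →+ F)) (a b : F) : cenHom f (iu a b : U F m) = iu a (b + f.toAdd a) := by
  simp [cenHom, mkAut_iu]

theorem cenHom_inj : Function.Injective (cenHom : _ → MulAut (U F m)) := fun f g h =>
  congrArg Prod.fst (aut_bij.1 (a₁ := (f.toAdd, 1, 1)) (a₂ := (g.toAdd, 1, 1)) h)

theorem cen_normal : (cenHom : _ →* MulAut (U F m)).range.Normal := ⟨by
  rintro _ ⟨f, rfl⟩ α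
  obtain ⟨⟨g, k, φ⟩, rfl⟩ := aut_bij.2 α
  refine ⟨Multiplicative.ofAdd (AddMonoidHom.mk' (fun a => (k : F) ^ 2 * th (k : F) * φ (f.toAdd (φ.symm (a / th (k : F)))))
    fun a b => by simp [add_div, mul_add]), ?_⟩
  rw [eq_mul_inv_iff_mul_eq]
  refine aut_ext fun a b => ?_
  simp [mkAut_iu, cenHom_iu, iu_inj]
  ring⟩

theorem main : Cfsg.IsElementaryAbelian 2 (Cfsg.pCore 2 (MulAut (U F m))) ∧
    Nat.card ↥(Cfsg.pCore 2 (MulAut (U F m))) = 2 ^ ((2 * m + 1) ^ 2) ∧
      Nat.card (MulAut (U F m)) = 2 ^ ((2 * m + 1) ^ 2) * ((2 * m + 1) * (2 ^ (2 * m + 1) - 1)) := by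
  classical
  have c1 : Nat.card (MulAut (U F m)) = 2 ^ ((2 * m + 1) ^ 2) * ((2 * m + 1) * (2 ^ (2 * m + 1) - 1)) := by
    rw [← Nat.card_congr (Equiv.ofBijective _ aut_bij), Nat.card_prod, Nat.card_prod, card_addHom hS.hF, card_ringAut,
      Nat.card_eq_fintype_card, Fintype.card_units, hS.hF, mul_comm (2 * m + 1)]
  have c2 : Nat.card (cenHom : _ →* MulAut (U F m)).range = 2 ^ ((2 * m + 1) ^ 2) := by
    rw [← Nat.card_congr (MonoidHom.ofInjective cenHom_inj).toEquiv, ← card_addHom hS.hF]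
    rfl
  have c3 : (cenHom : _ →* MulAut (U F m)).range.index = (2 * m + 1) * (2 ^ (2 * m + 1) - 1) := by
    have := (cenHom : _ →* MulAut (U F m)).range.card_mul_index
    rw [c1, c2] at this
    exact Nat.eq_of_mul_eq_mul_left (by positivity) this
  have e : Cfsg.pCore 2 (MulAut (U F m)) = (cenHom : _ →* MulAut (U F m)).range :=
    H02.pCore_eq_of_normal_sylow ((IsPGroup.of_card c2).toSylow (by
      rw [c3, ← hS.hF]
      exact ((odd_two_mul_add_one m).mul odd_q_sub).not_two_dvd_nat)) (hP := cen_normal)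
  rw [e]
  refine ⟨⟨inferInstance, ?_⟩, c2, c1⟩
  rintro _ ⟨f, rfl⟩
  refine aut_ext fun a b => ?_
  simp [sq, cenHom_iu, add_assoc, CharTwo.add_self_eq_zero]

end

/-- Let S be a Sylow 2-subgroup of the Suzuki group Sz(q), q = 2ⁿ with n = 2m + 1 ≥ 3 (realised as 4 × 4 matrices over the field with q elements). Then the largest normal 2-subgroup of the automorphism group of S is elementary abelian of order 2^(n²), and the automorphism group of S has order 2^(n²) · n · (q − 1). -/
theorem result {S : Type*} [Group S] [Finite S] (m : ℕ) (hm : 1 ≤ m)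
    {F : Type*} [Field F] [Fintype F] (hF : Fintype.card F = 2 ^ (2 * m + 1))
    (P : Sylow 2 ↥(Cfsg.Lie.Sz F (2 ^ (m + 1)))) (hS : Nonempty (S ≃* ↥(P : Subgroup ↥(Cfsg.Lie.Sz F (2 ^ (m + 1)))))) :
    Cfsg.IsElementaryAbelian 2 (Cfsg.pCore 2 (MulAut S)) ∧ Nat.card ↥(Cfsg.pCore 2 (MulAut S)) = 2 ^ ((2 * m + 1) ^ 2) ∧
      Nat.card (MulAut S) = 2 ^ ((2 * m + 1) ^ 2) * ((2 * m + 1) * (2 ^ (2 * m + 1) - 1)) := by
  haveI : SzF F m := ⟨hm, hF⟩
  obtain ⟨e₁⟩ := hS
  let e₀ := lieEquiv (F := F)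
  let e₂ : U F m ≃* S := ((e₀.subgroupMap (U F m)).trans
    (Sylow.equiv ((sylowU F m).mapSurjective (f := e₀.toMonoidHom) e₀.surjective) P)).trans e₁.symm
  let e := MulAut.congr e₂
  obtain ⟨⟨h1, h2⟩, h3, h4⟩ := main (F := F)
  rw [← H02.pCore_map_equiv e, ← Nat.card_congr e.toEquiv, card_map_of_injective e.injective]
  refine ⟨⟨inferInstance, ?_⟩, h3, h4⟩
  rintro _ ⟨a, ha, rfl⟩
  rw [← map_pow, h2 a ha, map_one]

end Cfsg.Agent.S2556
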