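import Mathlib
import Cfsg.Statements.S2560
import Cfsg.Agent.H16.Wal6

set_option autoImplicit false
open Cfsg

namespace Cfsg.Agent.S2560

/-- The number of conjugacy classes of Ω(2n+1,q), q odd, n ≥ 2: for F a finite field of odd order q, the number k of conjugacy classes of the commutator subgroup of the isometry group of the quadratic form x₀² + Σ xᵢyᵢ on F^{2n+1} satisfies q^n/2 ≤ k ≤ 7.3·q^n. -/
theorem result {F : Type*} [Field F] [Fintype F] (hodd : Odd (Fintype.card F)) (n : ℕ) (hn : 2 ≤ n) :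
    Fintype.card F ^ n ≤ 2 * Nat.card (ConjClasses ↥(Cfsg.Omega F (Cfsg.quadFormOdd n F))) ∧
      10 * Nat.card (ConjClasses ↥(Cfsg.Omega F (Cfsg.quadFormOdd n F))) ≤ 73 * Fintype.card F ^ n := by
  haveI := H10.qOdd_nondeg (m := n) (H10.two_ne_zero_of_odd_card hodd)
  have e1 := H16.Wal.card_cc_congr (H10.commutatorEquiv (H10.isometryEquiv (H10.qOdd n F)))
  rw [H10.coe_qOdd] at e1
  rw [e1]
  exact H16.Wal.card_omega_odd hodd (H10.Form.isQuad_ofQuad _) (by omega) (by simp; omega)

end Cfsg.Agent.S2560
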