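import Mathlib
import Cfsg.Statements.S2601
import Cfsg.Agent.H09.AutPSL2

set_option autoImplicit false
open Cfsg

namespace Cfsg.Agent.S2601

/-- Structure of the outer automorphism group of PSL_n(q), n ≥ 3, q = p^f: it has a normal cyclic subgroup of order gcd(n, q − 1) (the diagonal automorphisms) whose quotient is the direct product of a cyclic group of order f (field automorphisms) and a group of order 2 (the inverse-transpose graph automorphism). -/
theorem result {F : Type*} [Field F] [Fintype F] {p f n : ℕ} [Fact p.Prime] (hf : 1 ≤ f) (hF : Fintype.card F = p ^ f) (hn : 3 ≤ n) : ∃ φ : Cfsg.Out (Matrix.ProjectiveSpecialLinearGroup (Fin n) F) →* Multiplicative (ZMod f × ZMod 2), Function.Surjective φ ∧ IsCyclic φ.ker ∧ Nat.card φ.ker = Nat.gcd n (p ^ f - 1) := by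
  have := H09.charP_of_card hF
  have : Nonempty (Fin n) := ⟨⟨0, by omega⟩⟩
  obtain ⟨φ, h1, h2⟩ := H09.exists_psl_aut_hom p (ι := Fin n) (F := F) (by simpa using hn)
  obtain ⟨e⟩ := H09.nonempty_ringAut_equiv hF
  let e' : RingAut F × Multiplicative (ZMod 2) ≃* Multiplicative (ZMod f × ZMod 2) :=
    (e.prodCongr (MulEquiv.refl _)).trans (MulEquiv.prodMultiplicative _ _).symm
  have hk : (e'.toMonoidHom.comp φ).ker = (H09.pslD).range := by
    rw [← h2]; ext x; simp
  have hle := hk ▸ H09.inn_le_range_pslD (ι := Fin n) (F := F)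
  refine ⟨H09.outLift _ hle, H09.outLift_surjective _ _ (e'.surjective.comp h1), ?_, ?_⟩
  · rw [H09.ker_outLift, hk]; exact H09.isCyclic_diag_out
  · have := H09.card_ker_outLift _ hle (H09.center_PSL_eq_bot p)
    rw [hk, H09.card_range_pslD p, H09.card_PGL_eq_card_SL, ← H09.card_PSL_mul, hF,
      Fintype.card_fin] at this
    exact Nat.eq_of_mul_eq_mul_right Nat.card_pos this

end Cfsg.Agent.S2601
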