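import Cfsg.Statements.S2648
import Mathlib
import Cfsg.Agent.H27.DerLen
import Cfsg.Agent.H09.SpOrder
import Cfsg.Agent.H08.Dihedral
-- import your own Cfsg.Agent.* helpers here

set_option autoImplicit false
open Cfsg

namespace Cfsg.Agent.S2648

open scoped Pointwise commutatorElement

open Matrix H09

theorem transfer {F V D l : Type*} [Field F] [AddCommGroup V] [Module F V] [Group D] [Fintype l] [DecidableEq l]
    (e : V ≃ₗ[F] (l ⊕ l → F)) (σ : Representation F D V)
    (h : ∀ g u v, spB l F (e (σ g u)) (e (σ g v)) = spB l F (e u) (e v)) :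
    ∃ f : D →* symplecticGroup l F, ∀ g v, f g • e v = e (σ g v) := by
  refine ⟨MonoidHom.mk' (fun g => spOfLinear (e.toLinearMap ∘ₗ σ g ∘ₗ e.symm.toLinearMap) fun u v => by
    simpa using h g (e.symm u) (e.symm v)) fun a b => sp_ext fun v => by simp [mul_smul], fun g v => by simp⟩

theorem aux (F : Type*) [Field F] [Fintype F] (h2 : (2 : F) ≠ 0) (j : ℕ) :
    ∃ (D : Type) (_ : Group D) (_ : Finite D) (l : Type) (_ : Fintype l) (_ : DecidableEq l)
    (f : D →* symplecticGroup l F), IsPGroup 2 D ∧ Fintype.card l = 2 ^ j ∧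
    ∃ g ∈ derivedSeries D (j + 1), f g ≠ 1 := by
  have hQ : IsPGroup 2 (Multiplicative (ZMod 2)) := IsPGroup.of_card (n := 1) (by simp)
  induction j with
  | zero =>
    haveI : NeZero (ringChar F) := ⟨CharP.char_ne_zero_of_finite F _⟩
    obtain ⟨a, b, hab⟩ := CharP.sq_add_sq F (ringChar F) (-1)
    push_cast at hab
    let i : symplecticGroup Unit F := ⟨J Unit F, SymplecticGroup.J_mem _ _⟩
    let k : symplecticGroup Unit F := ⟨fromBlocks (of fun _ _ => a) (of fun _ _ => b) (of fun _ _ => b) (of fun _ _ => -a), by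
      rw [SymplecticGroup.mem_iff]
      ext (x | x) (y | y) <;> simp [J, Matrix.mul_apply, Matrix.one_apply] <;> grind⟩
    have h1 : i ^ 2 = -1 := Subtype.ext (by
      rw [pow_two]; exact J_squared Unit F)
    have h3 : k * k = -1 := Subtype.ext (by
      change k.1 * k.1 = -1
      ext (x | x) (y | y) <;> simp [k, Matrix.mul_apply, Matrix.one_apply] <;> grind)
    have h4 : i ^ (2 * 2) = 1 := by
      rw [pow_mul, h1]; exact Subtype.ext (by rw [pow_two]; exact neg_mul_neg (1 : Matrix _ _ F) 1 |>.trans (one_mul _))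
    have h5 : k * i * k⁻¹ = i⁻¹ := by
      rw [mul_inv_eq_iff_eq_mul, eq_inv_mul_iff_mul_eq]
      apply Subtype.ext
      change J Unit F * (k.1 * J Unit F) = k.1
      ext (x | x) (y | y) <;> simp [k, J, Matrix.mul_apply, Matrix.one_apply]
    refine ⟨QuaternionGroup 2, inferInstance, inferInstance, Unit, inferInstance, inferInstance,
      H08.quaternionHom h4 (h3.trans h1.symm) h5,
      IsPGroup.of_card (n := 3) (by rw [Nat.card_eq_fintype_card, QuaternionGroup.card]; rfl), rfl,
      QuaternionGroup.a ((2 : ℤ) : ZMod (2 * 2)), ?_, ?_⟩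
    · have : (QuaternionGroup.a ((2 : ℤ) : ZMod (2 * 2)) : QuaternionGroup 2) =
          ⁅(QuaternionGroup.a 1 : QuaternionGroup 2), QuaternionGroup.xa 0⁆ := by decide
      rw [this]
      exact Subgroup.commutator_mem_commutator trivial trivial
    · rw [H08.quaternionHom_a, zpow_ofNat, h1]
      exact fun h => h2 (sp_neg_one_eq_one_iff.1 h)
  | succ j ih =>
    obtain ⟨D, _, _, l, _, _, f, hD, hl, g, hg, hx⟩ := ih
    obtain ⟨w, hw, h1, h3⟩ := H27.wreath_derived (Q := Multiplicative (ZMod 2)) (j + 1) g hg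
    let Q := Multiplicative (ZMod 2)
    let e : (Q → l ⊕ l → F) ≃ₗ[F] ((l × Q) ⊕ (l × Q) → F) :=
      { toFun := fun v => Sum.elim (fun s => v s.2 (Sum.inl s.1)) (fun s => v s.2 (Sum.inr s.1))
        invFun := fun v x => Sum.elim (fun s => v (Sum.inl (s, x))) (fun s => v (Sum.inr (s, x)))
        map_add' := fun u v => by ext (s | s) <;> rfl
        map_smul' := fun c v => by ext (s | s) <;> rfl
        left_inv := fun v => by ext x (s | s) <;> rfl
        right_inv := fun v => by ext (s | s) <;> rfl }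
    have he : ∀ u v, spB _ F (e u) (e v) = ∑ x, spB l F (u x) (v x) := by
      intro u v
      simp only [spB_apply']
      rw [Fintype.sum_prod_type_right]; rfl
    obtain ⟨f', hf'⟩ := transfer e (H27.wreathRep Q (H27.glRep (spToGL.comp f))) (by
      intro a u v
      rw [he, he]
      refine Eq.trans (Finset.sum_congr rfl fun x _ => sp_pres (f (a.left x)) _ _) ?_
      exact Fintype.sum_equiv (Equiv.mulLeft a.right⁻¹) _ _ fun _ => rfl)
    refine ⟨D ≀ᵣ Q, inferInstance, inferInstance, l × Q, inferInstance, inferInstance, f',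
      H27.wreath_isPGroup hD hQ, by simp [Q, hl, pow_succ], w, hw, fun h => hx (sp_ext fun v => ?_)⟩
    have := hf' w fun _ => v
    rw [h, one_smul] at this
    have := congrFun (e.injective this) 1
    rw [H27.wreathRep_apply, h3] at this
    rw [one_smul]; exact this.symm

/-- Let q be odd, F a field with q elements and n ≥ 1. A Sylow 2-subgroup R of the symplectic group Sp_{2n}(F) has derived length exactly k + 1, where 2^k ≤ 2n < 2^{k+1}: the (k+1)-st term of its derived series is trivial and the k-th is not. -/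
theorem result {F : Type*} [Field F] [Fintype F] [DecidableEq F] (q : ℕ) (hF : Fintype.card F = q) (hq : Odd q) (n : ℕ) (hn : 1 ≤ n) (R : Sylow 2 ↥(Matrix.symplecticGroup (Fin n) F)) : derivedSeries ↥(R : Subgroup ↥(Matrix.symplecticGroup (Fin n) F)) (Nat.log 2 (2 * n) + 1) = ⊥ ∧ derivedSeries ↥(R : Subgroup ↥(Matrix.symplecticGroup (Fin n) F)) (Nat.log 2 (2 * n)) ≠ ⊥ := by
  have h2 : (2 : F) ≠ 0 := by
    have := H27.natCast_ne_zero_of_not_dvd_card (F := F) (p := 2) (by rw [hF]; exact hq.not_two_dvd_nat)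
    exact_mod_cast this
  constructor
  · rw [eq_bot_iff]
    intro g hg
    have := H27.derived_triv_coprime (p := 2) (by exact_mod_cast h2) R.isPGroup'
      (H27.glRep (spToGL.comp (R : Subgroup (symplecticGroup (Fin n) F)).subtype))
      (by rw [Module.finrank_fintype_fun_eq_card, Fintype.card_sum, Fintype.card_fin, ← two_mul]
          exact Nat.lt_pow_succ_log_self (by norm_num) _) hg
    exact Subtype.ext (spToGL_injective ((H27.glRep_eq_one _ this).trans (map_one _).symm))
  · obtain ⟨D, _, _, l, _, _, f, hD, hl, g, hg, hx⟩ := aux F h2 (Nat.log 2 n)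
    rw [mul_comm, Nat.log_mul_base (by norm_num) (by omega)]
    have hle : 2 ^ Nat.log 2 n ≤ n := Nat.pow_log_le_self 2 (by omega)
    let m := Fin (n - 2 ^ Nat.log 2 n)
    let e0 : l ⊕ m ≃ Fin n := Fintype.equivFinOfCardEq (by
      rw [Fintype.card_sum, hl, Fintype.card_fin]; omega)
    let e : ((l ⊕ l → F) × (m ⊕ m → F)) ≃ₗ[F] ((l ⊕ m) ⊕ (l ⊕ m) → F) :=
      { toFun := fun v => Sum.elim (Sum.elim (fun s => v.1 (Sum.inl s)) (fun s => v.2 (Sum.inl s)))
          (Sum.elim (fun s => v.1 (Sum.inr s)) (fun s => v.2 (Sum.inr s)))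
        invFun := fun v => (Sum.elim (fun s => v (Sum.inl (Sum.inl s))) (fun s => v (Sum.inr (Sum.inl s))),
          Sum.elim (fun s => v (Sum.inl (Sum.inr s))) (fun s => v (Sum.inr (Sum.inr s))))
        map_add' := fun u v => by ext ((s | s) | (s | s)) <;> rfl
        map_smul' := fun c v => by ext ((s | s) | (s | s)) <;> rfl
        left_inv := fun v => by ext (s | s) <;> rfl
        right_inv := fun v => by ext ((s | s) | (s | s)) <;> rfl }
    have he : ∀ u v, spB _ F (e u) (e v) = spB l F u.1 v.1 + spB m F u.2 v.2 := by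
      intro u v
      simp only [spB_apply']
      rw [Fintype.sum_sum_type]; rfl
    obtain ⟨f', hf'⟩ := transfer e ((H27.glRep (spToGL.comp f)).prod (Representation.trivial F D _)) (by
      intro a u v
      rw [he, he]
      exact congrArg (· + _) (sp_pres (f a) _ _))
    refine H27.sylow_derived_ne_bot hD ((spReindex e0).toMonoidHom.comp f') hg (fun h => hx (sp_ext fun v => ?_)) R
    have h : f' g = 1 := (map_eq_one_iff _ (spReindex e0).injective).1 h
    have := hf' g (v, 0)
    rw [h, one_smul] at this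
    rw [one_smul]; exact (congrArg Prod.fst (e.injective this)).symm

end Cfsg.Agent.S2648
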