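import Cfsg.Statements.S2657
import Cfsg.Agent.H28.Fa1
-- import your own Cfsg.Agent.* helpers here

set_option autoImplicit false
open scoped MatrixGroups
open Cfsg

namespace Cfsg.Agent.S2657
open Module
set_option linter.unusedVariables false
set_option linter.style.haveILetI false

open H11 Cfsg.Lie


/-- Alternating sections of the groups of type F₄. Let `F` be a finite field of characteristic `p` and let `G` be the Chevalley group of type F₄ over `F`. If some subgroup of `G` has a quotient isomorphic to the alternating group of degree `r`, then `r` is at most 10, or 11 in characteristic 11. (Only an upper bound is asserted.) -/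
theorem result {F : Type*} [Field F] [Fintype F] (p : ℕ) [Fact p.Prime] [CharP F p]
    (r : ℕ) (H : Subgroup ↥(Cfsg.Lie.chevF4.group F)) (K : Subgroup ↥H) [K.Normal]
    (h : Nonempty (↥H ⧸ K ≃* ↥(alternatingGroup (Fin r)))) :
    r ≤ 10 + (if p = 11 then 1 else 0) := by
  obtain ⟨e⟩ := h
  have he := e.surjective.comp (QuotientGroup.mk'_surjective K)
  obtain ⟨Ω, _, _, _, _, φ, τ, -, T, hr⟩ := exists_untw (D := chevF4) F p fun _ _ _ => torS_F4 _
  have key : ∀ (m k : ℕ) (y : H), ¬ p ∣ m → orderOf y = m → IsConj y (y ^ k) →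
      ((m : ℤ) ∣ ((k + 1) * (k ^ 3 - 1)) ^ 4 ∨ (m : ℤ) ∣ ((k - 1) * (k ^ 3 + 1)) ^ 4 ∨ (m : ℤ) ∣ (k ^ 4 - 1) ^ 4) ∨
      ((m : ℤ) ∣ k ^ 4 + 1 ∨ (m : ℤ) ∣ k ^ 4 - k ^ 2 + 1) := fun m k y h1 h2 h3 => by
    rw [← Subgroup.orderOf_coe] at h2
    obtain ⟨c, w, h4, h5⟩ := H28.Fa.trans_ord T (fieldHom_injective φ) hr p (y := (y : chevF4.group F)) (k := k)
      (by rwa [h2]) (H.subtype.map_isConj h3)
    rw [← h2, ← h4]
    exact (F4W.cases0 h5).imp_right And.left
  by_contra! h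
  split_ifs at h with hp
  · subst hp
    let j := H24.Alt.embA (Fin.castLEEmb (show 12 ≤ r by omega))
    have hj : Function.Injective j := H24.Alt.embA_injective _
    let c (a b c d : Fin 12) (h : a ≠ b ∧ c ≠ d := by decide) : alternatingGroup (Fin 12) :=
      ⟨Equiv.swap a b * Equiv.swap c d, by simp [Equiv.Perm.mem_alternatingGroup, h.1, h.2]⟩
    have ab : ∀ (l : ℕ) [Fact l.Prime], l ≠ 11 → ¬ l ∣ 1152 → ∀ Q : Subgroup H, IsPGroup l Q → ∀ a ∈ Q, ∀ b ∈ Q, a * b = b * a :=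
      fun l hl h1 h2 => H28.Fa.ab_of l (fun h3 P a ha b hb => by
        obtain ⟨n, -, hn⟩ := FiniteField.card F 11
        obtain ⟨f⟩ := Cfsg.Agent.S2378.result (F := F) rfl (chevF4, [2, 6, 8, 12]) (by simp) l (fun q => h1
          ((Nat.prime_dvd_prime_iff_eq hl.out (by norm_num)).1 (hl.out.dvd_of_dvd_pow (hn ▸ q)))) h2 h3 P
        exact congrArg Subtype.val (f.injective (show f (⟨a, ha⟩ * ⟨b, hb⟩) = f (⟨b, hb⟩ * ⟨a, ha⟩) by
          rw [map_mul, map_mul, mul_comm]))) H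
    have : Fact (Nat.Prime 5) := ⟨by norm_num⟩
    have : Fact (Nat.Prime 7) := ⟨by norm_num⟩
    have h0 : ∀ u v b : alternatingGroup (Fin 12), (u ^ 5 = 1 ∧ u ≠ 1 ∧ v ^ 7 = 1 ∧ v ≠ 1) ∧ u * v = v * u ∧
        b * u * b⁻¹ = u ^ 17 ∧ b * v * b⁻¹ = v ^ 17 → False := fun u v b ⟨⟨a1, a2, a3, a4⟩, a5, a6, a7⟩ => by
      obtain ⟨y, h1, h2⟩ := H28.Fa.two (e.toMonoidHom.comp (QuotientGroup.mk' K)) he (l := 5) (m := 7) (k := 17) (by decide)
        (ab 5 (by decide) (by decide)) (ab 7 (by decide) (by decide)) (u := j u) (v := j v) (b := j b)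
        (by rw [orderOf_injective j hj, orderOf_eq_prime a1 a2]) (by rw [orderOf_injective j hj, orderOf_eq_prime a3 a4])
        (by rw [← map_mul, a5, map_mul]) (by rw [← map_inv, ← map_mul, ← map_mul, a6, map_pow])
        (by rw [← map_inv, ← map_mul, ← map_mul, a7, map_pow])
      exact absurd (key _ _ y (by decide) h1 h2) (by decide +kernel)
    exact h0 (c 0 4 0 3 * c 0 2 0 1) (c 5 11 5 10 * c 5 9 5 8 * c 5 7 5 6) (c 1 3 1 4 * c 1 2 6 10 * c 6 9 6 11 * c 6 7 6 8)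
      (by decide +kernel)
  · let j := H24.Alt.embA (Fin.castLEEmb (show 11 ≤ r by omega))
    have hj : Function.Injective j := H24.Alt.embA_injective _
    let c (a b c d : Fin 11) (h : a ≠ b ∧ c ≠ d := by decide) : alternatingGroup (Fin 11) :=
      ⟨Equiv.swap a b * Equiv.swap c d, by simp [Equiv.Perm.mem_alternatingGroup, h.1, h.2]⟩
    have : Fact (Nat.Prime 11) := ⟨by norm_num⟩
    have h0 : ∀ u b : alternatingGroup (Fin 11), u ^ 11 = 1 ∧ u ≠ 1 ∧ b * u * b⁻¹ = u ^ 3 → False := fun u b ⟨a1, a2, a3⟩ => by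
      obtain ⟨y, h1, h2⟩ := exists_conj_pow (π := e.toMonoidHom.comp (QuotientGroup.mk' K)) he (l := 11) (r := 5) (t := 1) (k := 3)
        (by norm_num) (by decide) (a := j u) (b := j b) (by rw [orderOf_injective j hj, orderOf_eq_prime a1 a2])
        (by rw [← map_inv, ← map_mul, ← map_mul, a3, map_pow]) (by decide)
      exact absurd (key _ _ y (fun q => hp ((Nat.prime_dvd_prime_iff_eq Fact.out (by norm_num)).1 q)) h1 h2) (by decide +kernel)
    exact h0 (c 0 10 0 9 * c 0 8 0 7 * c 0 6 0 5 * c 0 4 0 3 * c 0 2 0 1) (c 1 4 1 5 * c 1 9 1 3 * c 2 8 2 10 * c 2 7 2 6)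
      (by decide +kernel)

end Cfsg.Agent.S2657
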