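import Cfsg.Statements.S2658
import Cfsg.Agent.H11.AltSec
import Cfsg.Agent.S4278
-- import your own Cfsg.Agent.* helpers here

set_option autoImplicit false
open scoped MatrixGroups
open Cfsg

namespace Cfsg.Agent.S2658
open H11 Cfsg.Lie

theorem fin5 : ∀ a : ZMod 5, a = ((2 : ℕ) : ZMod 5) ^ 6 * a → a = 0 := by decide +kernel

theorem fin : ∀ M ∈ G2.gW, M ^ 6 = 1 := by decide +kernel

/-- Alternating sections of the groups of type G₂. Let `F` be a finite field of characteristic `p` and let `G` be the Chevalley group of type G₂ over `F`. If some subgroup of `G` has a quotient isomorphic to the alternating group of degree `r`, then `r` is at most 6, or 7 in characteristic 5. (Only an upper bound is asserted.) -/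
theorem result {F : Type*} [Field F] [Fintype F] (p : ℕ) [Fact p.Prime] [CharP F p]
    (r : ℕ) (H : Subgroup ↥(Cfsg.Lie.chevG2.group F)) (K : Subgroup ↥H) [K.Normal]
    (h : Nonempty (↥H ⧸ K ≃* ↥(alternatingGroup (Fin r)))) :
    r ≤ 6 + (if p = 5 then 1 else 0) := by
  obtain ⟨e⟩ := h
  have he := e.surjective.comp (QuotientGroup.mk'_surjective K)
  obtain ⟨Ω, _, _, _, _, φ, τ, -, T, hr⟩ := exists_untw (D := chevG2) F p fun _ _ _ => torS_G2 _
  by_contra! h
  split_ifs at h with hp
  · subst hp
    have h2 : (2 : Ω) ≠ 0 := Ring.two_ne_zero (by rw [ringChar.eq Ω 5]; decide)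
    refine no_A8 (K := Ω) (ι := Node chevG2) h2 (fun z hz => ?_) h (π := e.toMonoidHom.comp (QuotientGroup.mk' K)) he
    obtain ⟨_, hψ, x, e⟩ := T.exists_inv (fieldHom_injective φ) hr 5 h2 [([1, 2].getD · 0)] (lk 0x1020000 8 255) (by decide +kernel) hz
    obtain rfl := List.mem_singleton.1 hψ
    exact cov_of_frm hMul_grp (grpSys_grp _ _) T.inj h2 (β := fun i => if i.1 = 0 then rt _ 11 else rt _ 7) (s := fun _ => rt _ 9)
      (by decide +kernel) (by rw [G2.det_mk]; decide +kernel) (sub_inv _ (grpSys_grp _ _) h2 S4278.d1) (fieldHom_injective φ)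
      (fun g hg => fieldHom_injective φ (by simpa [chev_center] using hg)) e
  · obtain ⟨⟨y, h1, h2⟩, -⟩ := of_A7 h (π := e.toMonoidHom.comp (QuotientGroup.mk' K)) he
    have : Fact (Nat.Prime 5) := ⟨by norm_num⟩
    obtain ⟨v, h3, -, w, h5⟩ := T.exists_vec (fieldHom_injective φ) hr p hp h1 h2
    have h6 (n) : Matrix.vecMul v ((corM w.1 ^ n).map (↑)) = ((2 : ℕ) : ZMod 5) ^ n • v := by
      induction n with
      | zero => simp
      | succ n ih => rw [pow_succ, Matrix.map_mul_intCast, ← Matrix.vecMul_vecMul, ih, Matrix.smul_vecMul, h5, smul_smul, pow_succ]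
    have h7 := h6 6
    rw [fin _ (G2.mem_gW w)] at h7
    exact h3 (funext fun i => fin5 _ (by simpa using congrFun h7 i))

end Cfsg.Agent.S2658
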