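import Mathlib
import Cfsg.Statements.S2686
import Cfsg.Agent.H09.Balance3

set_option autoImplicit false
open Cfsg

namespace Cfsg.Agent.S2686

open H09 H10 in

/-- A criterion for the failure of local balance in almost simple groups with linear socle. Let F be a finite field of characteristic r and K = PSL_n(F) (n ≥ 2) simple. Let A be a group of automorphisms of K containing all inner automorphisms (an almost simple group with socle K), and β ∈ A an automorphism of prime order p ≠ r that is not inner-diagonal (not induced by conjugation by an invertible matrix). Then the largest normal subgroup of C_A(β) of order prime to p is nontrivial if and only if β is the composite of an inner-diagonal automorphism with the automorphism induced by a field automorphism applied entrywise (β is of field type) and p does not divide the number of fixed points of β on K. -/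
theorem result
    (F : Type*) [Field F] [Fintype F] (r : ℕ) [Fact r.Prime] [CharP F r] (n : ℕ) (hn : 2 ≤ n)
    (hK : IsSimpleGroup (Matrix.ProjectiveSpecialLinearGroup (Fin n) F))
    (𝒢 : Subgroup (MulAut (Matrix.ProjectiveSpecialLinearGroup (Fin n) F))) (hinn : ∀ k : Matrix.ProjectiveSpecialLinearGroup (Fin n) F, MulAut.conj k ∈ 𝒢)
    (p : ℕ) [Fact p.Prime] (hpr : p ≠ r) (β : MulAut (Matrix.ProjectiveSpecialLinearGroup (Fin n) F)) (hβ : β ∈ 𝒢) (hord : orderOf β = p)
    (hnot : ¬ Cfsg.IsInnerDiagonalAutPSL β) :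
    Cfsg.pPrimeCore p ↥(𝒢 ⊓ Subgroup.centralizer {β}) ≠ ⊥ ↔
      ((∃ γ φ : MulAut (Matrix.ProjectiveSpecialLinearGroup (Fin n) F), Cfsg.IsInnerDiagonalAutPSL γ ∧ Cfsg.IsFieldAutPSL φ ∧ β = φ.trans γ) ∧
        Nat.Coprime p (Nat.card ↥(MonoidHom.eqLocus β.toMonoidHom (MonoidHom.id (Matrix.ProjectiveSpecialLinearGroup (Fin n) F))))) := by
  have h2 : 2 ≤ Fintype.card (Fin n) := by simpa using hn
  rcases gP_or_corr h2 β with ⟨γ, rfl⟩ | ⟨h3, σ, M, rfl⟩
  · have h1 : Gam.fld γ ≠ 1 := fun h => hnot (isInnerDiagonalAutPSL_iff.2 ⟨Gam.mat γ, by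
      rw [gP_apply, h, map_one, mul_one]⟩)
    exact (bal_gP hpr h2 h1 (hord ▸ pow_orderOf_eq_one _)).iff (center_PSL_eq_bot r) hinn
      ⟨_, _, isInnerDiagonalAutPSL_iff.2 ⟨Gam.mat γ, rfl⟩, ⟨Gam.fld γ, fun s s' e => by
        rw [pslF_mk, show slField (Gam.fld γ) s = s' from Subtype.ext e.symm]⟩, rfl⟩
  · refine iff_of_false (not_not.2 (pPrimeCore_eq_bot_of (bcore_corr hpr h3 hord hinn))) ?_
    rintro ⟨⟨γ, φ, h4, ⟨τ, h5⟩, h6⟩, -⟩
    obtain ⟨g, rfl⟩ := isInnerDiagonalAutPSL_iff.1 h4
    obtain rfl := eq_pslF h5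
    exact corr_ne_gP h3 σ M (glGam g τ) (h6.trans (gP_glGam g τ).symm)

end Cfsg.Agent.S2686
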