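import Mathlib
import Cfsg.Statements.S2730
import Cfsg.Agent.H09.Balance2

set_option autoImplicit false
open Cfsg

namespace Cfsg.Agent.S2730

open H09 H10 in

/-- A criterion for the failure of local balance in almost simple groups whose socle is a projective symplectic group PSp_{2m}(F) (m ≥ 2, (2m, |F|) ≠ (4, 2)). Let F be a finite field of characteristic r and K the (simple) group in question; let A be a group of automorphisms of K containing all inner automorphisms, and x ∈ A an automorphism of prime order p ≠ r that is not inner-diagonal (not induced by a conformal symplectic matrix). Then the largest normal subgroup of C_A(x) of order prime to p is nontrivial if and only if x is a field automorphism of K (conjugate under Aut(K) to a non-identity standard field automorphism) and p does not divide the number of fixed points of x on K. -/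
theorem result {F : Type*} [Field F] [Fintype F] {r : ℕ} [Fact r.Prime] [CharP F r] {m : ℕ} (hm : 2 ≤ m) (hs : m = 2 → 3 ≤ Fintype.card F) (hK : IsSimpleGroup (Cfsg.PSp m F)) (A : Subgroup (MulAut (Cfsg.PSp m F))) (hinn : ∀ k : Cfsg.PSp m F, MulAut.conj k ∈ A) {p : ℕ} [Fact p.Prime] (hpr : p ≠ r) (x : MulAut (Cfsg.PSp m F)) (hxA : x ∈ A) (hord : orderOf x = p) (hnot : ¬ Cfsg.IsInnerDiagonalAutPSp x) :
    Cfsg.pPrimeCore p ↥(A ⊓ Subgroup.centralizer {x}) ≠ ⊥ ↔ (Cfsg.IsFieldAutClassPSp x ∧ Nat.Coprime p (Nat.card ↥(MonoidHom.eqLocus x.toMonoidHom (MonoidHom.id (Cfsg.PSp m F))))) := by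
  have : NeZero m := ⟨by omega⟩
  have h0 : x ^ p = 1 := hord ▸ pow_orderOf_eq_one x
  obtain ⟨γ, rfl⟩ : x ∈ (spAut F m).range := by
    by_cases h2 : m = 2 → (2 : F) ≠ 0
    · exact spAut_surjective m hm h2 x
    push Not at h2
    obtain ⟨rfl, h2⟩ := h2
    have : CharP F 2 := (CharP.charP_iff_prime_eq_zero Nat.prime_two).2 (by exact_mod_cast h2)
    refine mem_of_sq_mem (Subgroup.mul_self_mem_of_index_two Sp4.index_range_spAut x) ?_
    exact hord ▸ (Fact.out : p.Prime).odd_of_ne_two (CharP.eq F ‹CharP F r› this ▸ hpr)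
  have h1 : Gam.fld γ ≠ 1 := fun h => hnot (isInnerDiagonalAutPSp_iff.2 ⟨γ, h, rfl⟩)
  have h3 : 3 ≤ Module.finrank F (Fin m ⊕ Fin m → F) := by simp; omega
  refine ((spRep F (Fin m)).bal_alt hpr isAltF_spForm h3 (m := m) (by simp [two_mul]) h1 h0).iff
    ((spRep F (Fin m)).center_quot_eq_bot isAltF_spForm.tComp h3) hinn ?_
  obtain ⟨α, -, hα⟩ := spAut_conj hm h1 (γ' := Gam.fieldHom spStd (Gam.fld γ)) rfl Fact.out h0 (by
    rw [← map_pow, ← map_pow, orderOf_dvd_iff_pow_eq_one.1
      (Gam.exists_norm _ (ker_spAut hm) h1 Fact.out h0).1.dvd, map_one, map_one])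
  exact ⟨α, _, h1, fun s s' e => hα ▸ (spRep _ _).paut_of_mat _ spRho_apply _
    (by simpa [Gam.mat_fieldHom, Gam.fld_fieldHom] using e)⟩

end Cfsg.Agent.S2730
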