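import Mathlib
import Cfsg.Statements.S2731
import Cfsg.Agent.H09.Balance2

set_option autoImplicit false
open Cfsg

namespace Cfsg.Agent.S2731


open H09 H10 in

/-- A criterion for the failure of local balance in almost simple groups whose socle is an odd-dimensional orthogonal group Ω_{2m+1}(F) (m ≥ 3, |F| odd; the form x₀² + Σ xᵢ yᵢ). Let F be a finite field of characteristic r and K the (simple) group in question; let A be a group of automorphisms of K containing all inner automorphisms, and x ∈ A an automorphism of prime order p ≠ r that is not inner-diagonal (not induced by a similarity of the form). Then the largest normal subgroup of C_A(x) of order prime to p is nontrivial if and only if x is a field automorphism of K (conjugate under Aut(K) to a non-identity standard field automorphism) and p does not divide the number of fixed points of x on K. -/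
theorem result {F : Type*} [Field F] [Fintype F] {r : ℕ} [Fact r.Prime] [CharP F r] (hodd : Odd (Fintype.card F)) {m : ℕ} (hm : 3 ≤ m) (hK : IsSimpleGroup (Cfsg.POmega F (Cfsg.quadFormOdd m F))) (A : Subgroup (MulAut (Cfsg.POmega F (Cfsg.quadFormOdd m F)))) (hinn : ∀ k : Cfsg.POmega F (Cfsg.quadFormOdd m F), MulAut.conj k ∈ A) {p : ℕ} [Fact p.Prime] (hpr : p ≠ r) (x : MulAut (Cfsg.POmega F (Cfsg.quadFormOdd m F))) (hxA : x ∈ A) (hord : orderOf x = p) (hnot : ¬ Cfsg.IsInnerDiagonalAutPOmegaOdd m x) :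
    Cfsg.pPrimeCore p ↥(A ⊓ Subgroup.centralizer {x}) ≠ ⊥ ↔ (Cfsg.IsFieldAutClassPOmega (Cfsg.quadFormOdd m F) x ∧ Nat.Coprime p (Nat.card ↥(MonoidHom.eqLocus x.toMonoidHom (MonoidHom.id (Cfsg.POmega F (Cfsg.quadFormOdd m F)))))) := by
  have := qOdd_nondeg (m := m) (F := F) (odd_card_iff.1 (by rwa [Nat.card_eq_fintype_card]))
  have h5 : 5 ≤ Fintype.card (Unit ⊕ Fin m ⊕ Fin m) := by simp; omega
  have h0 : x ^ p = 1 := hord ▸ pow_orderOf_eq_one x
  have hs := omAut_surjective (qOdd m F) h5 (by simp; omega) (by simp; omega)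
  obtain ⟨γ, rfl⟩ := hs x
  have h1 : Gam.fld γ ≠ 1 := fun h => hnot <|
    let ⟨g, h1, _, h2⟩ := (sim_induced_iff h5 fun _ => True).2 ⟨γ, ⟨h, trivial⟩, rfl⟩
    ⟨g, h1, h2⟩
  have hQ := Form.isQuad_ofQuad (qOdd m F)
  refine (om_bal hpr _ h5 hs h1 h0).iff (om_center (qOdd m F) h5) hinn ?_
  obtain ⟨α, -, hα⟩ := om_conj hQ h5 _ (ker_omAut h5) h1 (γ' := Gam.fieldHom qOdd_std (Gam.fld γ))
    rfl (by rw [fam_of_odd, fam_of_odd] <;> exact ⟨m, by simp; ring⟩) Fact.out h0
    (omAut_pow_eq_one _ h5 h1 h0 rfl (Gam.mat_fieldHom _ _))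
  have h2 := isFieldAut_omAut (qOdd m F) h5 (Gam.mat_fieldHom qOdd_std (Gam.fld γ))
  exact ⟨α, _, Gam.fld γ, h1, h2, hα.symm⟩

end Cfsg.Agent.S2731
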