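import Mathlib
import Cfsg.Statements.S2733
import Cfsg.Agent.H09.Balance5

set_option autoImplicit false
open Cfsg

namespace Cfsg.Agent.S2733

open H09 H10 in

/-- A criterion for the failure of local balance in almost simple groups whose socle is a minus-type orthogonal group PΩ⁻_{2m+2}(F) (m ≥ 3; the form Σ xᵢ yᵢ + z₁² + a z₁ z₂ + b z₂² with anisotropic binary part). Let F be a finite field of characteristic r and K the (simple) group in question; let A be a group of automorphisms of K containing all inner automorphisms, and x ∈ A an automorphism of prime order p ≠ r that is not inner-diagonal (not induced by a class-preserving similarity, classes read over a quadratic extension). Then the largest normal subgroup of C_A(x) of order prime to p is nontrivial if and only if x is a field automorphism of K (conjugate under Aut(K) to a non-identity standard field automorphism) and p does not divide the number of fixed points of x on K. -/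
theorem result {F : Type*} [Field F] [Fintype F] {r : ℕ} [Fact r.Prime] [CharP F r] {m : ℕ} (hm : 3 ≤ m) (a b : F) (hab : (∀ z₁ z₂ : F, z₁ ^ 2 + a * z₁ * z₂ + b * z₂ ^ 2 = 0 → z₁ = 0 ∧ z₂ = 0)) (hK : IsSimpleGroup (Cfsg.POmega F (Cfsg.quadFormMinus m F a b))) (A : Subgroup (MulAut (Cfsg.POmega F (Cfsg.quadFormMinus m F a b)))) (hinn : ∀ k : Cfsg.POmega F (Cfsg.quadFormMinus m F a b), MulAut.conj k ∈ A) {p : ℕ} [Fact p.Prime] (hpr : p ≠ r) (x : MulAut (Cfsg.POmega F (Cfsg.quadFormMinus m F a b))) (hxA : x ∈ A) (hord : orderOf x = p) (hnot : ¬ Cfsg.IsInnerDiagonalAutPOmegaMinus m a b x) :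
    Cfsg.pPrimeCore p ↥(A ⊓ Subgroup.centralizer {x}) ≠ ⊥ ↔ (Cfsg.IsFieldAutClassPOmegaMinus m x ∧ Nat.Coprime p (Nat.card ↥(MonoidHom.eqLocus x.toMonoidHom (MonoidHom.id (Cfsg.POmega F (Cfsg.quadFormMinus m F a b)))))) := by
  have := qMinus_nondeg (m := m) (disc_ne_zero_of_aniso hab)
  have h5 : 5 ≤ Fintype.card ((Fin m ⊕ Fin m) ⊕ Fin 2) := by simp; omega
  have h0 : x ^ p = 1 := hord ▸ pow_orderOf_eq_one x
  have hn := qMinus_not_hasTS (m := m) (disc_ne_zero_of_aniso hab) hab
  have hs := omAut_surjective (qMinus m F a b) h5 (by simp; omega) fun h8 => by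
    obtain rfl : m = 3 := by simp at h8; omega
    exact hn
  obtain ⟨γ, rfl⟩ := hs x
  by_cases h1 : Gam.fld γ = 1
  · obtain ⟨rfl, h2⟩ := (omRep _ h5).bcore_graph (Form.isQuad_ofQuad _) h5 (m := m + 1)
      (by simp; ring) hn hs hinn h1 (fun h => hnot ((sim_induced_iff h5 _).2
        ⟨γ, ⟨h1, (preservesMinus_iff hab h5 h1).2 h⟩, rfl⟩)) hpr Fact.out hord
    exact iff_of_false (not_not.2 (pPrimeCore_eq_bot_of h2)) fun h =>
      absurd (fieldClass_minus hab h5 hm h.1 Fact.out hord).1 (by decide)
  exact (om_bal hpr _ h5 hs h1 h0).iff (om_center (qMinus m F a b) h5) hinn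
    (isFieldAutClass_minus hab h5 h1 Fact.out h0)

end Cfsg.Agent.S2733
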