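import Mathlib
import Cfsg.Statements.S2896
import Cfsg.Agent.H26.Parab

set_option autoImplicit false
open Cfsg

namespace Cfsg.Agent.S2896
open H26

/-- Let p be a prime dividing the order of the finite group G, S a Sylow p-subgroup of G and X a subgroup of S. (i) If some nontrivial element z of the centre of X has F*(C_G(z)) = O_p(C_G(z)), then F*(N_G(X)) = O_p(N_G(X)). (ii) G has parabolic characteristic p if and only if F*(C_G(z)) = O_p(C_G(z)) for every nontrivial z ∈ Ω₁(Z(S)). (iii) If F*(C_G(z)) = O_p(C_G(z)) for every element z of S of order p, then G has local characteristic p. -/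
theorem result {G : Type*} [Group G] [Finite G] {p : ℕ} [Fact p.Prime] (hdiv : p ∣ Nat.card G) (S : Sylow p G) (X : Subgroup G) (hX : X ≤ (S : Subgroup G)) : (∀ z : G, z ≠ 1 → z ∈ X → (∀ x ∈ X, x * z = z * x) → Cfsg.generalizedFittingSubgroup ↥(Subgroup.centralizer ({z} : Set G)) = Cfsg.pCore p ↥(Subgroup.centralizer ({z} : Set G)) → Cfsg.generalizedFittingSubgroup ↥(Subgroup.normalizer (X : Set G)) = Cfsg.pCore p ↥(Subgroup.normalizer (X : Set G))) ∧ (Cfsg.IsOfParabolicCharacteristic p G ↔ ∀ z : G, z ≠ 1 → z ∈ Cfsg.omegaOne p ((S : Subgroup G) ⊓ Subgroup.centralizer ((S : Subgroup G) : Set G)) → Cfsg.generalizedFittingSubgroup ↥(Subgroup.centralizer ({z} : Set G)) = Cfsg.pCore p ↥(Subgroup.centralizer ({z} : Set G))) ∧ ((∀ z : G, z ∈ (S : Subgroup G) → orderOf z = p → Cfsg.generalizedFittingSubgroup ↥(Subgroup.centralizer ({z} : Set G)) = Cfsg.pCore p ↥(Subgroup.centralizer ({z} : Set G))) → Cfsg.IsOfLocalCharacteristic p G) := by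
  have hS := isSyl_top S
  simp only [fstar_iff, parC_top_iff, locC_top_iff]
  refine ⟨fun z _ a b c => ?_, ⟨fun h z a b => ?_, fun h => parC_of_centralizer hS fun z a b c => ?_⟩,
    fun h => ⟨hdiv, locC_of_centralizer hS fun z a b => ?_⟩⟩
  · simpa only [top_inf_eq] using isCharP_normalizer_of_mem_center (H := ⊤) (hS.pg.to_le hX) le_top a b
      (by rwa [top_inf_eq])
  · simpa only [top_inf_eq] using h.centralizer hS (mem_omegaZ.mp b).1 (mem_omegaZ.mp b).2.1 a
  · rw [top_inf_eq]
    exact h z (fun d => (Fact.out : p.Prime).ne_one (by rw [← c, d, orderOf_one]))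
      (mem_omegaZ.mpr ⟨a, b, c ▸ pow_orderOf_eq_one z⟩)
  · rw [top_inf_eq]; exact h z a b

end Cfsg.Agent.S2896
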