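import Mathlib
import Cfsg.Statements.S2897
import Cfsg.Agent.H26.Parab

set_option autoImplicit false
open Cfsg

namespace Cfsg.Agent.S2897
open H26

/-- Let p be a prime dividing the order of the finite group G, suppose G has parabolic characteristic p, let S be a Sylow p-subgroup of G and G₁ a normal subgroup of G. If Ω₁(Z(S ∩ G₁)) is nontrivial and contained in Ω₁(Z(S)), then G₁ has parabolic characteristic p. -/
theorem result {G : Type*} [Group G] [Finite G] {p : ℕ} [Fact p.Prime] (hdiv : p ∣ Nat.card G) (hG : Cfsg.IsOfParabolicCharacteristic p G) (S : Sylow p G) (G₁ : Subgroup G) [G₁.Normal] (hne : Cfsg.omegaOne p (((S : Subgroup G) ⊓ G₁) ⊓ Subgroup.centralizer (((S : Subgroup G) ⊓ G₁ : Subgroup G) : Set G)) ≠ ⊥) (hle : Cfsg.omegaOne p (((S : Subgroup G) ⊓ G₁) ⊓ Subgroup.centralizer (((S : Subgroup G) ⊓ G₁ : Subgroup G) : Set G)) ≤ Cfsg.omegaOne p ((S : Subgroup G) ⊓ Subgroup.centralizer ((S : Subgroup G) : Set G))) : Cfsg.IsOfParabolicCharacteristic p ↥G₁ :=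 by
  have hS := isSyl_top S
  have h1 : SubN ⊤ G₁ := .of_normal le_top Subgroup.le_normalizer_of_normal
  rw [parC_top_iff] at hG
  refine parC_iff.mpr (parC_of_centralizer (h1.isSyl_inf hS) fun z a b c => ?_)
  exact (h1.inf _).isCharP (hG.centralizer hS a.1 (mem_omegaZ.mp (hle (mem_omegaZ.mpr
    ⟨a, b, c ▸ pow_orderOf_eq_one z⟩))).2.1
    fun d => (Fact.out : p.Prime).ne_one (by rw [← c, d, orderOf_one]))

end Cfsg.Agent.S2897
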