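import Mathlib
import Cfsg.Statements.S2898
import Cfsg.Agent.H26.Parab
import Cfsg.Agent.H02.PPrimeCore

set_option autoImplicit false
open Cfsg

namespace Cfsg.Agent.S2898
open H26

/-- Let G be a finite group of even order with parabolic characteristic 2. If the centre of G ⧸ O(G) is trivial, then O(G) = 1. -/
theorem result {G : Type*} [Group G] [Finite G] (h2 : 2 ∣ Nat.card G) (hG : Cfsg.IsOfParabolicCharacteristic 2 G) [hN : (Cfsg.oddCore G).Normal] (hZ : Subgroup.center (G ⧸ Cfsg.oddCore G) = ⊥) : Cfsg.oddCore G = ⊥ := by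
  rw [parC_top_iff] at hG
  obtain ⟨S, hS⟩ := exists_isSyl 2 (⊤ : Subgroup G)
  have h1 : ¬ 2 ∣ Nat.card (oddCore G) :=
    (Nat.Prime.coprime_iff_not_dvd Nat.prime_two).mp (H02.pPrimeCore_coprime 2 G).symm
  have h3 : ∀ z ∈ S, z ∈ Subgroup.centralizer (S : Set G) → z ≠ 1 →
      oddCore G ⊓ Subgroup.centralizer {z} = ⊥ := fun z a b c => by
    have := ((SubN.of_normal (H := oddCore G) le_top Subgroup.le_normalizer_of_normal).inf _).isCharP
      (hG.centralizer hS a b c)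
    by_contra d
    exact this.pCoreOf_ne_bot d (eq_bot_of_isPGroup_of_not_dvd (isPGroup_pCoreOf _)
      ((pCoreOf_le _).trans inf_le_left) h1)
  by_cases h4 : 2 ∣ Nat.card (Subgroup.centralizer (oddCore G : Set G))
  · have h5 := hS.inf_of_le (N := Subgroup.centralizer (oddCore G : Set G)) le_top Subgroup.le_normalizer_of_normal
    obtain ⟨⟨z, hz⟩, h6⟩ := Subgroup.ne_bot_iff_exists_ne_one.mp (inf_centralizer_ne_bot hS.pg h5.pg (h5.ne_bot h4)
      (le_normalizer_inf Subgroup.le_normalizer Subgroup.le_normalizer_of_normal))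
    rw [← h3 z hz.1.1 hz.2 fun a => h6 (Subtype.ext a), left_eq_inf]
    exact mem_centralizer_iff_le.mp hz.1.2
  obtain ⟨z, hz, oz⟩ := exists_mem_orderOf_eq_of_ne_bot hS.pg.to_inf_left
    (center_ne_bot hS.pg (hS.ne_bot (by rwa [Subgroup.card_top])))
  have h5 : z * z = 1 := by rw [← sq, ← oz, pow_orderOf_eq_one]
  have h6 : ∀ k ∈ oddCore G, z * k * z⁻¹ = k⁻¹ := fun k hk => conj_eq_inv_of_fpf h5
    (Subgroup.le_normalizer_of_normal (Subgroup.mem_top z))
    (h3 z hz.1 hz.2 fun a => by simp [a] at oz) hk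
  refine absurd (dvd_card_of_orderOf ?_ oz) h1
  rw [← QuotientGroup.eq_one_iff, ← Subgroup.mem_bot, ← hZ, Subgroup.mem_center_iff]
  intro g
  obtain ⟨g, rfl⟩ := QuotientGroup.mk_surjective g
  rw [← QuotientGroup.mk_mul, ← QuotientGroup.mk_mul, QuotientGroup.eq]
  refine H02.le_pPrimeCore ((Nat.Prime.coprime_iff_not_dvd Nat.prime_two).mpr h4).symm fun k hk => ?_
  have a := h6 _ (hN.conj_mem k hk g)
  have b := h6 k hk
  calc _ = z⁻¹ * g⁻¹ * (g * (z * k * z⁻¹) * g⁻¹) * z * g * ((z * g)⁻¹ * (g * z) * (g * z)⁻¹ * (z * g)) := by group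
    _ = z⁻¹ * g⁻¹ * (z * (g * k * g⁻¹) * z⁻¹) * z * g * ((z * g)⁻¹ * (g * z) * (g * z)⁻¹ * (z * g)) := by
      rw [a, b]; group
    _ = _ := by group

end Cfsg.Agent.S2898
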