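import Mathlib
import Cfsg.Statements.S2905
import Cfsg.Agent.H26.PMin
import Cfsg.Agent.H02.Basic

set_option autoImplicit false
open Cfsg

namespace Cfsg.Agent.S2905
open H26

/-- Let P be a finite p-minimal group (a Sylow p-subgroup S is not normal and lies in a unique maximal subgroup M of P) and let F be the normal core of M. Then: every subnormal subgroup N of P contained in M satisfies N ∩ S ≤ O_p(P); if O^p(P) has a normal Sylow p-subgroup then the order of P has at most two prime divisors; every normal subgroup N of P either contains O^p(P) or is contained in F; and O^p(P)F ⧸ F is a minimal normal subgroup of P ⧸ F. -/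
theorem result {P : Type*} [Group P] [Finite P] {p : ℕ} [Fact p.Prime] (hP : Cfsg.IsPMinimal p P) (S : Sylow p P) (M : Subgroup P) (hM : IsCoatom M) (hSM : (S : Subgroup P) ≤ M) [hF : M.normalCore.Normal] : (∀ N : Subgroup P, N.IsSubnormal → N ≤ M → N ⊓ (S : Subgroup P) ≤ Cfsg.pCore p P) ∧ ((∀ T : Sylow p ↥(Cfsg.pResidual p P), (T : Subgroup ↥(Cfsg.pResidual p P)).Normal) → (Nat.card P).primeFactors.card ≤ 2) ∧ (∀ N : Subgroup P, N.Normal → Cfsg.pResidual p P ≤ N ∨ N ≤ M.normalCore) ∧ (∀ N : Subgroup P, N.Normal → M.normalCore ≤ N → N ≤ Cfsg.pResidual p P ⊔ M.normalCore → N = M.normalCore ∨ N = Cfsg.pResidual p P ⊔ M.normalCore) ∧ M.normalCore < Cfsg.pResidual p P ⊔ M.normalCore := by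
  have h := pMin_top_of hP S hM hSM
  have := pResidual_normal (p := p) (G := P)
  have h1 : ∀ N : Subgroup P, N.Normal → Cfsg.pResidual p P ≤ N ∨ N ≤ M.normalCore := fun N hN => by
    rw [← pResidualOf_top, Subgroup.normal_le_normalCore]
    exact h.res_le_or le_top Subgroup.le_normalizer_of_normal
  refine ⟨fun N a b => ?_, fun a => ?_, h1, fun N a b c => ?_, ?_⟩
  · rw [inf_comm, ← pCoreOf_top]
    exact h.inf_le_pCoreOf (subN_top_iff.mpr a) b
  · obtain ⟨q, hq, Q, b, c, d⟩ := h.exists_q (pResidualOf_top (p := p) (G := P) ▸ isPClosed_iff.mp a)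
    have := Fact.mk hq
    have e := h.syl.sup_pResidualOf
    have h2 : (S : Subgroup P) ⊔ pCoreOf p (pResidualOf p ⊤) = S :=
      sup_eq_left.mpr ((pCoreOf_le_of_normal le_top (le_normalizer_pResidualOf _)).trans h.syl.pCoreOf_le)
    have h3 := H02.card_sup_mul_card_inf c
    have h4 := H02.card_sup_mul_card_inf (b.le.trans (le_normalizer_pCoreOf (p := p) _))
    rw [d, e, Subgroup.card_top] at h3
    rw [sup_comm, d] at h4
    refine (Finset.card_le_card (t := {p, q}) fun r hr => ?_).trans Finset.card_le_two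
    have hr' := Nat.prime_of_mem_primeFactors hr
    obtain ⟨i, hi⟩ := h.syl.pg.exists_card_eq
    obtain ⟨j, hj⟩ := b.pg.exists_card_eq
    obtain ⟨k, hk⟩ := (isPGroup_pCoreOf (p := p) (pResidualOf p (⊤ : Subgroup P))).exists_card_eq
    rw [Finset.mem_insert, Finset.mem_singleton, ← Nat.prime_dvd_prime_iff_eq hr' Fact.out,
      ← Nat.prime_dvd_prime_iff_eq hr' hq]
    rcases hr'.dvd_mul.mp (h3 ▸ (Nat.dvd_of_mem_primeFactors hr).mul_right _) with f | f
    · exact Or.inl (hr'.dvd_of_dvd_pow (hi ▸ f))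
    rcases hr'.dvd_mul.mp (h4 ▸ f.mul_right _) with f | f
    · exact Or.inr (hr'.dvd_of_dvd_pow (hj ▸ f))
    · exact Or.inl (hr'.dvd_of_dvd_pow (hk ▸ f))
  · exact (h1 N a).symm.imp (fun d => le_antisymm d b) fun d => le_antisymm c (sup_le d b)
  · refine lt_of_le_not_ge le_sup_right fun a => h.not_res_le ?_
    rw [pResidualOf_top]
    exact (le_sup_left.trans a).trans M.normalCore_le

end Cfsg.Agent.S2905
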