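import Mathlib
import Cfsg.Statements.S2906
import Cfsg.Agent.H26.PMin
import Cfsg.Agent.H22.FStar

set_option autoImplicit false
open Cfsg

namespace Cfsg.Agent.S2906
open H26

/-- Let P be a finite p-minimal group with O_p(P) = 1, S a Sylow p-subgroup of P and K a component of P. Then O^p(P) = F*(P) = E(P) is generated by the S-conjugates of K, and the subgroup K·N_S(K) is again p-minimal. -/
theorem result {P : Type*} [Group P] [Finite P] {p : ℕ} [Fact p.Prime] (hP : Cfsg.IsPMinimal p P) (hOp : Cfsg.pCore p P = ⊥) (S : Sylow p P) (K : Subgroup P) (hK : Cfsg.IsComponent K) : Cfsg.pResidual p P = Cfsg.generalizedFittingSubgroup P ∧ Cfsg.generalizedFittingSubgroup P = Cfsg.layer P ∧ Cfsg.layer P = ⨆ s : ↥(S : Subgroup P), K.map (MulAut.conj (s : P)).toMonoidHom ∧ Cfsg.IsPMinimal p ↥(K ⊔ ((S : Subgroup P) ⊓ Subgroup.normalizer (K : Set P))) := by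
  obtain ⟨M, h⟩ := exists_pMin_top hP S
  have hp : p.Prime := Fact.out
  have h0 : ∀ N : Subgroup P, N.Normal → K ≤ N → pResidualOf p ⊤ ≤ N := fun N _ a =>
    (h.res_le_or le_top Subgroup.le_normalizer_of_normal).resolve_right fun b => by
      have := h.isNilpotent b Subgroup.le_normalizer_of_normal (le_bot_iff.mp (hOp ▸ pCoreOf_le_pCore N))
      exact H22.comp_not_le_of_solvable hK a
  have h1 : layer P = pResidualOf p ⊤ := le_antisymm ((pResidualOf_eq_of_perfect H22.layer_perfect).ge.trans
    (pResidualOf_mono le_top)) (h0 _ H22.layer_normal (H22.le_layer hK))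
  have h2 : generalizedFittingSubgroup P = layer P := by
    refine sup_eq_left.mpr (h1 ▸ le_trans (pResidualOf_eq_self_of_not_dvd fun a => ?_).ge (pResidualOf_mono le_top))
    obtain ⟨T, hT⟩ := exists_isSyl p (fittingSubgroup P)
    exact hT.ne_bot a (le_bot_iff.mp (hOp ▸ H02.le_pCore_of_subnormal (H02.isSubnormal_of_le_fitting hT.le) hT.pg))
  have h3 : layer P = ncl K S := by
    have a : ncl K S ≤ layer P := ncl_le_iff.mpr fun g _ => H22.le_layer (H22.comp_conj hK g)
    refine le_antisymm (h1 ▸ h0 _ (normal_of_top_le (h.syl.sup_pResidualOf.ge.trans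
      (sup_le (le_normalizer_ncl _ _) (h1 ▸ H22.le_normalizer_iSup fun g => ?_)))) (le_ncl _ _)) a
    exact H22.layer_le_normalizer (H22.comp_conj hK g)
  refine ⟨by rw [h2, h1, pResidualOf_top], h2, h3, ?_⟩
  set S₀ := (S : Subgroup P) ⊓ Subgroup.normalizer (K : Set P)
  have h4 := (subN_top_iff.mpr hK.1).isSyl_inf h.syl
  have h5 : IsSyl p S₀ (K ⊔ S₀) := by
    rw [sup_comm]
    exact isSyl_of_sup_eq inf_le_right h4 (inf_le_inf_left _ Subgroup.le_normalizer)
      (isSyl_self h.syl.pg.to_inf_left)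
  refine (isPMinimal_iff h5).mpr ⟨M ⊓ (K ⊔ S₀), h5, fun a => ?_,
    le_inf (inf_le_left.trans h.um.le) le_sup_right, lt_of_le_not_ge inf_le_right fun a => h.not_res_le ?_,
    fun X a b => le_inf ?_ b.le⟩
  · have b : (S : Subgroup P) ⊓ K = ⊥ := by
      have c : (S : Subgroup P) ⊓ K = S₀ ⊓ K :=
        le_antisymm (le_inf (inf_le_inf_left _ Subgroup.le_normalizer) inf_le_right) (inf_le_inf_right _ inf_le_left)
      refine le_bot_iff.mp (hOp ▸ le_trans (le_pCoreOf inf_le_right ?_ h4.pg) (pCoreOf_le_pCore_of_isSubnormal hK.1))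
      rw [c]
      exact le_normalizer_inf (le_sup_left.trans a) Subgroup.le_normalizer
    have c : K ≤ pPrimeCore p P := H02.le_pPrimeCore_of_subnormal hK.1
      (hp.coprime_iff_not_dvd.mpr (h4.eq_bot_iff.mp b)).symm
    have d := h0 _ inferInstance c
    have e : pCoreOf p (pResidualOf p (⊤ : Subgroup P)) = ⊥ :=
      le_bot_iff.mp (hOp ▸ pCoreOf_top (p := p) (G := P) ▸ pCoreOf_le_of_normal le_top (le_normalizer_pResidualOf _))
    obtain ⟨q, hq, Q, f, -, k⟩ := h.exists_q fun Q f k => (eq_bot_of_isPGroup_of_not_dvd k (f.trans d)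
      (H02.not_dvd_card_pPrimeCore hp)).le.trans bot_le
    have := Fact.mk hq
    have := f.pg.isNilpotent
    rw [e, bot_sup_eq, ← h1] at k
    exact H22.comp_not_le_of_solvable hK (k ▸ H22.le_layer hK : K ≤ Q)
  · rw [← h1, h3]
    exact ncl_le_iff.mpr fun g hg => cj_le_of_le_of_mem ((le_sup_left.trans a).trans inf_le_left) (h.um.le hg)
  · have c : X = (X ⊓ K) ⊔ S₀ := by
      rw [sup_comm, ← inf_sup_eq_of_le_normalizer (N := K) inf_le_right a, sup_comm, inf_eq_left.mpr b.le]
    rw [c]
    refine sup_le ((le_ncl _ (S : Subgroup P)).trans ((h.res_le_or le_top (le_normalizer_ncl _ _)).resolve_left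
      fun d => b.not_ge (sup_le ?_ a))) (inf_le_left.trans h.um.le)
    have e : K ≤ (X ⊓ K) ⊔ Subgroup.centralizer (K : Set P) := by
      refine ((h1 ▸ H22.le_layer hK : K ≤ _).trans d).trans (ncl_le_iff.mpr fun g hg => ?_)
      by_cases e : cj(g, K) = K
      · refine le_trans (le_inf (cj_le_of_le_of_mem inf_le_left (a ⟨hg, cj_eq_iff.mp e⟩))
          ((cj_mono g inf_le_right).trans e.le)) le_sup_left
      · exact ((cj_mono g inf_le_right).trans (Subgroup.commutator_eq_bot_iff_le_centralizer.mp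
          (H22.comp_comm_of_ne (H22.comp_conj hK g) hK e))).trans le_sup_right
    have k : ⁅K, X ⊓ K⁆ ≤ X ⊓ K := by
      refine (Subgroup.commutator_mono e le_rfl).trans (commutator_sup_le Subgroup.le_normalizer
        ((centralizer_anti inf_le_right).trans (centralizer_le_normalizer _))
        (commutator_le_of_le_normalizer Subgroup.le_normalizer) (le_of_eq_of_le ?_ bot_le))
      exact Subgroup.commutator_eq_bot_iff_le_centralizer.mpr (centralizer_anti inf_le_right)
    refine (H22.comp_perfect hK).ge.trans (((Subgroup.commutator_mono le_rfl e).trans (commutator_sup_le'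
      Subgroup.le_normalizer ((centralizer_anti inf_le_right).trans (centralizer_le_normalizer _)) k
      (le_of_eq_of_le (commutator_eq_bot_iff'.mpr le_rfl) bot_le))).trans inf_le_left)

end Cfsg.Agent.S2906
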