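import Mathlib
import Cfsg.Statements.S2907
import Cfsg.Agent.H26.CharP

set_option autoImplicit false
open Cfsg

namespace Cfsg.Agent.S2907
open H26

/-- Let X be a finite semi-extraspecial p-group and x an element of X outside the centre. Then the index of C_X(x) in X equals the order of Z(X), and the commutators [x, y], y ∈ X, form exactly the centre Z(X). -/
theorem result {X : Type*} [Group X] [Finite X] {p : ℕ} [Fact p.Prime] (hX : Cfsg.IsSemiExtraspecial p X) (x : X) (hx : x ∉ Subgroup.center X) : (Subgroup.centralizer ({x} : Set X)).index = Nat.card ↥(Subgroup.center X) ∧ {z : X | ∃ y : X, z = x * y * x⁻¹ * y⁻¹} = (Subgroup.center X : Set X) := by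
  obtain ⟨⟨h1, h2, h3⟩, h4⟩ := hX
  have h5 : ∀ y : X, x * y * x⁻¹ * y⁻¹ ∈ Subgroup.center X := fun y =>
    h3 ▸ Subgroup.commutator_mem_commutator (Subgroup.mem_top x) (Subgroup.mem_top y)
  let f : X →* X := MonoidHom.mk' (fun y => x * y * x⁻¹ * y⁻¹) fun a b => by
    have := Subgroup.mem_center_iff.mp (h5 b) a⁻¹
    calc _ = x * a * x⁻¹ * ((x * b * x⁻¹ * b⁻¹) * a⁻¹) := by group
      _ = _ := by rw [← this]; group
  have h6 : f.ker = Subgroup.centralizer {x} := by
    ext y
    rw [MonoidHom.mem_ker, Subgroup.mem_centralizer_singleton_iff, eq_comm (a := y * x)]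
    exact commutatorElement_eq_one_iff_mul_comm
  have h7 : f.range = Subgroup.center X := by
    refine le_antisymm (by rintro _ ⟨y, rfl⟩; exact h5 y) (by_contra fun h => hx ?_)
    obtain ⟨Y, a, b⟩ := (eq_top_or_exists_le_coatom (f.range.subgroupOf (Subgroup.center X))).resolve_left
      (by rwa [Subgroup.subgroupOf_eq_top])
    obtain ⟨_, c, d⟩ := h4 (Y.map (Subgroup.center X).subtype) (Subgroup.map_subtype_le _)
      (by rwa [map_subtype_subgroupOf])
    set Y' := Y.map (Subgroup.center X).subtype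
    have e : (Subgroup.center X).map (QuotientGroup.mk' Y') = Subgroup.center (X ⧸ Y') := by
      have e1 : (Subgroup.center X).map (QuotientGroup.mk' Y') ≤ Subgroup.center (X ⧸ Y') := by
        rintro _ ⟨z, hz, rfl⟩
        rw [Subgroup.mem_center_iff]
        intro g
        obtain ⟨g, rfl⟩ := QuotientGroup.mk'_surjective Y' g
        rw [← map_mul, ← map_mul, Subgroup.mem_center_iff.mp hz]
      refine Subgroup.eq_of_le_of_card_ge e1 (d ▸ Nat.le_of_dvd Nat.card_pos ?_)
      refine dvd_card_of_isPGroup ((h1.to_subgroup _).map _) (fun e2 => a.1 ?_) le_rfl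
      rw [Subgroup.map_eq_bot_iff, QuotientGroup.ker_mk'] at e2
      rw [← map_subtype_subgroupOf Y, Subgroup.subgroupOf_eq_top]
      exact e2
    have k : QuotientGroup.mk' Y' x ∈ Subgroup.center (X ⧸ Y') := by
      rw [Subgroup.mem_center_iff]
      intro g
      obtain ⟨g, rfl⟩ := QuotientGroup.mk'_surjective Y' g
      rw [eq_comm, ← commutatorElement_eq_one_iff_mul_comm, ← map_commutatorElement, QuotientGroup.mk'_apply,
        QuotientGroup.eq_one_iff]
      exact ⟨⟨_, h5 g⟩, b ⟨g, rfl⟩, rfl⟩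
    rw [← e, ← Subgroup.mem_comap, Subgroup.comap_map_eq, QuotientGroup.ker_mk',
      sup_eq_left.mpr (Subgroup.map_subtype_le _)] at k
    exact k
  refine ⟨by rw [← h6, Subgroup.index_ker, h7], ?_⟩
  rw [← h7]
  ext z
  exact ⟨fun ⟨y, h⟩ => ⟨y, h.symm⟩, fun ⟨y, h⟩ => ⟨y, h.symm⟩⟩

end Cfsg.Agent.S2907
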