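import Mathlib
import Cfsg.Statements.S2908
import Cfsg.Agent.H26.Misc
import Cfsg.Agent.H26.Chain
import Cfsg.Agent.H01.Coprime2

set_option autoImplicit false
open Cfsg

namespace Cfsg.Agent.S2908
open H26

/-- Let P be a p-subgroup of a finite group, normalized by a p-subgroup A and by a subgroup B of order prime to p that commutes elementwise with A. If [P, B] ≤ [P, A], then B centralizes P. -/
theorem result {G : Type*} [Group G] [Finite G] {p : ℕ} [Fact p.Prime] (P A B : Subgroup G) (hP : IsPGroup p ↥P) (hA : IsPGroup p ↥A) (hB : ¬ p ∣ Nat.card ↥B) (hnA : A ≤ Subgroup.normalizer (P : Set G)) (hnB : B ≤ Subgroup.normalizer (P : Set G)) (hAB : ⁅A, B⁆ = ⊥) (hcomm : ⁅P, B⁆ ≤ ⁅P, A⁆) : ⁅P, B⁆ = ⊥ := by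
  have hc := (coprime_card_of_not_dvd hP hB).symm
  have hs : Group.IsSolvable B ∨ Group.IsSolvable P := Or.inr (H01.isSolvable_of_isPGroup hP)
  have h1 := H01.commutator_sup_centralizer hnB hc hs
  have h2 := H01.commutator_commutator_eq hnB hc hs
  have hAB' := Subgroup.commutator_eq_bot_iff_le_centralizer.mp hAB
  set Q := ⁅P, B⁆
  set C := P ⊓ Subgroup.centralizer (B : Set G)
  have h3 : Q ≤ P := commutator_le_of_le_normalizer hnB
  have h4 : A ⊔ P ≤ Subgroup.normalizer (Q : Set G) := sup_le (le_normalizer_commutator hnA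
    (hAB'.trans (centralizer_le_normalizer B))) (Subgroup.normalizer_commutator_ge_left _ _)
  by_contra h
  refine (H01.commutator_lt_of_isPGroup (isPGroup_sup hA hP hnA) (hP.to_le h3) h4 h).not_ge ?_
  set R := ⁅Q, A ⊔ P⁆
  have h5 : P ≤ Subgroup.normalizer (R : Set G) := le_sup_right.trans (Subgroup.normalizer_commutator_ge_right _ _)
  have h6 : B ≤ Subgroup.normalizer (R : Set G) := le_normalizer_commutator
    (Subgroup.normalizer_commutator_ge_right _ _) (le_normalizer_sup
      ((Subgroup.le_centralizer_iff.mp hAB').trans (centralizer_le_normalizer A)) hnB)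
  have h7 : P ≤ Subgroup.normalizer ((C ⊔ R : Subgroup G) : Set G) := by
    refine h1.ge.trans (sup_le (le_normalizer_of_commutator_le ?_) (le_sup_left.trans Subgroup.le_normalizer))
    refine le_trans ?_ le_sup_right
    rw [Subgroup.commutator_comm]
    exact Subgroup.commutator_mono le_rfl ((sup_le inf_le_left
      ((commutator_le_of_le_normalizer h4).trans h3)).trans le_sup_right)
  have h8 : ⁅P, A⁆ ≤ C ⊔ R := (Subgroup.commutator_mono h1.ge le_rfl).trans (commutator_sup_le (h3.trans h7)
    (inf_le_left.trans h7) ((Subgroup.commutator_mono le_rfl le_sup_left).trans le_sup_right)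
    ((commutator_le_of_le_normalizer (le_normalizer_inf hnA (le_normalizer_centralizer
      (hAB'.trans (centralizer_le_normalizer B))))).trans le_sup_left))
  exact h2.ge.trans ((Subgroup.commutator_mono (hcomm.trans h8) le_rfl).trans (commutator_sup_le
    (inf_le_left.trans h5) Subgroup.le_normalizer (le_of_eq_of_le
      (Subgroup.commutator_eq_bot_iff_le_centralizer.mpr inf_le_right) bot_le) (commutator_le_of_le_normalizer h6)))

end Cfsg.Agent.S2908
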