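import Mathlib
import Cfsg.Statements.S2909
import Cfsg.Agent.H26.Misc
import Cfsg.Agent.H26.Chain
import Cfsg.Agent.S2908

set_option autoImplicit false
open Cfsg

namespace Cfsg.Agent.S2909
open H26

theorem commutator_le_ncl' {G : Type*} [Group G] (L A : Subgroup G) : ⁅L, A⁆ ≤ ncl A L := by
  rw [Subgroup.commutator_comm]; exact commutator_le_ncl A L

/-- Let p be a prime, E a normal p-subgroup of the finite group G, and U a non-cyclic elementary abelian p-subgroup of G such that either C_E(U) = C_E(u) for every nontrivial u ∈ U, or [E, U] = [E, ⟨u⟩] for every nontrivial u ∈ U. If R is a subgroup of order prime to p normalized by U, then [R, U] centralizes E. -/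
theorem result {G : Type*} [Group G] [Finite G] {p : ℕ} [Fact p.Prime] (E : Subgroup G) [E.Normal] (hE : IsPGroup p ↥E) (U : Subgroup G) (hU : Cfsg.IsElementaryAbelian p U) (hnc : ¬ IsCyclic ↥U) (hcond : (∀ u ∈ U, u ≠ 1 → E ⊓ Subgroup.centralizer (U : Set G) = E ⊓ Subgroup.centralizer ({u} : Set G)) ∨ (∀ u ∈ U, u ≠ 1 → ⁅E, U⁆ = ⁅E, Subgroup.zpowers u⁆)) (R : Subgroup G) (hR : ¬ p ∣ Nat.card ↥R) (hRU : U ≤ Subgroup.normalizer (R : Set G)) : ⁅R, U⁆ ≤ Subgroup.centralizer (E : Set G) := by
  have := hU.1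
  have hU' := H17.elemAb_isPGroup hU
  rw [← H01.iSup_commutator_cocyclic hRU (coprime_card_of_not_dvd hU' hR)]
  refine iSup₂_le fun B ⟨a, v, _, b⟩ => ?_
  obtain ⟨⟨u, hu⟩, h1⟩ := Subgroup.ne_bot_iff_exists_ne_one.mp
    (fun c : B = ⊥ => hnc (H01.isCyclic_of_bot_sup_zpowers (c ▸ b)))
  replace h1 : u ≠ 1 := fun c => h1 (Subtype.ext c)
  have h2 : R ⊓ Subgroup.centralizer (B : Set G) ≤ R ⊓ Subgroup.centralizer (Subgroup.zpowers u : Set G) :=
    inf_le_inf_left _ (centralizer_anti (Subgroup.zpowers_le.mpr hu))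
  refine (Subgroup.commutator_mono h2 le_rfl).trans ?_
  have h3 := Subgroup.zpowers_le.mpr (a hu)
  have h4 : U ≤ Subgroup.centralizer (Subgroup.zpowers u : Set G) := (Subgroup.le_centralizer U).trans (centralizer_anti h3)
  set C := R ⊓ Subgroup.centralizer (Subgroup.zpowers u : Set G)
  have h5 : ⁅C, U⁆ ≤ C := commutator_le_of_le_normalizer (le_normalizer_inf hRU (h4.trans Subgroup.le_normalizer))
  have h6 : ¬ p ∣ Nat.card (⁅C, U⁆ : Subgroup G) := fun c => hR (c.trans (Subgroup.card_dvd_of_le (h5.trans inf_le_left)))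
  have h7 := Subgroup.le_centralizer_iff.mp (h5.trans inf_le_right)
  have h8 : C ≤ Subgroup.normalizer (Subgroup.zpowers u : Set G) := inf_le_right.trans (centralizer_le_normalizer _)
  rcases hcond with h | h
  · refine H01.thompson_PxQ (hU'.to_le h3) ((Nat.Prime.coprime_iff_not_dvd Fact.out).mpr h6).symm hE h7
      Subgroup.le_normalizer_of_normal Subgroup.le_normalizer_of_normal (Subgroup.le_centralizer_iff.mp ?_)
    refine (commutator_le_ncl' _ _).trans (ncl_le_centralizer ?_ (le_normalizer_inf Subgroup.le_normalizer_of_normal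
      (le_normalizer_centralizer h8)))
    rw [centralizer_zpowers, ← h u (a hu) h1]
    exact Subgroup.le_centralizer_iff.mp inf_le_right
  · rw [← commutator_eq_bot_iff']
    refine S2908.result E (Subgroup.zpowers u) _ hE (hU'.to_le h3) h6 Subgroup.le_normalizer_of_normal
      Subgroup.le_normalizer_of_normal (Subgroup.commutator_eq_bot_iff_le_centralizer.mpr h7) ?_
    refine (Subgroup.commutator_mono le_rfl (commutator_le_ncl' _ _)).trans (commutator_ncl_le'
      Subgroup.le_normalizer_of_normal (le_normalizer_commutator Subgroup.le_normalizer_of_normal h8)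
      (le_normalizer_commutator Subgroup.le_normalizer_of_normal (h4.trans (centralizer_le_normalizer _)))
      (h u (a hu) h1).le)

end Cfsg.Agent.S2909
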