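import Mathlib
import Cfsg.Statements.S2910
import Cfsg.Agent.H03.NPC3

set_option autoImplicit false
open Cfsg

namespace Cfsg.Agent.S2910

/-- Let p be an odd prime dividing the order of the finite group G and P a Sylow p-subgroup of G. If Ω₁(P) (generated by the elements of order dividing p) is contained in the centre of G, then G has a normal p-complement. In particular, if G is quasisimple then Ω₁(P) is not central in G. -/
theorem result {G : Type*} [Group G] [Finite G] {p : ℕ} [Fact p.Prime] (hp : p ≠ 2) (hdiv : p ∣ Nat.card G) (P : Sylow p G) (hZ : Cfsg.omegaOne p (P : Subgroup G) ≤ Subgroup.center G) : Cfsg.HasNormalPComplement p G ∧ ¬ Cfsg.IsQuasisimple G := by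
  have h : Cfsg.HasNormalPComplement p G := by
    refine H03.hasNPC_of_small_fusion P fun a ha hs g _ => ⟨1, one_mem _, ?_⟩
    have : a ∈ Subgroup.center G := hZ (Subgroup.subset_closure ⟨ha, hs.resolve_right fun h => hp h.1⟩)
    rw [Subgroup.mem_center_iff.mp this g]; group
  refine ⟨h, fun hq => ?_⟩
  have h1 : Cfsg.pResidual p G = ⊤ := by
    rw [H03.pResidual_eq_top_iff, Group.isPerfect_def.mp hq.1, Subgroup.index_top, Nat.dvd_one]
    exact (Fact.out : p.Prime).ne_one
  refine H03.hasNPC_iff_not_dvd_card_pResidual.mp h ?_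
  rwa [h1, Subgroup.card_top]

end Cfsg.Agent.S2910
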