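import Mathlib
import Cfsg.Statements.S2911
import Cfsg.Agent.H08.Fus
import Cfsg.Agent.H08.StronglyEmbedded
import Cfsg.Agent.H03.Focal
import Cfsg.Agent.H26.Core
import Cfsg.Agent.H01.Coprime

set_option autoImplicit false
open Cfsg

namespace Cfsg.Agent.S2911

open Subgroup DihedralGroup

abbrev XX := Multiplicative (ZMod 2) × DihedralGroup 4
def cc : XX := (Multiplicative.ofAdd 1, 1)
def zz : XX := (1, r 2)
def rr : XX := (1, r 1)
def ss : XX := (1, sr 0)

theorem xx_two : IsPGroup 2 XX := IsPGroup.of_card (n := 4) (by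
  rw [Nat.card_prod, DihedralGroup.nat_card]; simp)

theorem xx_aut (α : MulAut XX) (h : Odd (orderOf α)) : α = 1 := by
  have inj := α.injective
  have h1 : α zz = zz := by
    have e : zz = rr * rr := by decide
    have : ∀ x : XX, x * x = 1 ∨ x * x = zz := by decide
    refine (this (α rr)).elim (fun a => ?_) fun a => by rw [← map_mul, ← e] at a; exact a
    rw [← map_mul, map_eq_one_iff _ inj] at a
    exact absurd a (by decide)
  have h2 : α cc = cc := by
    have : ∀ x : XX, (∀ y, x * y = y * x) → x = 1 ∨ x = zz ∨ x = cc ∨ x = zz * cc := by decide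
    rcases this (α cc) (fun y => by
      obtain ⟨y, rfl⟩ := α.surjective y
      rw [← map_mul, ← map_mul]; congr 1; revert y; decide) with a | a | a | a
    · exact absurd ((map_eq_one_iff _ inj).1 a) (by decide)
    · exact absurd (inj (a.trans h1.symm)) (by decide)
    · exact a
    · exact H08.aut_fix xx_two h h1 a
  have h3 : α rr = rr := by
    have : ∀ x : XX, x * x ≠ 1 → x = rr ∨ x = zz * rr ∨ x = cc * rr ∨ x = (zz * cc) * rr := by decide
    rcases this (α rr) (fun a => by
      rw [← map_mul, map_eq_one_iff _ inj] at a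
      exact absurd a (by decide)) with a | a | a | a
    · exact a
    · exact H08.aut_fix xx_two h h1 a
    · exact H08.aut_fix xx_two h h2 a
    · exact H08.aut_fix xx_two h (by rw [map_mul, h1, h2]) a
  have h4 : ∀ (i : Fin 2) (j : Fin 4), α (cc ^ i.val * rr ^ j.val) = cc ^ i.val * rr ^ j.val :=
    fun i j => by rw [map_mul, map_pow, map_pow, h2, h3]
  have h5 : ∀ x : XX, ∃ (i : Fin 2) (j : Fin 4), x = cc ^ i.val * rr ^ j.val ∨
      x = cc ^ i.val * rr ^ j.val * ss := by decide
  have h6 : α ss = ss := by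
    obtain ⟨i, j, a | a⟩ := h5 (α ss)
    · have := inj (a.trans (h4 i j).symm)
      clear a; exfalso; revert i j; decide
    · exact H08.aut_fix xx_two h (h4 i j) a
  ext1 x
  obtain ⟨i, j, rfl | rfl⟩ := h5 x
  · exact h4 i j
  · rw [map_mul, h4, h6]; rfl

/-- the four dihedral maximal subgroups -/
def QQ (i j : ZMod 2) : Subgroup XX where
  carrier := {x | x.1.toAdd = match x.2 with
    | r k => k.val * (i + j)
    | sr k => i + k.val * (i + j)}
  mul_mem' := by
    rintro ⟨a, a' | a'⟩ ⟨b, b' | b'⟩ <;> simp only [Set.mem_ofPred_eq] <;> revert a a' b b' i j <;> decide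
  one_mem' := by simp only [Set.mem_ofPred_eq]; revert i j; decide
  inv_mem' := by
    rintro ⟨a, a' | a'⟩ <;> simp only [Set.mem_ofPred_eq] <;> revert a a' i j <;> decide

instance decQQ (i j : ZMod 2) : DecidablePred (· ∈ QQ i j) := fun x =>
  inferInstanceAs (Decidable (x.1.toAdd = _))

theorem qq_cases : ∀ (i j : ZMod 2) (y : XX), y ∈ QQ i j → y * y = 1 → y = 1 ∨ y = zz ∨
    (∃ a, a * y * a⁻¹ = ss * cc ^ i.val) ∨ ∃ a, a * y * a⁻¹ = ss * rr * cc ^ j.val := by decide

theorem qq_xor : ∀ (i j : ZMod 2) (b : XX), Xor (b * cc ∈ QQ i j) (b ∈ QQ i j) := by decide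

variable {G : Type*} [Group G] [Finite G] (S : Sylow 2 G) {f : XX →* G}

theorem norm_act (hf : Function.Injective f) (hS : f.range = S) {n : G}
    (hn : n ∈ normalizer ((S : Subgroup G) : Set G)) : ∃ a, ∀ x, n * f x * n⁻¹ = f (a * x * a⁻¹) := by
  obtain ⟨a, ha, b, hb, ha2, hb2, rfl⟩ := H26.exists_p_part (p := 2) (isOfFinOrder_of_finite n)
  have h1 := H08.mem_sylow_of_mem_normalizer S (H26.isPGroup_zpowers ha2) (zpowers_le.2 hn ha)
  have e : XX ≃* (S : Subgroup G) := (MonoidHom.ofInjective hf).trans (MulEquiv.subgroupCongr hS)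
  have h2 := H08.mem_centralizer_of_aut (D := S) (fun α hα => by
    have := xx_aut ((MulAut.congr e).symm α) (by rwa [MulEquiv.orderOf_eq])
    exact (map_eq_one_iff _ (MulAut.congr e).symm.injective).1 this) (zpowers_le.2 hn hb) hb2
  rw [← SetLike.mem_coe, ← Sylow.coe_coe, ← hS] at h1
  obtain ⟨a, rfl⟩ := h1
  refine ⟨a, fun x => ?_⟩
  have h3 := h2 (f x) (hS ▸ ⟨x, rfl⟩ : f x ∈ (S : Subgroup G))
  rw [map_mul, map_mul, map_inv, mul_assoc (f a) b, ← h3]; group

theorem cen_eq (hf : Function.Injective f) (hS : f.range = S) {x y : XX} (hx : ∀ a, a * x = x * a)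
    (hy : ∀ a, a * y = y * a) (h : IsConj (f x) (f y)) : x = y := by
  obtain ⟨g, hg⟩ := isConj_iff.1 h
  obtain ⟨n, hn, e⟩ := H08.burnside_elt S (x := f x) (g := g) (fun s hs => by
    rw [← hS] at hs; obtain ⟨s, rfl⟩ := hs; exact (show Commute s x from hx s).map f) (fun s hs => by
    rw [← hS] at hs; obtain ⟨s, rfl⟩ := hs; rw [hg]; exact (show Commute s y from hy s).map f)
  obtain ⟨a, ha⟩ := norm_act S hf hS hn
  rw [ha, hg, hx a, mul_inv_cancel_right] at e
  exact hf e

theorem not_both (hf : Function.Injective f) (hS : f.range = S) {t : XX}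
    (ht : t = ss ∨ t = ss * rr) (h1 : IsConj (f cc) (f t)) (h2 : IsConj (f cc) (f (t * cc))) :
    False := by
  obtain ⟨A, hA⟩ : ∃ A, A = (centralizer ({t} : Set XX)).map f := ⟨_, rfl⟩
  have hmem : ∀ x, f x ∈ A ↔ x * t = t * x := fun x => by
    rw [hA, mem_map_iff_mem hf, mem_centralizer_singleton_iff]
  have hAS : A ≤ S := by rw [hA, ← hS]; exact map_le_range _ _
  have hget : ∀ {x}, x ∈ (S : Subgroup G) → ∃ y, f y = x := fun hx => by rwa [← hS] at hx
  have hi : A.relIndex S = 2 := by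
    refine relIndex_eq_two_iff.2 ⟨f rr, hS ▸ ⟨_, rfl⟩, fun b hb => ?_⟩
    obtain ⟨b, rfl⟩ := hget hb
    rw [← map_mul, hmem, hmem]
    clear hb
    rcases ht with rfl | rfl <;> revert b <;> decide
  have hn : ∀ B : Subgroup G, B ≤ S → Nat.card B = Nat.card A →
      (S : Subgroup G) ≤ normalizer (B : Set G) := fun B hB hc => by
    haveI := normal_of_index_eq_two ((H01.relIndex_eq_of_card_eq hB hAS hc).trans hi)
    exact le_normalizer_of_normal_subgroupOf hB
  have hW : Cfsg.IsWeaklyClosed A S := ⟨hAS, fun g hg => by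
    obtain ⟨n, hn', e⟩ := H03.burnside_fusion_sets S (A : Set G) _ (hn A hAS rfl)
      (hn _ hg (H03.card_map_conj A g)) g rfl
    obtain ⟨a, ha⟩ := norm_act S hf hS hn'
    refine (eq_of_le_of_card_ge (fun x hx => ?_) (H03.card_map_conj A g).ge)
    obtain ⟨y, hy, rfl⟩ : x ∈ (fun y => n * y * n⁻¹) '' A := e ▸ hx
    obtain ⟨y, rfl⟩ := hget (hAS hy)
    change n * f y * n⁻¹ ∈ A
    rw [ha, map_mul, map_mul, map_inv]
    exact (mem_normalizer_iff.1 (hn A hAS rfl (hS ▸ ⟨a, rfl⟩)) _).1 hy⟩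
  obtain ⟨g, hg⟩ := isConj_iff.1 h1
  obtain ⟨c, hc, hgc⟩ := H03.IsWC.exists_centralizer_mul_mem_normalizer hW (A := {f cc}) (g := g)
    (fun x hx => by
      obtain ⟨y, rfl⟩ := hget (hAS hx)
      rw [mem_centralizer_singleton_iff, ← map_mul, ← map_mul]; congr 1; clear hx; revert y; decide)
    (fun x hx a ha => by
      obtain ⟨y, rfl⟩ := hget (hAS hx)
      rw [ha, hg, ← map_mul, ← map_mul, (hmem y).1 hx])
  have hcl : ∀ x, x * t = t * x → x = 1 ∨ x = cc ∨ x = zz ∨ x = zz * cc ∨
      (∃ a, a * t * a⁻¹ = x) ∨ ∃ a, a * (t * cc) * a⁻¹ = x := by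
    rcases ht with rfl | rfl <;> decide
  have key : ∀ u : XX, (∀ a, a * u = u * a) → u ≠ 1 → u ≠ cc →
      g * c * f u * (g * c)⁻¹ = f u := fun u hu hu1 hu2 => by
    have h3 := (mem_normalizer_iff.1 hgc _).1 ((hmem u).2 (hu t).symm)
    obtain ⟨y, hy⟩ := hget (hAS h3)
    have h4 : IsConj (f u) (f y) := hy ▸ H08.isConj_conj _ _
    have h5 : ¬ IsConj (f cc) (f y) := fun a =>
      hu2 (cen_eq S hf hS hu (by decide) (h4.trans a.symm))
    rw [← hy] at h3 ⊢
    rcases hcl y ((hmem y).1 h3) with rfl | rfl | rfl | rfl | ⟨a, rfl⟩ | ⟨a, rfl⟩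
    · exact absurd (cen_eq S hf hS hu (by decide) h4) hu1
    · exact absurd (IsConj.refl _) h5
    · rw [cen_eq S hf hS hu (by decide) h4]
    · rw [cen_eq S hf hS hu (by decide) h4]
    · exact absurd (h1.trans (f.map_isConj (H08.isConj_conj a t))) h5
    · exact absurd (h2.trans (f.map_isConj (H08.isConj_conj a _))) h5
  have h3 : g * c * f cc * (g * c)⁻¹ = f t := by
    rw [← hg, mul_assoc g, mem_centralizer_singleton_iff.1 hc]; group
  have h4 : g * c * f cc * (g * c)⁻¹ = f cc := by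
    have e : cc = zz * (zz * cc) := by decide
    rw [e, map_mul, ← conj_mul, key zz (by decide) (by decide) (by decide),
      key (zz * cc) (by decide) (by decide) (by decide)]
  have h5 := hf (h3.symm.trans h4)
  rcases ht with rfl | rfl <;> exact absurd h5 (by decide)

theorem transfer_step (hf : Function.Injective f) (hS : f.range = S) (hG : ∀ H : Subgroup G, H.index ≠ 2)
    (i j : ZMod 2) : IsConj (f cc) (f (ss * cc ^ i.val)) ∨ IsConj (f cc) (f (ss * rr * cc ^ j.val)) := by
  by_contra h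
  have h1 : ((QQ i j).map f).relIndex S = 2 := by
    rw [← hS]
    refine relIndex_eq_two_iff.2 ⟨f cc, ⟨_, rfl⟩, ?_⟩
    rintro _ ⟨b, rfl⟩
    rw [← map_mul, mem_map_iff_mem hf, mem_map_iff_mem hf]
    exact qq_xor i j b
  have hcc : cc * cc = 1 := by decide
  have h2 : orderOf (f cc) = 2 := by
    rw [orderOf_injective f hf]; exact H08.orderOf_eq_two_iff'.2 ⟨hcc, by decide⟩
  have h3 : ∀ g : G, g * f cc * g⁻¹ ∉ (QQ i j).map f := by
    rintro g ⟨y, hy, hgy⟩
    have h4 : IsConj (f cc) (f y) := by rw [hgy]; exact H08.isConj_conj _ _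
    have h5 : y * y = 1 := by
      apply hf
      rw [map_mul, hgy, conj_mul, ← map_mul, hcc, map_one]; group
    have c1 : ∀ a, a * cc = cc * a := by decide
    have c2 : ∀ a, a * zz = zz * a := by decide
    rcases qq_cases i j y hy h5 with rfl | rfl | ⟨a, ha⟩ | ⟨a, ha⟩
    · exact absurd (cen_eq S hf hS c1 (by simp) h4) (by decide)
    · exact absurd (cen_eq S hf hS c1 c2 h4) (by decide)
    · exact h (Or.inl (h4.trans (by rw [← ha]; exact f.map_isConj (H08.isConj_conj a y))))
    · exact h (Or.inr (h4.trans (by rw [← ha]; exact f.map_isConj (H08.isConj_conj a y))))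
  obtain ⟨M, -, hM, -⟩ := H03.thompson_transfer S.not_dvd_index h1 _ h2 h3
  exact hG M hM

/-- A finite group whose Sylow 2-subgroups are isomorphic to the direct product of a group of order 2 and a dihedral group of order 8 has a subgroup of index two. -/
theorem result {G : Type*} [Group G] [Finite G] (S : Sylow 2 G) (hS : Nonempty (↥(S : Subgroup G) ≃* Multiplicative (ZMod 2) × DihedralGroup 4)) : ∃ H : Subgroup G, H.index = 2 := by
  obtain ⟨e⟩ := hS
  obtain ⟨f, hf, hfS⟩ : ∃ f : XX →* G, Function.Injective f ∧ f.range = S :=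
    ⟨(S : Subgroup G).subtype.comp e.symm.toMonoidHom, Subtype.val_injective.comp e.symm.injective, by
      rw [MonoidHom.range_comp, MonoidHom.range_eq_top.2 e.symm.surjective, ← MonoidHom.range_eq_map,
        range_subtype]⟩
  by_contra hG
  have key := transfer_step S hf hfS fun H hH => hG ⟨H, hH⟩
  have h1 := not_both S hf hfS (Or.inl rfl)
  have h2 := not_both S hf hfS (Or.inr rfl)
  have k1 := key 0 0
  have k2 := key 0 1
  have k3 := key 1 0
  have k4 := key 1 1
  have e0 : ∀ x : XX, x * cc ^ (0 : ZMod 2).val = x := by decide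
  have e1 : ∀ x : XX, x * cc ^ (1 : ZMod 2).val = x * cc := by decide
  rw [e0, e0] at k1
  rw [e0, e1] at k2
  rw [e1, e0] at k3
  rw [e1, e1] at k4
  by_cases a : IsConj (f cc) (f ss)
  · exact h2 (k3.resolve_left (h1 a)) (k4.resolve_left (h1 a))
  · exact h2 (k1.resolve_left a) (k2.resolve_left a)

end Cfsg.Agent.S2911
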