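import Mathlib
import Cfsg.Statements.S2912
import Cfsg.Agent.H04.Extraspecial
import Cfsg.Agent.H04.ElemAb
import Cfsg.Agent.H24.Extra
import Cfsg.Agent.H24.Wielandt
import Cfsg.Agent.H02.Suz6
import Cfsg.Agent.H26.CharP
import Cfsg.Agent.H17.Thompson
import Cfsg.Agent.H01.Coprime2

set_option autoImplicit false
open Cfsg

namespace Cfsg.Agent.S2912

open Subgroup H26
open scoped commutatorElement

theorem card_pow {G : Type*} [Group G] [Finite G] {p r : ℕ} [hp : Fact p.Prime] [hr : Fact r.Prime] (hpr : p ≠ r)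
    {C V : Subgroup G} {z x y : G} (h : H04.AES p C z) (hV : IsElementaryAbelian r V)
    (hn : C ≤ normalizer (V : Set G)) (hz : V ⊓ centralizer (zpowers z : Set G) = ⊥)
    (hx : x ∈ C) (hy : y ∈ C) (hxp : x ^ p = 1) (hxy : ¬ Commute x y) :
    Nat.card V = Nat.card (V ⊓ centralizer (zpowers x : Set G) : Subgroup G) ^ p := by
  obtain ⟨k, hk⟩ := IsPGroup.iff_card.1 h.isPGroup
  obtain ⟨χ, h1, h2, -⟩ := H24.exists_charOn_of_elementary hV (G := C) (fun e => hpr
    ((Nat.prime_dvd_prime_iff_eq hr.out hp.out).1 (hr.out.dvd_of_dvd_pow (hk ▸ e))).symm) hn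
  have hx1 : x ≠ 1 := fun e => hxy (e ▸ Commute.one_left y)
  have hxo : Nat.card (zpowers x) = p := by rw [Nat.card_zpowers, orderOf_eq_prime hxp hx1]
  have hzC : zpowers z ≤ C := zpowers_le.2 h.mem
  have hxC : zpowers x ≤ C := zpowers_le.2 hx
  have hnc : ∀ u ∈ zpowers x, u ≠ 1 → ¬ Commute u y := fun u hu hu1 e => by
    have := H24.zpowers_eq_of_prime (hxo ▸ hp.out) hu hu1
    obtain ⟨i, hi⟩ : x ∈ zpowers u := this ▸ mem_zpowers x
    exact hxy (hi ▸ e.zpow_left i)
  have h0 : ∀ H ≤ C, zpowers z ≤ H → H24.ssum H χ = 0 := fun H hH hzH => by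
    have h3 := h2 H hH
    rw [le_bot_iff.1 ((inf_le_inf_left V (centralizer_anti hzH)).trans hz.le), card_bot] at h3
    have h4 : H24.fdim H χ = 0 := by
      by_contra e
      exact (Nat.one_lt_pow e hr.out.one_lt).ne h3
    rw [(h1.mono hH).ssum_eq, h4]; simp
  have h5 := H24.ssum_frobenius (K := zpowers z) (R := zpowers x) (f := χ)
    (hxC.trans (h.le_norm hzC (mem_zpowers z))) (by
      rw [eq_bot_iff]
      intro u hu
      by_contra e
      exact hnc u hu.2 e (h.commute hu.1 hy).symm) (fun u hu hu1 c hc => by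
      obtain ⟨i, hi⟩ := h.exists_zpow_comm hy (hxC hu) (fun e => hnc u hu hu1 e.symm) hc
      rw [← h.comm_zpow_left hy (hxC hu)] at hi
      rw [← hi, commutatorElement_def, inv_mul_cancel_right]
      exact h1.conj_eq (hxC hu) (zpow_mem hy i))
  rw [h0 _ (sup_le hzC hxC) le_sup_left, h0 _ hzC le_rfl, zero_add, eq_comm, mul_eq_zero, sub_eq_zero,
    (h1.mono hxC).ssum_eq, ← h1.fdim_bot, hxo] at h5
  have h6 : p * H24.fdim (zpowers x) χ = H24.fdim ⊥ χ := by
    exact_mod_cast h5.resolve_left (by exact_mod_cast Nat.card_pos.ne')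
  have h7 := h2 ⊥ bot_le
  rw [H24.centralizer_bot, inf_top_eq] at h7
  rw [h7, h2 _ hxC, ← pow_mul, mul_comm, h6]

theorem aux {G : Type*} [Group G] [Finite G] {p r : ℕ} [hp : Fact p.Prime] [hr : Fact r.Prime] (hpr : p ≠ r)
    {z : G} (n : ℕ) (hmin : ∀ k : ℕ, 1 ≤ k → p ∣ r ^ k - 1 → n ≤ k) (w : ℕ) :
    ∀ C V : Subgroup G, H04.AES p C z → C ⊓ centralizer (C : Set G) ≤ zpowers z →
      Nat.card C = p ^ (2 * w + 1) → IsElementaryAbelian r V → V ≠ ⊥ → C ≤ normalizer (V : Set G) →
      V ⊓ centralizer (zpowers z : Set G) = ⊥ → r ^ (n * p ^ w) ≤ Nat.card V := by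
  induction w with
  | zero =>
    intro C V h _ _ hV hV1 hn hz
    obtain ⟨k, hk⟩ := IsPGroup.iff_card.1 (H17.elemAb_isPGroup hV)
    have h1 := H02.Suz.card_modEq_fix hp.out (h.pow_eq_one (mem_zpowers z)) (T := (V : Set G))
      (fun y hy => (mem_normalizer_iff.1 (hn h.mem) y).1 hy)
    have h2 : {y | y ∈ (V : Set G) ∧ y * z = z * y} = {1} := by
      ext y
      refine ⟨fun hy => ?_, fun hy => by rw [hy]; exact ⟨V.one_mem, by simp⟩⟩
      have : y ∈ V ⊓ centralizer (zpowers z : Set G) :=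
        ⟨hy.1, by rw [centralizer_zpowers]; exact mem_centralizer_singleton_iff.2 hy.2⟩
      rwa [hz] at this
    rw [h2, Nat.card_unique (α := ({1} : Set G))] at h1
    have h3 : k ≠ 0 := fun e => hV1 (card_eq_one.1 (by simpa [e] using hk))
    rw [pow_zero, mul_one, hk]
    refine Nat.pow_le_pow_right hr.out.pos (hmin k (by omega) ?_)
    exact (Nat.modEq_iff_dvd' (hk ▸ Nat.card_pos)).1 (hk ▸ h1.symm)
  | succ w ih =>
    intro C V h hc hC hV hV1 hn hz
    have hzc : Nat.card (zpowers z) = p := by rw [Nat.card_zpowers, h.ord]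
    have hne : ∀ (D : Subgroup G) (k : ℕ), Nat.card D = p ^ (2 * (k + 1) + 1) → D ≠ zpowers z :=
      fun D k hD e => by
        rw [e, hzc] at hD
        have := Nat.pow_right_injective hp.out.two_le ((pow_one p).trans hD)
        omega
    have hspl : ∀ x ∈ C, ∀ y ∈ C, ¬ Commute x y → Nat.card (H04.spl C x y) = p ^ (2 * w + 1) :=
      fun x hx y hy hxy => by
        have := h.card_eq_spl hx hy hxy
        rw [hC, show 2 * (w + 1) + 1 = 2 + (2 * w + 1) by ring, pow_add] at this
        exact (Nat.eq_of_mul_eq_mul_left (pow_pos hp.out.pos 2) this).symm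
    by_cases hex : ∃ x ∈ C, ∃ y ∈ C, x ^ p = 1 ∧ ¬ Commute x y
    · obtain ⟨x, hx, y, hy, hxp, hxy⟩ := hex
      have h1 := card_pow hpr h hV hn hz hx hy hxp hxy
      rw [h1, pow_succ, ← mul_assoc, pow_mul]
      refine Nat.pow_le_pow_left (ih (H04.spl C x y) _ (h.spl hx hy) ((h.center_spl hx hy hxy).trans_le hc)
        (hspl x hx y hy hxy) ⟨H04.isMulCommutative_of_le hV.1 inf_le_left, fun a ha => hV.2 a ha.1⟩
        (fun e => hV1 (card_eq_one.1 (by rw [h1, e, card_bot, one_pow])))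
        (le_normalizer_inf ((H04.spl_le _ _ _).trans hn) (le_normalizer_centralizer
          (le_trans ?_ (H26.centralizer_le_normalizer _)))) ?_) p
      · rw [centralizer_zpowers]
        exact fun c hc => mem_centralizer_singleton_iff.2 (H04.mem_spl.1 hc).2.1
      · exact le_bot_iff.1 (hz ▸ inf_le_inf_right _ inf_le_left)
    push Not at hex
    obtain ⟨x, hx, hxc⟩ := h.exists_notMem_cent hc (hne C w hC)
    obtain ⟨y, hy, hxy⟩ := h.exists_comm_eq hx hxc
    have hnc := h.not_commute hxy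
    have hp2 : p = 2 := by
      by_contra hp2
      obtain ⟨i, hi⟩ : y ^ p ∈ zpowers (x ^ p) := by
        rw [h.zpowers_eq (h.pow x hx) fun e => hnc (hex x hx y hy e)]; exact h.pow y hy
      have h1 : x ^ (-i) ∈ C := zpow_mem hx _
      refine hnc (Commute.symm ?_)
      have h2 := hex (x ^ (-i) * y) (mul_mem h1 hy) x hx (by
        obtain ⟨c, hc⟩ : p ∣ p.choose 2 := hp.out.dvd_choose_self (by norm_num)
          (lt_of_le_of_ne hp.out.two_le (Ne.symm hp2))
        rw [h.mul_pow h1 hy, hc, pow_mul, h.pow_eq_one (h.comm y hy _ h1), one_pow, mul_one, ← hi]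
        simp only []
        group)
      simpa using ((Commute.refl x).zpow_left i).mul_left h2
    subst hp2
    have hsq : ∀ u ∈ C, u ∉ centralizer (C : Set G) → u ^ 2 = z := fun u hu huc =>
      (h.eq_or (h.pow u hu)).resolve_left fun e => huc fun v hv => (hex u hu v hv e).symm
    have hw : w = 0 := by
      by_contra hw
      obtain ⟨k, rfl⟩ := Nat.exists_eq_succ_of_ne_zero hw
      obtain ⟨u, hu, huc⟩ := (h.spl hx hy).exists_notMem_cent ((h.center_spl hx hy hnc).trans_le hc)
        (hne _ k (hspl x hx y hy hnc))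
      obtain ⟨hu1, hu2, hu3⟩ := H04.mem_spl.1 hu
      have h1 := hex (u * x) (mul_mem hu1 hx) y hy (by
        rw [hu2.mul_pow, hsq x hx hxc, hsq u hu1 fun e => huc (centralizer_anti (H04.spl_le _ _ _) e),
          h.mul_self])
      exact hnc (by simpa using hu3.inv_left.mul_left h1)
    subst hw
    have hn1 : n ≤ 1 := hmin 1 le_rfl (by
      obtain ⟨k, hk⟩ := hr.out.odd_of_ne_two hpr.symm
      rw [pow_one]
      omega)
    obtain ⟨k, hk⟩ := IsPGroup.iff_card.1 (H17.elemAb_isPGroup hV)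
    rw [hk]
    refine Nat.pow_le_pow_right hr.out.pos ?_
    have h3 : k ≠ 0 := fun e => hV1 (card_eq_one.1 (by simpa [e] using hk))
    have h4 : k ≠ 1 := fun e => by
      have h5 := H04.commutator_le_centralizer_of_isCyclic (isCyclic_of_prime_card (p := r)
        (by simpa [e] using hk)) hn hn (hxy ▸ commutator_mem_commutator hx hy)
      exact hV1 (hz ▸ (inf_eq_left.2 (le_centralizer_iff.1 (zpowers_le.2 h5))).symm)
    omega

/-- Let p and r be distinct primes, let E be an extraspecial subgroup of order p^(2w+1) of a finite group, and let A be an elementary abelian r-subgroup normalized by E on which E acts faithfully (C_E(A) = 1). If n ≥ 1 is least with p dividing rⁿ − 1 (the smallest dimension of a faithful representation of a group of order p over the field with r elements), then the order of A is at least r^(n·p^w). -/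
theorem result {G : Type*} [Group G] [Finite G] {p r : ℕ} [Fact p.Prime] [hr : Fact r.Prime] (hpr : p ≠ r) (E A : Subgroup G) (w : ℕ) (hE : Cfsg.IsExtraspecial p ↥E) (hEcard : Nat.card ↥E = p ^ (2 * w + 1)) (hA : Cfsg.IsElementaryAbelian r A) (hnorm : E ≤ Subgroup.normalizer (A : Set G)) (hfaith : E ⊓ Subgroup.centralizer (A : Set G) = ⊥) (n : ℕ) (hn : 1 ≤ n) (hdiv : p ∣ r ^ n - 1) (hmin : ∀ k : ℕ, 1 ≤ k → p ∣ r ^ k - 1 → n ≤ k) : r ^ (n * p ^ w) ≤ Nat.card ↥A := by
  obtain ⟨z, h, hc, -⟩ := H04.exists_aes_of_isExtraspecial' hE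
  have hzE : zpowers z ≤ E := zpowers_le.2 h.mem
  have hzA : zpowers z ≤ normalizer (A : Set G) := hzE.trans hnorm
  have hle : ⁅A, zpowers z⁆ ≤ A := commutator_le_of_le_normalizer hzA
  have := hA.1
  refine (aux hpr n hmin w E ⁅A, zpowers z⁆ h hc.le hEcard
    ⟨H04.isMulCommutative_of_le hA.1 hle, fun a ha => hA.2 a (hle ha)⟩ (fun e => h.ne_one ?_)
    (le_normalizer_commutator hnorm (h.le_norm hzE (mem_zpowers z))) ?_).trans (card_le_of_le hle)
  · rw [← mem_bot, ← hfaith]
    exact ⟨h.mem, commutator_eq_bot_iff'.1 e (mem_zpowers z)⟩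
  · obtain ⟨k, hk⟩ := IsPGroup.iff_card.1 (H17.elemAb_isPGroup hA)
    rw [eq_bot_iff, ← H01.centralizer_inf_commutator_eq_bot hzA (by
      rw [Nat.card_zpowers, h.ord, hk]
      exact ((Nat.coprime_primes Fact.out hr.out).2 hpr).pow_right k)]
    exact fun a ha => ⟨⟨hle ha.1, ha.2⟩, ha.1⟩

end Cfsg.Agent.S2912
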