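import Mathlib
import Cfsg.Statements.S2925
import Cfsg.Agent.H26.SubN
import Cfsg.Agent.H22.Layer

set_option autoImplicit false
open Cfsg

namespace Cfsg.Agent.S2925
open H26

/-- Let K be a component of the finite group X and T a Sylow 2-subgroup of X. If some abelian normal subgroup Y of T does not normalize K, then K ⧸ Z(K) has abelian Sylow 2-subgroups. -/
theorem result {X : Type*} [Group X] [Finite X] (K : Subgroup X) (hK : Cfsg.IsComponent K) (T : Sylow 2 X) (Y : Subgroup X) (hYT : Y ≤ (T : Subgroup X)) (hYn : (Y.subgroupOf (T : Subgroup X)).Normal) (hYab : IsMulCommutative ↥Y) (hnot : ¬ Y ≤ Subgroup.normalizer (K : Set X)) (P : Sylow 2 (↥K ⧸ Subgroup.center ↥K)) : IsMulCommutative ↥(P : Subgroup (↥K ⧸ Subgroup.center ↥K)) := by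
  obtain ⟨y, hy, h1⟩ := SetLike.not_le_iff_exists.mp hnot
  have h2 := Subgroup.commutator_eq_bot_iff_le_centralizer.mp
    (H22.comp_comm_of_ne (H22.comp_conj hK y) hK fun a => h1 (cj_eq_iff.mp a))
  have h3 := (Subgroup.normal_subgroupOf_iff_le_normalizer hYT).mp hYn
  have h4 := (subN_top_iff.mpr hK.1).isSyl_inf (isSyl_top T)
  have h5 : ∀ s ∈ (T : Subgroup X) ⊓ K, ∀ t ∈ (T : Subgroup X) ⊓ K,
      (t * s)⁻¹ * (s * t) ∈ Subgroup.centralizer (K : Set X) := fun s hs t ht => by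
    have a : ∀ s ∈ (T : Subgroup X) ⊓ K, s * (y * s⁻¹ * y⁻¹) ∈ Y := fun s hs => by
      have := mul_mem ((Subgroup.mem_normalizer_iff.mp (h3 hs.1) y).mp hy) (inv_mem hy)
      convert this using 1; group
    have b := hYab.1.1 ⟨_, a s hs⟩ ⟨_, a t ht⟩
    have c := h2 (conj_mem_cj (inv_mem hs.2))
    have d := h2 (conj_mem_cj (inv_mem ht.2))
    replace b := congrArg Subtype.val b
    simp only [Subgroup.coe_mul] at b
    generalize y * s⁻¹ * y⁻¹ = s' at b c
    generalize y * t⁻¹ * y⁻¹ = t' at b d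
    have e : (t * s)⁻¹ * (s * t) = t' * s' * (s' * t')⁻¹ := by
      calc _ = (t * s)⁻¹ * (s * (t * s') * t') * (s' * t')⁻¹ := by group
        _ = (t * s)⁻¹ * (s * s' * (t * t')) * (s' * t')⁻¹ := by rw [c t ht.2]; group
        _ = (t * s)⁻¹ * (t * (t' * s) * s') * (s' * t')⁻¹ := by rw [b]; group
        _ = _ := by rw [← d s hs.2]; group
    rw [e]
    exact mul_mem (mul_mem d c) (inv_mem (mul_mem c d))
  have h6 := ((h4.subgroupOf le_rfl).map (QuotientGroup.mk' (Subgroup.center K)))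
  rw [Subgroup.subgroupOf_self, Subgroup.map_top_of_surjective _ (QuotientGroup.mk'_surjective _)] at h6
  obtain ⟨g, -, h7⟩ := h6.exists_cj_eq (isSyl_top P)
  rw [← h7, ← Subgroup.le_centralizer_iff_isMulCommutative, ← cj_centralizer, cj_le_cj_iff]
  rintro _ ⟨s, hs, rfl⟩ _ ⟨t, ht, rfl⟩
  rw [← map_mul, ← map_mul, QuotientGroup.mk'_apply, QuotientGroup.mk'_apply, QuotientGroup.eq,
    Subgroup.mem_center_iff]
  exact fun k => Subtype.ext (h5 s hs t ht k k.2)

end Cfsg.Agent.S2925
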