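import Mathlib
import Cfsg.Statements.S2930
import Cfsg.Agent.H03.SymD

set_option autoImplicit false
open Cfsg

namespace Cfsg.Agent.S2930

/-- Let X be a finite 3-minimal group (a Sylow 3-subgroup is not normal and lies in a unique maximal subgroup) whose generalized Fitting subgroup is isomorphic to an alternating group of degree n ≥ 5. Then X = F*(X), and n = 6, n = 9, or n = 3ᵃ + 1 for some a ≥ 2. -/
theorem result {X : Type*} [Group X] [Finite X] (hX : Cfsg.IsPMinimal 3 X) (n : ℕ) (hn : 5 ≤ n) (hF : Nonempty (↥(Cfsg.generalizedFittingSubgroup X) ≃* ↥(alternatingGroup (Fin n)))) : Cfsg.generalizedFittingSubgroup X = ⊤ ∧ (n = 6 ∨ n = 9 ∨ ∃ a : ℕ, 2 ≤ a ∧ n = 3 ^ a + 1) := by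
  open Equiv Equiv.Perm Subgroup H03.Sym in
  obtain ⟨e⟩ := hF
  have : Fact (Nat.Prime 3) := ⟨Nat.prime_three⟩
  have hN := H22.fstar_normal (G := X)
  obtain ⟨S⟩ : Nonempty (Sylow 3 X) := inferInstance
  obtain ⟨h1, M, ⟨h2, h3⟩, h4⟩ := hX S
  have hu : ∀ K : Subgroup X, (S : Subgroup X) ≤ K → K ≠ ⊤ → K ≤ M := fun K h h' =>
    let ⟨L, h5, h6⟩ := (eq_top_or_exists_le_coatom K).resolve_left h'
    h4 L ⟨h5, h.trans h6⟩ ▸ h6
  have h5 : (S : Subgroup X) ≤ generalizedFittingSubgroup X := fun x hx => by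
    obtain ⟨k, hk⟩ := S.isPGroup' ⟨x, hx⟩
    obtain ⟨a, ha⟩ := aut_pow_four hn (MulAut.congr e (MulAut.conjNormal x))
    refine mem_of_pow_four (by decide) (congrArg Subtype.val hk) ?_
    have : (e.symm a).1⁻¹ * x ^ 4 ∈ generalizedFittingSubgroup X := H22.centralizer_fstar_le fun y hy => by
      have := congrArg (fun φ => (e.symm (φ (e ⟨y, hy⟩))).1) (ha.trans (by rw [← map_pow, ← map_pow]))
      simp only [MulAut.conj_apply, map_mul, map_inv, MulEquiv.symm_apply_apply, MulAut.congr_apply,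
        MulEquiv.trans_apply, MulAut.conjNormal_apply, Subgroup.coe_mul, Subgroup.coe_inv] at this
      rw [mul_assoc _ _ y, ← inv_mul_cancel_right (x ^ 4 * y) (x ^ 4), ← this]
      group
    simpa using mul_mem (e.symm a).2 this
  have h6 : generalizedFittingSubgroup X = ⊤ := by_contra fun h => h2.1 (top_le_iff.1
    ((S.normalizer_sup_eq_top' h5).ge.trans (sup_le (hu _ le_normalizer fun e => h1 (normalizer_eq_top_iff.1 e))
      (hu _ h5 h))))
  refine ⟨h6, ?_⟩
  let f := (topEquiv.symm.trans ((MulEquiv.subgroupCongr h6).symm.trans e)).toMonoidHom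
  have hf : Function.Bijective f := (topEquiv.symm.trans ((MulEquiv.subgroupCongr h6).symm.trans e)).bijective
  let φ := (alternatingGroup (Fin n)).subtype.comp f
  have hφ : Function.Injective φ := (subtype_injective _).comp hf.1
  have h7 : ∀ K, alternatingGroup (Fin n) ≤ K ↔ K.comap φ = ⊤ := fun K =>
    ⟨fun h => eq_top_iff.2 fun x _ => h (f x).2, fun h g hg => by
      obtain ⟨x, hx⟩ := hf.2 ⟨g, hg⟩
      have : φ x ∈ K := h.ge (mem_top x)
      rwa [show φ x = g from congrArg Subtype.val hx] at this⟩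
  simpa using three_minimal (S := S.1.map φ) (M := M.map φ) (by simpa) (S.isPGroup'.map φ) (by
    rw [← map_map, relIndex, subgroupOf, comap_map_eq_self_of_injective (subtype_injective _),
      index_map_of_bijective hf]
    exact S.not_dvd_index) (map_mono h3) (by rw [h7, comap_map_eq_self_of_injective hφ]; exact h2.1)
    fun K h h' g hg => by
      obtain ⟨x, hx⟩ := hf.2 ⟨g, hg.2⟩
      obtain rfl : φ x = g := congrArg Subtype.val hx
      exact mem_map_of_mem _ (hu _ (map_le_iff_le_comap.1 h) (mt (h7 K).2 h') hg.1)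

end Cfsg.Agent.S2930
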