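import Mathlib
import Cfsg.Statements.S2932
import Cfsg.Agent.H03.NatSL2

set_option autoImplicit false
open Cfsg

namespace Cfsg.Agent.S2932

/-- Let p be a prime. Inside a finite ambient group let V be an elementary abelian p-subgroup and G a subgroup normalizing V and acting faithfully on it (G ∩ C(V) = 1), and let L ≤ G act on V as SL₂(F) on its natural module, F a finite field of characteristic p, with L ≅ SL₂(F). If every Sylow p-subgroup of N_G(L) is a Sylow p-subgroup of G, then either L is normal in G, or F has 4 elements and G is isomorphic to the alternating group of degree 7. -/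
theorem result {X : Type*} [Group X] [Finite X] {p : ℕ} [Fact p.Prime] (F : Type) [Field F] [Fintype F] [CharP F p] (V G L : Subgroup X) (hV : Cfsg.IsElementaryAbelian p V) (hGV : G ≤ Subgroup.normalizer (V : Set X)) (hfaith : G ⊓ Subgroup.centralizer (V : Set X) = ⊥) (hLG : L ≤ G) (hnat : Cfsg.IsNaturalSL2Module F V L) (hLiso : Nonempty (↥L ≃* Matrix.SpecialLinearGroup (Fin 2) F)) (hSyl : ∀ S : Sylow p ↥(G ⊓ Subgroup.normalizer (L : Set X)), ∀ P : Sylow p ↥G, Nat.card S = Nat.card P) : (L.subgroupOf G).Normal ∨ (Fintype.card F = 4 ∧ Nonempty (↥G ≃* ↥(alternatingGroup (Fin 7)))) := by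
  obtain ⟨-, ρ, ψ, hρ, hk, hact⟩ := hnat
  have hp : p.Prime := Fact.out
  let c : G →* MulAut V := (Subgroup.normalizerMonoidHom V).comp (Subgroup.inclusion hGV)
  have hc : ∀ (g : G) (v : V), (c g v : X) = g * v * (g : X)⁻¹ := fun g v => rfl
  let : DistribMulAction G (Fin 2 → F) :=
    { smul := fun g x => ψ (Additive.ofMul (c g (ψ.symm x).toMul))
      one_smul := fun x => by change ψ (Additive.ofMul (c 1 _)) = x; simp
      mul_smul := fun a b x => by
        change ψ (Additive.ofMul (c (a * b) _)) = ψ (Additive.ofMul (c a (ψ.symm (ψ _)).toMul)); simp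
      smul_zero := fun a => by change ψ (Additive.ofMul (c a _)) = 0; simp
      smul_add := fun a x y => by
        change ψ (Additive.ofMul (c a _)) = ψ (Additive.ofMul (c a _)) + ψ (Additive.ofMul (c a _)); simp }
  have hs : ∀ (g : G) (x : Fin 2 → F), g • x = ψ (Additive.ofMul (c g (ψ.symm x).toMul)) := fun _ _ => rfl
  have hi : Function.Injective ρ := by
    rw [← MonoidHom.ker_eq_bot_iff, hk, Subgroup.subgroupOf_eq_bot, disjoint_iff, inf_comm]
    exact BG.eq_bot_mono hfaith (inf_le_inf_right _ hLG)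
  let e := MulEquiv.ofBijective ρ ⟨hi, hρ⟩
  let ι : Matrix.SpecialLinearGroup (Fin 2) F →* G := (Subgroup.inclusion hLG).comp e.symm.toMonoidHom
  have hr : ι.range = L.subgroupOf G := by
    rw [MonoidHom.range_comp, MonoidHom.range_eq_top_of_surjective _ e.symm.surjective, ← MonoidHom.range_eq_map,
      Subgroup.inclusion_range]
  have h : H03.NA ι := by
    refine ⟨fun s v => ?_, fun g hg => Subtype.ext (BG.eq_one_of_mem_of_disj hfaith g.2 fun v hv => ?_)⟩
    · obtain ⟨w, h1, h2⟩ := hact (e.symm s) (ψ.symm v).toMul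
      have h3 : c (ι s) (ψ.symm v).toMul = w := Subtype.ext h1.symm
      rw [hs, h3, h2, show ρ (e.symm s) = s from e.apply_symm_apply s]; simp
    · have := hg (ψ (Additive.ofMul ⟨v, hv⟩))
      rw [hs, ψ.injective.eq_iff, ψ.symm_apply_apply] at this
      exact (mul_inv_eq_iff_eq_mul.1 ((hc g _).symm.trans (congrArg Subtype.val this))).symm
  obtain ⟨T, hT, hU⟩ := BG.sylow_superset hp (BG.pg_le h.pg_E h.U_le_E)
    (show H03.UU ι ≤ Subgroup.normalizer (ι.range : Set G) from
      le_trans (by rintro _ ⟨t, rfl⟩; exact ⟨_, rfl⟩) Subgroup.le_normalizer)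
  have h1 := BG.Cfsg.IsPiHallOf.map hT G.subtype
  rw [hr, ← Subgroup.subgroupOf_normalizer_eq hLG, Subgroup.subgroupOf_map_subtype, inf_comm] at h1
  obtain ⟨S, hS⟩ := BG.IsSylowIn.exists_sylow h1 hp
  obtain ⟨P⟩ : Nonempty (Sylow p G) := inferInstance
  have h2 := BG.Cfsg.IsPiHallOf.of_card_eq (BG.isSylowIn_top hp P) (K := T) le_top (by
    rw [← Subgroup.card_subtype, ← hS, Subgroup.card_subtype]; exact hSyl S P)
  rw [← hr, or_iff_not_imp_left]
  exact fun hn => ⟨(h.four h2 hT.1 hU hn).1, h.alt7 h2 hT.1 hU hn⟩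

end Cfsg.Agent.S2932
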