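import Mathlib
import Cfsg.Statements.S2939
import Cfsg.Agent.H26.Chain

set_option autoImplicit false
open Cfsg

namespace Cfsg.Agent.S2939
open H26

theorem conjRight_subset {G : Type*} [Group G] {g : G} {A : Set G} {H : Subgroup G} :
    conjRight g A ⊆ H ↔ A ⊆ cj(g, H) := by
  simp only [conjRight, Set.image_subset_iff]
  exact forall₂_congr fun _ _ => by rw [SetLike.mem_coe, mem_cj]; rfl

theorem fus_iff {G : Type*} [Group G] (P : Subgroup G → G → Prop) (Q : G → Subgroup G → Prop) (w : G) :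
    (∃ (n : ℕ) (Y : Fin n → Subgroup G) (y : Fin n → G), (∀ i, P (Y i) (y i)) ∧ w = (List.ofFn y).prod ∧
      ∀ i : Fin n, Q ((List.ofFn y).take (i.val + 1)).prod (Y i)) ↔
    Relation.ReflTransGen (fun a b => ∃ Y, P Y (a⁻¹ * b) ∧ Q b Y) 1 w := by
  rw [rtg_iff_chain]
  constructor
  · rintro ⟨n, Y, y, h1, rfl, h2⟩
    refine ⟨n, fun i => ((List.ofFn y).take i).prod, by simp, by simp only []; rw [List.take_of_length_le (by simp)], fun i => ⟨Y i, ?_, h2 i⟩⟩
    have := List.prod_take_succ (List.ofFn y) i (by simp)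
    simp only [Fin.val_succ, Fin.val_castSucc, this, inv_mul_cancel_left, List.getElem_ofFn]
    exact h1 i
  · rintro ⟨n, c, h1, rfl, h2⟩
    choose Y a b using h2
    have key : ∀ i : Fin (n + 1), ((List.ofFn fun j : Fin n => (c j.castSucc)⁻¹ * c j.succ).take i).prod = c i := by
      intro i
      induction i using Fin.induction with
      | zero => simp [h1]
      | succ i ih =>
        rw [Fin.val_castSucc] at ih
        rw [Fin.val_succ, List.prod_take_succ _ i (by simp), ih, List.getElem_ofFn]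
        simp
    refine ⟨n, Y, _, a, ?_, fun i => ?_⟩
    · rw [← key, List.take_of_length_le (by simp)]
    · have := key i.succ
      rw [Fin.val_succ] at this
      rw [this]; exact b i

/-- Let p be a prime dividing the order of the finite group G and 𝓕 a family of subgroups of G closed under conjugation, with conjugates taken as X^g = g⁻¹Xg. Then 𝓕 controls Sylow p-intersections in G (any two distinct Sylow p-subgroups S and T with S ∩ T ≠ 1 are joined by a chain S = S₀, S₁, …, Sₙ = T of Sylow p-subgroups where, for each i, some member Xᵢ of 𝓕 meets both S_{i-1} and Sᵢ in Sylow p-subgroups of Xᵢ, satisfies S ∩ T ≤ Sᵢ ∩ Xᵢ, and contains an element xᵢ with Sᵢ^{xᵢ} = S_{i-1}) if and only if 𝓕 strongly controls p-fusion in G (whenever A is a subset of a Sylow p-subgroup S, A contains an element other than 1, and A^g ⊆ S, the element g factorises as g = y₁⋯yₙy with y ∈ N_G(S) and each yᵢ in a member Yᵢ of 𝓕 that meets S in a Sylow p-subgroup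 of Yᵢ, with A^{y₁⋯yᵢ} ⊆ S ∩ Yᵢ for each i). -/
theorem result {G : Type*} [Group G] [Finite G] {p : ℕ} [Fact p.Prime] (hdiv : p ∣ Nat.card G) (𝓕 : Set (Subgroup G)) (h𝓕 : Cfsg.IsNormalSet 𝓕) : Cfsg.ControlsSylowIntersections p 𝓕 ↔ Cfsg.FamilyStronglyControlsFusion p 𝓕 := by
  have h0 : ∀ X ∈ 𝓕, ∀ g : G, cj(g, X) ∈ 𝓕 := fun X hX g => by simpa only [subgroupConjRight, inv_inv] using h𝓕 X hX g⁻¹
  rw [ctrl_top_iff]
  constructor
  · intro h S A g h1 ⟨a, ha, h2⟩ h3
    have hS := isSyl_top S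
    replace h3 := (conjRight_subset (g := g) (A := A) (H := (S : Subgroup G))).mp h3
    suffices ∃ w : G, cj(w, (S : Subgroup G)) = cj(g, (S : Subgroup G)) ∧ Relation.ReflTransGen (fun a b => ∃ Y,
        (Y ∈ sylowMembers p 𝓕 (S : Subgroup G) ∧ a⁻¹ * b ∈ Y) ∧ conjRight b A ⊆ (S : Set G) ∩ Y) 1 w by
      obtain ⟨w, h4, h5⟩ := this
      obtain ⟨n, Y, y, b, c, d⟩ := (fus_iff (fun Y y => Y ∈ sylowMembers p 𝓕 (S : Subgroup G) ∧ y ∈ Y)
        (fun b Y => conjRight b A ⊆ (S : Set G) ∩ Y) w).mpr h5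
      exact ⟨n, Y, y, w⁻¹ * g, by rw [← cj_eq_iff, ← cj_cj, ← h4, cj_inv_cj], b,
        by rw [← c, mul_inv_cancel_left], d⟩
    by_cases h4 : (S : Subgroup G) = cj(g, (S : Subgroup G))
    · exact ⟨1, by rw [cj_one, ← h4], .refl⟩
    have h5 := h _ _ hS (hS.cj_of_mem trivial) h4 fun h5 => h2 (Subgroup.mem_bot.mp (h5 ▸ ⟨h1 ha, h3 ha⟩))
    have h6 : A ⊆ ((S : Subgroup G) ⊓ cj(g, (S : Subgroup G)) : Subgroup G) := fun x hx => ⟨h1 hx, h3 hx⟩
    generalize (S : Subgroup G) ⊓ cj(g, (S : Subgroup G)) = D at h5 h6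
    generalize cj(g, (S : Subgroup G)) = T at h5
    induction h5 with
    | refl => exact ⟨1, cj_one _, .refl⟩
    | @tail B C _ c ih =>
      obtain ⟨w, rfl, h7⟩ := ih
      obtain ⟨-, X, d, e, -, x, f, k, l⟩ := c
      have h8 : cj(x * w, (S : Subgroup G)) = C := by rw [← cj_cj, ← k, cj_cj_inv]
      refine ⟨x * w, h8, h7.tail ⟨cj(w⁻¹, X), ⟨mem_sylowMembers.mpr ⟨h0 X d _, ?_⟩, ?_⟩, ?_⟩⟩
      · have := e.cj w⁻¹
        rwa [cj_inf, cj_inv_cj] at this
      · rw [mem_cj]; convert f using 1; group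
      · refine conjRight_subset (H := (S : Subgroup G) ⊓ cj(w⁻¹, X)) |>.mpr (h6.trans (l.trans ?_))
        rw [cj_inf, h8, cj_cj, mul_inv_cancel_right, cj_eq_self_of_mem f]
  · intro h S T hS hT h1 h2
    obtain ⟨g, -, rfl⟩ := hS.exists_cj_eq hT
    obtain ⟨S, rfl⟩ := hS.exists_sylow_top
    obtain ⟨⟨a, ha⟩, h3⟩ := Subgroup.ne_bot_iff_exists_ne_one.mp h2
    generalize hD : (S : Subgroup G) ⊓ cj(g, (S : Subgroup G)) = D at *
    obtain ⟨n, Y, y, y₀, b, c, d, e⟩ := h S D g (hD.ge.trans inf_le_left) ⟨a, ha, fun h4 => h3 (Subtype.ext h4)⟩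
      (conjRight_subset (H := S) |>.mpr (hD.ge.trans inf_le_right))
    have h4 := (fus_iff (fun Y y => Y ∈ sylowMembers p 𝓕 (S : Subgroup G) ∧ y ∈ Y)
        (fun b Y => conjRight b D ⊆ (S : Set G) ∩ Y) _).mp ⟨n, Y, y, c, rfl, e⟩
    have h5 := rtg_lift (fun w => cj(w, (S : Subgroup G))) (s := Link p 𝓕 ⊤ D) h4 fun u v ⟨X, ⟨f, k⟩, l⟩ => by
      rw [mem_sylowMembers] at f
      have h6 : cj(v, X) = cj(u, X) := by
        rw [← mul_inv_cancel_left u v, ← cj_cj, cj_eq_self_of_mem k]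
      refine ⟨hS.cj_of_mem trivial, cj(u, X), h0 X f.1 u, by rw [← cj_inf]; exact f.2.cj u,
        by rw [← h6, ← cj_inf]; exact f.2.cj v, _, conj_mem_cj k, ?_, ?_⟩
      · rw [cj_cj]; congr 3; group
      · rw [← h6, ← cj_inf]
        exact (conjRight_subset (H := (S : Subgroup G) ⊓ X)).mp l
    rwa [cj_one, ← cj_eq_iff.mpr b, cj_cj, ← d, cj_eq_iff.mpr b] at h5

end Cfsg.Agent.S2939
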