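import Mathlib
import Cfsg.Statements.S2955
import Cfsg.Agent.H26.Chain

set_option autoImplicit false
open Cfsg

namespace Cfsg.Agent.S2955
open H26

/-- Let p be a prime dividing the order of the finite group G and 𝓕 a conjugation-closed family of subgroups that controls Sylow p-intersections in G. Suppose the Sylow p-subgroups of G are chain-connected: any two of them are joined by a chain of Sylow p-subgroups, consecutive ones distinct with nontrivial intersection, all containing the intersection of the two ends (equivalently, the graph on the Sylow p-subgroups whose edges are the distinct pairs meeting nontrivially is connected). Then for every Sylow p-subgroup S, G is generated by N_G(S) together with the members of 𝓕 that meet S in a Sylow p-subgroup of themselves. -/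
theorem result {G : Type*} [Group G] [Finite G] (p : ℕ) [Fact p.Prime] (hdiv : p ∣ Nat.card G)
    (𝓕 : Set (Subgroup G)) (h𝓕 : Cfsg.IsNormalSet 𝓕) (hc : Cfsg.ControlsSylowIntersections p 𝓕)
    (hconn : Cfsg.IsSylowChainConnected p G) (S : Sylow p G) :
    (⨆ X ∈ Cfsg.sylowMembers p 𝓕 (S : Subgroup G), X) ⊔ Subgroup.normalizer ((S : Subgroup G) : Set G) = ⊤ := by
  rw [ctrl_top_iff] at hc
  rw [chainConnected_iff] at hconn
  set H := (⨆ X ∈ Cfsg.sylowMembers p 𝓕 (S : Subgroup G), X) ⊔ Subgroup.normalizer ((S : Subgroup G) : Set G)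
  have h1 : ∀ {D A B : Subgroup G}, Relation.ReflTransGen (Link p 𝓕 ⊤ D) A B →
      (∃ h ∈ H, cj(h, (S : Subgroup G)) = A) → ∃ h ∈ H, cj(h, (S : Subgroup G)) = B := fun {D A B} a b => by
    induction a with
    | refl => exact b
    | tail _ c ih =>
      obtain ⟨h, hh, rfl⟩ := ih
      obtain ⟨-, X, d, e, -, x, f, k, -⟩ := c
      have h2 : cj(h⁻¹, X) ≤ H := le_trans (le_iSup₂_of_le (f := fun X (_ : X ∈ Cfsg.sylowMembers p 𝓕 (S : Subgroup G)) => X)
        _ (mem_sylowMembers.mpr ⟨h𝓕 X d h, by
          have := e.cj h⁻¹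
          rwa [cj_inf, cj_inv_cj] at this⟩) le_rfl) le_sup_left
      refine ⟨x * h, ?_, by rw [← cj_cj, ← k, cj_cj_inv]⟩
      have := mul_mem hh (h2 (conj_mem_cj f))
      rwa [show h * (h⁻¹ * x * h⁻¹⁻¹) = x * h by group] at this
  refine eq_top_iff.mpr fun g _ => ?_
  have h2 := hconn _ _ (isSyl_top S) ((isSyl_top S).cj_of_mem (g := g) trivial)
  suffices ∀ B, Relation.ReflTransGen (Adj p) (S : Subgroup G) B → ∃ h ∈ H, cj(h, (S : Subgroup G)) = B by
    obtain ⟨h, hh, h3⟩ := this _ h2
    refine (H.mul_mem_cancel_left (inv_mem hh)).mp (Subgroup.mem_sup_right ?_)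
    rw [← cj_eq_iff, ← cj_cj, ← h3, cj_inv_cj]
  intro B hB
  induction hB with
  | refl => exact ⟨1, one_mem _, cj_one _⟩
  | tail _ c ih =>
    obtain ⟨h, hh, rfl⟩ := ih
    exact h1 (hc _ _ ((isSyl_top S).cj_of_mem trivial) c.1 c.2.1 c.2.2) ⟨h, hh, rfl⟩

end Cfsg.Agent.S2955
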