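import Mathlib
import Cfsg.Statements.S2956
import Cfsg.Agent.H26.Chain

set_option autoImplicit false
open Cfsg

namespace Cfsg.Agent.S2956
open H26

/-- Let p be a prime dividing the order of the finite group G, and f an assignment to every p-subgroup P of a set f(P) of subgroups of P, each normalized by N_G(P), compatible with conjugation, such that for P ≠ 1 the members of f(P) are nontrivial. Let 𝓕 be the family of the normalizers N_G(F) of the members F of f(S) over the Sylow p-subgroups S of G, and 𝓕' the family of the maximal p-local subgroups M of G that are singular for f (the corresponding family of normalizers inside M does not control Sylow p-intersections in M). Then 𝓕 ∪ 𝓕' controls Sylow p-intersections in G. -/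
theorem result {G : Type*} [Group G] [Finite G] (p : ℕ) [Fact p.Prime] (hdiv : p ∣ Nat.card G)
    (f : Subgroup G → Set (Subgroup G)) (hf : Cfsg.IsNormalizerFunctor p f)
    (hf1 : ∀ P : Subgroup G, IsPGroup p ↥P → P ≠ ⊥ → ∀ F ∈ f P, F ≠ ⊥)
    (𝓕 𝓕' : Set (Subgroup G)) (h𝓕 : 𝓕 = Cfsg.functorFamily p f ⊤)
    (h𝓕' : 𝓕' = {M | Cfsg.IsMaximalPLocal p M ∧ ¬ Cfsg.IsFunctorRegular p f M}) :
    Cfsg.ControlsSylowIntersections p (𝓕 ∪ 𝓕') := by
  rw [ctrl_top_iff]
  suffices ∀ D : Subgroup G, D ≠ ⊥ → ∀ A B, IsSyl p A ⊤ → IsSyl p B ⊤ → D ≤ A → D ≤ B →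
      Relation.ReflTransGen (Link p (𝓕 ∪ 𝓕') ⊤ D) A B from
    fun A B a b _ c => this _ c A B a b inf_le_left inf_le_right
  intro D
  induction D using WellFoundedGT.induction with
  | ind D ih =>
  intro hD
  have ih1 : ∀ E A B, D < E → IsSyl p A ⊤ → IsSyl p B ⊤ → E ≤ A → E ≤ B →
      Relation.ReflTransGen (Link p (𝓕 ∪ 𝓕') ⊤ D) A B := fun E A B h a b c d =>
    rtg_lift id (ih E h (ne_bot_of_gt h) A B a b c d) fun _ _ e => e.anti h.le
  suffices ∀ k, ∀ L R : Subgroup G, IsPLocal p L → R ≤ L → IsPGroup p R → Nat.card G < Nat.card R + k →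
      ∀ A B, IsSyl p A ⊤ → IsSyl p B ⊤ → D < A ⊓ L → D < B ⊓ L →
      Relation.ReflTransGen (Link p (𝓕 ∪ 𝓕') ⊤ D) A B by
    intro A B a b c d
    by_cases h : A = B
    · rw [h]
    exact this (Nat.card G) _ ⊥ ⟨D, a.pg.to_le c, hD, rfl⟩ bot_le IsPGroup.of_bot (by simp) A B a b
      (lt_inf_normalizer a.pg (c.lt_of_ne fun e => h (a.max B b.pg (e ▸ d) le_top).symm))
      (lt_inf_normalizer b.pg (d.lt_of_ne fun e => h (b.max A a.pg (e ▸ c) le_top)))
  intro k
  induction k with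
  | zero => exact fun L R _ _ _ h => absurd (Subgroup.card_le_card_group R) (by omega)
  | succ k ihk =>
  intro L R hL hRL hR hc A B a b c d
  obtain ⟨M, hLM, hM⟩ := exists_maximal_ge_of_wellFoundedGT (IsPLocal p) L hL
  obtain ⟨P, hP, h1⟩ := exists_isSyl_ge (H := M) (a.pg.to_inf_left (K := M)) inf_le_right
  obtain ⟨Q, hQ, h2⟩ := exists_isSyl_ge (H := M) (b.pg.to_inf_left (K := M)) inf_le_right
  replace c := c.trans_le (inf_le_inf_left _ hLM)
  replace d := d.trans_le (inf_le_inf_left _ hLM)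
  by_cases hreg : IsFunctorRegular p f M
  swap
  · obtain ⟨A', a', h3⟩ := exists_isSyl_ge hP.pg le_top
    obtain ⟨m, hm, rfl⟩ := hP.exists_cj_eq hQ
    have h4 : A' ⊓ M = P := hP.max _ a'.pg.to_inf_left (le_inf h3 hP.le) inf_le_right
    have h5 : cj(m, A') ⊓ M = cj(m, P) := by rw [← h4, cj_inf, cj_eq_self_of_mem hm]
    exact ((ih1 _ A A' c a a' inf_le_left (h1.trans h3)).tail ⟨a'.cj_of_mem trivial, M,
      Or.inr (h𝓕' ▸ ⟨⟨hM.1, fun N e g => le_antisymm (hM.2 e g) g⟩, hreg⟩), h4 ▸ hP, h5 ▸ hQ, m, hm,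
      cj_inv_cj _ _, h5 ▸ d.le.trans h2⟩).trans
      (ih1 _ _ B d (a'.cj_of_mem trivial) b (h2.trans (cj_mono m h3)) inf_le_left)
  suffices ∀ V, Relation.ReflTransGen (Link p (functorFamily p f M) M (P ⊓ Q)) P V → IsSyl p V M ∧ D < V ∧
      ∀ B', IsSyl p B' ⊤ → V ≤ B' → Relation.ReflTransGen (Link p (𝓕 ∪ 𝓕') ⊤ D) A B' by
    obtain ⟨B', b', h3⟩ := exists_isSyl_ge hQ.pg le_top
    refine ((this Q ?_).2.2 B' b' h3).trans (ih1 _ _ B d b' b (h2.trans h3) inf_le_left)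
    by_cases h4 : P = Q
    · rw [h4]
    · exact regular_iff.mp hreg P Q hP hQ h4 fun h5 => hD (le_bot_iff.mp (h5 ▸ le_inf (c.le.trans h1) (d.le.trans h2)))
  intro V hV
  induction hV with
  | refl => exact ⟨hP, c.trans_le h1, fun B' b' h3 => ih1 _ A B' c a b' inf_le_left (h1.trans h3)⟩
  | @tail U V _ h6 ih =>
    obtain ⟨a1, X, a2, a3, a4, x, a5, a6, a7⟩ := h6
    obtain ⟨P₀, b1, F, b2, rfl⟩ := mem_functorFamily.mp a2
    have b0 := (hf P₀ b1.pg).1 F b2
    have b3 : IsSyl p P₀ (M ⊓ Subgroup.normalizer (F : Set G)) :=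
      b1.mono (le_inf b1.le (Subgroup.le_normalizer.trans b0.2)) inf_le_left
    have b4 : ∀ {C}, IsSyl p (C ⊓ (M ⊓ Subgroup.normalizer (F : Set G))) (M ⊓ Subgroup.normalizer (F : Set G)) →
        IsSyl p C M → C ≤ Subgroup.normalizer (F : Set G) := fun {C} c1 c2 =>
      (Subgroup.eq_of_le_of_card_ge inf_le_left ((c2.card_eq b1).le.trans (b3.card_eq c1).le)).ge.trans
        (inf_le_right.trans inf_le_right)
    have b5 : D ≤ V := (le_inf (c.le.trans h1) (d.le.trans h2)).trans (a7.trans inf_le_left)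
    have b6 : D < V := b5.lt_of_ne fun e => ih.2.1.ne
      (Subgroup.eq_of_le_of_card_ge ih.2.1.le (e ▸ (ih.1.card_eq a1).le))
    refine ⟨a1, b6, fun B' b' h3 => ?_⟩
    obtain ⟨A', a', h4⟩ := exists_isSyl_ge ih.1.pg le_top
    refine (ih.2.2 A' a' h4).trans ?_
    obtain ⟨S₀, s1, s2⟩ := exists_isSyl_ge b1.pg le_top
    rcases s2.eq_or_lt with rfl | s3
    · obtain rfl := (s1.of_card_le ih.1.pg le_top (b1.card_eq ih.1).le).max A' a'.pg h4 le_top
      obtain rfl := (s1.of_card_le a1.pg le_top (b1.card_eq a1).le).max B' b'.pg h3 le_top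
      refine .single ⟨b', _, Or.inl (h𝓕 ▸ mem_functorFamily.mpr ⟨P₀, s1, F, b2, rfl⟩), ?_, ?_, x,
        Subgroup.mem_inf.mpr ⟨Subgroup.mem_top x, a5.2⟩, a6, le_inf b5 (le_inf le_top (b5.trans (b4 a4 a1)))⟩
      · rw [top_inf_eq, inf_eq_left.mpr (b4 a3 ih.1)]; exact a'.mono (b4 a3 ih.1) le_top
      · rw [top_inf_eq, inf_eq_left.mpr (b4 a4 a1)]; exact b'.mono (b4 a4 a1) le_top
    · have s4 := lt_inf_normalizer s1.pg s3
      have s5 : Nat.card P₀ < Nat.card ↥(S₀ ⊓ Subgroup.normalizer (P₀ : Set G)) :=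
        lt_of_not_ge fun e => s4.ne (Subgroup.eq_of_le_of_card_ge s4.le e)
      have s6 := b1.card_le hR (hRL.trans hLM)
      refine ihk _ _ ⟨F, b1.pg.to_le b0.1, hf1 P₀ b1.pg (fun e => ?_) F b2, rfl⟩ (inf_le_right.trans b0.2)
        s1.pg.to_inf_left (by omega) A' B' a' b' (ih.2.1.trans_le (le_inf h4 (b4 a3 ih.1)))
        (b6.trans_le (le_inf h3 (b4 a4 a1)))
      have := b1.card_eq a1
      rw [e, Subgroup.card_bot, eq_comm, Subgroup.card_eq_one] at this
      exact ne_bot_of_gt b6 this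

end Cfsg.Agent.S2956
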