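import Mathlib
import Cfsg.Statements.S2957
import Cfsg.Agent.H26.Chain
import Cfsg.Agent.S2940

set_option autoImplicit false
open Cfsg

namespace Cfsg.Agent.S2957
open H26

/-- Let p be a prime dividing the order of the finite group G, f an equivariant assignment of a set of subgroups f(P) of P to every p-subgroup P, each normalized by N_G(P), and S a Sylow p-subgroup. If G = G₁G₂ for subgroups G₁, G₂ both containing S and both regular for f (in each Gᵢ, the family of normalizers in Gᵢ of the members of f(P), P a Sylow p-subgroup of Gᵢ, controls Sylow p-intersections), then G itself is regular for f. -/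
theorem result {G : Type*} [Group G] [Finite G] (p : ℕ) [Fact p.Prime] (hdiv : p ∣ Nat.card G)
    (f : Subgroup G → Set (Subgroup G)) (hf : Cfsg.IsNormalizerFunctor p f) (S : Sylow p G)
    (G₁ G₂ : Subgroup G) (h₁ : (S : Subgroup G) ≤ G₁) (h₂ : (S : Subgroup G) ≤ G₂)
    (hprod : ∀ g : G, ∃ g₁ ∈ G₁, ∃ g₂ ∈ G₂, g = g₁ * g₂)
    (hr₁ : Cfsg.IsFunctorRegular p f G₁) (hr₂ : Cfsg.IsFunctorRegular p f G₂) :
    Cfsg.IsFunctorRegular p f ⊤ := by
  rw [regular_iff] at *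
  have h0 : ∀ X ∈ functorFamily p f ⊤, ∀ g : G, cj(g, X) ∈ functorFamily p f ⊤ := fun X hX g => by
    obtain ⟨P, a, F, b, rfl⟩ := mem_functorFamily.mp hX
    refine mem_functorFamily.mpr ⟨_, a.cj_of_mem (g := g) trivial, cj(g, F), ?_, ?_⟩
    · rw [(hf P a.pg).2]; exact ⟨F, b, rfl⟩
    · rw [cj_inf, cj_top, cj_normalizer]
  have h1 : ∀ M : Subgroup G, (S : Subgroup G) ≤ M → Ctrl p (functorFamily p f M) M → ∀ A B D : Subgroup G,
      IsSyl p A ⊤ → IsSyl p B ⊤ → A ≤ M → B ≤ M → D ≠ ⊥ → D ≤ A → D ≤ B →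
      Relation.ReflTransGen (Link p (functorFamily p f ⊤) ⊤ D) A B := fun M hM h A B D a b c d e k l => by
    by_cases h2 : A = B
    · rw [h2]
    have h3 : ∀ {C}, IsSyl p C M → IsSyl p C ⊤ := fun hC =>
      (isSyl_top S).of_card_le hC.pg le_top ((isSyl_of_le S hM).card_eq hC).le
    have h4 := h A B (a.mono c le_top) (b.mono d le_top) h2 fun h4 => e (le_bot_iff.mp (h4 ▸ le_inf k l))
    have h5 := a.mono c le_top
    replace k := le_inf k l
    generalize A ⊓ B = E at h4 k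
    clear h2 l d b
    suffices IsSyl p B M ∧ _ from this.2
    induction h4 with
    | refl => exact ⟨h5, .refl⟩
    | @tail U V _ h6 ih =>
      obtain ⟨a1, X, a2, a3, a4, x, a5, a6, a7⟩ := h6
      obtain ⟨P, b1, F, b2, rfl⟩ := mem_functorFamily.mp a2
      have b3 : IsSyl p P (M ⊓ Subgroup.normalizer (F : Set G)) :=
        b1.mono (le_inf b1.le (Subgroup.le_normalizer.trans ((hf P b1.pg).1 F b2).2)) inf_le_left
      have b4 : ∀ {C}, IsSyl p (C ⊓ (M ⊓ Subgroup.normalizer (F : Set G))) (M ⊓ Subgroup.normalizer (F : Set G)) →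
          IsSyl p C M → IsSyl p (C ⊓ (⊤ ⊓ Subgroup.normalizer (F : Set G))) (⊤ ⊓ Subgroup.normalizer (F : Set G)) :=
        fun {C} c1 c2 => ((h3 b1).of_card_le c2.pg.to_inf_left le_top ((b3.card_eq c1).le.trans
          (Subgroup.card_le_of_le (inf_le_inf_left _ (inf_le_inf_right _ le_top))))).mono inf_le_right le_top
      exact ⟨a1, ih.2.tail ⟨h3 a1, _, mem_functorFamily.mpr ⟨P, h3 b1, F, b2, rfl⟩, b4 a3 ih.1, b4 a4 a1, x,
        ⟨trivial, a5.2⟩, a6, k.trans (a7.trans (inf_le_inf_left _ (inf_le_inf_right _ le_top)))⟩⟩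
  intro A B a b c d
  have hS := isSyl_top S
  obtain ⟨x, -, rfl⟩ := hS.exists_cj_eq a
  obtain ⟨y, -, rfl⟩ := hS.exists_cj_eq b
  obtain ⟨U, h2, h3⟩ := S2940.result S G₁ G₂ h₁ h₂ hprod (x⁻¹ * y)⁻¹
  simp only [subgroupConjRight, inv_inv] at h2 h3
  have h4 : cj(x, (S : Subgroup G)) ⊓ cj(y, (S : Subgroup G)) = cj(x, (S : Subgroup G) ⊓ cj(x⁻¹ * y, (S : Subgroup G))) := by
    rw [cj_inf, cj_cj, mul_inv_cancel_left]
  rw [h4] at d ⊢
  rw [Ne, cj_eq_bot_iff] at d
  have h5 := h1 G₁ h₁ hr₁ _ _ _ hS (isSyl_top U) h₁ (h3.trans inf_le_left) d inf_le_left h2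
  have h6 := h1 G₂ h₂ hr₂ _ _ cj((x⁻¹ * y)⁻¹, (S : Subgroup G) ⊓ cj(x⁻¹ * y, (S : Subgroup G)))
    ((isSyl_top U).cj_of_mem (g := (x⁻¹ * y)⁻¹) trivial) hS
    (by rw [cj_le_iff_le_cj, inv_inv]; exact h3.trans inf_le_right) h₂ (by rwa [Ne, cj_eq_bot_iff])
    (cj_mono _ h2) (by rw [cj_le_iff_le_cj, inv_inv]; exact inf_le_right)
  have h7 := rtg_lift (fun A => cj(y, A)) h6 fun _ _ h => h.cj h0 y
  simp only [cj_cj, mul_inv_rev, inv_inv, mul_inv_cancel_left] at h7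
  exact (rtg_lift (fun A => cj(x, A)) h5 fun _ _ h => h.cj h0 x).trans h7

end Cfsg.Agent.S2957
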