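import Mathlib
import Cfsg.Statements.S2958
import Cfsg.Agent.H26.Syl

set_option autoImplicit false
open Cfsg

namespace Cfsg.Agent.S2958
open H26

/-- Let X, A, B be subgroups of a group G such that G is generated by the conjugates of X and every conjugate of X is contained in A or in B. Then A = G or B = G. -/
theorem result {G : Type*} [Group G] (X A B : Subgroup G) (hgen : (⨆ g : G, X.map (MulAut.conj g).toMonoidHom) = ⊤) (hcover : ∀ g : G, X.map (MulAut.conj g).toMonoidHom ≤ A ∨ X.map (MulAut.conj g).toMonoidHom ≤ B) : A = ⊤ ∨ B = ⊤ := by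
  by_cases h : ∀ g : G, cj(g, X) ≤ A
  · exact Or.inl (eq_top_iff.mpr (hgen ▸ iSup_le h))
  obtain ⟨a, ha⟩ := not_forall.mp h
  set N : Subgroup G := ⨆ g : {g : G // ¬ cj(g, X) ≤ A}, cj(g.1, X) with hN
  have h1 : ∀ g : G, ¬ cj(g, X) ≤ A → cj(g, X) ≤ N := fun g hg =>
    le_iSup (fun g : {g : G // ¬ cj(g, X) ≤ A} => cj(g.1, X)) ⟨g, hg⟩
  have h2 : ∀ x ∈ A, cj(x, N) ≤ N := fun x hx => by
    rw [hN, cj_iSup]
    refine iSup_le fun g => ?_
    rw [cj_cj]
    refine h1 _ fun h3 => g.2 ?_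
    rwa [← cj_cj, cj_le_iff_le_cj, cj_eq_self_of_mem (inv_mem hx)] at h3
  have h3 : A ≤ Subgroup.normalizer (N : Set G) := fun x hx => cj_eq_iff.mp (le_antisymm (h2 x hx) (by
    have := h2 _ (inv_mem hx)
    rwa [cj_le_iff_le_cj, inv_inv] at this))
  have : N.Normal := normal_of_top_le (hgen ▸ iSup_le fun g => by
    by_cases h4 : cj(g, X) ≤ A
    · exact h4.trans h3
    · exact (h1 g h4).trans Subgroup.le_normalizer)
  refine Or.inr (eq_top_iff.mpr (hgen ▸ iSup_le fun g => le_trans ?_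
    (iSup_le fun g => (hcover g.1).resolve_left g.2 : N ≤ B)))
  have := cj_mono (g * a⁻¹) (h1 a ha)
  rwa [cj_cj, inv_mul_cancel_right, cj_eq_of_normal _ N] at this

end Cfsg.Agent.S2958
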