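import Mathlib
import Cfsg.Statements.S2961
import Cfsg.Agent.H26.Misc
import Cfsg.Agent.S2960

set_option autoImplicit false
open Cfsg

namespace Cfsg.Agent.S2961
open H26

/-- Let G be a finite group of characteristic p (C_G(O_p(G)) ≤ O_p(G)), p prime, T a Sylow p-subgroup of G and Q a normal subgroup of T with C_T(Q) ≤ Q. Then every subgroup L of G containing Q has characteristic p: C_L(O_p(L)) ≤ O_p(L). -/
theorem result {G : Type*} [Group G] [Finite G] {p : ℕ} [Fact p.Prime] (hG : Subgroup.centralizer (Cfsg.pCore p G : Set G) ≤ Cfsg.pCore p G) (T : Sylow p G) (Q : Subgroup G) (hQT : Q ≤ (T : Subgroup G)) (hQn : (T : Subgroup G) ≤ Subgroup.normalizer (Q : Set G)) (hC : (T : Subgroup G) ⊓ Subgroup.centralizer (Q : Set G) ≤ Q) (L : Subgroup G) (hQL : Q ≤ L) : Subgroup.centralizer (Cfsg.pCore p ↥L : Set ↥L) ≤ Cfsg.pCore p ↥L := by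
  have hQ := T.isPGroup'.to_le hQT
  have h0 := S2960.result hG T Q hQT hQn hC
  have hG' := isCharP_top_iff.mp hG
  set D := L ⊓ Subgroup.centralizer (pCoreOf p L : Set G) with hD
  have hLD : L ≤ Subgroup.normalizer (D : Set G) :=
    le_normalizer_inf Subgroup.le_normalizer (le_normalizer_centralizer (le_normalizer_pCoreOf L))
  have a1 : ⁅pCore p G, Q⁆ ≤ pCoreOf p L :=
    (le_inf ((commutator_le_of_le_normalizer' ((pCore_le_sylow T).trans hQn)).trans hQL)
      (Subgroup.commutator_le_left _ _)).trans (inf_pCore_le L)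
  have a2 : D ≤ Subgroup.centralizer ((⁅pCore p G, Q⁆ : Subgroup G) : Set G) :=
    inf_le_right.trans (centralizer_anti a1)
  have a3 : ⁅pCore p G, ncl Q D⁆ ≤ ⁅pCore p G, Q⁆ := commutator_ncl_le'
    Subgroup.le_normalizer_of_normal (a2.trans (centralizer_le_normalizer _))
    (Subgroup.normalizer_commutator_ge_right _ _) le_rfl
  have a4 : ⁅Q, D⁆ ≤ D := commutator_le_of_le_normalizer' (hQL.trans hLD)
  have a5 : IsPGroup p (⁅Q, D⁆ : Subgroup G) := isPGroup_of_forall_coprime fun x hx hc =>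
    hG'.eq_one trivial hc (pCoreOf_top (p := p) (G := G) ▸ mem_centralizer_of_two_step
      (isPGroup_pCore.to_le (Subgroup.commutator_le_left _ _)) hc (fun v hv => a3 (by
        rw [Subgroup.commutator_comm]
        exact Subgroup.commutator_mem_commutator (commutator_le_ncl Q D hx) hv)) (a2 (a4 hx)))
  have a6 : ⁅Q, D⁆ ≤ pCoreOf p L := (le_pCoreOf a4 (Subgroup.normalizer_commutator_ge_right _ _)
    a5).trans (pCoreOf_le_of_normal inf_le_left hLD)
  refine isCharP_iff.mpr (isCharP_of_coprime fun x hx hc h1 => eq_one_of_mem_pGroup hQ (h0 ?_) hc)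
  exact mem_centralizer_of_two_step (isPGroup_pCoreOf L) hc (fun v hv => a6 (by
    rw [Subgroup.commutator_comm]; exact Subgroup.commutator_mem_commutator (show x ∈ D from ⟨hx, h1⟩) hv)) h1

end Cfsg.Agent.S2961
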