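import Mathlib
import Cfsg.Statements.S2962
import Cfsg.Agent.H16.ZStarGen
import Cfsg.Agent.H04.Amb
import Cfsg.Agent.S0205

set_option autoImplicit false
open Cfsg

namespace Cfsg.Agent.S2962

open Subgroup H16
open scoped commutatorElement

theorem fix_comm {G : Type*} [Group G] {Q : Subgroup G} {x : G}
    (h : ∀ q ∈ Q, ∀ r ∈ Q, Commute (q⁻¹ * (x * q * x⁻¹)) r ∧ Commute (q⁻¹ * (x * q * x⁻¹)) (x * r * x⁻¹)) :
    ⁅Q, Q⁆ ≤ centralizer {x} := by
  rw [commutator_le]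
  intro a ha b hb
  rw [mem_centralizer_singleton_iff, eq_comm, ← mul_inv_eq_iff_eq_mul]
  have h1 := (h a ha b hb).2.eq
  have h2 := (h b hb a ha).1.inv_right.eq
  generalize hd : a⁻¹ * (x * a * x⁻¹) = d at h1
  generalize he : b⁻¹ * (x * b * x⁻¹) = e at h2
  have ha' : x * a * x⁻¹ = a * d := by rw [← hd]; group
  have hb' : x * b * x⁻¹ = b * e := by rw [← he]; group
  calc x * ⁅a, b⁆ * x⁻¹ = (x * a * x⁻¹) * (x * b * x⁻¹) * (x * a * x⁻¹)⁻¹ * (x * b * x⁻¹)⁻¹ := by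
        rw [commutatorElement_def]; group
    _ = a * (d * (x * b * x⁻¹)) * d⁻¹ * a⁻¹ * (x * b * x⁻¹)⁻¹ := by rw [ha']; group
    _ = a * b * (e * a⁻¹) * e⁻¹ * b⁻¹ := by rw [h1, hb']; group
    _ = _ := by rw [h2, commutatorElement_def]; group

/-- Let G be a finite group with G = QN, where N is a normal subgroup of G and Q is a non-abelian 2-subgroup with Q ∩ N = 1. Suppose that some nontrivial element t of Z(Q) ∩ [Q, Q] satisfies C_N(Q) = C_N(t). Then [N, Q] is solvable of odd order. -/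
theorem result {G : Type*} [Group G] [Finite G] (N Q : Subgroup G) [N.Normal] (hG : Q ⊔ N = ⊤) (hQ : IsPGroup 2 ↥Q) (hQna : ¬ IsMulCommutative ↥Q) (hdisj : Q ⊓ N = ⊥) (t : G) (ht1 : t ≠ 1) (htZ : t ∈ Q ⊓ Subgroup.centralizer (Q : Set G)) (htQ : t ∈ ⁅Q, Q⁆) (hC : N ⊓ Subgroup.centralizer (Q : Set G) = N ⊓ Subgroup.centralizer ({t} : Set G)) : Group.IsSolvable ↥⁅N, Q⁆ ∧ Odd (Nat.card ↥⁅N, Q⁆) := by
  obtain ⟨S, hQS⟩ := hQ.exists_le_sylow
  have hNn : N.Normal := inferInstance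
  set C := (S : Subgroup G) ⊓ N ⊓ centralizer (Q : Set G) with hCdef
  have hP : (S : Subgroup G) ⊓ N ≤ C := by
    by_contra hne
    have hlt : C < (S : Subgroup G) ⊓ N := lt_of_le_not_ge inf_le_left hne
    obtain ⟨y, hyP, hyN, hyC, -⟩ := H04.exists_card_mul_of_lt (S.isPGroup'.to_le inf_le_left) hlt
    set R := (S : Subgroup G) ⊓ normalizer (C : Set G) with hR
    obtain ⟨x, hx, hxC, -, hx2⟩ := H04.exists_central_step' (p := 2) (R := R) (M := C) (N := R ⊓ N)
      (S.isPGroup'.to_le inf_le_left) inf_le_left inf_le_right (fun r hr => by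
        apply mem_normalizer_of_conj_mem
        intro a ha
        exact mem_inf.2 ⟨mul_mem (mul_mem hr ha.1) (inv_mem hr), hNn.conj_mem _ ha.2 _⟩)
      (fun h => hyC (h ⟨⟨hyP.1, hyN⟩, hyP.2⟩))
    have hQR : Q ≤ R := fun q hq => ⟨hQS hq, by
      apply mem_normalizer_of_conj_mem
      intro a ha
      rw [ha.2 q hq, mul_inv_cancel_right]; exact ha⟩
    have h1 := fix_comm (Q := Q) (x := x) (fun q hq r hr => by
      have h2 : q⁻¹ * (x * q * x⁻¹) ∈ C := by
        have := inv_mem (hx2 q⁻¹ (hQR (inv_mem hq)))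
        convert this using 1
        rw [commutatorElement_def]; group
      refine ⟨(h2.2 r hr).symm, ?_⟩
      have h3 := ((mem_normalizer_iff.1 (inv_mem hx.1.2) _).1 h2).2 r hr
      change _ = _
      calc q⁻¹ * (x * q * x⁻¹) * (x * r * x⁻¹) = x * (x⁻¹ * (q⁻¹ * (x * q * x⁻¹)) * x⁻¹⁻¹ * r) * x⁻¹ := by group
        _ = _ := by rw [← h3]; group) htQ
    apply hxC
    have h4 : x ∈ N ⊓ centralizer ({t} : Set G) := ⟨hx.2, mem_centralizer_singleton_iff.2 (mem_centralizer_singleton_iff.1 h1).symm⟩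
    rw [← hC] at h4
    exact ⟨⟨hx.1.1, hx.2⟩, h4.2⟩
  have htS : t ∈ (S : Subgroup G) := hQS htZ.1
  have hSt : ∀ s ∈ (S : Subgroup G), Commute s t := by
    intro s hs
    obtain ⟨q, hq, n, hn, rfl⟩ := mem_sup_of_normal_right.1 (hG ▸ mem_top s)
    have h1 : n ∈ C := hP (mem_inf.2 ⟨(S : Subgroup G).mul_mem_cancel_left (hQS hq) |>.1 hs, hn⟩)
    exact Commute.mul_left (htZ.2 q hq) (h1.2 t htZ.1).symm
  have hweak : ∀ g : G, g * t * g⁻¹ ∈ (S : Subgroup G) → g * t * g⁻¹ = t := by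
    intro g hg
    obtain ⟨n, hn, q, hq, rfl⟩ := mem_sup_of_normal_left.1 ((sup_comm Q N ▸ hG) ▸ mem_top g)
    have h0 : n * q * t * (n * q)⁻¹ = n * t * n⁻¹ := by rw [mul_assoc n, htZ.2 q hq]; group
    rw [h0] at hg ⊢
    set u := n * t * n⁻¹ with hu
    have hc : t⁻¹ * u ∈ C := hP (mem_inf.2 ⟨mul_mem (inv_mem htS) hg, by
      have : t⁻¹ * u = (t⁻¹ * n * t⁻¹⁻¹) * n⁻¹ := by rw [hu]; group
      rw [this]; exact mul_mem (hNn.conj_mem _ hn _) (inv_mem hn)⟩)
    -- elements of `N` centralizing `u` centralize `Q ^ n`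
    have hCu : ∀ c ∈ N, Commute c u → ∀ r ∈ Q, Commute c (n * r * n⁻¹) := by
      intro c hc hcu r hr
      have h1 : n⁻¹ * c * n⁻¹⁻¹ ∈ N ⊓ centralizer ({t} : Set G) := ⟨hNn.conj_mem _ hc _, mem_centralizer_singleton_iff.2 (by
        calc n⁻¹ * c * n⁻¹⁻¹ * t = n⁻¹ * (c * u) * n := by rw [hu]; group
          _ = _ := by rw [hcu.eq, hu]; group)⟩
      rw [← hC] at h1
      have h2 := h1.2 r hr
      change _ = _
      calc c * (n * r * n⁻¹) = n * (n⁻¹ * c * n⁻¹⁻¹ * r) * n⁻¹ := by group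
        _ = _ := by rw [← h2]; group
    have hQu : ∀ r ∈ Q, Commute r u := by
      intro r hr
      have : u = t * (t⁻¹ * u) := by group
      rw [this]
      exact Commute.mul_right (htZ.2 r hr) (hc.2 r hr)
    have hQnu : ∀ r ∈ Q, Commute (n * r * n⁻¹) u := by
      intro r hr
      change _ = _
      calc n * r * n⁻¹ * u = n * (r * t) * n⁻¹ := by rw [hu]; group
        _ = _ := by rw [htZ.2 r hr, hu]; group
    have hQnt : ∀ r ∈ Q, Commute (n * r * n⁻¹) t := by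
      intro r hr
      have : t = u * (t⁻¹ * u)⁻¹ := by group
      rw [this]
      refine Commute.mul_right (hQnu r hr) (Commute.inv_right (hCu _ hc.1.2 ?_ r hr).symm)
      exact Commute.mul_left (hSt u hg).symm.inv_left (Commute.refl u)
    have h1 := fix_comm (Q := Q) (x := n) (fun q hq r hr => by
      have h2 : q⁻¹ * (n * q * n⁻¹) ∈ N := by
        have : q⁻¹ * (n * q * n⁻¹) = (q⁻¹ * n * q⁻¹⁻¹) * n⁻¹ := by group
        rw [this]; exact mul_mem (hNn.conj_mem _ hn _) (inv_mem hn)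
      refine ⟨?_, hCu _ h2 (Commute.mul_left (hQu q hq).inv_left (hQnu q hq)) r hr⟩
      have h3 : q⁻¹ * (n * q * n⁻¹) ∈ N ⊓ centralizer ({t} : Set G) :=
        ⟨h2, mem_centralizer_singleton_iff.2 (Commute.mul_left (Commute.inv_left (htZ.2 q hq)) (hQnt q hq))⟩
      rw [← hC] at h3
      exact (h3.2 r hr).symm) htQ
    rw [hu, ← mem_centralizer_singleton_iff.1 h1, mul_inv_cancel_right]
  have hON : oddCore G ≤ N := by
    intro o ho
    apply mem_of_coprime_index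
    have h1 : N.index ∣ Nat.card Q := by
      rw [← relIndex_top_right, ← hG, relIndex_sup_right]
      exact relIndex_dvd_card _ _
    obtain ⟨k, hk⟩ := IsPGroup.iff_card.1 hQ
    rw [hk] at h1
    exact Nat.Coprime.coprime_dvd_right h1 ((H02.orderOf_coprime_of_mem_pPrimeCore ho).pow_right k)
  have hle : ⁅N, Q⁆ ≤ oddCore G := by
    rw [commutator_le]
    intro n hn q hq
    obtain ⟨o, ho, h1⟩ := weak_exists_conj S htS hweak (oddCore G) (g := n) (by
      have : n * t * n⁻¹ = (t * n * t⁻¹ * n⁻¹)⁻¹ * t := by group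
      rw [this]
      exact mul_mem (mem_sup_right (inv_mem (zstar_weak S htS hweak n))) (mem_sup_left htS))
    have h2 : o * n ∈ N ⊓ centralizer ({t} : Set G) := ⟨mul_mem (hON ho) hn, mem_centralizer_singleton_iff.2 (by
      calc o * n * t = (o * (n * t * n⁻¹) * o⁻¹) * (o * n) := by group
        _ = _ := by rw [h1])⟩
    rw [← hC] at h2
    have h3 := h2.2 q hq
    have : ⁅n, q⁆ = o⁻¹ * (q * o * q⁻¹) := by
      calc ⁅n, q⁆ = o⁻¹ * (o * n * q) * n⁻¹ * q⁻¹ := by rw [commutatorElement_def]; group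
        _ = _ := by rw [← h3]; group
    rw [this]
    exact mul_mem (inv_mem ho) ((inferInstance : (oddCore G).Normal).conj_mem _ ho _)
  have hodd : Odd (Nat.card ↥⁅N, Q⁆) := Odd.of_dvd_nat (H08.odd_card_oddCore G) (card_dvd_of_le hle)
  exact ⟨Cfsg.Agent.S0205.result hodd, hodd⟩

end Cfsg.Agent.S2962
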