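import Mathlib
import Cfsg.Statements.S2963

set_option autoImplicit false
open Cfsg

namespace Cfsg.Agent.S2963

open MulAction Subgroup

/-- Let n be odd. If the symmetric group of degree n is a minimal parabolic group for the prime 2, that is, a Sylow 2-subgroup is not normal and lies in exactly one maximal subgroup, then n = 2^m + 1 for some natural number m. -/
theorem result (n : ℕ) (hn : Odd n) (h : Cfsg.IsPMinimal 2 (Equiv.Perm (Fin n))) : ∃ m : ℕ, n = 2 ^ m + 1 := by
  classical
  obtain ⟨S⟩ : Nonempty (Sylow 2 (Equiv.Perm (Fin n))) := inferInstance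
  obtain ⟨hnn, M, ⟨hM, hSM⟩, huniq⟩ := h S
  obtain ⟨x, hx⟩ := S.isPGroup'.nonempty_fixed_point_of_prime_not_dvd_card (Fin n)
    (by rw [Nat.card_fin]; exact hn.not_two_dvd_nat)
  have hle : ∀ K : Subgroup (Equiv.Perm (Fin n)), K ≠ ⊤ → (S : Subgroup _) ≤ K → K ≤ M := by
    intro K hK hS
    obtain ⟨N, hN, hKN⟩ := (eq_top_or_exists_le_coatom K).resolve_left hK
    exact huniq N ⟨hN, hS.trans hKN⟩ ▸ hKN
  haveI : Nontrivial (Fin n) := by
    by_contra hc
    rw [not_nontrivial_iff_subsingleton] at hc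
    exact hnn (by rw [Subsingleton.elim (S : Subgroup (Equiv.Perm (Fin n))) ⊥]; infer_instance)
  haveI : IsPreprimitive (Equiv.Perm (Fin n)) (Fin n) :=
    isPreprimitive_of_is_two_pretransitive (Equiv.Perm.isMultiplyPretransitive _ 2)
  have hx' : (S : Subgroup _) ≤ stabilizer (Equiv.Perm (Fin n)) x := fun g hg => hx ⟨g, hg⟩
  have hMx : M = stabilizer (Equiv.Perm (Fin n)) x :=
    (huniq _ ⟨IsPreprimitive.isCoatom_stabilizer_of_isPreprimitive _ x, hx'⟩).symm
  obtain ⟨y, hy⟩ := exists_ne x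
  let A : Set (Fin n) := orbit (S : Subgroup (Equiv.Perm (Fin n))) y
  have hxA : x ∉ A := by
    rintro ⟨g, hg⟩
    apply hy
    have h1 : g⁻¹ • x = x := hx g⁻¹
    rw [← h1, ← hg]; simp
  let K : Subgroup (Equiv.Perm (Fin n)) :=
    { carrier := {g | ∀ z, g z ∈ A ↔ z ∈ A}
      mul_mem' := fun {a b} ha hb z => (ha _).trans (hb z)
      one_mem' := fun z => Iff.rfl
      inv_mem' := fun {a} ha z => by rw [← ha]; simp }
  have hSK : (S : Subgroup _) ≤ K := by
    intro g hg z
    constructor
    · rintro ⟨k, hk⟩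
      refine ⟨(⟨g, hg⟩ : (S : Subgroup _))⁻¹ * k, ?_⟩
      simp only at hk ⊢
      rw [mul_smul, hk]
      exact g.symm_apply_apply z
    · rintro ⟨k, hk⟩
      refine ⟨(⟨g, hg⟩ : (S : Subgroup _)) * k, ?_⟩
      simp only at hk ⊢
      rw [mul_smul, hk]; rfl
  have hK : K ≠ ⊤ := by
    intro h
    have : Equiv.swap x y ∈ K := h ▸ mem_top _
    have := this x
    rw [Equiv.swap_apply_left] at this
    exact hxA (this.1 (mem_orbit_self y))
  have hall : A = {x}ᶜ := by
    apply Set.Subset.antisymm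
    · rintro z hz rfl; exact hxA hz
    · intro z hz
      by_contra hzA
      have h1 : Equiv.swap x z ∈ K := by
        intro w
        rw [Equiv.swap_apply_def]
        split_ifs with h1 h2
        · rw [h1]; exact iff_of_false hzA hxA
        · rw [h2]; exact iff_of_false hxA hzA
        · rfl
      have h2 := hle K hK hSK h1
      rw [hMx, mem_stabilizer_iff, Equiv.Perm.smul_def, Equiv.swap_apply_left] at h2
      exact hz h2
  obtain ⟨m, hm⟩ := S.isPGroup'.card_orbit y
  refine ⟨m, ?_⟩
  rw [← hm]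
  change n = Nat.card A + 1
  rw [hall, Nat.card_coe_set_eq, Set.ncard_compl, Set.ncard_singleton, Nat.card_fin]
  have := hn.pos
  omega

end Cfsg.Agent.S2963
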