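import Mathlib
import Cfsg.Statements.S2981
import Cfsg.Agent.H26.PM6

set_option autoImplicit false
open Cfsg

namespace Cfsg.Agent.S2981
open H26

open H17 H24
open scoped BG

/-- The local C**(G,T)-Theorem for minimal parabolic groups. Let G be a finite p-minimal group (a Sylow p-subgroup T is not normal and lies in exactly one maximal subgroup) of characteristic p (C_G(O_p(G)) ≤ O_p(G)), and suppose G ≠ C**(G,T), the subgroup generated by C_G(Ω₁(Z(T))) and N_G(J(T)) (J(T) generated by the elementary abelian p-subgroups of T of largest order). Put V = Ω₁(Z(O_p(G))) and C = C_G(V). Then there are subgroups E₁, …, E_r of G containing C such that: J(G)TC = G and the E_i C/C form an internal direct product equal to J(G)C/C; any two of the E_i are conjugate by an element of T; V = C_V(⟨E_i⟩)·∏[V, E_i] with [V, E_i, E_j] = 1 for i ≠ j; for some n ≥ 1, each E_i/C is isomorphic to SL₂(pⁿ), or p = 2 and to the symmetric group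 of degree 2ⁿ + 1; and E_i acts on [V, E_i]/C_{[V,E_i]}(E_i) as the natural two-dimensional SL₂(pⁿ)-module, respectively as the symmetric group of degree 2ⁿ+1 on its even-weight permutation module. -/
theorem result {G : Type*} [Group G] [Finite G] {p : ℕ} [Fact p.Prime] (hmin : Cfsg.IsPMinimal p G) (hG : Subgroup.centralizer (Cfsg.pCore p G : Set G) ≤ Cfsg.pCore p G) (T : Sylow p G) (hne : Cfsg.cStarStarOf p (T : Subgroup G) ≠ ⊤) : ∃ (r : ℕ) (E : Fin r → Subgroup G), (∀ i, Subgroup.centralizer (Cfsg.omegaOneCenter p (Cfsg.pCore p G) : Set G) ≤ E i) ∧ Cfsg.thompsonSubgroup p G ⊔ (T : Subgroup G) ⊔ Subgroup.centralizer (Cfsg.omegaOneCenter p (Cfsg.pCore p G) : Set G) = ⊤ ∧ (⨆ i, E i) = Cfsg.thompsonSubgroup p G ⊔ Subgroup.centralizer (Cfsg.omegaOneCenter p (Cfsg.pCore p G) : Set G) ∧ (∀ i j, i ≠ j → ⁅E i, E j⁆ ≤ Subgroup.centralizer (Cfsg.omegaOneCenter p (Cfsg.pCore p G) : Set G)) ∧ (∀ i, E i ⊓ (⨆ j ∈ {j | j ≠ i}, E j) ≤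 Subgroup.centralizer (Cfsg.omegaOneCenter p (Cfsg.pCore p G) : Set G)) ∧ (∀ i j, ∃ t ∈ (T : Subgroup G), (E i).map (MulAut.conj t).toMonoidHom = E j) ∧ (Cfsg.omegaOneCenter p (Cfsg.pCore p G) ⊓ Subgroup.centralizer ((⨆ i, E i : Subgroup G) : Set G)) ⊔ (⨆ i, ⁅Cfsg.omegaOneCenter p (Cfsg.pCore p G), E i⁆) = Cfsg.omegaOneCenter p (Cfsg.pCore p G) ∧ (∀ i j, i ≠ j → ⁅⁅Cfsg.omegaOneCenter p (Cfsg.pCore p G), E i⁆, E j⁆ = ⊥) ∧ ∀ i, ∃ n : ℕ, 1 ≤ n ∧ ((∃ (F : Type) (_ : Field F) (_ : Fintype F), Fintype.card F = p ^ n ∧ (∃ _ : ((Subgroup.centralizer (Cfsg.omegaOneCenter p (Cfsg.pCore p G) : Set G)).subgroupOf (E i)).Normal, Nonempty (↥(E i) ⧸ (Subgroup.centralizer (Cfsg.omegaOneCenter p (Cfsg.pCore p G) : Set G)).subgroupOf (E i) ≃* Matrix.SpecialLinearGroup (Fin 2) F)) ∧ Cfsg.ActsAsSL2OnSection F ⊤ (E i) ⁅Cfsg.omegaOneCenter p (Cfsg.pCore p G), E i⁆ (⁅Cfsg.omegaOneCenter p (Cfsg.pCore p G), E i⁆ ⊓ Subgroup.centralizer ((E i : Subgroup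 G) : Set G))) ∨ (p = 2 ∧ (∃ _ : ((Subgroup.centralizer (Cfsg.omegaOneCenter p (Cfsg.pCore p G) : Set G)).subgroupOf (E i)).Normal, Nonempty (↥(E i) ⧸ (Subgroup.centralizer (Cfsg.omegaOneCenter p (Cfsg.pCore p G) : Set G)).subgroupOf (E i) ≃* Equiv.Perm (Fin (2 ^ n + 1)))) ∧ Cfsg.ActsAsOddPermModuleOnSection (2 ^ n + 1) ⊤ (E i) ⁅Cfsg.omegaOneCenter p (Cfsg.pCore p G), E i⁆ (⁅Cfsg.omegaOneCenter p (Cfsg.pCore p G), E i⁆ ⊓ Subgroup.centralizer ((E i : Subgroup G) : Set G)))) := by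
  obtain ⟨M, pm⟩ := exists_pMin_top hmin T
  have ch := isCharP_top_iff.mp hG
  have z := ch.omegaZ_le_omegaZ pm.syl
  have el : IsElementaryAbelian p (omegaOneCenter p (pCore p G)) := omegaZ_elemAb _
  have OV : pCore p G ≤ C_(omegaOneCenter p (pCore p G)) := le_centralizer_omegaZ _
  have VO : omegaOneCenter p (pCore p G) ≤ pCore p G := omegaZ_le _
  have nV : ⊤ ≤ N_(omegaOneCenter p (pCore p G)) := le_normalizer_omegaZ Subgroup.le_normalizer_of_normal
  rw [pCoreOf_top] at z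
  change _ ≤ omegaOneCenter p (pCore p G) at z
  generalize omegaOneCenter p (pCore p G) = V at *
  have cs : cStarStarOf p (T : Subgroup G) ≤ M := pm.um.max _ (le_sup_of_le_left (le_centralizer_omegaZ _)) hne.lt_top
  have zz : ⊤ ⊓ C_(V ⊓ C_((T : Subgroup G))) ≤ M := inf_le_right.trans ((centralizer_anti (le_inf z
    (omegaZ_le_centralizer _))).trans (le_sup_left.trans cs))
  have h := hol_pmm pm el nV (pCoreOf_top (p := p) (G := G) ▸ OV) zz
  have N : ∀ {X : Subgroup G}, X ≤ N_(V) := fun {X} => le_top.trans nV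
  have nJ : ⊤ ≤ N_(thompsonSubgroupOf p (⊤ : Subgroup G)) := Subgroup.le_normalizer.trans (normalizer_le_normalizer_thompsonOf p ⊤)
  obtain ⟨A, a1, a2⟩ := PUC.exists_A (n := p) (S := T) (T := C_(V)) fun a => pm.um.lt.not_ge (le_trans (by
    rw [← thompsonOf_eq_of_le ((le_inf (thompsonOf_le _ _) a).trans ((le_pCoreOf le_top (pm.um.le_normalizer_inf pm.syl le_rfl
      ((centralizer_anti inf_le_left).trans ((le_inf le_top le_rfl).trans zz)) (le_normalizer_centralizer nV))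
      pm.syl.pg.to_inf_left))) pm.syl.pCoreOf_le]
    exact (le_normalizer_pCoreOf _).trans (normalizer_le_normalizer_thompsonOf _ _)) (le_sup_right.trans cs))
  have off : ∀ A ∈ maxAb p (⊤ : Subgroup G), IsPGroup p (im (holA V) A) ∧ ⁅im (holA V) A, im (holA V) A⁆ ≤ C_(im (holV V) V) ∧
      Nat.card (im (holV V) V) ≤ H01.mv (im (holV V) V) (im (holA V) A) := fun A a =>
    ⟨isPGroup_im (elemAb_isPGroup a.2.1), by
      rw [← im_commutator N N, commutator_eq_bot_iff'.mpr (isMulCommutative_iff_le.mp a.2.1.1), im_bot]; exact bot_le,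
      hol_off N (maxAb_off a el le_top)⟩
  replace a1 := maxAb_syl pm.syl a1
  obtain ⟨X, x1, x2⟩ := exists_mos (im_mono le_top) (off A a1).1 (off A a1).2.1 (by rwa [Ne, im_eq_bot_iff N, kr_holA])
    (off A a1).2.2
  obtain ⟨A', B, k, b⟩ := h.exists_bd (MOs.cl h.nV) subset_rfl x2
  have e := h.pm.eq_of_not_le (k.DP k.hB) b
  obtain ⟨r, E, j1, j2, j3, j4, j5, j6, j7, j8, j9, j10⟩ := k.decomp e
  have J : im (holA V) (thompsonSubgroupOf p ⊤) = ⨆ i, E i := by
    rw [j10, h.ncl_eq k e]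
    exact le_antisymm ((im_le_iff N).mpr (thompsonOf_le_iff.mpr fun A a => (im_le_iff N).mp (h.off_le x2 (im_mono le_top)
      (off A a).1 (off A a).2.1 (off A a).2.2))) (h.sSup_le k e x2 (x1.trans (im_mono (le_thompsonOf a1))) (im_le_normalizer nJ))
  obtain ⟨E, kE, rfl⟩ : ∃ E' : Fin r → Subgroup G, (∀ i, kr (holA V) ≤ E' i) ∧ (fun i => im (holA V) (E' i)) = E :=
    ⟨fun i => pre _ (E i), fun i => kr_le_pre _, funext fun i => im_pre (j2 i)⟩
  have W : ∀ X, ⁅V, X⁆ ≤ V := fun X => commutator_le_of_le_normalizer N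
  have kE' : kr (holA V) ≤ ⨆ i, E i := le_iSup_of_le ⟨0, j1⟩ (kE _)
  simp only [← im_iSup fun _ => N, hol_commutator N le_rfl, hol_commutator N (W _), hol_inf_centralizer N,
    ← im_iSup fun _ => W _, ← im_sup inf_le_left (iSup_le fun _ => W _), holV_eq_bot_iff ((Subgroup.commutator_mono (W _)
    le_rfl).trans (W _)), ← im_sup N N] at j5 j7 j8 j9 J
  rw [thompsonSubgroup_eq_top]
  refine ⟨r, E, fun i => kr_holA (V := V) ▸ kE i, ?_, ?_, fun i j a => ?_, fun i => ?_, fun i j => ?_, le_antisymm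
    (sup_le inf_le_left (iSup_le fun _ => W _)) ((holV_le_iff le_rfl (sup_le inf_le_left (iSup_le fun _ => W _))).mp j7.ge),
    j8, fun i => (j9 i).imp fun n => And.imp_right (Or.imp (fun ⟨F, i1, i2, a, b, c⟩ => ⟨F, i1, i2, a, kr_holA (V := V) ▸
      quot_equiv N b, sl2_iff.mpr ((sl2_iff.mp c).of_hol N (W _) inf_le_left (le_normalizer_commutator N Subgroup.le_normalizer))⟩)
      fun ⟨a, b, c⟩ => ⟨a, kr_holA (V := V) ▸ quot_equiv N b, perm_iff.mpr ((perm_iff.mp c).of_hol N (W _) inf_le_left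
        (le_normalizer_commutator N Subgroup.le_normalizer))⟩)⟩
  · rw [← kr_holA, eq_top_iff, ← im_le_im_iff N N, im_sup N N, J, ← im_sup N N, j5]
  · rw [← kr_holA, ← pre_im N, J, pre_im N, sup_eq_left.mpr kE']
  · rw [← kr_holA, ← im_eq_bot_iff N, im_commutator N N]; exact j3 i j a
  · rw [← kr_holA, ← im_eq_bot_iff N, eq_bot_iff, ← j4 i]
    exact (im_inf_le _ _).trans (inf_le_inf_left _ ((im_le_iff N).mpr (iSup₂_le fun j a => (im_le_iff N).mp
      (le_iSup₂_of_le j a le_rfl))))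
  · obtain ⟨_, ⟨t, a, rfl⟩, c⟩ := j6 i j
    rw [← im_cj t.2] at c
    exact ⟨t, a, le_antisymm (im_le_of nV le_top le_top (inf_le_right.trans (kE j)) c.le) (im_le_of nV le_top le_top
      (inf_le_right.trans (by rw [← cj_eq_iff.mpr (le_normalizer_kr t.2)]; exact cj_mono _ (kE i))) c.ge)⟩

end Cfsg.Agent.S2981
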