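import Mathlib
import Cfsg.Statements.S2987
import Cfsg.Agent.H26.Bk10

set_option autoImplicit false
open Cfsg

namespace Cfsg.Agent.S2987
open H26

/-- Let G be a finite group of characteristic p (C_G(O_p(G)) ≤ O_p(G)) and E a subnormal subgroup of G which is a B(T)-block for some Sylow p-subgroup T of G. Then E is a normal subgroup of the Baumann subgroup B(G) (generated by the B(T) over all Sylow p-subgroups T), E is a B(T')-block for every Sylow p-subgroup T' of G, and every subgroup F that is a B(T')-block for some Sylow p-subgroup T' satisfies F ≤ E or [F, E] = 1. -/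
theorem result {G : Type*} [Group G] [Finite G] {p : ℕ} [Fact p.Prime] (hG : Subgroup.centralizer (Cfsg.pCore p G : Set G) ≤ Cfsg.pCore p G) (E : Subgroup G) (hE : ∃ T : Sylow p G, Cfsg.IsBaumannBlock p (T : Subgroup G) E) (hEs : E.IsSubnormal) : E ≤ Cfsg.baumannSubgroup p G ∧ Cfsg.baumannSubgroup p G ≤ Subgroup.normalizer (E : Set G) ∧ (∀ T' : Sylow p G, Cfsg.IsBaumannBlock p (T' : Subgroup G) E) ∧ ∀ F : Subgroup G, (∃ T' : Sylow p G, Cfsg.IsBaumannBlock p (T' : Subgroup G) F) → F ≤ E ∨ ⁅F, E⁆ = ⊥ := by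
  obtain ⟨T, hE⟩ := hE
  have c := bc_of_block (cx_top hG T) hE le_top
  have s : SB p ⊤ E _ _ _ := ⟨⟨_, _, c⟩, subN_top_iff.mpr hEs⟩
  refine ⟨c.cB.ge.trans (((Subgroup.commutator_comm _ _).le.trans (commutator_le_ncl _ _)).trans (ncl_le_iff.mpr fun g _ => ?_)),
    iSup_le fun T' => s.BN (cx_top hG T'), fun T' => s.block (cx_top hG T'), fun F ⟨T', hF⟩ =>
      (s.le_or (bc_of_block (cx_top hG T') hF le_top)).imp_right fun k =>
        commutator_eq_bot_iff'.mpr (Subgroup.le_centralizer_iff.mp k)⟩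
  obtain ⟨S, e⟩ := ((isSyl_top T).cj_of_mem (Subgroup.mem_top g)).exists_sylow_top
  rw [cj_bm, ← e]
  exact le_iSup (fun T : Sylow p G => baumannSubgroupOf p (T : Subgroup G)) S

end Cfsg.Agent.S2987
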