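import Mathlib
import Cfsg.Statements.S2988
import Cfsg.Agent.H26.GN

set_option autoImplicit false
universe u
open scoped Pointwise
open Cfsg

namespace Cfsg.Agent.S2988
open H26

open H17 in
theorem phiJoin_map {p : ℕ} [Fact p.Prime] {G G' : Type*} [Group G] [Group G'] [Finite G] [Finite G'] {f : G →* G'}
    (hf : Function.Injective f) {S : Subgroup G} (hS : IsPGroup p S) :
    sSup (Phi '' {R | MCLs p (S.map f) R}) = (sSup (Phi '' {R | MCLs p S R})).map f := by
  have key : ∀ R, MCLs p (S.map f) (R.map f) ↔ MCLs p S R := fun R => and_congr (mcli_map hf) ⟨fun a X b => by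
    simpa only [omegaOneCenter_map hf, card_map_inj hf] using a _ ((mcli_map hf).mpr b), fun a X b => by
      obtain ⟨X, -, rfl⟩ := exists_map_of_le b.1.1.1
      simpa only [omegaOneCenter_map hf, card_map_inj hf] using a _ ((mcli_map hf).mp b)⟩
  rw [map_sSup']
  congr 1
  refine Set.ext fun X => ⟨?_, ?_⟩
  · rintro ⟨R, a, rfl⟩
    obtain ⟨R, b, rfl⟩ := exists_map_of_le a.1.1.1.1
    exact ⟨_, ⟨R, (key R).mp a, rfl⟩, (Phi_map f (hS.to_le b)).symm⟩
  · rintro ⟨_, ⟨R, a, rfl⟩, rfl⟩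
    exact ⟨_, (key R).mpr a, Phi_map f (hS.to_le a.1.1.1.1)⟩

/-- Let p be a prime and S a nontrivial finite p-group. Write J(S) for the subgroup generated by the abelian subgroups of S of largest order (the large abelian subgroups) and J̃(S) = C_S(Z(J(S))). Unless S satisfies all of the following conditions — S is non-abelian; J(S) = S; Z(S) and Φ(S) are elementary abelian; Φ(S) ≤ Z(S) if p = 2, Φ(S) ≤ Z₂(S) if p = 3, and Φ(S) ≤ Z(S) with S of exponent p if p > 3; some large abelian subgroup is elementary abelian; and for all large abelian subgroups A, B and all subgroups Q of S one has |A|² = |S|·|Z(S)| ≥ |Q|·|Z(Q)| and ⟨A, B⟩ = AB = C_S(A ∩ B) — there exist nontrivial characteristic subgroups S₁ ≤ Z(S) and S₂ ≤ J̃(S) of S, S₂ characteristic in J̃(S), such that whenever S is embedded as a Sylow p-subgroup of a finite group G in the basic pushing-up situation, the image of S₁ or of S₂ is normal in G. -/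
theorem result {p : ℕ} [Fact p.Prime] (S : Type u) [Group S] [Finite S] [Nontrivial S] (hS : IsPGroup p S) (hexc : ¬ (¬ IsMulCommutative S ∧ Cfsg.thompsonSubgroupA S = ⊤ ∧ Cfsg.IsElementaryAbelian p (Subgroup.center S) ∧ Cfsg.IsElementaryAbelian p (frattini S) ∧ (p = 2 → frattini S ≤ Subgroup.center S) ∧ (p = 3 → frattini S ≤ Subgroup.upperCentralSeries S 2) ∧ (3 < p → frattini S ≤ Subgroup.center S ∧ Monoid.exponent S = p) ∧ (∃ A ∈ Cfsg.maxAbelianSubgroups S, Cfsg.IsElementaryAbelian p A) ∧ (∀ A ∈ Cfsg.maxAbelianSubgroups S, ∀ B ∈ Cfsg.maxAbelianSubgroups S, ∀ Q : Subgroup S, Nat.card ↥A ^ 2 = Nat.card S * Nat.card ↥(Subgroup.center S) ∧ Nat.card ↥Q * Nat.card ↥(Subgroup.center ↥Q) ≤ Nat.card S * Nat.card ↥(Subgroup.center S) ∧ ((A ⊔ B : Subgroup S) : Set S) = (A : Set S) * (B : Set S) ∧ A ⊔ B = Subgroup.centralizer ((A ⊓ B : Subgroup S) : Set S)))) : ∃ S₁ S₂ : Subgroup S, S₁ ≠ ⊥ ∧ S₂ ≠ ⊥ ∧ S₁.Characteristic ∧ S₂.Characteristic ∧ S₁ ≤ Subgroup.center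 S ∧ S₂ ≤ Subgroup.centralizer ((Cfsg.thompsonSubgroupA S ⊓ Subgroup.centralizer (Cfsg.thompsonSubgroupA S : Set S) : Subgroup S) : Set S) ∧ (S₂.subgroupOf (Subgroup.centralizer ((Cfsg.thompsonSubgroupA S ⊓ Subgroup.centralizer (Cfsg.thompsonSubgroupA S : Set S) : Subgroup S) : Set S))).Characteristic ∧ ∀ (G : Type u) [Group G] [Finite G] (P : Subgroup G) (e : S ≃* ↥P), Cfsg.IsPushingUpSituation p P → ((S₁).map ((P.subtype).comp (e : S ≃* ↥P).toMonoidHom)).Normal ∨ ((S₂).map ((P.subtype).comp (e : S ≃* ↥P).toMonoidHom)).Normal := by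
  have r : ∀ {G : Type u} [Group G] (P : Subgroup G) (e : S ≃* P), (P.subtype.comp e.toMonoidHom).range = P :=
    fun P e => by
      rw [MonoidHom.range_comp, MonoidHom.range_eq_top.mpr e.surjective, ← MonoidHom.range_eq_map, P.range_subtype]
  by_cases h : ¬ IsMulCommutative S ∧ HH p (⊤ : Subgroup S) ∧ S0 p (⊤ : Subgroup S) = ⊥
  swap
  · obtain ⟨S₁, S₂, a1, a2, a3, a4, a5, a6, a7, -, a9⟩ := exists_gnc hS h
    refine ⟨S₁, S₂, a1, a2, a3, a4, a5, a6, a7, fun G _ _ P e h => ?_⟩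
    obtain ⟨h1, M, hM⟩ := pu_of_situation h
    exact (a9 G _ _ M (P.subtype_injective.comp e.injective) (by rw [r]; exact ⟨hM, inf_le_right.trans h1⟩)).imp
      (fun a => normal_of_top_le (a.trans (centralizer_le_normalizer _))) normal_of_top_le
  obtain ⟨a, b, c⟩ := h
  obtain ⟨e1, e2, e3, e4, e5, e6, e7⟩ := exc_of hS b c
  have pT : IsPGroup p (⊤ : Subgroup S) := hS.to_subgroup _
  have ch : (sSup (Phi '' {R : Subgroup S | MCLs p ⊤ R})).Characteristic :=
    char_of (fun X => sSup (Phi '' {R | MCLs p X R})) rfl fun φ a => by rw [MonoidHom.range_eq_map, phiJoin_map a pT]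
  refine ⟨Subgroup.center S, _, center_eq (S := S) ▸ center_ne_bot pT top_ne_bot, fun d => hexc ⟨a, e1, e2, e3, e4, e5, e6,
    ?_, e7⟩, inferInstance, ch, le_rfl, by rw [b.Jt]; exact le_top, char_subgroupOf_top ch b.Jt, fun G _ _ P e h => ?_⟩
  · rw [← map_phiJoin pT, Subgroup.map_eq_bot_iff_of_injective _ (Subgroup.subtype_injective _)] at d
    obtain ⟨Q, q1, q2⟩ := exists_elemAb_of_phiJoin pT d
    have q3 := H17.elemAb_map q2 (⊤ : Subgroup S).subtype
    exact ⟨_, (mcli_top.mp (mcl_map.mpr q1)).1.maxAb q3.1, q3⟩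
  · obtain ⟨h1, M, hM⟩ := pu_of_situation h
    have i : Function.Injective (P.subtype.comp e.toMonoidHom) := P.subtype_injective.comp e.injective
    have k : PUC p ⊤ P (Cfsg.pCore p G) M := ⟨hM, inf_le_right.trans h1⟩
    rw [← r P e, MonoidHom.range_eq_map] at k
    have := k.thmE (by
      rw [H17.centerThompsonAOf_eq, H17.centerThompsonOf_map _ i.injOn, map_le_cent_iff i, ← ZJ_eq, b.Jt])
    rw [phiJoin_map i pT, cent_map i, ← center_eq] at this
    exact this.imp (fun a => normal_of_top_le (a.trans (centralizer_le_normalizer _))) normal_of_top_le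

end Cfsg.Agent.S2988
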