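import Mathlib
import Cfsg.Statements.S2989
import Cfsg.Agent.H26.CDA
import Cfsg.Agent.H26.PUSL

set_option autoImplicit false
open Cfsg

namespace Cfsg.Agent.S2989
open H26

/-- Let G be a finite group and S a Sylow p-subgroup of G in the basic pushing-up situation (G ≠ 1, C_G(O_p(G)) ≤ O_p(G), S lies in a unique maximal subgroup of G, and some quotient of G is isomorphic to PSL₂ over a field of order a power of p), and suppose that S centralizes Z(J(S)), where J(S) is generated by the abelian subgroups of S of largest order (that is, J̃(S) = C_S(Z(J(S))) = S). Call a subgroup R of S centrally large if |R|·|Z(R)| is as large as possible among subgroups of S, and let S_Φ be the subgroup generated by the Frattini subgroups Φ(Q) of those minimal centrally large subgroups Q of S whose Ω₁(Z(Q)) has the largest order among minimal centrally large subgroups. Then Z(S) or S_Φ is normal in G; and if S_Φ = 1, the minimal centrally large subgroups of S are exactly the abelian subgroups of S of largest order, and at least one of them is elementary abelian. -/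
theorem result {G : Type*} [Group G] [Finite G] {p : ℕ} [Fact p.Prime] (S : Subgroup G) (hE : Cfsg.IsPushingUpSituation p S) (hJ : S ≤ Subgroup.centralizer (Cfsg.centerThompsonAOf S : Set G)) : ((S ⊓ Subgroup.centralizer (S : Set G)).Normal ∨ ((Cfsg.frattiniOfMinimalCLJoin p ↥S).map S.subtype).Normal) ∧ (Cfsg.frattiniOfMinimalCLJoin p ↥S = ⊥ → (∀ Q : Subgroup ↥S, Cfsg.IsMinimalCentrallyLarge Q ↔ Q ∈ Cfsg.maxAbelianSubgroups ↥S) ∧ ∃ A ∈ Cfsg.maxAbelianSubgroups ↥S, Cfsg.IsElementaryAbelian p A) := by
  obtain ⟨h1, M, hM⟩ := pu_of_situation hE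
  have h : PUC p ⊤ S (Cfsg.pCore p G) M := ⟨hM, inf_le_right.trans h1⟩
  refine ⟨?_, fun a => ?_⟩
  · rw [map_phiJoin h.pS]
    exact (h.thmE hJ).imp (fun a => normal_of_top_le (a.trans (centralizer_le_normalizer _))) normal_of_top_le
  · obtain ⟨Q, hQ, hel⟩ := exists_elemAb_of_phiJoin h.pS a
    exact ⟨fun R => by rw [mcl_iff]; exact hQ.iff_maxAb hel.1 R, Q, hQ.1.maxAb hel.1, hel⟩

end Cfsg.Agent.S2989
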