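import Mathlib
import Cfsg.Statements.S2990
import Cfsg.Agent.H26.CDA
import Cfsg.Agent.H26.PUSL

set_option autoImplicit false
open Cfsg

namespace Cfsg.Agent.S2990
open H26

/-- Let G be a finite group and S a Sylow p-subgroup of G in the basic pushing-up situation (G ≠ 1, C_G(O_p(G)) ≤ O_p(G), S lies in a unique maximal subgroup of G, and some quotient of G is isomorphic to PSL₂ over a field of order a power of p), and suppose that S centralizes Z(J(S)), where J(S) is generated by the abelian subgroups of S of largest order (that is, J̃(S) = C_S(Z(J(S))) = S). Call a subgroup R of S centrally large if |R|·|Z(R)| is as large as possible among subgroups of S, let Q be a minimal centrally large subgroup of S and let S_MCL be the subgroup generated by all minimal centrally large subgroups of S. Then the derived subgroup [Q, Q] is characteristic in S; Z(S) ∩ [Q, Q] or S_MCL is normal in G; and if [Q, Q] = 1, the minimal centrally large subgroups of S are exactly the abelian subgroups of S of largest order. -/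
theorem result {G : Type*} [Group G] [Finite G] {p : ℕ} [Fact p.Prime] (S : Subgroup G) (hE : Cfsg.IsPushingUpSituation p S) (hJ : S ≤ Subgroup.centralizer (Cfsg.centerThompsonAOf S : Set G)) (Q : Subgroup ↥S) (hQ : Cfsg.IsMinimalCentrallyLarge Q) : (⁅Q, Q⁆).Characteristic ∧ (((S ⊓ Subgroup.centralizer (S : Set G)) ⊓ (⁅Q, Q⁆).map S.subtype).Normal ∨ ((Cfsg.minimalCentrallyLargeJoin ↥S).map S.subtype).Normal) ∧ (⁅Q, Q⁆ = ⊥ → ∀ R : Subgroup ↥S, Cfsg.IsMinimalCentrallyLarge R ↔ R ∈ Cfsg.maxAbelianSubgroups ↥S) := by
  obtain ⟨h1, M, hM⟩ := pu_of_situation hE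
  have h : PUC p ⊤ S (Cfsg.pCore p G) M := ⟨hM, inf_le_right.trans h1⟩
  rw [mcl_iff] at hQ
  refine ⟨Subgroup.characteristic_iff_map_eq.mpr fun φ => ?_, ?_, fun a R => by
    rw [mcl_iff]; exact hQ.iff_maxAb (Subgroup.commutator_self_eq_bot_iff.mp a) R⟩
  · have := hQ.map_equiv φ
    rw [Subgroup.map_commutator]
    exact le_antisymm (this.commutator_le hQ.1) (hQ.commutator_le this.1)
  · rw [map_mclJoin, Subgroup.map_commutator]
    exact (h.thmD hJ (mcl_map.mpr hQ)).imp (fun a => normal_of_top_le (a.trans (centralizer_le_normalizer _)))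
      normal_of_top_le

end Cfsg.Agent.S2990
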