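import Mathlib
import Cfsg.Statements.S2998
import Cfsg.Agent.H26.SPE

set_option autoImplicit false
open Cfsg

namespace Cfsg.Agent.S2998
open H26

/-- Let G be a finite group, p a prime, P a Sylow p-subgroup of G and x ∈ P an element such that N_G(R) ≤ C_G(x) for every nontrivial subgroup R of P. Then P ≤ C_G(x); every G-conjugate of x lying in P equals x (so g ∈ C_G(x) whenever g x g⁻¹ ∈ P); and for every normal subgroup N of G, the image of x in G ⧸ N has the same property with respect to the image of P: the normalizer of every nontrivial subgroup of the image of P centralizes the image of x. -/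
theorem result {G : Type*} [Group G] [Finite G] {p : ℕ} [Fact p.Prime] (P : Sylow p G) (x : G) (hxP : x ∈ (P : Subgroup G)) (hlc : ∀ R : Subgroup G, R ≤ (P : Subgroup G) → R ≠ ⊥ → Subgroup.normalizer (R : Set G) ≤ Subgroup.centralizer ({x} : Set G)) : (P : Subgroup G) ≤ Subgroup.centralizer ({x} : Set G) ∧ (∀ g : G, g * x * g⁻¹ ∈ (P : Subgroup G) → g * x * g⁻¹ = x) ∧ ∀ (N : Subgroup G) [N.Normal], ∀ R : Subgroup (G ⧸ N), R ≤ (P : Subgroup G).map (QuotientGroup.mk' N) → R ≠ ⊥ → Subgroup.normalizer (R : Set (G ⧸ N)) ≤ Subgroup.centralizer ({(QuotientGroup.mk x : G ⧸ N)} : Set (G ⧸ N)) := by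
  have h1 : (P : Subgroup G) ≤ Subgroup.centralizer ({x} : Set G) := by
    by_cases h : (P : Subgroup G) = ⊥
    · rw [h]; exact bot_le
    · exact Subgroup.le_normalizer.trans (hlc _ le_rfl h)
  refine ⟨h1, fun g hg => ?_, fun N _ R hR h2 g hg => ?_⟩
  · suffices h : g ∈ Subgroup.centralizer ({x} : Set G) by
      rw [Subgroup.mem_centralizer_singleton_iff.mp h, mul_inv_cancel_right]
    by_cases h : Subgroup.centralizer ({x} : Set G) = ⊤
    · rw [h]; trivial
    have h3 : x ≠ 1 := by
      rintro rfl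
      exact h (eq_top_iff.mpr fun y _ => by simp [Subgroup.mem_centralizer_singleton_iff])
    have h4 : (P : Subgroup G) ≠ ⊥ := fun a => h3 (Subgroup.mem_bot.mp (a ▸ hxP))
    have h5 := Subgroup.zpowers_le.mpr hxP
    refine (spe_of_isSyl h (isSyl_top P) h4 hlc).mem_of_cj_le (P.isPGroup'.to_le h5)
      (by simpa using h3) (h5.trans h1) ?_
    rw [cj_zpowers]
    exact Subgroup.zpowers_le.mpr (h1 hg)
  · obtain ⟨g, rfl⟩ := QuotientGroup.mk'_surjective N g
    have hN : N ≤ R.comap (QuotientGroup.mk' N) :=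
      (QuotientGroup.ker_mk' N).ge.trans (Subgroup.ker_le_comap _ _)
    have h3 : (R.comap (QuotientGroup.mk' N) ⊓ P) ⊔ N = R.comap (QuotientGroup.mk' N) := by
      rw [← inf_sup_eq_of_le_normalizer' Subgroup.le_normalizer_of_normal hN, inf_eq_left]
      refine (Subgroup.comap_mono hR).trans ?_
      rw [Subgroup.comap_map_eq, QuotientGroup.ker_mk']
    have h4 := isSyl_of_sup_eq (M := R.comap (QuotientGroup.mk' N) ⊓ P) Subgroup.le_normalizer_of_normal
      ((isSyl_top P).inf_of_le (N := N) le_top Subgroup.le_normalizer_of_normal)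
      (le_inf (inf_le_right.trans hN) inf_le_left) (isSyl_self P.isPGroup'.to_inf_right)
    rw [h3] at h4
    have h5 : R.comap (QuotientGroup.mk' N) ⊓ P ≠ ⊥ := fun a => h2 (by
      rw [a, bot_sup_eq] at h3
      rw [← Subgroup.map_comap_eq_self_of_surjective (QuotientGroup.mk'_surjective N) R, ← h3,
        Subgroup.map_eq_bot_iff, QuotientGroup.ker_mk'])
    obtain ⟨n, hn, y, hy, rfl⟩ := h4.frattini (le_normalizer_comap _ le_rfl) hg
    have h6 := Subgroup.mem_centralizer_singleton_iff.mp (hlc _ inf_le_right h5 hy)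
    rw [map_mul]
    refine mul_mem ?_ ?_
    · obtain ⟨a, ha, b⟩ := hR hn
      rw [← b, Subgroup.mem_centralizer_singleton_iff]
      exact congrArg (QuotientGroup.mk' N) (Subgroup.mem_centralizer_singleton_iff.mp (h1 ha))
    · rw [Subgroup.mem_centralizer_singleton_iff]
      exact congrArg (QuotientGroup.mk' N) h6

end Cfsg.Agent.S2998
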