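import Mathlib
import Cfsg.Statements.S2999
import Cfsg.Agent.H26.R1

set_option autoImplicit false
open Cfsg

namespace Cfsg.Agent.S2999
open H26

/-- Let p be a prime and let P and V be subgroups of a finite group with V elementary abelian, P normalizing V and acting faithfully on it (P ∩ C(V) = 1). Suppose P is p-minimal (a Sylow p-subgroup T of P is not normal and lies in a unique maximal subgroup M of P) and A ≤ T is an elementary abelian subgroup such that: |V/C_V(A)| ≤ |A| while |A₀|·|C_V(A₀)| < |A|·|C_V(A)| for every nontrivial proper subgroup A₀ of A; [C_V(T), P] ≠ 1; and P = ⟨A, xAx⁻¹⟩ for every x ∈ P outside M. Then, with q = |A|, there is a field F with q elements such that P ≅ SL₂(F), C_V(A) = [V, A]·C_V(P), and P acts on V/C_V(P) as SL₂(F) on its natural two-dimensional module. -/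
theorem result {G : Type*} [Group G] [Finite G] {p : ℕ} [Fact p.Prime] (V P : Subgroup G) (hV : Cfsg.IsElementaryAbelian p V) (hPV : P ≤ Subgroup.normalizer (V : Set G)) (hfaith : P ⊓ Subgroup.centralizer (V : Set G) = ⊥) (hmin : Cfsg.IsPMinimal p ↥P) (T : Sylow p ↥P) (M : Subgroup ↥P) (hM : IsCoatom M) (hTM : (T : Subgroup ↥P) ≤ M) (A : Subgroup G) (hAT : A ≤ ((T : Subgroup ↥P).map P.subtype)) (hAel : Cfsg.IsElementaryAbelian p A) (hi : Nat.card ↥V ≤ Nat.card ↥A * Nat.card ↥(V ⊓ Subgroup.centralizer ((A : Subgroup G) : Set G)) ∧ ∀ A₀ : Subgroup G, A₀ ≤ A → A₀ ≠ ⊥ → A₀ ≠ A → Nat.card ↥A₀ * Nat.card ↥(V ⊓ Subgroup.centralizer ((A₀ : Subgroup G) : Set G)) < Nat.card ↥A * Nat.card ↥(V ⊓ Subgroup.centralizer ((A : Subgroup G) : Set G))) (hii : ⁅(V ⊓ Subgroup.centralizer ((((T : Subgroup ↥P).map P.subtype) : Subgroup G) : Set G)), P⁆ ≠ ⊥) (hiii : ∀ x : ↥P, x ∉ M → A ⊔ A.map (MulAut.conj (x : G)).toMonoidHom = P) : ∃ (F :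 Type) (_ : Field F) (_ : Fintype F), Fintype.card F = Nat.card ↥A ∧ Nonempty (↥P ≃* Matrix.SpecialLinearGroup (Fin 2) F) ∧ (V ⊓ Subgroup.centralizer ((A : Subgroup G) : Set G)) = ⁅V, A⁆ ⊔ (V ⊓ Subgroup.centralizer ((P : Subgroup G) : Set G)) ∧ Cfsg.ActsAsSL2OnSection F ⊤ P V (V ⊓ Subgroup.centralizer ((P : Subgroup G) : Set G)) := by
  obtain ⟨w, -, a⟩ := r1 (M := M.map P.subtype) (isSyl_map_subtype T) (Subgroup.map_mono hTM) hAT hV.1 hV.2 hPV
    ((commutator_eq_bot_iff'.mpr (isMulCommutative_iff_le.mp hAel.1)).le.trans bot_le) hi.1 hi.2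
    (fun b => hii (commutator_eq_bot_iff'.mpr (Subgroup.le_centralizer_iff.mp b)))
    (fun {x} a b => hiii ⟨x, a⟩ fun c => b ⟨_, c, rfl⟩) (by
      obtain ⟨x, -, b⟩ := SetLike.exists_of_lt hM.lt_top
      exact ⟨x, x.2, fun ⟨y, c, d⟩ => b (by rwa [← show y = x from Subtype.ext d])⟩)
  obtain ⟨n, -, b, F, i1, i2, c, d, e⟩ := w.sl2 hfaith (eq_bot_iff.mpr ((le_inf (pCoreOf_le P) a).trans hfaith.le))
  exact ⟨F, i1, i2, c.trans b.symm, d, w.W_eq.symm, e⟩

end Cfsg.Agent.S2999
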