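import Mathlib
import Cfsg.Statements.S3003
import Cfsg.Agent.H26.WC
import Cfsg.Agent.H01.Generation
import Cfsg.Agent.H04.Frattini

set_option autoImplicit false
open Cfsg

namespace Cfsg.Agent.S3003
open H26

/-- Let G be a finite group, p a prime and Q a large p-subgroup of G: C_G(Q) ≤ Q and N_G(U) ≤ N_G(Q) for every nontrivial subgroup U of C_G(Q). Let Q ≤ G₁ ≤ G, let R be a subgroup of order prime to p normalized by G₁, and let U ≤ G₁ be a p-subgroup. If U contains a nontrivial element which is G₁-conjugate to an element of Z(Q), then C_R(U) = 1. In particular, if U is elementary abelian of order at least p² and every maximal subgroup of U contains a nontrivial element G₁-conjugate into Z(Q), then R = 1. -/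
theorem result {G : Type*} [Group G] [Finite G] {p : ℕ} [Fact p.Prime] (Q : Subgroup G) (hQp : IsPGroup p ↥Q) (hlarge : Cfsg.IsLarge Q) (G₁ : Subgroup G) (hQG : Q ≤ G₁) (R : Subgroup G) (hR : (Nat.card ↥R).Coprime p) (hGR : G₁ ≤ Subgroup.normalizer (R : Set G)) (U : Subgroup G) (hUG : U ≤ G₁) (hUp : IsPGroup p ↥U) : ((∃ x ∈ U, x ≠ 1 ∧ ∃ g ∈ G₁, g * x * g⁻¹ ∈ Q ⊓ Subgroup.centralizer (Q : Set G)) → R ⊓ Subgroup.centralizer (U : Set G) = ⊥) ∧ (Cfsg.IsElementaryAbelian p U → p ^ 2 ≤ Nat.card ↥U → (∀ U₀ : Subgroup G, U₀ ≤ U → IsCoatom (U₀.subgroupOf U) → ∃ x ∈ U₀, x ≠ 1 ∧ ∃ g ∈ G₁, g * x * g⁻¹ ∈ Q ⊓ Subgroup.centralizer (Q : Set G)) → R = ⊥) := by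
  have h0 : R ⊓ Q = ⊥ := eq_bot_of_isPGroup_of_not_dvd hQp.to_inf_right inf_le_left
    ((Nat.Prime.coprime_iff_not_dvd Fact.out).mp hR.symm)
  have key : ∀ x : G, x ≠ 1 → ∀ g ∈ G₁, g * x * g⁻¹ ∈ Q ⊓ Subgroup.centralizer (Q : Set G) →
      R ⊓ Subgroup.centralizer ({x} : Set G) = ⊥ := by
    intro x hx g hg hy
    rw [← cj_eq_bot_iff (g := g), cj_inf, cj_eq_iff.mpr (hGR hg), cj_centralizer_singleton]
    have h1 : R ⊓ Subgroup.centralizer ({g * x * g⁻¹} : Set G) ≤ Subgroup.normalizer (Q : Set G) := by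
      rw [← centralizer_zpowers]
      exact (inf_le_right.trans (centralizer_le_normalizer _)).trans
        (hlarge.2 _ (Subgroup.zpowers_le.mpr hy.2) (by simpa using hx))
    have h2 : ⁅R ⊓ Subgroup.centralizer ({g * x * g⁻¹} : Set G), Q⁆ = ⊥ :=
      le_bot_iff.mp (h0.le.trans' (le_inf ((Subgroup.commutator_mono inf_le_left le_rfl).trans
        (commutator_le_of_le_normalizer (hQG.trans hGR))) (commutator_le_of_le_normalizer' h1)))
    rw [Subgroup.commutator_eq_bot_iff_le_centralizer] at h2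
    exact le_bot_iff.mp (h0.le.trans' (le_inf inf_le_left (h2.trans hlarge.1)))
  refine ⟨fun ⟨x, hx, h1, g, hg, h2⟩ => le_bot_iff.mp ((key x h1 g hg h2).le.trans'
    (inf_le_inf_left _ (Subgroup.centralizer_le (Set.singleton_subset_iff.mpr hx)))), fun hU hc h => ?_⟩
  have := hU.1
  have hp : p.Prime := Fact.out
  refine le_bot_iff.mp (H01.le_of_cocyclic_centralizer_le (hUG.trans hGR) ?_ fun B hB ⟨a, ha, h1⟩ => ?_)
  · obtain ⟨n, hn⟩ := IsPGroup.iff_card.mp hUp
    rw [hn]
    exact hR.symm.pow_left n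
  have h2 : ∃ U₀ : Subgroup U, IsCoatom U₀ ∧ U₀.map U.subtype ≤ B := by
    by_cases h3 : B.subgroupOf U = ⊤
    · have h4 : (⊥ : Subgroup U) ≠ ⊤ := fun h5 => by
        have h6 := congrArg (fun X : Subgroup U => Nat.card X) h5
        simp only [Subgroup.card_bot, Subgroup.card_top] at h6
        have := hp.two_le
        nlinarith
      obtain ⟨V, hV, -⟩ := (eq_top_or_exists_le_coatom (⊥ : Subgroup U)).resolve_left h4
      exact ⟨V, hV, (Subgroup.map_subtype_le V).trans (Subgroup.subgroupOf_eq_top.mp h3)⟩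
    · obtain ⟨V, hV, h4⟩ := (eq_top_or_exists_le_coatom (B.subgroupOf U)).resolve_left h3
      refine ⟨V, hV, Subgroup.map_le_iff_le_comap.mpr (Subgroup.eq_of_le_of_card_ge h4 ?_).ge⟩
      have h5 := H04.card_sup_zpowers_le (p := p) B (x := a) ((Subgroup.le_centralizer_iff_isMulCommutative.mpr
        this).trans ((centralizer_anti hB).trans (centralizer_le_normalizer _)) ha) (by rw [hU.2 a ha]; exact one_mem _)
      rw [h1, ← V.index_mul_card, H04.index_eq_of_isCoatom hUp hV] at h5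
      rw [card_subgroupOf hB]
      exact Nat.le_of_mul_le_mul_left h5 hp.pos
  obtain ⟨V, hV, h3⟩ := h2
  obtain ⟨x, hx, h4, g, hg, h5⟩ := h _ (Subgroup.map_subtype_le V) (by rwa [map_subtype_subgroupOf])
  exact (key x h4 g hg h5).le.trans' (inf_le_inf_left _
    (Subgroup.centralizer_le (Set.singleton_subset_iff.mpr (h3 hx))))

end Cfsg.Agent.S3003
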