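import Mathlib
import Cfsg.Statements.S3005
import Cfsg.Agent.H26.CD

set_option autoImplicit false
open scoped Pointwise
open Cfsg

namespace Cfsg.Agent.S3005
open H26

/-- Let P be a finite p-group; call R ≤ P centrally large if |R|·|Z(R)| is as large as possible among subgroups of P, and measure-largest if |R|·|C_P(R)| is as large as possible. Then: a centrally large Q is measure-largest with C_P(Q) = Z(Q); a measure-largest Q is centrally large if and only if C_P(Q) ≤ Q; if Q and R are centrally large then QR = RQ is a centrally large subgroup; and the subgroups generated by all centrally large subgroups, respectively by all minimal centrally large subgroups, are themselves centrally large. -/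
theorem result {p : ℕ} [Fact p.Prime] (P : Type*) [Group P] [Finite P] (hP : IsPGroup p P) : (∀ Q : Subgroup P, Cfsg.IsCentrallyLarge Q → Cfsg.IsCentralizerLarge Q ∧ Subgroup.centralizer (Q : Set P) = Q ⊓ Subgroup.centralizer (Q : Set P)) ∧ (∀ Q : Subgroup P, Cfsg.IsCentralizerLarge Q → (Cfsg.IsCentrallyLarge Q ↔ Subgroup.centralizer (Q : Set P) ≤ Q)) ∧ (∀ Q R : Subgroup P, Cfsg.IsCentrallyLarge Q → Cfsg.IsCentrallyLarge R → ((Q ⊔ R : Subgroup P) : Set P) = (Q : Set P) * (R : Set P) ∧ Cfsg.IsCentrallyLarge (Q ⊔ R)) ∧ Cfsg.IsCentrallyLarge (Cfsg.centrallyLargeJoin P) ∧ Cfsg.IsCentrallyLarge (Cfsg.minimalCentrallyLargeJoin P) := by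
  simp only [cd_iff, cl_iff]
  obtain ⟨L, hL⟩ := exists_cl (G := P)
  obtain ⟨M, hM, -⟩ := hL.exists_mcl
  exact ⟨fun Q h => ⟨h.1, (inf_eq_right.mpr h.2).symm⟩, fun Q h => ⟨fun a => a.2, fun a => ⟨h, a⟩⟩,
    fun Q R a b => ⟨a.1.coe_sup b.1, a.sup b.1⟩, CL.sSup (cl_iff.mpr hL) fun _ a => cl_iff.mp a,
    CL.sSup (mcl_iff.mpr hM) fun _ a => (mcl_iff.mp a).1⟩

end Cfsg.Agent.S3005
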