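import Mathlib
import Cfsg.Statements.S3008
import Cfsg.Agent.H26.CD

set_option autoImplicit false
open Cfsg

namespace Cfsg.Agent.S3008
open H26

/-- Let P be a finite p-group, with J(P) generated by its abelian subgroups of largest order and J̃(P) = C_P(Z(J(P))); call R ≤ P centrally large if |R|·|Z(R)| is as large as possible, and let P_MCL be generated by the minimal centrally large subgroups. Then: for every centrally large Q, Q·J(P) ⊇ J̃(P); some minimal centrally large subgroup of P is normalized by both J(P) and P_MCL; if P = J(P) and d(P)² = |P|·|Z(P)|, where d(P) is the largest order of an abelian subgroup, then every minimal centrally large subgroup of P is abelian; and if every minimal centrally large subgroup is abelian then J̃(P) = J(P). -/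
theorem result {p : ℕ} [Fact p.Prime] (P : Type*) [Group P] [Finite P] (hP : IsPGroup p P) : (∀ Q : Subgroup P, Cfsg.IsCentrallyLarge Q → Subgroup.centralizer ((Cfsg.thompsonSubgroupA P ⊓ Subgroup.centralizer (Cfsg.thompsonSubgroupA P : Set P) : Subgroup P) : Set P) ≤ Q ⊔ Cfsg.thompsonSubgroupA P) ∧ (∃ Q : Subgroup P, Cfsg.IsMinimalCentrallyLarge Q ∧ Cfsg.thompsonSubgroupA P ≤ Subgroup.normalizer (Q : Set P) ∧ Cfsg.minimalCentrallyLargeJoin P ≤ Subgroup.normalizer (Q : Set P)) ∧ (Cfsg.thompsonSubgroupA P = ⊤ → (∀ A ∈ Cfsg.maxAbelianSubgroups P, Nat.card ↥A ^ 2 = Nat.card P * Nat.card ↥(Subgroup.center P)) → ∀ Q : Subgroup P, Cfsg.IsMinimalCentrallyLarge Q → IsMulCommutative ↥Q) ∧ ((∀ Q : Subgroup P, Cfsg.IsMinimalCentrallyLarge Q → IsMulCommutative ↥Q) → Subgroup.centralizer ((Cfsg.thompsonSubgroupA P ⊓ Subgroup.centralizer (Cfsg.thompsonSubgroupA P : Set P) : Subgroup P) : Set P) = Cfsg.thompsonSubgroupA P) := by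
  simp only [mcl_iff, cl_iff]
  have := hP.isNilpotent
  obtain ⟨Q, hQ, h1, h2⟩ := exists_mcl_normalized (G := P)
  refine ⟨fun Q h => h.sup_thompson.1.centralizer_le le_sup_right,
    ⟨Q, hQ, sSup_le h1, sSup_le fun R a => h2 R (mcl_iff.mp a)⟩, fun a b R c => ?_, fun a => ?_⟩
  · obtain ⟨A, hA⟩ := exists_maxAb (G := P)
    have h3 := hQ.1.sup_thompson
    rw [a, sup_top_eq] at h3
    have h4 := h3.of_le (R := A) (by
      rw [inf_eq_left.mpr (isMulCommutative_iff_le.mp hA.1), ← sq, b A hA, Subgroup.card_top, Subgroup.coe_top,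
        Subgroup.centralizer_univ])
    exact (((h4.mcl_of_comm hA.1).iff_maxAb hA.1 R).mp c).1
  · have h3 := hQ.1.sup_thompson
    rw [sup_eq_right.mpr (show Q ≤ thompsonSubgroupA P from le_sSup (hQ.1.maxAb (a Q hQ)))] at h3
    rw [inf_eq_right.mpr h3.2, h3.1.cc]

end Cfsg.Agent.S3008
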