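import Mathlib
import Cfsg.Statements.S3011
import Cfsg.Agent.H26.Omega
import Cfsg.Agent.H08.BaerSuzuki

set_option autoImplicit false
open Cfsg

namespace Cfsg.Agent.S3011
open H26

/-- Let G be a finite group and V a nontrivial elementary abelian 2-subgroup of G of order at most 4 such that, whenever an element of V inverts an element h of G of odd order, some nontrivial element of V commutes with h. Then V meets O₂(G) nontrivially. (The case of order at most 4 has a short argument from the Baer–Suzuki theorem.) -/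
theorem result {G : Type*} [Group G] [Finite G] (V : Subgroup G) (hV : Cfsg.IsElementaryAbelian 2 V) (hV1 : V ≠ ⊥) (hS : Cfsg.IsSidkiPair V) (h4 : Nat.card V ≤ 4) : V ⊓ Cfsg.pCore 2 G ≠ ⊥ := by
  classical
  intro h0
  have h1 : ∀ v ∈ V, v ≠ 1 → ∃ h : G, h ≠ 1 ∧ Odd (orderOf h) ∧ v * h * v⁻¹ = h⁻¹ := fun v a b =>
    H08.exists_inverted_odd_of_notMem_pCore (by rw [← sq]; exact hV.2 v a) fun c => b (h0.le ⟨a, c⟩)
  have h2 : ∀ h : G, Odd (orderOf h) → h⁻¹ = h → h = 1 := fun h a b =>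
    eq_one_of_coprime (n := 2) (by rw [sq]; nth_rw 1 [← b]; exact inv_mul_cancel h) a.coprime_two_right
  have h3 : ∀ b ∈ V, ∀ c ∈ V, ∀ w ∈ V, b ≠ 1 → c ≠ 1 → w ≠ 1 → c ≠ b → w ≠ b → w = c ∨ w = b * c := by
    intro b hb c hc w hw e1 e2 e3 e4 e5
    by_contra e6
    push Not at e6
    have e7 : b * c ≠ 1 := fun a => e4 (by
      rw [← eq_inv_iff_mul_eq_one] at a
      rw [a, eq_inv_iff_mul_eq_one, ← sq]; exact hV.2 c hc)
    have e8 : ({w, b * c, c, b, 1} : Finset G).card = 5 := by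
      simp [Finset.card_insert_of_notMem, *]
    have e9 : (({w, b * c, c, b, 1} : Finset G) : Set G) ⊆ V := by
      simp [Set.insert_subset_iff, mul_mem, *]
    have := Set.ncard_le_ncard e9
    rw [Set.ncard_coe_finset, e8] at this
    exact absurd (this.trans h4) (by omega)
  have h5 : ∀ {b h : G}, b * h = h * b → b * h * b⁻¹ = h := fun a => mul_inv_eq_iff_eq_mul.mpr a
  obtain ⟨⟨a, ha⟩, a1⟩ := Subgroup.ne_bot_iff_exists_ne_one.mp hV1
  replace a1 : a ≠ 1 := fun e => a1 (Subtype.ext e)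
  obtain ⟨h, x1, x2, x3⟩ := h1 a ha a1
  obtain ⟨b, hb, b1, b2⟩ := hS h a ha x2 x3
  obtain ⟨k, k1, k2, k3⟩ := h1 b hb b1
  obtain ⟨c, hc, c1, c2⟩ := hS k b hb k2 k3
  replace b2 := h5 b2
  replace c2 := h5 c2
  have c3 : c ≠ b := fun e => k1 (h2 k k2 (by rw [← k3, ← e, c2]))
  have c4 : c * h * c⁻¹ = h⁻¹ := by
    rcases h3 b hb a ha c hc b1 a1 c1 (fun e => x1 (h2 h x2 (by rw [← x3, e, b2]))) c3 with e | e
    · rw [e, x3]
    · rw [e, show b * a * h * (b * a)⁻¹ = b * (a * h * a⁻¹) * b⁻¹ by group, x3, ← conj_inv, b2]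
  have m1 : ∀ w x y : G, w * (x * y) * w⁻¹ = w * x * w⁻¹ * (w * y * w⁻¹) := fun w x y => by group
  have m2 : ∀ x : G, b * c * x * (b * c)⁻¹ = b * (c * x * c⁻¹) * b⁻¹ := fun x => by group
  have d1 : b * c * h * (b * c)⁻¹ = h⁻¹ := by rw [m2, c4, ← conj_inv, b2]
  have d2 : b * c * k * (b * c)⁻¹ = k⁻¹ := by rw [m2, c2, k3]
  have d3 : Commute h k := by
    have k4 : Odd (orderOf (h * k * h⁻¹)) := by rwa [← MulAut.conj_apply, MulEquiv.orderOf_eq]
    have k5 : b * (h * k * h⁻¹) * b⁻¹ = (h * k * h⁻¹)⁻¹ := by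
      rw [m1, m1, ← conj_inv, b2, k3, conj_inv]
    obtain ⟨w, hw, w1, w2⟩ := hS _ b hb k4 k5
    replace w2 := h5 w2
    refine Subgroup.mem_centralizer_singleton_iff.mp (mem_of_pow_mem_of_coprime (n := 2 ^ 2)
      (Subgroup.mem_centralizer_singleton_iff.mpr ?_) (x2.coprime_two_right.pow_right 2))
    have w3 : h ^ 2 * k * (h ^ 2)⁻¹ = k ∨ h ^ 2 * k * (h ^ 2)⁻¹ = k⁻¹ := by
      have w4 : h ^ 2 * k * (h ^ 2)⁻¹ = h * (h * k * h⁻¹) * h⁻¹ := by rw [sq]; group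
      refine (h3 b hb c hc w hw b1 c1 w1 c3 fun e => k1 ?_).imp (fun e => ?_) fun e => ?_
      · simpa using h2 _ k4 (by rw [← k5, ← e, w2])
      · rw [w4, ← w2, e, m1 c, m1 c, ← conj_inv, c4, c2]; group
      · rw [w4, ← w2, e, m1 (b * c), m1 (b * c), ← conj_inv, d1, d2]; group
    rw [← mul_inv_eq_iff_eq_mul, show h ^ 2 ^ 2 * k * (h ^ 2 ^ 2)⁻¹ =
      h ^ 2 * (h ^ 2 * k * (h ^ 2)⁻¹) * (h ^ 2)⁻¹ by norm_num; group]
    rcases w3 with e | e
    · rw [e, e]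
    · rw [e, ← conj_inv, e, inv_inv]
  have k4 := Odd.of_dvd_nat (x2.mul k2) d3.orderOf_mul_dvd_mul_orderOf
  have k5 : b * c * (h * k) * (b * c)⁻¹ = (h * k)⁻¹ := by rw [m1, d1, d2, d3.eq, mul_inv_rev]
  obtain ⟨w, hw, w1, w2⟩ := hS _ _ (mul_mem hb hc) k4 k5
  replace w2 := h5 w2
  rcases h3 b hb c hc w hw b1 c1 w1 c3 fun e => k1 (h2 k k2 (by
    rwa [e, m1, b2, k3, mul_right_inj] at w2)) with e | e
  · rw [e, m1, c4, c2, mul_left_inj] at w2
    exact x1 (h2 h x2 w2)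
  · have := eq_inv_of_mul_eq_one_left (h2 _ k4 (by rw [← k5, ← e, w2]))
    rw [this, ← conj_inv, k3, inv_inj] at b2
    exact k1 (h2 k k2 b2)

end Cfsg.Agent.S3011
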