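import Mathlib
import Cfsg.Statements.S3012
import Cfsg.Agent.H26.Omega

set_option autoImplicit false
open Cfsg

namespace Cfsg.Agent.S3012
open H26

/-- Let G be a finite group, V a nontrivial elementary abelian 2-subgroup of G satisfying the Sidki pair condition (every odd-order element inverted by an element of V commutes with a nontrivial element of V), and K a normal subgroup of G with V ∩ K = 1. Then the image of V in G/K satisfies the Sidki pair condition in G/K. -/
theorem result {G : Type*} [Group G] [Finite G] (V K : Subgroup G) [K.Normal] (hV : Cfsg.IsElementaryAbelian 2 V) (hV1 : V ≠ ⊥) (hS : Cfsg.IsSidkiPair V) (hVK : V ⊓ K = ⊥) : Cfsg.IsSidkiPair (V.map (QuotientGroup.mk' K)) := by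
  rintro h _ ⟨v, hv, rfl⟩ a b
  obtain ⟨m, hm⟩ := exists_pow_eq_self_of_coprime (x := h) a.coprime_two_left
  obtain ⟨g, hg⟩ := QuotientGroup.mk'_surjective K (h ^ m)
  have h1 : v * v = 1 := by rw [← sq]; exact hV.2 v hv
  have h2 : QuotientGroup.mk' K (g * v * g⁻¹ * v⁻¹) = h := by
    rw [map_mul, map_mul, map_mul, map_inv, map_inv, hg, mul_assoc, mul_assoc, ← mul_assoc _ (h ^ m)⁻¹,
      ← conj_inv, ← conj_pow, b, inv_pow, inv_inv, ← sq, ← pow_mul, mul_comm m, pow_mul, hm]
  obtain ⟨k, hk⟩ := exists_pow_coprime (p := 2) (isOfFinOrder_of_finite (g * v * g⁻¹ * v⁻¹))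
  obtain ⟨w, c, d, e⟩ := hS _ v hv hk.odd_of_right (by
    rw [← conj_pow, ← inv_pow, inv_eq_of_mul_eq_one_right h1]
    congr 1
    simp only [mul_assoc, h1, mul_one, mul_inv_rev, inv_inv, inv_eq_of_mul_eq_one_right h1])
  refine ⟨_, Subgroup.mem_map_of_mem _ c, fun f => d (hVK.le ⟨c, (QuotientGroup.eq_one_iff w).mp f⟩), ?_⟩
  have f := congrArg (QuotientGroup.mk' K) e
  rw [map_mul, map_mul, map_pow, h2] at f
  exact (Subgroup.mem_centralizer_singleton_iff.mp (mem_of_pow_mem_of_coprime
    (Subgroup.mem_centralizer_singleton_iff.mpr f.symm) (a.coprime_two_right.pow_right k))).symm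

end Cfsg.Agent.S3012
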