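import Mathlib
import Cfsg.Statements.S3013
import Cfsg.Agent.H26.Omega

set_option autoImplicit false
open Cfsg

namespace Cfsg.Agent.S3013
open H26

/-- Let G be a finite group and V a nontrivial elementary abelian 2-subgroup of G satisfying the Sidki pair condition. Let v ∈ V and let x be an element of odd order inverted by v, and put C = C_G(v) ∩ C_G(x), the centralizer of the dihedral subgroup generated by v and x. Then C ∩ V is nontrivial and satisfies the Sidki pair condition inside C: every odd-order element of C inverted by an element of C ∩ V commutes with a nontrivial element of C ∩ V. -/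
theorem result {G : Type*} [Group G] [Finite G] (V : Subgroup G) (hV : Cfsg.IsElementaryAbelian 2 V) (hV1 : V ≠ ⊥) (hS : Cfsg.IsSidkiPair V) (v x : G) (hv : v ∈ V) (hx : Odd (orderOf x)) (hinv : v * x * v⁻¹ = x⁻¹) (C : Subgroup G) (hC : C = Subgroup.centralizer ({v} : Set G) ⊓ Subgroup.centralizer ({x} : Set G)) : C ⊓ V ≠ ⊥ ∧ Cfsg.IsSidkiPair ((C ⊓ V).subgroupOf C) := by
  have h0 := isMulCommutative_iff_le.mp hV.1
  have h1 : ∀ w ∈ V, w * x = x * w → w ∈ C ⊓ V := fun w a b => hC ▸
    ⟨⟨Subgroup.mem_centralizer_singleton_iff.mpr (h0 hv w a), Subgroup.mem_centralizer_singleton_iff.mpr b⟩, a⟩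
  refine ⟨fun a => ?_, fun ⟨h, hh⟩ ⟨u, hu⟩ a b c => ?_⟩
  · obtain ⟨w, b, c, d⟩ := hS x v hv hx hinv
    exact c (a.le (h1 w b d))
  subst hC
  have e1 := Subgroup.mem_centralizer_singleton_iff.mp hh.1
  have e2 : Commute h x := Subgroup.mem_centralizer_singleton_iff.mp hh.2
  have e3 := Subgroup.mem_centralizer_singleton_iff.mp hu.2
  have e4 : u * h * u⁻¹ = h⁻¹ := congrArg Subtype.val c
  have e5 : v * (h * x) * v⁻¹ = h * x⁻¹ := by rw [← hinv, ← mul_assoc, ← e1]; group
  obtain ⟨w, d, e, f⟩ := hS (h * x) (u * v) (mul_mem a.2 hv)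
    (Odd.of_dvd_nat (Odd.mul (by simpa using b) hx) e2.orderOf_mul_dvd_mul_orderOf) (by
      calc u * v * (h * x) * (u * v)⁻¹ = u * (v * (h * x) * v⁻¹) * u⁻¹ := by group
        _ = u * h * u⁻¹ * (u * x * u⁻¹)⁻¹ := by rw [e5]; group
        _ = _ := by rw [e4, e3, e2.eq]; group)
  have g1 : h * x ∈ Subgroup.centralizer {w} := Subgroup.mem_centralizer_singleton_iff.mpr f.symm
  have g2 : v ∈ Subgroup.centralizer {w} := Subgroup.mem_centralizer_singleton_iff.mpr (h0 d v hv)
  have g3 : x ∈ Subgroup.centralizer {w} := mem_of_pow_mem_of_coprime (n := 2) (by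
    have := mul_mem (inv_mem (mul_mem (mul_mem g2 g1) (inv_mem g2))) g1
    rw [e5] at this
    simpa [sq] using this) hx.coprime_two_right
  have g4 := h1 w d (Subgroup.mem_centralizer_singleton_iff.mp g3).symm
  exact ⟨⟨w, g4.1⟩, g4, fun i => e (congrArg Subtype.val i), Subtype.ext
    (Subgroup.mem_centralizer_singleton_iff.mp ((Subgroup.mul_mem_cancel_right _ g3).mp g1)).symm⟩

end Cfsg.Agent.S3013
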