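import Mathlib
import Cfsg.Statements.S3014
import Cfsg.Agent.H26.WTrip

set_option autoImplicit false
open Cfsg

namespace Cfsg.Agent.S3014
open H26

/-- Let G be a finite group and H ≤ M ≤ G subgroups such that for every g ∈ G the subgroup generated by H and g H g⁻¹ meets M exactly in H. If H is a maximal subgroup of M and M is a maximal subgroup of G, then the normal closure of H in G meets M exactly in H. -/
theorem result {G : Type*} [Group G] [Finite G] (H M : Subgroup G) (hHM : H ≤ M) (hcl : ∀ g : G, (H ⊔ H.map (MulAut.conj g).toMonoidHom) ⊓ M = H) (hmaxH : IsCoatom (H.subgroupOf M)) (hmaxM : IsCoatom M) : Subgroup.normalClosure (H : Set G) ⊓ M = H := by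
  have hm := max_of_isCoatom hmaxH
  have h1 : ∀ g : G, cj(g, H) ≤ M → cj(g, H) ≤ H := fun g h => (le_inf le_sup_right h).trans (hcl g).le
  have h2 : M ≤ Subgroup.normalizer (H : Set G) :=
    le_normalizer_iff_cj.mpr fun g hg => h1 g (cj_le_of_le_of_mem hHM hg)
  suffices h : ∃ N : Subgroup G, N.Normal ∧ N ⊓ M = H by
    obtain ⟨N, _, h⟩ := h
    exact le_antisymm ((inf_le_inf_right _ (Subgroup.normalClosure_le_normal
      (h.ge.trans inf_le_left))).trans h.le) (le_inf Subgroup.le_normalClosure hHM)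
  by_cases hn : Subgroup.normalizer (M : Set G) = ⊤
  · exact ⟨H, normal_of_top_le (le_normalizer_iff_cj.mpr fun g _ => h1 g
      (cj_le_of_le_of_mem_normalizer hHM (hn.ge (Subgroup.mem_top g)))), inf_eq_left.mpr hHM⟩
  have h3 := (hmaxM.le_iff.mp Subgroup.le_normalizer).resolve_left hn
  by_cases hW : ∀ g ∉ M, M ⊓ cj(g, M) ≤ H
  · obtain ⟨y, hy⟩ := SetLike.exists_of_lt hmaxH.lt_top
    have h4 := commutator_le_of_sup_zpowers (h2 y.2)
    rw [sup_zpowers_eq_of_max hHM hm y.2 hy.2] at h4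
    exact (exists_normal_of_wtriple hHM h4 hW).imp fun N h => ⟨h.1, h.2.2⟩
  push Not at hW
  obtain ⟨g, hg, h4⟩ := hW
  obtain ⟨y, ⟨a, b⟩, c⟩ := SetLike.not_le_iff_exists.mp h4
  refine ⟨_, ?_, hcl g⟩
  have d : y ∈ Subgroup.normalizer ((H ⊔ cj(g, H) : Subgroup G) : Set G) :=
    Subgroup.normalizer_inf_normalizer_le_normalizer_sup _ _
      ⟨h2 a, by rw [← cj_normalizer]; exact cj_mono g h2 b⟩
  have e := (sup_zpowers_eq_of_max hHM hm a c).ge.trans (sup_le (le_sup_left.trans Subgroup.le_normalizer)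
    (Subgroup.zpowers_le.mpr d))
  have f := (sup_zpowers_eq_of_max (cj_mono g hHM) (max_cj hm g) b fun k =>
    c ((hcl g).le ⟨Subgroup.mem_sup_right k, a⟩)).ge.trans (sup_le (le_sup_right.trans Subgroup.le_normalizer)
    (Subgroup.zpowers_le.mpr d))
  refine Subgroup.normalizer_eq_top_iff.mp ((hmaxM.le_iff.mp e).resolve_right fun k => hg ?_)
  exact h3.le (mem_normalizer_of_cj_le (f.trans k.le))

end Cfsg.Agent.S3014
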