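import Mathlib
import Cfsg.Statements.S3015
import Cfsg.Agent.H26.WTrip

set_option autoImplicit false
open Cfsg

namespace Cfsg.Agent.S3015
open H26

/-- Let G be a finite non-abelian simple group, M a maximal subgroup of G and H a normal subgroup of M of prime index in M. Then G is generated by H together with one of its conjugates. -/
theorem result {G : Type*} [Group G] [Finite G] [IsSimpleGroup G] (hG : ¬ IsMulCommutative G) (M H : Subgroup G) (hmaxM : IsCoatom M) (hHM : H ≤ M) (hHn : (H.subgroupOf M).Normal) (hidx : (H.relIndex M).Prime) : ∃ g : G, H ⊔ H.map (MulAut.conj g).toMonoidHom = ⊤ := by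
  have hm := max_of_prime_relIndex hidx
  have hp : Fact (H.relIndex M).Prime := ⟨hidx⟩
  have h2 : M ≤ Subgroup.normalizer (H : Set G) := (Subgroup.normal_subgroupOf_iff_le_normalizer hHM).mp hHn
  have h0 : ¬ M ≤ H := fun h => hidx.ne_one (Subgroup.relIndex_eq_one.mpr h)
  have h1 : ∀ X : Subgroup G, X ≠ ⊤ → M ≤ Subgroup.normalizer (X : Set G) →
      X = ⊥ ∨ Subgroup.normalizer (X : Set G) = M := fun X a b => (hmaxM.le_iff.mp b).imp_left fun c =>
    (Subgroup.normalizer_eq_top_iff.mp c).eq_bot_or_eq_top.resolve_right a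
  have h3 := (h1 M hmaxM.1 Subgroup.le_normalizer).resolve_left fun a => h0 (a.le.trans bot_le)
  have h5 : ∀ g, cj(g, M) ≤ M → g ∈ M := fun g a => h3.le (mem_normalizer_of_cj_le a)
  have h6 : ∀ g, M ≤ cj(g, M) → g ∈ M := fun g a => M.inv_mem_iff.mp (h5 _ (by rwa [cj_le_iff_le_cj, inv_inv]))
  have ht : ∀ X : Subgroup G, X ≤ M → X ≠ ⊤ := fun X a => ne_top_of_le_ne_top hmaxM.1 a
  by_cases hW : ∀ g ∉ M, M ⊓ cj(g, M) ≤ H
  · obtain ⟨y, hy⟩ := SetLike.not_le_iff_exists.mp h0
    have h4 := commutator_le_of_sup_zpowers (h2 hy.1)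
    rw [sup_zpowers_eq_of_max hHM hm hy.1 hy.2] at h4
    obtain ⟨N, a, b, c⟩ := exists_normal_of_wtriple hHM h4 hW
    rcases a.eq_bot_or_eq_top with rfl | rfl
    · exact absurd (isMulCommutative_iff.mpr fun x y => commutatorElement_eq_one_iff_mul_comm.mp
        (b (Subgroup.commutator_mem_commutator (Subgroup.mem_top x) (Subgroup.mem_top y)))) hG
    · exact absurd (c.le.trans' (le_inf le_top le_rfl)) h0
  push Not at hW
  obtain ⟨g, hg, h4⟩ := hW
  obtain ⟨y, ⟨a, b⟩, c⟩ := SetLike.not_le_iff_exists.mp h4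
  refine ⟨g, by_contra fun k => ?_⟩
  have d : y ∈ Subgroup.normalizer ((H ⊔ cj(g, H) : Subgroup G) : Set G) :=
    Subgroup.normalizer_inf_normalizer_le_normalizer_sup _ _
      ⟨h2 a, by rw [← cj_normalizer]; exact cj_mono g h2 b⟩
  have e0 := sup_zpowers_eq_of_max hHM hm a c
  have e := e0.ge.trans (sup_le (le_sup_left.trans Subgroup.le_normalizer) (Subgroup.zpowers_le.mpr d))
  have f : H ≠ ⊥ := fun f => hg (h6 g (e0.ge.trans (sup_le (f.le.trans bot_le) (Subgroup.zpowers_le.mpr b))))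
  have i : cj(g, H) ≤ M := le_sup_right.trans (Subgroup.le_normalizer.trans
    ((h1 _ k e).resolve_left fun i => f (le_bot_iff.mp (le_sup_left.trans i.le))).le)
  have j := (h1 H (ht H hHM) h2).resolve_left f
  have l : pResidualOf (H.relIndex M) H = pResidualOf (H.relIndex M) M :=
    pResidualOf_eq_of_le_of_le (pResidualOf_le_of_pow fun x hx => ⟨1, by
      rw [pow_one]; exact (H.subgroupOf M).pow_index_mem ⟨x, hx⟩⟩) hHM
  have m : g ∈ Subgroup.normalizer (pResidualOf (H.relIndex M) H : Set G) :=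
    mem_normalizer_of_cj_le (by rw [map_pResidualOf, l]; exact pResidualOf_mono i)
  have n : pResidualOf (H.relIndex M) M = ⊥ := (h1 _ (ht _ (pResidualOf_le M))
    (le_normalizer_pResidualOf M)).resolve_right fun n => hg (n.le (l ▸ m))
  have o : IsPGroup (H.relIndex M) M := isPGroup_iff_mem.mpr fun x hx => by
    simpa only [n, Subgroup.mem_bot] using exists_pow_mem_pResidualOf (p := H.relIndex M) hx
  have q : cj(g, H) < M := lt_of_le_of_ne i fun q => h0 (Subgroup.eq_of_le_of_card_ge hHM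
    (by rw [← card_cj g H, q])).ge
  obtain ⟨z, ⟨r, s⟩, t⟩ := SetLike.exists_of_lt (lt_inf_normalizer o q)
  rw [← cj_normalizer, j] at s
  exact hg (h5 g ((sup_zpowers_eq_of_max (cj_mono g hHM) (max_cj hm g) s t).ge.trans
    (sup_le i (Subgroup.zpowers_le.mpr r))))

end Cfsg.Agent.S3015
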