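import Mathlib
import Cfsg.Statements.S3020
import Cfsg.Agent.H26.Omega
import Cfsg.Agent.H02.PPrimeCore

set_option autoImplicit false
open Cfsg

namespace Cfsg.Agent.S3020
open H26

/-- Let G be a finite group, p a prime and H an abelian p-subgroup of G that is extremely closed (for every g, the subgroup generated by H and g H g⁻¹ meets N_G(H) exactly in H). Then for every g ∈ G, the subgroup T generated by H and g H g⁻¹ is the product of H with O_{p'}(T), and H meets O_{p'}(T) trivially; that is, O_{p'}(T) is a normal p-complement of H in T. -/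
theorem result {G : Type*} [Group G] [Finite G] {p : ℕ} [Fact p.Prime] (H : Subgroup G) (hHp : IsPGroup p H) (hHab : IsMulCommutative H) (hcl : Cfsg.IsExtremelyClosed H) (g : G) (T : Subgroup G) (hT : T = H ⊔ H.map (MulAut.conj g).toMonoidHom) : H ⊔ (Cfsg.pPrimeCore p ↥T).map T.subtype = T ∧ H ⊓ (Cfsg.pPrimeCore p ↥T).map T.subtype = ⊥ := by
  have h1 : H ≤ T := hT ▸ le_sup_left
  have h2 : T ⊓ Subgroup.normalizer (H : Set G) = H := hT ▸ hcl g
  have h3 : IsSyl p H T := isSyl_of_normalizer (by rw [h2]; exact isSyl_self hHp)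
  obtain ⟨S, hS, -⟩ := h3.exists_sylow
  have h4 : Subgroup.normalizer (S : Set T) ≤ Subgroup.centralizer (S : Set T) := by
    intro x hx
    have h5 : (x : G) ∈ H := by
      refine h2.le ⟨x.2, mem_normalizer_of_cj_le (cj_le_iff.mpr fun h hh => ?_)⟩
      have h6 : (⟨h, h1 hh⟩ : T) ∈ (S : Subgroup T) := by rw [hS]; exact hh
      have h7 : _ ∈ (S : Subgroup T) := (Subgroup.mem_normalizer_iff.mp hx _).mp h6
      rw [hS] at h7
      exact h7
    intro y hy
    have h6 : y ∈ (S : Subgroup T) := hy
    rw [hS] at h6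
    exact Subtype.ext (isMulCommutative_iff_le.mp hHab h5 y h6)
  have h5 := MonoidHom.ker_transferSylow_isComplement' S h4
  have h6 : (MonoidHom.transferSylow S h4).ker ≤ Cfsg.pPrimeCore p T := H02.le_pPrimeCore
    ((Nat.Prime.coprime_iff_not_dvd Fact.out).mpr (MonoidHom.not_dvd_card_ker_transferSylow S h4)).symm
  refine ⟨le_antisymm (sup_le h1 (Subgroup.map_subtype_le _)) ?_,
    (Subgroup.disjoint_of_coprime_natCard (H02.coprime_card_of_isPGroup hHp (H02.pPrimeCoreOf_coprime T))).eq_bot⟩
  have h7 := Subgroup.map_mono (f := T.subtype) (h5.sup_eq_top.ge.trans (sup_le_sup_right h6 _))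
  rwa [← MonoidHom.range_eq_map, Subgroup.range_subtype, Subgroup.map_sup, hS,
    Subgroup.map_subgroupOf_eq_of_le h1, sup_comm] at h7

end Cfsg.Agent.S3020
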