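import Mathlib
import Cfsg.Statements.S3021
import Cfsg.Agent.H26.WC

set_option autoImplicit false
open Cfsg

namespace Cfsg.Agent.S3021
open H26

/-- Let G be a finite group, p a prime and H a p-subgroup of G that is extremely closed (for every g, the subgroup generated by H and g H g⁻¹ meets N_G(H) exactly in H). Then every p-subgroup Q of G containing H has N_G(Q) ≤ N_G(H); in particular every Sylow p-subgroup P of G containing H normalizes H, and H is strongly closed in P with respect to G. -/
theorem result {G : Type*} [Group G] [Finite G] {p : ℕ} [Fact p.Prime] (H : Subgroup G) (hHp : IsPGroup p H) (hcl : Cfsg.IsExtremelyClosed H) : (∀ Q : Subgroup G, IsPGroup p Q → H ≤ Q → Subgroup.normalizer (Q : Set G) ≤ Subgroup.normalizer (H : Set G)) ∧ ∀ P : Sylow p G, H ≤ (P : Subgroup G) → (P : Subgroup G) ≤ Subgroup.normalizer (H : Set G) ∧ Cfsg.IsStronglyClosed H (P : Subgroup G) := by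
  have hw : WC p H ⊤ := by
    refine ⟨le_top, hHp, fun g _ h => ?_⟩
    have h1 : H ⊔ cj(g, H) ≤ H := le_of_inf_normalizer_le h le_sup_left (hcl g).le
    exact Subgroup.eq_of_le_of_card_ge (le_sup_right.trans h1) (card_cj g H).ge
  refine ⟨fun Q hQ h => (le_inf le_top le_rfl).trans (hw.normalizer_le hQ h), fun P h => ?_⟩
  have h2 := hw.le_normalizer P.isPGroup' h le_top
  refine ⟨h2, h, fun x hx g hg => (hcl g).le ⟨?_, h2 hg⟩⟩
  exact (le_sup_right : cj(g, H) ≤ H ⊔ cj(g, H)) (conj_mem_cj hx)

end Cfsg.Agent.S3021
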