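import Mathlib
import Cfsg.Statements.S3022
import Cfsg.Agent.H26.Bk27

set_option autoImplicit false
open Cfsg

namespace Cfsg.Agent.S3022
open H26

/-- Let G be a finite group all of whose non-abelian simple sections are known simple groups, such that a Sylow 2-subgroup of G lies in exactly one maximal subgroup of G and C_G(O₂(G)) ≤ O₂(G). Let S be a Sylow 2-subgroup of G and A a group of automorphisms of S of odd order. Then some nontrivial A-invariant subgroup of S is normal in G. -/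
theorem result {G : Type*} [Group G] [Finite G] (hK : Cfsg.IsKGroup G) (hirr : ∀ S : Sylow 2 G, ∃! M : Subgroup G, IsCoatom M ∧ (S : Subgroup G) ≤ M) (hchar : Subgroup.centralizer (Cfsg.pCore 2 G : Set G) ≤ Cfsg.pCore 2 G) (S : Sylow 2 G) (A : Subgroup (MulAut ↥(S : Subgroup G))) (hA : Odd (Nat.card A)) : ∃ U : Subgroup G, U ≠ ⊥ ∧ U.Normal ∧ U ≤ (S : Subgroup G) ∧ ∀ a ∈ A, ∀ x : ↥(S : Subgroup G), (x : G) ∈ U → ((a x : ↥(S : Subgroup G)) : G) ∈ U := by
  obtain ⟨M, ⟨h1, h2⟩, h3⟩ := hirr S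
  refine odd_aut (cx_top hchar S) ⟨h2, h1.1.lt_top, fun X a b => ?_⟩ (fun e => h1.1 (top_le_iff.mp fun x _ => ?_)) A hA
  · obtain ⟨N, c, d⟩ := (eq_top_or_exists_le_coatom X).resolve_left b.ne
    exact h3 N ⟨c, a.trans d⟩ ▸ d
  · have l := (pCore_le_sylow S).trans e.le
    exact h2 (pCore_le_sylow S (hchar fun y hy => by rw [Subgroup.mem_bot.mp (l hy), one_mul, mul_one]))

end Cfsg.Agent.S3022
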