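import Mathlib
import Cfsg.Statements.S3025
import Cfsg.Agent.H26.SubN
import Cfsg.Agent.H04.Quat2
import Cfsg.Agent.H01.Generation

set_option autoImplicit false
open Cfsg

namespace Cfsg.Agent.S3025
open H26

/-- Let F be a finite group and H a nontrivial subgroup of F that is contained in every nontrivial subgroup of F which H normalizes. Then F has a nontrivial normal subgroup N contained in every nontrivial normal subgroup of F (a unique minimal normal subgroup), N is simple, and one of the following holds: C_F(N) = 1; or H = N has prime order p, C_F(N) is cyclic of order a power of p, and F/C_F(N) is cyclic of order dividing p − 1; or H = N has order 2, N is central in F, and F is a generalized quaternion group. -/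
theorem result {F : Type*} [Group F] [Finite F] (H : Subgroup F) (hH : H ≠ ⊥)
    (hmin : ∀ R : Subgroup F, R ≠ ⊥ → H ≤ Subgroup.normalizer (R : Set F) → H ≤ R) :
    ∃ N : Subgroup F, N.Normal ∧ N ≠ ⊥ ∧ (∀ M : Subgroup F, M.Normal → M ≠ ⊥ → N ≤ M) ∧ IsSimpleGroup ↥N ∧
      (Subgroup.centralizer (N : Set F) = ⊥ ∨
       (H = N ∧ (Nat.card N).Prime ∧ IsCyclic ↥(Subgroup.centralizer (N : Set F)) ∧
          (∃ k : ℕ, 1 ≤ k ∧ Nat.card ↥(Subgroup.centralizer (N : Set F)) = Nat.card N ^ k) ∧
          (∃ g : F, Subgroup.centralizer (N : Set F) ⊔ Subgroup.zpowers g = ⊤) ∧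
          (Subgroup.centralizer (N : Set F)).index ∣ Nat.card N - 1) ∨
       (H = N ∧ Nat.card N = 2 ∧ Subgroup.centralizer (N : Set F) = ⊤ ∧
          ∃ k : ℕ, 1 ≤ k ∧ Nonempty (F ≃* QuaternionGroup (2 ^ k)))) := by
  set N := Subgroup.normalClosure (H : Set F)
  have h1 : H ≤ N := Subgroup.le_normalClosure
  have h2 : N ≠ ⊥ := fun a => hH (le_bot_iff.mp (h1.trans a.le))
  have h3 : ∀ M : Subgroup F, M.Normal → M ≠ ⊥ → N ≤ M := fun M _ a =>
    Subgroup.normalClosure_le_normal (hmin M a Subgroup.le_normalizer_of_normal)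
  have h4 : ∀ K : Subgroup F, N ≤ Subgroup.normalizer (K : Set F) → K ≠ ⊥ → N ≤ K := fun K a b => by
    rw [show N = ncl H ⊤ from (ncl_top H).symm, ncl_le_iff]
    refine fun g _ => cj_le_iff_le_cj.mpr (hmin _ (by rwa [Ne, cj_eq_bot_iff]) (h1.trans ?_))
    rw [← cj_normalizer]
    exact (cj_eq_of_normal _ N).ge.trans (cj_mono _ a)
  have : Nontrivial N := (Subgroup.nontrivial_iff_ne_bot N).mpr h2
  have h5 : IsSimpleGroup N := ⟨fun K _ => (em (K = ⊥)).imp_right fun a => by
    have := h4 _ (le_normalizer_map_subtype K) (by rwa [Ne, Subgroup.map_eq_bot_iff_of_injective _ N.subtype_injective])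
    exact eq_top_iff.mpr fun x _ => (Subgroup.mem_map_iff_mem N.subtype_injective).mp (this x.2)⟩
  refine ⟨N, inferInstance, h2, h3, h5, (em _).imp_right fun hC => ?_⟩
  set C := Subgroup.centralizer (N : Set F)
  have h6 : N ≤ C := h3 C inferInstance hC
  have h7 : (Nat.card N).Prime := by
    let _ : CommGroup N := { mul_comm := (isMulCommutative_iff_le.mpr h6).is_comm.comm }
    exact IsSimpleGroup.prime_card
  have hp : Fact (Nat.card N).Prime := ⟨h7⟩
  have h8 : ∀ R ≤ C, R ≠ ⊥ → N ≤ R := fun R a b =>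
    h4 R ((Subgroup.le_centralizer_iff.mp a).trans (centralizer_le_normalizer R)) b
  have h9 : H = N := le_antisymm h1 (h8 H (h1.trans h6) hH)
  have a1 : IsPGroup (Nat.card N) C := isPGroup_of_forall_coprime fun x hx a => by_contra fun b => by
    have := Subgroup.card_dvd_of_le (h8 _ (Subgroup.zpowers_le.mpr hx) (by simpa using b))
    rw [Nat.card_zpowers] at this
    exact h7.ne_one (a.symm.eq_one_of_dvd this)
  have a2 : ∀ K : Subgroup C, Nat.card K = Nat.card N → K.map C.subtype = N := fun K a =>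
    (Subgroup.eq_of_le_of_card_ge (h8 _ (Subgroup.map_subtype_le K) fun b => by
      rw [← card_map_subtype, b, Subgroup.card_bot] at a
      exact h7.ne_one a.symm) (by rw [card_map_subtype, a])).symm
  have a3 : (MulAut.conjNormal (H := N)).ker = C := by
    ext g
    simp only [MonoidHom.mem_ker, MulEquiv.ext_iff, C, Subgroup.mem_centralizer_iff, Subtype.ext_iff,
      MulAut.conjNormal_apply, MulAut.one_apply, Subtype.forall, mul_inv_eq_iff_eq_mul, SetLike.mem_coe]
    exact forall₂_congr fun _ _ => eq_comm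
  have := isCyclic_of_prime_card (α := N) rfl
  have a4 : C.index ∣ Nat.card N - 1 := by
    rw [← a3, Subgroup.index_ker, ← Nat.totient_prime h7, ← IsCyclic.card_mulAut]
    exact Subgroup.card_subgroup_dvd_card _
  rcases H04.isCyclic_or_quaternion_of_unique a1 fun A B a b => Subgroup.map_injective C.subtype_injective
    ((a2 A a).trans (a2 B b).symm) with a | ⟨a, n, ⟨e⟩⟩
  · obtain ⟨k, hk⟩ := IsPGroup.iff_card.mp a1
    have : IsCyclic (MulAut N) := isCyclic_of_injective (IsCyclic.mulAutMulEquiv N).toMonoidHom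
      (IsCyclic.mulAutMulEquiv N).injective
    refine Or.inl ⟨h9, h7, a, ⟨k, Nat.pos_of_ne_zero fun b => hC ?_, hk⟩, ?_, a4⟩
    · rwa [b, pow_zero, Subgroup.card_eq_one] at hk
    · rw [← a3]
      exact H01.exists_sup_zpowers_of_isCyclic_range _ inferInstance
  · rw [a] at a4
    have a5 : C = ⊤ := Subgroup.index_eq_one.mp (Nat.dvd_one.mp a4)
    exact Or.inr ⟨h9, a, a5, n + 1, by omega, ⟨(Subgroup.topEquiv.symm.trans (MulEquiv.subgroupCongr a5.symm)).trans e⟩⟩

end Cfsg.Agent.S3025
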