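import Mathlib
import Cfsg.Statements.S3027
import Cfsg.Agent.H26.SubN

set_option autoImplicit false
open Cfsg

namespace Cfsg.Agent.S3027
open H26

theorem comm_sup {G : Type*} [Group G] (D : Subgroup G) [D.Normal]
    (hperf : ⁅(⊤ : Subgroup G), (⊤ : Subgroup G)⁆ ⊔ D = ⊤) {X Y : Subgroup G} (hX : X ⊔ D = ⊤)
    (hY : Y ⊔ D = ⊤) (a : Y ≤ Subgroup.normalizer (X : Set G)) (b : X ≤ Subgroup.normalizer (Y : Set G)) :
    X ⊓ Y ⊔ D = ⊤ := by
  have h1 : ∀ A : Subgroup G, A ⊔ D = ⊤ ↔ A.map (QuotientGroup.mk' D) = ⊤ := fun A => by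
    rw [← Subgroup.comap_injective (QuotientGroup.mk'_surjective D) |>.eq_iff, Subgroup.comap_map_eq,
      QuotientGroup.ker_mk', Subgroup.comap_top]
  have h2 : ⁅X, Y⁆ ⊔ D = ⊤ := by
    have h3 := (h1 _).mp hperf
    rw [Subgroup.map_commutator, (h1 ⊤).mp (top_sup_eq _)] at h3
    rw [h1, Subgroup.map_commutator, (h1 _).mp hX, (h1 _).mp hY, h3]
  exact eq_top_iff.mpr (h2.ge.trans (sup_le_sup_right (le_inf (commutator_le_of_le_normalizer a)
    (commutator_le_of_le_normalizer' b)) _))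

theorem least {G : Type*} [Group G] [Finite G] (D : Subgroup G) [D.Normal]
    (hperf : ⁅(⊤ : Subgroup G), (⊤ : Subgroup G)⁆ ⊔ D = ⊤) (B : Subgroup G) (hB : B ⊔ D = ⊤) :
    ∃ X : Subgroup G, (X ≤ B ∧ B ≤ Subgroup.normalizer (X : Set G) ∧ X ⊔ D = ⊤) ∧
      ∀ Y : Subgroup G, Y ≤ B → B ≤ Subgroup.normalizer (Y : Set G) → Y ⊔ D = ⊤ → X ≤ Y := by
  obtain ⟨X, hX⟩ := exists_minimal_of_wellFoundedLT (fun X : Subgroup G => X ≤ B ∧
    B ≤ Subgroup.normalizer (X : Set G) ∧ X ⊔ D = ⊤) ⟨B, le_rfl, Subgroup.le_normalizer, hB⟩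
  refine ⟨X, hX.prop, fun Y a b c => ?_⟩
  exact (hX.le_of_le ⟨inf_le_left.trans hX.prop.1, le_normalizer_inf hX.prop.2.1 b,
    comm_sup D hperf hX.prop.2.2 c (a.trans hX.prop.2.1) (hX.prop.1.trans b)⟩ inf_le_left).trans
    inf_le_right

/-- Let G be a finite group and D a normal subgroup of G such that G/D is perfect (that is, G = G′D). Then among the subnormal subgroups B of G with BD = G there is a least one, and it is normal in G. -/
theorem result {G : Type*} [Group G] [Finite G] (D : Subgroup G) [D.Normal] (hperf : ⁅(⊤ : Subgroup G), (⊤ : Subgroup G)⁆ ⊔ D = ⊤) :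
    ∃ B : Subgroup G, B.Normal ∧ B ⊔ D = ⊤ ∧ ∀ B' : Subgroup G, B'.IsSubnormal → B' ⊔ D = ⊤ → B ≤ B' := by
  obtain ⟨B, ⟨-, h1, h2⟩, h3⟩ := least D hperf ⊤ (top_sup_eq _)
  have hB := normal_of_top_le h1
  obtain ⟨X, ⟨h4, h5, h6⟩, h7⟩ := least D hperf B h2
  have h8 : B ≤ X := by
    refine h3 X le_top (le_normalizer_iff_cj.mpr fun g _ => cj_le_iff_le_cj.mpr (h7 _ ?_ ?_ ?_)) h6
    · exact (cj_mono _ h4).trans (cj_eq_of_normal _ B).le
    · rw [← cj_normalizer]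
      exact (cj_eq_of_normal _ B).ge.trans (cj_mono _ h5)
    · rw [← cj_eq_of_normal g⁻¹ D, ← cj_sup, h6, cj_top]
  refine ⟨B, hB, h2, fun K hK => ?_⟩
  have hK' := subN_top_iff.mpr hK
  clear hK
  induction hK' with
  | refl => exact fun _ => le_top
  | step H K a b c ih =>
    intro d
    have h9 := (ih (eq_top_iff.mpr (d.ge.trans (sup_le_sup_right a _)))).trans b
    exact (h8.trans (h7 _ inf_le_left (le_normalizer_inf Subgroup.le_normalizer h9)
      (comm_sup D hperf h2 d Subgroup.le_normalizer_of_normal h9))).trans inf_le_right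

end Cfsg.Agent.S3027
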