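import Cfsg.Statements.S3032
import Mathlib
import Cfsg.Agent.H27.SClosed2
-- import your own Cfsg.Agent.* helpers here

set_option autoImplicit false
open Cfsg

namespace Cfsg.Agent.S3032

open scoped Pointwise commutatorElement

universe u

open Subgroup H27 in
theorem aux {G : Type u} [Group G] [Finite G] (n : ℕ) : ∀ (E : Subgroup G) [E.Normal], Nat.card E = n →
    (∀ (p : ℕ), p.Prime → ∀ P : Subgroup G, P ≤ E → IsPGroup p P → ¬ p ∣ P.relIndex E → ¬ IsCyclic ↥P →
      ∃ k, 1 ≤ k ∧ p ^ k < Nat.card P ∧ AllSC P (p ^ k) ∧ (p ^ k = 2 → AllSC P 4)) → H16.HC E := by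
  induction n using Nat.strong_induction_on with
  | _ n ih =>
  intro E _ hn h
  by_cases h1 : Nat.card E = 1
  · rw [card_eq_one.1 h1]; exact H16.HC.bot
  set p := (Nat.card E).minFac with hpdef
  haveI hp := Fact.mk (Nat.minFac_prime h1)
  obtain ⟨S⟩ : Nonempty (Sylow p E) := inferInstance
  set P := (S : Subgroup E).map E.subtype with hP
  have hPE : P ≤ E := map_subtype_le _
  have hPp : IsPGroup p P := S.2.map _
  have hPS : P.subgroupOf E = S := comap_map_eq_self_of_injective E.subtype_injective _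
  have hPi : ¬ p ∣ P.relIndex E := by
    rw [relIndex, hPS]; exact S.not_dvd_index
  have hcP : Nat.card P = Nat.card S := card_map_of_injective E.subtype_injective
  have hnpc : HasNormalPComplement p E := by
    by_cases hc : IsCyclic P
    · have hc' : IsCyclic S := (S.1.equivMapOfInjective _ E.subtype_injective).isCyclic.2 hc
      exact H03.hasNPC_of_normalizer_le_centralizer S (hc'.normalizer_le_centralizer rfl)
    · obtain ⟨k, k1, k2, k3, k4⟩ := h p hp.out P hPE hPp hPi hc
      exact hasNPC_of_allSC k E S (fun q hq hd => Nat.minFac_le_of_dvd hq.two_le hd) k1 (hcP ▸ k2)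
        (hPS ▸ k3.subgroupOf E) fun e => hPS ▸ (k4 e).subgroupOf E
  set K := (pResidual p E).map E.subtype with hK
  haveI hKn : K.Normal := ConjAct.normal_of_characteristic_of_normal
  have hKE : K ≤ E := map_subtype_le _
  have hKc : (Nat.card K).Coprime p := by
    rw [hK, card_map_of_injective E.subtype_injective]
    exact H03.hasNPC_iff_coprime.1 hnpc
  have hKP : K ⊔ P = E := by
    rw [hK, hP, ← Subgroup.map_sup, H03.pResidual_sup_sylow, ← MonoidHom.range_eq_map, range_subtype]
  have hKlt : Nat.card K < n := by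
    rw [← hn]
    refine lt_of_le_of_ne (card_le_of_le hKE) fun e => ?_
    exact H03.coprime_iff_not_dvd.1 hKc (e ▸ Nat.minFac_dvd _)
  have hKi : ∃ m, K.relIndex E = p ^ m := by
    rw [relIndex, hK, show ((pResidual p E).map E.subtype).subgroupOf E = pResidual p E from
      comap_map_eq_self_of_injective E.subtype_injective _]
    exact H03.exists_index_pResidual
  have hHK : H16.HC K := by
    refine ih _ hKlt K rfl fun q hq Q hQ hQq hQi hQc => h q hq Q (hQ.trans hKE) hQq ?_ hQc
    rw [← relIndex_mul_relIndex Q K E hQ hKE]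
    intro hd
    rcases (hq.dvd_mul).1 hd with hd | hd
    · exact hQi hd
    · obtain ⟨m, hm⟩ := hKi
      have hqp : q = p := (Nat.prime_dvd_prime_iff_eq hq hp.out).1 (hq.dvd_of_dvd_pow (hm ▸ hd))
      apply hQc
      have : Q = ⊥ := by
        have := H03.disjoint_of_isPGroup_of_coprime (hqp ▸ hQq) hKc
        exact disjoint_self.1 (this.mono_left hQ)
      rw [this]; infer_instance
  have h5 : (P.map (QuotientGroup.mk' K)).comap (QuotientGroup.mk' K) = E := by
    rw [comap_map_eq, QuotientGroup.ker_mk', sup_comm, hKP]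
  haveI : (P.map (QuotientGroup.mk' K)).Normal := by
    have := Normal.map (inferInstance : E.Normal) _ (QuotientGroup.mk'_surjective K)
    rwa [← h5, map_comap_eq_self_of_surjective (QuotientGroup.mk'_surjective K)] at this
  rw [← h5]
  refine H16.HC.comap_of_surjective (QuotientGroup.mk'_surjective _)
    (by rw [QuotientGroup.ker_mk']; exact hHK) ?_
  by_cases hc : IsCyclic P
  · haveI : IsCyclic (P.map (QuotientGroup.mk' K)) :=
      isCyclic_of_surjective _ ((QuotientGroup.mk' K).subgroupMap_surjective P)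
    exact H16.HC.of_isCyclic _
  · obtain ⟨k, k1, k2, k3, k4⟩ := h p hp.out P hPE hPp hPi hc
    refine hc_of_allSC k _ _ (hPp.map _) k1 ?_ (k3.quot_coprime hPp K hKc)
      fun e => (k4 e).quot_coprime hPp K hKc
    have h3 := card_comap_mk K (P.map (QuotientGroup.mk' K))
    have h4 := H01.card_sup_mul_card_inf P K
    rw [disjoint_iff.1 (H03.disjoint_of_isPGroup_of_coprime hPp hKc).symm, card_bot, mul_one, sup_comm, hKP] at h4
    rw [h5, h4] at h3
    exact (Nat.eq_of_mul_eq_mul_right Nat.card_pos h3) ▸ k2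

/-- Let G be a finite group and E a normal subgroup with G/E supersolvable. Suppose that for every prime p and every non-cyclic Sylow p-subgroup P of E there is a subgroup D of P with 1 < |D| < |P| such that every subgroup F of P of order |D|, and also every subgroup F of P of order 4 when |D| = 2, satisfies g F g⁻¹ ∩ N_G(F) ≤ F for all g ∈ G. Then G is supersolvable. -/
theorem result {G : Type*} [Group G] [Finite G] (E : Subgroup G) [E.Normal] (hGE : Cfsg.IsSupersolvable (G ⧸ E))
    (h : ∀ (p : ℕ), p.Prime → ∀ P : Subgroup G, P ≤ E → IsPGroup p P → ¬ p ∣ P.relIndex E → ¬ IsCyclic ↥P →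
      ∃ D : Subgroup G, D ≤ P ∧ 1 < Nat.card D ∧ Nat.card D < Nat.card P ∧
        ∀ F : Subgroup G, F ≤ P → (Nat.card F = Nat.card D ∨ (Nat.card D = 2 ∧ Nat.card F = 4)) →
          ∀ g : G, F.map (MulAut.conj g).toMonoidHom ⊓ Subgroup.normalizer (F : Set G) ≤ F) :
    Cfsg.IsSupersolvable G := by
  refine H16.ss_of_HC_of_quotient (aux _ E rfl fun p hp P hP hPp hi hc => ?_) hGE
  haveI := Fact.mk hp
  obtain ⟨D, hD, h1, h2, h3⟩ := h p hp P hP hPp hi hc
  obtain ⟨k, hk⟩ := (hPp.to_le hD).exists_card_eq
  refine ⟨k, ?_, hk ▸ h2,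
      (fun E hE hc => H27.sc_of_hSubgroup hPp hE (h3 E hE (Or.inl (hc.trans hk.symm)))),
      (fun e E hE hc => H27.sc_of_hSubgroup hPp hE (h3 E hE (Or.inr ⟨hk.trans e, hc⟩)))⟩
  rcases k with _ | k
  · rw [hk] at h1; simp at h1
  · omega

end Cfsg.Agent.S3032
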