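import Mathlib
import Cfsg.Statements.S3048
import Cfsg.Agent.H26.SubN
import Cfsg.Agent.H08.BaerSuzuki
import Cfsg.Agent.H22.FStar
import Cfsg.Agent.H02.MinNormal
import Cfsg.Agent.S3012
import Cfsg.Agent.S3013

set_option autoImplicit false
universe u
open Cfsg

namespace Cfsg.Agent.S3048
open H26

/-- Minimal counterexample reduction for the Sidki pair problem. Let G be a finite group and V a nontrivial elementary abelian 2-subgroup satisfying the Sidki pair condition with V ∩ O₂(G) = 1. Suppose that for every finite group H of smaller order, every nontrivial elementary abelian 2-subgroup W of H satisfying the Sidki pair condition meets O₂(H) nontrivially, and that the same holds in G for every such subgroup W of order smaller than that of V. Then the generalized Fitting subgroup F*(G) is a non-abelian simple group and G = V F*(G). -/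
theorem result {G : Type u} [Group G] [Finite G] (V : Subgroup G) (hV : Cfsg.IsElementaryAbelian 2 V) (hV1 : V ≠ ⊥) (hS : Cfsg.IsSidkiPair V) (hVO : V ⊓ Cfsg.pCore 2 G = ⊥) (hminG : ∀ (H : Type u) [Group H] [Finite H] (W : Subgroup H), Nat.card H < Nat.card G → Cfsg.IsElementaryAbelian 2 W → W ≠ ⊥ → Cfsg.IsSidkiPair W → W ⊓ Cfsg.pCore 2 H ≠ ⊥) (hminV : ∀ W : Subgroup G, Nat.card W < Nat.card V → Cfsg.IsElementaryAbelian 2 W → W ≠ ⊥ → Cfsg.IsSidkiPair W → W ⊓ Cfsg.pCore 2 G ≠ ⊥) : IsSimpleGroup ↥(Cfsg.generalizedFittingSubgroup G) ∧ ¬ IsMulCommutative ↥(Cfsg.generalizedFittingSubgroup G) ∧ V ⊔ Cfsg.generalizedFittingSubgroup G = ⊤ := by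
  have : Fact (Nat.Prime 2) := ⟨Nat.prime_two⟩
  have hc := isMulCommutative_iff_le.mp hV.1
  have ea : ∀ W ≤ V, IsElementaryAbelian 2 W := fun W a =>
    ⟨isMulCommutative_iff_le.mpr ((a.trans hc).trans (centralizer_anti a)), fun x hx => hV.2 x (a hx)⟩
  have h2 : ∀ h : G, Odd (orderOf h) → h⁻¹ = h → h = 1 := fun h a b =>
    eq_one_of_coprime (n := 2) (by rw [sq]; nth_rw 1 [← b]; exact inv_mul_cancel h) a.coprime_two_right
  have h1 : ∀ v ∈ V, v ≠ 1 → ∃ h : G, h ≠ 1 ∧ Odd (orderOf h) ∧ v * h * v⁻¹ = h⁻¹ := fun v a b =>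
    H08.exists_inverted_odd_of_notMem_pCore (by rw [← sq]; exact hV.2 v a) fun c => b (hVO.le ⟨a, c⟩)
  have clt : ∀ {A B : Subgroup G}, A < B → Nat.card A < Nat.card B := fun a =>
    (Subgroup.card_le_of_le a.le).lt_of_ne fun b => a.ne (Subgroup.eq_of_le_of_card_ge a.le b.ge)
  have sq2 : ∀ W K : Subgroup G, W ≤ V → W ≤ Subgroup.normalizer (K : Set G) → ∀ y ∈ W ⊔ K,
      Odd (orderOf y) → y ∈ K := fun W K a b y c d => by
    refine mem_of_pow_mem_of_coprime (n := 2) ?_ d.coprime_two_right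
    obtain ⟨v, e, k, f, rfl⟩ := (mem_sup_of_le_normalizer b).mp c
    rw [show (v * k) ^ 2 = v * k * v⁻¹ * v ^ 2 * k by rw [sq, sq]; group, hV.2 v (a e), mul_one]
    exact mul_mem ((Subgroup.mem_normalizer_iff.mp (b e) k).mp f) f
  have key : ∀ H W : Subgroup G, H ≠ ⊤ → W ≤ H → W ≤ V → W ≠ ⊥ → IsSidkiPair (W.subgroupOf H) →
      ∃ w ∈ W, w ≠ 1 ∧ w ∈ pCoreOf 2 H := fun H W a b c d e => by
    have := hminG H (W.subgroupOf H) (by
      rw [← Subgroup.card_top (G := G)]; exact clt a.lt_top) (H17.elemAb_subgroupOf (ea W c) H) (fun f => d (by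
        rw [← Subgroup.map_subgroupOf_eq_of_le b, f, Subgroup.map_bot])) e
    obtain ⟨⟨w, f⟩, g⟩ := Subgroup.ne_bot_iff_exists_ne_one.mp this
    exact ⟨w, f.1, fun i => g (Subtype.ext (Subtype.ext i)), mem_pCoreOf_iff.mpr f.2⟩
  have sub : ∀ H : Subgroup G, V ≤ H → IsSidkiPair (V.subgroupOf H) := fun H a h v b c d => by
    obtain ⟨w, e, f, g⟩ := hS h v b (by simpa using c) (congrArg Subtype.val d)
    exact ⟨⟨w, a e⟩, e, fun i => f (congrArg Subtype.val i), Subtype.ext g⟩
  have quo : ∀ (K : Subgroup G) [K.Normal], K ≠ ⊥ → V ⊓ K = ⊥ →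
      ∃ v ∈ V, v ≠ 1 ∧ (v : G ⧸ K) ∈ pCore 2 (G ⧸ K) := fun K _ a b => by
    have := hminG (G ⧸ K) (V.map (QuotientGroup.mk' K)) (by
      rw [← K.index_mul_card]
      exact lt_mul_of_one_lt_right Nat.card_pos ((Subgroup.one_lt_card_iff_ne_bot K).mpr a))
      (H17.elemAb_map hV _) (fun f => hV1 (by
        rw [Subgroup.map_eq_bot_iff, QuotientGroup.ker_mk'] at f
        rw [← b, inf_eq_left.mpr f])) (S3012.result V K hV hV1 hS b)
    obtain ⟨⟨_, ⟨w, f, rfl⟩, f'⟩, g⟩ := Subgroup.ne_bot_iff_exists_ne_one.mp this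
    exact ⟨w, f, fun i => g (Subtype.ext (by simp [i])), f'⟩
  have hO : pCore 2 G = ⊥ := by_contra fun a => by
    obtain ⟨v, b, c, d⟩ := quo _ a hVO
    rw [pCore_quotient_pCore] at d
    exact c (hVO.le ⟨b, (QuotientGroup.eq_one_iff v).mp d⟩)
  have cen : ∀ K D : Subgroup G, SubN ⊤ K → D ≤ Subgroup.normalizer (K : Set G) → K ≤ D →
      pCoreOf 2 D ≤ Subgroup.centralizer (K : Set G) := fun K D a b c => by
    rw [← commutator_eq_bot_iff', eq_bot_iff, ← hO, ← pCoreOf_top]
    refine le_trans ?_ a.pCoreOf_le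
    rw [pCoreOf_eq_inf_of_normal c b]
    exact le_inf (commutator_le_of_le_normalizer ((pCoreOf_le D).trans b))
      (commutator_le_of_le_normalizer' (c.trans (le_normalizer_pCoreOf D)))
  have sn : ∀ (K : Subgroup G) [K.Normal], SubN ⊤ K := fun K _ =>
    .of_normal le_top Subgroup.le_normalizer_of_normal
  have sup : ∀ (K : Subgroup G) [K.Normal], K ≠ ⊥ → V ⊔ K = ⊤ := fun K _ a => by_contra fun b => by
    obtain ⟨u, c, d, e⟩ := key _ V b le_sup_left le_rfl hV1 (sub _ le_sup_left)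
    replace e := cen K _ (sn K) Subgroup.le_normalizer_of_normal le_sup_right e
    have f : V ≤ Subgroup.centralizer (K : Set G) := by_contra fun f => by
      refine hminV (V ⊓ Subgroup.centralizer (K : Set G)) (clt (inf_lt_left.mpr f))
        (ea _ inf_le_left) (fun g => d (g.le ⟨c, e⟩)) (fun h v g i j => ?_) (by rw [hO, inf_bot_eq])
      by_cases k : h = 1
      · exact ⟨u, ⟨c, e⟩, d, by simp [k]⟩
      obtain ⟨l, m⟩ := S3013.result V hV hV1 hS v h g.1 i j _ rfl
      have n : h ∈ Subgroup.centralizer (K : Set G) := mem_of_pow_mem_of_coprime (n := 2) (by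
        have := mul_mem ((inferInstance : (Subgroup.centralizer (K : Set G)).Normal).conj_mem _ g.2 h) (inv_mem g.2)
        rwa [mul_assoc, mul_assoc, ← mul_assoc v, ← conj_inv, j, inv_inv, ← sq] at this) i.coprime_two_right
      obtain ⟨w, o, q, r⟩ := key _ _ (fun o => k (h2 h i (by
        rw [← j, ← Subgroup.mem_centralizer_singleton_iff.mp (o.ge (Subgroup.mem_top h)).1]; simp)))
        inf_le_left inf_le_right l m
      exact ⟨w, ⟨o.2, cen K _ (sn K) Subgroup.le_normalizer_of_normal (le_inf (mem_centralizer_iff_le.mp g.2)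
        (mem_centralizer_iff_le.mp n)) r⟩, q, Subgroup.mem_centralizer_singleton_iff.mp o.1.2⟩
    have g : Subgroup.centralizer (K : Set G) = ⊤ := by_contra fun g => by
      obtain ⟨w, -, i, j⟩ := key _ V g f le_rfl hV1 (sub _ f)
      exact i (((pCoreOf_le_pCore _).trans hO.le) j)
    have i : ∀ X ≤ K, X.Normal := fun X i => normal_of_top_le
      ((g.ge.trans (centralizer_anti i)).trans (centralizer_le_normalizer X))
    obtain ⟨v, j, k, l⟩ := quo K a (by
      have := i (V ⊓ K) inf_le_right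
      exact le_bot_iff.mp ((le_pCore (H17.elemAb_isPGroup hV).to_inf_left).trans hO.le))
    obtain ⟨h, m, n, o⟩ := h1 v j k
    have q : (h : G ⧸ K) = 1 := by
      have r := n.coprime_two_right.coprime_dvd_left (orderOf_map_dvd (QuotientGroup.mk' K) h)
      refine eq_one_of_mem_pGroup isPGroup_pCore (mem_of_pow_mem_of_coprime (n := 2) ?_ r) r
      have := mul_mem ((pCore_normal 2 _).conj_mem _ l h) (inv_mem l)
      rwa [← QuotientGroup.mk_inv, ← QuotientGroup.mk_inv, ← QuotientGroup.mk_mul, ← QuotientGroup.mk_mul,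
        ← QuotientGroup.mk_mul, mul_assoc, mul_assoc, ← mul_assoc v, ← conj_inv, o, inv_inv, ← sq] at this
    exact m (h2 h n (by rw [← o, ← g.ge (Subgroup.mem_top v) h ((QuotientGroup.eq_one_iff h).mp q)]; simp))
  set R := pResidual 2 G
  have hR : R.Normal := pResidual_normal
  have r1 : ∀ (K : Subgroup G) [K.Normal], K ≠ ⊥ → R ≤ K := fun K _ a => by
    rw [show R = _ from pResidualOf_top.symm]
    exact pResidualOf_le_iff.mpr fun x _ b => sq2 V K le_rfl Subgroup.le_normalizer_of_normal x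
      ((sup K a).ge (Subgroup.mem_top x)) b.odd_of_right
  have r2 : ∀ h : G, Odd (orderOf h) → h ∈ R := fun h a => Subgroup.subset_closure a.coprime_two_right
  obtain ⟨⟨v, v1⟩, v2⟩ := Subgroup.ne_bot_iff_exists_ne_one.mp hV1
  obtain ⟨h, x1, x2, x3⟩ := h1 v v1 fun a => v2 (Subtype.ext a)
  have r3 : R ≠ ⊥ := fun a => x1 (a.le (r2 h x2))
  have r4 : ∀ X : Subgroup G, V ≤ Subgroup.normalizer (X : Set G) → R ≤ Subgroup.normalizer (X : Set G) →
      X.Normal := fun X a b => normal_of_top_le ((sup R r3).ge.trans (sup_le a b))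
  have r5 : ∀ w ∈ V, w ∈ Subgroup.centralizer (R : Set G) → w = 1 := fun w a b => by
    have := r4 (V ⊓ Subgroup.centralizer (R : Set G))
      (le_normalizer_inf Subgroup.le_normalizer Subgroup.le_normalizer_of_normal)
      ((Subgroup.le_centralizer_iff.mp inf_le_right).trans (centralizer_le_normalizer _))
    exact ((le_pCore (H17.elemAb_isPGroup hV).to_inf_left).trans hO.le) ⟨a, b⟩
  have r6 : ¬ R ≤ Subgroup.centralizer (R : Set G) := fun a => by
    obtain ⟨w, b, c, d⟩ := hS h v v1 x2 x3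
    have := r4 (R ⊓ Subgroup.centralizer {w}) (le_normalizer_inf Subgroup.le_normalizer_of_normal
      ((mem_centralizer_iff_le.mp (hc b)).trans Subgroup.le_normalizer))
      ((a.trans (centralizer_anti inf_le_left)).trans (centralizer_le_normalizer _))
    exact c (r5 w b (mem_centralizer_iff_le.mpr ((r1 (R ⊓ Subgroup.centralizer {w}) fun e => x1 (e.le ⟨r2 h x2,
      Subgroup.mem_centralizer_singleton_iff.mpr d.symm⟩)).trans inf_le_right)))
  have r7 : Subgroup.centralizer (R : Set G) = ⊥ := by_contra fun a => r6 (r1 _ a)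
  have r8 : generalizedFittingSubgroup G = R := by
    have := H22.fstar_normal (G := G)
    refine le_antisymm (H22.fstar_le_of_centralizer_le hR.isSubnormal ?_ (r7.le.trans bot_le))
      (r1 _ fun a => x1 ((H22.fstar_eq_bot_iff.mp a).elim _ _))
    by_contra a
    have b := r1 (fittingSubgroup G) fun b => a (b.le.trans bot_le)
    exact r6 (H02.minimal_normal_le_centralizer_fitting (fun M _ c => (em _).imp_right fun d =>
      le_antisymm c (r1 M d)) |>.trans (centralizer_anti b))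
  rw [r8]
  refine ⟨?_, fun a => r6 (isMulCommutative_iff_le.mp a), sup R r3⟩
  obtain ⟨L, hL⟩ := exists_minimal_of_wellFoundedLT (fun L : Subgroup G => L ≠ ⊥ ∧ L ≤ R ∧
    R ≤ Subgroup.normalizer (L : Set G)) ⟨R, r3, le_rfl, Subgroup.le_normalizer⟩
  obtain ⟨l1, l2, l3⟩ := hL.prop
  have l4 : ∀ g, cj(g, L) ≤ R := fun g => (cj_mono g l2).trans (cj_eq_of_normal g R).le
  have l5 : ∀ g, R ≤ Subgroup.normalizer ((cj(g, L) : Subgroup G) : Set G) := fun g => by
    rw [← cj_normalizer]; exact (cj_eq_of_normal g R).ge.trans (cj_mono g l3)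
  have l6 : ∀ g ∉ Subgroup.normalizer (L : Set G), cj(g, L) ≤ Subgroup.centralizer (L : Set G) := fun g a => by
    rw [← commutator_eq_bot_iff', eq_bot_iff]
    refine (le_inf (commutator_le_of_le_normalizer ((l4 g).trans l3))
      (commutator_le_of_le_normalizer' (l2.trans (l5 g)))).trans (le_of_eq (by_contra fun b => a ?_))
    exact cj_eq_iff.mp (Subgroup.eq_of_le_of_card_ge ((hL.le_of_le ⟨b, inf_le_left.trans l2,
      le_normalizer_inf l3 (l5 g)⟩ inf_le_left).trans inf_le_right) (card_cj g L).le).symm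
  have l7 : R ≤ ncl L ⊤ := by
    rw [ncl_top]
    exact r1 _ fun a => l1 (le_bot_iff.mp (Subgroup.le_normalClosure.trans a.le))
  have l8 : L ⊓ Subgroup.centralizer (L : Set G) = ⊥ := by_contra fun a => by
    have b := (hL.le_of_le ⟨a, inf_le_left.trans l2, le_normalizer_center l3⟩ inf_le_left).trans inf_le_right
    refine l1 (le_bot_iff.mp (r7.le.trans' (Subgroup.le_centralizer_iff.mp (l7.trans (ncl_le_iff.mpr
      fun g _ => ?_)))))
    by_cases c : g ∈ Subgroup.normalizer (L : Set G)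
    · rwa [cj_eq_iff.mpr c]
    · exact l6 g c
  have l9 : SubN ⊤ L := (sn R).trans (.of_normal l2 l3)
  have m1 : V ≤ Subgroup.normalizer (L : Set G) := fun t ht => by_contra fun a => by
    obtain ⟨x, b, c, d⟩ : ∃ x ∈ L, x ≠ 1 ∧ Odd (orderOf x) := by
      by_contra b
      push Not at b
      exact l1 (le_bot_iff.mp ((l9.le_pCoreOf (isPGroup_of_forall_coprime fun x c d => by_contra fun e =>
        b x c e d.odd_of_right)).trans (pCoreOf_top.trans hO).le))
    have n1 : ∀ g ∉ Subgroup.normalizer (L : Set G), ∀ y ∈ L, g * y * g⁻¹ ∈ Subgroup.centralizer (L : Set G) :=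
      fun g e y f => l6 g e (conj_mem_cj f)
    have t2 : t * t = 1 := by rw [← sq]; exact hV.2 t ht
    have n2 : Commute x (t * x⁻¹ * t⁻¹) := n1 t a _ (inv_mem b) x b
    have n3 : t * (x * (t * x⁻¹ * t⁻¹)) * t⁻¹ = (x * (t * x⁻¹ * t⁻¹))⁻¹ := by
      rw [inv_eq_of_mul_eq_one_right t2]
      simp only [mul_assoc, t2, mul_one, mul_inv_rev, inv_inv, inv_eq_of_mul_eq_one_right t2]
    have n4 : Odd (orderOf (x * (t * x⁻¹ * t⁻¹))) := Odd.of_dvd_nat (d.mul (by
      rwa [← MulAut.conj_apply, MulEquiv.orderOf_eq, orderOf_inv])) n2.orderOf_mul_dvd_mul_orderOf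
    have n5 : V ⊓ Subgroup.normalizer (L : Set G) ≠ ⊥ := fun e => by
      have f : ∀ w ∈ V, w ≠ 1 → w ∉ Subgroup.normalizer (L : Set G) := fun w f g i => g (e.le ⟨f, i⟩)
      obtain ⟨w, g, i, j⟩ := hS _ t ht n4 n3
      refine c (l8.le ⟨b, (Subgroup.mul_mem_cancel_right _ (n1 t a _ (inv_mem b))).mp ?_⟩)
      by_cases k : w * t = 1
      · rw [eq_inv_of_mul_eq_one_left k, inv_eq_of_mul_eq_one_right t2] at j
        rw [h2 _ n4 (by rw [← n3, mul_inv_eq_iff_eq_mul]; rwa [inv_eq_of_mul_eq_one_right t2])]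
        exact one_mem _
      · have := mul_mem (n1 w (f w g i) x b) (n1 _ (f _ (mul_mem g ht) k) _ (inv_mem b))
        rwa [show w * x * w⁻¹ * (w * t * x⁻¹ * (w * t)⁻¹) = w * (x * (t * x⁻¹ * t⁻¹)) * w⁻¹ by group, j,
          mul_inv_cancel_right] at this
    have n6 : V ⊓ Subgroup.normalizer (L : Set G) ⊔ L ≤ Subgroup.normalizer (L : Set G) :=
      sup_le inf_le_right Subgroup.le_normalizer
    obtain ⟨w, e, f, g⟩ := key (V ⊓ Subgroup.normalizer (L : Set G) ⊔ L) _ (fun e => a (n6 (e.ge trivial)))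
      le_sup_left inf_le_left n5 (fun ⟨y, hy⟩ u e f g => by
        obtain ⟨⟨s, s1⟩, s2⟩ := Subgroup.ne_bot_iff_exists_ne_one.mp n5
        by_cases y1 : y = 1
        · exact ⟨⟨s, Subgroup.mem_sup_left s1⟩, s1, fun i => s2 (Subtype.ext (by simpa using i)),
            Subtype.ext (by simp [y1])⟩
        replace f : Odd (orderOf y) := by simpa using f
        have y2 : y ∈ L := sq2 _ L inf_le_left inf_le_right y hy f
        obtain ⟨w, i, j, k⟩ := hS y u e.1 f (congrArg Subtype.val g)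
        have o : w ∈ V ⊓ Subgroup.normalizer (L : Set G) := ⟨i, by_contra fun o => y1 (l8.le ⟨y2, by
          have := n1 w o y y2
          rwa [k, mul_inv_cancel_right] at this⟩)⟩
        exact ⟨⟨w, Subgroup.mem_sup_left o⟩, o, fun q => j (congrArg Subtype.val q), Subtype.ext k⟩)
    replace g := cen L _ l9 n6 le_sup_right g
    refine f (r5 w e.1 (mem_centralizer_iff_le.mpr (l7.trans (ncl_le_iff.mpr fun z _ => ?_))))
    obtain ⟨s, i, r, j, rfl⟩ := (mem_sup_of_le_normalizer Subgroup.le_normalizer_of_normal).mp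
      ((sup R r3).ge (Subgroup.mem_top z))
    rw [← cj_cj, cj_eq_iff.mpr (l3 j)]
    exact cj_le_of_le_of_mem (mem_centralizer_iff_le.mp g) (mem_centralizer_iff_le.mp (hc e.1) i)
  have := r4 L m1 l3
  have m2 := le_antisymm l2 (r1 L l1)
  have : Nontrivial R := (Subgroup.nontrivial_iff_ne_bot R).mpr r3
  refine ⟨fun K _ => (em (K = ⊥)).imp_right fun a => eq_top_iff.mpr fun x _ => ?_⟩
  exact (Subgroup.mem_map_iff_mem R.subtype_injective).mp ((m2.ge.trans (hL.le_of_le ⟨by
    rwa [Ne, Subgroup.map_eq_bot_iff_of_injective _ R.subtype_injective], Subgroup.map_subtype_le K,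
    le_normalizer_map_subtype K⟩ ((Subgroup.map_subtype_le K).trans m2.ge))) x.2)

end Cfsg.Agent.S3048
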