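import Mathlib
import Cfsg.Statements.S3049
import Cfsg.Agent.H08.IsoElt
import Cfsg.Agent.H22.FStar
import Cfsg.Agent.H26.SubN
import Cfsg.Agent.H04.Critical
import Cfsg.Agent.H03.Frobenius
import Cfsg.Agent.H17.OpMod
import Cfsg.Agent.H17.Thompson
import Cfsg.Agent.H02.PPrimeCore

set_option autoImplicit false
open Cfsg

namespace Cfsg.Agent.S3049

open Subgroup H26

theorem moved {G : Type*} [Group G] [Finite G] {p : ℕ} [Fact p.Prime] (hp : p ≠ 2)
    (hcore : pPrimeCore p G = ⊥) (P : Sylow p G) {K : Subgroup G} (hK : IsComponent K) :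
    ∃ u ∈ (P : Subgroup G), u ∈ K ∧ u ^ p = 1 ∧ ∃ g ∈ K, g * u * g⁻¹ ∈ (P : Subgroup G) ∧ g * u * g⁻¹ ≠ u := by
  obtain ⟨S, hS, -⟩ := ((subN_top_iff.2 hK.1).isSyl_inf (isSyl_top P)).exists_sylow
  have hn : ¬ HasNormalPComplement p K := by
    rw [H03.hasNPC_iff_coprime, H03.pResidual_eq_top_iff.2 (by
      rw [(H22.qs_perfect hK.2).commutator_eq_top, index_top]
      exact (Fact.out : p.Prime).one_lt.ne' ∘ Nat.dvd_one.1), card_top]
    exact fun h => H22.comp_ne_bot hK (le_bot_iff.1 (hcore ▸ H02.le_pPrimeCore_of_subnormal hK.1 h))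
  obtain ⟨D, hD, -, -, q, hq, hqp, g, hg, ⟨k, hk⟩, hgc⟩ := H03.exists_not_commute_of_not_hasNPC S hn
  have hc : (orderOf g).Coprime p := hk ▸ ((Nat.coprime_primes hq Fact.out).mpr hqp).pow_left k
  by_contra h
  push Not at h
  refine hgc (H17.mem_centralizer_of_conjAut_eq_one D hg (H04.aut_eq_one_of_fix_omega hp (S.2.to_le hD)
    (hc.coprime_dvd_left (H17.orderOf_conjAut_dvd D hg)) fun y hy => Subtype.ext (Subtype.ext ?_)))
  have h1 : ∀ z : D, ((z : K) : G) ∈ (P : Subgroup G) := fun z => by
    have := hD z.2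
    rw [hS] at this
    exact this.1
  exact h _ (h1 y) (y : K).2 (by exact_mod_cast congrArg (fun z : D => ((z : K) : G)) hy) g g.2
    (h1 (H17.conjAut D hg y))

/-- Let G be a finite group and p an odd prime with O_{p'}(G) = 1. Suppose that G has p-rank at most 2 (no elementary abelian subgroup of order p³) and that some element x of order p is isolated in G (no G-conjugate of x other than x commutes with x) and not central. Then the generalized Fitting subgroup F*(G) is a non-abelian simple group. Since O_{p'}(G) = 1, such an x is not central modulo O_{p'}(G): the hypotheses describe a counterexample to the Z*_p statement in p-rank at most 2. -/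
theorem result {G : Type*} [Group G] [Finite G] {p : ℕ} [Fact p.Prime] (hp : p ≠ 2) (hcore : Cfsg.pPrimeCore p G = ⊥)
    (hrank : Cfsg.PRankLE p 2 G) (x : G) (hx : orderOf x = p) (hiso : Cfsg.IsIsolated x) (hnc : x ∉ Subgroup.center G) :
    IsSimpleGroup ↥(Cfsg.generalizedFittingSubgroup G) ∧ ¬ IsMulCommutative ↥(Cfsg.generalizedFittingSubgroup G) := by
  have hpp : p.Prime := Fact.out
  have hxp : x ^ p = 1 := hx ▸ pow_orderOf_eq_one x
  have hx2 : IsPGroup p (zpowers x) := IsPGroup.of_card (n := 1) (by rw [Nat.card_zpowers, hx, pow_one])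
  obtain ⟨P, hP⟩ := hx2.exists_le_sylow
  have hxP : x ∈ (P : Subgroup G) := hP (mem_zpowers x)
  have hxc : ∀ y ∈ (P : Subgroup G), Commute y x := fun y hy =>
    H08.IsoP.commute_of_mem_normalizer hiso P.2 hxP (le_normalizer hy)
  have hOP : pCore p G ≤ P := H02.pCore_le_sylow P
  have hF := H22.fstar_eq_of_pPrimeCore_eq_bot hcore
  obtain ⟨K, hK, hxK⟩ : ∃ K : Subgroup G, IsComponent K ∧ x ∉ centralizer (K : Set G) := by
    by_contra h
    push Not at h
    have h1 : x ∈ centralizer (generalizedFittingSubgroup G : Set G) := by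
      rw [hF, centralizer_sup]
      refine ⟨mem_centralizer_iff_le.2 (H22.layer_le_iff.2 fun L hL => mem_centralizer_iff_le.1 (h L hL)),
        fun y hy => hxc y (hOP hy)⟩
    have h2 : x ∈ pCore p G := H02.le_pCore_of_le_fitting hpp hx2
      (zpowers_le.2 (H22.centralizer_fstar_le_fitting h1)) (mem_zpowers x)
    exact hnc (mem_center_iff.2 fun g => H08.IsoP.commute_of_mem_normalizer hiso (H02.pCore_isPGroup p G) h2
      (by rw [normalizer_eq_top]; trivial))
  have key : (P : Subgroup G) ⊓ centralizer (K : Set G) = ⊥ := by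
    by_contra h
    obtain ⟨y, ⟨hyP, hyK⟩, hy⟩ := exists_mem_orderOf_eq (p := p)
      (dvd_card_of_isPGroup (P.2.to_inf_left) h le_rfl)
    have hyp : y ^ p = 1 := hy ▸ pow_orderOf_eq_one y
    obtain ⟨u, huP, huK, hu, g, hgK, hg1, hg2⟩ := moved hp hcore P hK
    have hyg : ∀ v ∈ zpowers y, g * v * g⁻¹ = v := fun v hv => by
      rw [zpowers_le.2 hyK hv g hgK, mul_inv_cancel_right]
    have huy : u ∉ zpowers y := fun h => hg2 (hyg u h)
    have hun : u ∈ centralizer (zpowers y : Set G) := by
      rw [centralizer_zpowers]; exact mem_centralizer_singleton_iff.2 (hyK u huK)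
    have hA : IsElementaryAbelian p (zpowers y ⊔ zpowers u) :=
      H04.IsElementaryAbelian.sup_zpowers (H17.elemAb_zpowers hyp) hu hun
    have hAc := H04.card_sup_zpowers (p := p) _ (H26.centralizer_le_normalizer _ hun) huy (hu ▸ one_mem _)
    have hAP : zpowers y ⊔ zpowers u ≤ P := sup_le (zpowers_le.2 hyP) (zpowers_le.2 huP)
    have hxA : x ∈ centralizer ((zpowers y ⊔ zpowers u : Subgroup G) : Set G) := fun v hv => hxc v (hAP hv)
    have hB := H04.IsElementaryAbelian.sup_zpowers hA hxp hxA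
    have hx3 : x ∈ zpowers y ⊔ zpowers u := by
      by_contra h3
      have h4 := hrank _ hB.1 hB.2
      rw [H04.card_sup_zpowers (p := p) _ (H26.centralizer_le_normalizer _ hxA) h3 (hxp ▸ one_mem _), hAc,
        Nat.card_zpowers, hy] at h4
      have := hpp.one_lt
      nlinarith [mul_pos (by omega : 0 < p) (by omega : 0 < p)]
    obtain ⟨a, ha, b, hb, hab⟩ := (mem_sup_of_le_normalizer' (zpowers_le.2
      (H26.centralizer_le_normalizer _ hun))).1 hx3
    have h5 : g * x * g⁻¹ = a * (g * b * g⁻¹) := by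
      rw [← hab]; conv_rhs => rw [← hyg a ha]
      group
    have h6 : g * b * g⁻¹ ∈ (P : Subgroup G) := by
      obtain ⟨i, rfl⟩ := hb
      rw [← conj_zpow]; exact zpow_mem hg1 i
    have h7 : g * x * g⁻¹ = x := hiso g (hxc _ (h5 ▸ mul_mem (zpowers_le.2 hyP ha) h6)).symm
    have h8 : g * b * g⁻¹ = b := mul_left_cancel (a := a) (by rw [← h5, h7, hab])
    by_cases hb1 : b = 1
    · rw [hb1, mul_one] at hab
      exact hxK (zpowers_le.2 hyK (hab ▸ ha))
    · have hu1 : u ≠ 1 := fun e => huy (e ▸ one_mem _)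
      have h9 : u ∈ zpowers b := by
        have : zpowers b = zpowers u := by
          refine eq_of_le_of_card_ge (zpowers_le.2 hb) ?_
          rw [Nat.card_zpowers, Nat.card_zpowers, orderOf_eq_prime hu hu1, orderOf_eq_prime
            ((H17.elemAb_zpowers hu).2 b hb) hb1]
        exact this ▸ mem_zpowers u
      obtain ⟨i, rfl⟩ := h9
      exact hg2 (by rw [← conj_zpow, h8])
  have hO : pCore p G = ⊥ := le_bot_iff.1 (key ▸ le_inf hOP (le_centralizer_iff.1
    ((H22.le_layer hK).trans H22.layer_le_centralizer_pCore)))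
  have hE : layer G = K := by
    refine le_antisymm (H22.layer_le_iff.2 fun L hL => ?_) (H22.le_layer hK)
    by_contra h
    obtain ⟨u, huP, huL, -, g, -, -, hg⟩ := moved hp hcore P hL
    have h1 : u ∈ (P : Subgroup G) ⊓ centralizer (K : Set G) := ⟨huP, commutator_eq_bot_iff'.1
      (H22.comp_comm_of_ne hK hL fun e => h e.ge) huL⟩
    rw [key, mem_bot] at h1
    exact hg (by simp [h1])
  have hFK : generalizedFittingSubgroup G = K := by rw [hF, hO, hE, sup_bot_eq]
  have hZ : center K = ⊥ := by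
    rw [← map_eq_bot_iff_of_injective _ K.subtype_injective, H22.map_center_subtype, eq_bot_iff]
    have h1 := H22.layer_inf_centralizer_le_fitting (G := G)
    rw [hE] at h1
    refine h1.trans ?_
    rw [H02.fitting_eq_pCore hpp hcore, hO]
  rw [hFK]
  refine ⟨?_, H22.qs_not_comm hK.2⟩
  have := H22.qs_nontrivial hK.2
  exact ⟨fun N hN => (H22.qs_normal hK.2 N).symm.imp (fun h => le_bot_iff.1 (hZ ▸ h)) id⟩

end Cfsg.Agent.S3049
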