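import Mathlib
import Cfsg.Statements.S3053
import Cfsg.Agent.H26.Burn
import Cfsg.Agent.H26.Repl
import Cfsg.Agent.H26.PIrr
import Cfsg.Agent.H17.Stable
import Cfsg.Agent.H04.Class2

set_option autoImplicit false
open Cfsg

namespace Cfsg.Agent.S3053
open H26

/-- Let p be an odd prime and G a finite group with a Sylow p-subgroup P that is extraspecial of order p³ and exponent p². Then the centre of P is strongly closed in P with respect to G: a G-conjugate of an element of Z(P) that lies in P already lies in Z(P). In particular a nontrivial central element of P is conjugate in G to no noncentral element of P. -/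
theorem result {G : Type*} [Group G] [Finite G]
    {p : ℕ} [Fact p.Prime] (hp : p ≠ 2) (P : Sylow p G) (hE : Cfsg.IsExtraspecial p ↥P)
    (hcard : Nat.card P = p ^ 3) (hexp : Monoid.exponent ↥P = p ^ 2) :
    Cfsg.IsStronglyClosed ((Subgroup.center ↥P).map (P : Subgroup G).subtype) (P : Subgroup G) := by
  have hp' : p.Prime := Fact.out
  erw [map_subtype_center]
  refine ⟨inf_le_left, fun z hz g hx => by_contra fun hx' => ?_⟩
  have hS := isSyl_top P
  have c0 := card_map_subtype (Subgroup.center P)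
  have c1 := congrArg (Subgroup.map (P : Subgroup G).subtype) hE.1.2.2
  obtain ⟨a, a1, a2⟩ : ∃ a ∈ (P : Subgroup G), a ^ p ≠ 1 := by
    by_contra h
    push Not at h
    have := Monoid.exponent_dvd_of_forall_pow_eq_one fun y : P => Subtype.ext (h y y.2)
    rw [hexp] at this
    exact (Nat.pow_lt_pow_right hp'.one_lt one_lt_two).not_ge ((Nat.le_of_dvd hp'.pos this).trans (pow_one p).ge)
  erw [map_subtype_center, hE.2] at c0
  erw [map_subtype_center, commutator_def, Subgroup.map_commutator, map_subtype_top] at c1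
  change Nat.card (P : Subgroup G) = _ at hcard
  generalize (P : Subgroup G) = S at *
  set Z := S ⊓ Subgroup.centralizer (S : Set G)
  have c2 : ∀ y ∈ Z, y ^ p = 1 := fun y b => congrArg Subtype.val (c0 ▸ pow_card_eq_one' (x := (⟨y, b⟩ : Z)))
  have c3 : ∀ u ∈ S, ∀ v ∈ S, (u * v) ^ p = u ^ p * v ^ p := fun u b v c => by
    have d := c1.le (Subgroup.commutator_mem_commutator c b)
    exact H04.mul_pow_prime_eq hp' hp (d.2 u b).symm (d.2 v c).symm (c2 _ d)
  have c4 : a ^ p ∈ Z := ⟨pow_mem a1 p, fun v c => by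
    have d := c1.le (Subgroup.commutator_mem_commutator c a1)
    rw [← commutatorElement_eq_one_iff_mul_comm, H04.commutatorElement_pow_right (d.2 a a1).symm, c2 _ d]⟩
  have c5 : ∀ X, Z < X → X < S → Nat.card X = p ^ 2 := fun X b c => by
    obtain ⟨k, d, e⟩ := (Nat.dvd_prime_pow hp').mp (hcard ▸ Subgroup.card_dvd_of_le c.le)
    have f := H02.card_lt_of_lt b
    have i := H02.card_lt_of_lt c
    rw [e, hcard, Nat.pow_lt_pow_iff_right hp'.one_lt] at i
    rw [e, c0, ← pow_one p, ← pow_mul, Nat.pow_lt_pow_iff_right hp'.one_lt] at f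
    rw [e]; congr 1; omega
  let E : Subgroup G :=
    { carrier := {y | y ∈ S ∧ y ^ p = 1}
      mul_mem' := fun b c => ⟨mul_mem b.1 c.1, by rw [c3 _ b.1 _ c.1, b.2, c.2, one_mul]⟩
      one_mem' := ⟨one_mem _, one_pow _⟩
      inv_mem' := fun b => ⟨inv_mem b.1, by rw [inv_pow, b.2, inv_one]⟩ }
  have e1 : Z ≤ E := fun y b => ⟨b.1, c2 y b⟩
  have e2 : E < S := lt_of_le_of_ne (fun _ b => b.1) fun b => a2 (b.ge a1).2
  have e3 : g * z * g⁻¹ ∈ E := ⟨hx, by rw [conj_pow, c2 z hz]; simp⟩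
  have e4 : Z < E := lt_of_le_of_ne e1 fun b => hx' (b.ge e3)
  have e5 : ∀ X, Z < X → X ≤ E → X = E := fun X b c =>
    Subgroup.eq_of_le_of_card_ge c (by rw [c5 E e4 e2, c5 X b (c.trans_lt e2)])
  have e6 : ∀ X, E ≤ X → X ≤ S → X = S ∨ X = E := fun X b c => c.eq_or_lt.imp_right fun d =>
    (Subgroup.eq_of_le_of_card_ge b (by rw [c5 E e4 e2, c5 X (e4.trans_le b) d])).symm
  have e7 : IsElementaryAbelian p E := ⟨by
    rw [← e5 (Z ⊔ Subgroup.zpowers (g * z * g⁻¹)) (left_lt_sup.mpr fun b => hx' (b (Subgroup.mem_zpowers _)))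
      (sup_le e1 (Subgroup.zpowers_le.mpr e3))]
    exact comm_sup (center_comm S) inferInstance (inf_le_right.trans (centralizer_anti
      (Subgroup.zpowers_le.mpr hx))), fun _ b => b.2⟩
  have e8 := isMulCommutative_iff_le.mp e7.1
  have e9 : S ⊓ Subgroup.centralizer (E : Set G) = E := (e6 _ (le_inf e2.le e8) inf_le_left).resolve_left fun b =>
    hx' ⟨hx, Subgroup.le_centralizer_iff.mp (b.ge.trans inf_le_right) e3⟩
  have f1 : E ⊔ Subgroup.zpowers a = S := (e6 _ le_sup_left (sup_le e2.le (Subgroup.zpowers_le.mpr a1))).resolve_right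
    fun b => a2 (b.le (Subgroup.mem_sup_right (Subgroup.mem_zpowers a))).2
  have f2 : ∀ y ∈ E, y ∈ Subgroup.centralizer {a} → y ∈ Z := fun y b c => ⟨b.1, by
    rw [← f1, centralizer_sup, centralizer_zpowers]; exact ⟨e8 b, c⟩⟩
  have f3 : ∀ h : G, cj(h, E) ≤ S → h ∈ Subgroup.normalizer (E : Set G) := fun h b => mem_normalizer_of_cj_le
    (cj_le_iff.mpr fun y c => ⟨b (conj_mem_cj c), by rw [conj_pow, c.2]; simp⟩)
  have f4 : S ≤ Subgroup.normalizer (E : Set G) := fun s b => f3 s (cj_le_of_le_of_mem e2.le b)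
  obtain ⟨c, f5, f6⟩ := (hS.mono (mem_centralizer_iff_le.mp hz.2) le_top).exists_cj_le
    (isPGroup_cj (hS.pg.to_le e2.le) g⁻¹) (by
      rw [cj_le_iff_le_cj, cj_centralizer_singleton, inv_inv]; exact mem_centralizer_iff_le.mp (e8 e3))
  rw [cj_cj] at f6
  have f7 := inv_mem (f3 _ f6)
  have f8 : (c * g⁻¹)⁻¹ * z * (c * g⁻¹)⁻¹⁻¹ ∉ Z := by
    rwa [show (c * g⁻¹)⁻¹ * z * (c * g⁻¹)⁻¹⁻¹ = g * (c⁻¹ * (z * c)) * g⁻¹ by group,
      ← Subgroup.mem_centralizer_singleton_iff.mp f5, inv_mul_cancel_left]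
  generalize (c * g⁻¹)⁻¹ = h at f7 f8
  have q1 : ⁅⁅E, Subgroup.zpowers a⁆, Subgroup.zpowers a⁆ = ⊥ :=
    Subgroup.commutator_eq_bot_iff_le_centralizer.mpr ((((Subgroup.commutator_mono e2.le
      (Subgroup.zpowers_le.mpr a1)).trans c1.le).trans inf_le_right).trans
      (centralizer_anti (Subgroup.zpowers_le.mpr a1)))
  have q2 := mul_mem (mul_mem f7 (f4 a1)) (inv_mem f7)
  have q3 : Subgroup.closure {a, h * a * h⁻¹} ≤ Subgroup.normalizer (E : Set G) :=
    (Subgroup.closure_le _).mpr (Set.pair_subset (f4 a1) q2)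
  rcases H17.quad_group hp e7 (f4 a1) q2 q1 (H17.quad_conj f7 q1) with q | ⟨H, ψ, ι, q4, q5, q6, q7, q8⟩
  · obtain ⟨⟨y, y1, y2⟩, y3⟩ := Subgroup.ne_bot_iff_exists_ne_one.mp
      (inf_centralizer_ne_bot_of_pow (hS.pg.to_le e2.le) (e4.ne_bot) q3 q)
    rw [SetLike.mem_coe, Subgroup.mem_toSubmonoid, Subgroup.centralizer_closure] at y2
    have y4 := f2 y y1 (Subgroup.centralizer_le (by simp) y2)
    have y5 : y ∈ cj(h, Z) := mem_cj.mpr (f2 _ (mem_cj.mp ((cj_eq_iff.mpr f7).ge y1)) (by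
      rw [← mem_cj, cj_centralizer_singleton]; exact Subgroup.centralizer_le (by simp) y2))
    have y6 : ∀ X : Subgroup G, Nat.card X = p → y ∈ X → X = Subgroup.zpowers y := fun X b d =>
      (Subgroup.eq_of_le_of_card_ge (Subgroup.zpowers_le.mpr d) (by
        rw [b, Nat.card_zpowers, orderOf_eq_prime y1.2 fun e => y3 (Subtype.ext e)])).symm
    exact f8 (((y6 _ (by rw [card_cj, c0]) y5).trans (y6 Z c0 y4).symm).le (conj_mem_cj hz))
  obtain ⟨⟨t, t1⟩, t2⟩ := q5 (-1)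
  have t3 : ∀ y ∈ E, t * y * t⁻¹ = y⁻¹ := fun y b => by
    obtain ⟨v, rfl⟩ := (Subgroup.eq_of_le_of_card_ge (H := ι.range) (by rintro _ ⟨v, rfl⟩; exact q7 v) (by
      rw [c5 E e4 e2, ← Nat.card_congr (MonoidHom.ofInjective q6).toEquiv]
      simp [Nat.card_eq_fintype_card])).ge b
    have := q8 ⟨t, t1⟩ v.toAdd
    rw [t2, show ((-1 : Matrix.SpecialLinearGroup (Fin 2) (ZMod p)) : Matrix (Fin 2) (Fin 2) (ZMod p)) = -1 from rfl,
      Matrix.neg_mulVec, Matrix.one_mulVec, ofAdd_neg, map_inv] at this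
    exact this
  have t4 : ∀ u : G, (∀ y ∈ E, u * y * u⁻¹ = y⁻¹) → ∀ s ∈ S,
      u * s * u⁻¹ * s⁻¹ ∈ Subgroup.centralizer (E : Set G) := fun u b s d y e => by
    have f := (Subgroup.mem_normalizer_iff.mp (inv_mem (f4 d)) y).mp e
    have j : u⁻¹ * (s⁻¹ * y * s⁻¹⁻¹) * u = (s⁻¹ * y * s⁻¹⁻¹)⁻¹ := by
      have k := b _ (inv_mem f)
      generalize s⁻¹ * y * s⁻¹⁻¹ = w at k ⊢
      rw [inv_inv] at k
      nth_rw 1 [← k]
      group
    rw [eq_comm, ← mul_inv_eq_iff_eq_mul]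
    calc _ = u * (s * (u⁻¹ * (s⁻¹ * y * s⁻¹⁻¹) * u) * s⁻¹) * u⁻¹ := by group
      _ = (u * y * u⁻¹)⁻¹ := by rw [j]; group
      _ = y := by rw [b y e, inv_inv]
  have t5 := le_normalizer_centralizer f4
  have t6 : t ∈ Subgroup.normalizer ((Subgroup.centralizer (E : Set G) ⊔ S : Subgroup G) : Set G) :=
    mem_normalizer_of_cj_le (by
      rw [cj_sup, cj_eq_iff.mpr (normalizer_le_normalizer_centralizer E (q3 (q4 t1)))]
      exact sup_le le_sup_left (cj_le_iff.mpr fun s b => by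
        simpa using Subgroup.mul_mem_sup (t4 t t3 s b) b))
  obtain ⟨n, n1, y, y1, rfl⟩ := (hS.mono le_sup_right le_top).frattini le_rfl t6
  obtain ⟨d, d1, s, s1, rfl⟩ := (mem_sup_of_le_normalizer' t5).mp n1
  have u1 : ∀ e ∈ E, s * y * e * (s * y)⁻¹ = e⁻¹ := fun e b => by
    have := t3 e b
    rw [show d * s * y * e * (d * s * y)⁻¹ = d * (s * y * e * (s * y)⁻¹) * d⁻¹ by group, mul_inv_eq_iff_eq_mul,
      d1 _ (inv_mem b), mul_right_inj] at this
    exact this
  have u2 := (Subgroup.mem_normalizer_iff.mp (mul_mem (Subgroup.le_normalizer s1) y1) a).mp a1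
  have u3 := e9.le (Subgroup.mem_inf.mpr ⟨mul_mem u2 (inv_mem a1), t4 _ u1 a a1⟩)
  have u4 := c3 _ u3.1 a a1
  rw [u3.2, one_mul, inv_mul_cancel_right, conj_pow, u1 _ (e1 c4)] at u4
  exact a2 (eq_one_of_coprime (c2 _ c4) ((Nat.coprime_two_left.mpr (hp'.odd_of_ne_two hp)).coprime_dvd_left
    (orderOf_dvd_of_pow_eq_one (by rw [sq]; nth_rw 1 [← u4]; exact inv_mul_cancel _))))

end Cfsg.Agent.S3053
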