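import Mathlib
import Cfsg.Statements.S3054
import Cfsg.Agent.H17.RV2

set_option autoImplicit false
open Cfsg

namespace Cfsg.Agent.S3054

open Subgroup H17.RV

/-- An elementary transvection as a group automorphism. -/
def tau (p : ℕ) {i j : Fin 2} (h : j ≠ i) : MulAut (Multiplicative (Fin 2 → ZMod p)) where
  toFun v := Multiplicative.ofAdd (v.toAdd + Pi.single i (v.toAdd j))
  invFun v := Multiplicative.ofAdd (v.toAdd - Pi.single i (v.toAdd j))
  left_inv v := by simp [Pi.single_eq_of_ne h]
  right_inv v := by simp [Pi.single_eq_of_ne h]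
  map_mul' v w := by
    rw [← ofAdd_add, toAdd_mul, Pi.add_apply, Pi.single_add]
    congr 1
    abel

theorem tau_pow (p : ℕ) {i j : Fin 2} (h : j ≠ i) (n : ℕ) (v : Multiplicative (Fin 2 → ZMod p)) :
    (tau p h ^ n) v = Multiplicative.ofAdd (v.toAdd + Pi.single i (n * v.toAdd j)) := by
  induction n with
  | zero => simp
  | succ n ih =>
    rw [pow_succ', MulAut.mul_apply, ih]
    simp only [tau, MulEquiv.coe_mk, Equiv.coe_fn_mk, toAdd_ofAdd, Pi.add_apply, Pi.single_eq_of_ne h, add_zero]
    rw [add_assoc, ← Pi.single_add, Nat.cast_succ, add_mul, one_mul]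

theorem orderOf_tau (p : ℕ) [Fact p.Prime] {i j : Fin 2} (h : j ≠ i) : orderOf (tau p h) = p := by
  apply orderOf_eq_prime
  · ext v
    rw [tau_pow]; simp
  · intro e
    have := congrArg (fun f : MulAut (Multiplicative (Fin 2 → ZMod p)) =>
      (f (Multiplicative.ofAdd (Pi.single j 1))).toAdd i) e
    simp [tau] at this

theorem good {G : Type*} [Group G] [Finite G] {p : ℕ} [hp : Fact p.Prime] {P : Subgroup G} {z : G}
    (h : ES p P z) {A : Subgroup G} (hAP : A ≤ P) (hc : Nat.card A = p ^ 2)
    (hSL : ∀ φ : MulAut A, orderOf φ = p → ∃ g : G, ∀ a : A, (φ a : G) = g * (a : G) * g⁻¹) :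
    ∃ a ∈ P, a ∉ zpowers z ∧ zpowers a ⊔ zpowers z = A ∧ Good p z a := by
  have hcomm : IsMulCommutative A := IsPGroup.isMulCommutative_of_card_eq_prime_sq hc
  have hzA : z ∈ A := by
    by_contra hz
    have hzc : z ∈ centralizer (A : Set G) := fun a ha => h.cen a (hAP ha)
    have h1 := H04.card_sup_zpowers (p := p) A (centralizer_le_normalizer _ hzc) hz
      (by rw [h.exp z h.mem]; exact one_mem _)
    have h2 : A ⊔ zpowers z = P := eq_of_le_of_card_ge (sup_le hAP (zpowers_le.2 h.mem))
      (by rw [h1, hc, h.card, ← pow_succ'])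
    have h3 := H04.isMulCommutative_sup_zpowers hcomm hzc
    rw [h2] at h3
    have h4 : P ≤ zpowers z := fun u hu => h.cent u hu fun v hv =>
      congrArg Subtype.val (h3.is_comm.comm (⟨u, hu⟩ : P) ⟨v, hv⟩)
    have h5 := card_le_of_le h4
    rw [h.card, Nat.card_zpowers, orderOf_eq_prime (h.exp z h.mem) h.ne] at h5
    have := Nat.pow_lt_pow_right hp.out.one_lt (show 1 < 3 by norm_num)
    rw [pow_one] at this
    omega
  obtain ⟨e⟩ := H04.exists_mulEquiv_pi hcomm (fun x => Subtype.ext (h.exp x (hAP x.2))) hc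
  obtain ⟨i, j, hji, hj⟩ : ∃ i j : Fin 2, j ≠ i ∧ (e ⟨z, hzA⟩).toAdd j ≠ 0 := by
    by_contra hcon
    push Not at hcon
    apply h.ne
    have : e ⟨z, hzA⟩ = 1 := by
      apply Multiplicative.toAdd.injective
      ext k
      fin_cases k
      · exact hcon 1 0 (by decide)
      · exact hcon 0 1 (by decide)
    exact congrArg Subtype.val (e.map_eq_one_iff.1 this)
  obtain ⟨g, hg⟩ := hSL ((MulAut.congr e).symm (tau p hji)) (by
    rw [MulEquiv.orderOf_eq, orderOf_tau])
  set a := e.symm (Multiplicative.ofAdd (Pi.single i 1)) with ha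
  have hea : e a = Multiplicative.ofAdd (Pi.single i 1) := e.apply_symm_apply _
  have haz : (a : G) ∉ zpowers z := by
    rintro ⟨k, hk⟩
    have h1 : (⟨z, hzA⟩ : A) ^ k = a := Subtype.ext hk
    have h2 := congrArg (fun x => (e x).toAdd) h1
    simp only [map_zpow, toAdd_zpow, hea, toAdd_ofAdd] at h2
    have h3 := congrFun h2 j
    have h4 := congrFun h2 i
    simp only [Pi.smul_apply, zsmul_eq_mul, Pi.single_eq_of_ne hji, Pi.single_eq_same] at h3 h4
    rw [(mul_eq_zero.1 h3).resolve_right hj, zero_mul] at h4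
    exact zero_ne_one h4
  refine ⟨a, hAP a.2, haz, ?_, g, ((e ⟨z, hzA⟩).toAdd j).val, by simpa using hj, ?_, ?_⟩
  · refine eq_of_le_of_card_ge (sup_le (zpowers_le.2 a.2) (zpowers_le.2 hzA)) ?_
    rw [sup_comm, H04.card_sup_zpowers (p := p) (zpowers z) (centralizer_le_normalizer _ (fun y hy => by
      obtain ⟨k, rfl⟩ := hy
      exact (Commute.zpow_right (h.cen a (hAP a.2)) k).eq.symm)) haz
      (by rw [h.exp a (hAP a.2)]; exact one_mem _), hc, Nat.card_zpowers,
      orderOf_eq_prime (h.exp z h.mem) h.ne, pow_two]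
  · rw [← hg a]
    congr 1
    apply e.injective
    simp [hea, tau, Pi.single_eq_of_ne hji]
  · rw [← hg ⟨z, hzA⟩]
    show _ = ((⟨z, hzA⟩ * a ^ (((e ⟨z, hzA⟩).toAdd j).val : ℤ) : A) : G)
    congr 1
    apply e.injective
    apply Multiplicative.toAdd.injective
    simp [hea, tau, ← Pi.single_smul]

/-- Let p be an odd prime and G a finite group with a Sylow p-subgroup P that is extraspecial of order p³ and exponent p. Suppose P contains three distinct subgroups A of order p² (each is elementary abelian of rank 2) such that every automorphism of A of order p is induced by conjugation by an element of G; equivalently the automorphism group induced on A by its normalizer contains the special linear group of A. Then p ≤ 13. -/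
theorem result {G : Type*} [Group G] [Finite G]
    {p : ℕ} [Fact p.Prime] (hp : p ≠ 2) (P : Sylow p G) (hE : Cfsg.IsExtraspecial p ↥P)
    (hcard : Nat.card P = p ^ 3) (hexp : Monoid.exponent ↥P = p)
    (A : Fin 3 → Subgroup G) (hA : Function.Injective A) (hAP : ∀ i, A i ≤ (P : Subgroup G))
    (hAcard : ∀ i, Nat.card ↥(A i) = p ^ 2)
    (hSL : ∀ i, ∀ φ : MulAut ↥(A i), orderOf φ = p → ∃ g : G, ∀ a : ↥(A i), (φ a : G) = g * (a : G) * g⁻¹) :
    p ≤ 13 := by
  classical
  by_contra h13
  push Not at h13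
  obtain ⟨z, h⟩ := exists_es hE hcard hexp
  obtain ⟨pt, -, h2, h3⟩ := main P h (by omega)
  choose a ha haz hsup hgood using fun i => good h (hAP i) (hAcard i) (hSL i)
  have hinj : Function.Injective (fun i => pt (a i)) := by
    intro i j hij
    apply hA
    have e1 := h2 _ (ha i) (haz i) _ (ha j) (haz j) hij
    refine (eq_of_le_of_card_ge ?_ (by rw [hAcard, hAcard])).symm
    rw [← hsup j, ← hsup i]
    exact sup_le (zpowers_le.2 e1) le_sup_right
  obtain ⟨-, k, hk0, hk5, hk⟩ := h3 (Finset.univ.image fun i => pt (a i))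
    (by rw [Finset.card_image_of_injective _ hinj]; simp) (by
      intro x hx
      obtain ⟨i, -, rfl⟩ := Finset.mem_image.1 hx
      exact ⟨a i, ha i, haz i, rfl, hgood i⟩)
  have := Nat.le_of_dvd (by omega) hk
  have hpp : p.Prime := Fact.out
  have h16 : p ≤ 16 := by omega
  interval_cases p <;> norm_num at hpp

end Cfsg.Agent.S3054
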