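import Mathlib
import Cfsg.Statements.S3055
import Cfsg.Agent.H17.RV2

set_option autoImplicit false
open Cfsg

namespace Cfsg.Agent.S3055

/-- Let p be an odd prime and G a finite group with a Sylow p-subgroup P that is extraspecial of order p³ and exponent p. If all nonidentity elements of P are conjugate in G, then p ≤ 7. -/
theorem result {G : Type*} [Group G] [Finite G]
    {p : ℕ} [Fact p.Prime] (hp : p ≠ 2) (P : Sylow p G) (hE : Cfsg.IsExtraspecial p ↥P)
    (hcard : Nat.card P = p ^ 3) (hexp : Monoid.exponent ↥P = p)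
    (hconj : ∀ x y : ↥P, x ≠ 1 → y ≠ 1 → ∃ g : G, g * (x : G) * g⁻¹ = (y : G)) :
    p ≤ 7 := by
  open Subgroup H17.RV in
  classical
  by_contra h7
  push Not at h7
  have hpp : p.Prime := Fact.out
  have h11 : 11 ≤ p := by
    by_contra h
    have : p ≤ 10 := by omega
    interval_cases p <;> norm_num at hpp
  obtain ⟨z, h⟩ := exists_es hE hcard hexp
  obtain ⟨pt, h1, -, h3⟩ := main P h h11
  haveI : Finite (H09.P1 (ZMod p)) := Nat.finite_of_card_ne_zero (by rw [H09.card_P1]; omega)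
  haveI := Fintype.ofFinite (H09.P1 (ZMod p))
  have hc : (Finset.univ : Finset (H09.P1 (ZMod p))).card = p + 1 := by
    rw [Finset.card_univ, ← Nat.card_eq_fintype_card, H09.card_P1, ZMod.card]
  obtain ⟨h12, k, hk0, hk5, hk⟩ := h3 Finset.univ (by omega) (by
    intro x _
    obtain ⟨a, ha, haz, rfl⟩ := h1 x
    refine ⟨a, ha, haz, rfl, ?_⟩
    obtain ⟨g, hg⟩ := hconj ⟨a, ha⟩ ⟨z, h.mem⟩ (fun e => haz (by
      rw [show a = 1 from congrArg Subtype.val e]; exact one_mem _)) (fun e => h.ne (congrArg Subtype.val e))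
    simp only at hg
    -- `g z g⁻¹` is a `p`-element centralizing `z`
    have hza : a * z = z * a := h.cen a ha
    let C := centralizer ({z} : Set G)
    have hPC : (P : Subgroup G) ≤ C := fun u hu => mem_centralizer_singleton_iff.2 (h.cen u hu)
    have hy : g * z * g⁻¹ ∈ C := mem_centralizer_singleton_iff.2 (by
      calc g * z * g⁻¹ * z = g * z * g⁻¹ * (g * a * g⁻¹) := by rw [hg]
        _ = g * (z * a) * g⁻¹ := by group
        _ = (g * a * g⁻¹) * (g * z * g⁻¹) := by rw [← hza]; group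
        _ = _ := by rw [hg])
    have hyp : IsPGroup p (zpowers (⟨g * z * g⁻¹, hy⟩ : C)) := by
      apply IsPGroup.of_card (n := 1)
      rw [Nat.card_zpowers, pow_one]
      refine orderOf_eq_prime (Subtype.ext ?_) (fun e => h.ne ?_)
      · show (g * z * g⁻¹) ^ p = 1
        rw [conj_pow, h.exp z h.mem]; simp
      · have : g * z * g⁻¹ = 1 := congrArg Subtype.val e
        simpa using this
    obtain ⟨R, hR⟩ := hyp.exists_le_sylow
    obtain ⟨c, hc⟩ := MulAction.exists_smul_eq C R (P.subtype hPC)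
    have hw : (c : G) * (g * z * g⁻¹) * (c : G)⁻¹ ∈ (P : Subgroup G) := by
      have h4 : c * ⟨g * z * g⁻¹, hy⟩ * c⁻¹ ∈ ((c • R : Sylow p C) : Subgroup C) := by
        rw [Sylow.coe_subgroup_smul]
        exact ⟨_, hR (mem_zpowers _), rfl⟩
      rw [hc] at h4
      exact h4
    have hcz : (c : G) * z * (c : G)⁻¹ = z := by
      rw [mem_centralizer_singleton_iff.1 c.2]; group
    obtain ⟨g', hg'⟩ : ∃ g', g' = (c : G) * g := ⟨_, rfl⟩
    have e1 : g' * a * g'⁻¹ = z := by
      calc _ = c * (g * a * g⁻¹) * (c : G)⁻¹ := by rw [hg']; group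
        _ = z := by rw [hg, hcz]
    have e2 : g' * z * g'⁻¹ ∈ (P : Subgroup G) := by
      convert hw using 1; rw [hg']; group
    have e3 : g' * z * g'⁻¹ ∉ zpowers z := by
      rintro ⟨n, hn⟩
      simp only at hn
      have e4 : z = a ^ n := by
        calc z = g'⁻¹ * (g' * z * g'⁻¹) * g' := by group
          _ = g'⁻¹ * (g' * a * g'⁻¹) ^ n * g' := by rw [e1, hn]
          _ = _ := by rw [conj_zpow]; group
      have e5 : a ^ n ∈ zpowers z := e4 ▸ mem_zpowers z
      rw [H04.zpow_mem_iff_dvd _ haz (by rw [h.exp a ha]; exact one_mem _)] at e5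
      obtain ⟨m, rfl⟩ := e5
      apply h.ne
      rw [e4, zpow_mul, zpow_natCast, h.exp a ha, one_zpow]
    obtain ⟨b, hb, j, hj, hbj⟩ := h.exists_nc e2 e3
    refine ⟨g'⁻¹ * b * g', j, hj, ?_, ?_⟩
    · calc _ = g'⁻¹ * (b * (g' * a * g'⁻¹) * b⁻¹) * g' := by group
        _ = g'⁻¹ * (g' * a * g'⁻¹) * g' := by rw [e1, h.cen b hb]; group
        _ = a := by group
    · calc _ = g'⁻¹ * (b * (g' * z * g'⁻¹) * b⁻¹) * g' := by group
        _ = g'⁻¹ * (g' * z * g'⁻¹ * (g' * a * g'⁻¹) ^ j) * g' := by rw [hbj, e1]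
        _ = _ := by rw [conj_zpow]; group)
  have : p = 11 := by omega
  subst this
  interval_cases k <;> norm_num at hk

end Cfsg.Agent.S3055
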