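import Mathlib
import Cfsg.Statements.S3057
import Cfsg.Agent.H26.Chain
import Cfsg.Agent.H02.PPrimeCore

set_option autoImplicit false
open Cfsg

namespace Cfsg.Agent.S3057
open H26

/-- Let p be a prime and G a finite p-solvable group of order divisible by p, with Sylow p-subgroup P. Then the Sylow p-subgroups of G fail to be chain-connected through nontrivial intersections (equivalently, G has a strongly p-embedded subgroup) if and only if O_p(G) = 1 and P is cyclic or, for p = 2, generalized quaternion. -/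
theorem result {G : Type*} [Group G] [Finite G]
    (p : ℕ) [Fact p.Prime] (hdiv : p ∣ Nat.card G) (hsol : Cfsg.IsPSolvable p G) (P : Sylow p G) :
    ¬ Cfsg.IsSylowChainConnected p G ↔
      Cfsg.pCore p G = ⊥ ∧ (IsCyclic ↥P ∨ (p = 2 ∧ ∃ n : ℕ, Nonempty (↥P ≃* QuaternionGroup (2 ^ n)))) := by
  rw [not_chainConnected_iff]
  have hP := isSyl_top P
  have hP1 := hP.ne_bot (by rwa [Subgroup.card_top])
  constructor
  · rintro ⟨H, h⟩
    refine ⟨h.pCore_eq_bot, by_contra fun h1 => ?_⟩
    obtain ⟨T, hT, h3, -⟩ := h.exists_isSyl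
    obtain ⟨g, -, hg⟩ := hT.exists_cj_eq hP
    have h4 : (P : Subgroup G) ≤ cj(g, H) := hg ▸ cj_mono g h3
    replace h := h.cj g
    generalize cj(g, H) = M at h h4
    obtain ⟨x, hx, y, hy, ox, oy, a, b⟩ := exists_rank_two hP.pg
      fun c => h1 (c.imp_right fun ⟨d, n, e⟩ => ⟨d, n + 1, e⟩)
    obtain ⟨n, K, c0, c1, c2, c3, c4⟩ := hsol
    refine h.ne (eq_top_iff.mpr (c1 ▸ ?_))
    suffices ∀ i, K i ≤ M from this _
    intro i
    induction i using Fin.induction with
    | zero => exact c0 ▸ bot_le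
    | succ i ih =>
      have := c3 i.castSucc
      have := c3 i.succ
      have d := c2 (Fin.castSucc_le_succ i)
      have d1 := hP.inf_of_le (N := K i.succ) le_top Subgroup.le_normalizer_of_normal
      rcases c4 i with ⟨m, hm⟩ | hm
      · refine d1.sup_pResidualOf.ge.trans (sup_le (inf_le_left.trans h4)
          ((pResidualOf_le_of_pow fun z hz => ⟨m, ?_⟩).trans ih))
        exact hm ▸ Subgroup.pow_relIndex_mem _ hz
      · refine h.le_of_rank_two (h4 hx) (h4 hy) ox oy a b
          (Subgroup.le_normalizer_of_normal (Subgroup.mem_top x))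
          (Subgroup.le_normalizer_of_normal (Subgroup.mem_top y)) fun e => ?_
        rw [← Subgroup.card_mul_index ((K i.castSucc).subgroupOf (K i.succ))] at e
        rcases (Nat.Prime.dvd_mul Fact.out).mp e with e | e
        · exact h.not_le_of_normal (exists_mem_orderOf_eq (card_subgroupOf d ▸ e)) ih
        · exact (Nat.Prime.coprime_iff_not_dvd Fact.out).mp hm.symm e
  · rintro ⟨h1, h2⟩
    obtain ⟨z, hz, oz⟩ := exists_mem_orderOf_eq_of_ne_bot hP.pg hP1
    have h3 : ∀ y ∈ (P : Subgroup G), orderOf y = p → Subgroup.zpowers y = Subgroup.zpowers z := fun y hy oy =>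
      Subgroup.eq_of_le_of_card_ge (Subgroup.zpowers_le.mpr (mem_zpowers_of_cyclic_or_quaternion hP.pg
        (h2.imp_right fun ⟨_, n, a⟩ => ⟨_, a⟩) hz hy oz (oy ▸ pow_orderOf_eq_one y)))
        (by rw [Nat.card_zpowers, Nat.card_zpowers, oz, oy])
    refine ⟨Subgroup.normalizer (Subgroup.zpowers z : Set G), spe_of_isSyl (fun h4 => ?_) hP hP1 fun A a b g hg => ?_⟩
    · have := normal_of_top_le h4.ge
      exact zpowers_ne_bot_of_orderOf oz (le_bot_iff.mp (h1 ▸ le_pCore (isPGroup_zpowers_of_orderOf oz)))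
    · obtain ⟨y, hy, oy⟩ := exists_mem_orderOf_eq_of_ne_bot (hP.pg.to_le a) b
      rw [← cj_eq_iff, ← h3 y (a hy) oy, cj_zpowers, h3 y (a hy) oy]
      exact h3 _ (a ((Subgroup.mem_normalizer_iff.mp hg y).mp hy)) (by rwa [orderOf_conj])

end Cfsg.Agent.S3057
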