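import Mathlib
import Cfsg.Statements.S3059
import Cfsg.Agent.H26.Chain

set_option autoImplicit false
open Cfsg

namespace Cfsg.Agent.S3059
open H26

/-- Let p be a prime and H a strongly p-embedded subgroup of the finite group G in the classical sense: H is proper, p divides the order of H, and H ∩ gHg⁻¹ has order prime to p for every g outside H. Then for every normal subgroup N of G of order divisible by p, G = H · O^p(N), where O^p(N) is the subgroup generated by the elements of N of order prime to p. -/
theorem result {G : Type*} [Group G] [Finite G]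
    (p : ℕ) [Fact p.Prime] (H : Subgroup G) (hH : H ≠ ⊤) (hpH : p ∣ Nat.card H)
    (hse : ∀ g : G, g ∉ H → ¬ p ∣ Nat.card ↥(H ⊓ H.map (MulAut.conj g).toMonoidHom))
    (N : Subgroup G) [N.Normal] (hN : p ∣ Nat.card N) :
    H ⊔ Subgroup.closure {g : G | g ∈ N ∧ (orderOf g).Coprime p} = ⊤ := by
  have h := spe_iff_classical.mpr ⟨hH, hpH, hse⟩
  obtain ⟨T, hT, h3, -⟩ := h.exists_isSyl
  have h4 := hT.inf_of_le (N := N) le_top Subgroup.le_normalizer_of_normal
  refine eq_top_iff.mpr ((h.sup_eq_top hN).ge.trans (sup_le le_sup_left ?_))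
  rw [← pResidualOf_eq_closure]
  exact h4.sup_pResidualOf.ge.trans (sup_le_sup_right (inf_le_left.trans h3) _)

end Cfsg.Agent.S3059
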