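import Mathlib
import Cfsg.Statements.S3060
import Cfsg.Agent.H26.DStar
import Cfsg.Agent.H17.ZJ

set_option autoImplicit false
open Cfsg

namespace Cfsg.Agent.S3060
open H26

/-- The D*-Theorem. For a finite p-group S let D*(S) be the subgroup generated by the abelian subgroups A of S such that every x ∈ S with ⟨A, x⟩ of nilpotency class at most two centralizes A. Let p be an odd prime and H a finite p-stable group with Sylow p-subgroup S. Here H is p-stable in the following sense: the largest normal p-subgroup O_p(H) contains its centralizer in H, and for every normal p-subgroup P of H, every element acting quadratically on P has image in O_p(H/C_H(P)). Then D*(S) is a normal subgroup of H. -/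
theorem result {G : Type*} [Group G] [Finite G] {p : ℕ} [Fact p.Prime] (hp : p ≠ 2)
    (hc : Subgroup.centralizer (Cfsg.pCore p G : Set G) ≤ Cfsg.pCore p G)
    (hst : ∀ (P : Subgroup G) [P.Normal], IsPGroup p P → Cfsg.IsPStableOn p P) (S : Sylow p G) :
    (Cfsg.dStarOf (S : Subgroup G)).Normal := by
  have h1 := ds_dStarOf S.isPGroup'
  have h2 := pCore_le_sylow S
  have h3 := H17.abelian_normal_le_pCore hc (H17.weaklyStable_of_isPStableOn hst) h1.comm
    (S.isPGroup'.to_le h1.le) ((h2.trans Subgroup.le_normalizer).trans (le_normalizer_dStarOf S.isPGroup'))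
  have h4 := ds_dStarOf (isPGroup_pCore (p := p) (G := G))
  have : (dStarOf (pCore p G)).Normal :=
    normal_of_top_le (Subgroup.le_normalizer_of_normal.trans (le_normalizer_dStarOf isPGroup_pCore))
  set D := dStarOf (S : Subgroup G)
  set V := Subgroup.normalClosure (D : Set G)
  have h5 : V ≤ dStarOf (pCore p G) := Subgroup.normalClosure_le_normal (h1.of_le h3 h2).le_dStarOf
  have h6 : D ≤ V := Subgroup.le_normalClosure
  have h7 := isMulCommutative_iff_le.mp (comm_of_le h4.comm h5)
  have h8 : V ≤ S := (h5.trans h4.le).trans h2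
  suffices h : V ≤ D by rw [le_antisymm h6 h]; infer_instance
  refine DS.le_dStarOf ⟨h8, comm_of_le h4.comm h5, fun x _ a => ?_⟩
  have h9 : ⁅⁅V, Subgroup.zpowers x⁆, Subgroup.zpowers x⁆ = ⊥ := le_bot_iff.mp
    ((Subgroup.commutator_mono (Subgroup.commutator_mono le_sup_left le_sup_right) le_sup_right).trans a.le)
  rw [mem_centralizer_iff_le, show V = _ from (ncl_top D).symm, ncl_le_iff]
  intro g _
  rw [cj_le_iff_le_cj, cj_centralizer_singleton, ← mem_centralizer_iff_le]
  have b1 : ⁅⁅V, Subgroup.zpowers (g⁻¹ * x * g⁻¹⁻¹)⁆, Subgroup.zpowers (g⁻¹ * x * g⁻¹⁻¹)⁆ = ⊥ := by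
    rw [← cj_zpowers, ← cj_eq_of_normal g⁻¹ V, ← cj_commutator, ← cj_commutator, h9, cj_bot]
  generalize g⁻¹ * x * g⁻¹⁻¹ = y at b1
  obtain ⟨c, hc, s, hs, rfl⟩ := (mem_sup_of_le_normalizer' Subgroup.le_normalizer_of_normal).mp
    (H17.opMod_le_sup_sylow _ S (hst V (S.isPGroup'.to_le h8) y b1))
  rw [commutator_eq_bot_iff', Subgroup.zpowers_le] at b1
  have b2 := centralizer_anti (Subgroup.commutator_le_left V (Subgroup.zpowers (c * s)))
  have b3 := Subgroup.normalizer_commutator_ge_right V (Subgroup.zpowers (c * s))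
  have b4 := Subgroup.zpowers_le.mpr hc
  refine mul_mem (centralizer_anti h6 hc) (h1.mem s hs (class_two h1.comm ?_ ((h6.trans h7).trans b2)
    ((Subgroup.mul_mem_cancel_left _ (b2 hc)).mp b1)))
  refine (Subgroup.commutator_mono h6 (Subgroup.zpowers_le.mpr ?_)).trans (commutator_sup_le'
    ((b4.trans b2).trans (centralizer_le_normalizer _)) b3 ((commutator_eq_bot_iff'.mpr b4).le.trans bot_le) le_rfl)
  exact (Subgroup.mul_mem_cancel_left _ (Subgroup.mem_sup_left (Subgroup.mem_zpowers c))).mp
    (Subgroup.mem_sup_right (Subgroup.mem_zpowers _))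

end Cfsg.Agent.S3060
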