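import Mathlib
import Cfsg.Statements.S3062
import Cfsg.Agent.H26.DStar

set_option autoImplicit false
open Cfsg

namespace Cfsg.Agent.S3062
open H26

/-- Let S be a finite p-group, J(S) the subgroup generated by the abelian subgroups of S of largest order and Z(J(S)) its centre. Then Z(S) ≤ D*(S) ≤ Z(J(S)), and every maximal normal abelian subgroup of S contains D*(S). -/
theorem result {S : Type*} [Group S] [Finite S] {p : ℕ} [Fact p.Prime]
    (hS : IsPGroup p S) :
    Subgroup.center S ≤ Cfsg.dStar S ∧
    Cfsg.dStar S ≤ Cfsg.thompsonSubgroupA S ⊓ Subgroup.centralizer (Cfsg.thompsonSubgroupA S : Set S) ∧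
    ∀ A : Subgroup S, A.Normal → IsMulCommutative A →
      (∀ B : Subgroup S, B.Normal → IsMulCommutative B → A ≤ B → B = A) → Cfsg.dStar S ≤ A := by
  have := hS.isNilpotent
  have h1 := ds_top_iff.mpr (dStar_mem hS)
  have : (dStar S).Normal := normal_of_top_le (le_normalizer_iff_cj.mpr fun g _ => le_sSup (ds_top_iff.mp (by
    simpa only [cj_top] using h1.map_inj (f := (MulAut.conj g).toMonoidHom) (MulAut.conj g).injective)))
  obtain ⟨A, hA⟩ := exists_maxAb (G := S)
  refine ⟨le_sSup ⟨inferInstance, fun x _ a ha => (Subgroup.mem_center_iff.mp ha x).symm⟩,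
    le_inf ((h1.le_maxAb hS hA).trans (le_sSup hA)) (Subgroup.le_centralizer_iff.mp (sSup_le fun B hB =>
      (isMulCommutative_iff_le.mp hB.1).trans (centralizer_anti (h1.le_maxAb hS hB)))),
    fun A _ a b => dStar_le_scn hS a (H04.centralizer_eq_of_maximal_abelian_normal A a b).le⟩

end Cfsg.Agent.S3062
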