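import Mathlib
import Cfsg.Statements.S3063
import Cfsg.Agent.H26.Repl

set_option autoImplicit false
open Cfsg

namespace Cfsg.Agent.S3063
open H26

/-- A weak replacement Theorem for metabelian p-groups: let S be a finite p-group whose derived subgroup is abelian and A an abelian subgroup of S of largest possible order. Then the normal closure of A in S contains an abelian subgroup B of the same order as A that is normal in S. -/
theorem result {S : Type*} [Group S] [Finite S] {p : ℕ} [Fact p.Prime]
    (hS : IsPGroup p S) (hmeta : IsMulCommutative ↥(commutator S))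
    (A : Subgroup S) (hA : A ∈ Cfsg.maxAbelianSubgroups S) :
    ∃ B ∈ Cfsg.maxAbelianSubgroups S, B.Normal ∧ B ≤ Subgroup.normalClosure (A : Set S) := by
  have := hS.isNilpotent
  obtain ⟨B, ⟨h1, h2⟩, h⟩ := Set.exists_max_image {B | B ∈ maxAbelianSubgroups S ∧
    B ≤ Subgroup.normalClosure (A : Set S)} pot (Set.toFinite _) ⟨A, hA, Subgroup.le_normalClosure⟩
  refine ⟨B, h1, normal_of_top_le fun x _ => by_contra fun a => ?_, h2⟩
  have h3 := comm_of_le hmeta ((cm_le (Z := B) (Subgroup.mem_top x)).trans (Subgroup.commutator_mono le_rfl le_top))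
  have h4 : cm x B ⊓ _ ≤ B := inf_le_right.trans (maxAb_centralizer_le h1)
  exact (pot_lt_repl h1.1 h3 h4 a).not_ge (h _ ⟨⟨repl_comm h1.1 h3, fun C c => (h1.2 C c).trans
    (card_le_repl h1.1 h3 h4)⟩, (repl_le_sup x B).trans (sup_le ((cj_mono x h2).trans (cj_eq_of_normal x _).le) h2)⟩)

end Cfsg.Agent.S3063
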