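import Mathlib
import Cfsg.Statements.S3064
import Cfsg.Agent.H26.Burn
import Cfsg.Agent.H05.Frobenius

set_option autoImplicit false
open Cfsg

namespace Cfsg.Agent.S3064
open H26

theorem key {G : Type*} [Group G] [Finite G] {p : ℕ} [Fact p.Prime] {x : G} (hx : IsPGroup p (Subgroup.zpowers x))
    (hU : ∀ Q : Subgroup G, IsPGroup p Q → x ∈ Q → ∀ g : G, g * x * g⁻¹ ∈ Q → g ∈ Subgroup.centralizer {x})
    (hb : ∀ H : Subgroup G, ¬ p ∣ Nat.card H → H.Normal → H ≤ Subgroup.centralizer {x})
    (ih : ∀ H : Subgroup G, H ≠ ⊤ → x ∈ H → H ≤ Subgroup.centralizer {x}) : Subgroup.centralizer {x} = ⊤ := by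
  set M := Subgroup.centralizer ({x} : Set G)
  have h0 : Subgroup.center G ≤ M := Subgroup.center_le_centralizer _
  have h1 : ∀ h ∈ M, h ∉ Subgroup.center G → ∀ g : G, g * h * g⁻¹ ∈ M → g ∈ M := fun h a b g c => by
    have d : g⁻¹ * x * g⁻¹⁻¹ ∈ M := ih (Subgroup.centralizer {h}) (fun e => b (Subgroup.mem_center_iff.mpr fun y =>
      Subgroup.mem_centralizer_singleton_iff.mp (e.ge (Subgroup.mem_top y))))
      (Subgroup.mem_centralizer_singleton_iff.mpr (Subgroup.mem_centralizer_singleton_iff.mp a).symm) (by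
        rw [← conj_mem_cj_iff (g := g), cj_centralizer_singleton]
        simpa [mul_assoc, Subgroup.mem_centralizer_singleton_iff] using
          (Subgroup.mem_centralizer_singleton_iff.mp c).symm)
    refine inv_mem_iff.mp (hU _ (isPGroup_sup' hx (isPGroup_cj hx g⁻¹) ?_)
      (Subgroup.mem_sup_left (Subgroup.mem_zpowers x)) _
      (Subgroup.mem_sup_right (conj_mem_cj (Subgroup.mem_zpowers x))))
    rw [cj_zpowers]
    exact (Subgroup.zpowers_le.mpr d).trans ((centralizer_zpowers x).ge.trans (centralizer_le_normalizer _))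
  let f := QuotientGroup.mk' (Subgroup.center G)
  have h2 : (M.map f).comap f = M := Subgroup.comap_map_eq_self (by rwa [QuotientGroup.ker_mk'])
  obtain ⟨N, -, _, h3⟩ := H05.exists_frobenius_kernel (H := M.map f) (by
    rintro _ ⟨h, a, rfl⟩ b g c
    obtain ⟨g, rfl⟩ := QuotientGroup.mk'_surjective _ g
    exact Subgroup.mem_map_of_mem _ (h1 h a (fun d => b ((QuotientGroup.eq_one_iff h).mpr d)) g (h2.le c)))
  obtain ⟨T, hT, h4⟩ := exists_isSyl_ge hx le_top
  have h5 := h4 (Subgroup.mem_zpowers x)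
  have h6 : T ⊓ N.comap f ≤ Subgroup.center G := by
    refine (inf_le_inf_right _ (fun t a => h2.ge (hU T hT.pg h5 t (mul_mem (mul_mem a h5) (inv_mem a))))).trans ?_
    rw [← Subgroup.comap_inf, h3.disjoint.symm.eq_bot, MonoidHom.comap_bot, QuotientGroup.ker_mk']
  have h7 := hT.inf_of_le (N := N.comap f) le_top Subgroup.le_normalizer_of_normal
  have h8 := h7.sup_pResidualOf.ge.trans (sup_le (h6.trans h0) (hb _ (h7.not_dvd_pResidualOf_of_central
    (Subgroup.le_centralizer_iff.mp (h6.trans (Subgroup.center_le_centralizer _))))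
    (normal_of_top_le (Subgroup.le_normalizer_of_normal.trans (normalizer_le_normalizer_pResidualOf _)))))
  rw [eq_top_iff, ← Subgroup.comap_top f, ← h3.sup_eq_top,
    ← Subgroup.comap_sup_eq _ _ _ (QuotientGroup.mk'_surjective _), h2]
  exact sup_le h8 le_rfl

/-- Let S be a Sylow p-subgroup of the finite group G and x an element of S such that (i) x is the only G-conjugate of x lying in S, and (ii) x centralizes every subgroup of order prime to p that it normalizes. Then x lies in the centre of G. -/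
theorem result {G : Type*} [Group G] [Finite G] {p : ℕ} [Fact p.Prime]
    (S : Sylow p G) (x : G) (hx : x ∈ S)
    (hU : ∀ g : G, g⁻¹ * x * g ∈ S → g⁻¹ * x * g = x)
    (hb : ∀ H : Subgroup G, (Nat.card H).Coprime p → (∀ h ∈ H, x * h * x⁻¹ ∈ H) → ∀ h ∈ H, x * h = h * x) :
    x ∈ Subgroup.center G := by
  have h1 : IsPGroup p (Subgroup.zpowers x) := S.isPGroup'.to_le (Subgroup.zpowers_le.mpr hx)
  have h2 : ∀ Q : Subgroup G, IsPGroup p Q → x ∈ Q → ∀ g : G, g * x * g⁻¹ ∈ Q → g ∈ Subgroup.centralizer {x} :=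
    fun Q a b g c => by
      obtain ⟨k, -, d⟩ := (isSyl_top S).exists_cj_le a le_top
      have e := hU k⁻¹ (by rw [inv_inv]; exact d (conj_mem_cj b))
      have f := hU (k * g)⁻¹ (by
        rw [inv_inv, show k * g * x * (k * g)⁻¹ = k * (g * x * g⁻¹) * k⁻¹ by group]; exact d (conj_mem_cj c))
      rw [Subgroup.mem_centralizer_singleton_iff, ← mul_inv_eq_iff_eq_mul]
      simpa [← mul_assoc] using (by simpa [mul_assoc] using f.trans e.symm : g * (x * (g⁻¹ * k⁻¹)) = x * k⁻¹)
  have h3 : ∀ H : Subgroup G, x ∈ H → H ≤ Subgroup.centralizer {x} := fun H => by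
    induction H using WellFoundedLT.induction with
    | ind H ih =>
    intro a
    have m : ∀ y : H, y ∈ Subgroup.centralizer {(⟨x, a⟩ : H)} ↔ (y : G) ∈ Subgroup.centralizer {x} := fun y => by
      simp only [Subgroup.mem_centralizer_singleton_iff, Subtype.ext_iff]; rfl
    refine fun y b => (m ⟨y, b⟩).mp ((key (p := p) ?_ (fun Q c d g e => (m g).mpr (h2 _ (c.map H.subtype)
      (Subgroup.mem_map_of_mem _ d) g (Subgroup.mem_map_of_mem _ e))) (fun K c _ z d => (m z).mpr ?_)
      fun K c d z e => (m z).mpr (ih (K.map H.subtype) ?_ (Subgroup.mem_map_of_mem _ d)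
        (Subgroup.mem_map_of_mem _ e))).ge (Subgroup.mem_top _))
    · obtain ⟨k, hk⟩ := isPGroup_iff_mem.mp h1 x (Subgroup.mem_zpowers x)
      exact isPGroup_zpowers ⟨k, Subtype.ext hk⟩
    · refine Subgroup.mem_centralizer_singleton_iff.mpr (hb (K.map H.subtype) ?_ (fun w e =>
        (Subgroup.mem_normalizer_iff.mp (le_normalizer_map_subtype K a) w).mp e) z (Subgroup.mem_map_of_mem _ d)).symm
      rw [card_map_subtype]
      exact ((Nat.Prime.coprime_iff_not_dvd Fact.out).mpr c).symm
    · simpa only [← MonoidHom.range_eq_map, Subgroup.range_subtype] using (Subgroup.map_subtype_lt_map_subtype.mpr c.lt_top)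
  exact Subgroup.mem_center_iff.mpr fun g => Subgroup.mem_centralizer_singleton_iff.mp (h3 ⊤ trivial trivial)

end Cfsg.Agent.S3064
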