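import Mathlib
import Cfsg.Statements.S3065
import Cfsg.Agent.H16.Util
import Cfsg.Agent.S0227

set_option autoImplicit false
open Cfsg

namespace Cfsg.Agent.S3065

open Subgroup H16
open scoped Pointwise

/-- Let G be a finite non-abelian simple group with a nontrivial Sylow 2-subgroup S (that is, G has even order). If the automorphism group of S is solvable, then the outer automorphism group Out(G) = Aut(G)/Inn(G) is solvable. -/
theorem result {G : Type*} [Group G] [Finite G] [IsSimpleGroup G]
    (hG : ¬ IsMulCommutative G) (S : Sylow 2 G) (hS1 : (S : Subgroup G) ≠ ⊥) (hS : Group.IsSolvable (MulAut ↥S)) :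
    Group.IsSolvable (Cfsg.Out G) := by
  haveI : Finite (MulAut G) := Finite.of_injective _ DFunLike.coe_injective
  let N : Subgroup (MulAut G) := MulAction.stabilizer (MulAut G) S
  have hN : ∀ φ ∈ N, ∀ s ∈ (S : Subgroup G), φ s ∈ (S : Subgroup G) := by
    intro φ hφ s hs
    have : φ • S = S := hφ
    rw [← this]
    exact smul_mem_pointwise_smul s φ _ hs
  let res : N →* MulAut S := MonoidHom.mk' (fun φ =>
    { toFun := fun s => ⟨φ.1 s, hN _ φ.2 s s.2⟩
      invFun := fun s => ⟨φ.1⁻¹ s, hN _ (inv_mem φ.2) s s.2⟩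
      left_inv := fun s => Subtype.ext (φ.1.symm_apply_apply s)
      right_inv := fun s => Subtype.ext (φ.1.apply_symm_apply s)
      map_mul' := fun a b => Subtype.ext (map_mul φ.1 _ _) }) (fun a b => rfl)
  let C : Subgroup (MulAut G) := res.ker.map N.subtype
  have hC : ∀ φ : MulAut G, φ ∈ C ↔ ∀ s : G, s ∈ S → φ s = s := by
    intro φ
    constructor
    · rintro ⟨ψ, hψ, rfl⟩ s hs
      exact congrArg Subtype.val (DFunLike.congr_fun (show res ψ = 1 from hψ) ⟨s, hs⟩)
    · intro h
      have h1 : φ ∈ N := by
        apply Sylow.ext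
        apply le_antisymm
        · rintro _ ⟨s, hs, rfl⟩
          change φ s ∈ _
          rw [h s hs]; exact hs
        · intro s hs
          exact ⟨s, hs, h s hs⟩
      exact ⟨⟨φ, h1⟩, MulEquiv.ext fun s => Subtype.ext (h s s.2), rfl⟩
  haveI := (Cfsg.Agent.S0227.result (fun M hM hodd => by
    rcases hM.eq_bot_or_eq_top with h | h
    · exact h
    · exfalso
      rw [h, card_top] at hodd
      have := Odd.of_dvd_nat hodd (S : Subgroup G).card_subgroup_dvd_card
      obtain ⟨k, hk⟩ := IsPGroup.iff_card.1 S.isPGroup'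
      cases k with
      | zero => exact hS1 (card_eq_one.1 hk)
      | succ k => rw [hk] at this; exact (Nat.not_even_iff_odd.2 this) (by simp [Nat.even_pow])) S C hC).2
  haveI : Group.IsSolvable res.ker := Group.isSolvable_of_isSolvable_injective
    (f := (res.ker.equivMapOfInjective N.subtype N.subtype_injective).toMonoidHom) (MulEquiv.injective _)
  haveI : Group.IsSolvable N := Group.isSolvable_of_ker_le_range res.ker.subtype res (by rw [range_subtype])
  refine Group.isSolvable_of_surjective (f := (QuotientGroup.mk' (Inn G)).comp N.subtype) fun x => ?_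
  obtain ⟨φ, rfl⟩ := QuotientGroup.mk'_surjective _ x
  obtain ⟨g, hg⟩ := MulAction.exists_smul_eq G (φ • S) S
  refine ⟨⟨MulAut.conj g * φ, ?_⟩, ?_⟩
  · change (MulAut.conj g * φ) • S = S
    rw [mul_smul]; exact hg
  · simp only [MonoidHom.comp_apply, coe_subtype, map_mul]
    rw [show QuotientGroup.mk' (Inn G) (MulAut.conj g) = 1 from (QuotientGroup.eq_one_iff _).2 ⟨g, rfl⟩, one_mul]

end Cfsg.Agent.S3065
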