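import Mathlib
import Cfsg.Statements.S3066
import Cfsg.Agent.H23.OutSol3
import Cfsg.Agent.S0227

set_option autoImplicit false
open Cfsg

namespace Cfsg.Agent.S3066

open BG Subgroup

/-- Let G be a finite non-abelian simple group with a nontrivial Sylow 2-subgroup S (that is, G has even order). Then Out(G) = Aut(G)/Inn(G) is solvable provided one of the following holds: (a) S is generated by two elements; (b) S is generated by three elements and N_G(S)/C_G(S) is not a 2-group (some element of N_G(S) of odd order does not centralize S); (c) the involutions of S commute pairwise and are all conjugate in G. -/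
theorem result {G : Type*} [Group G] [Finite G] [IsSimpleGroup G]
    (hG : ¬ IsMulCommutative G) (S : Sylow 2 G) (hS1 : (S : Subgroup G) ≠ ⊥)
    (h : (∃ a b : ↥S, Subgroup.closure ({a, b} : Set ↥S) = ⊤) ∨
      ((∃ a b c : ↥S, Subgroup.closure ({a, b, c} : Set ↥S) = ⊤) ∧
        ∃ g ∈ Subgroup.normalizer ((S : Subgroup G) : Set G), Odd (orderOf g) ∧ g ∉ Subgroup.centralizer ((S : Subgroup G) : Set G)) ∨
      ((∀ s ∈ S, ∀ t ∈ S, orderOf s = 2 → orderOf t = 2 → s * t = t * s) ∧
        (∀ s ∈ S, ∀ t ∈ S, orderOf s = 2 → orderOf t = 2 → ∃ g : G, g * s * g⁻¹ = t))) :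
    Group.IsSolvable (Cfsg.Out G) := by
  have hp := Nat.prime_two
  have hz : center G = ⊥ := (IsSimpleGroup.eq_bot_or_eq_top_of_normal _ inferInstance).resolve_right fun e =>
    hG ⟨⟨fun a b => mem_center_iff.1 (e.ge (mem_top b)) a⟩⟩
  have hf : Function.Injective (MulAut.conj : G →* MulAut G) := by
    rw [← MonoidHom.ker_eq_bot_iff, eq_bot_iff, ← hz]
    exact fun a ha => mem_center_iff.2 fun g => by
      have : a * g * a⁻¹ = g := DFunLike.congr_fun (MonoidHom.mem_ker.1 ha) g
      exact (mul_inv_eq_iff_eq_mul.1 this).symm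
  have hS : IsSylowIn 2 ((S : Subgroup G).map MulAut.conj) (Inn G) := by
    have := BG.Cfsg.IsPiHallOf.map (isSylowIn_top hp S) (MulAut.conj : G →* MulAut G)
    rwa [← MonoidHom.range_eq_map] at this
  have hL : ∀ K : Subgroup (MulAut G), K ≤ N_(Inn G) := fun K => by rw [normalizer_eq_top]; exact le_top
  let e := equivMapOfInjective (S : Subgroup G) _ hf
  have he : ∀ s : Set S, closure s = ⊤ → closure (e.toMonoidHom '' s) = ⊤ := fun s hs => by
    rw [← MonoidHom.map_closure, hs, map_top_of_surjective _ e.surjective]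
  have hs : Group.IsSolvable N_((S : Subgroup G).map (MulAut.conj : G →* MulAut G)) := H23.OS.sol_of_perf fun K hn hK => by
    have h1 : K ≤ C_((S : Subgroup G).map MulAut.conj) := by
      rcases h with ⟨a, b, h⟩ | ⟨⟨a, b, c, h⟩, g, h1, h2, h3⟩ | ⟨h1, h2⟩
      · exact H23.OS.case_a (IsSylowIn.pg hS hp) hK hn (Set.image_pair _ a b ▸ he _ h)
      · have := he _ h
        rw [Set.image_insert_eq, Set.image_pair] at this
        refine H23.OS.case_b hS hK hn (hL K) this (g := MulAut.conj g) ⟨g, rfl⟩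
          (le_normalizer_map _ (mem_map_of_mem _ h1)) (by rwa [orderOf_injective _ hf]) fun h4 => h3 fun s hs => hf ?_
        rw [map_mul, map_mul]; exact h4 _ (mem_map_of_mem _ hs)
      · refine H23.OS.case_c hS hK hn (hL K) ?_ ?_
        · rintro _ ⟨s, hs, rfl⟩ _ ⟨t, ht, rfl⟩ e1 e2
          rw [orderOf_injective _ hf] at e1 e2
          rw [← map_mul, h1 s hs t ht e1 e2, map_mul]
        · rintro _ ⟨s, hs, rfl⟩ _ ⟨t, ht, rfl⟩ e1 e2
          rw [orderOf_injective _ hf] at e1 e2
          obtain ⟨g, hg⟩ := h2 s hs t ht e1 e2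
          exact ⟨_, ⟨g, rfl⟩, by rw [← hg, map_mul, map_mul, map_inv]⟩
    refine H22.eq_bot_of_perfect_of_sol hK (sol_of_le (Cfsg.Agent.S0227.result (fun N hN ho =>
      (IsSimpleGroup.eq_bot_or_eq_top_of_normal N hN).resolve_right fun e => ?_) S
      C_((S : Subgroup G).map MulAut.conj) fun φ => ⟨fun h s hs => hf ?_, fun h => ?_⟩).2 h1)
    · have := (pg_dvd hp S.2 hS1).trans (card_dvd (le_top.trans e.ge))
      exact Nat.not_even_iff_odd.2 ho (even_iff_two_dvd.2 this)
    · have := h _ (mem_map_of_mem _ hs)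
      refine MulEquiv.ext fun x => ?_
      obtain ⟨x, rfl⟩ := φ.surjective x
      simpa using (DFunLike.congr_fun this x).symm
    · rintro _ ⟨s, hs, rfl⟩
      refine MulEquiv.ext fun x => ?_
      simp [h s hs]
  refine Group.isSolvable_of_surjective (f := (QuotientGroup.mk' (Inn G)).comp (Subgroup.subtype N_((S : Subgroup G).map MulAut.conj))) fun x => ?_
  obtain ⟨x, rfl⟩ := QuotientGroup.mk_surjective x
  obtain ⟨a, ha, b, hb, rfl⟩ := (mem_sup_norm (hL _)).1 ((sylow_frattini hp hS le_top (hL _)).ge (mem_top x))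
  exact ⟨⟨b, hb.2⟩, by
    rw [QuotientGroup.mk_mul, (QuotientGroup.eq_one_iff a).2 ha, one_mul]; rfl⟩

end Cfsg.Agent.S3066
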