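import Mathlib
import Cfsg.Statements.S3067
import Cfsg.Agent.H08.Ca2

set_option autoImplicit false
open Cfsg

namespace Cfsg.Agent.S3067

/-- Let G be a finite non-abelian simple group, τ an involution of G, and α a nontrivial automorphism of G whose order is coprime to the order of G. Then α moves some element of the centralizer of τ: α does not fix C_G(τ) elementwise. -/
theorem result {G : Type*} [Group G] [Finite G] [IsSimpleGroup G]
    (hG : ¬ IsMulCommutative G) (τ : G) (hτ : orderOf τ = 2) (α : MulAut G) (hα : α ≠ 1)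
    (hcop : (orderOf α).Coprime (Nat.card G)) :
    ∃ c ∈ Subgroup.centralizer ({τ} : Set G), α c ≠ c := by
  by_contra! hc
  obtain ⟨r, hr, d⟩ := Nat.exists_prime_and_dvd (mt orderOf_eq_one_iff.1 hα)
  have o := orderOf_pow_orderOf_div (orderOf_pos α).ne' d
  obtain ⟨β, hβ⟩ : ∃ β, β = α ^ (orderOf α / r) := ⟨_, rfl⟩
  rw [← hβ] at o
  have fx : ∀ c ∈ Subgroup.centralizer ({τ} : Set G), β c = c := fun c h => by
    rw [hβ]
    induction (orderOf α / r) with
    | zero => rfl
    | succ n ih => rw [pow_succ, MulAut.mul_apply, hc c h, ih]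
  let f : G →* G ⋊[MonoidHom.id (MulAut G)] MulAut G := SemidirectProduct.inl
  have hf : Function.Injective f := SemidirectProduct.inl_injective
  have cj : ∀ g, SemidirectProduct.inr β * f g * (SemidirectProduct.inr β)⁻¹ = f (β g) := fun g => by
    rw [← map_inv]; exact (SemidirectProduct.inl_aut (φ := MonoidHom.id (MulAut G)) β g).symm
  have cL : Nat.card f.range = Nat.card G := (Nat.card_congr (MonoidHom.ofInjective hf).toEquiv).symm
  have := H08.Ca.main (r := r) (L := f.range) (a := SemidirectProduct.inr β) (t := f τ) ⟨hr,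
    cL ▸ (hr.coprime_iff_not_dvd).1 (Nat.Coprime.coprime_dvd_left d hcop), by rw [← map_pow, ← o, pow_orderOf_eq_one, map_one],
    BG.mem_norm_of_cj_le fun x hx => by
      obtain ⟨_, ⟨y, rfl⟩, rfl⟩ := BG.mem_cj'.1 hx
      exact ⟨_, (cj y).symm⟩, ⟨τ, rfl⟩, (orderOf_injective f hf τ).trans hτ, by
      rintro _ ⟨⟨y, rfl⟩, hy⟩
      have := fx y (BG.mem_cent1.2 (hf (by simpa using BG.mem_cent1.1 hy)))
      exact BG.mem_cent1.2 (mul_inv_eq_iff_eq_mul.1 ((cj y).trans (congrArg f this))).symm⟩
  have n : ((piCoreOf {2}ᶜ f.range).comap f).Normal := ⟨fun x hx g => by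
    simpa using BG.conj_mem_of_norm (BG.le_norm_pcore _ _ (⟨g, rfl⟩ : f g ∈ f.range)) hx⟩
  rcases n.eq_bot_or_eq_top with e | e
  · refine hr.one_lt.ne' (o ▸ orderOf_eq_one_iff.2 (MulEquiv.ext fun g => ?_))
    have := this _ (inv_mem ⟨g, rfl⟩)
    rw [inv_inv, mul_assoc, mul_assoc, ← mul_assoc (SemidirectProduct.inr β), cj, ← map_inv, ← map_mul] at this
    exact (inv_mul_eq_one.1 (Subgroup.mem_bot.1 (e.le this))).symm
  · exact H23.GW.odd_of_mem (BG.pcore_not_dvd Nat.prime_two f.range) (e.ge (Subgroup.mem_top τ))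
      ((orderOf_injective f hf τ).trans hτ).symm.dvd

end Cfsg.Agent.S3067
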