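import Mathlib
import Cfsg.Statements.S3068
import Cfsg.Agent.H17.JTr3

set_option autoImplicit false
open Cfsg

namespace Cfsg.Agent.S3068

/-- Let p ≥ 7 be a prime, S a Sylow p-subgroup of the finite group G, J(S) the subgroup generated by the abelian subgroups of S of largest order and M = N_G(J(S)). Then G/O^p(G) ≅ M/O^p(M): the largest p-factor group of G is that of M (here O^p(X) is the subgroup generated by the elements of X of order prime to p). -/
theorem result {G : Type*} [Group G] [Finite G] {p : ℕ} [Fact p.Prime]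
    (hp : 7 ≤ p) (S : Sylow p G)
    [hn : (Cfsg.pResidual p G).Normal]
    [hm : (Cfsg.pResidual p ↥(Subgroup.normalizer (Cfsg.thompsonSubgroupAOf (S : Subgroup G) : Set G))).Normal] :
    Nonempty (G ⧸ Cfsg.pResidual p G ≃*
      ↥(Subgroup.normalizer (Cfsg.thompsonSubgroupAOf (S : Subgroup G) : Set G)) ⧸
        Cfsg.pResidual p ↥(Subgroup.normalizer (Cfsg.thompsonSubgroupAOf (S : Subgroup G) : Set G))) := by
  have h := H17.tr_eq (H17.isConj_ind H17.JT.isCharP_jF) (H17.JT.J_tr hp) S
  refine H17.JT.quot_iso S ?_ ?_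
  · rw [H17.thompsonAOf_eq]
    exact Subgroup.le_normalizer.trans (H17.normalizer_le_normalizer_thompsonOf 0 _)
  · rw [inf_comm, h]
    exact inf_le_right

end Cfsg.Agent.S3068
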