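import Mathlib
import Cfsg.Statements.S3070
import Cfsg.Agent.H17.JTr3
import Cfsg.Agent.S2006

set_option autoImplicit false
open Cfsg

namespace Cfsg.Agent.S3070

/-- Let p ≥ 5 be a prime, S a Sylow p-subgroup of the finite group G and J(S) the subgroup generated by the abelian subgroups of S of largest order. Then G has a normal p-complement if and only if N_G(J(S))/C_G(J(S)) is a p-group (every element of N_G(J(S)) of order prime to p centralizes J(S)). -/
theorem result {G : Type*} [Group G] [Finite G] {p : ℕ} [Fact p.Prime]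
    (hp : 5 ≤ p) (S : Sylow p G) :
    Cfsg.HasNormalPComplement p G ↔
      ∀ g ∈ Subgroup.normalizer (Cfsg.thompsonSubgroupAOf (S : Subgroup G) : Set G), (orderOf g).Coprime p →
        g ∈ Subgroup.centralizer (Cfsg.thompsonSubgroupAOf (S : Subgroup G) : Set G) := by
  rw [H17.thompsonAOf_eq]
  refine ⟨fun h g hg hc => H03.HasNPC.commute_of_normalizes h (S.2.to_le (H17.thompsonOf_le 0 _)) hg hc, fun h => ?_⟩
  refine Cfsg.Agent.S2006.result _ H17.JT.isCharP_jF S ?_ fun K R _ hc T hT => ?_
  · rw [H17.JT.ind_jF]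
    exact H17.hasNPC_normalizer_of_cent S
      (Subgroup.le_normalizer.trans (H17.normalizer_le_normalizer_thompsonOf 0 _)) H17.JT.cent_J_le h
  · rw [H17.JT.ind_jF] at hT
    obtain ⟨g, g1, g2, -, g3⟩ := H17.JT.jmain (by omega) T.2 (H26.pCore_le_sylow T) hT
    obtain ⟨U, V, h1, h2, h3, h4⟩ := g3 hc
    haveI := h1.2.1
    exact ⟨g, g1, g2, U, V, h1, h2, H17.iter_le_of_le h3 (by omega), h4⟩

end Cfsg.Agent.S3070
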