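import Mathlib
import Cfsg.Statements.S3071
import Cfsg.Agent.H03.Ctl2

set_option autoImplicit false
open Cfsg

namespace Cfsg.Agent.S3071

/-- Let p be an odd prime and S a Sylow p-subgroup of the finite group G such that, for every subgroup P with Z(S) ≤ P ≤ S, the normalizer N_G(P) has no section isomorphic to SL₂(p). Let J(S) be the subgroup generated by the abelian subgroups of S of largest order. Then two elements of S are conjugate in G if and only if they are conjugate in N_G(Z(J(S))). -/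
theorem result {G : Type*} [Group G] [Finite G] {p : ℕ} [Fact p.Prime]
    (hp : p ≠ 2) (S : Sylow p G)
    (hfree : ∀ P : Subgroup G, (S : Subgroup G) ⊓ Subgroup.centralizer ((S : Subgroup G) : Set G) ≤ P → P ≤ S →
      ¬ ∃ (H K : Subgroup G) (hK : (K.subgroupOf H).Normal), H ≤ Subgroup.normalizer (P : Set G) ∧
        Nonempty ((H ⧸ K.subgroupOf H) ≃* Matrix.SpecialLinearGroup (Fin 2) (ZMod p))) :
    ∀ x ∈ S, ∀ y ∈ S, (∃ g : G, g * x * g⁻¹ = y) ↔
      ∃ n ∈ Subgroup.normalizer (Cfsg.centerThompsonAOf (S : Subgroup G) : Set G), n * x * n⁻¹ = y := by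
  have h := H03.ctl_zj_of_local_free hp S fun U h1 h2 h => hfree U h1 h2 (by
    obtain ⟨K, L, hL, h3, e⟩ := (H17.sec_sl2_qd.trans h).exists_section_le
    exact ⟨K, L, hL, h3, e⟩)
  rw [H17.centerThompsonAOf_eq]
  refine fun x hx y hy => ⟨?_, fun ⟨n, _, h⟩ => ⟨n, h⟩⟩
  rintro ⟨g, rfl⟩
  obtain ⟨n, hn, e⟩ := h.set {x} (Set.singleton_subset_iff.2 hx) (Subgroup.mem_top g) (by simpa using hy)
  exact ⟨n, hn, e x rfl⟩

end Cfsg.Agent.S3071
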