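import Mathlib
import Cfsg.Statements.S3073
import Cfsg.Agent.S1988
import Cfsg.Agent.S1978

set_option autoImplicit false
universe u
open Cfsg

namespace Cfsg.Agent.S3073

/-- For an odd prime p, every finite p-group S has a characteristic subgroup K with C_S(K) ≤ K such that, whenever S is (isomorphic to) a Sylow p-subgroup of a finite group G, G has a normal p-complement if and only if N_G(K)/C_G(K) is a p-group, i.e. every element of N_G(K) of order prime to p centralizes K (K transported into G along the isomorphism). -/
theorem result (p : ℕ) [Fact p.Prime] (hp : p ≠ 2)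
    (S : Type u) [Group S] [Finite S] (hS : IsPGroup p S) :
    ∃ K : Subgroup S, K.Characteristic ∧ Subgroup.centralizer (K : Set S) ≤ K ∧
      ∀ (G : Type u) [Group G] [Finite G] (P : Sylow p G) (e : ↥(P : Subgroup G) ≃* S),
        Cfsg.HasNormalPComplement p G ↔
          ∀ g ∈ Subgroup.normalizer (((K.comap (e : ↥(P : Subgroup G) →* S)).map (P : Subgroup G).subtype : Subgroup G) : Set G),
            (orderOf g).Coprime p →
              g ∈ Subgroup.centralizer (((K.comap (e : ↥(P : Subgroup G) →* S)).map (P : Subgroup G).subtype : Subgroup G) : Set G) := by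
  refine ⟨Cfsg.kInfLower S, H17.IsCharPFunctor.characteristic H17.isCharP_kInfLower hS,
    (Cfsg.Agent.S1978.result hS).1, fun G _ _ P e => ?_⟩
  have hK : ((Cfsg.kInfLower S).comap (e : ↥(P : Subgroup G) →* S)).map (P : Subgroup G).subtype =
      Cfsg.inducedFunctor Cfsg.kInfLower (P : Subgroup G) := by
    rw [H17.induced_kInfLower, ← H17.map_kInfLower]
    congr 1
    have h1 := H17.kLo_map (f := (e : ↥(P : Subgroup G) →* S)) e.injective ⊤
    rw [Subgroup.map_top_of_surjective _ e.surjective, H17.kLo_top, H17.kLo_top] at h1
    rw [h1, Subgroup.comap_map_eq_self_of_injective e.injective]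
  rw [hK]
  refine ⟨fun h g hg hc => ?_, fun h => Cfsg.Agent.S1988.result hp P (Or.inr h)⟩
  refine H03.HasNPC.commute_of_normalizes h ?_ hg hc
  rw [H17.induced_kInfLower]
  exact P.2.to_le (H17.kLo_le _)

end Cfsg.Agent.S3073
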