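import Mathlib
import Cfsg.Statements.S3074
import Cfsg.Agent.H03.Qd

set_option autoImplicit false
open Cfsg

namespace Cfsg.Agent.S3074

open H03 H03.QA

/-- Let p be an odd prime. A Sylow p-subgroup of Qd(p), the split extension of an elementary abelian group of order p² by SL₂(p) acting naturally, is extraspecial of order p³ and exponent p. -/
theorem result (p : ℕ) [Fact p.Prime] (hp : p ≠ 2) (P : Sylow p ↥(Cfsg.qd p)) :
    Cfsg.IsExtraspecial p ↥P ∧ Nat.card P = p ^ 3 ∧ Monoid.exponent ↥P = p := by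
  obtain ⟨e, he⟩ := sylow_equiv (equivP p) P
  have f := (e.subgroupMap S0).trans (MulEquiv.subgroupCongr he)
  have hz : ∀ c : ZMod p, u 0 0 c ∈ Subgroup.zpowers (u (0 : ZMod p) 0 1) := fun c =>
    ⟨(c.val : ℕ), by simp only [zpow_natCast, u_pow]; simp⟩
  have hpow : ∀ x ∈ (S0 : Subgroup (QA (ZMod p))), x ^ p = 1 := by
    rintro _ ⟨a, b, c, rfl⟩
    obtain ⟨k, hk⟩ := H17.dvd_choose_two (Or.inl ((Fact.out : p.Prime).odd_of_ne_two hp))
    rw [u_pow, hk, ← u_zero]; simp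
  have hne : u (0 : ZMod p) 0 1 ≠ 1 := fun h => by simpa [← u_zero, u_inj] using h
  have h1 : H04.AES p (S0 : Subgroup (QA (ZMod p))) (u 0 0 1) := by
    refine ⟨orderOf_eq_prime (hpow _ (u_mem _ _ _)) hne, u_mem _ _ _, ?_, ?_, fun x hx => ?_⟩
    · rintro _ ⟨a, b, c, rfl⟩
      simp [u_mul, add_comm]
    · rintro _ ⟨a, b, c, rfl⟩ _ ⟨a', b', c', rfl⟩
      rw [u_comm]; exact hz _
    · rw [hpow x hx]; exact one_mem _
  have h2 := H04.isExtraspecial_of_aes (h1.map e.toMonoidHom e.injective) (by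
    rintro _ ⟨⟨_, ⟨a, b, c, rfl⟩, rfl⟩, h⟩
    have e1 := h _ (Subgroup.mem_map_of_mem _ (u_mem 1 0 0))
    have e2 := h _ (Subgroup.mem_map_of_mem _ (u_mem 0 1 0))
    rw [← map_mul, ← map_mul] at e1 e2
    have e1 := e.injective e1
    have e2 := e.injective e2
    rw [u_mul, u_mul, u_inj] at e1 e2
    obtain rfl : b = 0 := by simpa using e1.2.2
    obtain rfl : a = 0 := by simpa using e2.2.2
    rw [← MonoidHom.map_zpowers]
    exact Subgroup.mem_map_of_mem _ (hz c)) (fun h => by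
    have e1 := H17.comm_of_mem h (Subgroup.mem_map_of_mem _ (u_mem 1 0 0)) (Subgroup.mem_map_of_mem _ (u_mem 0 1 0))
    rw [← map_mul, ← map_mul] at e1
    simpa [u_mul, u_inj] using e.injective e1)
  rw [he] at h2
  refine ⟨h2, by rw [← Nat.card_congr f.toEquiv, card_S0, Nat.card_zmod], ?_⟩
  refine (Monoid.exponent_eq_of_mulEquiv f).symm.trans ?_
  have : Nontrivial (S0 : Subgroup (QA (ZMod p))) := ⟨⟨⟨_, u_mem 0 0 1⟩, 1, fun h => hne (congrArg Subtype.val h)⟩⟩
  exact (Monoid.exponent_eq_prime_iff Fact.out).2 fun g hg =>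
    orderOf_eq_prime (Subtype.ext (hpow g g.2)) hg

end Cfsg.Agent.S3074
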