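import Mathlib
import Cfsg.Statements.S3075
import Cfsg.Agent.H26.Omega
import Cfsg.Agent.H04.ElemAb
import Cfsg.Agent.H09.SL2Basic

set_option autoImplicit false
open Cfsg

namespace Cfsg.Agent.S3075
open H26

/-- Let p be an odd prime and N a finite group with a normal elementary abelian subgroup A of order p² that is its own centralizer in N, such that N/A is isomorphic to SL₂(p) (over any field F with p elements). Then N splits over A: some subgroup U of N satisfies A ∩ U = 1 and AU = N. -/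
theorem result {N : Type*} [Group N] [Finite N] {p : ℕ} [Fact p.Prime] (hp : p ≠ 2)
    (A : Subgroup N) [A.Normal] (hAcomm : IsMulCommutative A) (hAcard : Nat.card A = p ^ 2) (hAexp : Monoid.exponent ↥A = p)
    (hAself : Subgroup.centralizer (A : Set N) = A)
    {F : Type*} [Field F] [Fintype F] (hF : Fintype.card F = p) (e : N ⧸ A ≃* Matrix.SpecialLinearGroup (Fin 2) F) :
    ∃ U : Subgroup N, A ⊓ U = ⊥ ∧ A ⊔ U = ⊤ := by
  have hp' : p.Prime := Fact.out
  have ho := hp'.odd_of_ne_two hp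
  have h2 : (2 : F) ≠ 0 := H09.two_ne_zero_of_odd_card (hF ▸ ho)
  have ha : ∀ a ∈ A, a ^ p = 1 := fun a b => congrArg Subtype.val (hAexp ▸ Monoid.pow_exponent_eq_one (⟨a, b⟩ : A))
  have hb : ∀ a ∈ A, a * a = 1 → a = 1 := fun a b c => eq_one_of_coprime (ha a b)
    ((Nat.coprime_two_left.mpr ho).coprime_dvd_left (orderOf_dvd_of_pow_eq_one (by rwa [sq])))
  have hc := isMulCommutative_iff_le.mp hAcomm
  let f := e.toMonoidHom.comp (QuotientGroup.mk' A)
  have f1 : Function.Surjective f := e.surjective.comp (QuotientGroup.mk'_surjective A)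
  have f2 : ∀ x, f x = 1 ↔ x ∈ A := fun x => e.map_eq_one_iff.trans (QuotientGroup.eq_one_iff x)
  obtain ⟨y, hy⟩ := f1 (-1)
  obtain ⟨t, t1, t2⟩ : ∃ t, f t = -1 ∧ t * t = 1 := ⟨y ^ p, by rw [map_pow, hy, ho.neg_one_pow], by
    rw [← (Commute.refl y).mul_pow]; exact ha _ ((f2 _).mp (by simp [hy]))⟩
  have t3 : ∀ n, ∃ a ∈ A, n * t * n⁻¹ = a * t := fun n => ⟨n * t * n⁻¹ * t⁻¹, (f2 _).mp (by simp [t1]), by simp⟩
  have t4 : ∀ n, ∀ a ∈ A, t * (n * a * n⁻¹) * t⁻¹ = n * (t * a * t⁻¹) * n⁻¹ := fun n a b => by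
    obtain ⟨c, d, e⟩ := t3 n
    have := hc d _ (‹A.Normal›.conj_mem _ (‹A.Normal›.conj_mem a b n) t)
    calc _ = c * (t * (n * a * n⁻¹) * t⁻¹) * c⁻¹ := by rw [← this]; simp
      _ = (c * t) * (n * a * n⁻¹) * (c * t)⁻¹ := by group
      _ = _ := by rw [← e]; group
  let W : Subgroup N :=
    { carrier := {a | a ∈ A ∧ t * a * t⁻¹ = a⁻¹}
      mul_mem' := fun {a b} c d => ⟨mul_mem c.1 d.1, by
        rw [← conj_mul, c.2, d.2, ← mul_inv_rev, hc c.1 b d.1]⟩
      one_mem' := ⟨one_mem _, by simp⟩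
      inv_mem' := fun c => ⟨inv_mem c.1, by rw [← conj_inv, c.2]⟩ }
  have w1 : W.Normal := ⟨fun a b n => ⟨‹A.Normal›.conj_mem a b.1 n, by rw [t4 n a b.1, b.2, conj_inv]⟩⟩
  have w2 : (A ⊓ Subgroup.centralizer {t}).Normal := ⟨fun a b n => ⟨‹A.Normal›.conj_mem a b.1 n, Subgroup.mem_centralizer_singleton_iff.mpr <| by
    rw [eq_comm, ← mul_inv_eq_iff_eq_mul, t4 n a b.1,
      ← Subgroup.mem_centralizer_singleton_iff.mp b.2, mul_inv_cancel_right]⟩⟩
  have w3 : A ≤ W ⊔ A ⊓ Subgroup.centralizer {t} := fun a b => by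
    have c := ‹A.Normal›.conj_mem a b t
    have d : t * (t * a * t⁻¹) * t⁻¹ = a := by
      rw [← mul_assoc, ← mul_assoc, t2, one_mul, mul_assoc, ← mul_inv_rev, t2, inv_one, mul_one]
    refine mem_of_pow_mem_of_coprime (n := 2) ?_
      ((ho.of_dvd_nat (orderOf_dvd_of_pow_eq_one (ha a b))).coprime_two_right)
    rw [show a ^ 2 = a * (t * a * t⁻¹)⁻¹ * (t * a * t⁻¹ * a) by rw [sq]; group]
    refine Subgroup.mul_mem_sup ⟨mul_mem b (inv_mem c), ?_⟩ ⟨mul_mem c b, Subgroup.mem_centralizer_singleton_iff.mpr ?_⟩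
    · rw [← conj_mul, ← conj_inv, d, mul_inv_rev, inv_inv]
    · rw [eq_comm, ← mul_inv_eq_iff_eq_mul, ← conj_mul, d,
        hc b _ c]
  have w4 : ∀ X < A, commutator N ≤ Subgroup.centralizer (X : Set N) ∨ ¬ X.Normal := fun X a => by
    refine or_iff_not_imp_right.mpr fun b => H04.commutator_le_centralizer_of_isCyclic ?_
      (have := not_not.mp b; Subgroup.le_normalizer_of_normal) (have := not_not.mp b; Subgroup.le_normalizer_of_normal)
    obtain ⟨k, c, d⟩ := (Nat.dvd_prime_pow hp').mp (hAcard ▸ Subgroup.card_dvd_of_le a.le)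
    refine isCyclic_of_card_dvd_prime (p := p) ?_
    rw [d]
    refine (pow_dvd_pow p (Nat.le_of_lt_succ (lt_of_le_of_ne c fun g => a.ne
      (Subgroup.eq_of_le_of_card_ge a.le (by rw [hAcard, d, g]))))).trans (pow_one p).dvd
  have w5 : A ⊓ Subgroup.centralizer {t} = ⊥ := by_contra fun a => by
    obtain ⟨⟨z, z1⟩, z2⟩ := Subgroup.ne_bot_iff_exists_ne_one.mp a
    have b := (w4 W (lt_of_le_of_ne (fun _ c => c.1) fun c => z2 (Subtype.ext (hb z z1.1 (by
      have d := (c.ge z1.1).2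
      rw [← Subgroup.mem_centralizer_singleton_iff.mp z1.2, mul_inv_cancel_right] at d
      nth_rw 1 [d]
      exact inv_mul_cancel z))))).resolve_right (not_not.mpr w1)
    have c := (w4 _ (inf_lt_left.mpr fun c => H09.SL2.neg_one_ne_one h2 (t1.symm.trans ((f2 t).mpr
      (hAself.le (mem_centralizer_iff_le.mpr c)))))).resolve_right (not_not.mpr w2)
    have d := ((le_inf b c).trans ((centralizer_sup _ _).ge.trans (centralizer_anti w3))).trans hAself.le
    obtain ⟨u, hu⟩ := f1 (H09.sl2 1 1 0 1 (by ring))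
    obtain ⟨v, hv⟩ := f1 (H09.sl2 1 0 1 1 (by ring))
    have g := (f2 _).mpr (d (Subgroup.commutator_mem_commutator (Subgroup.mem_top u) (Subgroup.mem_top v)))
    rw [map_commutatorElement, commutatorElement_eq_one_iff_mul_comm, hu, hv, H09.sl2_mul, H09.sl2_mul,
      H09.sl2_eq_iff] at g
    simp at g
  refine ⟨_, w5, eq_top_iff.mpr fun n _ => ?_⟩
  obtain ⟨a, a1, a2⟩ := t3 n
  obtain ⟨m, hm⟩ := exists_pow_eq_self_of_coprime (x := a)
    (ho.of_dvd_nat (orderOf_dvd_of_pow_eq_one (ha a a1))).coprime_two_left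
  have a3 : t * a * t⁻¹ = a⁻¹ := by
    have : a * t * (a * t) = 1 := by rw [← a2, conj_mul, t2]; simp
    rw [inv_eq_of_mul_eq_one_right t2, eq_inv_iff_mul_eq_one, mul_eq_one_comm, ← this]; group
  rw [← mul_inv_cancel_left (a ^ m) n]
  refine Subgroup.mul_mem_sup (pow_mem a1 m) (Subgroup.mem_centralizer_singleton_iff.mpr ?_)
  calc (a ^ m)⁻¹ * n * t = (a ^ m)⁻¹ * (n * t * n⁻¹) * n := by group
    _ = (a ^ m)⁻¹ * (a ^ m * a ^ m) * t * n := by rw [a2, ← sq, ← pow_mul, mul_comm m, pow_mul, hm]; group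
    _ = (t * (a ^ m)⁻¹ * t⁻¹) * t * n := by rw [← conj_inv, ← conj_pow, a3]; group
    _ = _ := by group

end Cfsg.Agent.S3075
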