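import Mathlib
import Cfsg.Statements.S3076
import Cfsg.Agent.H26.Burn
import Cfsg.Agent.H26.Chain
import Cfsg.Agent.H17.OpMod

set_option autoImplicit false
open Cfsg

namespace Cfsg.Agent.S3076
open H26

theorem key {G : Type*} [Group G] [Finite G] {p : ℕ} [Fact p.Prime] {T H C : Subgroup G} [H.Normal] [C.Normal]
    (hT : IsSyl p T ⊤) (hH : H ≤ T) (hC : C = Subgroup.centralizer (H : Set G)) :
    H ≤ H17.opMod p C ∧ (¬ p ∣ H.relIndex (H17.opMod p C) ↔ T ⊓ C ≤ H ∧ pPrimePCore p G = H ⊔ C) := by
  have h0 := hT.pg.to_le hH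
  have h1 : H ≤ H17.opMod p C := (le_pCore h0).trans (H17.pCore_le_opMod C)
  have h2 : pPrimeCore p G ≤ C := hC ▸ (H02.pPrimeCore_le_centralizer_pCore p G).trans (centralizer_anti (le_pCore h0))
  have h3 := hT.inf_of_le (N := C) le_top Subgroup.le_normalizer_of_normal
  have h4 : T ⊓ C ≤ H → ¬ p ∣ Nat.card (pResidualOf p C) := fun a => h3.not_dvd_pResidualOf_of_central
    (hC.le.trans (centralizer_anti a))
  have h5 : T ⊓ C ≤ H → H17.opMod p C = pPrimePCore p G := fun a => by
    have b := (pResidualOf_le_pPrimeCoreOf (h4 a) le_top Subgroup.le_normalizer_of_normal).trans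
      H02.pPrimeCoreOf_top.le
    exact le_antisymm (H17.opMod_le_opMod fun x hx => (exists_pow_mem_pResidualOf hx).imp fun _ c => b c)
      (H17.opMod_mono h2)
  refine ⟨h1, fun a => ?_, fun ⟨a, b⟩ => ?_⟩
  · have b := isSyl_of_not_dvd h1 h0 a
    have c := b.le_of_le_normalizer' h3.pg (inf_le_right.trans (H17.self_le_opMod C)) Subgroup.le_normalizer_of_normal
    refine ⟨c, ?_⟩
    rw [← h5 c]
    exact le_antisymm (b.sup_pResidualOf.ge.trans (sup_le_sup_left (pResidualOf_le_of_pow fun x hx =>
      H17.exists_pow_mem_of_mem_opMod hx) _)) (sup_le h1 (H17.self_le_opMod C))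
  · rw [h5 a, b]
    exact (isSyl_of_sup_eq Subgroup.le_normalizer_of_normal h3 a (isSyl_self h0)).not_dvd

/-- Let P be a Sylow p-subgroup of the finite group G and H ≤ P a subgroup with N_P(H) a Sylow p-subgroup of N_G(H). Let N be the preimage in N_G(H) of O_p(N_G(H)/C_G(H)). Then H is a Sylow p-subgroup of N if and only if C_P(H) ≤ H and O_{p',p}(N_G(H)) = H·C_G(H). -/
theorem result {G : Type*} [Group G] [Finite G] {p : ℕ} [Fact p.Prime]
    (P : Sylow p G) (H : Subgroup G) (hHP : H ≤ (P : Subgroup G))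
    (hSyl : ¬ p ∣ ((P : Subgroup G) ⊓ Subgroup.normalizer (H : Set G)).relIndex (Subgroup.normalizer (H : Set G)))
    [hC : ((Subgroup.centralizer (H : Set G)).subgroupOf (Subgroup.normalizer (H : Set G))).Normal] :
    (H ≤ ((Cfsg.pCore p (↥(Subgroup.normalizer (H : Set G)) ⧸
              (Subgroup.centralizer (H : Set G)).subgroupOf (Subgroup.normalizer (H : Set G)))).comap
            (QuotientGroup.mk' _)).map (Subgroup.normalizer (H : Set G)).subtype ∧
      ¬ p ∣ H.relIndex (((Cfsg.pCore p (↥(Subgroup.normalizer (H : Set G)) ⧸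
              (Subgroup.centralizer (H : Set G)).subgroupOf (Subgroup.normalizer (H : Set G)))).comap
            (QuotientGroup.mk' _)).map (Subgroup.normalizer (H : Set G)).subtype)) ↔
    ((P : Subgroup G) ⊓ Subgroup.centralizer (H : Set G) ≤ H ∧
      (Cfsg.pPrimePCore p ↥(Subgroup.normalizer (H : Set G))).map (Subgroup.normalizer (H : Set G)).subtype =
        H ⊔ Subgroup.centralizer (H : Set G)) := by
  have h1 : H ≤ Subgroup.normalizer (H : Set G) := Subgroup.le_normalizer
  have h2 := centralizer_le_normalizer H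
  have h3 := (isSyl_subgroupOf_top_iff inf_le_right).mpr (isSyl_of_not_dvd inf_le_right P.isPGroup'.to_inf_left hSyl)
  obtain ⟨a, b⟩ := key (H := H.subgroupOf _) (C := (Subgroup.centralizer (H : Set G)).subgroupOf _) h3
    (Subgroup.comap_mono (le_inf hHP h1)) (Subgroup.map_injective (Subgroup.subtype_injective _) (by
      rw [map_subtype_centralizer, Subgroup.map_subgroupOf_eq_of_le h1, Subgroup.map_subgroupOf_eq_of_le h2,
        inf_eq_right.mpr h2]))
  rw [← Subgroup.map_subtype_le_map_subtype, Subgroup.map_subgroupOf_eq_of_le h1] at a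
  rw [← Subgroup.relIndex_map_map_of_injective _ _ (Subgroup.subtype_injective _),
    Subgroup.map_subgroupOf_eq_of_le h1, ← Subgroup.map_subtype_le_map_subtype, Subgroup.map_subgroupOf_eq_of_le h1,
    ← (Subgroup.map_injective (Subgroup.subtype_injective _)).eq_iff, Subgroup.map_sup,
    Subgroup.map_subgroupOf_eq_of_le h1, Subgroup.map_inf _ _ _ (Subgroup.subtype_injective _),
    Subgroup.map_subgroupOf_eq_of_le h2, Subgroup.map_subgroupOf_eq_of_le inf_le_right, inf_assoc,
    inf_eq_right.mpr h2] at b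
  exact (and_iff_right a).trans b

end Cfsg.Agent.S3076
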