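import Mathlib
import Cfsg.Statements.S3078
import Cfsg.Agent.H26.Repl
import Cfsg.Agent.H17.GlRepl
import Cfsg.Agent.H04.Class2

set_option autoImplicit false
open Cfsg

namespace Cfsg.Agent.S3078
open H26
open scoped commutatorElement

/-- A replacement Theorem for abelian subgroups of p-groups, p odd. Let G be a finite p-group with p odd, A an abelian subgroup of G, and B a subgroup of nilpotency class at most 2 with [B, B] ≤ A, such that A normalizes B but B does not normalize A. Then there is an abelian subgroup A* of G of the same order as A with A ∩ B strictly contained in A* ∩ B, A* contained in N_G(A) and in the normal closure of A, the exponent of A* dividing the exponent of A, and with the subgroup generated by the elements of order dividing p in A of order at most that of the corresponding subgroup of A* (the rank of A is at most the rank of A*). -/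
theorem result {G : Type*} [Group G] [Finite G] {p : ℕ} [Fact p.Prime] (hp : p ≠ 2) (hG : IsPGroup p G) (A B : Subgroup G) (hA : IsMulCommutative A) (hB2 : ⁅⁅B, B⁆, B⁆ = ⊥) (hBA : ⁅B, B⁆ ≤ A) (hAB : A ≤ Subgroup.normalizer (B : Set G)) (hBnA : ¬ B ≤ Subgroup.normalizer (A : Set G)) : ∃ Astar : Subgroup G, IsMulCommutative Astar ∧ Nat.card Astar = Nat.card A ∧ A ⊓ B < Astar ⊓ B ∧ Astar ≤ Subgroup.normalizer (A : Set G) ∧ Astar ≤ Subgroup.normalClosure (A : Set G) ∧ Monoid.exponent Astar ∣ Monoid.exponent A ∧ Nat.card (Cfsg.omegaOne p A) ≤ Nat.card (Cfsg.omegaOne p Astar) := by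
  have hp' : p.Prime := Fact.out
  obtain ⟨b, b1, b2, b3⟩ := H17.exists_repl_elt (P := A ⊔ B) (hG.to_subgroup _) le_sup_right
    (sup_le hAB Subgroup.le_normalizer) hBnA
  have ho : ∀ n, n ∣ Nat.card G → Odd n := fun n h => by
    obtain ⟨k, hk⟩ := IsPGroup.iff_card.mp hG
    exact (hk ▸ (hp'.odd_of_ne_two hp).pow).of_dvd_nat h
  have h : H17.ReplData A B ((A ⊔ B) ⊓ Subgroup.normalizer (A : Set G)) b :=
    ⟨hA, le_inf le_sup_left Subgroup.le_normalizer, inf_le_right,
      inf_le_left.trans (sup_le hAB Subgroup.le_normalizer), hBA, b1, b2, b3,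
      Or.inr (ho _ (Subgroup.card_subgroup_dvd_card B))⟩
  refine ⟨H17.repl A b, h.comm, h.card_repl, h.inf_lt, h.repl_le.trans inf_le_right,
    H17.ReplData.repl_le_sup.trans (sup_le Subgroup.le_normalClosure ((cj_mono _ Subgroup.le_normalClosure).trans
      (cj_eq_of_normal _ _).le)), Monoid.exponent_dvd_of_forall_pow_eq_one fun x => Subtype.ext
      (h.pow_eq_one (Or.inl (ho _ (Group.exponent_dvd_nat_card.trans (Subgroup.card_subgroup_dvd_card A))))
      (fun a ha => congrArg Subtype.val (Monoid.pow_exponent_eq_one (⟨a, ha⟩ : A))) x.2), ?_⟩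
  have h1 := H17.omegaOne_elemAb (n := p) hA
  have h2 := H17.omegaOne_le p A
  have h3 : ∀ a ∈ omegaOne p A, a * b⁻¹ * a⁻¹ * b ∈ omegaOne p (H17.repl A b) := fun a ha => by
    refine H17.mem_omegaOne (H17.ReplData.phi_mem_repl (h2 ha)) ?_
    have c := H17.ReplData.conj_mem_conj (b := b) (inv_mem (h2 ha))
    have d : ⁅b⁻¹ * a⁻¹ * b, a⁆ ∈ A ⊓ cj(b⁻¹, A) := by
      rw [← commutatorElement_inv]; exact inv_mem (h.commutator_mem_Z (h2 ha) c)
    rw [mul_assoc, mul_assoc, ← mul_assoc b⁻¹]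
    exact H04.mul_pow_eq_one_of_class_two hp' hp (h.Z_commute d (Subgroup.mem_sup_left (h2 ha)))
      (h.Z_commute d (Subgroup.mem_sup_right c)) (h1.2 a ha)
      (by rw [show b⁻¹ * a⁻¹ * b = b⁻¹ * a⁻¹ * b⁻¹⁻¹ by rw [inv_inv], conj_pow, inv_pow, h1.2 a ha]; simp)
  set Z := A ⊓ cj(b⁻¹, A)
  have h4 : Z.relIndex (omegaOne p A) ≤ Z.relIndex (omegaOne p (H17.repl A b)) := by
    refine Nat.card_le_card_of_injective (fun q : omegaOne p A ⧸ Z.subgroupOf _ =>
      ((⟨_, h3 _ q.out.2⟩ : omegaOne p (H17.repl A b)) : _ ⧸ Z.subgroupOf _)) fun q q' e => ?_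
    rw [← q.out_eq', ← q'.out_eq']
    have c := mul_mem (mul_mem (H17.ReplData.conj_mem_conj (b := b) (inv_mem (h2 q.out.2)))
      (Subgroup.mem_inf.mp (QuotientGroup.eq.mp e :)).2) (H17.ReplData.conj_mem_conj (b := b) (h2 q'.out.2))
    exact QuotientGroup.eq.mpr (Subgroup.mem_inf.mpr ⟨mul_mem (inv_mem (h2 q.out.2)) (h2 q'.out.2), by simpa [mul_assoc] using c⟩)
  have h5 : ∀ A B : Subgroup G, Nat.card (B ⊓ A : Subgroup G) * A.relIndex B = Nat.card B := fun A B => by
    rw [← card_subgroupOf inf_le_left, Subgroup.inf_subgroupOf_left]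
    exact Subgroup.card_mul_index _
  rw [← h5 Z, ← h5 Z (omegaOne p (H17.repl A b))]
  exact Nat.mul_le_mul (Subgroup.card_le_of_le fun x hx =>
    ⟨H17.mem_omegaOne (H17.ReplData.Z_le_repl hx.2) (h1.2 x hx.1), hx.2⟩) h4

end Cfsg.Agent.S3078
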