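import Mathlib
import Cfsg.Statements.S3086
import Cfsg.Agent.H22.PGV4
import Cfsg.Agent.H27.Act2

set_option autoImplicit false
open Cfsg

namespace Cfsg.Agent.S3086

/-- The P(G,V)-theorem. Let p be a prime, G a finite group acting faithfully and linearly on a finite vector space V over the field with p elements, and A a nontrivial elementary abelian p-subgroup of G such that |A|·|C_V(A)| ≥ |B|·|C_V(B)| for every subgroup B of A. Then A normalizes every component (subnormal quasisimple subgroup) of G. -/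
theorem result {G V : Type*} [Group G] [Finite G] [AddCommGroup V] [Finite V] (p : ℕ) [Fact p.Prime] [Module (ZMod p) V]
    (ρ : Representation (ZMod p) G V) (hρ : Function.Injective ρ)
    (A : Subgroup G) (hA : A ≠ ⊥) (hAel : Cfsg.IsElementaryAbelian p A)
    (hP : ∀ B : Subgroup G, B ≤ A →
      Nat.card ↥B * Nat.card {v : V // ∀ b ∈ B, ρ b v = v} ≤ Nat.card ↥A * Nat.card {v : V // ∀ a ∈ A, ρ a v = v}) :
    ∀ K : Subgroup G, Cfsg.IsComponent K → A ≤ Subgroup.normalizer (K : Set G) := by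
    open BG SemidirectProduct in
    intro K hK
    have hp : p.Prime := Fact.out
    let φ : G →* MulAut (Multiplicative V) :=
      { toFun := fun g => AddEquiv.toMultiplicative (LinearMap.GeneralLinearGroup.toLinearEquiv (ρ.asGroupHom g)).toAddEquiv
        map_one' := by ext; simp
        map_mul' := fun a b => by ext; simp }
    have hφ : ∀ g v, φ g v = Multiplicative.ofAdd (ρ g v.toAdd) := fun _ _ => rfl
    have hc : ∀ g v, (inr g * inl v : Multiplicative V ⋊[φ] G) = inl v * inr g ↔ ρ g v.toAdd = v.toAdd := fun g v => by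
      rw [← mul_inv_eq_iff_eq_mul, ← map_inv, ← inl_aut, inl_inj, hφ]
      rfl
    let i : G →* Multiplicative V ⋊[φ] G := inr
    have hi : Function.Injective i := inr_injective
    let W : Subgroup (Multiplicative V ⋊[φ] G) := inl.range
    have hW : IsElementaryAbelian p W := by
      refine ⟨inferInstance, ?_⟩
      rintro _ ⟨v, rfl⟩
      rw [← map_pow, show v ^ p = 1 from ZModModule.char_nsmul_eq_zero p v.toAdd, map_one]
    have hn : ∀ X, X ≤ N_(W) := fun X g _ => by
      simp only [W]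
      rw [range_inl_eq_ker_rightHom, Subgroup.normalizer_eq_top]; trivial
    have hcard : ∀ B : Subgroup G, Nat.card ↥(W ⊓ C_(B.map i)) = Nat.card {v : V // ∀ b ∈ B, ρ b v = v} := fun B => by
      refine (Nat.card_congr (Equiv.ofBijective (fun v : {v : V // ∀ b ∈ B, ρ b v = v} =>
        (⟨inl (Multiplicative.ofAdd v.1), ⟨_, rfl⟩, mem_cent.2 ?_⟩ : ↥(W ⊓ C_(B.map i)))) ⟨fun v w e => ?_, ?_⟩)).symm
      · rintro _ ⟨b, hb, rfl⟩
        exact (hc b _).2 (v.2 b hb)
      · exact Subtype.ext (Multiplicative.ofAdd.injective (inl_injective (congrArg Subtype.val e)))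
      · rintro ⟨_, ⟨v, rfl⟩, hv⟩
        exact ⟨⟨v.toAdd, fun b hb => (hc b v).1 (mem_cent.1 hv _ ⟨b, hb, rfl⟩)⟩, rfl⟩
    have hcj : ∀ (a : G) (X : Subgroup G), cj (i a) (X.map i) = (cj a X).map i := fun a X => by
      rw [cj_eq_map, cj_eq_map, Subgroup.map_map, Subgroup.map_map]
      congr 1
      ext x <;> simp
    have hN : ∀ a, i a ∈ N_(K.map i) ↔ a ∈ N_(K) := fun a => by
      rw [← cj_eq_self_iff, ← cj_eq_self_iff, hcj, (Subgroup.map_injective hi).eq_iff]
    have hA' : IsElementaryAbelian p (A.map i) := by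
      have := hAel.1
      refine ⟨inferInstance, ?_⟩
      rintro _ ⟨a, ha, rfl⟩
      rw [← map_pow, hAel.2 a ha, map_one]
    refine fun a ha => (hN a).1 (H22.PGV.pgv hp hW hA' (hn _) (hn _) ((H22.qs_map_iff_of_injective hi).2 hK.2) ?_ ?_
      ⟨fun B hB => ?_, ?_, ?_⟩ ⟨a, ha, rfl⟩)
    · rintro _ ⟨a, -, rfl⟩ h1
      rw [hcj, ← comm_eq_bot, ← Subgroup.map_commutator, H22.comp_comm_of_ne (cj_eq_map a K ▸ H22.comp_conj hK a) hK
        fun e => h1 ((hN a).2 (cj_eq_self_iff.1 e)), Subgroup.map_bot]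
    · refine fun h => H22.comp_ne_bot hK (eq_bot_iff.2 fun k hk => hρ (LinearMap.ext fun v => ?_))
      rw [map_one]
      exact (hc k (Multiplicative.ofAdd v)).1 (mem_cent.1 (h ⟨k, hk, rfl⟩) _ ⟨_, rfl⟩).symm
    · obtain ⟨B, hB', rfl⟩ : ∃ B' ≤ A, B'.map i = B :=
        ⟨B.comap i, fun x hx => by obtain ⟨y, hy, e⟩ := hB hx; exact hi e ▸ hy,
          Subgroup.map_comap_eq_self (hB.trans (Subgroup.map_le_range _ _))⟩
      rw [hcard, hcard, Subgroup.card_map_of_injective hi, Subgroup.card_map_of_injective hi]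
      exact hP B hB'
    · rw [abelian_iff_der.1 hA'.1]; exact bot_le
    · intro a ha
      rw [hA'.2 a ha]; exact one_mem _

end Cfsg.Agent.S3086
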