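import Mathlib
import Cfsg.Statements.S3087
import Cfsg.Agent.H26.Repl

set_option autoImplicit false
open Cfsg

namespace Cfsg.Agent.S3087
open H26

/-- Let p be a prime, G a finite group acting linearly on a finite vector space V over the field with p elements, W a G-invariant subspace, and A a subgroup of G with |A|·|C_V(A)| ≥ |B|·|C_V(B)| for every subgroup B of A. Then |A|·|C_W(A)| ≥ |B|·|C_W(B)| for every subgroup B of A that contains C_A(W); that is, the image of A in the group induced on W satisfies the same maximality condition. -/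
theorem result {G V : Type*} [Group G] [Finite G] [AddCommGroup V] [Finite V] (p : ℕ) [Fact p.Prime] [Module (ZMod p) V]
    (ρ : Representation (ZMod p) G V) (W : Submodule (ZMod p) V) (hW : ∀ g : G, ∀ w ∈ W, ρ g w ∈ W)
    (A : Subgroup G)
    (hP : ∀ B : Subgroup G, B ≤ A →
      Nat.card ↥B * Nat.card {v : V // ∀ b ∈ B, ρ b v = v} ≤ Nat.card ↥A * Nat.card {v : V // ∀ a ∈ A, ρ a v = v})
    (B : Subgroup G) (hBA : B ≤ A) (hCB : ∀ a ∈ A, (∀ w ∈ W, ρ a w = w) → a ∈ B) :
    Nat.card ↥B * Nat.card {w : W // ∀ b ∈ B, ρ b w = w} ≤ Nat.card ↥A * Nat.card {w : W // ∀ a ∈ A, ρ a w = w} := by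
  let F : Subgroup G → Subgroup (Multiplicative V) := fun D =>
    { carrier := {v | ∀ b ∈ D, ρ b v.toAdd = v.toAdd}
      mul_mem' := fun a b c d => by rw [toAdd_mul, map_add, a c d, b c d]
      one_mem' := fun b _ => map_zero _
      inv_mem' := fun a c d => by rw [toAdd_inv, map_neg, a c d] }
  let U : Subgroup (Multiplicative V) := W.toAddSubgroup.toSubgroup
  have h1 : ∀ D, Nat.card {v : V // ∀ b ∈ D, ρ b v = v} = Nat.card (F D) := fun D => rfl
  have h2 : ∀ D, Nat.card {w : W // ∀ b ∈ D, ρ b w = w} = Nat.card (U ⊓ F D : Subgroup _) := fun D =>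
    Nat.card_congr (Equiv.subtypeSubtypeEquivSubtypeInter (· ∈ W) fun v => ∀ b ∈ D, ρ b v = v)
  have h3 : F A ≤ F B := fun v a b c => a b (hBA c)
  have h4 := (card_mul_le (U ⊓ F B) (F A)).trans (Nat.mul_le_mul (Subgroup.card_le_of_le (sup_le inf_le_right h3))
    (Subgroup.card_le_of_le (inf_le_inf_right _ inf_le_left)))
  have h5 := hP B hBA
  rw [h1, h1] at h5
  rw [h2, h2]
  refine Nat.le_of_mul_le_mul_right ?_ (Nat.card_pos (α := F A))
  rw [mul_assoc, mul_right_comm (Nat.card A)]
  exact (Nat.mul_le_mul_left _ h4).trans ((mul_assoc _ _ _).ge.trans (Nat.mul_le_mul_right _ h5))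

end Cfsg.Agent.S3087
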