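import Mathlib
import Cfsg.Statements.S3153
import Cfsg.Agent.H22.Two

set_option autoImplicit false
open Cfsg

namespace Cfsg.Agent.S3153

open BG H22
open scoped commutatorElement

theorem eq_of_rank {G : Type*} [Group G] [Finite G] {K : Subgroup G} (hr : Cfsg.PRankLE 2 1 K) {t a : G}
    (ht : orderOf t = 2) (ha : orderOf a = 2) (h : t * a = a * t) (h1 : t ∈ K) (h2 : a ∈ K) : t = a := by
  by_contra hne
  exact ((four_isElem ht ha hne h).sub (sup_le (Subgroup.zpowers_le.2 h1) (Subgroup.zpowers_le.2 h2))).not_pRankLE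
    Nat.prime_two hr

theorem eq_of_rank_pg {G : Type*} [Group G] [Finite G] {K : Subgroup G} (hr : Cfsg.PRankLE 2 1 K) (hK : IsPGroup 2 K)
    {t a : G} (ht : orderOf t = 2) (ha : orderOf a = 2) (h1 : t ∈ K) (h2 : a ∈ K) : t = a := by
  obtain ⟨z, hz, hz1⟩ := exists_mem_ne_one (omega_center_ne_bot Nat.prime_two hK fun h => ne_one_of_two ht (by
    rw [h] at h1; exact h1))
  have h3 := (omega_center_elemAb 2 K).orderOf Nat.prime_two hz hz1
  have h4 := omega_center_le_cent 2 K hz
  have h5 := omega_center_le 2 K hz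
  rw [eq_of_rank hr ht h3 (h4 t h1) h1 h5, eq_of_rank hr ha h3 (h4 a h2) h2 h5]

/-- Let X be a finite group and P a standard subgroup of X whose centralizer has 2-rank at most 1 and whose centre has odd order. Let S be a Sylow 2-subgroup of N_X(P) and t an involution of S centralizing P. Suppose some element g of X normalizes S, does not lie in S, has its square in S, and conjugates t into P·C_X(P). Then P commutes elementwise with the largest normal odd-order subgroup O(X) of X; consequently every t-invariant 2-component of X containing P is quasisimple. -/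
theorem result {X : Type*} [Group X] [Finite X] (P : Subgroup X) (hP : Cfsg.IsStandardSubgroup P)
    (hr : Cfsg.PRankLE 2 1 ↥(Subgroup.centralizer (P : Set X))) (hZ : Odd (Nat.card ↥(Subgroup.center ↥P)))
    (S : Sylow 2 ↥(Subgroup.normalizer (P : Set X))) (t : X) (ht : orderOf t = 2) (htS : t ∈ (S : Subgroup ↥(Subgroup.normalizer (P : Set X))).map (Subgroup.normalizer (P : Set X)).subtype)
    (htP : t ∈ Subgroup.centralizer (P : Set X))
    (g : X) (hgN : ∀ s ∈ (S : Subgroup ↥(Subgroup.normalizer (P : Set X))).map (Subgroup.normalizer (P : Set X)).subtype, g * s * g⁻¹ ∈ (S : Subgroup ↥(Subgroup.normalizer (P : Set X))).map (Subgroup.normalizer (P : Set X)).subtype)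
    (hgS : g ∉ (S : Subgroup ↥(Subgroup.normalizer (P : Set X))).map (Subgroup.normalizer (P : Set X)).subtype) (hg2 : g ^ 2 ∈ (S : Subgroup ↥(Subgroup.normalizer (P : Set X))).map (Subgroup.normalizer (P : Set X)).subtype)
    (hgt : g * t * g⁻¹ ∈ P ⊔ Subgroup.centralizer (P : Set X)) :
    ⁅P, Cfsg.oddCore X⁆ = ⊥ ∧
      ∀ L : Subgroup X, Cfsg.IsPComponent 2 L → P ≤ L → (∀ l ∈ L, t * l * t⁻¹ ∈ L) → Cfsg.IsQuasisimple ↥L := by
  set T := (S : Subgroup ↥(Subgroup.normalizer (P : Set X))).map (Subgroup.normalizer (P : Set X)).subtype with hT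
  have hS : IsSylowIn 2 T N_(P) := isSylowIn_map Nat.prime_two S
  have hTp := hS.pg Nat.prime_two
  have hg : g ∈ N_(T) := Subgroup.mem_normalizer_fintype hgN
  have htZ : t ∈ C_(T) := fun x hx => by
    have h1 : x * t * x⁻¹ ∈ T ⊓ C_(P) := Subgroup.mem_inf.2 ⟨mul_mem (mul_mem hx htS) (inv_mem hx),
      cj_of_mem_norm (norm_le_norm_cent P (hS.le hx)) ▸ conj_mem_cj x htP⟩
    have := eq_of_rank_pg (pRankLE_of_le hr inf_le_right) (hTp.to_le inf_le_left) ht
      (((MulAut.conj x).orderOf_eq t).trans ht) ⟨htS, htP⟩ h1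
    exact (mul_inv_eq_iff_eq_mul.1 this.symm)
  set s := g * t * g⁻¹ with hs
  have hs2 : orderOf s = 2 := ((MulAut.conj g).orderOf_eq t).trans ht
  have hsT : s ∈ T := hgN t htS
  have hts : t * s = s * t := (htZ s hsT).symm
  have hne : t ≠ s := fun h => by
    have h1 : g ∈ N_(P) := std_cent_le hP ht htP (mem_cent1.2 (mul_inv_eq_iff_eq_mul.1 h.symm))
    obtain ⟨k, hk⟩ := hTp ⟨g ^ 2, hg2⟩
    have h2 : g ^ 2 ^ (k + 1) = 1 := by rw [pow_succ', pow_mul]; exact congrArg Subtype.val hk
    exact hgS (hS.le_of_norm_pg' Nat.prime_two (pg_zpowers h2) (Subgroup.zpowers_le.2 h1) (Subgroup.zpowers_le.2 hg)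
      (Subgroup.mem_zpowers g))
  have hsP : s ∉ C_(P) := fun h => hne (eq_of_rank hr ht hs2 hts htP h)
  have hsN : s ∈ N_(P) := hS.le hsT
  have hcs : C_(P) ⊓ C_[t] ≤ C_[s] := by
    obtain ⟨a, ha, c, hc, hac⟩ := (mem_sup_norm (cent_le_norm P)).1 hgt
    set m := Nat.card (Subgroup.center P)
    have hcm : Commute a c := hc a ha
    have h1 : a ^ 2 * c ^ 2 = 1 := by rw [← hcm.mul_pow, hac, pow_two, mul_self_of_two hs2]
    have h2 : c ^ 2 ∈ P ⊓ C_(P) := Subgroup.mem_inf.2 ⟨by rw [eq_inv_of_mul_eq_one_right h1]; exact inv_mem (pow_mem ha 2), pow_mem hc 2⟩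
    have h3 : (c ^ 2) ^ m = 1 := by
      rw [← map_center_subtype] at h2
      refine orderOf_dvd_iff_pow_eq_one.1 ?_
      have := Subgroup.orderOf_dvd_natCard _ h2
      rwa [Subgroup.card_map_of_injective P.subtype_injective] at this
    have h4 : s = a ^ m * c ^ m := by
      obtain ⟨k, hk⟩ := hZ
      rw [← hcm.mul_pow, hac, hk, pow_succ, pow_mul, pow_two, mul_self_of_two hs2, one_pow, one_mul]
    have h5 : c ^ m * c ^ m = 1 := by rw [← pow_two, ← pow_mul, mul_comm, pow_mul, h3]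
    have h6 : t * c ^ m = c ^ m * t := by
      have h7 : Commute t (a ^ m) := (htP _ (pow_mem ha m)).symm
      have h8 : c ^ m = (a ^ m)⁻¹ * s := by rw [h4, inv_mul_cancel_left]
      rw [h8]; exact h7.inv_right.mul_right hts
    intro y hy
    have h9 : Commute y (c ^ m) := by
      by_cases h : c ^ m = 1
      · rw [h]; exact Commute.one_right y
      · rw [← eq_of_rank hr ht (two_of_mul_self h5 h) h6 htP (pow_mem hc m)]; exact mem_cent1.1 hy.2
    rw [mem_cent1, h4]
    exact (Commute.mul_right (hy.1 _ (pow_mem ha m)).symm h9)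
  have hO := H02.not_dvd_card_pPrimeCore (G := X) Nat.prime_two
  have hns : ¬ Group.IsSolvable P := qs_not_solvable hP.1
  have h1 : Cfsg.oddCore X ⊓ C_[t] ≤ C_(P) :=
    (qs_le_or_cent hP.1 (norm_inf (le_normalizer_of_normal' _ _) (norm_of_le (le_cent1_iff.2 htP)))
      (inf_le_right.trans (std_cent_le hP ht htP))).resolve_left fun h =>
      hO ((two_dvd_of_not_sol hns).trans (card_dvd (h.trans inf_le_left)))
  have h2 : Cfsg.oddCore X ⊓ C_[t] = Cfsg.oddCore X ⊓ C_[s] := by
    refine eq_of_le_of_card_eq (le_inf inf_le_left ((le_inf h1 inf_le_right).trans hcs)) ?_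
    rw [hs, ← cj_cent1, ← (conjg_cj g _).card_eq, cj_inf, cj_of_mem_norm (le_normalizer_of_normal' _ ⊤ trivial)]
  have h3 : Cfsg.oddCore X ⊓ C_[t] ≤ C_[t * s] := fun x hx => mem_cent1.2 (by
    rw [← mul_assoc, mem_cent1.1 hx.2, mul_assoc, mem_cent1.1 (h2.le hx).2, mul_assoc t s x])
  have h4 : Cfsg.oddCore X ≤ C_[t * s] := gen_four ht hs2 hne hts (le_normalizer_of_normal' _ ⊤ trivial)
    (le_normalizer_of_normal' _ ⊤ trivial) hO h3 (h2 ▸ h3) inf_le_right
  have h5 : P ≤ C_(Cfsg.oddCore X) := by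
    refine (qs_le_or hP.1 (le_normalizer_of_normal' _ _)).resolve_right fun h => hsP ?_
    have h6 : ⁅P, Subgroup.zpowers (t * s)⁆ ≤ C_(P) := le_trans (le_inf
      (comm_le_left (Subgroup.zpowers_le.2 (mul_mem (cent_le_norm P htP) hsN)))
      ((comm_mono le_rfl (Subgroup.zpowers_le.2 (le_cent1_iff.1 h4))).trans
        (comm_le_right (le_normalizer_of_normal' _ _)))) h
    have h7 := der_le_cent_of_comm h6
    rw [qs_perfect' hP.1, cent_comm] at h7
    have := mul_mem (inv_mem htP) (h7 (Subgroup.mem_zpowers _))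
    rwa [inv_mul_cancel_left] at this
  refine ⟨comm_eq_bot.2 h5, fun L hL hPL _ => pcomp_qs_of_cent hL
    ((pcomp_le_or_comm_of_normalizes hL (le_normalizer_of_normal' _ _)).resolve_right fun h => ?_)⟩
  exact hO ((two_dvd_of_not_sol hns).trans (card_dvd ((qs_perfect' hP.1).ge.trans ((comm_mono hPL h5).trans h))))

end Cfsg.Agent.S3153
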