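import Mathlib
import Cfsg.Statements.S3154
import Cfsg.Agent.H17.L34b

set_option autoImplicit false
open Cfsg

namespace Cfsg.Agent.S3154

/-- Let X be a finite quasisimple group whose centre is an elementary abelian 2-group and whose central quotient is isomorphic to the projective special linear group of dimension 3 over the field with 4 elements. Let T be a Sylow 2-subgroup of X and H ≠ K subgroups of T containing the centre Z(X) whose images in X/Z(X) are elementary abelian of order 16 (the two such subgroups of a Sylow 2-subgroup of the quotient). Then H and K are elementary abelian, H ∩ K is the centre of the subgroup they generate, and each of N_X(H), N_X(K) is a split extension of H, respectively K, by the projective special linear group of dimension 2 over the field with 4 elements (there is a complement isomorphic to that group). -/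
theorem result {X : Type*} [Group X] [Finite X] (hq : Cfsg.IsQuasisimple X) (hZ : Cfsg.IsElementaryAbelian 2 (Subgroup.center X))
    {F : Type*} [Field F] [Fintype F] (hF : Fintype.card F = 4) (hXL : Nonempty ((X ⧸ Subgroup.center X) ≃* Matrix.ProjectiveSpecialLinearGroup (Fin 3) F))
    (T : Sylow 2 X) (H K : Subgroup X) (hHK : H ≠ K) (hHT : H ≤ T) (hKT : K ≤ T) (hZH : Subgroup.center X ≤ H) (hZK : Subgroup.center X ≤ K)
    (hH : Cfsg.IsElementaryAbelian 2 (H.map (QuotientGroup.mk' (Subgroup.center X))) ∧ Nat.card ↥(H.map (QuotientGroup.mk' (Subgroup.center X))) = 16)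
    (hK : Cfsg.IsElementaryAbelian 2 (K.map (QuotientGroup.mk' (Subgroup.center X))) ∧ Nat.card ↥(K.map (QuotientGroup.mk' (Subgroup.center X))) = 16) :
    Cfsg.IsElementaryAbelian 2 H ∧ Cfsg.IsElementaryAbelian 2 K ∧
      H ⊓ K = (Subgroup.center ↥(H ⊔ K)).map (H ⊔ K).subtype ∧
      (∃ C : Subgroup X, C ≤ Subgroup.normalizer (H : Set X) ∧ C ⊓ H = ⊥ ∧ H ⊔ C = Subgroup.normalizer (H : Set X) ∧
        Nonempty (↥C ≃* Matrix.ProjectiveSpecialLinearGroup (Fin 2) F)) ∧
      (∃ C : Subgroup X, C ≤ Subgroup.normalizer (K : Set X) ∧ C ⊓ K = ⊥ ∧ K ⊔ C = Subgroup.normalizer (K : Set X) ∧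
        Nonempty (↥C ≃* Matrix.ProjectiveSpecialLinearGroup (Fin 2) F)) := by
  open Subgroup H17.L34 in
  have := Fact.mk Nat.prime_two
  obtain ⟨e⟩ := hXL
  obtain ⟨S, hS⟩ := exists_sylow hF
  have s0 : Function.Surjective (e.toMonoidHom.comp (QuotientGroup.mk' (center X))) :=
    e.surjective.comp (QuotientGroup.mk'_surjective _)
  obtain ⟨g, hg⟩ := MulAction.exists_smul_eq (Matrix.ProjectiveSpecialLinearGroup (Fin 3) F) (T.mapSurjective s0) S
  let φ := e.trans (MulAut.conj g)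
  let π := φ.toMonoidHom.comp (QuotientGroup.mk' (center X))
  have hπ : Function.Surjective π := φ.surjective.comp (QuotientGroup.mk'_surjective _)
  have hk : π.ker = center X := by ext x; simp [π]
  have hT : (T : Subgroup X).map π = ψ.range := by
    rw [← hS, ← hg, Sylow.coe_subgroup_smul, Sylow.coe_mapSurjective, pointwise_smul_def]
    exact (map_map (T : Subgroup X) (MulAut.conj g).toMonoidHom (e.toMonoidHom.comp (QuotientGroup.mk' _))).symm
  have hT' : (T : Subgroup X) = ψ.range.comap π := by rw [← hT, comap_map_eq_self (hk ▸ hZH.trans hHT)]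
  have k : ∀ H : Subgroup X, H ≤ T → center X ≤ H → Cfsg.IsElementaryAbelian 2 (H.map (QuotientGroup.mk' (center X))) ∧
      Nat.card (H.map (QuotientGroup.mk' (center X))) = 16 → ∃ U : Subgroup (Hs F), (U = E1 F ∨ U = E2 F) ∧
        H = (U.map ψ).comap π ∧ Cfsg.IsElementaryAbelian 2 H := fun H h1 h2 h3 => by
    have e1 : ((H.map π).comap ψ).map ψ = H.map π := map_comap_eq_self (hT ▸ map_mono h1)
    have e2 : Cfsg.IsElementaryAbelian 2 (H.map π) := by
      have := h3.1.1
      rw [← map_map]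
      refine ⟨inferInstance, ?_⟩
      rintro _ ⟨x, hx, rfl⟩
      rw [← map_pow, h3.1.2 x hx, map_one]
    have e3 : Nat.card (H.map π) = 16 := by rw [← map_map, card_map_of_injective φ.injective, h3.2]
    have := e2.1
    have e4 := eq_E hF (U := (H.map π).comap ψ) ⟨comap_injective_isMulCommutative _ (ψ_inj hF), fun x hx =>
      ψ_inj hF (by rw [map_pow, e2.2 _ hx, map_one])⟩ (by rw [← card_map_of_injective (ψ_inj hF), e1, e3])
    have e5 : H = (H.map π).comap π := (comap_map_eq_self (hk ▸ h2)).symm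
    refine ⟨_, e4, by rw [e1]; exact e5, e5 ▸ lift_elem hπ hk hZ (S := Matrix.SpecialLinearGroup (Fin 2) F) ?_ e2 e3⟩
    rw [← e1]
    rcases e4 with e | e <;> rw [e]
    exacts [dt1 hF, dt2 hF]
  obtain ⟨f⟩ := H19.nonempty_sl_equiv_psl_of_even (F := F) (by rw [hF]; decide)
  have main : ∀ U V : Subgroup (Hs F), (U.Normal ∧ U ⊔ V = ⊤ ∧ ∀ x : Hs F, (∀ u ∈ U, x * u = u * x) → x ∈ U) →
      Dt (Matrix.SpecialLinearGroup (Fin 2) F) (U.map ψ) → ∀ H K : Subgroup X, H = (U.map ψ).comap π →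
      K = (V.map ψ).comap π → Cfsg.IsElementaryAbelian 2 H → Cfsg.IsElementaryAbelian 2 K →
      (center ↥(H ⊔ K)).map (H ⊔ K).subtype ≤ H ∧ ∃ C : Subgroup X, C ≤ normalizer (H : Set X) ∧ C ⊓ H = ⊥ ∧
        H ⊔ C = normalizer (H : Set X) ∧ Nonempty (C ≃* Matrix.ProjectiveSpecialLinearGroup (Fin 2) F) := by
    rintro U V ⟨h1, h2, h3⟩ hD H K hH hK eH eK
    have e1 : H ⊔ K = T := by
      rw [hH, hK, comap_sup_eq _ _ _ hπ, ← Subgroup.map_sup, h2, hT', MonoidHom.range_eq_map]
    constructor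
    · rintro _ ⟨⟨x, hx⟩, hc, rfl⟩
      obtain ⟨y, hy⟩ : π x ∈ ψ.range := hT'.le (e1.le hx)
      refine hH.ge ⟨y, h3 y fun u hu => ψ_inj hF ?_, hy⟩
      obtain ⟨w, hw⟩ := hπ (ψ u)
      have := congrArg (fun a : ↥(H ⊔ K) => π a) (mem_center_iff.1 hc ⟨w, mem_sup_left (hH.ge ⟨u, hu, hw.symm⟩)⟩)
      simpa [hy, ← hw] using this.symm
    · obtain ⟨C, c1, c2, c3, ⟨c4⟩⟩ := lift_split hπ hk hD hH eH eK T (by
        rw [hH, ← comap_normalizer_eq_of_surjective _ hπ, hT', MonoidHom.range_eq_map, ← normalizer_eq_top U]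
        exact comap_mono (le_normalizer_map ψ)) e1
      exact ⟨C, c1, c2, c3, ⟨c4.trans f⟩⟩
  obtain ⟨U, hU, e1, eH⟩ := k H hHT hZH hH
  obtain ⟨V, hV, e2, eK⟩ := k K hKT hZK hK
  have fin : ((center ↥(H ⊔ K)).map (H ⊔ K).subtype ≤ H ∧ ∃ C : Subgroup X, C ≤ normalizer (H : Set X) ∧ C ⊓ H = ⊥ ∧
        H ⊔ C = normalizer (H : Set X) ∧ Nonempty (C ≃* Matrix.ProjectiveSpecialLinearGroup (Fin 2) F)) ∧
      ((center ↥(K ⊔ H)).map (K ⊔ H).subtype ≤ K ∧ ∃ C : Subgroup X, C ≤ normalizer (K : Set X) ∧ C ⊓ K = ⊥ ∧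
        K ⊔ C = normalizer (K : Set X) ∧ Nonempty (C ≃* Matrix.ProjectiveSpecialLinearGroup (Fin 2) F)) := by
    rcases hU with rfl | rfl <;> rcases hV with rfl | rfl
    · exact absurd (e1.trans e2.symm) hHK
    · exact ⟨main _ _ good1 (dt1 hF) H K e1 e2 eH eK, main _ _ good2 (dt2 hF) K H e2 e1 eK eH⟩
    · exact ⟨main _ _ good2 (dt2 hF) H K e1 e2 eH eK, main _ _ good1 (dt1 hF) K H e2 e1 eK eH⟩
    · exact absurd (e1.trans e2.symm) hHK
  refine ⟨eH, eK, le_antisymm (fun x hx => ⟨⟨x, mem_sup_left hx.1⟩, mem_center_iff.2 fun y => Subtype.ext ?_, rfl⟩)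
    (le_inf fin.1.1 (sup_comm K H ▸ fin.2.1)), fin.1.2, fin.2.2⟩
  have := eH.1
  have := eK.1
  exact mem_centralizer_singleton_iff.1 (sup_le (a := H) (b := K) (c := centralizer {x})
    (fun a ha => mem_centralizer_singleton_iff.2 (congrArg Subtype.val (mul_comm' (⟨a, ha⟩ : H) ⟨x, hx.1⟩)))
    (fun a ha => mem_centralizer_singleton_iff.2 (congrArg Subtype.val (mul_comm' (⟨a, ha⟩ : K) ⟨x, hx.2⟩))) y.2)

end Cfsg.Agent.S3154
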