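import Cfsg.Statements.S3155
import Mathlib
-- import your own Cfsg.Agent.* helpers here

set_option autoImplicit false
open Cfsg

namespace Cfsg.Agent.S3155

open scoped Pointwise commutatorElement

theorem key (σ : (ZMod 4 × ZMod 4 × ZMod 4) →+ (ZMod 4 × ZMod 4 × ZMod 4)) (h : ∀ x, σ (σ x) = -x) : False := by
  let L : (ZMod 4 × ZMod 4 × ZMod 4) →ₗ[ZMod 4] (ZMod 4 × ZMod 4 × ZMod 4) := σ.toZModLinearMap 4
  have h1 : L ∘ₗ L = (-1 : ZMod 4) • LinearMap.id := by
    apply LinearMap.ext; intro x
    show σ (σ x) = (-1 : ZMod 4) • x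
    rw [h, neg_one_smul]
  have h2 := congrArg LinearMap.det h1
  haveI : Nontrivial (ZMod 4) := ⟨⟨0, 1, by decide⟩⟩
  rw [LinearMap.det_comp, LinearMap.det_smul, LinearMap.det_id] at h2
  simp only [Module.finrank_prod, Module.finrank_self] at h2
  generalize LinearMap.det L = d at h2
  revert d; decide

/-- Let B be the direct product of three cyclic groups of order 4. Then the automorphism of B inverting every element is not the square of any automorphism of B. -/
theorem result {B : Type*} [CommGroup B] [Finite B] (hB : Nonempty (B ≃* Multiplicative (ZMod 4 × ZMod 4 × ZMod 4)))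
    (τ : B ≃* B) : τ.trans τ ≠ MulEquiv.inv B := by
  obtain ⟨e⟩ := hB
  intro h
  apply key (MonoidHom.toAdditiveRight (MonoidHom.id _) |>.comp
    (MonoidHom.toAdditive (e.toMonoidHom.comp (τ.toMonoidHom.comp e.symm.toMonoidHom))) |>.comp
    (AddMonoidHom.toMultiplicativeRight.symm (MonoidHom.id _)))
  intro x
  have h1 : ∀ b : B, τ (τ b) = b⁻¹ := fun b => by
    have := DFunLike.congr_fun h b
    simpa using this
  show Multiplicative.toAdd (e (τ (e.symm (e (τ (e.symm (Multiplicative.ofAdd x))))))) = -x
  rw [e.symm_apply_apply, h1, map_inv, e.apply_symm_apply]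
  rfl

end Cfsg.Agent.S3155
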