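import Mathlib
import Cfsg.Statements.S3156
import Cfsg.Agent.H18.SU3Aut

set_option autoImplicit false
open scoped Pointwise
open Cfsg

namespace Cfsg.Agent.S3156

/-- If a finite group T is isomorphic to a Sylow 2-subgroup of the projective special unitary group of dimension 3 with parameter 4 (realised over the field with 16 elements), then no subgroup of the automorphism group of T is isomorphic to the symmetric group of degree 3. -/
theorem result {T : Type*} [Group T] [Finite T] (hT : (∃ (F : Type) (_ : Field F) (_ : Fintype F), Fintype.card F = 16 ∧ ∃ S : Sylow 2 (Cfsg.PSU 3 F 4), Nonempty (T ≃* ↥(S : Subgroup (Cfsg.PSU 3 F 4))))) (H : Subgroup (MulAut T)) : ¬ Nonempty (↥H ≃* Equiv.Perm (Fin 3)) := by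
  obtain ⟨F, _, _, hF, S, ⟨e0⟩⟩ := hT
  haveI : H18.U3.UF F (2 ^ 2) := ⟨hF⟩
  haveI : CharP F 2 := H18.U3.charTwo
  haveI : H18.U3.UF F 4 := ⟨hF⟩
  have e : T ≃* H18.U3.Q F 4 := e0.trans (H18.U3.sylow_PSU S).some
  rintro ⟨f⟩
  let g : Equiv.Perm (Fin 3) →* MulAut (H18.U3.Q F 4) :=
    (MulAut.congr e).toMonoidHom.comp (H.subtype.comp f.symm.toMonoidHom)
  have hg : Function.Injective g :=
    (MulAut.congr e).injective.comp (Subtype.val_injective.comp f.symm.injective)
  let s : Equiv.Perm (Fin 3) := Equiv.swap 0 1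
  let r : Equiv.Perm (Fin 3) := Equiv.swap 0 1 * Equiv.swap 1 2
  obtain ⟨k, σ, h⟩ := H18.U3.Q.aut_ind (g r)
  obtain ⟨l, τ, h'⟩ := H18.U3.Q.aut_ind (g s)
  have hc : Nat.card (F ≃+* F) = 4 := H18.card_ringEquiv (p := 2) hF
  have h3 : ∀ a, H18.U3.Q.ind (g r * (g r * g r)) a = a := fun a => by
    rw [← map_mul, ← map_mul, show r * (r * r) = 1 by decide, map_one, H18.U3.Q.ind_one]
  have h2 : ∀ a, H18.U3.Q.ind (g s * g s) a = a := fun a => by
    rw [← map_mul, show s * s = 1 by decide, map_one, H18.U3.Q.ind_one]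
  have h1 : ∀ a, H18.U3.Q.ind (g r * (g s * g r)) a = H18.U3.Q.ind (g s) a := fun a => by
    rw [← map_mul, ← map_mul, show r * (s * r) = s by decide]
  simp only [H18.U3.Q.ind_mul, h, h', map_mul] at h1 h2 h3
  have a3 : (k : F) * (σ k * σ (σ k)) = 1 := by simpa using h3 1
  have s3 : σ ^ 3 = 1 := by
    ext a
    have := h3 a
    change σ (σ (σ a)) = a
    linear_combination this - σ (σ (σ a)) * a3
  have s4 : σ ^ 4 = 1 := by rw [← hc]; exact pow_card_eq_one'
  have s1 : σ = 1 := by rw [pow_succ, s3, one_mul] at s4; exact s4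
  subst s1
  have k3 : (k : F) * (k * k) = 1 := a3
  have a2 : (l : F) * τ l = 1 := by simpa using h2 1
  have t2 : ∀ a, τ (τ a) = a := fun a => by
    have := h2 a
    rwa [← mul_assoc, a2, one_mul] at this
  have tk : τ k = k := by
    by_cases hσ : (τ : F →+* F) = RingHom.id F
    · exact DFunLike.congr_fun hσ (k : F)
    · obtain ⟨q', h5, h6⟩ := H10.exists_q_of_involutive hσ t2
      have : q' = 4 := Nat.pow_left_injective two_ne_zero (h5.symm.trans H18.U3.ncard)
      subst this
      refine (h6 k).trans ?_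
      linear_combination k * k3
  have a1 : (k : F) * (l * k) = l := by
    have := h1 1
    simp only [map_one, mul_one] at this
    change (k : F) * (l * τ k) = l at this
    rwa [tk] at this
  have k1 : (k : F) = 1 := by
    have : (k : F) * k = 1 := mul_left_cancel₀ l.ne_zero (by linear_combination a1)
    rw [this, mul_one] at k3; exact k3
  have hm : g r ∈ Cfsg.pCore 2 (MulAut (H18.U3.Q F 4)) := by
    rw [H18.U3.Q.pCore_aut]
    ext a
    simpa [k1] using h a
  obtain ⟨m, hm⟩ := H02.pCore_isPGroup 2 _ ⟨_, hm⟩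
  have hm : g r ^ 2 ^ m = 1 := congrArg Subtype.val hm
  rw [← map_pow, map_eq_one_iff g hg, ← orderOf_dvd_iff_pow_eq_one,
    orderOf_eq_prime (p := 3) (by decide) (by decide)] at hm
  exact absurd (Nat.prime_three.dvd_of_dvd_pow hm) (by decide)

end Cfsg.Agent.S3156
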