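import Mathlib
import Cfsg.Statements.S3162
import Cfsg.Agent.H18.SU3Aut

set_option autoImplicit false
open scoped Pointwise
open Cfsg

namespace Cfsg.Agent.S3162

/-- Let S be a Sylow 2-subgroup of the special unitary group of dimension 3 with parameter q = 2^n (n ≥ 2; realised over the field with q² elements). Then the largest normal 2-subgroup of the automorphism group of S is elementary abelian of order 2^(2n²), and the automorphism group has order 2^(2n²) · 2n(q² − 1). -/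
theorem result {S : Type*} [Group S] [Finite S] (n : ℕ) (hn : 2 ≤ n) {F : Type*} [Field F] [Fintype F] (hF : Fintype.card F = 4 ^ n)
    (P : Sylow 2 ↥(Cfsg.SU 3 F (2 ^ n))) (hS : Nonempty (S ≃* ↥(P : Subgroup ↥(Cfsg.SU 3 F (2 ^ n))))) :
    Cfsg.IsElementaryAbelian 2 (Cfsg.pCore 2 (MulAut S)) ∧ Nat.card ↥(Cfsg.pCore 2 (MulAut S)) = 2 ^ (2 * n ^ 2) ∧
      Nat.card (MulAut S) = 2 ^ (2 * n ^ 2) * (2 * n * ((2 ^ n) ^ 2 - 1)) := by
  haveI : H18.U3.UF F (2 ^ n) := ⟨by rw [hF, ← pow_mul, mul_comm, pow_mul]; rfl⟩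
  haveI : CharP F 2 := H18.U3.charTwo
  have e : S ≃* H18.U3.Q F (2 ^ n) := hS.some.trans (H18.U3.sylow_SU P).some
  have e' := (MulAut.congr e).symm
  have hF' : Fintype.card F = 2 ^ (2 * n) := by rw [hF, pow_mul]; rfl
  have hc : Nat.card (H18.U3.Q.indHom (F := F)).ker = 2 ^ (2 * n ^ 2) := by
    rw [← H18.U3.Q.range_cenHom,
      ← Nat.card_congr (MonoidHom.ofInjective H18.U3.Q.cenHom_inj).toEquiv]
    change Nat.card (F →+ H18.U3.Q.K0 F (2 ^ n)) = _
    rw [H18.card_addMonoidHom (p := 2) (m := 2 * n) (fun a => by rw [two_nsmul, CharTwo.add_self_eq_zero])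
      (fun a => Subtype.ext (by simp [two_nsmul, CharTwo.add_self_eq_zero]))
      (by rw [Nat.card_eq_fintype_card, hF']), H18.U3.Q.card_K0, ← pow_mul]
    congr 1; ring
  rw [← H02.pCore_map_equiv e', H18.U3.Q.pCore_aut]
  refine ⟨?_, ?_, ?_⟩
  · rw [← H18.U3.Q.range_cenHom]
    constructor
    · refine ⟨⟨?_⟩⟩
      rintro ⟨_, _, ⟨f, rfl⟩, rfl⟩ ⟨_, _, ⟨g, rfl⟩, rfl⟩
      apply Subtype.ext
      simp only [Subgroup.coe_mul, ← map_mul, mul_comm f g]
    · rintro _ ⟨_, ⟨f, rfl⟩, rfl⟩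
      rw [← map_pow, ← map_pow]
      have : f ^ 2 = 1 := by
        apply Multiplicative.toAdd.injective
        ext a
        simp [two_nsmul, CharTwo.add_self_eq_zero]
      rw [this, map_one, map_one]
  · rw [Subgroup.card_map_of_injective e'.injective, hc]
  · rw [← Nat.card_congr e'.toEquiv, ← Subgroup.card_mul_index (H18.U3.Q.indHom (F := F)).ker, hc,
      Subgroup.index_ker, H18.U3.Q.card_range_indHom, H18.card_ringEquiv hF', Nat.card_units,
      H18.U3.ncard]
    ring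

end Cfsg.Agent.S3162
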