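import Mathlib
import Cfsg.Statements.S3171
import Cfsg.Agent.H14.Over
import Cfsg.Agent.H14.PK4
import Cfsg.Agent.H04.Basic

set_option autoImplicit false
open Cfsg

namespace Cfsg.Agent.S3171

open H14 PK PK.TS Finset MulAction
open scoped Pointwise

def hPs : List (ℕ × ℕ) := [(nat_lit 0x83649719e89c681ab2c512ee750064, nat_lit 0x6d8f1cb52ae79034), (nat_lit 0xac2e54b9b65ca2a7b2662228708062, nat_lit 0x5cae9db648f71032), (nat_lit 0x7b56929a11ba2c1a8e8e14a6051d84, nat_lit 0x6dea1c352f8097b4), (nat_lit 0x75ab2850a89c5a0588cf1a6e161147, nat_lit 0xf58c0a2d36e1b497), (nat_lit 0x8adb2452ef816acb28d33a5c418820, nat_lit 0xfedcba9876543210)]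
def hC1 : List (List ℕ) × Ch := ([[], [1, 2], [4, 2], [3, 3, 6], [2, 1], [2, 1, 3, 2, 1, 3], [2, 0], [2, 3], [4, 3], [3, 4], [5, 14], [7, 3], [7, 3], [9, 3], [10, 3], [10, 3], [11, 2], [12, 2], [14, 16], [17, 0], [23, 20], [24, 24], [24, 1], [26, 2]], [(0, [nat_lit 0xbdab49ca307b9ac5a928398a418820, nat_lit 0x83649719e89c681ab2c512ee750064, nat_lit 0xac2e54b9b65ca2a7b2662228708062, nat_lit 0x75ab2850a89c5a0588cf1a6e161147, nat_lit 0x436868a66f8164aa82d722dc311d81, nat_lit 0x8dab444aef815a759133619ca00443, nat_lit 0x75932850b78ccc3591af0550a3882c, nat_lit 0x7b64929a1345e82a9ece0ae2c20c0a]),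
  (1, [nat_lit 0xbdab49ca307b9ac5a928398a418820, nat_lit 0x92217b468da99ec985cb3952219140, nat_lit 0xb3aefa41693362728672622a21a880, nat_lit 0x41a55bb66e2be874aad162e0418440]),
  (5, [nat_lit 0xbdab49ca307b9ac5a928398a418820, nat_lit 0x7d0cb2da178cd27912ae6350a18820, nat_lit 0xa20b75c6464b5cc9a9f63c2a418820, nat_lit 0x835662a5f78a2ccaaa4e3d26418820, nat_lit 0x8adb2452ef816acb28d33a5c418820, nat_lit 0x4de13aa0d492de7890ad63aca18820, nat_lit 0x5b90f942cdaa6672923465cca18820, nat_lit 0x33a70abd349590c2aa2d3dd6418820, nat_lit 0x94dd1b5e89354ac42a0b3bda418820, nat_lit 0xabee5339abb4a2c829093ce8418820, nat_lit 0x9b6c98990e2bd67a92576520a18820, nat_lit 0x6ccb7346abb51c74120963e4a18820, nat_lit 0xb1670a3d7569907712f26452a18820, nat_lit 0x2a695835d34464c32acf3aee418820, nat_lit 0x72eb4848b345da7b10cf6262a18820, nat_lit 0x45566ba665742c769291649ea18820]),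
  (4, [nat_lit 0xbdab49ca307b9ac5a928398a418820, nat_lit 0xba64d4562f83a87312d362caa18820])])
def hC2 : List (List ℕ) × Ch := ([[0, 1], [3, 1], [2, 2, 5], [2, 1], [2, 1, 3, 2, 1, 3], [0, 2], [2, 3], [4, 3], [5, 1], [5, 1], [6, 1], [8, 10], [11, 0], [16, 13], [17, 17], [17, 1], [19, 2]], [(0, [nat_lit 0xfedcba9876543210, nat_lit 0x6d8f1cb52ae79034, nat_lit 0x5cae9db648f71032, nat_lit 0xf58c0a2d36e1b497, nat_lit 0x68df9c0e4a5327b1, nat_lit 0xfedc7a48b6590123, nat_lit 0xf5e63a4d0c89721b, nat_lit 0x6d8f2c751aeb4309]),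
  (1, [nat_lit 0xfedcba9876543210, nat_lit 0xefcdb81a75623490, nat_lit 0xda6e751fb8c23940, nat_lit 0xc85f769ebad43120]),
  (5, [nat_lit 0xfedcba9876543210, nat_lit 0xade67f45bc893210, nat_lit 0xef65b89a7dc43210, nat_lit 0x86fd7e4cb5a93210, nat_lit 0xdac8754fbe693210, nat_lit 0x5caebd9678f43210, nat_lit 0x685a7c4ebfd93210, nat_lit 0xc58fb69d7ae43210]),
  (4, [nat_lit 0xfedcba9876543210, nat_lit 0xcedf7648ba593210])])
def hC : List (List ℕ) × Ch × List (List ℕ × ℕ) := ([[0, 1], [3, 1], [2, 2, 5], [2, 1], [2, 1, 3, 2, 1, 3], [2, 0]], [(0, [nat_lit 0x9e69648e28607de75c6da6585d65544d24503ce34c2ca2481c61440c2040, nat_lit 0x7a58276648dd6a299f8586dc40d4893863c84d150154c58508b5c72800c4, nat_lit 0x7648a68658de7209df6586da5505c524e3562d244a3cc4c61085070400c2, nat_lit 0x9dd8246226a56de9998dc85f3965524141484d13402c218f0c95c1304287, nat_lit 0x7a096786462672275b69f8d920d5064494cf40548a54059710b383087301, nat_lit 0x92676265e7e06a79637186e15c95954cd44e1502c11875080923cc1000ca,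 nat_lit 0x9e69647e27208de76161969b4565542125cf4053472c425330638a001083, nat_lit 0x8a075e6276a66e49597e17234d41965cb20e1502404823510d53c11ca10c]),
  (1, [nat_lit 0x9e69648e28607de75c6da6585d65544d24503ce34c2ca2481c61440c2040, nat_lit 0x9a79258e06627dd79a6dc85848841759150d5463cc4c138b1c52420c4280, nat_lit 0x9627a67dd6678e091a6e171858e5cf5102c918d4471414d23085420ca100, nat_lit 0x9207677de8668e295c6d96982064955cd4ce14f50724a59130b4040c1080]),
  (5, [nat_lit 0x9e69648e28607de75c6da6585d65544d24503ce34c2ca2481c61440c2040, nat_lit 0x8a599e7e771d8e48216da6583d418b15641745324748454e30d20a0c2040, nat_lit 0x9a779d8e08627e591c6da6585081572d148624d38c4ca3d61d05440c2040, nat_lit 0x7a59a28e485d7e781c6da65840d2c61493d744858c54a48e1d44c40c2040, nat_lit 0x9e69648e28607de75c6da65844b3522145cf40554c58a1931c93840c2040, nat_lit 0x81e9e57e67248dd8a16da65825741354819448b3c744414d30e58a0c2040, nat_lit 0x9629207dd7278e67a16da6582ce20f49058d5494c714445431718a0c2040,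 nat_lit 0x95e9e08dd8647e689c6da65818e4d054f25449620c14a44d1d72c40c2040, nat_lit 0x9a489d7e071e8e59e16da65835315719154b59438720440930f48a0c2040, nat_lit 0x9a779d8e08627e591c6da65849339159750919514c20a40b1cf3440c2040, nat_lit 0x7648a68e585e7e09dc6da65854f5c518e34b59244c40a2091d35040c2040, nat_lit 0x8229258e68677dd79c6da6585973c84932cd54640c44a1541ce2440c2040, nat_lit 0x7a07627e47268e79616da6584cd58944620e14f2c754449731440a0c2040, nat_lit 0x9dd8247e27258de9a16da65838b55441215321734758418f30944a0c2040, nat_lit 0x91d8278de8657e299c6da65814951540d39321148c18a58f1cb5c40c2040, nat_lit 0x8a075e8e78667e495c6da65821425644b4ce15018c48a5571cd3c40c2040]),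
  (4, [nat_lit 0x9e69648e28607de75c6da6585d65544d24503ce34c2ca2481c61440c2040, nat_lit 0x9269677de7208e27616da6585c948d21544f40e50718459330b14a0c2040])], [([nat_lit 0x7a58276648dd6a299f8586dc40d4893863c84d150154c58508b5c72800c4, nat_lit 0x7648a68658de7209df6586da5505c524e3562d244a3cc4c61085070400c2, nat_lit 0x7a59a26646dd6a781885f8dc3cd2c91464115c858154350e0924c0287304, nat_lit 0x9dd8246226a56de9998dc85f3965524141484d13402c218f0c95c1304287, nat_lit 0x9e69648e28607de75c6da65844b3522145cf40554c58a1931c93840c2040], nat_lit 0x30007000200030003000700020003000200030001000100000000ffffffff),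
  ([nat_lit 0x9a79258e06627dd79a6dc85848841759150d5463cc4c138b1c52420c4280, nat_lit 0x9e675e8e26607e495a6dc8584561942125ce15024c2c13531d53c20c4280], nat_lit 0x200000000ffffffff),
  ([nat_lit 0x8a599e7e771d8e48216da6583d418b15641745324748454e30d20a0c2040, nat_lit 0x9a779d8e08627e591c6da6585081572d148624d38c4ca3d61d05440c2040, nat_lit 0x7a59a28e485d7e781c6da65840d2c61493d744858c54a48e1d44c40c2040], nat_lit 0x300010003000100040001000500010005000300040000000400010005000300040002000300000003000100020000000200020001000100000000ffffffff),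
  ([nat_lit 0x9269677de7208e27616da6585c948d21544f40e50718459330b14a0c2040], nat_lit 0xffffffff)])
def B : List ℕ := [nat_lit 0x6d8f1cb52ae79034, nat_lit 0x5cae9db648f71032, nat_lit 0x6dea1c352f8097b4, nat_lit 0xf58c0a2d36e1b497]

def sCh : Ch := [(0, [nat_lit 0xfedcba9876543210, nat_lit 0x6d8f1cb52ae79034, nat_lit 0x5cae9db648f71032, nat_lit 0xf58c0a2d36e1b497, nat_lit 0x68df9c0e4a5327b1, nat_lit 0xfedc7a48b6590123, nat_lit 0xf5e63a4d0c89721b, nat_lit 0x6d8f2c751aeb4309]),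
  (1, [nat_lit 0xfedcba9876543210, nat_lit 0xfe56ba187cd23490, nat_lit 0xad8c7f15b6e23940, nat_lit 0xa5867f9dbce43120]),
  (5, [nat_lit 0xfedcba9876543210, nat_lit 0xade67f45bc893210, nat_lit 0xef65b89a7dc43210, nat_lit 0x86fd7e4cb5a93210, nat_lit 0xdac8754fbe693210, nat_lit 0x5caebd9678f43210, nat_lit 0x685a7c4ebfd93210, nat_lit 0xc58fb69d7ae43210]),
  (4, [nat_lit 0xfedcba9876543210, nat_lit 0xcedf7648ba593210])]

def aG : List ℕ := [nat_lit 0x5cae1d3628f097b4, nat_lit 0x6dea7c45bf890123, nat_lit 0x5cae3d1608f2b497, nat_lit 0xef65183a2dc097b4, nat_lit 0xfedc7a48b6590123, nat_lit 0xa8561f3e2cd097b4]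

def aCh : Ch := [(0, [nat_lit 0xfedcba9876543210, nat_lit 0x5cae1d3628f097b4, nat_lit 0x6dea7c45bf890123, nat_lit 0x5cae3d1608f2b497, nat_lit 0x8acd2e0f15634b79, nat_lit 0xfedc9ab846571032, nat_lit 0x8acd0e2f3561794b, nat_lit 0x6dea4c759f8b2301]),
  (5, [nat_lit 0xfedcba9876543210, nat_lit 0xd6f8b59c7ea43210, nat_lit 0x6deabc957f843210, nat_lit 0xc58fb69d7ae43210, nat_lit 0xef65b89a7dc43210, nat_lit 0x8acdbe9f75643210, nat_lit 0xa856bf9e7cd43210, nat_lit 0x5caebd9678f43210])]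

/-- coset representatives -/
def r (i : Fin 8) : ℕ := [nat_lit 0xfedcba9876543210, nat_lit 0xcedf7648ba593210, nat_lit 0xefcdb81a75623490, nat_lit 0xdfce752ab8613490, nat_lit 0xda6e751fb8c23940, nat_lit 0xea6db82f75c13940, nat_lit 0xc85f769ebad43120, nat_lit 0xf85cba4e76d93120].getD i 0

def W : List (List ℕ) := [[0], [1], [2], [3], [0, 0], [0, 1], [0, 2], [0, 3], [1, 0], [1, 1], [1, 2], [1, 3], [2, 0], [2, 1], [2, 2], [2, 3], [3, 0], [3, 1], [3, 2], [3, 3], [1, 0, 1], [2, 0, 2], [3, 0, 3], [0, 1, 0], [2, 1, 2], [3, 1, 3], [0, 2, 0], [1, 2, 1], [3, 2, 3], [0, 3, 0], [1, 3, 1], [2, 3, 2]]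

section

variable {G : Type*} [Group G] {S : TS G 4 16}

theorem tw_par {M : Subgroup G} (h2 : M.index = 2) {Ls : List ℕ} (h : ∀ t ∈ Ls, S.In ⊤ t) (μ : ℕ → Bool)
    (hμ : ∀ a, S.el (nd (H13.idv 4 16) Ls a) ∈ M ↔ μ a = false) (u : List ℕ)
    (e : u.foldl (fun b a => xor b (μ a)) false = false) : S.In M (tw 4 16 Ls u) := by
  have key : ∀ x b, S.In ⊤ x → (S.el x ∈ M ↔ b = false) → u.foldl (fun b a => xor b (μ a)) b = false →
      S.In M (List.rec (motive := fun _ => ℕ → ℕ) (fun x => x)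
        (fun a _ ih x => H13.force (tm 4 16 x (nd (H13.idv 4 16) Ls a)) ih) u x) := by
    clear e
    induction u with
    | nil => exact fun x b hx c d => hx.of_el (c.2 d)
    | cons a v ih =>
      refine fun x b hx c d => ih _ (xor b (μ a)) (hx.mul (nd_prop In.one h a)) ?_ d
      rw [hx.el_tm (nd_prop In.one h a), Subgroup.mul_mem_iff_of_index_two h2, c, hμ]
      cases b <;> cases μ a <;> simp
  exact key _ _ In.one (by simp [el_idv]) e

variable (hB : ∀ t ∈ B, S.In ⊤ t) (hG : Nat.card G = 512)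
include hB hG

theorem s_full : S.Full ⊤ sCh := full_of_gen (pr := [[], [3, 1], [2, 3], [3, 3, 6], [1, 2], [2, 1, 3, 2, 1, 3], [0, 2], [2, 3], [4, 3], [5, 1], [5, 1], [6, 1], [8, 10], [11, 0], [17, 14], [18, 18], [18, 1], [20, 2]]) (Subgroup.card_top.trans hG) hB (by decide +kernel)

theorem inS {L : List ℕ} {pr : List (List ℕ)} (e : slpOk 4 16 L pr (chT sCh) = true) : ∀ t ∈ L, S.In ⊤ t :=
  In.slp e fun t ht => by obtain ⟨l, a, b⟩ := mem_chT.1 ht; exact (s_full hB hG).mem l a t b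

theorem inA : ∀ t ∈ aG, S.In ⊤ t := inS hB hG (pr := [[1, 9, 16, 21], [6, 14, 22], [5, 19, 23], [4, 12, 18, 24], [9], [6, 14, 24]]) (by decide +kernel)

theorem inR (i : Fin 8) : S.In ⊤ (r i) := inS hB hG (L := List.ofFn r) (pr := [[], [22], [11, 16], [12, 17, 24], [14, 18], [15, 19, 26], [17, 19, 27], [18, 20]]) (by decide +kernel) _
  (List.mem_ofFn.2 ⟨i, rfl⟩)

theorem a_full : S.Full (S.cl aG) aCh := full_of_ss (pr := [[0, 5], [2, 5], [5, 2]]) (sl := [([nat_lit 0x5cae1d3628f097b4, nat_lit 0x6dea7c45bf890123, nat_lit 0x5cae3d1608f2b497, nat_lit 0xef65183a2dc097b4, nat_lit 0xfedc7a48b6590123, nat_lit 0xa8561f3e2cd097b4], nat_lit 0x20002000300020003000200020001000200020001000100000000ffffffff),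
  ([nat_lit 0xd6f8b59c7ea43210, nat_lit 0x6deabc957f843210, nat_lit 0xc58fb69d7ae43210], nat_lit 0x20002000300020003000200020001000200020001000100000000ffffffff)]) (inA hB hG) (by decide +kernel)

theorem a_comm : IsMulCommutative (S.cl aG) := Subgroup.isMulCommutative_closure (by
  rintro _ ⟨s, hs, rfl⟩ _ ⟨t, ht, rfl⟩
  rw [← (inA hB hG s hs).el_tm (inA hB hG t ht), ← (inA hB hG t ht).el_tm (inA hB hG s hs),
    (by decide +kernel : ∀ s ∈ aG, ∀ t ∈ aG, tm 4 16 s t = tm 4 16 t s) s hs t ht])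

theorem cnt {K : Subgroup G} {ch : Ch} (h : S.Full K ch) {L : List ℕ} (hL : ∀ t ∈ L, S.In ⊤ t) :
    {x | x ∈ K ∧ ∀ t ∈ L, x * S.el t = S.el t * x}.ncard = esum 4 16 (fun _ _ _ _ => false)
      (fun f => Bool.rec (nat_lit 0) (nat_lit 1) (H13.allL (fun t => trF 4 [0, 1, 5, 4] t t f) L)) ch 0 (H13.idv 4 16) (H13.idv 4 16) :=
  h.count (fun _ _ _ _ _ _ c => by cases c) (fun x f hf => by
    rw [H13.allL_iff]
    exact forall₂_congr fun t ht => by
      rw [← trF_iff (s_full hB hG).base hf, (hL t ht).tb_el]; rfl) (Nat.beq_refl _)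

theorem one (M : Subgroup G) (hM : IsCoatom M) : Nat.card (Subgroup.center M) ≤ 8 := by
  classical
  have := S.finite
  have h2 : M.index = 2 := H04.index_eq_of_isCoatom (IsPGroup.of_card (n := 9) hG) hM
  let b (i : ℕ) : Bool := decide (S.el (nd (H13.idv 4 16) B i) ∉ M)
  have hμ : ∀ a, S.el (nd (H13.idv 4 16) B a) ∈ M ↔ [b 0, b 1, b 2, b 3].getD a false = false := fun a => by
    match a with
    | 0 | 1 | 2 | 3 => simp [b]
    | a + 4 => rw [nd_eq]; simp [B, el_idv]
  generalize b 0 = b0, b 1 = b1, b 2 = b2, b 3 = b3 at hμ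
  have i : ∀ t ∈ (W.filter fun u => !u.foldl (fun b a => xor b ([b0, b1, b2, b3].getD a false)) false).map (tw 4 16 B),
      S.In M t := fun t ht => by
    obtain ⟨u, hu, rfl⟩ := List.mem_map.1 ht
    exact tw_par h2 hB _ hμ u (by simpa using (List.mem_filter.1 hu).2)
  refine le_trans ?_ ((cnt hB hG (s_full hB hG) fun t ht => (i t ht).top).trans_le (((by decide +kernel : ∀ b0 b1 b2 b3 : Bool,
    (b0 = false ∧ b1 = false ∧ b2 = false ∧ b3 = false) ∨ esum 4 16 (fun _ _ _ _ => false)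
      (fun f => Bool.rec (nat_lit 0) (nat_lit 1) (H13.allL (fun t => trF 4 [0, 1, 5, 4] t t f)
      ((W.filter fun u => !u.foldl (fun b a => xor b ([b0, b1, b2, b3].getD a false)) false).map (tw 4 16 B)))) sCh 0
      (H13.idv 4 16) (H13.idv 4 16) ≤ 8) b0 b1 b2 b3).resolve_left ?_))
  · rw [← Subgroup.card_map_of_injective M.subtype_injective]
    refine Set.ncard_le_ncard (s := (((Subgroup.center M).map M.subtype : Subgroup G) : Set G)) ?_ (Set.toFinite _)
    rintro _ ⟨z, hz, rfl⟩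
    exact ⟨trivial, fun t ht => congrArg Subtype.val (Subgroup.mem_center_iff.1 hz ⟨_, (i t ht).el_mem⟩).symm⟩
  · rintro ⟨rfl, rfl, rfl, rfl⟩
    refine hM.1 (top_le_iff.1 ((s_full hB hG).le fun l hl t ht => In.slp (pr := [[], [3, 1], [2, 3], [3, 3, 6], [1, 2], [2, 1, 3, 2, 1, 3], [0, 2], [2, 3], [4, 3], [5, 1], [5, 1], [6, 1], [8, 10], [11, 0], [17, 14], [18, 18], [18, 1], [20, 2]]) (Ls := B) (Ts := chT sCh)
      (by decide +kernel) (fun t ht => (hB t ht).of_el ?_) t (mem_chT.2 ⟨l, hl, ht⟩)))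
    simp only [B, List.mem_cons, List.not_mem_nil, or_false] at ht
    rcases ht with rfl | rfl | rfl | rfl
    exacts [(hμ 0).2 rfl, (hμ 1).2 rfl, (hμ 2).2 rfl, (hμ 3).2 rfl]

theorem three (A : Subgroup G) (h1 : IsMulCommutative A) (h2 : Nat.card A = 64) : A = S.cl aG := by
  classical
  have := S.finite
  have := Fintype.ofFinite A
  have := a_comm hB hG
  choose f hf using (s_full hB hG).allT (Q := fun x => ∃ i, (S.el (r i))⁻¹ * x ∈ S.cl aG)
    (p := fun T => H13.anyL (fun i => siftC 4 16 aCh (tm 4 16 (ti 4 16 (r i)) T)) (List.finRange 8)) (fun x c => by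
      obtain ⟨i, -, c⟩ := H13.anyL_iff.1 c
      refine ⟨i, mem_of_siftC (a_full hB hG).mem ?_⟩
      rwa [tb_mul, tb_inv, (inR hB hG i).tb_el]) (by decide +kernel)
  let I := univ.image fun a : A => f a trivial
  have a : (univ : Finset A).card ≤ Nat.card ↥(A ⊓ S.cl aG) * I.card := card_le_mul_card_image _ _ fun i hi => by
    obtain ⟨a, -, rfl⟩ := mem_image.1 hi
    rw [← Fintype.card_coe, ← Nat.card_eq_fintype_card]
    refine Nat.card_le_card_of_injective (fun x => (⟨a.1⁻¹ * x.1.1, (a⁻¹ * x.1).2, ?_⟩ : ↥(A ⊓ S.cl aG)))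
      fun _ _ e => Subtype.ext (Subtype.ext (mul_left_cancel (Subtype.mk.inj e)))
    have := hf x.1 trivial
    rw [(mem_filter.1 x.2).2] at this
    simpa [mul_assoc] using mul_mem (inv_mem (hf a trivial)) this
  have b : Nat.card ↥(A ⊓ S.cl aG) ≤ {x | x ∈ S.cl aG ∧ ∀ t ∈ ((List.finRange 8).filter (· ∈ I)).map r,
      x * S.el t = S.el t * x}.ncard := by
    refine Set.ncard_le_ncard (s := ((A ⊓ S.cl aG : Subgroup G) : Set G)) (fun x hx => ⟨hx.2, fun t ht => ?_⟩) (Set.toFinite _)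
    obtain ⟨i, hi, rfl⟩ := List.mem_map.1 ht
    obtain ⟨a, -, rfl⟩ := mem_image.1 (of_decide_eq_true (List.mem_filter.1 hi).2)
    have c : x * a = a * x := congrArg Subtype.val (mul_comm' (⟨x, hx.1⟩ : A) a)
    have d := congrArg Subtype.val (mul_comm' (⟨x, hx.2⟩ : S.cl aG) ⟨_, hf a trivial⟩)
    simp only [MulMemClass.mk_mul_mk] at d
    rw [mul_assoc, ← c, ← mul_assoc, ← mul_assoc, mul_left_inj, mul_inv_eq_iff_eq_mul, mul_assoc, eq_inv_mul_iff_mul_eq] at d
    exact d.symm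
  rw [cnt hB hG (a_full hB hG) fun t ht => by obtain ⟨i, -, rfl⟩ := List.mem_map.1 ht; exact inR hB hG i] at b
  rw [card_univ, ← Nat.card_eq_fintype_card, h2] at a
  have c := ((by decide +kernel : ∀ I : Finset (Fin 8), I ⊆ {0} ∨ esum 4 16 (fun _ _ _ _ => false)
      (fun f => Bool.rec (nat_lit 0) (nat_lit 1) (H13.allL (fun t => trF 4 [0, 1, 5, 4] t t f)
      (((List.finRange 8).filter (· ∈ I)).map r))) aCh 0 (H13.idv 4 16) (H13.idv 4 16) * I.card < 64) I).resolve_right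
    fun c => (a.trans (Nat.mul_le_mul_right _ b)).not_gt c
  refine Subgroup.eq_of_le_of_card_ge (fun x hx => ?_) (by rw [h2, (a_full hB hG).card]; decide +kernel)
  have := hf x trivial
  rwa [mem_singleton.1 (c (mem_image_of_mem _ (mem_univ ⟨x, hx⟩))), show r 0 = H13.idv 4 16 by decide +kernel, el_idv, inv_one,
    one_mul] at this

theorem main : (∀ M : Subgroup G, IsCoatom M → Nat.card (Subgroup.center M) ≤ 8) ∧
    (∃ A : Subgroup G, IsElementaryAbelian 2 A ∧ Nat.card A = 64) ∧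
    ∀ A B : Subgroup G, IsMulCommutative A → Nat.card A = 64 → IsMulCommutative B → Nat.card B = 64 → A = B :=
  ⟨one hB hG, ⟨_, ⟨a_comm hB hG, (a_full hB hG).allT (p := fun T => Nat.beq (tp 4 16 T 2) (H13.idv 4 16)) (fun x c => S.tb_inj (by
      rw [tb_pow, tb_one]; exact Nat.eq_of_beq_eq_true c)) (by decide +kernel)⟩, (a_full hB hG).card.trans (by decide +kernel)⟩,
    fun A B a b c d => (three hB hG A a b).trans (three hB hG B c d).symm⟩

end

theorem zc : ∀ x ∈ S24.cl s2G, (∀ y ∈ S24.cl s2G, x * y = y * x) → x = 1 ∨ x = S24.el t2A :=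
  s2_full.allT (p := fun T => H13.bor (H13.anyL (fun a => bn (Nat.beq (tm 5 24 T a) (tm 5 24 a T))) s2G)
    (H13.bor (Nat.beq T (H13.idv 5 24)) (Nat.beq T t2A))) (fun x c h => by
      simp only [H13.bor_eq_true, H13.anyL_iff, bn_iff, Nat.beq_eq] at c
      rcases c with ⟨a, ha, c⟩ | c | c
      · rw [← (s2_in a ha).tb_el, ← tb_mul, ← tb_mul, h _ ((s2_in a ha).cl ha).el_mem] at c
        exact absurd rfl c
      · exact .inl (by rw [← el_idv (S := S24), ← c, el_tb])
      · exact .inr (by rw [← c, el_tb])) (by decide +kernel)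

theorem PC : S24.cl s2G ≤ Subgroup.centralizer {S24.el t2A} := cl_le fun t ht => (s2_in t ht).comm in2A.sub
  (H13.allL_iff.1 (by decide +kernel : H13.allL (fun t => Nat.beq (tm 5 24 t t2A) (tm 5 24 t2A t)) s2G = true) t ht)

/-- the symmetric group on sixteen points -/
noncomputable abbrev S16 := permTS 4 16 (by norm_num)

theorem inB : ∀ t ∈ B, S16.In ⊤ t := fun t ht =>
  in_permTS (H13.allL_iff.1 (by decide +kernel : H13.allL (permOk 4 16) B = true) t ht)

theorem b_full : S16.Full (S16.cl B) [(0, [nat_lit 0xfedcba9876543210, nat_lit 0x6d8f1cb52ae79034, nat_lit 0x5cae9db648f71032, nat_lit 0xf58c0a2d36e1b497, nat_lit 0x68df9c0e4a5327b1, nat_lit 0xce5a16782fdb4039, nat_lit 0xfedc7a48b6590123, nat_lit 0xa8560f2e3cd1794b]),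
  (1, [nat_lit 0xfedcba9876543210, nat_lit 0xfe56ba187cd23490, nat_lit 0xad8c7f15b6e23940, nat_lit 0xa5867f9dbce43120]),
  (5, [nat_lit 0xfedcba9876543210, nat_lit 0xade67f45bc893210, nat_lit 0xef65b89a7dc43210, nat_lit 0x86fd7e4cb5a93210, nat_lit 0xdac8754fbe693210, nat_lit 0xeca57846bdf93210, nat_lit 0x685a7c4ebfd93210, nat_lit 0xf58c7a4db6e93210]),
  (4, [nat_lit 0xfedcba9876543210, nat_lit 0xcedf7648ba593210])] := full_of_ss (pr := [[2, 0], [1, 2], [2, 2, 5], [1, 2], [2, 1, 3, 2, 1, 3], [0, 2]]) (sl := [([nat_lit 0x6d8f1cb52ae79034, nat_lit 0x5cae9db648f71032, nat_lit 0x6dea1c352f8097b4, nat_lit 0xf58c0a2d36e1b497], nat_lit 0x30006000200030003000600020003000200030001000100000000ffffffff),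
  ([nat_lit 0xfe56ba187cd23490, nat_lit 0xefcdb81a75623490], nat_lit 0x200000000ffffffff),
  ([nat_lit 0xade67f45bc893210, nat_lit 0xef65b89a7dc43210, nat_lit 0x6deabc957f843210], nat_lit 0x10001000100010002000300010000000100010001000100000000ffffffff),
  ([nat_lit 0xcedf7648ba593210], nat_lit 0xffffffff)]) inB (by decide +kernel)

theorem hom : ∃ φ : S24.cl s2G →* Equiv.Perm (Fin 16), φ.range = S16.cl B ∧ φ.ker = Subgroup.center _ := by
  have c : Nat.card (S24.cl s2G) = 1024 := s2_full.card.trans (by decide +kernel)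
  have c' : Nat.card (S16.cl B) = 512 := b_full.card.trans (by decide +kernel)
  have i := in_pairs (S₁ := S24) (S₂ := S16) (Ps := hPs) (p := fun T => H13.band (ok24 T) (siftC 5 24 s2Ch T))
    (q := fun T => memL T (H13.idv 4 16 :: B))
    (fun _ c => In.of_siftC s2_full.mem (in24 (H13.band_eq_true.1 c).1) (H13.band_eq_true.1 c).2)
    (fun _ c => (List.mem_cons.1 (memL_iff.1 c)).elim (fun e => e ▸ In.one) fun e => (inB _ e).cl e) (by decide +kernel)
  obtain ⟨φ, a, b⟩ := hom_onto (N := 1024) (M := 512) (w := 6) (Ps := hPs) (c₁ := hC1) (c₂ := hC2) (c := hC) i c c' (by decide +kernel)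
  have m : (t2A, H13.idv 4 16) ∈ hPs := by decide +kernel
  have z := (b _ m (i _ m).1.el_mem).trans el_idv
  refine ⟨φ, a, (Subgroup.eq_of_le_of_card_ge (fun x hx => ?_) ?_).symm⟩
  · rcases zc _ x.2 fun y hy => congrArg Subtype.val (Subgroup.mem_center_iff.1 hx ⟨y, hy⟩).symm with e | e
    exacts [(Subtype.ext e : x = 1) ▸ one_mem _, (Subtype.ext e : x = ⟨_, (i _ m).1.el_mem⟩) ▸ z]
  · have d := φ.ker.card_mul_index
    rw [Subgroup.index_ker, a, c, c'] at d
    have : Nontrivial (Subgroup.center (S24.cl s2G)) := ⟨⟨⟨_, (i _ m).1.el_mem⟩, Subgroup.mem_center_iff.2 fun y =>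
      Subtype.ext (Subgroup.mem_centralizer_singleton_iff.1 (PC y.2))⟩, 1, fun e => by
        have := in2A.sub.order (p := 2) (by norm_num) (by decide +kernel)
        rw [show S24.el t2A = 1 from congrArg (·.1.1) e] at this
        simp at this⟩
    have := Finite.one_lt_card (α := Subgroup.center (S24.cl s2G))
    omega

/-- Let P be a Sylow 2-subgroup of the Mathieu group of degree 24 and S the quotient of P by its centre. Then the centre of every maximal subgroup of S has order at most 8; S has an elementary abelian subgroup of order 64; and S has only one abelian subgroup of order 64. -/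
theorem result (P : Sylow 2 ↥Cfsg.M24) :
    (∀ M : Subgroup (↥(P : Subgroup ↥Cfsg.M24) ⧸ Subgroup.center ↥(P : Subgroup ↥Cfsg.M24)), IsCoatom M →
        Nat.card ↥(Subgroup.center ↥M) ≤ 8) ∧
      (∃ A : Subgroup (↥(P : Subgroup ↥Cfsg.M24) ⧸ Subgroup.center ↥(P : Subgroup ↥Cfsg.M24)),
        Cfsg.IsElementaryAbelian 2 A ∧ Nat.card ↥A = 64) ∧
      ∀ A B : Subgroup (↥(P : Subgroup ↥Cfsg.M24) ⧸ Subgroup.center ↥(P : Subgroup ↥Cfsg.M24)),
        IsMulCommutative ↥A → Nat.card ↥A = 64 → IsMulCommutative ↥B → Nat.card ↥B = 64 → A = B := by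
  obtain ⟨g, e⟩ := sylow_eq_cj (k := 10) (m := 239085) Nat.prime_two (s2_full.card.trans (by decide +kernel)) card_M24
    (by norm_num) P
  obtain ⟨φ, a, b⟩ := hom
  let f : P ≃* S24.cl s2G := (MulEquiv.subgroupCongr e).trans (H13.cjEquiv _ _).symm
  let ψ : (P ⧸ Subgroup.center P) ≃* S16.cl B := (QuotientGroup.congr _ _ f (b ▸ (Subgroup.ext fun x => by
    obtain ⟨x, rfl⟩ := f.surjective x
    exact (Subgroup.mem_map_iff_mem f.injective).trans (MulEquivClass.apply_mem_center_iff f).symm))).trans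
    ((QuotientGroup.quotientKerEquivRange φ).trans (MulEquiv.subgroupCongr a))
  exact main (S := (S16.sub _).comap ψ.toMonoidHom ψ.injective) (fun t ht => in_comap.2 (by
    rw [Subgroup.map_top_of_surjective _ ψ.surjective]; exact ((inB t ht).cl ht).sub))
    ((Nat.card_congr ψ.toEquiv).trans (b_full.card.trans (by decide +kernel)))

end Cfsg.Agent.S3171
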