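import Mathlib
import Cfsg.Statements.S3174
import Cfsg.Agent.H04.U14b

set_option autoImplicit false
open Cfsg

namespace Cfsg.Agent.S3174

/-- Let T be a finite 2-group of order at least 2^14 in which the fourth term of the upper central series has order 16. Let W be the centralizer in T of the third term Z₃(T), and suppose the Frattini subgroup of W has order at most 8 and lies in every subgroup of W of index at most 16. Then T has order exactly 2^14; the derived subgroup of W and the Frattini subgroup of W both equal Z₃(T), which is elementary abelian of order 8; the centre of W has order 8; W is normal in T with quotient dihedral of order 8; and W modulo its derived subgroup is elementary abelian of order 2^8. -/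
theorem result {T : Type*} [Group T] [Finite T]
    (hT : IsPGroup 2 T) (ha : 2 ^ 14 ≤ Nat.card T) (hb : Nat.card ↥(Subgroup.upperCentralSeries T 4) = 16)
    (W : Subgroup T) (hW : W = Subgroup.centralizer ((Subgroup.upperCentralSeries T 3 : Subgroup T) : Set T))
    (hc : Nat.card ↥(frattini ↥W) ≤ 8) (hd : ∀ U : Subgroup ↥W, U.index ≤ 16 → frattini ↥W ≤ U) :
    Nat.card T = 2 ^ 14 ∧
      (commutator ↥W).map W.subtype = Subgroup.upperCentralSeries T 3 ∧
      (frattini ↥W).map W.subtype = Subgroup.upperCentralSeries T 3 ∧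
      Nat.card ↥(Subgroup.center ↥W) = 8 ∧
      Nat.card ↥(Subgroup.upperCentralSeries T 3) = 8 ∧ (∀ z ∈ Subgroup.upperCentralSeries T 3, z ^ 2 = 1) ∧
      (∃ (_ : W.Normal), Nonempty (T ⧸ W ≃* DihedralGroup 4)) ∧
      Nat.card (↥W ⧸ commutator ↥W) = 2 ^ 8 ∧ (∀ x : ↥W ⧸ commutator ↥W, x ^ 2 = 1) := by
  have : W.Normal := hW ▸ inferInstance
  have e := H04.U14.fr_eq (hT.to_subgroup W)
  obtain ⟨a1, a2, a3, a4, a5, a6, a7, -⟩ := H04.U14.main hT ha hb hW
    (by rwa [← e, Subgroup.card_map_of_injective W.subtype_injective]) fun U _ h =>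
      e ▸ Subgroup.map_le_iff_le_comap.2 (hd (U.subgroupOf W) h)
  have c3 := H04.U14.zcard hT (by omega) hb (i := 3) (by omega)
  have b := (Subgroup.map_subtype_commutator W).trans a4
  refine ⟨a1, b, e.trans a3, ?_, c3, a6, ⟨this, a7⟩, ?_, fun x => ?_⟩
  · rw [← Subgroup.card_map_of_injective W.subtype_injective, show (Subgroup.center W).map W.subtype = _ from Eq.trans ?_ a5, c3]
    · rfl
    ext x
    exact ⟨by rintro ⟨y, hy, rfl⟩; exact ⟨y.2, fun g hg => congrArg Subtype.val (Subgroup.mem_center_iff.1 hy ⟨g, hg⟩)⟩,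
      fun h => ⟨⟨x, h.1⟩, Subgroup.mem_center_iff.2 fun g => Subtype.ext (h.2 g g.2), rfl⟩⟩
  · have h1 := (commutator W).card_mul_index
    have h2 := W.card_mul_index
    rw [← Subgroup.card_map_of_injective W.subtype_injective, b, c3] at h1
    rw [← Subgroup.index_eq_card]
    rw [a1, a2] at h2
    omega
  · obtain ⟨x, rfl⟩ := QuotientGroup.mk_surjective x
    rw [← QuotientGroup.mk_pow, QuotientGroup.eq_one_iff, ← Subgroup.mem_map_iff_mem W.subtype_injective, b, ← a3]
    exact H02.Hig.pow_mem_pw x.2 2

end Cfsg.Agent.S3174
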