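import Mathlib
import Cfsg.Statements.S3175
import Cfsg.Agent.H04.U14b
import Cfsg.Agent.H03.PResidual

set_option autoImplicit false
open Cfsg

namespace Cfsg.Agent.S3175

/-- Let G be a finite group whose Sylow 2-subgroup T has order at least 2^14 and whose upper central series has fourth term of order 16; let W be the centralizer in T of the third term, and suppose the Frattini subgroup of W has order at most 8 and lies in every subgroup of W of index at most 16. Then the normalizer of T in G has a normal 2-complement, and W is weakly closed in T with respect to G. -/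
theorem result {G : Type*} [Group G] [Finite G]
    (T : Sylow 2 G) (ha : 2 ^ 14 ≤ Nat.card ↥(T : Subgroup G))
    (hb : Nat.card ↥(Subgroup.upperCentralSeries ↥(T : Subgroup G) 4) = 16)
    (W : Subgroup ↥(T : Subgroup G))
    (hW : W = Subgroup.centralizer ((Subgroup.upperCentralSeries ↥(T : Subgroup G) 3 : Subgroup ↥(T : Subgroup G)) : Set ↥(T : Subgroup G)))
    (hc : Nat.card ↥(frattini ↥W) ≤ 8)
    (hd : ∀ U : Subgroup ↥W, U.index ≤ 16 → frattini ↥W ≤ U) :
    Cfsg.HasNormalPComplement 2 ↥(Subgroup.normalizer ((T : Subgroup G) : Set G)) ∧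
      Cfsg.IsWeaklyClosed (W.map (T : Subgroup G).subtype) (T : Subgroup G) := by
  open Subgroup H04.U14 H02.Hig in
  have : W.Normal := hW ▸ inferInstance
  have e := fr_eq (T.2.to_subgroup W)
  have d : Dd W := fun U _ h => e ▸ map_le_iff_le_comap.2 (hd (U.subgroupOf W) h)
  obtain ⟨a1, a2, a3, a4, a5, a6, a7, a8⟩ := main T.2 ha hb hW (by rwa [← e, card_map_of_injective W.subtype_injective]) d
  refine ⟨H03.hasNPC_of_normal_of_isPGroup_quotient (T : Subgroup G).normalizerMonoidHom.ker ?_ ?_, map_subtype_le _, fun g hg => ?_⟩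
  · refine IsPGroup.of_injective (fun α => ?_) _ (QuotientGroup.kerLift_injective _)
    obtain ⟨k, m, h1, h2⟩ := Nat.exists_eq_two_pow_mul_odd (orderOf_pos α).ne'
    exact ⟨k, a8 _ (h1.of_dvd_nat (orderOf_dvd_of_pow_eq_one (by rw [← pow_mul, ← h2, pow_orderOf_eq_one])))⟩
  · obtain ⟨Q⟩ : Nonempty (Sylow 2 (T : Subgroup G).normalizerMonoidHom.ker) := inferInstance
    refine H03.hasNPC_of_sylow_le_center Q fun x hx => mem_center_iff.2 fun k => ?_
    have := (((Q.2.map (Subgroup.subtype _)).map (Subgroup.subtype _)).inf_normalizer_sylow T).le ⟨⟨_, ⟨x, hx, rfl⟩, rfl⟩, x.1.2⟩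
    have h := congrArg Subtype.val (DFunLike.congr_fun k.2 ⟨_, this.2⟩)
    exact Subtype.ext (Subtype.ext (mul_inv_eq_iff_eq_mul.1 h))
  obtain ⟨W0, h0⟩ : ∃ W0, W0 = W.map (T : Subgroup G).subtype := ⟨_, rfl⟩
  obtain ⟨W1, h1⟩ : ∃ W1, W1 = W0.map (MulAut.conj g).toMonoidHom := ⟨_, rfl⟩
  have d0 : Dd W0 := h0 ▸ d.map _
  have d1 : Dd W1 := h1 ▸ d0.map _
  rw [← h0, ← h1] at hg ⊢
  have c : Nat.card W1 = Nat.card W0 := h1 ▸ card_map_of_injective (MulAut.conj g).injective
  have c' : Nat.card (pw W1 2) = Nat.card (pw W0 2) := by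
    rw [h1, ← map_pw]; exact card_map_of_injective (MulAut.conj g).injective
  have i1 : (W0 ⊓ W1).relIndex W1 ≤ 8 := by
    rw [inf_relIndex_right, ← a2, ← relIndex_top_right, ← relIndex_map_map_of_injective _ _ (T : Subgroup G).subtype_injective, ← h0]
    exact relIndex_le_of_le_right (by rwa [← MonoidHom.range_eq_map, range_subtype]) FiniteIndex.index_ne_zero
  have i0 : (W0 ⊓ W1).relIndex W0 ≤ 8 := by
    have j0 := H01.card_mul_relIndex (inf_le_left : W0 ⊓ W1 ≤ W0)
    rw [← c, ← H01.card_mul_relIndex (inf_le_right : W0 ⊓ W1 ≤ W1)] at j0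
    rwa [Nat.eq_of_mul_eq_mul_left Nat.card_pos j0]
  have p0 := (d0.pw_le inf_le_left i0).trans (pw2_le_iff.2 fun u hu => sq_mem_pw (mem_inf.1 hu).2 : _ ≤ pw W1 2)
  have p1 := eq_of_le_of_card_ge p0 c'.le
  refine eq_of_le_of_card_ge (fun x hx => h0 ▸ ⟨⟨x, hg hx⟩, hW ▸ fun y hy => Subtype.ext ?_, rfl⟩) c.ge
  have : (y : G) ∈ pw W1 2 := by rw [← p1, h0, ← map_pw, a3]; exact mem_map_of_mem _ hy
  rw [h1, h0, ← map_pw, ← map_pw, a3] at this
  rw [h1, h0] at hx
  obtain ⟨_, ⟨u, hu, rfl⟩, h⟩ := this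
  obtain ⟨_, ⟨v, hv, rfl⟩, rfl⟩ := hx
  rw [coe_mul, coe_mul, ← h, ← map_mul, ← map_mul, ← map_mul, ← map_mul, (hW ▸ hv : v ∈ centralizer _) u hu]

end Cfsg.Agent.S3175
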