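import Mathlib
import Cfsg.Statements.S3179
import Cfsg.Agent.L.PSL2Sub
import Cfsg.Agent.S1163
import Cfsg.Agent.S0280

set_option autoImplicit false
open scoped Pointwise
open Cfsg

namespace Cfsg.Agent.S3179

theorem cardGL : Nat.card (GL (Fin 5) (ZMod 2)) = 9999360 := by
  rw [Matrix.card_GL_field]; simp [Fin.prod_univ_succ]

def a0 : Matrix (Fin 5) (Fin 5) (ZMod 2) :=
  !![0,1,0,0,0; 1,1,0,0,0; 0,0,1,0,0; 0,0,0,1,0; 0,0,0,0,1]
def b0 : Matrix (Fin 5) (Fin 5) (ZMod 2) :=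
  !![1,0,0,0,0; 0,1,0,0,0; 0,0,0,1,0; 0,0,1,1,0; 0,0,0,0,1]
def a1 : GL (Fin 5) (ZMod 2) := ⟨a0, a0 * a0, by decide +kernel, by decide +kernel⟩
def b1 : GL (Fin 5) (ZMod 2) := ⟨b0, b0 * b0, by decide +kernel, by decide +kernel⟩

theorem no9 (g : GL (Fin 5) (ZMod 2)) : orderOf g ≠ 9 := by
  classical
  intro hg
  haveI : Fact (Nat.Prime 3) := ⟨by norm_num⟩
  let P : Sylow 3 (GL (Fin 5) (ZMod 2)) := Sylow.ofCard (Subgroup.zpowers g) (by
    rw [Nat.card_zpowers, hg, cardGL]
    have : (9999360 : ℕ) = 3 ^ 2 * 1111040 := by norm_num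
    rw [this, Nat.factorization_mul (by norm_num) (by norm_num), Nat.Prime.factorization_pow Fact.out]
    simp [Nat.factorization_eq_zero_of_not_dvd (show ¬ 3 ∣ 1111040 by norm_num)])
  have ha : a1 ^ 3 = 1 := Units.ext (by decide +kernel)
  have hb : b1 ^ 3 = 1 := Units.ext (by decide +kernel)
  have hab : Commute a1 b1 := Units.ext (by decide +kernel)
  have hA : IsPGroup 3 (Subgroup.zpowers a1) := IsPGroup.of_card (n := 1) (by
    rw [Nat.card_zpowers, orderOf_eq_prime ha (by decide +kernel), pow_one])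
  have hB : IsPGroup 3 (Subgroup.zpowers b1) := IsPGroup.of_card (n := 1) (by
    rw [Nat.card_zpowers, orderOf_eq_prime hb (by decide +kernel), pow_one])
  have hS := IsPGroup.to_sup_of_normal_right' hA hB (Subgroup.zpowers_le.2
    (Subgroup.mem_normalizer_iff.2 fun x => by
      constructor
      · rintro ⟨k, rfl⟩
        exact ⟨k, by simp [(hab.zpow_right k).eq]⟩
      · rintro ⟨k, e⟩
        refine ⟨k, ?_⟩
        have e : b1 ^ k = a1 * x * a1⁻¹ := e
        change b1 ^ k = x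
        rw [eq_mul_inv_iff_mul_eq, ← (hab.zpow_right k).eq] at e
        exact mul_left_cancel e))
  obtain ⟨S0, hS'⟩ := hS.exists_le_sylow
  haveI : IsCyclic (P : Subgroup (GL (Fin 5) (ZMod 2))) := Subgroup.isCyclic_zpowers g
  have := isCyclic_of_surjective _ (P.equiv S0).surjective
  generalize (S0 : Subgroup (GL (Fin 5) (ZMod 2))) = S at this hS'
  have := Fintype.ofFinite S
  have h := IsCyclic.card_pow_eq_one_le (α := S) (n := 3) (by norm_num)
  let a : S := ⟨a1, hS' (Subgroup.mem_sup_left (Subgroup.mem_zpowers _))⟩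
  let b : S := ⟨b1, hS' (Subgroup.mem_sup_right (Subgroup.mem_zpowers _))⟩
  have h2 : ({1, a, b, a * b} : Finset S) ⊆ Finset.univ.filter fun x : S => x ^ 3 = 1 := by
    intro x hx
    simp only [Finset.mem_insert, Finset.mem_singleton] at hx
    rw [Finset.mem_filter]
    refine ⟨Finset.mem_univ _, Subtype.ext ?_⟩
    rcases hx with rfl | rfl | rfl | rfl
    · simp
    · exact ha
    · exact hb
    · change (a1 * b1) ^ 3 = 1
      rw [hab.mul_pow, ha, hb, one_mul]
  have h3 : ({1, a, b, a * b} : Finset S).card = 4 := by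
    rw [Finset.card_eq_four]
    have : 1 ≠ a1 ∧ 1 ≠ b1 ∧ 1 ≠ a1 * b1 ∧ a1 ≠ b1 ∧ a1 ≠ a1 * b1 ∧ b1 ≠ a1 * b1 := by decide +kernel
    obtain ⟨e1, e2, e3, e4, e5, e6⟩ := this
    exact ⟨1, a, b, a * b, fun e => e1 (congrArg Subtype.val e), fun e => e2 (congrArg Subtype.val e),
      fun e => e3 (congrArg Subtype.val e), fun e => e4 (congrArg Subtype.val e),
      fun e => e5 (congrArg Subtype.val e), fun e => e6 (congrArg Subtype.val e), rfl⟩
  have := Finset.card_le_card h2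
  rw [h3] at this
  have h' : (Finset.univ.filter fun x : S => x ^ 3 = 1).card ≤ 3 := by convert h
  omega

/-- Let X be a section of the general linear group GL(5, 2), that is, a quotient of a subgroup of it. If X is isomorphic to PSL(2, 2^n) for some n ≥ 2, to a Suzuki group over the field with 2^(2m+1) elements for some m ≥ 1, or to PSU(3, 2^n) for some n ≥ 2, then X is isomorphic to PSL(2, 4). -/
theorem result {H : Subgroup (GL (Fin 5) (ZMod 2))}
    {K : Subgroup ↥H} [K.Normal]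
    (hX : (∃ (n : ℕ) (F : Type) (_ : Field F) (_ : Fintype F), 2 ≤ n ∧ Fintype.card F = 2 ^ n ∧
        Nonempty (↥H ⧸ K ≃* Matrix.ProjectiveSpecialLinearGroup (Fin 2) F)) ∨
      (∃ (m : ℕ) (F : Type) (_ : Field F) (_ : Fintype F), 1 ≤ m ∧ Fintype.card F = 2 ^ (2 * m + 1) ∧
        Nonempty (↥H ⧸ K ≃* ↥(Cfsg.Lie.Sz F (2 ^ (m + 1))))) ∨
      (∃ (n : ℕ) (F : Type) (_ : Field F) (_ : Fintype F), 2 ≤ n ∧ Fintype.card F = 4 ^ n ∧
        Nonempty (↥H ⧸ K ≃* Cfsg.PSU 3 F (2 ^ n)))) :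
    ∃ (F : Type) (_ : Field F) (_ : Fintype F), Fintype.card F = 4 ∧
      Nonempty (↥H ⧸ K ≃* Matrix.ProjectiveSpecialLinearGroup (Fin 2) F) := by
  have hd : Nat.card (H ⧸ K) ∣ 9999360 := by
    rw [← cardGL]
    exact (Subgroup.card_quotient_dvd_card K).trans (Subgroup.card_subgroup_dvd_card H)
  rcases hX with ⟨n, F, _, _, hn, hF, ⟨e⟩⟩ | ⟨m, F, _, _, hm, hF, ⟨e⟩⟩ | ⟨n, F, _, _, hn, hF, ⟨e⟩⟩
  · have h1 : L.Dk.dd F * _ = _ := H09.card_PSL_two_mul (F := F)
    have hdd : L.Dk.dd F = 1 := by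
      change Nat.gcd 2 (Fintype.card F - 1) = 1
      rw [hF]
      obtain ⟨k, rfl⟩ := Nat.exists_eq_add_of_le' (show 1 ≤ n by omega)
      have : 0 < 2 ^ k := by positivity
      rw [← Nat.coprime_iff_gcd_eq_one, Nat.coprime_two_left, pow_succ, Nat.odd_iff]; omega
    rw [hdd, one_mul, ← Nat.card_congr e.toEquiv, hF] at h1
    rw [h1] at hd
    have h7 : n ≤ 7 := by
      by_contra h
      have : 2 ^ 8 ≤ 2 ^ n := Nat.pow_le_pow_right (by norm_num) (by omega)
      have h2 := Nat.pow_le_pow_left this 2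
      have h3 := Nat.le_of_dvd (by norm_num) hd
      have := Nat.mul_le_mul this (Nat.sub_le_sub_right h2 1)
      omega
    interval_cases n
    · exact ⟨F, _, _, hF, ⟨e⟩⟩
    · exfalso
      obtain ⟨g, hg⟩ := L.Dk.exists_orderOf_add (F := F)
      rw [hdd, one_mul, hF] at hg
      obtain ⟨x, hx⟩ := QuotientGroup.mk'_surjective K (e.symm g)
      have h2 : 9 ∣ orderOf (x : GL (Fin 5) (ZMod 2)) := by
        rw [Subgroup.orderOf_coe]
        have := orderOf_map_dvd (QuotientGroup.mk' K) x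
        rwa [hx, MulEquiv.orderOf_eq, hg] at this
      exact no9 _ (orderOf_pow_orderOf_div (orderOf_pos _).ne' h2)
    all_goals exact absurd hd (by norm_num)
  · exfalso
    rw [Nat.card_congr e.toEquiv, (S1163.result hm hF).1] at hd
    have h7 : m ≤ 2 := by
      by_contra h
      have : 2 ^ 7 ≤ 2 ^ (2 * m + 1) := Nat.pow_le_pow_right (by norm_num) (by omega)
      have h2 := Nat.pow_le_pow_left this 2
      have h3 := Nat.le_of_dvd (by norm_num) hd
      have := Nat.mul_le_mul (Nat.mul_le_mul h2 (Nat.sub_le_sub_right this 1)) (Nat.add_le_add_right h2 1)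
      omega
    interval_cases m <;> exact absurd hd (by norm_num)
  · exfalso
    have h1 := S0280.result (q := 2 ^ n) (F := F) (by rw [hF, ← pow_mul, mul_comm, pow_mul]; rfl) 3
      (by norm_num)
    rw [← Nat.card_congr e.toEquiv] at h1
    simp only [Finset.prod_range_succ, Finset.prod_range_zero] at h1
    norm_num at h1
    have h2 : (2 ^ n + 1) * (Nat.gcd 3 (2 ^ n + 1) * Nat.card (H ⧸ K)) =
        (2 ^ n + 1) * ((2 ^ n) ^ 3 * (((2 ^ n) ^ 2 - 1) * ((2 ^ n) ^ 3 + 1))) := by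
      rw [mul_left_comm, h1]; ring
    have h3 := Nat.eq_of_mul_eq_mul_left (by positivity) h2
    have h4 : (2 ^ n) ^ 3 * (((2 ^ n) ^ 2 - 1) * ((2 ^ n) ^ 3 + 1)) ∣ 3 * 9999360 :=
      h3 ▸ Nat.mul_dvd_mul (Nat.gcd_dvd_left _ _) hd
    have h7 : n ≤ 3 := by
      by_contra h
      have : 2 ^ 4 ≤ 2 ^ n := Nat.pow_le_pow_right (by norm_num) (by omega)
      have h2 := Nat.pow_le_pow_left this 2
      have h2' := Nat.pow_le_pow_left this 3
      have h3 := Nat.le_of_dvd (by norm_num) h4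
      have := Nat.mul_le_mul h2' (Nat.mul_le_mul (Nat.sub_le_sub_right h2 1) (Nat.add_le_add_right h2' 1))
      omega
    interval_cases n <;> exact absurd h4 (by norm_num)

end Cfsg.Agent.S3179
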