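import Cfsg.Statements.S3180
import Mathlib
import Cfsg.Agent.H26.Syl
-- import your own Cfsg.Agent.* helpers here

set_option autoImplicit false
open Cfsg

namespace Cfsg.Agent.S3180

open scoped Pointwise commutatorElement

open H26

/-- Let P be a Sylow p-subgroup of a finite group J and P₁ a subgroup of P that is weakly closed in P with respect to J. If J acts on a set and two points, each fixed by every element of P₁, lie in one J-orbit, then they lie in one orbit of the normalizer of P₁ in J. -/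
theorem result {J : Type*} [Group J] [Finite J]
    {p : ℕ} [Fact p.Prime] (P : Sylow p J) (P₁ : Subgroup J) (hW : Cfsg.IsWeaklyClosed P₁ (P : Subgroup J))
    {Ω : Type*} [MulAction J Ω] (x y : Ω) (hx : ∀ g ∈ P₁, g • x = x) (hy : ∀ g ∈ P₁, g • y = y)
    (hc : ∃ g : J, g • x = y) :
    ∃ g ∈ Subgroup.normalizer (P₁ : Set J), g • x = y := by
  obtain ⟨g, rfl⟩ := hc
  have hP1 : IsPGroup p P₁ := (P.isPGroup').to_le hW.1
  have h1 : P₁ ≤ MulAction.stabilizer J (g • x) := fun a ha => hy a ha
  have h2 : P₁.map (MulAut.conj g).toMonoidHom ≤ MulAction.stabilizer J (g • x) := by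
    rw [H26.cj_le_iff]
    intro a ha
    show (g * a * g⁻¹) • g • x = g • x
    rw [mul_smul, mul_smul, inv_smul_smul, hx a ha]
  obtain ⟨T, hT, hPT⟩ := H26.exists_isSyl_ge hP1 h1
  obtain ⟨h, hh, hle⟩ := hT.exists_cj_le (H26.isPGroup_cj hP1 g) h2
  obtain ⟨k, -, hk⟩ := (H26.isSyl_top P).exists_cj_le hT.pg le_top
  have e1 := hW.2 k ((H26.cj_mono k hPT).trans hk)
  have e2 := hW.2 (k * (h * g)) (by
    rw [← H26.cj_cj, ← H26.cj_cj]; exact (H26.cj_mono k hle).trans hk)
  refine ⟨h * g, ?_, ?_⟩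
  · rw [← H26.cj_eq_iff]
    rw [← H26.cj_cj] at e2
    exact H26.cj_inj.mp (e2.trans e1.symm)
  · rw [mul_smul]; exact hh

end Cfsg.Agent.S3180
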