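import Cfsg.Statements.S3190
import Mathlib
import Cfsg.Agent.H01.Coprime2
import Cfsg.Agent.H26.Syl
-- import your own Cfsg.Agent.* helpers here

set_option autoImplicit false
open Cfsg

namespace Cfsg.Agent.S3190

open scoped Pointwise commutatorElement

/-- Let p be an odd prime and, inside a finite group, let P be a p-subgroup normalized by a Klein four-group T. Let R be a subgroup of P, normal in P and normalized by T, such that P is the product of R with the centralizer of T in P. If T centralizes the centre of P, then T centralizes the centre of R. -/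
theorem result {X : Type*} [Group X] [Finite X]
    {p : ℕ} (hp : p.Prime) (hodd : Odd p) (P T R : Subgroup X) (hP : IsPGroup p ↥P) (hT : IsKleinFour ↥T)
    (hTP : T ≤ Subgroup.normalizer (P : Set X)) (hRP : R ≤ P) (hRn : (R.subgroupOf P).Normal)
    (hTR : T ≤ Subgroup.normalizer (R : Set X)) (hfac : R ⊔ (P ⊓ Subgroup.centralizer (T : Set X)) = P)
    (hZ : T ≤ Subgroup.centralizer (((Subgroup.center ↥P).map P.subtype : Subgroup X) : Set X)) :
    T ≤ Subgroup.centralizer (((Subgroup.center ↥R).map R.subtype : Subgroup X) : Set X) := by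
  haveI := Fact.mk hp
  set Z := (Subgroup.center ↥R).map R.subtype with hZd
  have hZR : Z ≤ R := Subgroup.map_subtype_le _
  haveI : IsMulCommutative Z := Subgroup.map_isMulCommutative _ _
  have hPR : P ≤ Subgroup.normalizer (R : Set X) := (Subgroup.normal_subgroupOf_iff_le_normalizer hRP).mp hRn
  have hPZ : P ≤ Subgroup.normalizer (Z : Set X) := H01.le_normalizer_map_characteristic hPR _
  have hTZ : T ≤ Subgroup.normalizer (Z : Set X) := H01.le_normalizer_map_characteristic hTR _
  have hZp : IsPGroup p Z := hP.to_le (hZR.trans hRP)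
  have hcop : (Nat.card T).Coprime (Nat.card Z) := by
    apply H01.coprime_card_of_isPGroup hZp
    rw [hT.card_four]
    exact (Nat.Coprime.pow_left 2 (Nat.coprime_two_left.mpr hodd))
  have hW : ⁅Z, T⁆ ≤ Z := H01.commutator_le_left_of_le_normalizer hTZ
  have hPW : P ≤ Subgroup.normalizer ((⁅Z, T⁆ : Subgroup X) : Set X) := by
    rw [← hfac]
    apply sup_le
    · apply H01.le_normalizer_of_conj_mem
      intro r hr w hw
      obtain ⟨z, hz, rfl⟩ := hW hw
      have := congrArg Subtype.val (Subgroup.mem_center_iff.mp hz ⟨r, hr⟩)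
      simp only [Subgroup.coe_mul] at this
      rw [Subgroup.coe_subtype, this, mul_inv_cancel_right]; exact hw
    · exact H01.le_normalizer_commutator (inf_le_left.trans hPZ)
        (inf_le_right.trans (Subgroup.centralizer_le_normalizer _))
  rw [Subgroup.le_centralizer_iff, ← Subgroup.commutator_eq_bot_iff_le_centralizer]
  by_contra hne
  apply H26.inf_centralizer_ne_bot hP (hZp.to_le hW) hne hPW
  rw [eq_bot_iff, ← H01.centralizer_inf_commutator_eq_bot hTZ hcop]
  rintro w ⟨h1, h2⟩
  refine ⟨⟨hW h1, ?_⟩, h1⟩
  apply Subgroup.le_centralizer_iff.mp hZ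
  refine ⟨⟨w, hRP (hZR (hW h1))⟩, ?_, rfl⟩
  exact Subgroup.mem_center_iff.mpr fun g => Subtype.ext (h2 g g.2)

end Cfsg.Agent.S3190
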