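import Mathlib
import Cfsg.Statements.S3195
import Cfsg.Agent.H08.BaerSuzuki
import Cfsg.Agent.H08.Klein
import Cfsg.Agent.H08.Isolated

set_option autoImplicit false
open Cfsg

namespace Cfsg.Agent.S3195

open Subgroup H08

/-- Let A be a Klein four-subgroup of a finite group G. If every G-conjugate of every involution of A commutes with some involution of A (its centralizer meets A nontrivially), then A meets the largest normal 2-subgroup O₂(G) nontrivially. -/
theorem result {G : Type*} [Group G] [Finite G]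
    (A : Subgroup G) (hA : IsKleinFour ↥A)
    (h : ∀ a ∈ A, a ≠ 1 → ∀ g : G, A ⊓ Subgroup.centralizer ({g * a * g⁻¹} : Set G) ≠ ⊥) :
    A ⊓ Cfsg.pCore 2 G ≠ ⊥ := by
  intro hA1
  have h1 : ∀ a ∈ A, a ≠ 1 → ∃ x : G, x ≠ 1 ∧ Odd (orderOf x) ∧ a * x * a⁻¹ = x⁻¹ := fun a ha a1 =>
    exists_inverted_odd_of_notMem_pCore ((isKleinFour_iff.1 hA).2 a ha) fun e => a1 (mem_bot.1 (hA1.le ⟨ha, e⟩))
  have h2 : ∀ a ∈ A, a ≠ 1 → ∀ g : G, ∃ u ∈ A, u ≠ 1 ∧ Commute (g * u * g⁻¹) a := fun a ha a1 g => by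
    obtain ⟨⟨u, hu, hu'⟩, u1⟩ := ne_bot_iff_exists_ne_one.1 (h a ha a1 g⁻¹)
    refine ⟨u, hu, fun e => u1 (Subtype.ext e), ?_⟩
    have := mem_centralizer_singleton_iff.1 hu'
    calc _ = g * (u * (g⁻¹ * a * g⁻¹⁻¹)) * g⁻¹ := by group
      _ = _ := by rw [this]; group
  have h3 : ∀ {a x : G}, a * x * a⁻¹ = x⁻¹ → x * a * x⁻¹ = x * x * a := fun h => Iso.conj_eq_of_inverted h
  have h0 : ∀ {a x : G}, x ≠ 1 → Odd (orderOf x) → a * x * a⁻¹ = x⁻¹ → ¬ Commute a x := fun x1 hx h e => by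
    rw [e.eq, mul_inv_cancel_right] at h
    exact x1 (eq_one_of_odd_of_mul_self hx (by nth_rewrite 1 [h]; simp))
  have h4 : ∀ a ∈ A, a ≠ 1 → ∀ x, Odd (orderOf x) → a * x * a⁻¹ = x⁻¹ → ∃ u ∈ A, u ≠ 1 ∧ Commute x u :=
    fun a ha a1 x hx hi => by
      obtain ⟨⟨u, hu, hu'⟩, u1⟩ := ne_bot_iff_exists_ne_one.1 (h a ha a1 x)
      have h5 : Commute (x * x * a) u := h3 hi ▸ (mem_centralizer_singleton_iff.1 hu').symm
      exact ⟨u, hu, fun e => u1 (Subtype.ext e), commute_of_commute_mul_self hx (by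
        simpa using h5.mul_left (commute_of_mem_klein hA (inv_mem ha) hu))⟩
  obtain ⟨a₀, b₀, ha₀, -, -, -, e⟩ := exists_klein_gens hA
  replace e : a₀ ∈ A := e ▸ subset_closure (by simp)
  obtain ⟨x, x1, hx, hax⟩ := h1 a₀ e (ne_one_of_orderOf ha₀)
  obtain ⟨b, hb, b1, hbx⟩ := h4 a₀ e (ne_one_of_orderOf ha₀) x hx hax
  obtain ⟨y, y1, hy, hby⟩ := h1 b hb b1
  obtain ⟨a, ha, a1, hay⟩ := h4 b hb b1 y hy hby
  have hab : a ≠ b := by rintro rfl; exact h0 y1 hy hby hay.symm
  have hc := commute_of_mem_klein hA ha hb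
  have hm : ∀ u, u ∈ A ↔ _ := fun u => klein_eq_closure hA ha hb a1 b1 hab ▸
    mem_closure_klein ((isKleinFour_iff.1 hA).2 a ha) ((isKleinFour_iff.1 hA).2 b hb) hc
  replace hax : a * x * a⁻¹ = x⁻¹ := by
    rcases (hm _).1 e with rfl | rfl | rfl | rfl
    · simp at ha₀
    · exact hax
    · exact absurd hbx.symm (h0 x1 hx hax)
    · rwa [mul_assoc a, ← hbx.eq, mul_inv_rev, mul_assoc, mul_assoc, mul_inv_cancel_left, ← mul_assoc] at hax
  have haby : a * b * y * (a * b)⁻¹ = y⁻¹ := by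
    rw [mul_inv_rev, mul_assoc a, mul_assoc a, ← mul_assoc _ b⁻¹, hby, hay.inv_inv.eq, mul_inv_cancel_left]
  have hxy : Commute x y := by
    have h5 : ∀ z, Commute z y → b * z * b⁻¹ = z⁻¹ → Commute a z → Commute (z * z) (x * x * a) ∨
        Commute (z * z * (a * b)) (x * x * a) := fun z hz hbz haz => by
      obtain ⟨u, hu, u1, h6⟩ := h2 a ha a1 (x⁻¹ * z)
      have h7 : Commute (z * u * z⁻¹) (x * x * a) := by
        rw [← h3 hax]
        calc _ = x * (x⁻¹ * z * u * (x⁻¹ * z)⁻¹ * a) * x⁻¹ := by group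
          _ = _ := by rw [h6.eq]; group
      rcases (hm _).1 hu with rfl | rfl | rfl | rfl
      · exact absurd rfl u1
      · rw [← haz.eq, mul_inv_cancel_right] at h7
        exact absurd (commute_of_commute_mul_self hx (by simpa using h7.symm.mul_left (Commute.refl u).inv_left)).symm
          (h0 x1 hx hax)
      · rw [h3 hbz] at h7
        exact Or.inl (by simpa using h7.mul_left ((hbx.mul_left hbx).mul_left hc).symm.inv_left)
      · exact Or.inr (by rwa [← mul_assoc z, ← haz.eq, mul_assoc a, mul_assoc a, h3 hbz, ← mul_assoc a,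
          (haz.mul_right haz).eq, mul_assoc _ a] at h7)
    have h8 : Commute y (x * x * a) := by
      rcases h5 y (Commute.refl y) hby hay.symm with e1 | e1
      · exact commute_of_commute_mul_self hy e1
      rcases h5 (y * y) (by simp) (by rw [← conj_mul, hby, mul_inv_rev]) (hay.mul_left hay).symm with e2 | e2
      · exact commute_of_commute_mul_self hy (commute_of_commute_mul_self (odd_orderOf_of_mem_zpowers hy
          (mul_mem (mem_zpowers y) (mem_zpowers y))) e2)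
      · exact commute_of_commute_mul_self hy (by simpa [mul_assoc] using e2.mul_left e1.inv_left)
    exact commute_of_commute_mul_self hx (by simpa using (h8.mul_right hay.inv_right).symm)
  have ho : Odd (orderOf (x * y)) := (hx.mul hy).of_dvd_nat hxy.orderOf_mul_dvd_mul_orderOf
  have habx : a * b * x * (a * b)⁻¹ = x⁻¹ := by
    rw [mul_inv_rev, mul_assoc a, ← hbx.eq, mul_assoc, mul_assoc, mul_inv_cancel_left, ← mul_assoc, hax]
  have hi : a * b * (x * y) * (a * b)⁻¹ = (x * y)⁻¹ := by rw [← conj_mul, habx, haby, hxy.eq, mul_inv_rev]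
  obtain ⟨u, hu, u1, h6⟩ := h4 _ (mul_mem ha hb) (mul_ne_one_of_invol (orderOf_of_mem_klein hA ha a1) hab) _ ho hi
  rcases (hm _).1 hu with rfl | rfl | rfl | rfl
  · exact u1 rfl
  · exact h0 x1 hx hax (by simpa using (h6.mul_left hay.inv_left).symm)
  · exact h0 y1 hy hby (by simpa using (hbx.inv_left.mul_left h6).symm)
  · refine h0 (fun e => h0 y1 hy hby ?_) ho hi h6.symm
    rw [eq_inv_of_mul_eq_one_right e]; exact hbx.symm.inv_right

end Cfsg.Agent.S3195
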