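import Mathlib
import Cfsg.Statements.S3196
import Cfsg.Agent.H08.BaerSuzuki
import Cfsg.Agent.H02.PCore
import Cfsg.Agent.H03.Fusion

set_option autoImplicit false
open Cfsg

namespace Cfsg.Agent.S3196

open Subgroup H08

/-- Let p be a prime and K a set of subgroups of order p of a finite group G, closed under conjugation, such that at least two distinct members of K commute elementwise, and whenever two distinct members X, Y of K commute: every subgroup of order p of the group XY they generate belongs to K, and every member W of K has centralizer meeting XY nontrivially. Then some member V of K commutes elementwise with every member of K and lies in O_p(G); in particular G is not simple. -/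
theorem result {G : Type*} [Group G] [Finite G]
    {p : ℕ} (hp : p.Prime) (K : Set (Subgroup G)) (hK : ∀ X ∈ K, Nat.card ↥X = p)
    (hKc : ∀ X ∈ K, ∀ g : G, X.map (MulAut.conj g).toMonoidHom ∈ K)
    (hex : ∃ X ∈ K, ∃ Y ∈ K, X ≠ Y ∧ ∀ x ∈ X, ∀ y ∈ Y, x * y = y * x)
    (ha : ∀ X ∈ K, ∀ Y ∈ K, X ≠ Y → (∀ x ∈ X, ∀ y ∈ Y, x * y = y * x) →
      ∀ Z : Subgroup G, Z ≤ X ⊔ Y → Nat.card ↥Z = p → Z ∈ K)
    (hb : ∀ X ∈ K, ∀ Y ∈ K, X ≠ Y → (∀ x ∈ X, ∀ y ∈ Y, x * y = y * x) →
      ∀ W ∈ K, (X ⊔ Y) ⊓ Subgroup.centralizer (W : Set G) ≠ ⊥) :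
    (∃ V ∈ K, (∀ W ∈ K, ∀ v ∈ V, ∀ w ∈ W, v * w = w * v) ∧ V ≤ Cfsg.pCore p G) ∧ ¬ IsSimpleGroup G := by
  have := Fact.mk hp
  let P : G → Prop := fun g => zpowers g ∈ K
  have o1 : ∀ {x}, P x → orderOf x = p := fun h => (Nat.card_zpowers _).symm.trans (hK _ h)
  have n1 : ∀ {x}, P x → x ≠ 1 := fun h e => hp.one_lt.ne (by rw [← o1 h, e, orderOf_one])
  have L0 : ∀ {x y : G}, orderOf x = p → y ∈ zpowers x → y ≠ 1 → zpowers y = zpowers x := fun {x y} hx hy y1 =>
    eq_of_le_of_card_ge (zpowers_le.2 hy) (by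
      rw [Nat.card_zpowers, Nat.card_zpowers, hx, orderOf_eq_prime (orderOf_dvd_iff_pow_eq_one.1
        (hx ▸ orderOf_dvd_of_mem_zpowers hy)) y1])
  have L1 : ∀ {x y t : G}, x ∈ zpowers y → Commute y t → Commute x t := by
    rintro _ _ _ ⟨k, rfl⟩ h; exact h.zpow_left k
  have L2 : ∀ {x y t : G}, P x → y ∈ zpowers x → y ≠ 1 → Commute y t → Commute x t := fun hx hy y1 =>
    L1 (L0 (o1 hx) hy y1 ▸ mem_zpowers _)
  have L3 : ∀ {x y : G}, Commute x y → ∀ a ∈ zpowers x, ∀ b ∈ zpowers y, a * b = b * a := fun h a ha b hb =>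
    L1 ha (L1 hb h.symm).symm
  have L4 : ∀ X ∈ K, ∃ x, X = zpowers x := fun X hX => by
    obtain ⟨x, hx⟩ := (Subgroup.isCyclic_iff_exists_zpowers_eq_top X).1 (isCyclic_of_prime_card (hK X hX))
    exact ⟨x, hx.symm⟩
  have a' : ∀ {x y : G}, P x → P y → Commute x y → x ∉ zpowers y → ∀ i j : ℤ, x ^ i * y ^ j ≠ 1 → P (x ^ i * y ^ j) :=
    fun {x y} hx hy hc hn i j h1 => ha _ hx _ hy (fun e => hn (e ▸ mem_zpowers x)) (L3 hc) _
      (zpowers_le.2 (mul_mem_sup (zpow_mem_zpowers x i) (zpow_mem_zpowers y j))) (by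
        rw [Nat.card_zpowers, orderOf_eq_prime (p := p) _ h1]
        rw [(hc.zpow_zpow i j).mul_pow, ← zpow_natCast, ← zpow_natCast, ← zpow_mul, ← zpow_mul, mul_comm i, mul_comm j,
          zpow_mul, zpow_mul]
        nth_rewrite 1 [← o1 hx]
        rw [← o1 hy]; simp)
  have b' : ∀ {x y w : G}, P x → P y → Commute x y → x ∉ zpowers y → P w →
      ∃ i j : ℤ, x ^ i * y ^ j ≠ 1 ∧ Commute (x ^ i * y ^ j) w := fun {x y w} hx hy hc hn hw => by
    obtain ⟨⟨g, h1, h2⟩, g1⟩ := ne_bot_iff_exists_ne_one.1 (hb _ hx _ hy (fun e => hn (e ▸ mem_zpowers x)) (L3 hc) _ hw)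
    obtain ⟨_, ⟨i, rfl⟩, _, ⟨j, rfl⟩, rfl⟩ := (coe_mul_of_left_le_normalizer_right _ _ (zpowers_le.2
      (H03.mem_normalizer_of_conj_le fun a ha => by
        rwa [L3 hc x (mem_zpowers x) a ha, mul_inv_cancel_right]))).le h1
    exact ⟨i, j, fun e => g1 (Subtype.ext e), (h2 w (mem_zpowers w)).symm⟩
  have md : ∀ {x y t : G}, P x → P y → Commute x y → x ∉ zpowers y → P t → ¬ Commute y t →
      ∃ j : ℤ, P (x * y ^ j) ∧ Commute (x * y ^ j) t := fun {x y t} hx hy hc hn ht h => by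
    obtain ⟨i, j, h1, h2⟩ := b' hx hy hc hn ht
    by_cases e : x ^ i = 1
    · rw [e, one_mul] at h1 h2
      exact absurd (L2 hy (zpow_mem_zpowers y j) h1 h2) h
    obtain ⟨c, hc'⟩ := (L0 (o1 hx) (zpow_mem_zpowers x i) e).ge (mem_zpowers x)
    refine ⟨j * c, by simpa using a' hx hy hc hn 1 (j * c) fun e => hn (by
      rw [← zpow_one x, eq_inv_of_mul_eq_one_left e]; exact inv_mem (zpow_mem_zpowers _ _)), ?_⟩
    have := h2.zpow_left c
    rwa [(hc.zpow_zpow i j).mul_zpow, show (x ^ i) ^ c = x from hc', ← zpow_mul] at this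
  have cj : ∀ {x : G}, P x → ∀ g, P (g * x * g⁻¹) := fun h g => by
    have := hKc _ h g
    rwa [MonoidHom.map_zpowers] at this
  obtain ⟨X₀, hX, Y₀, hY, hne, hc⟩ := hex
  obtain ⟨v, hv, h⟩ : ∃ v, P v ∧ ∀ w, P w → Commute v w := by
    by_contra! h
    obtain ⟨x, rfl⟩ := L4 X₀ hX
    obtain ⟨y, rfl⟩ := L4 Y₀ hY
    replace hc : Commute x y := hc x (mem_zpowers x) y (mem_zpowers y)
    obtain ⟨u, hu, h1⟩ := h y hY
    obtain ⟨j, hX', h2⟩ := md hX hY hc (fun e => hne (L0 (o1 hY) e (n1 hX))) hu h1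
    have h3 : Commute (x * y ^ j) y := hc.mul_left (Commute.zpow_self y j)
    generalize x * y ^ j = X at hX' h2 h3
    obtain ⟨w, hw, h4⟩ := h X hX'
    obtain ⟨i, -, h5⟩ := md hu hX' h2.symm (fun e => h1 (L1 e h3).symm) hw h4
    obtain ⟨k, hY', h6⟩ := md hY hX' h3.symm (fun e => h1 (L1 e h2)) hw h4
    have h7 : ¬ Commute (y * X ^ k) (u * X ^ i) := fun e => h1 (by
      have e1 : Commute y (u * X ^ i) := by
        simpa using e.mul_left ((h2.mul_right (Commute.self_zpow X i)).zpow_left k).inv_left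
      simpa using e1.mul_right (h3.zpow_left i).symm.inv_right)
    have h8 : Commute X (y * X ^ k) := h3.mul_right (Commute.self_zpow X k)
    have h9 : Commute X (u * X ^ i) := h2.mul_right (Commute.self_zpow X i)
    replace hu : P (u * X ^ i) := by
      simpa using a' hu hX' h2.symm (fun e => h1 (L1 e h3).symm) 1 i fun e => h7 (by
        rw [zpow_one] at e; simp [e])
    generalize y * X ^ k = Y at hY' h6 h7 h8
    generalize u * X ^ i = U at hu h5 h7 h9
    have hXY : P (X * Y) := by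
      simpa using a' hX' hY' h8 (fun e => h4 (L1 e h6)) 1 1 fun e => h4 (L1 (by
        rw [← zpow_one X, eq_inv_of_mul_eq_one_left e]; simp) h6)
    obtain ⟨i, j, g1, g2⟩ := b' hw hu h5.symm (fun e => h4 (L1 e h9.symm).symm) hXY
    obtain ⟨z, hz⟩ : ∃ z, z = X⁻¹ * (w ^ i)⁻¹ * X * w ^ i := ⟨_, rfl⟩
    have e1 : z = U ^ j * Y * (U ^ j)⁻¹ * Y⁻¹ := by
      have e2 : w ^ i * X * (U ^ j * Y) = X * w ^ i * (Y * U ^ j) := by
        calc _ = w ^ i * U ^ j * (X * Y) := by rw [mul_assoc, mul_assoc, ← mul_assoc X, (h9.zpow_right j).eq, mul_assoc]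
          _ = _ := by rw [g2.eq, mul_assoc, mul_assoc, ← mul_assoc Y, (h6.zpow_right i).eq, mul_assoc]
      calc _ = (w ^ i * X)⁻¹ * (X * w ^ i * (Y * U ^ j)) * (Y * U ^ j)⁻¹ := by rw [hz]; group
        _ = _ := by rw [← e2]; group
    have c1 : Commute z X := e1 ▸ (((h9.zpow_right j).mul_right h8).mul_right (h9.zpow_right j).inv_right
      |>.mul_right h8.inv_right).symm
    have c2 : Commute z w := e1 ▸ (((h5.zpow_left j).mul_left h6).mul_left (h5.zpow_left j).inv_left).mul_left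
      h6.inv_left
    have z1 : z ≠ 1 := fun e => by
      have e3 : w ^ i = 1 := by_contra fun e3 => h4 (L2 hw (zpow_mem_zpowers w i) e3 (by
        rw [hz, mul_assoc, mul_assoc, inv_mul_eq_one, eq_inv_mul_iff_mul_eq] at e; exact e)).symm
      rw [e3, one_mul] at g1
      refine h7 (L2 hu (zpow_mem_zpowers U j) g1 ?_).symm
      rwa [e1, mul_inv_eq_one, mul_inv_eq_iff_eq_mul] at e
    have w1 : w ^ i ≠ 1 := fun e => z1 (by simp [hz, e])
    have hw' : P (w ^ i) := by simpa only [P, L0 (o1 hw) (zpow_mem_zpowers w i) w1] using hw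
    have h10 : P (X * z) := by simpa [hz, mul_assoc] using cj hX' (w ^ i)⁻¹
    have h11 : P z := by
      simpa [← c1.eq] using a' h10 hX' ((Commute.refl X).mul_left c1) (fun e => h4 (L2 hX'
        ((Subgroup.mul_mem_cancel_left _ (mem_zpowers X)).1 e) z1 c2)) 1 (-1) (by simpa [← c1.eq] using z1)
    obtain ⟨t, ht, h12⟩ := h z h11
    obtain ⟨a, -, h13⟩ := md hX' h11 c1.symm (fun e => h4 (L1 e c2)) ht h12
    obtain ⟨b, -, h14⟩ := md hw' h11 (c2.zpow_right i).symm (fun e => z1 (by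
      rw [hz, mul_assoc, mul_assoc, ← (L1 e c1).eq]; simp)) ht h12
    refine h12 (Eq.subst (motive := fun x => Commute x t) (Eq.symm ?_)
      (((h13.inv_left.mul_left h14.inv_left).mul_left h13).mul_left h14))
    have k1 : X * z ^ a * (w ^ i * z ^ b) = X * w ^ i * z ^ (a + b) := by
      rw [mul_assoc, ← mul_assoc (z ^ a), ((c2.zpow_left a).zpow_right i).eq]; group
    have k2 : w ^ i * z ^ b * (X * z ^ a) = w ^ i * X * z ^ (a + b) := by
      rw [mul_assoc, ← mul_assoc (z ^ b), (c1.zpow_left b).eq]; group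
    rw [← mul_inv_rev, mul_assoc, k1, k2]
    calc z = (z ^ (a + b))⁻¹ * z * z ^ (a + b) := by group
      _ = _ := by nth_rewrite 2 [hz]; group
  refine ⟨⟨_, hv, fun W hW => ?_, zpowers_le.2 (baer_suzuki_elt v fun g => ?_)⟩, fun hs => ?_⟩
  · obtain ⟨w, rfl⟩ := L4 W hW
    exact L3 (h w hW)
  · rw [closure_pair_eq]
    exact isPGroup_sup_zpowers_of_commute (isPGroup_zpowers_of_orderOf (o1 hv))
      (isPGroup_zpowers_of_orderOf (o1 (cj hv g))) (h _ (cj hv g))
  · have h1 := ((inferInstance : (Cfsg.pCore p G).Normal).eq_bot_or_eq_top).resolve_left fun e => n1 hv (mem_bot.1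
      (e.le (baer_suzuki_elt v fun g => closure_pair_eq v _ ▸ isPGroup_sup_zpowers_of_commute
        (isPGroup_zpowers_of_orderOf (o1 hv)) (isPGroup_zpowers_of_orderOf (o1 (cj hv g))) (h _ (cj hv g)))))
    have h2 := ((inferInstance : (center G).Normal).eq_bot_or_eq_top).resolve_left
      ((nontrivial_iff_ne_bot _).1 (H02.pCore_eq_top_iff.1 h1).center_nontrivial)
    have h3 : ∀ X ∈ K, X = ⊤ := fun X hX => (Normal.eq_bot_or_eq_top ⟨fun n hn g => by
      rwa [mem_center_iff.1 (h2.ge (mem_top n)) g, mul_inv_cancel_right]⟩).resolve_left fun e =>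
        hp.one_lt.ne (by rw [← hK X hX, e, card_bot])
    exact hne ((h3 _ hX).trans (h3 _ hY).symm)

end Cfsg.Agent.S3196
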