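import Cfsg.Statements.S3200
import Mathlib
import Cfsg.Agent.H27.Kazarin
import Cfsg.Agent.H01.Hall
-- import your own Cfsg.Agent.* helpers here

set_option autoImplicit false
open Cfsg

namespace Cfsg.Agent.S3200

open scoped Pointwise commutatorElement

theorem aux {G : Type*} [Group G] [Finite G] (D : Subgroup G) (h1 : (Nat.card D).Coprime 2)
    {k : ℕ} (h2 : D.index = 2 ^ k) (P : Sylow 2 G) : Subgroup.IsComplement' (P : Subgroup G) D := by
  obtain ⟨m, hm⟩ := P.isPGroup'.exists_card_eq
  have hc : (Nat.card P).Coprime (Nat.card D) := by rw [hm]; exact h1.symm.pow_left m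
  apply Subgroup.isComplement'_of_coprime _ hc
  have e1 := (P : Subgroup G).card_mul_index
  have e2 := D.card_mul_index
  have h3 : Nat.card D ∣ (P : Subgroup G).index := by
    apply hc.symm.dvd_of_dvd_mul_left
    rw [e1]; exact D.card_subgroup_dvd_card
  have h4 : (P : Subgroup G).index ∣ Nat.card D := by
    apply Nat.Coprime.dvd_of_dvd_mul_right (k := (P : Subgroup G).index) (n := D.index)
    · rw [h2]; exact (Nat.coprime_comm.mp ((Nat.Prime.coprime_iff_not_dvd Nat.prime_two).mpr P.not_dvd_index)).pow_right k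
    · rw [e2]; exact Subgroup.index_dvd_card _
  rw [Nat.dvd_antisymm h3 h4, e1]

/-- Let H be a finite group in which a Sylow 2-subgroup has an abelian complement (an abelian subgroup meeting it trivially whose product with it is all of H). Then H is solvable, and every subgroup and every quotient group of H again has a Sylow 2-subgroup with an abelian complement. -/
theorem result {H : Type*} [Group H] [Finite H]
    (S : Sylow 2 H) (C : Subgroup H) (hC : IsMulCommutative ↥C) (hSC : Subgroup.IsComplement' (S : Subgroup H) C) :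
    Group.IsSolvable H ∧
    (∀ L : Subgroup H, ∃ (P : Sylow 2 ↥L) (D : Subgroup ↥L), IsMulCommutative ↥D ∧ Subgroup.IsComplement' (P : Subgroup ↥L) D) ∧
    (∀ (N : Subgroup H) [N.Normal], ∃ (P : Sylow 2 (H ⧸ N)) (D : Subgroup (H ⧸ N)),
      IsMulCommutative ↥D ∧ Subgroup.IsComplement' (P : Subgroup (H ⧸ N)) D) := by
  have hp := Nat.prime_two
  obtain ⟨k, hk⟩ := S.isPGroup'.exists_card_eq
  have hi : C.index = 2 ^ k := by rw [hSC.index_eq_card]; exact hk
  have hc : (Nat.card C).Coprime 2 := by
    rw [← hSC.symm.index_eq_card]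
    exact Nat.coprime_comm.mp ((Nat.Prime.coprime_iff_not_dvd Nat.prime_two).mpr S.not_dvd_index)
  have h2 : ∀ y ∈ C, H27.cs y ∣ 2 ^ k := fun y hy => hi ▸ Subgroup.index_dvd_of_le fun a ha =>
      H27.mem_cent.2 (congrArg Subtype.val (hC.is_comm.comm (⟨a, ha⟩ : C) ⟨y, hy⟩))
  have hK : C ≤ solvableRadical H := fun y hy => H27.kazarin hp (h2 y hy)
  haveI hsol : Group.IsSolvable H := by
    obtain ⟨m, -, hm⟩ := (Nat.dvd_prime_pow hp).1 (hi ▸ Subgroup.index_dvd_of_le hK)
    haveI := (IsPGroup.of_card (G := H ⧸ solvableRadical H) hm).isNilpotent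
    exact H02.isSolvable_of_normal_of_quotient (solvableRadical H)
  have hH : IsPiHall {2}ᶜ C := by
    rw [H01.isPiHall_iff, H01.piNum_compl_singleton_iff hp, compl_compl,
      H01.piNum_singleton_iff hp Subgroup.index_ne_zero_of_finite]
    exact ⟨hc, k, hi⟩
  refine ⟨hsol, fun L => ?_, fun N _ => ?_⟩
  · obtain ⟨D, hD⟩ := H01.exists_isPiHall {2}ᶜ L
    rw [H01.isPiHall_iff, H01.piNum_compl_singleton_iff hp, compl_compl,
      H01.piNum_singleton_iff hp Subgroup.index_ne_zero_of_finite] at hD
    obtain ⟨h3, m, hm⟩ := hD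
    refine ⟨default, D, ?_, aux D h3 hm _⟩
    obtain ⟨g, hg⟩ := H01.exists_conj_le_isPiHall (K := D.map L.subtype) hH (by
      rwa [H01.piNum_compl_singleton_iff hp, Subgroup.card_map_of_injective L.subtype_injective])
    refine ⟨⟨fun x y => Subtype.ext (Subtype.ext ?_)⟩⟩
    have hx := hg (Subgroup.smul_mem_pointwise_smul _ _ _ (Subgroup.mem_map_of_mem L.subtype x.2))
    have hy := hg (Subgroup.smul_mem_pointwise_smul _ _ _ (Subgroup.mem_map_of_mem L.subtype y.2))
    have := congrArg Subtype.val (hC.is_comm.comm (⟨_, hx⟩ : C) ⟨_, hy⟩)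
    apply (MulAut.conj g).injective
    simp only [Subgroup.coe_mul, map_mul]
    exact this
  · obtain ⟨m, -, hm⟩ := (Nat.dvd_prime_pow hp).1
      (hi ▸ Subgroup.index_map_dvd C (QuotientGroup.mk'_surjective N))
    exact ⟨default, C.map (QuotientGroup.mk' N), Subgroup.map_isMulCommutative _ _,
      aux _ (hc.coprime_dvd_left (Subgroup.card_map_dvd _ _)) hm _⟩

end Cfsg.Agent.S3200
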