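import Mathlib
import Cfsg.Statements.S3202
import Cfsg.Agent.H08.Util
import Cfsg.Agent.H04.Quat2

set_option autoImplicit false
open Cfsg

namespace Cfsg.Agent.S3202

open Subgroup H08
open scoped commutatorElement

theorem gens {S : Type*} [Group S] [Finite S] (hS : IsPGroup 2 S) (D : Subgroup S) [D.Normal]
    (h1 : ¬ IsMulCommutative (S ⧸ D)) (h2 : ∃! x : S ⧸ D, orderOf x = 2) : ∃ (m : ℕ) (a b : S),
      H04.DSQ m (a : S ⧸ D) b ∧ (b : S ⧸ D) ^ 2 = (a : S ⧸ D) ^ 2 ^ (m + 1) ∧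
        (b : S ⧸ D) * a * (b : S ⧸ D)⁻¹ = (a : S ⧸ D)⁻¹ := by
  have key : ∀ H : Subgroup (S ⧸ D), Nat.card H = 2 → H = zpowers h2.choose := fun H hH => by
    obtain ⟨x, hx, h3⟩ := even_card_iff.1 (hH ▸ even_two)
    rw [← h2.unique h3 h2.choose_spec.1]
    exact (eq_of_le_of_card_ge (zpowers_le.2 hx) (by rw [hH, Nat.card_zpowers, h3])).symm
  obtain h | ⟨m, a, b, h⟩ := H04.isCyclic_or_dsq_of_unique (hS.to_quotient D) fun H K hH hK =>
    (key H hH).trans (key K hK).symm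
  · exact absurd IsCyclic.isMulCommutative h1
  obtain ⟨a, rfl⟩ := QuotientGroup.mk_surjective a
  obtain ⟨b, rfl⟩ := QuotientGroup.mk_surjective b
  exact ⟨m, a, b, h⟩

/-- Let S be a finite 2-group of 2-rank exactly 2 and D a maximal subgroup of the centre of S such that S/D is a non-abelian group with exactly one involution (a generalized quaternion group). Then S has a nontrivial cyclic characteristic subgroup. -/
theorem result {S : Type*} [Group S]
    [Finite S] (hS : IsPGroup 2 S) (hr2 : Cfsg.PRankLE 2 2 S) (hr1 : ¬ Cfsg.PRankLE 2 1 S)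
    (D : Subgroup ↥(Subgroup.center S)) (hD : IsCoatom D)
    (hq : ∃ (_ : (D.map (Subgroup.center S).subtype).Normal),
      ¬ IsMulCommutative (S ⧸ D.map (Subgroup.center S).subtype) ∧
      ∃! x : S ⧸ D.map (Subgroup.center S).subtype, orderOf x = 2) :
    ∃ C : Subgroup S, C ≠ ⊥ ∧ IsCyclic ↥C ∧ C.Characteristic := by
  obtain ⟨_, h1, h2⟩ := hq
  obtain ⟨m, a, b, h, h3, h4⟩ := gens hS _ h1 h2
  have hZ : ∀ {x y : S}, (x : S ⧸ D.map (center S).subtype) = y → ∃ z ∈ center S, y = x * z := fun e =>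
    ⟨_, map_subtype_le _ (QuotientGroup.eq.1 e), by simp⟩
  have hc : ∀ x : S, ∃ i : ℤ, ∃ z ∈ center S, x = a ^ i * z ∨ x = b * a ^ i * z := fun x => by
    rcases h.cases (x : S ⧸ D.map (center S).subtype) with ⟨i, e⟩ | ⟨i, e⟩
    · obtain ⟨z, hz, e⟩ := hZ e.symm
      exact ⟨i, z, hz, Or.inl e⟩
    · obtain ⟨z, hz, e⟩ := hZ e.symm
      exact ⟨i, z, hz, Or.inr e⟩
  obtain ⟨z, hz, e⟩ := hZ (x := a⁻¹) (y := b * a * b⁻¹) h4.symm
  have hz' := mem_center_iff.1 hz
  have h5 : ⁅b, a⁆ = a⁻¹ * a⁻¹ * z := by rw [commutatorElement_def, e, mul_assoc, ← hz', mul_assoc]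
  obtain ⟨w, hw, e'⟩ := hZ (x := a ^ 2 ^ (m + 1)) (y := b ^ 2) h3.symm
  have h6 : Commute (b * b) a := by
    rw [← pow_two, e']; exact ((Commute.refl a).pow_left _).mul_left (mem_center_iff.1 hw a).symm
  have h7 : ∀ g ∈ ({a, b} : Set S), g * ⁅b, a⁆ * g⁻¹ ∈ zpowers ⁅b, a⁆ := by
    rintro g (rfl | rfl)
    · convert mem_zpowers ⁅b, g⁆ using 1
      rw [h5, mul_assoc, mul_assoc, ← hz']; group
    · convert inv_mem (mem_zpowers ⁅g, a⁆) using 1
      rw [commutatorElement_def]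
      calc _ = (g * g * a) * g⁻¹ * g⁻¹ * (g * a⁻¹ * g⁻¹) := by group
        _ = _ := by rw [h6.eq]; group
  have h8 : closure ({a, b} : Set S) ⊔ center S = ⊤ := eq_top_iff.2 fun x _ => by
    have ha : a ∈ closure ({a, b} : Set S) := subset_closure (by simp)
    have hb : b ∈ closure ({a, b} : Set S) := subset_closure (by simp)
    obtain ⟨i, z, hz, rfl | rfl⟩ := hc x
    exacts [mul_mem_sup (zpow_mem ha i) hz, mul_mem_sup (mul_mem hb (zpow_mem ha i)) hz]
  have hN : (zpowers ⁅b, a⁆).Normal := normalizer_eq_top_iff.1 (eq_top_iff.2 (h8.ge.trans (sup_le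
    ((closure_le _).2 fun g hg => H03.mem_normalizer_of_conj_le (by
      rintro _ ⟨k, rfl⟩; rw [← conj_zpow]; exact zpow_mem (h7 g hg) k)) (center_le_normalizer _))))
  have h9 : commutator S = zpowers ⁅b, a⁆ := by
    refine le_antisymm (Normal.quotient_commutative_iff_commutator_le.1 ⟨⟨fun x y => ?_⟩⟩)
      (zpowers_le.2 (commutator_mem_commutator (mem_top _) (mem_top _)))
    have k : Commute (b : S ⧸ zpowers ⁅b, a⁆) a := by
      rw [← commutatorElement_eq_one_iff_commute]; exact (QuotientGroup.eq_one_iff _).2 (mem_zpowers _)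
    have k2 : ∀ z ∈ center S, ∀ y : S ⧸ zpowers ⁅b, a⁆, Commute (z : S ⧸ zpowers ⁅b, a⁆) y := fun z hz y => by
      obtain ⟨y, rfl⟩ := QuotientGroup.mk_surjective y
      exact congrArg _ (mem_center_iff.1 hz y).symm
    obtain ⟨x, rfl⟩ := QuotientGroup.mk_surjective x
    obtain ⟨y, rfl⟩ := QuotientGroup.mk_surjective y
    obtain ⟨i, z, hz, rfl | rfl⟩ := hc x <;> obtain ⟨j, w, hw, rfl | rfl⟩ := hc y <;>
      simp only [QuotientGroup.mk_mul, QuotientGroup.mk_zpow] <;>
      refine Commute.mul_left (Commute.mul_right ?_ (k2 w hw _).symm) (k2 z hz _)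
    · exact Commute.zpow_zpow_self _ i j
    · exact (k.symm.zpow_left i).mul_right (Commute.zpow_zpow_self _ i j)
    · exact (k.zpow_right j).mul_left (Commute.zpow_zpow_self _ i j)
    · exact ((Commute.refl _).mul_right (k.zpow_right j)).mul_left
        ((k.symm.zpow_left i).mul_right (Commute.zpow_zpow_self _ i j))
  refine ⟨commutator S, fun e => h1 ?_, h9 ▸ inferInstance, inferInstance⟩
  exact Normal.quotient_commutative_iff_commutator_le.2 (e ▸ bot_le)

end Cfsg.Agent.S3202
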