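import Mathlib
import Cfsg.Statements.S3201
import Cfsg.Agent.S3202

set_option autoImplicit false
open Cfsg

namespace Cfsg.Agent.S3201

open Subgroup H08

/-- Let S be a finite 2-group whose centre Z(S) has n ≥ 2 distinct maximal subgroups C₁, …, Cₙ with trivial intersection such that each quotient S/Cᵢ is a non-abelian group with exactly one involution (a generalized quaternion group). Then S is the internal direct product of an elementary abelian subgroup and a non-abelian subgroup with exactly one involution. -/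
theorem result {S : Type*} [Group S] [Finite S]
    (hS : IsPGroup 2 S) (n : ℕ) (hn : 2 ≤ n) (C : Fin n → Subgroup ↥(Subgroup.center S))
    (hCmax : ∀ i, IsCoatom (C i)) (hCinj : Function.Injective C) (hCint : ⨅ i, C i = ⊥)
    (hCq : ∀ i, ∃ (_ : ((C i).map (Subgroup.center S).subtype).Normal),
      ¬ IsMulCommutative (S ⧸ (C i).map (Subgroup.center S).subtype) ∧
      ∃! x : S ⧸ (C i).map (Subgroup.center S).subtype, orderOf x = 2) :
    ∃ E Q : Subgroup S, Cfsg.IsInternalDirectProduct E Q ⊤ ∧ Cfsg.IsElementaryAbelian 2 E ∧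
      ¬ IsMulCommutative ↥Q ∧ ∃! x : ↥Q, orderOf x = 2 := by
  have hi : ∀ i, (C i).index = 2 := fun i => H04.index_eq_of_isCoatom (hS.to_subgroup _) (hCmax i)
  have F2 : ∀ x ∈ center S, (∀ i, x ∈ (C i).map (center S).subtype) → x = 1 := fun x hx h =>
    congrArg Subtype.val (mem_bot.1 (hCint.le (mem_iInf.2 fun i => (mem_map_iff_mem (subtype_injective _)).1 (h i) :
      (⟨x, hx⟩ : center S) ∈ _)))
  have F3 : ∀ z ∈ center S, z * z = 1 := fun z hz => F2 _ (mul_mem hz hz) fun i =>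
    ⟨_, mul_self_mem_of_index_two (hi i) ⟨z, hz⟩, rfl⟩
  have F4 : ∀ i, ∀ s, s * s ∈ (C i).map (center S).subtype → s ∈ center S := fun i s hs => by
    obtain ⟨_, -, h⟩ := hCq i
    obtain ⟨z, -, hz⟩ := SetLike.exists_of_lt (hCmax i).1.lt_top
    by_cases h1 : s ∈ (C i).map (center S).subtype
    · exact map_subtype_le _ h1
    have k : ∀ s, s * s ∈ (C i).map (center S).subtype → s ∉ (C i).map (center S).subtype →
        orderOf (s : S ⧸ (C i).map (center S).subtype) = 2 := fun s h1 h2 => orderOf_eq_two_iff'.2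
      ⟨(QuotientGroup.eq_one_iff _).2 h1, (QuotientGroup.eq_one_iff _).not.2 h2⟩
    have := QuotientGroup.eq.1 (h.unique (k z (F3 z z.2 ▸ one_mem _)
      ((mem_map_iff_mem (subtype_injective _)).not.2 hz)) (k s hs h1))
    exact (Subgroup.mul_mem_cancel_left _ (inv_mem z.2)).1 (map_subtype_le _ this)
  have F5 : ∀ s s', s ∉ center S → s * s ∈ center S → s' ∉ center S → s' * s' ∈ center S → s * s = s' * s' :=
    fun s s' h1 h2 h3 h4 => by
      rw [← inv_eq_of_mul_eq_one_right (F3 _ h4), eq_inv_iff_mul_eq_one]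
      refine F2 _ (mul_mem h2 h4) fun i => ⟨⟨_, h2⟩ * ⟨_, h4⟩, (mul_mem_iff_of_index_two (hi i)).2
        (iff_of_false (fun e => h1 (F4 i s ⟨_, e, rfl⟩)) fun e => h3 (F4 i s' ⟨_, e, rfl⟩)), rfl⟩
  let i : Fin n := ⟨0, by omega⟩
  obtain ⟨_, h1, h2⟩ := hCq i
  obtain ⟨m, a, b, h, h3, h4⟩ := S3202.gens hS _ h1 h2
  have h5 := h.pow_ne_one le_rfl
  have h6 : ∀ x : S, (x : S ⧸ (C i).map (center S).subtype) ^ 2 = (a : S ⧸ (C i).map (center S).subtype) ^ 2 ^ (m + 1) →
      x ∉ center S ∧ x * x ∈ center S := fun x hx => by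
    refine ⟨fun e => h5 (by rw [← hx, sq, ← QuotientGroup.mk_mul, F3 x e]; rfl), F4 i _ ((QuotientGroup.eq_one_iff _).1 ?_)⟩
    rw [QuotientGroup.mk_mul, QuotientGroup.mk_mul, ← sq (x : S ⧸ (C i).map (center S).subtype), hx, ← pow_add, ← two_mul, ← pow_succ', ← h.ord,
      pow_orderOf_eq_one]
  obtain ⟨b1, b2⟩ := h6 b h3
  obtain ⟨c1, c2⟩ := h6 (a * b) (by
    rw [← h3, QuotientGroup.mk_mul, sq, sq, mul_assoc, ← mul_assoc (b : S ⧸ (C i).map (center S).subtype), mul_inv_eq_iff_eq_mul.1 h4]; group)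
  obtain ⟨d1, d2⟩ := h6 (a ^ 2 ^ m) (by rw [QuotientGroup.mk_pow, ← pow_mul, ← pow_succ])
  have e1 : b * a * b⁻¹ = a ^ (-1 : ℤ) := by
    have := F5 _ _ c1 c2 b1 b2
    rw [← mul_assoc, mul_left_inj] at this
    rw [zpow_neg_one, mul_inv_eq_iff_eq_mul, eq_inv_mul_iff_mul_eq, ← mul_assoc, this]
  have e2 : b * b = a ^ ((2 ^ m + 2 ^ m : ℕ) : ℤ) := by rw [F5 _ _ b1 b2 d1 d2, zpow_natCast, pow_add]
  have e3 : b * b ∉ (C i).map (center S).subtype := fun e => b1 (F4 i b e)
  have e4 : orderOf (b * b) = 2 := orderOf_eq_two_iff'.2 ⟨F3 _ b2, fun e => e3 (e ▸ one_mem _)⟩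
  have e5 : ∀ x ∈ closure ({a, b} : Set S), orderOf x = 2 → x = b * b := fun x hx h2 => by
    obtain ⟨k, rfl | rfl⟩ := mem_closure_pair_of_normalizes e1 e2 hx
    · exact invol_eq_of_isCyclic h2 e4 (zpow_mem_zpowers a k) (e2 ▸ zpow_mem_zpowers a _)
    · refine absurd ?_ (ne_one_of_orderOf e4)
      rw [← mul_self_of_orderOf h2, mul_assoc, ← mul_assoc b, mul_zpow_of_inv (by simpa using e1)]; group
  have ha : a ∈ closure ({a, b} : Set S) := subset_closure (by simp)
  have hb : b ∈ closure ({a, b} : Set S) := subset_closure (by simp)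
  refine ⟨(C i).map (center S).subtype, closure {a, b}, ⟨le_top, le_top, fun x hx y _ =>
    (mem_center_iff.1 (map_subtype_le _ hx) y).symm, eq_bot_iff.2 fun x hx => by_contra fun x1 => e3 (e5 x hx.2
      (orderOf_eq_two_iff'.2 ⟨F3 x (map_subtype_le _ hx.1), x1⟩) ▸ hx.1), ?_⟩,
    ⟨⟨⟨fun x y => Subtype.ext (mem_center_iff.1 (map_subtype_le _ y.2) x)⟩⟩, fun x hx =>
      (sq x).trans (F3 x (map_subtype_le _ hx))⟩, fun e => h.not_commute (congrArg QuotientGroup.mk
        (congrArg Subtype.val (e.is_comm.comm ⟨b, hb⟩ ⟨a, ha⟩))), ⟨_, mul_mem hb hb⟩, (orderOf_coe _).symm.trans e4,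
          fun x hx => Subtype.ext (e5 x x.2 ((orderOf_coe _).trans hx))⟩
  have := congrArg (comap (QuotientGroup.mk' _)) h.closure_eq
  rwa [← QuotientGroup.mk'_apply, ← QuotientGroup.mk'_apply, ← Set.image_pair, ← MonoidHom.map_closure, comap_map_eq,
    QuotientGroup.ker_mk', sup_comm] at this

end Cfsg.Agent.S3201
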