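import Mathlib
import Cfsg.Statements.S3206
import Cfsg.Agent.H06.JR3

set_option autoImplicit false
open Cfsg

namespace Cfsg.Agent.S3206

/-- Let G be a non-abelian finite simple group with abelian Sylow 2-subgroups, and let t be an involution of G whose centralizer is a maximal subgroup of G and is the direct product of the subgroup generated by t with a subgroup E having a normal subgroup isomorphic to PSL(2, q), q odd and greater than 3, with trivial centralizer in E. Then every finite perfect group having a central 2-subgroup with quotient isomorphic to G has that central subgroup trivial (G has no nontrivial perfect central extension by a 2-group), and every automorphism of G of 2-power order that fixes every element of some Sylow 2-subgroup of G is inner. -/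
theorem result {G : Type*} [Group G] [Finite G] [IsSimpleGroup G]
    (hG : ¬ IsMulCommutative G) (hab : ∀ S : Sylow 2 G, IsMulCommutative ↥(S : Subgroup G))
    (t : G) (ht : orderOf t = 2) (hmax : IsCoatom (Subgroup.centralizer ({t} : Set G)))
    (E : Subgroup G) (hE : Cfsg.IsInternalDirectProduct (Subgroup.zpowers t) E (Subgroup.centralizer ({t} : Set G)))
    {F : Type*} [Field F] [Fintype F] (hFo : Odd (Fintype.card F)) (hF3 : 3 < Fintype.card F)
    (N : Subgroup ↥E) [N.Normal] (hN : Nonempty (↥N ≃* Matrix.ProjectiveSpecialLinearGroup (Fin 2) F))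
    (hNc : Subgroup.centralizer (N : Set ↥E) = ⊥) :
    (∀ (L : Type) (_ : Group L) (_ : Finite L) (Z : Subgroup L) (_ : Z.Normal), commutator L = ⊤ → Z ≤ Subgroup.center L →
        IsPGroup 2 ↥Z → Nonempty (L ⧸ Z ≃* G) → Z = ⊥) ∧
    (∀ (φ : G ≃* G) (k : ℕ), φ ^ (2 ^ k) = 1 → (∃ S : Sylow 2 G, ∀ s ∈ (S : Subgroup G), φ s = s) →
        ∃ g : G, ∀ x : G, φ x = g * x * g⁻¹) := by
  obtain ⟨S⟩ : Nonempty (Sylow 2 G) := inferInstance
  obtain ⟨e⟩ := hN
  obtain ⟨h1, h2⟩ := H06.map_facts N hNc
  have h := H06.JR8.of_psl (H06.ab2_of_sylow S (hab S)) (H06.no_index_two' hG) ht hE (Subgroup.map_subtype_le N) h1 h2 hFo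
    ((N.equivMapOfInjective _ E.subtype_injective).symm.trans e)
  refine ⟨fun L _ _ Z _ hL hZ hp ⟨f⟩ => ?_, fun φ k h1 ⟨T, hT⟩ => ?_⟩
  · have k : (f.toMonoidHom.comp (QuotientGroup.mk' Z)).ker = Z := by
      rw [← MonoidHom.comap_ker, (MonoidHom.ker_eq_bot_iff _).2 f.injective, MonoidHom.comap_bot, QuotientGroup.ker_mk']
    rw [← k] at hZ hp ⊢
    exact h.cover _ hZ (f.surjective.comp (QuotientGroup.mk'_surjective Z)) hL hp
  · refine H06.inner_of_ab2 ?_ (fun K hK ho => hK.eq_bot_or_eq_top.resolve_right fun e => ?_) T (hab T) h1 hT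
    · exact (Subgroup.center G).normal_of_characteristic.eq_bot_or_eq_top.resolve_right fun e =>
        hG ⟨⟨fun a b => (Subgroup.mem_center_iff.1 (e.ge (Subgroup.mem_top b)) a)⟩⟩
    · exact absurd (ht ▸ H08.odd_orderOf_of_mem ho (e ▸ Subgroup.mem_top t)) (by decide)

end Cfsg.Agent.S3206
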