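import Cfsg.Statements.S3208
import Mathlib
import Cfsg.Agent.H26.Syl
-- import your own Cfsg.Agent.* helpers here

set_option autoImplicit false
open Cfsg

namespace Cfsg.Agent.S3208

open scoped Pointwise commutatorElement

open H26

/-- Let j be an involution of a finite group G, H a subgroup of G, and T a Sylow 2-subgroup of H ∩ C_G(j) containing j such that ⟨j⟩ is a characteristic subgroup of T. Then T is a Sylow 2-subgroup of H. -/
theorem result {G : Type*} [Group G] [Finite G]
    (j : G) (hj : orderOf j = 2) (H T : Subgroup G) (hT : T ≤ H ⊓ Subgroup.centralizer ({j} : Set G)) (h2 : IsPGroup 2 ↥T)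
    (hSyl : ¬ 2 ∣ T.relIndex (H ⊓ Subgroup.centralizer ({j} : Set G))) (hjT : j ∈ T)
    (hchar : ((Subgroup.zpowers j).subgroupOf T).Characteristic) :
    ¬ 2 ∣ T.relIndex H := by
  classical
  haveI : Fact (Nat.Prime 2) := ⟨Nat.prime_two⟩
  have hS : H26.IsSyl 2 T (H ⊓ Subgroup.centralizer ({j} : Set G)) := H26.isSyl_of_not_dvd hT h2 hSyl
  obtain ⟨S, hS', hTS⟩ := H26.exists_isSyl_ge h2 (hT.trans inf_le_left)
  have hle : S ≤ T := by
    apply H26.le_of_inf_normalizer_le hS'.pg hTS
    apply le_of_eq
    apply hS.max _ (hS'.pg.to_le inf_le_left) (le_inf hTS Subgroup.le_normalizer)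
    intro g hg
    refine ⟨hS'.le hg.1, ?_⟩
    have hgN : g ∈ Subgroup.normalizer (T : Set G) := hg.2
    have h3 := hchar.fixed (T.normalizerMonoidHom ⟨g, hgN⟩)
    have h4 : (⟨j, hjT⟩ : T) ∈ (Subgroup.zpowers j).subgroupOf T := Subgroup.mem_zpowers j
    rw [← h3, Subgroup.mem_comap] at h4
    have h5 : g * j * g⁻¹ ∈ Subgroup.zpowers j := h4
    rw [mem_zpowers_iff_mem_range_orderOf, hj] at h5
    simp only [Finset.mem_image, Finset.mem_range] at h5
    obtain ⟨k, hk, hk'⟩ := h5
    refine Subgroup.mem_centralizer_singleton_iff.mpr ?_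
    interval_cases k
    · exfalso
      have : j = 1 := by
        have : j = g⁻¹ * (g * j * g⁻¹) * g := by group
        rw [this, ← hk']; simp
      rw [this] at hj; simp at hj
    · rw [pow_one] at hk'
      calc g * j = (g * j * g⁻¹) * g := by group
        _ = j * g := by rw [← hk']
  have : S = T := le_antisymm hle hTS
  rw [← this]; exact hS'.not_dvd

end Cfsg.Agent.S3208
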