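import Mathlib
import Cfsg.Statements.S3211
import Cfsg.Agent.H01.SL2Ord4
import Cfsg.Agent.H08.Isolated
import Cfsg.Agent.S0215

set_option autoImplicit false
open Cfsg

namespace Cfsg.Agent.S3211

open scoped Pointwise in
theorem isolated {G : Type*} [Group G] {L₁ L₂ : Subgroup G} {j n : G}
    (q₁ : H01.SL4.Q L₁ j) (q₂ : H01.SL4.Q L₂ j)
    (hc : ∀ x ∈ L₁, ∀ y ∈ L₂, x * y = y * x) (hj : orderOf j = 2) (hm : L₁ ⊓ L₂ = Subgroup.zpowers j)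
    (hle : L₁ ⊔ L₂ ≤ Subgroup.centralizer ({j} : Set G))
    (hi : (L₁ ⊔ L₂).relIndex (Subgroup.centralizer ({j} : Set G)) = 2)
    (hn : n ∈ Subgroup.centralizer ({j} : Set G))
    (hn2 : n ^ 2 = j) (hswap : L₁.map (MulAut.conj n).toMonoidHom = L₂) :
    Cfsg.IsIsolatedInvolution j := by
  have hj2 : j * j = 1 := by rw [← pow_two, ← hj, pow_orderOf_eq_one]
  have hj1 : j ≠ 1 := by
    intro h
    rw [h, orderOf_one] at hj
    omega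
  have hnn : n * n = j := by rw [← pow_two, hn2]
  have hC : ∀ {c : G}, c ∈ Subgroup.centralizer ({j} : Set G) ↔ c * j = j * c :=
    Subgroup.mem_centralizer_singleton_iff
  have hc1 : ∀ x ∈ L₁, x * j = j * x := fun x hx => hC.1 (hle (Subgroup.mem_sup_left hx))
  have hc2 : ∀ x ∈ L₂, x * j = j * x := fun x hx => hC.1 (hle (Subgroup.mem_sup_right hx))
  have hjL : j ∈ L₁ ⊓ L₂ := hm ▸ Subgroup.mem_zpowers j
  have hZ : ∀ u ∈ L₁, u ∈ L₂ → u = 1 ∨ u = j := by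
    intro u h1 h2
    have : u ∈ Subgroup.zpowers j := hm ▸ (⟨h1, h2⟩ : u ∈ L₁ ⊓ L₂)
    obtain ⟨k, rfl⟩ := this
    apply q₁.one _ h1
    change j ^ k * j ^ k = 1
    rw [← (Commute.refl j).mul_zpow, hj2, one_zpow]
  have hs1 : ∀ x ∈ L₁, n * x * n⁻¹ ∈ L₂ := fun x hx => hswap ▸ ⟨x, hx, rfl⟩
  have hs2 : ∀ x ∈ L₂, n * x * n⁻¹ ∈ L₁ := by
    intro x hx
    rw [← hswap] at hx
    obtain ⟨y, hy, rfl⟩ := hx
    have : n * (n * y * n⁻¹) * n⁻¹ = y := by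
      calc n * (n * y * n⁻¹) * n⁻¹ = (n * n) * y * (n * n)⁻¹ := by group
        _ = y := by rw [hnn, ← hc1 y hy, mul_inv_cancel_right]
    change n * (n * y * n⁻¹) * n⁻¹ ∈ L₁
    rwa [this]
  have hK : ∀ c ∈ L₁ ⊔ L₂, ∃ x ∈ L₁, ∃ y ∈ L₂, c = x * y := by
    intro c hc'
    have hN : L₁ ≤ Subgroup.normalizer (L₂ : Set G) := fun x hx =>
      Subgroup.centralizer_le_normalizer _ fun y hy => (hc x hx y hy).symm
    have : c ∈ (L₁ : Set G) * (L₂ : Set G) := by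
      rw [← Subgroup.coe_mul_of_left_le_normalizer_right L₁ L₂ hN]
      exact hc'
    obtain ⟨x, hx, y, hy, rfl⟩ := this
    exact ⟨x, hx, y, hy, rfl⟩
  have hnK : n ∉ L₁ ⊔ L₂ := by
    intro h
    obtain ⟨x, hx, y, hy, rfl⟩ := hK n h
    obtain ⟨z, hz, hz2⟩ := q₁.ex
    have h1 := hs1 (x⁻¹ * z * x) (L₁.mul_mem (L₁.mul_mem (L₁.inv_mem hx) hz) hx)
    have : x * y * (x⁻¹ * z * x) * (x * y)⁻¹ = z := by
      rw [mul_assoc x y, ← hc _ (L₁.mul_mem (L₁.mul_mem (L₁.inv_mem hx) hz) hx) y hy]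
      group
    rw [this] at h1
    rcases hZ z hz h1 with h | h
    · rw [h, one_mul] at hz2
      exact hj1 hz2.symm
    · rw [h, hj2] at hz2
      exact hj1 hz2.symm
  have hdec : ∀ c : G, c * j = j * c →
      (∃ x ∈ L₁, ∃ y ∈ L₂, c = x * y) ∨ ∃ x ∈ L₁, ∃ y ∈ L₂, c = x * y * n := by
    intro c hc'
    by_cases h : c ∈ L₁ ⊔ L₂
    · exact Or.inl (hK c h)
    · right
      have := (Subgroup.mul_mem_iff_of_index_two hi (a := ⟨c, hC.2 hc'⟩) (b := ⟨n⁻¹, inv_mem hn⟩)).2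
        ⟨fun h' => absurd h' h, fun h' => absurd ((L₁ ⊔ L₂).inv_mem_iff.1 h') hnK⟩
      obtain ⟨x, hx, y, hy, e⟩ := hK _ this
      exact ⟨x, hx, y, hy, mul_inv_eq_iff_eq_mul.1 e⟩
  -- involutions of `C(j)`
  have hinv : ∀ w : G, w * j = j * w → w * w = 1 → ∃ x ∈ L₁, ∃ y ∈ L₂, w = x * y := by
    intro w hw hw2
    rcases hdec w hw with h | ⟨x, hx, y, hy, rfl⟩
    · exact h
    exfalso
    have hx' := hs1 x hx
    have hy' := hs2 y hy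
    have e : (x * (n * y * n⁻¹)) * (y * (n * x * n⁻¹)) * j = 1 := by
      rw [← hw2, ← hnn, mul_assoc x, ← mul_assoc (n * y * n⁻¹), hc _ hy' y hy, mul_assoc y,
        hc _ hy' _ hx']
      group
    have hu : x * (n * y * n⁻¹) ∈ L₂ := by
      rw [mul_assoc, mul_eq_one_iff_eq_inv] at e
      rw [e]
      exact L₂.inv_mem (L₂.mul_mem (L₂.mul_mem hy hx') hjL.2)
    have hv : y * (n * x * n⁻¹) = n * (x⁻¹ * (x * (n * y * n⁻¹)) * x) * n⁻¹ := by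
      calc y * (n * x * n⁻¹) = (j * y * j⁻¹) * (n * x * n⁻¹) := by
            rw [← hc2 y hy, mul_inv_cancel_right]
        _ = _ := by rw [← hnn]; group
    rw [hv] at e
    rcases hZ _ (L₁.mul_mem hx hy') hu with h | h
    · rw [h] at e
      exact hj1 (by simpa using e)
    · rw [h, mul_assoc x⁻¹, ← hc1 x hx, inv_mul_cancel_left, hC.1 hn, mul_inv_cancel_right, hj2,
        one_mul] at e
      exact hj1 e
  have hinv2 : ∀ x ∈ L₁, ∀ y ∈ L₂, (x * y) * (x * y) = 1 →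
      (x * y = 1 ∨ x * y = j) ∨ (x * x = j ∧ y * y = j) := by
    intro x hx y hy h
    have e : (x * x) * (y * y) = 1 := by
      calc (x * x) * (y * y) = x * (x * y) * y := by group
        _ = x * (y * x) * y := by rw [hc x hx y hy]
        _ = 1 := by rw [← h]; simp only [mul_assoc]
    have h1 : x * x ∈ L₂ := by
      rw [mul_eq_one_iff_eq_inv.1 e]
      exact L₂.inv_mem (L₂.mul_mem hy hy)
    rcases hZ _ (L₁.mul_mem hx hx) h1 with h2 | h2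
    · left
      rw [h2, one_mul] at e
      rcases q₁.one x hx h2 with rfl | rfl <;> rcases q₂.one y hy e with rfl | h3
      · simp
      · simp [h3]
      · simp
      · rw [h3, hj2]; simp
    · refine Or.inr ⟨h2, ?_⟩
      rw [h2, mul_eq_one_iff_inv_eq] at e
      rw [← e, inv_eq_of_mul_eq_one_right hj2]
  have hperm : ∀ r : G, r * j = j * r →
      ((∀ x ∈ L₁, r * x * r⁻¹ ∈ L₁) ∧ ∀ x ∈ L₂, r * x * r⁻¹ ∈ L₂) ∨
      ((∀ x ∈ L₁, r * x * r⁻¹ ∈ L₂) ∧ ∀ x ∈ L₂, r * x * r⁻¹ ∈ L₁) := by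
    have k1 : ∀ a ∈ L₁, ∀ b ∈ L₂, ∀ x ∈ L₁, (a * b) * x * (a * b)⁻¹ ∈ L₁ := by
      intro a ha b hb x hx
      have : (a * b) * x * (a * b)⁻¹ = a * x * a⁻¹ := by
        rw [mul_assoc a b x, ← hc x hx b hb]; group
      rw [this]
      exact L₁.mul_mem (L₁.mul_mem ha hx) (L₁.inv_mem ha)
    have k2 : ∀ a ∈ L₁, ∀ b ∈ L₂, ∀ x ∈ L₂, (a * b) * x * (a * b)⁻¹ ∈ L₂ := by
      intro a ha b hb x hx
      have : (a * b) * x * (a * b)⁻¹ = b * x * b⁻¹ := by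
        rw [hc a ha b hb, mul_assoc b a x, hc a ha x hx]; group
      rw [this]
      exact L₂.mul_mem (L₂.mul_mem hb hx) (L₂.inv_mem hb)
    intro r hr
    rcases hdec r hr with ⟨a, ha, b, hb, rfl⟩ | ⟨a, ha, b, hb, rfl⟩
    · exact Or.inl ⟨k1 a ha b hb, k2 a ha b hb⟩
    · refine Or.inr ⟨fun x hx => ?_, fun x hx => ?_⟩
      · have := k2 a ha b hb _ (hs1 x hx)
        simpa only [mul_inv_rev, mul_assoc] using this
      · have := k1 a ha b hb _ (hs2 x hx)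
        simpa only [mul_inv_rev, mul_assoc] using this
  have hZ' : ∀ u ∈ L₁, u ∈ L₂ → ∀ r : G, r * j = j * r → r * u * r⁻¹ = u ∧ u * u = 1 := by
    intro u h1 h2 r hr
    rcases hZ u h1 h2 with rfl | rfl
    · simp
    · exact ⟨by rw [hr, mul_inv_cancel_right], hj2⟩
  -- roots of `t`
  have step4 : ∀ x₁ ∈ L₁, ∀ x₂ ∈ L₂, x₁ * x₁ = j → x₂ * x₂ = j → ∀ r w : G, r * j = j * r →
      r * r = x₁ * x₂ → w * j = j * w → w * w = 1 → r * w * r⁻¹ = w →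
      w = 1 ∨ w = j ∨ w = x₁ * x₂ ∨ w = x₁ * x₂ * j := by
    intro x₁ hx₁ x₂ hx₂ e₁ e₂ r w hr hrr hw hww hrw
    obtain ⟨w₁, hw₁, w₂, hw₂, rfl⟩ := hinv w hw hww
    have e : (r * w₁ * r⁻¹) * (r * w₂ * r⁻¹) = w₁ * w₂ := by rw [← hrw]; group
    have key : r * (r * w₁ * r⁻¹) * r⁻¹ = w₁ := by
      rcases hperm r hr with ⟨k1, k2⟩ | ⟨k1, k2⟩
      · have h1 : w₁⁻¹ * (r * w₁ * r⁻¹) = w₂ * (r * w₂ * r⁻¹)⁻¹ := by
          rw [inv_mul_eq_iff_eq_mul, ← mul_assoc, ← e]; group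
        obtain ⟨h2, h3⟩ := hZ' _ (L₁.mul_mem (L₁.inv_mem hw₁) (k1 _ hw₁))
          (h1 ▸ L₂.mul_mem hw₂ (L₂.inv_mem (k2 _ hw₂))) r hr
        calc r * (r * w₁ * r⁻¹) * r⁻¹
            = (r * w₁ * r⁻¹) * (r * (w₁⁻¹ * (r * w₁ * r⁻¹)) * r⁻¹) := by group
          _ = w₁ * ((w₁⁻¹ * (r * w₁ * r⁻¹)) * (w₁⁻¹ * (r * w₁ * r⁻¹))) := by rw [h2]; group
          _ = w₁ := by rw [h3, mul_one]
      · have e' : (r * w₂ * r⁻¹) * (r * w₁ * r⁻¹) = w₁ * w₂ := by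
          rw [hc _ (k2 _ hw₂) _ (k1 _ hw₁), e]
        have h1 : w₁⁻¹ * (r * w₂ * r⁻¹) = w₂ * (r * w₁ * r⁻¹)⁻¹ := by
          rw [inv_mul_eq_iff_eq_mul, ← mul_assoc, ← e']; group
        obtain ⟨h2, h3⟩ := hZ' _ (L₁.mul_mem (L₁.inv_mem hw₁) (k2 _ hw₂))
          (h1 ▸ L₂.mul_mem hw₂ (L₂.inv_mem (k1 _ hw₁))) r hr
        calc r * (r * w₁ * r⁻¹) * r⁻¹
            = (r * (w₂ * (r * w₁ * r⁻¹)⁻¹) * r⁻¹)⁻¹ * (r * w₂ * r⁻¹) := by
              simp only [mul_inv_rev, inv_inv, mul_assoc, inv_mul_cancel_left]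
          _ = (w₁⁻¹ * (r * w₂ * r⁻¹))⁻¹ * (r * w₂ * r⁻¹) := by rw [← h1, h2]
          _ = (r * w₂ * r⁻¹)⁻¹ * w₁ * (r * w₂ * r⁻¹) := by group
          _ = w₁ := by
            have h4 := (hZ' _ (L₁.mul_mem (L₁.inv_mem hw₁) (k2 _ hw₂))
              (h1 ▸ L₂.mul_mem hw₂ (L₂.inv_mem (k1 _ hw₁))) w₁ (hc1 _ hw₁)).1
            have h5 : (r * w₂ * r⁻¹) * w₁⁻¹ = w₁⁻¹ * (r * w₂ * r⁻¹) := by rw [← h4]; group
            calc (r * w₂ * r⁻¹)⁻¹ * w₁ * (r * w₂ * r⁻¹)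
                = (w₁⁻¹ * (r * w₂ * r⁻¹))⁻¹ * (r * w₂ * r⁻¹) := by group
              _ = w₁ := by rw [← h5]; group
    have key1 : (x₁ * x₂) * w₁ = w₁ * (x₁ * x₂) := by
      rw [← hrr, ← mul_inv_eq_iff_eq_mul]
      simpa only [mul_inv_rev, mul_assoc] using key
    have key2 : (x₁ * x₂) * (w₁ * w₂) = (w₁ * w₂) * (x₁ * x₂) := by
      rw [← hrr, mul_assoc r r, mul_inv_eq_iff_eq_mul.1 hrw, ← mul_assoc r, mul_inv_eq_iff_eq_mul.1 hrw,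
        mul_assoc]
    have c1 : x₁ * w₁ = w₁ * x₁ := by
      rw [mul_assoc, ← hc w₁ hw₁ x₂ hx₂, ← mul_assoc, ← mul_assoc] at key1
      exact mul_right_cancel key1
    have c2 : x₂ * w₂ = w₂ * x₂ := by
      rw [← mul_assoc, key1, mul_assoc, mul_assoc w₁, mul_left_cancel_iff, ← mul_assoc w₂,
        ← hc x₁ hx₁ w₂ hw₂, mul_assoc, mul_assoc] at key2
      exact mul_left_cancel key2
    rcases hinv2 w₁ hw₁ w₂ hw₂ hww with (h | h) | ⟨h1, h2⟩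
    · exact Or.inl h
    · exact Or.inr (Or.inl h)
    right; right
    rcases q₁.comm x₁ hx₁ w₁ hw₁ e₁ h1 c1 with rfl | rfl <;>
      rcases q₂.comm x₂ hx₂ w₂ hw₂ e₂ h2 c2 with rfl | rfl
    · exact Or.inl rfl
    · exact Or.inr (mul_assoc _ _ _).symm
    · exact Or.inr (by rw [mul_assoc, ← hc2 _ hx₂, mul_assoc])
    · left
      rw [mul_assoc, ← mul_assoc j, ← hc2 _ hx₂, mul_assoc x₂, hj2, mul_one]
  have hdecinv : ∀ t : G, t * j = j * t → t * t = 1 → t ≠ 1 → t ≠ j →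
      ∃ x₁ ∈ L₁, ∃ x₂ ∈ L₂, x₁ * x₁ = j ∧ x₂ * x₂ = j ∧ t = x₁ * x₂ := by
    intro t h1 h2 h3 h4
    obtain ⟨x, hx, y, hy, rfl⟩ := hinv t h1 h2
    rcases hinv2 x hx y hy h2 with (h | h) | ⟨h5, h6⟩
    · exact absurd h h3
    · exact absurd h h4
    · exact ⟨x, hx, y, hy, h5, h6, rfl⟩
  refine ⟨hj, fun g hg => ?_⟩
  by_contra hne
  obtain ⟨x₁, hx₁, x₂, hx₂, e₁, e₂, ht⟩ := hdecinv (g * j * g⁻¹) hg.eq.symm
    (by rw [conj_mul, hj2]; simp) (by simpa using hj1) hne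
  obtain ⟨y₁, hy₁, y₂, hy₂, f₁, f₂, ht'⟩ := hdecinv (g⁻¹ * j * g)
    (by
      calc g⁻¹ * j * g * j = g⁻¹ * (j * (g * j * g⁻¹)) * g := by group
        _ = j * (g⁻¹ * j * g) := by rw [hg.eq]; group)
    (by
      calc g⁻¹ * j * g * (g⁻¹ * j * g) = g⁻¹ * (j * j) * g := by group
        _ = 1 := by rw [hj2]; simp)
    (fun h => hj1 (by
      calc j = g * (g⁻¹ * j * g) * g⁻¹ := by group
        _ = 1 := by rw [h]; simp))
    (fun h => hne (by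
      calc g * j * g⁻¹ = g * (g⁻¹ * j * g) * g⁻¹ := by rw [h]
        _ = j := by group))
  obtain ⟨y, hy, hyc⟩ := q₁.conj _ (hs2 y₂ hy₂) y₁ hy₁
    (by rw [conj_mul, f₂, hC.1 hn, mul_inv_cancel_right]) f₁
  obtain ⟨b, hb, hb2, hbc⟩ := q₁.inv y₁ hy₁ f₁
  obtain ⟨r, hr⟩ : ∃ r : G, r = y * n * y⁻¹ := ⟨_, rfl⟩
  have hrr : r * r = j := by rw [hr, conj_mul, hnn, hc1 y hy, mul_inv_cancel_right]
  have hrj : r * j = j * r := by rw [← hrr, mul_assoc]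
  have hr2 : r * y₂ * r⁻¹ = y₁ := by
    rw [← hyc, hr]
    calc y * n * y⁻¹ * y₂ * (y * n * y⁻¹)⁻¹ = y * n * (y⁻¹ * y₂) * y * n⁻¹ * y⁻¹ := by group
      _ = _ := by rw [hc _ (L₁.inv_mem hy) y₂ hy₂]; group
  have hr1 : r * y₁ * r⁻¹ = y₂ := by
    rw [← hr2]
    calc r * (r * y₂ * r⁻¹) * r⁻¹ = (r * r) * y₂ * (r * r)⁻¹ := by group
      _ = y₂ := by rw [hrr, ← hc2 _ hy₂, mul_inv_cancel_right]
  have hb' : r * b * r⁻¹ ∈ L₂ := by
    have h1 := hs1 _ (L₁.mul_mem (L₁.mul_mem (L₁.inv_mem hy) hb) hy)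
    have : r * b * r⁻¹ = n * (y⁻¹ * b * y) * n⁻¹ := by
      calc r * b * r⁻¹ = y * (n * (y⁻¹ * b * y) * n⁻¹) * y⁻¹ := by rw [hr]; group
        _ = _ := by rw [hc y hy _ h1, mul_inv_cancel_right]
    rwa [this]
  have hbb := hc b hb _ hb'
  obtain ⟨w, hw⟩ : ∃ w : G, w = b * (r * b * r⁻¹) := ⟨_, rfl⟩
  have hww : w * w = 1 := by
    calc w * w = b * ((r * b * r⁻¹) * b) * (r * b * r⁻¹) := by rw [hw]; group
      _ = (b * b) * (r * (b * b) * r⁻¹) := by rw [← hbb]; group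
      _ = 1 := by rw [hb2, hrj, mul_inv_cancel_right, hj2]
  have hrw : r * w * r⁻¹ = w := by
    calc r * w * r⁻¹ = (r * b * r⁻¹) * ((r * r) * b * (r * r)⁻¹) := by rw [hw]; group
      _ = w := by rw [hrr, ← hc1 b hb, mul_inv_cancel_right, ← hbb, hw]
  have hw1 : w * y₁ * w⁻¹ = y₁ * j := by
    rw [← hbc, hw, mul_assoc b, ← hc y₁ hy₁ _ hb']
    group
  have hw2 : w * y₂ * w⁻¹ = y₂ * j := by
    rw [hw, hbb, mul_assoc _ b, hc b hb y₂ hy₂, ← hr1]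
    calc _ = r * (b * y₁ * b⁻¹) * r⁻¹ := by group
      _ = _ := by rw [hbc, ← mul_assoc, mul_assoc _ j, ← mul_inv_eq_iff_eq_mul.1
        (show r⁻¹ * j * r⁻¹⁻¹ = j by rw [inv_inv, mul_assoc, ← hrj, inv_mul_cancel_left]), ← mul_assoc]
  have hwt : w * (g⁻¹ * j * g) = (g⁻¹ * j * g) * w := by
    rw [ht', ← mul_inv_eq_iff_eq_mul, ← conj_mul, hw1, hw2, mul_assoc, ← mul_assoc j, ← hc2 _ hy₂,
      mul_assoc y₂, hj2, mul_one]
  have hrt : r * (g⁻¹ * j * g) = (g⁻¹ * j * g) * r := by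
    rw [ht', ← mul_inv_eq_iff_eq_mul, ← conj_mul, hr1, hr2, hc y₁ hy₁ y₂ hy₂]
  have h4 := step4 x₁ hx₁ x₂ hx₂ e₁ e₂ (g * r * g⁻¹) (g * w * g⁻¹)
    (by
      calc g * r * g⁻¹ * j = g * (r * (g⁻¹ * j * g)) * g⁻¹ := by group
        _ = _ := by rw [hrt]; group)
    (by rw [conj_mul, hrr, ht])
    (by
      calc g * w * g⁻¹ * j = g * (w * (g⁻¹ * j * g)) * g⁻¹ := by group
        _ = _ := by rw [hwt]; group)
    (by rw [conj_mul, hww]; simp)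
    (by
      calc g * r * g⁻¹ * (g * w * g⁻¹) * (g * r * g⁻¹)⁻¹ = g * (r * w * r⁻¹) * g⁻¹ := by group
        _ = _ := by rw [hrw])
  have hfin : w * y₁ = y₁ * w := by
    have c1 : j * y₁ = y₁ * j := (hc1 _ hy₁).symm
    have c2 : (g⁻¹ * j * g) * y₁ = y₁ * (g⁻¹ * j * g) := by
      rw [ht', mul_assoc, ← hc y₁ hy₁ y₂ hy₂]
    have hwe : w = g⁻¹ * (g * w * g⁻¹) * g := by group
    rw [← ht] at h4
    rcases h4 with h | h | h | h <;> rw [h] at hwe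
    · rw [hwe]; simp
    · rw [hwe, c2]
    · rw [hwe]
      calc g⁻¹ * (g * j * g⁻¹) * g * y₁ = j * y₁ := by group
        _ = _ := by rw [c1]; group
    · rw [hwe]
      calc g⁻¹ * (g * j * g⁻¹ * j) * g * y₁ = j * ((g⁻¹ * j * g) * y₁) := by group
        _ = _ := by rw [c2, ← mul_assoc, c1]; group
  rw [hfin, mul_inv_cancel_right] at hw1
  exact hj1 (by simpa using hw1)

/-- Let G be a finite group with subgroups L₁ ≅ SL₂(q₁) and L₂ ≅ SL₂(q₂), q₁ and q₂ odd prime powers, which commute elementwise and meet in ⟨j⟩ for an involution j, and suppose L₁L₂ has index 2 in C_G(j). If some n ∈ C_G(j) with n² = j interchanges L₁ and L₂ under conjugation (so that C_G(j) = L₁L₂⟨n⟩), then G = C_G(j)O(G). -/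
theorem result {G : Type*} [Group G] [Finite G]
    {F₁ : Type*} [Field F₁] [Fintype F₁] {F₂ : Type*} [Field F₂] [Fintype F₂]
    (hF₁ : Odd (Fintype.card F₁)) (hF₂ : Odd (Fintype.card F₂)) (L₁ L₂ : Subgroup G)
    (e₁ : ↥L₁ ≃* Matrix.SpecialLinearGroup (Fin 2) F₁) (e₂ : ↥L₂ ≃* Matrix.SpecialLinearGroup (Fin 2) F₂)
    (hc : ∀ x ∈ L₁, ∀ y ∈ L₂, x * y = y * x) (j : G) (hj : orderOf j = 2) (hm : L₁ ⊓ L₂ = Subgroup.zpowers j)
    (hle : L₁ ⊔ L₂ ≤ Subgroup.centralizer ({j} : Set G)) (hi : (L₁ ⊔ L₂).relIndex (Subgroup.centralizer ({j} : Set G)) = 2) (n : G) (hn : n ∈ Subgroup.centralizer ({j} : Set G))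
    (hn2 : n ^ 2 = j) (hswap : L₁.map (MulAut.conj n).toMonoidHom = L₂) :
    Subgroup.centralizer ({j} : Set G) ⊔ Cfsg.oddCore G = ⊤ := by
  have hjL : j ∈ L₁ ⊓ L₂ := hm ▸ Subgroup.mem_zpowers j
  have hz := isolated (H01.SL4.q_of_equiv hF₁ e₁ hj hjL.1) (H01.SL4.q_of_equiv hF₂ e₂ hj hjL.2)
    hc hj hm hle hi hn hn2 hswap
  rw [eq_top_iff]
  intro g _
  have h1 := Cfsg.Agent.S0215.zstar hz g
  obtain ⟨h, hh, e⟩ := H08.Iso.exists_conj_mem hz (IsConj.refl j) (t := g * j * g⁻¹)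
    (isConj_iff.2 ⟨g, rfl⟩) (H := Cfsg.oddCore G)
    (by rw [H08.Iso.inv_eq hz] at h1; simpa only [mul_assoc] using h1)
  have : g = h * (h⁻¹ * g) := by group
  rw [this]
  refine Subgroup.mul_mem _ (Subgroup.mem_sup_right hh) (Subgroup.mem_sup_left ?_)
  rw [Subgroup.mem_centralizer_singleton_iff]
  calc h⁻¹ * g * j = h⁻¹ * (g * j * g⁻¹) * g := by group
    _ = j * (h⁻¹ * g) := by rw [← e]; group

end Cfsg.Agent.S3211
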