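import Mathlib
import Cfsg.Statements.S3213
import Cfsg.Agent.L.GL2
import Cfsg.Agent.H09.SL2Basic

set_option autoImplicit false
open Cfsg

namespace Cfsg.Agent.S3213

open Matrix Module L

theorem trace_three {K : Type*} [Field K] {x : SL2 K} (hx : orderOf x = 3) : (x : M2 K).trace = -1 := by
  have h3 : (x : M2 K) * x * x = 1 := by
    have := pow_orderOf_eq_one x
    rw [hx, pow_three'] at this
    exact congrArg Subtype.val this
  have x1 : x ≠ 1 := by rintro rfl; simp at hx
  have hs := m2_sq (x : M2 K)
  rw [x.det_coe, one_smul] at hs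
  by_cases hsc : IsScal (x : M2 K)
  · exfalso
    obtain ⟨a, ha⟩ := isScal_iff.1 hsc
    have hd := x.det_coe
    rw [ha] at h3 hd
    have := congrFun (congrFun h3 0) 0
    rw [det_smul, det_one, Fintype.card_fin] at hd
    simp at this
    have e : a = 1 := by linear_combination this - a * hd
    exact x1 (Subtype.ext (show (x : M2 K) = 1 by rw [ha, e, one_smul]))
  · have e : (-(x : M2 K).trace) • (1 : M2 K) + ((x : M2 K).trace ^ 2 - 1) • (x : M2 K) = (x : M2 K) * x * x := by
      rw [hs, sub_mul, smul_mul_assoc, hs, one_mul]; module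
    exact neg_eq_iff_eq_neg.1 (lin_inj hsc (c := 1) (d := 0) (by rw [e, h3, zero_smul, add_zero, one_smul])).1

theorem main {F V : Type*} [Field F] [AddCommGroup V] [Module F V] [FiniteDimensional F V] (hV : finrank F V = 4)
    (B : V →ₗ[F] V →ₗ[F] F) (hB : ∀ v, B v v = 0) (hn : ∀ v, (∀ w, B v w = 0) → v = 0) (A : Module.End F V)
    (hA : ∀ v w, B (A v) (A w) = B v w) (h3 : (A - 1) ^ 3 = 0) (hk : finrank F (LinearMap.ker (A - 1)) ≤ 2) :
    finrank F (LinearMap.ker (A - 1)) = 2 ∧ ∀ v w, A v = v → A w = w → B v w = 0 := by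
  set N := A - 1 with hN
  have hAN : ∀ v, A v = N v + v := fun v => by simp [hN]
  have h3' : ∀ v, N (N (N v)) = 0 := fun v => by simpa [pow_three] using LinearMap.congr_fun h3 v
  have hsk : ∀ v w, B v w = -B w v := fun v w => by
    have := hB (v + w)
    simp only [map_add, LinearMap.add_apply, hB] at this
    linear_combination this
  have hb : ∀ v w, B (N v) (N w) + B (N v) w + B v (N w) = 0 := fun v w => by
    have := hA v w
    simp only [hAN, map_add, LinearMap.add_apply] at this
    linear_combination this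
  have hq : ∀ u, B (N (N u)) u = 0 := fun u => by
    have h1 := hb (N u) u
    have h2 := hb (N (N u)) u
    rw [h3', map_zero] at h2
    simp only [LinearMap.zero_apply, hB] at h1 h2
    linear_combination h1 - h2
  have hN2 : ∀ u, N (N u) = 0 := by
    by_contra! hne
    obtain ⟨u, hu⟩ := hne
    obtain ⟨v, hv⟩ : ∃ v, B (N (N u)) v ≠ 0 := by
      by_contra! h
      exact hu (hn _ h)
    have hvu : B (N (N v)) u = -B (N (N u)) v := by
      have := hq (u + v)
      simp only [map_add, LinearMap.add_apply, hq] at this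
      linear_combination this
    have hli : LinearIndependent F ![N (N u), N (N v)] := by
      rw [LinearIndependent.pair_iff]
      intro s t h
      have h1 := congrArg (fun x => B x u) h
      have h2 := congrArg (fun x => B x v) h
      simp [hq, hvu, hv] at h1 h2
      exact ⟨h2, h1⟩
    let M := N.domRestrict (LinearMap.range N)
    have e := M.finrank_range_add_finrank_ker
    have c1 : 2 ≤ finrank F (LinearMap.range M) := by
      have := LinearIndependent.fintype_card_le_finrank (R := F) (b := ![(⟨_, ⟨⟨N u, u, rfl⟩, rfl⟩⟩ :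
        LinearMap.range M), ⟨_, ⟨⟨N v, v, rfl⟩, rfl⟩⟩]) (LinearIndependent.of_comp (LinearMap.range M).subtype (by
          convert hli using 1
          ext i; fin_cases i <;> rfl))
      simpa using this
    have c2 : 2 ≤ finrank F (LinearMap.ker M) := by
      have := LinearIndependent.fintype_card_le_finrank (R := F) (b := ![(⟨⟨N (N u), _, rfl⟩, h3' u⟩ :
        LinearMap.ker M), ⟨⟨N (N v), _, rfl⟩, h3' v⟩]) (LinearIndependent.of_comp
          ((LinearMap.range N).subtype.comp (LinearMap.ker M).subtype) (by
          convert hli using 1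
          ext i; fin_cases i <;> rfl))
      simpa using this
    have ht : LinearMap.range N = ⊤ :=
      Submodule.eq_top_of_finrank_eq (le_antisymm (Submodule.finrank_le _) (by omega))
    obtain ⟨w, rfl⟩ := LinearMap.range_eq_top.1 ht u
    exact hu (h3' w)
  have hle : LinearMap.range N ≤ LinearMap.ker N := by
    rintro _ ⟨u, rfl⟩
    exact hN2 u
  have e := N.finrank_range_add_finrank_ker
  have := Submodule.finrank_mono hle
  have he := Submodule.eq_of_le_of_finrank_eq hle (by omega)
  refine ⟨by omega, fun v w hv hw => ?_⟩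
  obtain ⟨u, rfl⟩ : w ∈ LinearMap.range N := he ▸ (by simp [hN, hw] : N w = 0)
  have := hb v u
  rw [show N v = 0 by simp [hN, hv]] at this
  simpa using this

/-- Let F be the field with 3 elements and K the field with 5 elements. For every injective homomorphism φ from SL₂(K) into the symplectic group Sp₄(F) (4 × 4 matrices g with g J gᵀ = J for the standard alternating matrix J) and every element x of order 3 of SL₂(K), the vectors of F⁴ fixed by φ(x) form a 2-dimensional subspace that is totally isotropic for the alternating form defined by J. -/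
theorem result {F : Type*} [Field F] [Fintype F] (hF : Fintype.card F = 3)
    {K : Type*} [Field K] [Fintype K] (hK : Fintype.card K = 5)
    (φ : Matrix.SpecialLinearGroup (Fin 2) K →* ↥(Matrix.symplecticGroup (Fin 2) F)) (hφ : Function.Injective φ)
    (x : Matrix.SpecialLinearGroup (Fin 2) K) (hx : orderOf x = 3) :
    Module.finrank F ↥(LinearMap.ker (Matrix.toLin' ((φ x : Matrix (Fin 2 ⊕ Fin 2) (Fin 2 ⊕ Fin 2) F)) - LinearMap.id)) = 2 ∧
      ∀ v w : Fin 2 ⊕ Fin 2 → F, (φ x : Matrix (Fin 2 ⊕ Fin 2) (Fin 2 ⊕ Fin 2) F).mulVec v = v →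
        (φ x : Matrix (Fin 2 ⊕ Fin 2) (Fin 2 ⊕ Fin 2) F).mulVec w = w →
          dotProduct v ((Matrix.J (Fin 2) F).mulVec w) = 0 := by
  classical
  have c3 : CharP F 3 := by
    have := Fact.mk Nat.prime_three
    exact charP_of_card_eq_prime hF
  have c5 : CharP K 5 := by
    have := Fact.mk Nat.prime_five
    exact charP_of_card_eq_prime hK
  have h5 : (5 : K) = 0 := by exact_mod_cast CharP.cast_eq_zero K 5
  let ρ : SL2 K →* Module.End F (Fin 2 ⊕ Fin 2 → F) :=
    (Matrix.toLinAlgEquiv' : Matrix _ _ F ≃ₐ[F] _).toMonoidHom.comp ((Matrix.symplecticGroup (Fin 2) F).subtype.comp φ)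
  have hρ : ∀ g v, ρ g v = (φ g : Matrix (Fin 2 ⊕ Fin 2) (Fin 2 ⊕ Fin 2) F).mulVec v := fun g v => rfl
  have hρi : Function.Injective ρ :=
    (Matrix.toLinAlgEquiv' : Matrix _ _ F ≃ₐ[F] _).injective.comp (Subtype.val_injective.comp hφ)
  have hV : finrank F (Fin 2 ⊕ Fin 2 → F) = 4 := by simp
  have hk : finrank F (LinearMap.ker (ρ x - 1)) ≤ 2 := by
    by_contra hk
    have hc : ∀ y : SL2 K, (y : M2 K).trace = -1 → 3 ≤ finrank F (LinearMap.ker (ρ y - 1)) := fun y hy => by
      obtain ⟨g, rfl⟩ := isConj_iff.1 (isConj_SL_of_disc (g := x) (h := y) (by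
        rw [trace_three hx]
        intro h
        have : (1 : K) = 0 := by linear_combination 2 * h5 + 3 * h
        exact one_ne_zero this) (by rw [trace_three hx, hy]))
      refine (not_le.1 hk).trans_le (LinearMap.finrank_le_finrank_of_injective
        (f := (ρ g).restrict (p := LinearMap.ker (ρ x - 1)) (q := LinearMap.ker (ρ (g * x * g⁻¹) - 1))
          fun v hv => ?_) fun a b e => Subtype.ext ?_)
      · rw [LinearMap.mem_ker, LinearMap.sub_apply, sub_eq_zero, Module.End.one_apply] at hv ⊢
        rw [← Module.End.mul_apply, ← map_mul, inv_mul_cancel_right, map_mul, Module.End.mul_apply, hv]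
      · have := congrArg (fun v => ρ g⁻¹ v.1) e
        simpa [← Module.End.mul_apply, ← map_mul] using this
    let a : SL2 K := H09.sl2 0 (-1) 1 (-1) (by simp)
    let b : SL2 K := H09.sl2 1 (-3) 1 (-2) (by norm_num)
    let g := (a * b) ^ 2
    have hg : (g : M2 K) = !![1, -4; 0, 1] := by
      simp only [g, a, b, sq, SpecialLinearGroup.coe_mul, H09.sl2_coe]
      ext i j; fin_cases i <;> fin_cases j <;> simp <;> norm_num
    have hg5 : g ^ 5 ^ 1 = 1 := Subtype.ext (show (g : M2 K) ^ 5 ^ 1 = 1 by
      rw [hg]
      ext i j; fin_cases i <;> fin_cases j <;> simp [pow_succ]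
      linear_combination (-4) * h5)
    have hle : LinearMap.ker (ρ a - 1) ⊓ LinearMap.ker (ρ b - 1) ≤ LinearMap.ker (ρ g - 1) := fun v hv => by
      simp only [Submodule.mem_inf, LinearMap.mem_ker, LinearMap.sub_apply, sub_eq_zero,
        Module.End.one_apply] at hv ⊢
      simp only [g, sq, map_mul, Module.End.mul_apply, hv.1, hv.2]
    have e1 := Submodule.finrank_sup_add_finrank_inf_eq (LinearMap.ker (ρ a - 1)) (LinearMap.ker (ρ b - 1))
    have e2 := hc a (by simp [a, trace_fin_two])
    have e3 := hc b (by simp [b, trace_fin_two]; norm_num)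
    have e4 := Submodule.finrank_le (LinearMap.ker (ρ a - 1) ⊔ LinearMap.ker (ρ b - 1))
    have e5 := Submodule.finrank_mono hle
    have e6 : finrank F (LinearMap.ker (ρ g - 1)) < 4 := by
      rw [← hV]
      refine Submodule.finrank_lt fun e => ?_
      have e7 : g = 1 := hρi (by rw [map_one, ← sub_eq_zero, ← LinearMap.ker_eq_top, e])
      rw [e7] at hg
      have := congrFun (congrFun hg 0) 1
      simp at this
      exact one_ne_zero (show (1 : K) = 0 by linear_combination h5 - this)
    have := Fact.mk Nat.prime_five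
    have e8 := Equiv.Perm.card_fixedPoints_modEq (p := 5) (n := 1)
      (f := show Function.End (Fin 2 ⊕ Fin 2 → F) from fun v => ρ g v) (funext fun v => by
        have : ρ (g ^ 5 ^ 1) v = v := by rw [hg5, map_one]; rfl
        change ρ g (ρ g (ρ g (ρ g (ρ g v)))) = v
        simpa [pow_succ] using this)
    rw [Fintype.card_congr (β := LinearMap.ker (ρ g - 1)) (Equiv.subtypeEquivRight fun v => by
      simp [sub_eq_zero, Function.mem_fixedPoints, Function.IsFixedPt]), Module.card_eq_pow_finrank (K := F),
      Module.card_eq_pow_finrank (K := F) (V := LinearMap.ker (ρ g - 1)), hV, hF] at e8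
    obtain e | e : finrank F (LinearMap.ker (ρ g - 1)) = 2 ∨ finrank F (LinearMap.ker (ρ g - 1)) = 3 := by omega
    all_goals rw [e] at e8; exact absurd e8 (by decide)
  refine main hV (Matrix.toLinearMap₂' F (Matrix.J (Fin 2) F)) (fun v => ?_) (fun v hv => ?_) (ρ x)
    (fun v w => ?_) ?_ hk |>.imp id fun h v w hv hw => ?_
  · simp [Matrix.toLinearMap₂'_apply', Matrix.J, Matrix.fromBlocks_mulVec, dotProduct, Fintype.sum_sum_type,
      Matrix.neg_mulVec]
    ring
  · have h0 : vecMul v (Matrix.J (Fin 2) F) = 0 := funext fun i => by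
      have := hv (Pi.single i 1)
      rw [Matrix.toLinearMap₂'_apply', dotProduct_mulVec] at this
      simpa using this
    have := congrArg (fun w => vecMul w (Matrix.J (Fin 2) F)) h0
    simpa [Matrix.J_squared, vecMul_neg] using this
  · simp only [Matrix.toLinearMap₂'_apply', hρ]
    rw [mulVec_mulVec, dotProduct_mulVec, vecMul_mulVec, ← Matrix.mul_assoc,
      SymplecticGroup.mem_iff'.1 (φ x).2, dotProduct_mulVec]
  · have := Fact.mk Nat.prime_three
    have : CharP (Module.End F (Fin 2 ⊕ Fin 2 → F)) 3 := charP_of_injective_algebraMap (R := F)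
      (algebraMap F _).injective 3
    rw [sub_pow_char_of_commute _ (Commute.one_right _), ← map_pow, ← hx, pow_orderOf_eq_one, map_one, one_pow,
      sub_self]
  · simpa [Matrix.toLinearMap₂'_apply'] using h v w hv hw

end Cfsg.Agent.S3213
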