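import Mathlib
import Cfsg.Statements.S3260
import Cfsg.Agent.H26.Cq3

set_option autoImplicit false
open Cfsg

namespace Cfsg.Agent.S3260
open H26

open Subgroup H17 Cfsg.Agent.H26.Cq
open scoped MatrixGroups

/-- Let p ≥ 5 be a prime, G a finite p-constrained group with Sylow p-subgroup S, and A a group of automorphisms of G of order coprime to |G| whose fixed-point subgroup has no section isomorphic to PSL₂(p). Then G = O_{p'}(G) · N_G(Z(J(S))), where J(S) is the subgroup generated by the abelian subgroups of S of largest order. -/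
theorem result {G : Type*} [Group G] [Finite G] (p : ℕ) [hp : Fact p.Prime] (hp5 : 5 ≤ p)
    (hG : Cfsg.IsPConstrained p G) (S : Sylow p G) (A : Subgroup (MulAut G)) (hA : (Nat.card ↥A).Coprime (Nat.card G))
    (C : Subgroup G) (hC : ∀ g : G, g ∈ C ↔ ∀ a ∈ A, a g = g)
    {F : Type*} [Field F] [Fintype F] (hF : Fintype.card F = p)
    (hfix : ¬ Cfsg.Involves (Matrix.ProjectiveSpecialLinearGroup (Fin 2) F) ↥C) :
    Cfsg.pPrimeCore p G ⊔ Subgroup.normalizer (Cfsg.centerThompsonAOf (S : Subgroup G) : Set G) = ⊤ := by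
  rw [H17.centerThompsonAOf_eq]
  have hZ := centerThompsonOf_le 0 (S : Subgroup G)
  by_cases hpA : p ∣ Nat.card A
  · obtain ⟨k, hk⟩ := IsPGroup.iff_card.1 S.isPGroup'
    have : (S : Subgroup G) = ⊥ := Subgroup.eq_bot_of_card_eq _
      ((Nat.coprime_self _).1 (by
        nth_rewrite 1 [hk]
        exact ((hA.coprime_dvd_left hpA).coprime_dvd_right (card_subgroup_dvd_card _)).pow_left k))
    rw [le_bot_iff.1 (hZ.trans this.le), normalizer_eq_top, sup_top_eq]
  let Γ := G ⋊[A.subtype] A
  have : Finite Γ := Finite.of_equiv _ SemidirectProduct.equivProd.symm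
  let i : G →* Γ := SemidirectProduct.inl
  let r : A →* Γ := SemidirectProduct.inr
  have hi : Function.Injective i := SemidirectProduct.inl_injective
  have hr : Function.Injective r := SemidirectProduct.inr_injective
  have e : i.range = (SemidirectProduct.rightHom : Γ →* A).ker := SemidirectProduct.range_inl_eq_ker_rightHom
  have : i.range.Normal := by rw [e]; infer_instance
  have h : Hyp p i.range r.range := by
    refine ⟨this, fun x => ⟨Nat.card A, (hp.out.coprime_iff_not_dvd.2 hpA).symm, ?_⟩, ?_, fun hs => hfix ?_⟩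
    · rw [e, MonoidHom.mem_ker, map_pow, pow_card_eq_one']
    · rwa [← Nat.card_congr (MonoidHom.ofInjective hi).toEquiv, ← Nat.card_congr (MonoidHom.ofInjective hr).toEquiv]
    · have hle : i.range ⊓ centralizer (r.range : Set Γ) ≤ C.map i := by
        rintro _ ⟨⟨g, rfl⟩, hg⟩
        refine ⟨g, (hC g).2 fun a ha => hi ?_, rfl⟩
        exact (SemidirectProduct.inl_aut (φ := A.subtype) ⟨a, ha⟩ g).trans (by
          rw [map_inv]; exact mul_inv_eq_iff_eq_mul.2 (hg _ ⟨⟨a, ha⟩, rfl⟩))
      let ε := ZMod.ringEquivOfPrime F hp.out hF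
      have hs1 : Function.Surjective (Matrix.SpecialLinearGroup.map (n := Fin 2) ε.toRingHom) := fun x =>
        ⟨Matrix.SpecialLinearGroup.map ε.symm.toRingHom x, by ext a b; simp⟩
      refine sec_iff_involves.1 (Sec.trans (Sec.of_hom (MonoidHom.id _) Function.injective_id
        (QuotientGroup.map _ _ (Matrix.SpecialLinearGroup.map ε.toRingHom) fun s hs => ?_) fun x => ?_)
        (hs.of_le hle).of_map)
      · refine mem_center_iff.2 fun t => ?_
        obtain ⟨t, rfl⟩ := hs1 t
        rw [← map_mul, ← map_mul, mem_center_iff.1 hs t]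
      · obtain ⟨x, rfl⟩ := QuotientGroup.mk_surjective x
        obtain ⟨x, rfl⟩ := hs1 x
        exact ⟨x, rfl⟩
  have := normal_map_char hi (pPrimeCore p G)
  let j : G ⧸ pPrimeCore p G →* Γ ⧸ (pPrimeCore p G).map i := QuotientGroup.map _ _ i (le_comap_map _ _)
  have hj : Function.Injective j := (injective_iff_map_eq_one _).2 fun x hx => by
    obtain ⟨x, rfl⟩ := QuotientGroup.mk_surjective x
    obtain ⟨y, hy, e⟩ := (QuotientGroup.eq_one_iff _).1 hx
    exact (QuotientGroup.eq_one_iff _).2 (hi e ▸ hy)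
  have h' := h.map (QuotientGroup.mk'_surjective ((pPrimeCore p G).map i))
  have e' : i.range.map (QuotientGroup.mk' ((pPrimeCore p G).map i)) = j.range := by
    ext x
    constructor
    · rintro ⟨_, ⟨y, rfl⟩, rfl⟩; exact ⟨y, rfl⟩
    · rintro ⟨y, rfl⟩
      obtain ⟨y, rfl⟩ := QuotientGroup.mk_surjective y
      exact ⟨_, ⟨y, rfl⟩, rfl⟩
  rw [e'] at h'
  refine sup_normalizer_eq_top_of_map_normal (H02.pPrimeCore_coprime p G) (S.isPGroup'.to_le hZ) ?_
  rw [← centerThompsonOf_map _ (injOn_of_coprime_ker _ coprime_ker_mk' S.isPGroup')]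
  exact zj_core hj h' hp5 (isPConstrained_iff_quot.1 hG) (S.mapSurjective (QuotientGroup.mk'_surjective _))

end Cfsg.Agent.S3260
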