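import Mathlib
import Cfsg.Statements.S3265
import Cfsg.Agent.H29.InvG

set_option autoImplicit false
open Cfsg

namespace Cfsg.Agent.S3265

open Equiv Finset H29.IG

theorem odd_of {α : Type*} [Fintype α] [DecidableEq α] {σ : Perm α}
    (h : ∀ φ : α → ℤ, (∀ i, φ (σ i) + φ i = 0) → ∀ j, φ j = 0) : Odd (orderOf σ) := by
  have hp : ∀ i, i ∈ Function.periodicPts σ := fun i => σ.injective.mem_periodicPts i
  have h1 : ∀ i, Odd (Function.minimalPeriod σ i) := fun i => by
    rw [← Nat.not_even_iff_odd]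
    intro he
    set m := Function.minimalPeriod σ i with hm
    have h2 := h (fun j => ∑ k ∈ range m, if σ^[k] i = j then (-1) ^ k else 0) (fun j => by
      have h3 := (sum_range_succ (fun k => if σ^[k] i = σ j then (-1 : ℤ) ^ k else 0) m).symm.trans (sum_range_succ' _ m)
      rw [hm, Function.iterate_minimalPeriod, ← hm, he.neg_one_pow, Function.iterate_zero_apply, pow_zero, add_left_inj] at h3
      rw [h3, ← sum_add_distrib]
      refine sum_eq_zero fun k _ => ?_
      simp only [Function.iterate_succ_apply', σ.apply_eq_iff_eq]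
      split_ifs <;> ring) i
    have h0 : 0 < m := Function.minimalPeriod_pos_of_mem_periodicPts (hp i)
    rw [sum_eq_single 0 ?_ (fun h => absurd (mem_range.2 h0) h)] at h2
    · simp at h2
    · exact fun k hk h1 => if_neg fun e =>
        h1 ((Function.iterate_eq_iterate_iff_of_lt_minimalPeriod (mem_range.1 hk) h0).1 e)
  refine Odd.of_dvd_nat (n := ∏ i, Function.minimalPeriod σ i) (prod_induction _ Odd (fun _ _ => Odd.mul) odd_one fun i _ => h1 i)
    (orderOf_dvd_of_pow_eq_one (Perm.ext fun i => ?_))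
  rw [← Perm.iterate_eq_pow]
  exact Function.isPeriodicPt_iff_minimalPeriod_dvd.2 (dvd_prod_of_mem _ (mem_univ i))

theorem not_odd {α : Type*} {σ : Perm α} {a : α} (h1 : σ a ≠ a) (h2 : σ (σ a) = a) : ¬ Odd (orderOf σ) := fun ⟨k, hk⟩ => by
  have h3 : ∀ k, (σ ^ (2 * k)) a = a := fun k => by
    induction k with
    | zero => rfl
    | succ k ih => rw [mul_add, pow_add, Perm.mul_apply, mul_one, pow_two, Perm.mul_apply, h2, ih]
  have := congrArg (fun τ : Perm α => τ a) (pow_orderOf_eq_one σ)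
  simp only [hk, pow_succ', Perm.mul_apply, h3, Perm.one_apply] at this
  exact h1 this

theorem odd_comm {G : Type*} [Group G] (x y : G) : Odd (orderOf (x * y)) ↔ Odd (orderOf (y * x)) := by
  rw [SemiconjBy.orderOf_eq y (x := x * y) (y := y * x) (mul_assoc _ _ _).symm]

theorem fx_eq {α : Type*} [Fintype α] [DecidableEq α] (x : Perm α) : fx univ x + x.cycleType.sum = Fintype.card α := by
  rw [Perm.sum_cycleType, fx, sum_boole, Nat.cast_id, Perm.support, card_filter_add_card_filter_not, card_univ]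

theorem mid {α : Type*} [Fintype α] [DecidableEq α] (h5 : 5 ≤ Fintype.card α) {x y : Perm α} (hx : x ^ 2 = 1) (h : IsConj x y) :
    ∃ z, IsConj x z ∧ Odd (orderOf (x * z)) ∧ Odd (orderOf (y * z)) := by
  have hy : y ^ 2 = 1 := by simpa [hx, eq_comm] using h.pow 2
  have k : ∀ x : Perm α, x ^ 2 = 1 → Iv univ x := fun x hx j _ =>
    ⟨mem_univ _, by rw [← Perm.mul_apply, ← pow_two, hx, Perm.one_apply]⟩
  have e : fx univ x = fx univ y := by
    have := fx_eq x
    have := fx_eq y
    rw [Perm.isConj_iff_cycleType_eq.1 h] at *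
    omega
  obtain ⟨z, h1, h2, h3, h4⟩ := (main _ univ rfl x y (k x hx) (k y hy) e).resolve_right fun h => by
    have := h.1
    rw [card_univ] at this
    omega
  have hz : Function.Involutive z := fun j => (h1 j (mem_univ j)).2
  have k2 : ∀ x : Perm α, Od univ x z → Odd (orderOf (x * hz.toPerm)) := fun x h => odd_of fun φ hφ j =>
    h φ (fun i _ => by simpa [hz i] using hφ (z i)) j (mem_univ j)
  refine ⟨hz.toPerm, ?_, k2 x h3, k2 y h4⟩
  have h6 : hz.toPerm z ^ 2 = 1 := Perm.ext fun i => by simp [pow_two, hz i]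
  have h7 := fx_eq x
  have h8 := fx_eq (hz.toPerm z)
  rw [Perm.isConj_iff_cycleType_eq, Perm.cycleType_of_pow_prime_eq_one hx, Perm.cycleType_of_pow_prime_eq_one h6]
  rw [Perm.cycleType_of_pow_prime_eq_one hx] at h7
  rw [Perm.cycleType_of_pow_prime_eq_one h6, Function.Involutive.coe_toPerm, h2] at h8
  simp only [Multiset.sum_replicate, smul_eq_mul] at h7 h8
  congr 1
  omega

theorem far {n : ℕ} (hn : 5 ≤ n) {t : Perm (Fin n)} (ht : orderOf t = 2) : ∃ y, IsConj t y ∧ t ≠ y ∧ ¬ Odd (orderOf (t * y)) := by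
  have h2 : ∀ i, t (t i) = i := fun i => by rw [← Perm.mul_apply, ← pow_two, ← ht, pow_orderOf_eq_one, Perm.one_apply]
  obtain ⟨a, ha⟩ : ∃ a, t a ≠ a := by
    by_contra h
    push Not at h
    rw [show t = 1 from Perm.ext h, orderOf_one] at ht
    omega
  suffices H : ∃ g : Perm (Fin n), (t * (g * t * g⁻¹)) a ≠ a ∧ (t * (g * t * g⁻¹)) ((t * (g * t * g⁻¹)) a) = a by
    obtain ⟨g, h3, h4⟩ := H
    exact ⟨_, isConj_iff.2 ⟨g, rfl⟩, fun e => h3 (by rw [← e]; exact h2 a), not_odd h3 h4⟩
  by_cases hc : ∃ c, c ≠ a ∧ c ≠ t a ∧ t c ≠ c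
  · obtain ⟨c, h3, h4, h5⟩ := hc
    have h6 := h2 a
    have h7 := h2 c
    refine ⟨swap (t a) c, ?_⟩
    simp only [Perm.mul_apply, swap_inv, swap_apply_def]
    grind
  · push Not at hc
    have h3 : 1 < ({a, t a}ᶜ : Finset (Fin n)).card := by
      rw [card_compl, Fintype.card_fin]
      have := card_le_two (a := a) (b := t a)
      omega
    obtain ⟨c, h4, d, h5, h6⟩ := one_lt_card.1 h3
    simp only [mem_compl, mem_insert, mem_singleton, not_or] at h4 h5
    have h7 := hc c h4.1 h4.2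
    have h8 := hc d h5.1 h5.2
    have h9 := h2 a
    refine ⟨swap a c * swap (t a) d, ?_⟩
    simp only [Perm.mul_apply, mul_inv_rev, swap_inv, swap_apply_def]
    grind

/-- Let n ≥ 5 and let X be a conjugacy class of involutions of the symmetric group of degree n. The graph on X joining two distinct involutions whose product has odd order is connected and has diameter exactly 2. -/
theorem result (n : ℕ) (hn : 5 ≤ n) (t : Equiv.Perm (Fin n)) (ht : orderOf t = 2) :
    (SimpleGraph.fromRel fun x y : {x : Equiv.Perm (Fin n) // IsConj t x} =>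
        Odd (orderOf (x.1 * y.1))).Connected ∧
      (SimpleGraph.fromRel fun x y : {x : Equiv.Perm (Fin n) // IsConj t x} =>
        Odd (orderOf (x.1 * y.1))).diam = 2 := by
  set Γ := SimpleGraph.fromRel fun x y : {x : Equiv.Perm (Fin n) // IsConj t x} => Odd (orderOf (x.1 * y.1)) with hΓ
  have adj : ∀ x y, Γ.Adj x y ↔ x ≠ y ∧ Odd (orderOf (x.1 * y.1)) := fun x y => by
    rw [hΓ, SimpleGraph.fromRel_adj, odd_comm y.1, or_self]
  clear_value Γ
  have h2 : t ^ 2 = 1 := ht ▸ pow_orderOf_eq_one t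
  have h1 : ∀ x y, Γ.edist x y ≤ 2 := fun x y => by
    by_cases e : x = y
    · simp [e]
    by_cases e' : Γ.Adj x y
    · rw [SimpleGraph.edist_eq_one_iff_adj.2 e']; norm_num
    obtain ⟨z, h3, h4, h5⟩ := mid (by rwa [Fintype.card_fin]) (show x.1 ^ 2 = 1 by simpa [h2, eq_comm] using x.2.pow 2) (x.2.symm.trans y.2)
    have h6 : ¬ Odd (orderOf (x.1 * y.1)) := fun h => e' ((adj x y).2 ⟨e, h⟩)
    have h7 : Γ.Adj x ⟨z, x.2.trans h3⟩ := (adj _ _).2 ⟨fun h => h6 (by
      rw [show x.1 = z from congrArg Subtype.val h, odd_comm]; exact h5), h4⟩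
    have h8 : Γ.Adj ⟨z, x.2.trans h3⟩ y := (adj _ _).2 ⟨fun h => h6 (by
      rw [show y.1 = z from (congrArg Subtype.val h).symm]; exact h4), (odd_comm _ _).1 h5⟩
    refine (SimpleGraph.edist_triangle (v := ⟨z, x.2.trans h3⟩)).trans ?_
    rw [SimpleGraph.edist_eq_one_iff_adj.2 h7, SimpleGraph.edist_eq_one_iff_adj.2 h8]
    norm_num
  have h3 : Γ.ediam = 2 := by
    refine le_antisymm (SimpleGraph.ediam_le_of_edist_le h1) ?_
    obtain ⟨y, h3, h4, h5⟩ := far hn ht
    refine le_trans ?_ (SimpleGraph.edist_le_ediam (u := ⟨t, IsConj.refl t⟩) (v := ⟨y, h3⟩))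
    rw [← one_add_one_eq_two]
    refine Order.add_one_le_of_lt (not_le.1 fun h => ?_)
    rcases SimpleGraph.edist_le_one_iff_adj_or_eq.1 h with h | h
    · exact h5 ((adj _ _).1 h).2
    · exact h4 (congrArg Subtype.val h)
  haveI : Nonempty {x : Equiv.Perm (Fin n) // IsConj t x} := ⟨⟨t, IsConj.refl t⟩⟩
  exact ⟨SimpleGraph.connected_of_ediam_ne_top (by rw [h3]; simp), by rw [SimpleGraph.diam, h3]; rfl⟩

end Cfsg.Agent.S3265
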