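import Mathlib
import Cfsg.Agent.L.PSL2Tr
import Cfsg.Agent.L.DicksonF
-- Template for statement S3266 (row 3266; see /opt/grader/pristine/manifest.json for weights).
-- Copy to Cfsg/Agent/S3266.lean and replace the sorry. The statement below is byte-identical to the frozen
-- statement Cfsg.CfsgFrozen.S3266 (Cfsg/Statements/S3266.lean; the theorem Cfsg.chz3_odd_product_graph_psl2_diameter_two);
-- the grader kernel-checks Cfsg.Agent.S3266.result against that frozen type. Keep the theorem IN THIS FILE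
-- (a `result` declared elsewhere and merely imported here is not credited); helpers may live anywhere
-- under Cfsg/Agent/.
import Cfsg.Statements.S3266
-- import your own Cfsg.Agent.* helpers here

set_option autoImplicit false
open Cfsg

namespace Cfsg.Agent.S3266

open L

theorem sum_chi {F : Type*} [Field F] [Fintype F] [DecidableEq F] (h2 : (2 : F) ≠ 0) {x : F} (hx : x ^ 2 ≠ 4) :
    ∑ a : F, quadraticChar F (a ^ 2 + x * a + 1) = -1 := by
  have h1 : ∀ c : F, quadraticChar F c = (∑ y : F, if y ^ 2 = c then 1 else 0) - 1 := fun c => by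
    rw [eq_sub_iff_add_eq, ← quadraticChar_card_sqrts (ringChar_ne_two h2), Finset.sum_boole, Set.toFinset_setOf]
  have h3 : ∀ a : F, (∑ y : F, if y ^ 2 = a ^ 2 + x * a + 1 then (1 : ℤ) else 0) =
      ∑ u : F, if (a + u) ^ 2 = a ^ 2 + x * a + 1 then (1 : ℤ) else 0 := fun a =>
    (Equiv.sum_comp (Equiv.addLeft a) fun y => if y ^ 2 = a ^ 2 + x * a + 1 then (1 : ℤ) else 0).symm
  have h4 : ∀ u : F, (∑ a : F, if (a + u) ^ 2 = a ^ 2 + x * a + 1 then (1 : ℤ) else 0) =
      1 - if u = x / 2 then 1 else 0 := fun u => by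
    by_cases h : u = x / 2
    · rw [if_pos h, Finset.sum_eq_zero, sub_self]
      intro a _
      rw [if_neg]
      intro e; apply hx
      rw [eq_div_iff h2] at h
      linear_combination 4 * e - (4 * a + x + 2 * u) * h
    · have h5 : 2 * u - x ≠ 0 := fun e => h (by field_simp; linear_combination e)
      rw [if_neg h, Finset.sum_eq_single ((1 - u ^ 2) / (2 * u - x)),
        if_pos (by linear_combination div_mul_cancel₀ (1 - u ^ 2) h5), sub_zero]
      · intro a _ ha
        rw [if_neg]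
        intro e; apply ha
        rw [eq_div_iff h5]; linear_combination e
      · simp
  simp only [h1, h3, Finset.sum_sub_distrib]
  rw [Finset.sum_comm]
  simp [h4, Finset.sum_sub_distrib]

theorem exists_pair {F : Type*} [Field F] [Fintype F] (h3 : Fintype.card F % 4 = 3) (h4 : 4 ≤ Fintype.card F) {x : F}
    (hx : x ^ 2 ≠ 4) : ∃ l m : F, l ≠ 0 ∧ m ≠ 0 ∧
      IsSquare (4 - x ^ 2 - (l + l⁻¹) ^ 2 - (m + m⁻¹) ^ 2 - x * (l + l⁻¹) * (m + m⁻¹)) := by
  classical
  have h2 : (2 : F) ≠ 0 := two_ne_zero_of_odd (Nat.odd_iff.2 (by omega))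
  have hc := ringChar_ne_two h2
  by_cases h0 : ∃ a : F, a ^ 2 + x * a + 1 = 0
  · obtain ⟨a, ha⟩ := h0
    have ha0 : a ≠ 0 := by rintro rfl; simp at ha
    refine ⟨a, 1, ha0, one_ne_zero, 0, ?_⟩
    field_simp
    linear_combination -(a ^ 2 + x * a + 1) * ha
  push Not at h0
  have hm : quadraticChar F (-1) = -1 :=
    quadraticChar_neg_one_iff_not_isSquare.2 (by rw [FiniteField.isSquare_neg_one_iff]; omega)
  by_contra! h
  have key : ∀ a b : F, a ≠ 0 → b ≠ 0 → quadraticChar F a = quadraticChar F b →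
      quadraticChar F (a ^ 2 + x * a + 1) = quadraticChar F (b ^ 2 + x * b + 1) := by
    intro a b ha hb e
    by_contra e'
    obtain ⟨l, hl⟩ := (quadraticChar_one_iff_isSquare (mul_ne_zero ha hb)).1
      (by rw [map_mul, e, ← sq, quadraticChar_sq_one hb])
    have hl0 : l ≠ 0 := by rintro rfl; exact mul_ne_zero ha hb (by simpa using hl)
    obtain ⟨r, hr⟩ := (quadraticChar_one_iff_isSquare (a := -1 * ((a ^ 2 + x * a + 1) * (b ^ 2 + x * b + 1)))
      (mul_ne_zero (by simp) (mul_ne_zero (h0 a) (h0 b)))).1 (by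
      rw [map_mul, map_mul, hm]
      rcases quadraticChar_dichotomy (h0 a) with e1 | e1 <;> rcases quadraticChar_dichotomy (h0 b) with e2 | e2 <;>
        simp_all)
    refine h l (a / l) hl0 (div_ne_zero ha hl0) ⟨r / l, ?_⟩
    obtain rfl : b = l * l / a := by field_simp; linear_combination hl
    field_simp at hr ⊢
    linear_combination hr
  have h5 := sum_chi h2 hx
  have h6 : ∀ a : F, 2 * quadraticChar F (a ^ 2 + x * a + 1) =
      (quadraticChar F (1 ^ 2 + x * 1 + 1) + quadraticChar F ((-1) ^ 2 + x * (-1) + 1)) * (1 - if a = 0 then 1 else 0) +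
      (quadraticChar F (1 ^ 2 + x * 1 + 1) - quadraticChar F ((-1) ^ 2 + x * (-1) + 1)) * quadraticChar F a +
      2 * if a = 0 then 1 else 0 := by
    intro a
    by_cases ha : a = 0
    · simp [ha]
    rw [if_neg ha]
    rcases quadraticChar_dichotomy ha with e | e
    · rw [key a 1 ha one_ne_zero (by rw [e, map_one]), e]; ring
    · rw [key a (-1) ha (by simp) (by rw [e, hm]), e]; ring
  have h7 := congrArg (2 * ·) h5
  simp only [Finset.mul_sum, h6, Finset.sum_add_distrib] at h7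
  simp only [← Finset.mul_sum, quadraticChar_sum_zero hc, Finset.sum_sub_distrib, Finset.sum_ite_eq', Finset.mem_univ,
    if_true, Finset.sum_const, Finset.card_univ, nsmul_eq_mul] at h7
  rcases quadraticChar_dichotomy (h0 1) with e1 | e1 <;> rcases quadraticChar_dichotomy (h0 (-1)) with e2 | e2 <;>
    rw [e1, e2] at h7 <;> omega

theorem exists_third {F : Type*} [Field F] {s t : SL2 F} (hs : (s : M2 F).trace = 0) (ht : (t : M2 F).trace = 0)
    {x : F} (hx : ((s * t : SL2 F) : M2 F).trace = x) (h4 : x ^ 2 ≠ 4) {y w : F}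
    (h : IsSquare (4 - x ^ 2 - w ^ 2 - y ^ 2 - x * w * y)) : ∃ z : SL2 F, (z : M2 F).trace = 0 ∧
      ((s * z : SL2 F) : M2 F).trace = w ∧ ((z * t : SL2 F) : M2 F).trace = y := by
  obtain ⟨r, hr⟩ := h
  have hD : 4 - x ^ 2 ≠ 0 := fun e => h4 (by linear_combination -e)
  obtain ⟨a, b, c, h1, h2, h3⟩ : ∃ a b c : F, -2 * a + x * b = w ∧ x * a - 2 * b = y ∧
      a ^ 2 + b ^ 2 - a * b * x + c ^ 2 * (4 - x ^ 2) = 1 :=
    ⟨(-2 * w - x * y) / (4 - x ^ 2), (-2 * y - x * w) / (4 - x ^ 2), r / (4 - x ^ 2), by field_simp; ring,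
      by field_simp; ring, by field_simp; linear_combination -(4 - x ^ 2) * hr⟩
  have ds := SL2_det s
  have dt := SL2_det t
  rw [SL2_coe_mul] at hx
  simp only [Matrix.trace_fin_two, m2_mul_apply] at hs ht hx
  refine ⟨mkSL (a • (s : M2 F) + b • (t : M2 F) + c • ((s : M2 F) * t - t * s)) ?_, ?_, ?_, ?_⟩
  rotate_left
  · change (a • (s : M2 F) + b • (t : M2 F) + c • ((s : M2 F) * t - t * s)).trace = 0
    simp only [Matrix.trace_fin_two, m2_mul_apply, Matrix.add_apply, Matrix.sub_apply, Matrix.smul_apply, smul_eq_mul]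
    grind
  · change ((s : M2 F) * (a • (s : M2 F) + b • (t : M2 F) + c • ((s : M2 F) * t - t * s))).trace = w
    simp only [Matrix.trace_fin_two, m2_mul_apply, Matrix.add_apply, Matrix.sub_apply, Matrix.smul_apply, smul_eq_mul]
    grind
  · change ((a • (s : M2 F) + b • (t : M2 F) + c • ((s : M2 F) * t - t * s)) * (t : M2 F)).trace = y
    simp only [Matrix.trace_fin_two, m2_mul_apply, Matrix.add_apply, Matrix.sub_apply, Matrix.smul_apply, smul_eq_mul]
    grind
  · simp only [Matrix.det_fin_two, m2_mul_apply, Matrix.add_apply, Matrix.sub_apply, Matrix.smul_apply, smul_eq_mul]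
    grind

theorem odd_of {F : Type*} [Field F] [Fintype F] {w : SL2 F}
    (h : ((2 : F) = 0 ∧ (w : M2 F).trace ≠ 0) ∨ ((2 : F) ≠ 0 ∧ (w : M2 F).trace ^ 2 = 4) ∨
      (Fintype.card F % 4 = 3 ∧ ∃ l : F, l ≠ 0 ∧ (w : M2 F).trace = l + l⁻¹)) :
    Odd (orderOf (QuotientGroup.mk w : Matrix.ProjectiveSpecialLinearGroup (Fin 2) F)) := by
  classical
  have k : (2 : F) ≠ 0 → (w : M2 F).trace ^ 2 = 4 →
      Odd (orderOf (QuotientGroup.mk w : Matrix.ProjectiveSpecialLinearGroup (Fin 2) F)) := fun h2 h => by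
    obtain ⟨p, hp, n, hpp, hn⟩ := FiniteField.card' F
    have : Fact p.Prime := ⟨hpp⟩
    exact Odd.of_dvd_nat (hpp.odd_of_ne_two (by rintro rfl; exact h2 (by exact_mod_cast CharP.cast_eq_zero F 2)))
      (orderOf_dvd_of_pow_eq_one (Dk.mk_pow_char p h))
  have k2 := Subgroup.orderOf_dvd_natCard (Subgroup.centralizer ({w} : Set (SL2 F))) (mem_centralizer_SL.2 rfl)
  rcases h with ⟨h2, h⟩ | ⟨h2, h⟩ | ⟨h3, l, hl, h⟩
  · refine Odd.of_dvd_nat ?_ ((orderOf_map_dvd (QuotientGroup.mk' _) w).trans k2)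
    have h1 := FiniteField.even_card_of_char_two (ringChar_eq_two h2)
    have := Fintype.card_pos (α := F)
    rcases card_torus (g := w) (fun e => h (pow_eq_zero_iff two_ne_zero |>.1 (by linear_combination e + 2 * h2))) with
      h | h <;> rw [h.2, Nat.odd_iff] <;> omega
  · exact k h2 h
  · have h2 : (2 : F) ≠ 0 := two_ne_zero_of_odd (Nat.odd_iff.2 (by omega))
    by_cases e : l = l⁻¹
    · exact k h2 (by rw [h, ← e]; linear_combination 4 * (by nth_rewrite 2 [e]; exact mul_inv_cancel₀ hl : l * l = 1))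
    rw [card_centralizer_SL_split e h (mul_inv_cancel₀ hl)] at k2
    refine Odd.of_dvd_nat (n := (Fintype.card F - 1) / 2) (Nat.odd_iff.2 (by omega)) (orderOf_dvd_of_pow_eq_one ?_)
    rw [← QuotientGroup.mk_pow]
    refine not_not.1 (mt mk_ne_one_iff.1 (not_not.2 ((SLc.sq_eq_one_iff h2).1 ?_)))
    rw [← pow_mul, show (Fintype.card F - 1) / 2 * 2 = Fintype.card F - 1 by omega]
    exact orderOf_dvd_iff_pow_eq_one.1 k2

theorem tr_of_two {F : Type*} [Field F] [Fintype F] {s : SL2 F}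
    (hs : orderOf (QuotientGroup.mk s : Matrix.ProjectiveSpecialLinearGroup (Fin 2) F) = 2) :
    ¬ IsScal (s : M2 F) ∧ (s : M2 F).trace = 0 := by
  classical
  have h6 : ¬ IsScal (s : M2 F) := mk_ne_one_iff.1 fun e => by rw [e, orderOf_one] at hs; omega
  have h5 := pow_orderOf_eq_one (QuotientGroup.mk s : Matrix.ProjectiveSpecialLinearGroup (Fin 2) F)
  rw [hs, ← QuotientGroup.mk_pow, sq] at h5
  have h7 := not_not.1 (mt mk_ne_one_iff.2 (not_not.2 h5))
  rw [SL2_coe_mul, m2_sq, sub_eq_add_neg, add_comm, ← neg_smul, isScal_lin_iff h6] at h7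
  exact ⟨h6, h7⟩

/-- Let F be a finite field with at least 4 elements and let X be a conjugacy class of involutions of PSL(2, F). The graph on X joining two distinct involutions whose product has odd order is connected and has diameter exactly 2. -/
theorem result {F : Type*} [Field F] [Fintype F] (hF : 4 ≤ Fintype.card F)
    (t : Matrix.ProjectiveSpecialLinearGroup (Fin 2) F) (ht : orderOf t = 2) :
    (SimpleGraph.fromRel fun x y : {x : Matrix.ProjectiveSpecialLinearGroup (Fin 2) F // IsConj t x} =>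
        Odd (orderOf (x.1 * y.1))).Connected ∧
      (SimpleGraph.fromRel fun x y : {x : Matrix.ProjectiveSpecialLinearGroup (Fin 2) F // IsConj t x} =>
        Odd (orderOf (x.1 * y.1))).diam = 2 := by
  classical
  obtain ⟨t, rfl⟩ := QuotientGroup.mk_surjective t
  obtain ⟨t1, t2⟩ := tr_of_two ht
  have hc : ∀ z : SL2 F, ¬ IsScal (z : M2 F) → (z : M2 F).trace = 0 →
      IsConj (QuotientGroup.mk t : Matrix.ProjectiveSpecialLinearGroup (Fin 2) F) (QuotientGroup.mk z) := fun z h1 h2 =>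
    isConj_mk_iff.2 (Or.inl ((isConj_SL_iff t1 h1 (or_iff_not_imp_left.2 fun h => trace_sq_ne_of_zero h t2)).2
      (t2.trans h2.symm)))
  set Γ := SimpleGraph.fromRel fun x y : {x : Matrix.ProjectiveSpecialLinearGroup (Fin 2) F //
    IsConj (QuotientGroup.mk t) x} => Odd (orderOf (x.1 * y.1)) with hΓ
  have ho : ∀ x : {x : Matrix.ProjectiveSpecialLinearGroup (Fin 2) F // IsConj (QuotientGroup.mk t) x},
      orderOf x.1 = 2 := fun x => by
    obtain ⟨g, hg⟩ := isConj_iff.1 x.2
    rw [← hg]; exact ((MulAut.conj g).orderOf_eq _).trans ht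
  have h1 : ∀ x y, Odd (orderOf (x.1 * y.1)) → Γ.edist x y ≤ 1 := fun x y h => by
    by_cases e : x = y
    · simp [e]
    · exact (SimpleGraph.edist_eq_one_iff_adj.2 ((SimpleGraph.fromRel_adj _ _ _).2 ⟨e, Or.inl h⟩)).le
  have h2 : Γ.ediam ≤ 2 := by
    refine SimpleGraph.ediam_le_of_edist_le fun x y => ?_
    suffices h : Odd (orderOf (x.1 * y.1)) ∨ ∃ z : {x : Matrix.ProjectiveSpecialLinearGroup (Fin 2) F //
        IsConj (QuotientGroup.mk t) x}, Odd (orderOf (x.1 * z.1)) ∧ Odd (orderOf (z.1 * y.1)) by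
      rcases h with h | ⟨z, h, h'⟩
      · exact (h1 x y h).trans one_le_two
      · exact SimpleGraph.edist_triangle.trans ((add_le_add (h1 x z h) (h1 z y h')).trans one_add_one_eq_two.le)
    have hx := ho x
    have hy := ho y
    obtain ⟨x, hx'⟩ := x
    obtain ⟨y, hy'⟩ := y
    obtain ⟨x, rfl⟩ := QuotientGroup.mk_surjective x
    obtain ⟨y, rfl⟩ := QuotientGroup.mk_surjective y
    obtain ⟨x1, x2⟩ := tr_of_two hx
    obtain ⟨y1, y2⟩ := tr_of_two hy
    by_cases h : (2 : F) = 0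
    · have k : ∀ s : SL2 F, ¬ IsScal (s : M2 F) → (s : M2 F).trace = 0 →
          (Finset.univ.filter fun l : F => (s : M2 F) 0 1 + (s : M2 F) 1 0 * l ^ 2 = 0).card ≤ 1 := by
        intro s s1 s2
        refine Finset.card_le_one.2 fun a ha b hb => ?_
        simp only [Finset.mem_filter, Finset.mem_univ, true_and] at ha hb
        rw [Matrix.trace_fin_two] at s2
        have h0 : (s : M2 F) 1 0 ≠ 0 := fun e => s1 ⟨by linear_combination ha - a ^ 2 * e, e,
          by linear_combination s2 - (s : M2 F) 1 1 * h⟩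
        refine sub_eq_zero.1 (pow_eq_zero_iff two_ne_zero |>.1 (mul_left_cancel₀ h0 ?_))
        linear_combination ha - hb + (s : M2 F) 1 0 * (b ^ 2 - a * b) * h
      obtain ⟨l, -, hl⟩ := Finset.exists_mem_notMem_of_card_lt_card (s := _ ∪ _) (t := Finset.univ)
        (lt_of_le_of_lt ((Finset.card_union_le _ _).trans (add_le_add (k x x1 x2) (k y y1 y2)))
          (by rw [Finset.card_univ]; omega))
      simp only [Finset.mem_union, Finset.mem_filter, Finset.mem_univ, true_and, not_or] at hl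
      rw [Matrix.trace_fin_two] at x2 y2
      refine Or.inr ⟨⟨_, hc (H09.sl2 (1 + l) (l ^ 2) 1 (1 + l) (by linear_combination l * h))
        (fun e => one_ne_zero (α := F) e.2.1) ?_⟩, odd_of (w := x * _) (Or.inl ⟨h, fun e => hl.1 ?_⟩),
        odd_of (w := _ * y) (Or.inl ⟨h, fun e => hl.2 ?_⟩)⟩
      · rw [H09.sl2_coe, Matrix.trace_fin_two_of]; linear_combination (1 + l) * h
      · rw [SL2_coe_mul, H09.sl2_coe, Matrix.trace_fin_two] at e
        simp [m2_mul_apply] at e
        linear_combination e - (1 + l) * x2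
      · rw [SL2_coe_mul, H09.sl2_coe, Matrix.trace_fin_two] at e
        simp [m2_mul_apply] at e
        linear_combination e - (1 + l) * y2
    by_cases h4 : ((x * y : SL2 F) : M2 F).trace ^ 2 = 4
    · exact Or.inl (odd_of (w := x * y) (Or.inr (Or.inl ⟨h, h4⟩)))
    right
    by_cases h3 : Fintype.card F % 4 = 3
    · obtain ⟨l, m, hl, hm, h5⟩ := exists_pair h3 hF h4
      obtain ⟨z, z1, z2, z3⟩ := exists_third x2 y2 rfl h4 h5
      exact ⟨⟨_, hc z (SLc.not_isScal_of_trace (trace_sq_ne_of_zero h z1)) z1⟩,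
        odd_of (w := x * z) (Or.inr (Or.inr ⟨h3, l, hl, z2⟩)), odd_of (w := z * y) (Or.inr (Or.inr ⟨h3, m, hm, z3⟩))⟩
    · obtain ⟨i, hi⟩ := FiniteField.isSquare_neg_one_iff.2 h3
      obtain ⟨z, z1, z2, z3⟩ := exists_third x2 y2 rfl h4 (y := 2) (w := 2)
        ⟨i * (((x * y : SL2 F) : M2 F).trace + 2), by
          linear_combination (((x * y : SL2 F) : M2 F).trace + 2) ^ 2 * hi⟩
      exact ⟨⟨_, hc z (SLc.not_isScal_of_trace (trace_sq_ne_of_zero h z1)) z1⟩,
        odd_of (w := x * z) (Or.inr (Or.inl ⟨h, by rw [z2]; norm_num⟩)),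
        odd_of (w := z * y) (Or.inr (Or.inl ⟨h, by rw [z3]; norm_num⟩))⟩
  have h3 : ∃ x y : SL2 F, ¬ IsScal (x : M2 F) ∧ ¬ IsScal (y : M2 F) ∧ ¬ IsScal ((x * y : SL2 F) : M2 F) ∧
      (x : M2 F).trace = 0 ∧ (y : M2 F).trace = 0 ∧ ((x * y : SL2 F) : M2 F).trace = 0 ∧
      ((y * x : SL2 F) : M2 F).trace = 0 := by
    by_cases h : (2 : F) = 0
    · obtain ⟨a, ha⟩ := SLc.exists_unit_sq_ne_one hF
      have h5 : (1 : F) + a ≠ 0 := fun e => ha (Units.ext (by
        rw [Units.val_pow_eq_pow_val, Units.val_one]; linear_combination ((a : F) - 1) * e))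
      refine ⟨SLc.un 1, SLc.un a, mt SLc.isScal_un.1 one_ne_zero, mt SLc.isScal_un.1 a.ne_zero, ?_, ?_, ?_, ?_, ?_⟩ <;>
        try rw [← SLc.un_add]
      · exact mt SLc.isScal_un.1 h5
      all_goals exact (SLc.trace_un _).trans h
    · obtain ⟨w, hw⟩ := exists_conj_eq_inv (trace_sq_ne_of_zero h t2)
      have h5 := trace_eq_zero_of_conj_eq_inv (trace_sq_ne_of_zero h t2) hw
      have h6 : ((w * t : SL2 F) : M2 F).trace = 0 := trace_eq_zero_of_conj_eq_inv (trace_sq_ne_of_zero h t2)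
        (by rw [← hw]; group)
      exact ⟨w, t, SLc.not_isScal_of_trace (trace_sq_ne_of_zero h h5), t1,
        SLc.not_isScal_of_trace (trace_sq_ne_of_zero h h6), h5, t2, h6, by
          rw [← h6, SL2_coe_mul, SL2_coe_mul, Matrix.trace_mul_comm]⟩
  obtain ⟨x, y, x1, y1, z1, x2, y2, z2, z3⟩ := h3
  have h4 : ∀ w : SL2 F, (w : M2 F).trace = 0 →
      (QuotientGroup.mk w : Matrix.ProjectiveSpecialLinearGroup (Fin 2) F) ^ 2 = 1 := fun w h => by
    rw [← QuotientGroup.mk_pow, sq, sq_eq_neg_one_of_trace h]; exact H09.PSL2.mk_eq_one_iff.2 (Or.inr rfl)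
  have h5 : (QuotientGroup.mk x : Matrix.ProjectiveSpecialLinearGroup (Fin 2) F) * QuotientGroup.mk y ≠ 1 :=
    mk_ne_one_iff.2 z1
  have h6 : (⟨_, hc x x1 x2⟩ : {x : Matrix.ProjectiveSpecialLinearGroup (Fin 2) F // IsConj (QuotientGroup.mk t) x}) ≠
      ⟨_, hc y y1 y2⟩ := fun e => h5 (by rw [← show QuotientGroup.mk x = QuotientGroup.mk y from congrArg Subtype.val e, ← sq, h4 x x2])
  have : Nontrivial {x : Matrix.ProjectiveSpecialLinearGroup (Fin 2) F // IsConj (QuotientGroup.mk t) x} := ⟨_, _, h6⟩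
  have h7 : Γ.ediam ≠ 1 := by
    rw [Ne, SimpleGraph.ediam_eq_one]
    intro e
    have h8 : Γ.Adj ⟨_, hc x x1 x2⟩ ⟨_, hc y y1 y2⟩ := by rw [e]; exact h6
    rcases ((SimpleGraph.fromRel_adj _ _ _).1 h8).2 with h | h
    · exact absurd (orderOf_eq_prime (h4 (x * y) z2) h5 ▸ (show Odd (orderOf (QuotientGroup.mk (x * y))) from h)) (by decide)
    · exact absurd (orderOf_eq_prime (h4 (y * x) z3) (fun e => h5 (mul_eq_one_comm.1 e)) ▸
        (show Odd (orderOf (QuotientGroup.mk (y * x))) from h)) (by decide)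
  have h8 : Γ.ediam = 2 := le_antisymm h2 (Order.add_one_le_of_lt (lt_of_le_of_ne
    (Order.one_le_iff_ne_zero.2 SimpleGraph.ediam_ne_zero) h7.symm))
  exact ⟨SimpleGraph.connected_of_ediam_ne_top (by rw [h8]; simp), by rw [SimpleGraph.diam, h8]; rfl⟩

end Cfsg.Agent.S3266
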