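import Mathlib
import Cfsg.Statements.S3269
import Cfsg.Agent.H08.IsoElt
import Cfsg.Agent.H08.Util
import Cfsg.Agent.H08.BrauerSuzuki

set_option autoImplicit false
open Cfsg

namespace Cfsg.Agent.S3269

open Subgroup in
theorem normal_right {S : Type*} [Group S] {A B : Subgroup S} (h : IsInternalDirectProduct A B ⊤) : B.Normal :=
  H02.normal_of_normalizer_of_sup (le_trans (fun a ha b hb => (h.2.2.1 a ha b hb).symm :
    A ≤ centralizer (B : Set S)) (centralizer_le_normalizer _)) le_normalizer h.2.2.2.2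

open Subgroup in
theorem normal_left {S : Type*} [Group S] {A B : Subgroup S} (h : IsInternalDirectProduct A B ⊤) : A.Normal :=
  H02.normal_of_normalizer_of_sup le_normalizer (le_trans (fun b hb a ha => h.2.2.1 a ha b hb :
    B ≤ centralizer (A : Set S)) (centralizer_le_normalizer _)) h.2.2.2.2

open Subgroup in
/-- the projection onto a direct factor -/
theorem exists_pr {S : Type*} [Group S] {A B : Subgroup S} (h : IsInternalDirectProduct A B ⊤) :
    ∃ π : S →* S, (∀ x, π x ∈ A) ∧ (∀ x, x * (π x)⁻¹ ∈ B) ∧ (∀ a ∈ A, π a = a) ∧ ∀ b ∈ B, π b = 1 := by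
  haveI := normal_right h
  obtain ⟨-, -, hc, hi, hs⟩ := h
  obtain ⟨ρ, h1, h2⟩ := H08.exists_proj (H01.le_normalizer_of_normal ⊤ B) (sup_comm A B ▸ hs) (inf_comm A B ▸ hi)
  have h3 : ∀ x : S, x * ((ρ ⟨x, trivial⟩ : A) : S)⁻¹ ∈ B := fun x => h1 ⟨x, trivial⟩
  refine ⟨A.subtype.comp (ρ.comp topEquiv.symm.toMonoidHom), fun x => (ρ ⟨x, trivial⟩).2, h3,
    fun a ha => congrArg Subtype.val (h2 ⟨a, ha⟩ trivial), fun b hb => ?_⟩
  have : ((ρ ⟨b, trivial⟩ : A) : S) ∈ A ⊓ B := ⟨(ρ _).2, by simpa using mul_mem (inv_mem hb) (h3 b)⟩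
  rw [hi] at this
  exact this

open Subgroup in
open scoped IsMulCommutative in
theorem exists_char {S : Type*} [Group S] [Finite S] (hS : IsPGroup 2 S) {n : ℕ} {Q R : Subgroup S}
    (h : IsInternalDirectProduct Q R ⊤) (e : Q ≃* QuaternionGroup (2 ^ (n + 1)))
    (hZ : ∀ t : S, orderOf t = 2 → t ∈ center S) : ∃ w : S, orderOf w = 2 ∧ ∀ φ : MulAut S, φ w = w := by
  classical
  haveI := Fintype.ofFinite S
  let P : S → Prop := fun z => orderOf z = 2 ∧ ∃ A B : Subgroup S, IsInternalDirectProduct A B ⊤ ∧ z ∈ A ∧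
    Nonempty (A ≃* QuaternionGroup (2 ^ (n + 1)))
  have hP : ∀ φ : MulAut S, ∀ z, P z → P (φ z) := by
    rintro φ z ⟨hz, A, B, ⟨-, -, h1, h2, h3⟩, hzA, ⟨f⟩⟩
    refine ⟨(φ.orderOf_eq z).trans hz, A.map φ.toMonoidHom, B.map φ.toMonoidHom, ⟨le_top, le_top, ?_, ?_, ?_⟩,
      ⟨z, hzA, rfl⟩, ⟨(A.equivMapOfInjective _ φ.injective).symm.trans f⟩⟩
    · rintro _ ⟨a, ha, rfl⟩ _ ⟨b, hb, rfl⟩
      rw [← map_mul, h1 a ha b hb, map_mul]
    · rw [← map_inf _ _ _ φ.injective, h2, Subgroup.map_bot]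
    · rw [← Subgroup.map_sup, h3, map_top_of_surjective _ φ.surjective]
  let Z : Finset (center S) := Finset.univ.filter fun z => P z
  obtain ⟨π, hπ1, hπ2, hπ3, hπ4⟩ := exists_pr h
  obtain ⟨α, β, hq⟩ := H07.exists_qData e
  have hz₀ := hq.orderOf_pow_m (by positivity)
  let z₀ : center S := ⟨α ^ 2 ^ (n + 1), hZ _ hz₀⟩
  have hz₀Z : z₀ ∈ Z := by
    simp only [Z, Finset.mem_filter, Finset.mem_univ, true_and]
    exact ⟨hz₀, Q, R, h, pow_mem hq.a_mem _, ⟨e⟩⟩
  have key : ∀ z ∈ Z.erase z₀, π z = 1 := by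
    intro z hz
    simp only [Z, Finset.mem_erase, Finset.mem_filter, Finset.mem_univ, true_and] at hz
    obtain ⟨hne, hz2, A, B, hAB, hzA, ⟨f⟩⟩ := hz
    by_contra h1
    obtain ⟨γ, δ, hq'⟩ := H07.exists_qData f
    haveI hAn := normal_left hAB
    have hinj : A ⊓ π.ker = ⊥ := by
      by_contra hne'
      obtain ⟨t, ht, htk, ht2, -⟩ := H08.exists_central_invol (hS.to_subgroup A) (H01.le_normalizer_of_normal _ _) hne'
      rw [H08.qdata_eq hq' (by positivity) ht2 ht, ← H08.qdata_eq hq' (by positivity) hz2 hzA] at htk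
      exact h1 htk
    have hmap : A.map π = Q := by
      refine eq_of_le_of_card_ge (by rintro _ ⟨a, -, rfl⟩; exact hπ1 a) ?_
      rw [← relIndex_ker, ← inf_relIndex_right, inf_comm, hinj, relIndex_bot_left, Nat.card_congr e.toEquiv,
        Nat.card_congr f.toEquiv]
    obtain ⟨a, ha, haα⟩ : α ∈ A.map π := hmap ▸ hq.a_mem
    have h2 := mul_mem ha (hAn.conj_mem _ (inv_mem ha) β)
    have h3 : a * (β * a⁻¹ * β⁻¹) = α ^ 2 := by
      have h4 := h.2.2.1 _ hq.a_mem _ (haα ▸ hπ2 a)
      have h5 := h.2.2.1 _ hq.b_mem _ (haα ▸ hπ2 a)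
      generalize hr : a * α⁻¹ = r at h4 h5
      obtain rfl : a = r * α := by rw [← hr]; group
      calc r * α * (β * (r * α)⁻¹ * β⁻¹) = r * α * (β * α * β⁻¹)⁻¹ * (β * r * β⁻¹)⁻¹ := by group
        _ = r * α * α * r⁻¹ := by rw [hq.conj, h5]; group
        _ = α ^ 2 := by rw [← h4, mul_assoc α, ← h4, pow_two]; group
    have h6 : α ^ 2 ^ (n + 1) ∈ A := by rw [pow_succ', pow_mul, ← h3]; exact pow_mem h2 _
    exact hne (Subtype.ext ((H08.qdata_eq hq' (by positivity) hz2 hzA).trans
      (H08.qdata_eq hq' (by positivity) hz₀ h6).symm))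
  refine ⟨((∏ z ∈ Z, z : center S) : S), ?_, fun φ => ?_⟩
  · refine H08.orderOf_eq_two_iff'.2 ⟨?_, fun h1 => ?_⟩
    · rw [← coe_mul, ← Finset.prod_mul_distrib, Finset.prod_eq_one, coe_one]
      intro z hz
      simp only [Z, Finset.mem_filter, Finset.mem_univ, true_and] at hz
      exact Subtype.ext (H08.mul_self_of_orderOf hz.1)
    · have h2 := congrArg π h1
      rw [← Finset.mul_prod_erase Z _ hz₀Z, coe_mul, map_mul, map_one] at h2
      have h3 : π ((∏ z ∈ Z.erase z₀, z : center S) : S) = 1 :=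
        Finset.prod_induction _ (fun z : center S => π z = 1)
          (fun a b ha hb => by rw [coe_mul, map_mul, ha, hb, mul_one]) (by simp) key
      rw [h3, mul_one, hπ3 _ (pow_mem hq.a_mem _)] at h2
      exact H08.ne_one_of_orderOf hz₀ h2
  · have := map_prod (centerCongr φ) (fun z => z) Z
    refine (congrArg Subtype.val this).trans (congrArg Subtype.val ?_)
    refine Finset.prod_equiv (centerCongr φ).toEquiv (fun z => ?_) fun _ _ => rfl
    simp only [Z, Finset.mem_filter, Finset.mem_univ, true_and]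
    exact ⟨hP φ z, fun h => (φ.symm_apply_apply z) ▸ hP φ⁻¹ (φ z) h⟩

/-- Let G be a finite group whose Sylow 2-subgroup S is an internal direct product Q × R with Q generalized quaternion (of order at least 8) and R a subgroup all of whose involutions are central in R. Then G is not simple. In particular no finite simple group has a Sylow 2-subgroup that is a direct product of one or more generalized quaternion groups. -/
theorem result {G : Type*} [Group G] [Finite G]
    (S : Sylow 2 G) (Q R : Subgroup G) (hQR : Cfsg.IsInternalDirectProduct Q R (S : Subgroup G))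
    (n : ℕ) (hn : 1 ≤ n) (eQ : ↥Q ≃* QuaternionGroup (2 ^ n))
    (hR : ∀ r ∈ R, orderOf r = 2 → ∀ s ∈ R, r * s = s * r) :
    ¬ IsSimpleGroup G := by
  intro hG
  obtain ⟨n, rfl⟩ : ∃ k, n = k + 1 := ⟨n - 1, by omega⟩
  obtain ⟨hQ, hR', hc, hi, hs⟩ := hQR
  obtain ⟨α, β, hq⟩ := H07.exists_qData eQ
  have hdp : IsInternalDirectProduct (Q.subgroupOf S) (R.subgroupOf S) ⊤ :=
    ⟨le_top, le_top, fun a ha b hb => Subtype.ext (hc a ha b hb), by
      rw [Subgroup.subgroupOf, Subgroup.subgroupOf, ← Subgroup.comap_inf, hi]; exact Subgroup.ker_subtype _, by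
      rw [← Subgroup.subgroupOf_sup hQ hR', hs, Subgroup.subgroupOf_self]⟩
  have hZ : ∀ t : S, orderOf t = 2 → t ∈ Subgroup.center S := by
    intro t ht
    obtain ⟨π, hπ1, hπ2, -, -⟩ := exists_pr hdp
    have h1 : π t * π t = 1 := by rw [← map_mul, H08.mul_self_of_orderOf ht, map_one]
    have h2 : ∀ s ∈ Q, Commute s ((π t : S) : G) := by
      intro s hs
      rcases hq.eq_of_sq_eq_one (by positivity) (hπ1 t) (congrArg Subtype.val h1) with h | h <;>
        rw [Subgroup.coe_subtype] at h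
      · rw [h]; exact Commute.one_right _
      · rw [h]
        exact mul_inv_eq_iff_eq_mul.1 <| H08.qdata_eq hq (by positivity) (by rw [H08.orderOf_conj', hq.orderOf_pow_m (by positivity)])
          (mul_mem (mul_mem hs (pow_mem hq.a_mem _)) (inv_mem hs))
    have h3 := hπ2 t
    have h4 := hdp.2.2.1 _ (hπ1 t) _ h3
    generalize hr : t * (π t)⁻¹ = r at h3 h4
    have ht' : t = r * π t := by rw [← hr]; group
    have h5 : r * r = 1 := by
      have := H08.mul_self_of_orderOf ht
      rwa [ht', mul_assoc, ← mul_assoc (π t), h4, mul_assoc, h1, mul_one] at this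
    have h6 : ∀ s ∈ R, Commute s (r : G) := by
      intro s hs
      by_cases h : (r : G) = 1
      · rw [h]; exact Commute.one_right _
      · exact (hR r h3 (H08.orderOf_eq_two_iff'.2 ⟨congrArg Subtype.val h5, h⟩) s hs).symm
    have h7 : (S : Subgroup G) ≤ Subgroup.centralizer {(t : G)} := by
      rw [← hs]
      refine sup_le (fun s hs => ?_) (fun s hs => ?_) <;> rw [H08.mem_centralizer_singleton_commute, ht']
      · exact Commute.mul_right (hc s hs r h3) (h2 s hs)
      · exact (h6 s hs).mul_right (hc _ (hπ1 t) s hs).symm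
    exact Subgroup.mem_center_iff.2 fun s => Subtype.ext (Subgroup.mem_centralizer_singleton_iff.1 (h7 s.2))
  obtain ⟨w, hw, hφ⟩ := exists_char S.2 hdp ((Subgroup.subgroupOfEquivOfLe hQ).trans eQ) hZ
  have hw' : orderOf (w : G) = 2 := by rw [Subgroup.orderOf_coe, hw]
  have hiso : IsIsolatedInvolution (w : G) := H08.isIsolated_of_sylow S hw' fun g hg => by
    obtain ⟨a, ha, h⟩ := H08.burnside_elt S (x := w) (g := g)
      (fun s hs => congrArg Subtype.val (Subgroup.mem_center_iff.1 (hZ w hw) ⟨s, hs⟩))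
      (fun s hs => congrArg Subtype.val (Subgroup.mem_center_iff.1 (hZ ⟨_, hg⟩
        (by rw [Subgroup.orderOf_mk, H08.orderOf_conj', hw'])) ⟨s, hs⟩))
    rw [← h]
    exact congrArg Subtype.val (hφ ((S : Subgroup G).normalizerMonoidHom ⟨a, ha⟩))
  rcases (inferInstance : (oddCore G).Normal).eq_bot_or_eq_top with h | h
  · have h1 : (w : G) ∈ Subgroup.center G := Subgroup.mem_center_iff.2 fun g => by
      have := Cfsg.Agent.S0215.zstar hiso g
      rw [h, Subgroup.mem_bot, mul_inv_eq_one, mul_inv_eq_iff_eq_mul] at this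
      exact this.symm
    rcases (inferInstance : (Subgroup.center G).Normal).eq_bot_or_eq_top with h2 | h2
    · rw [h2] at h1; exact H08.ne_one_of_orderOf hw' h1
    · have h3 := hq.conj
      rw [Subgroup.mem_center_iff.1 (h2 ▸ Subgroup.mem_top α) β, mul_inv_cancel_right] at h3
      refine hq.pow_ne_one (k := 2) (by norm_num) (by have := Nat.one_lt_two_pow (n := n + 1) (by omega); omega) ?_
      rw [pow_two]; nth_rewrite 1 [h3]; group
  · have := H08.odd_orderOf_of_mem (H08.odd_card_oddCore G) (h ▸ Subgroup.mem_top (w : G))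
    rw [hw'] at this
    exact absurd this (by decide)

end Cfsg.Agent.S3269
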