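import Cfsg.Statements.S3276
import Mathlib
import Cfsg.Agent.H08.Dihedral
-- import your own Cfsg.Agent.* helpers here

set_option autoImplicit false
open Cfsg

namespace Cfsg.Agent.S3276

open scoped Pointwise commutatorElement

/-- Let x and y be commuting, non-conjugate involutions of a finite group G, and suppose that for every involution u commuting with x, each conjugate of y that commutes with u also commutes with y. Then the normal closure of y is a proper, normal, elementary abelian 2-subgroup of G; and if y is the only involution of that normal closure commuting with x, it has order at most 4. -/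
theorem result {G : Type*} [Group G] [Finite G] (x y : G) (hx : orderOf x = 2) (hy : orderOf y = 2)
    (hxy : Commute x y) (hnc : ¬ IsConj x y)
    (hstar : ∀ u : G, orderOf u = 2 → Commute u x → ∀ g : G, Commute (g * y * g⁻¹) u → Commute (g * y * g⁻¹) y) :
    Subgroup.normalClosure ({y} : Set G) ≠ ⊤ ∧ Cfsg.IsElementaryAbelian 2 (Subgroup.normalClosure ({y} : Set G)) ∧
      ((∀ u ∈ Subgroup.normalClosure ({y} : Set G), orderOf u = 2 → Commute u x → u = y) →
        Nat.card ↥(Subgroup.normalClosure ({y} : Set G)) ≤ 4) := by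
  have h1 : ∀ g : G, Commute (g * y * g⁻¹) y := by
    intro g
    have hy' : orderOf (g * y * g⁻¹) = 2 := by rw [H08.orderOf_conj', hy]
    have hnc' : ¬ IsConj x (g * y * g⁻¹) := fun h => hnc (h.trans (isConj_iff.mpr ⟨g, rfl⟩).symm)
    have hx2 := H08.mul_self_of_orderOf hx
    have hy2 := H08.mul_self_of_orderOf hy'
    have he := H08.even_orderOf_mul_of_not_isConj hx2 hy2 hnc'
    exact hstar _ (H08.half_pow_invol he) (H08.commute_half_pow_left hx2 hy2 he) g
      (H08.commute_half_pow_right hx2 hy2 he).symm
  have h2 : ∀ a ∈ Group.conjugatesOfSet ({y} : Set G), ∀ b ∈ Group.conjugatesOfSet ({y} : Set G),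
      a * b = b * a := by
    intro a ha b hb
    simp only [Group.mem_conjugatesOfSet_iff, Set.mem_singleton_iff, exists_eq_left, isConj_iff] at ha hb
    obtain ⟨g, rfl⟩ := ha
    obtain ⟨h, rfl⟩ := hb
    have := (h1 (h⁻¹ * g)).eq
    calc g * y * g⁻¹ * (h * y * h⁻¹) = h * (h⁻¹ * g * y * (h⁻¹ * g)⁻¹ * y) * h⁻¹ := by group
      _ = h * y * h⁻¹ * (g * y * g⁻¹) := by rw [this]; group
  set V := Subgroup.normalClosure ({y} : Set G) with hV
  have hc : IsMulCommutative V := Subgroup.isMulCommutative_closure h2
  have cV : ∀ a ∈ V, ∀ b ∈ V, a * b = b * a := fun a ha b hb =>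
    congrArg Subtype.val (hc.is_comm.comm (⟨a, ha⟩ : V) ⟨b, hb⟩)
  have hsq : ∀ a ∈ V, a ^ 2 = 1 := by
    intro a ha
    induction ha using Subgroup.closure_induction with
    | mem a ha =>
      simp only [Group.mem_conjugatesOfSet_iff, Set.mem_singleton_iff, exists_eq_left, isConj_iff] at ha
      obtain ⟨g, rfl⟩ := ha
      rw [conj_pow, ← hy, pow_orderOf_eq_one]; simp
    | one => simp
    | mul a b ha hb h3 h4 => rw [(show Commute a b from cV a ha b hb).mul_pow, h3, h4, one_mul]
    | inv a _ h3 => rw [inv_pow, h3, inv_one]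
  refine ⟨fun ht => ?_, ⟨hc, hsq⟩, fun hu => ?_⟩
  · have hyV : y ∈ V := Subgroup.subset_normalClosure rfl
    haveI : (Subgroup.zpowers y).Normal := ⟨fun n hn g => by
      rw [cV g (ht ▸ trivial) n (ht ▸ trivial), mul_inv_cancel_right]; exact hn⟩
    have : V ≤ Subgroup.zpowers y := Subgroup.normalClosure_le_normal (by simp)
    have h3 : x ∈ Subgroup.zpowers y := this (ht ▸ trivial)
    classical
    rw [mem_zpowers_iff_mem_range_orderOf, hy] at h3
    simp only [Finset.mem_image, Finset.mem_range] at h3
    obtain ⟨k, hk, rfl⟩ := h3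
    interval_cases k
    · simp at hx
    · exact hnc (by rw [pow_one])
  · have hx2 := H08.mul_self_of_orderOf hx
    have hxi : x⁻¹ = x := H08.inv_eq_of_orderOf hx
    have hC : ∀ u ∈ V, Commute u x → u ∈ Subgroup.zpowers y := by
      intro u hu' hux
      by_cases h : u = 1
      · rw [h]; exact one_mem _
      · rw [hu u hu' (orderOf_eq_prime (hsq u hu') h) hux]; exact Subgroup.mem_zpowers y
    let f : V →* V := MonoidHom.mk' (fun v => ⟨v * (x * v * x⁻¹), V.mul_mem v.2
      (Subgroup.Normal.conj_mem inferInstance _ v.2 x)⟩) (by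
        intro a b
        apply Subtype.ext
        show (a : G) * b * (x * (a * b) * x⁻¹) = a * (x * a * x⁻¹) * (b * (x * b * x⁻¹))
        have := cV b b.2 _ (Subgroup.Normal.conj_mem inferInstance _ a.2 x)
        calc (a : G) * b * (x * (a * b) * x⁻¹) = a * (b * (x * a * x⁻¹)) * (x * b * x⁻¹) := by group
          _ = _ := by rw [this]; group)
    have hk : Nat.card f.ker ≤ 2 := by
      rw [← hy, ← Nat.card_zpowers]
      refine Nat.card_le_card_of_injective (fun v => (⟨(v : V), hC _ (v : V).2 ?_⟩ : Subgroup.zpowers y)) ?_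
      · have h3 : ((v : V) : G) * (x * (v : V) * x⁻¹) = 1 := congrArg Subtype.val v.2
        have h4 := hsq _ (v : V).2
        rw [sq] at h4
        have h5 : x * (v : V) * x⁻¹ = (v : V) := mul_left_cancel (h3.trans h4.symm)
        show ((v : V) : G) * x = x * (v : V)
        conv_lhs => rw [← h5]
        group
      · intro a b h
        exact Subtype.ext (Subtype.ext (Subtype.mk.inj h))
    have hr : Nat.card f.range ≤ 2 := by
      rw [← hy, ← Nat.card_zpowers]
      refine Nat.card_le_card_of_injective (fun v => (⟨(v : V), hC _ (v : V).2 ?_⟩ : Subgroup.zpowers y)) ?_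
      · obtain ⟨_, w, rfl⟩ := v
        show ((w : G) * (x * w * x⁻¹)) * x = x * (w * (x * w * x⁻¹))
        conv_lhs => rw [cV w w.2 _ (Subgroup.Normal.conj_mem inferInstance _ w.2 x)]
        rw [hxi]
        calc x * w * x * w * x = x * (w * (x * w * x)) := by group
          _ = _ := rfl
      · intro a b h
        exact Subtype.ext (Subtype.ext (Subtype.mk.inj h))
    rw [← f.ker.card_mul_index, Subgroup.index_ker]
    calc _ ≤ 2 * 2 := Nat.mul_le_mul hk hr
      _ = 4 := rfl

end Cfsg.Agent.S3276
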