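import Mathlib
import Cfsg.Statements.S3279
import Cfsg.Agent.H08.Simp2

set_option autoImplicit false
open Cfsg

namespace Cfsg.Agent.S3279

open Subgroup H08

/-- Let G be a finite simple group and x an involution of G whose centralizer contains at most three involutions. Then C_G(x) contains a Sylow 2-subgroup of G, and all involutions of G are conjugate. -/
theorem result {G : Type*} [Group G] [Finite G] [IsSimpleGroup G] (x : G) (hx : orderOf x = 2)
    (h3 : Nat.card {u : ↥(Subgroup.centralizer ({x} : Set G)) // orderOf u = 2} ≤ 3) :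
    (∃ S : Sylow 2 G, (S : Subgroup G) ≤ Subgroup.centralizer ({x} : Set G)) ∧
      ∀ u v : G, orderOf u = 2 → orderOf v = 2 → IsConj u v := by
  by_cases hG : IsMulCommutative G
  · obtain ⟨T⟩ : Nonempty (Sylow 2 G) := inferInstance
    have : IsCyclic (⊤ : Subgroup G) := by
      let _ : CommGroup G := { mul_comm := hG.is_comm.comm }
      infer_instance
    exact ⟨⟨T, fun g _ => mem_centralizer_singleton_iff.2 (hG.is_comm.comm g x)⟩, fun u v hu hv => by
      rw [invol_eq_of_isCyclic hu hv (mem_top u) (mem_top v)]⟩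
  have key : ∀ y, IsConj x y → ∀ a b c d : G, orderOf a = 2 → orderOf b = 2 → orderOf c = 2 → orderOf d = 2 →
      Commute a y → Commute b y → Commute c y → Commute d y → a ≠ b → a ≠ c → b ≠ c → d = a ∨ d = b ∨ d = c := by
    intro y hy a b c d ha hb hc hd ca cb cc cd hab hac hbc
    obtain ⟨g, rfl⟩ := isConj_iff.1 hy
    by_contra hn
    push Not at hn
    have h1 : ∀ a : G, Commute a (g * x * g⁻¹) → g⁻¹ * a * g ∈ centralizer ({x} : Set G) := fun a h =>
      mem_map_conj.1 (centralizer_conj g x ▸ mem_centralizer_singleton_iff.2 h)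
    have h2 : ∀ a : G, orderOf a = 2 → orderOf (g⁻¹ * a * g) = 2 := fun a h => by simpa [h] using orderOf_conj' g⁻¹ a
    let f : Fin 4 → {u : centralizer ({x} : Set G) // orderOf u = 2} :=
      ![⟨⟨_, h1 a ca⟩, by simp [h2, ha]⟩, ⟨⟨_, h1 b cb⟩, by simp [h2, hb]⟩, ⟨⟨_, h1 c cc⟩, by simp [h2, hc]⟩,
        ⟨⟨_, h1 d cd⟩, by simp [h2, hd]⟩]
    have := Nat.card_le_card_of_injective f fun i j => by
      fin_cases i <;> fin_cases j <;> simp [f, hab, hac, hbc, hab.symm, hac.symm, hbc.symm, hn, hn.1.symm, hn.2.1.symm, hn.2.2.symm]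
    simp at this
    omega
  have hS : ∃ S : Sylow 2 G, (S : Subgroup G) ≤ centralizer ({x} : Set G) := by
    by_contra hn
    obtain ⟨T⟩ : Nonempty (Sylow 2 G) := inferInstance
    have nc : ∀ y, IsConj x y → ¬ ∀ s ∈ (T : Subgroup G), Commute s y := fun y hy h => by
      obtain ⟨g, rfl⟩ := isConj_iff.1 hy
      exact hn ⟨g⁻¹ • T, fun s hs => by
        have := mem_map_conj.1 (centralizer_conj g x ▸ mem_centralizer_singleton_iff.2 (h _ (mem_smul_sylow.1 hs)))
        simpa [mul_assoc] using this⟩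
    have hd : ¬ H04.IsDSQ T := fun h => by
      obtain ⟨z, -, -, hz, cz⟩ := exists_central_invol T.2 (N := T) le_normalizer
        (by rw [inf_idem]; exact T.ne_bot_of_dvd_card (Dvd.dvd.trans (by norm_num) (NA.four_dvd hG)))
      exact nc z (one_class_of_dsq (NA.idx hG) T h hx hz) cz
    obtain h | h | ⟨A, hA, hK, hN⟩ := klein_or_dsq T.2
    · exact NA.not_sol hG (sol_of_cyclic_sylow T h)
    · exact hd h
    obtain ⟨z, zT, zA, hz, cz⟩ := exists_central_invol T.2 hN (by
      rw [inf_eq_right.2 hA]; exact fun e => by have := hK.card_four; simp [e] at this)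
    have idx : ∀ a ∈ A, orderOf a = 2 → a ≠ z → ∀ s ∈ (T : Subgroup G), ¬ Commute s a → s * a * s⁻¹ = z * a := by
      intro a ha h2 hne s hs hc
      have h1 := H03.conj_mem_of_mem_normalizer (hN hs) ha
      rw [klein_eq_closure hK zA ha (ne_one_of_orderOf hz) (ne_one_of_orderOf h2) hne.symm,
        mem_closure_klein (mul_self_of_orderOf hz) (mul_self_of_orderOf h2) (cz a (hA ha)).symm] at h1
      rcases h1 with h | h | h | h
      · exact absurd (by simpa using h) (ne_one_of_orderOf h2)
      · exact absurd (by rw [← (cz s hs).mul_inv_cancel] at h; simpa using h) hne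
      · exact absurd (mul_inv_eq_iff_eq_mul.1 h) hc
      · exact h
    have idx2 : ∀ a ∈ A, orderOf a = 2 → a ≠ z → ∀ s ∈ (T : Subgroup G), ¬ Commute s a → ∀ r ∈ (T : Subgroup G),
        ¬ Commute r a → Commute (r * s) a := fun a ha h2 hne s hs hc r hr hc' => mul_inv_eq_iff_eq_mul.1 (by
      rw [conj_conj, idx a ha h2 hne s hs hc, ← conj_mul, idx a ha h2 hne r hr hc', (cz r hr).mul_inv_cancel, ← mul_assoc,
        mul_self_of_orderOf hz, one_mul])
    obtain ⟨a, ha, aA, aT⟩ : ∃ a, IsConj x a ∧ a ∈ A ∧ a ∈ (T : Subgroup G) := by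
      obtain ⟨b, hb, hzb, cb, e⟩ := exists_klein_gens_of_mem hK zA (ne_one_of_orderOf hz)
      have bA : b ∈ A := e ▸ subset_closure (by simp)
      obtain ⟨g, h1, h2⟩ : ∃ g : G, g * x * g⁻¹ ∈ (T : Subgroup G) ⊓ centralizer {b} := by
        by_cases h : ∀ s ∈ (T : Subgroup G), Commute s b
        · obtain ⟨g, hg⟩ := exists_conj_mem_sylow T (isPGroup_zpowers_of_orderOf hx)
          exact ⟨g, hg, mem_centralizer_singleton_iff.2 (h _ hg)⟩
        push Not at h
        obtain ⟨s, hs, hc⟩ := h
        by_contra h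
        obtain ⟨M, -, h2, -⟩ := H03.thompson_transfer T.not_dvd_index (Q := T ⊓ centralizer {b})
          (relIndex_eq_two_of_mem hs (fun e => hc (mem_centralizer_singleton_iff.1 e.2)) fun r hr =>
            or_iff_not_imp_left.2 fun h1 => ⟨mul_mem hr hs, mem_centralizer_singleton_iff.2 (idx2 b bA hb hzb.symm s hs hc r hr
              fun e => h1 ⟨hr, mem_centralizer_singleton_iff.2 e⟩)⟩) x hx fun g hg => h ⟨g, hg⟩
        exact NA.idx hG M h2
      have h3 : Commute b (g * x * g⁻¹) := (mem_centralizer_singleton_iff.1 h2).symm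
      have h4 := (cz _ h1).symm
      refine ⟨_, isConj_conj g x, ?_, h1⟩
      rcases key _ (isConj_conj g x) z b (z * b) _ hz hb (orderOf_of_mem_klein hK (mul_mem zA bA) (mul_ne_one_of_invol hz hzb))
        (by rw [orderOf_conj', hx]) h4 h3 (h4.mul_left h3) (Commute.refl _) hzb (by simpa using ne_one_of_orderOf hb)
        (by simpa using ne_one_of_orderOf hz) with h | h | h <;> rw [h]
      exacts [zA, bA, mul_mem zA bA]
    have h2 : orderOf a = 2 := by rw [← orderOf_eq_of_isConj ha, hx]
    have hne : a ≠ z := fun e => nc a ha (e ▸ cz)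
    obtain ⟨s, hs, hc⟩ : ∃ s ∈ (T : Subgroup G), ¬ Commute s a := by simpa using nc a ha
    have nz : ∀ w, IsConj z w → orderOf w = 2 → Commute w a → w = z := fun w hw h1 h4 => by
      rcases key a ha z a (z * a) w hz h2 (orderOf_of_mem_klein hK (mul_mem zA aA) (mul_ne_one_of_invol hz hne.symm))
        h1 (cz a aT).symm (Commute.refl _) ((cz a aT).symm.mul_left (Commute.refl _)) h4 hne.symm
        (by simpa using ne_one_of_orderOf h2) (by simpa using ne_one_of_orderOf hz) with h | h | h
      · exact h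
      · exact absurd cz (nc z (ha.trans (h ▸ hw).symm))
      · exact absurd cz (nc z ((ha.trans (isConj_conj s a)).trans (idx a aA h2 hne s hs hc ▸ h ▸ hw).symm))
    obtain ⟨k, uT, uz⟩ := NA.exists_conj_ne hG T hz zT
    set u := k * z * k⁻¹
    have hu : orderOf u = 2 := by rw [orderOf_conj', hz]
    have ua : ¬ Commute u a := fun e => uz (nz u (isConj_conj k z) hu e)
    obtain ⟨g, hg, hD⟩ := exists_extremal T cz (isConj_conj k z).symm (T.2.to_inf_left (K := centralizer {u})) inf_le_right
    have inv : ∀ w ∈ (T : Subgroup G), orderOf w = 2 → Commute w a → Commute w u → w = z := fun w hw h1 h4 h5 => by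
      rcases key a ha z a (z * a) w hz h2 (orderOf_of_mem_klein hK (mul_mem zA aA) (mul_ne_one_of_invol hz hne.symm))
        h1 (cz a aT).symm (Commute.refl _) ((cz a aT).symm.mul_left (Commute.refl _)) h4 hne.symm
        (by simpa using ne_one_of_orderOf h2) (by simpa using ne_one_of_orderOf hz) with h | h | h
      · exact h
      · exact absurd (h ▸ h5).symm ua
      · have := (cz u uT).mul_right (h ▸ h5).symm
        exact absurd (by rwa [← mul_assoc, mul_self_of_orderOf hz, one_mul] at this) ua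
    have fin : ∀ y ∈ (T : Subgroup G), Commute y u → Commute y a → y = 1 ∨ y = z := fun y hy h4 h5 => by
      by_cases h6 : y * y = 1
      · exact or_iff_not_imp_left.2 fun h7 => inv y hy (orderOf_eq_two_iff'.2 ⟨h6, h7⟩) h5 h4
      exfalso
      obtain ⟨_, ⟨n, rfl⟩, h7⟩ := exists_invol_zpowers (x := y * y) (Nat.not_odd_iff_even.1 fun e =>
        h6 (eq_one_of_odd_of_mem_two_group T.2 (mul_mem hy hy) e))
      have h8 := inv _ (zpow_mem (mul_mem hy hy) n) h7 ((h5.mul_left h5).zpow_left n) ((h4.mul_left h4).zpow_left n)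
      have h9 := hD y ⟨hy, mem_centralizer_singleton_iff.2 h4⟩
      have h10 : Commute (g * y * g⁻¹ * (g * y * g⁻¹)) a := by
        by_cases h : Commute (g * y * g⁻¹) a
        exacts [h.mul_left h, idx2 a aA h2 hne _ h9 h _ h9 h]
      have := nz _ (isConj_conj g z) (by rw [orderOf_conj', hz]) (by
        have := h10.zpow_left n
        rwa [conj_mul, conj_zpow, h8] at this)
      exact uz (by simpa using hg.trans this.symm)
    refine hd (dsq_of_cent T.2 (fun h => hc (congrArg Subtype.val (h.is_comm.comm ⟨s, hs⟩ ⟨a, aT⟩))) uT ?_)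
    refine (card_le_of_le (K := closure {z, u}) fun d hd => ?_).trans
      (isKleinFour_closure hz hu uz.symm (cz u uT).symm).card_four.le
    have h4 : Commute d u := mem_centralizer_singleton_iff.1 hd.2
    rw [mem_closure_klein (mul_self_of_orderOf hz) (mul_self_of_orderOf hu) (cz u uT).symm]
    by_cases h : Commute d a
    · exact (fin d hd.1 h4 h).imp_right Or.inl
    · refine Or.inr (Or.inr ((fin _ (mul_mem hd.1 uT) (h4.mul_left (Commute.refl u)) (idx2 a aA h2 hne u uT ua d hd.1 h)).imp
        (fun e => ?_) fun e => ?_))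
      · rw [eq_inv_of_mul_eq_one_left e, inv_eq_of_orderOf hu]
      · rw [← e, mul_assoc, mul_self_of_orderOf hu, mul_one]
  refine ⟨hS, fun u v hu hv => by_contra fun hn => ?_⟩
  obtain ⟨T, hT⟩ := hS
  obtain ⟨g, hg⟩ := exists_conj_mem_sylow T (isPGroup_zpowers_of_orderOf hu)
  obtain ⟨k, hk⟩ := exists_conj_mem_sylow T (isPGroup_zpowers_of_orderOf hv)
  have h1 : orderOf (g * u * g⁻¹) = 2 := by rw [orderOf_conj', hu]
  have h2 : orderOf (k * v * k⁻¹) = 2 := by rw [orderOf_conj', hv]
  obtain ⟨g', h4, h5⟩ := NA.exists_conj_ne hG T h1 hg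
  obtain ⟨k', h6, h7⟩ := NA.exists_conj_ne hG T h2 hk
  have a1 := isConj_conj g u
  have a2 := a1.trans (isConj_conj g' _)
  have a3 := isConj_conj k v
  have a4 := a3.trans (isConj_conj k' _)
  rcases key x (IsConj.refl x) _ _ _ _ h1 (by rw [orderOf_conj', h1]) h2 (by rw [orderOf_conj', h2])
    (mem_centralizer_singleton_iff.1 (hT hg)) (mem_centralizer_singleton_iff.1 (hT h4)) (mem_centralizer_singleton_iff.1 (hT hk))
    (mem_centralizer_singleton_iff.1 (hT h6)) h5.symm (fun e => hn (a1.trans (e ▸ a3.symm)))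
    (fun e => hn (a2.trans (e ▸ a3.symm))) with h | h | h
  exacts [hn (a1.trans (h ▸ a4.symm)), hn (a2.trans (h ▸ a4.symm)), h7 h]

end Cfsg.Agent.S3279
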