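import Mathlib
import Cfsg.Statements.S3282
import Cfsg.Agent.H08.BSW3
import Cfsg.Agent.H08.Util

set_option autoImplicit false
open Cfsg

namespace Cfsg.Agent.S3282

/-- The abstract form of the Brauer–Suzuki–Wall Theorem. Let G be a finite group with an involution t and an abelian subgroup K of H = C_G(t) containing t, such that H = K⟨s⟩ for an involution s ∉ K with C_K(s) = ⟨t⟩ and s inverting every element of K, K ∩ K^g = 1 for every g outside H, and all involutions of G conjugate. Then G has a subgroup Q, of order q say, with |G| = q(q+1)(q−1)/2, C_G(x) = Q for every non-identity x ∈ Q, N_G(Q) = QD for an abelian subgroup D of order (q−1)/2 meeting Q trivially, and for every nontrivial subgroup X of D, N_G(X) = N_G(D) = D⟨u⟩ for some involution u ∉ D inverting D. -/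
theorem result {G : Type*} [Group G] [Finite G] (t : G) (ht : orderOf t = 2)
    (K : Subgroup G) (hKab : IsMulCommutative ↥K) (hKH : K ≤ Subgroup.centralizer ({t} : Set G)) (htK : t ∈ K)
    (s : G) (hs : orderOf s = 2) (hsH : s ∈ Subgroup.centralizer ({t} : Set G)) (hsK : s ∉ K)
    (hH : K ⊔ Subgroup.zpowers s = Subgroup.centralizer ({t} : Set G)) (hCK : K ⊓ Subgroup.centralizer ({s} : Set G) = Subgroup.zpowers t)
    (hinv : ∀ x ∈ K, s * x * s⁻¹ = x⁻¹)
    (hTI : ∀ g : G, g ∉ Subgroup.centralizer ({t} : Set G) → K ⊓ K.map (MulAut.conj g).toMonoidHom = ⊥)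
    (hconj : ∀ x y : G, orderOf x = 2 → orderOf y = 2 → IsConj x y) :
    ∃ Q D : Subgroup G, 2 * Nat.card G = Nat.card ↥Q * (Nat.card ↥Q + 1) * (Nat.card ↥Q - 1) ∧
      (∀ x ∈ Q, x ≠ 1 → Subgroup.centralizer ({x} : Set G) = Q) ∧
      IsMulCommutative ↥D ∧ 2 * Nat.card ↥D + 1 = Nat.card ↥Q ∧ Q ⊓ D = ⊥ ∧
      Subgroup.normalizer (Q : Set G) = Q ⊔ D ∧
      ∀ X : Subgroup G, X ≤ D → X ≠ ⊥ →
        Subgroup.normalizer (X : Set G) = Subgroup.normalizer (D : Set G) ∧
        ∃ u : G, orderOf u = 2 ∧ u ∉ D ∧ (∀ d ∈ D, u * d * u⁻¹ = d⁻¹) ∧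
          Subgroup.normalizer (D : Set G) = D ⊔ Subgroup.zpowers u := by
  have hN : s ∈ Subgroup.normalizer (K : Set G) := H08.mem_normalizer_of_inverts
    (fun x hx => Or.inr (hinv x hx)) (fun x hx => Or.inr (by simpa [H08.inv_eq_of_orderOf hs] using hinv x hx))
  have hss := H08.mul_self_of_orderOf hs
  have h : H08.BSW K t s :=
    { ht := ht
      comm := fun x hx y hy => congrArg Subtype.val (hKab.is_comm.comm ⟨x, hx⟩ ⟨y, hy⟩)
      htK := htK
      hs := hs
      hsK := hsK
      cent := fun g => ⟨fun hg => ?_, fun hg => ?_⟩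
      inv := hinv
      uniq := fun x hx h2 => ?_
      ti := fun x hx h1 g hg => ?_
      one := fun u hu => hconj t u ht hu }
  · obtain ⟨Q, D, h1, h2, h3, h4, h5, h6, -, h7⟩ := h.main
    exact ⟨Q, D, h1, h2, ⟨⟨fun a b => Subtype.ext (h3 _ a.2 _ b.2)⟩⟩, h4, h5, h6, h7⟩
  · rw [← hH, ← SetLike.mem_coe, Subgroup.coe_mul_of_right_le_normalizer_left _ _
      (Subgroup.zpowers_le.2 hN)] at hg
    obtain ⟨a, ha, b, hb, rfl⟩ := hg
    rcases H08.eq_of_mem_zpowers_invol hs hb with rfl | rfl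
    · exact Or.inl (by simpa using ha)
    · exact Or.inr (by simpa [mul_assoc, hss] using ha)
  · rcases hg with e | e
    · exact hKH e
    · exact (Subgroup.mul_mem_cancel_right _ hsH).1 (hKH e)
  · refine H08.eq_of_mem_zpowers_invol ht (hCK ▸ ⟨hx, Subgroup.mem_centralizer_singleton_iff.2 ?_⟩)
    have := hinv x hx
    rw [← eq_inv_of_mul_eq_one_left h2, mul_inv_eq_iff_eq_mul] at this
    exact this.symm
  · by_contra hc
    have : g * x * g⁻¹ ∈ K ⊓ K.map (MulAut.conj g).toMonoidHom := ⟨hg, x, hx, rfl⟩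
    rw [hTI g hc, Subgroup.mem_bot] at this
    exact h1 (by simpa using this)

end Cfsg.Agent.S3282
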