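import Mathlib
import Cfsg.Statements.S3287
import Cfsg.Agent.H08.Simp
import Cfsg.Agent.H22.FStar

set_option autoImplicit false
open Cfsg

namespace Cfsg.Agent.S3287

open Subgroup H08 L.Dk

/-- Let G be a finite simple group whose Sylow 2-subgroups are dihedral, and suppose the centralizer of some involution of G is properly contained in a subgroup whose generalized Fitting subgroup equals its Fitting subgroup (a subgroup without components). Then G is isomorphic to the alternating group of degree 5 or 7, to PSL(3, 2), or to PSL(2, 9). -/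
theorem result {G : Type*} [Group G] [Finite G] [IsSimpleGroup G] (S : Sylow 2 G) (m : ℕ) (eS : ↥(S : Subgroup G) ≃* DihedralGroup m)
    (t : G) (ht : orderOf t = 2) (K : Subgroup G) (hlt : Subgroup.centralizer ({t} : Set G) < K)
    (hK : Cfsg.generalizedFittingSubgroup ↥K = Cfsg.fittingSubgroup ↥K) :
    Nonempty (G ≃* ↥(alternatingGroup (Fin 5))) ∨ Nonempty (G ≃* ↥(alternatingGroup (Fin 7))) ∨
      (∃ (F : Type) (_ : Field F) (_ : Fintype F), Fintype.card F = 2 ∧ Nonempty (G ≃* Matrix.ProjectiveSpecialLinearGroup (Fin 3) F)) ∨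
      (∃ (F : Type) (_ : Field F) (_ : Fintype F), Fintype.card F = 9 ∧ Nonempty (G ≃* Matrix.ProjectiveSpecialLinearGroup (Fin 2) F)) := by
  by_cases hG : IsMulCommutative G
  · exact absurd (top_le_iff.1 fun g _ => mem_centralizer_singleton_iff.2 (hG.is_comm.comm g t)) hlt.ne_top
  obtain ⟨F, _, _, ho, h3, ⟨e⟩⟩ | h := NA.gw hG S eS
  swap
  · exact Or.inr (Or.inl h)
  by_cases h5 : Fintype.card F = 5
  · obtain ⟨f⟩ := A5_of_psl2 (Or.inr h5)
    exact Or.inl ⟨e.trans f⟩
  by_cases h7 : Fintype.card F = 7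
  · obtain ⟨f⟩ := (psl27_equiv_psl32 (K := ZMod 2) h7 (ZMod.card 2)).1
    exact Or.inr (Or.inr (Or.inl ⟨ZMod 2, _, _, ZMod.card 2, ⟨e.trans f⟩⟩))
  by_cases h9 : Fintype.card F = 9
  · exact Or.inr (Or.inr (Or.inr ⟨F, _, _, h9, ⟨e⟩⟩))
  exfalso
  obtain ⟨s, h4, hc, ht', hk⟩ := psl_invol ho (t := e t) (by rw [e.orderOf_eq, ht])
  have h2 : 2 ∣ Nat.card (torusBar s) := by simpa [ht] using (torusBar s).orderOf_dvd_natCard ht'
  have h1 := isCoatom_torusNBar h4 (by rw [dd_odd ho]; simp only [Finset.mem_insert, Finset.mem_singleton]; omega)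
  have hK' : K = ⊤ := by
    refine map_injective (f := e.toMonoidHom) e.injective ?_
    rw [map_top_of_surjective _ e.surjective]
    refine h1.2 _ (lt_of_le_of_ne (hc ▸ fun g hg => ?_) fun h => hlt.not_ge fun g hg => ?_)
    · obtain ⟨g, rfl⟩ := e.surjective g
      exact mem_map_of_mem _ (hlt.le (mem_centralizer_singleton_iff.2
        (e.injective (by simpa using mem_centralizer_singleton_iff.1 hg))))
    · have := mem_map_of_mem e.toMonoidHom hg
      rw [← h, ← hc] at this
      exact mem_centralizer_singleton_iff.2 (e.injective (by simpa using mem_centralizer_singleton_iff.1 this))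
  subst hK'
  have := (topEquiv (G := G)).isSimpleGroup
  have hG' : ¬ IsMulCommutative (⊤ : Subgroup G) := fun h => hG ⟨⟨fun a b =>
    congrArg Subtype.val (h.is_comm.comm ⟨a, mem_top a⟩ ⟨b, mem_top b⟩)⟩⟩
  have h6 := H22.centralizer_fstar_le (G := (⊤ : Subgroup G))
  rw [hK, NA.sol_bot hG' (fittingSubgroup _) inferInstance] at h6
  exact top_ne_bot (α := Subgroup (⊤ : Subgroup G)) (by simpa using h6)

end Cfsg.Agent.S3287
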