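import Mathlib
import Cfsg.Statements.S3301
import Cfsg.Agent.H01.XS3
import Cfsg.Agent.H02.PCore

set_option autoImplicit false
open Cfsg

namespace Cfsg.Agent.S3301

/-- Let G be a finite group with no nontrivial 2-group quotient (O^2(G) = G), z an involution of G with H = C_G(z), and suppose E = O_2(H) is extraspecial with C_G(E) ≤ E. Then the Sylow 2-subgroups of H/[H, H] are elementary abelian: every element of 2-power order of the abelianization of H has order at most 2. -/
theorem result {G : Type*} [Group G] [Finite G] (hres : Cfsg.pResidual 2 G = ⊤) (z : G) (hz : orderOf z = 2)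
    (E : Subgroup G) (hE : E = (Cfsg.pCore 2 ↥(Subgroup.centralizer ({z} : Set G))).map (Subgroup.centralizer ({z} : Set G)).subtype)
    (hext : Cfsg.IsExtraspecial 2 ↥E) (hcent : Subgroup.centralizer (E : Set G) ≤ E) :
    ∀ q : Abelianization ↥(Subgroup.centralizer ({z} : Set G)), (∃ k : ℕ, orderOf q = 2 ^ k) → q ^ 2 = 1 := by
    intro q ⟨k, hk⟩
    obtain ⟨n, n1, hc⟩ := H04.exists_card_of_isExtraspecial hext
    refine (H01.XS.of_ext hz hE inferInstance hext hcent).ab2 hres hc n1 (fun p => ?_) q hk
    rw [hE, H02.pCore_eq_top_iff.2 p, ← MonoidHom.range_eq_map, Subgroup.range_subtype]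

end Cfsg.Agent.S3301
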