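import Mathlib
import Cfsg.Statements.S3305
import Cfsg.Agent.H08.Basic
import Cfsg.Agent.H01.Coprime

set_option autoImplicit false
open Cfsg

namespace Cfsg.Agent.S3305

open Subgroup H08

theorem lift {G : Type*} [Group G] [Finite G] {p : ℕ} [Fact p.Prime] (H : Subgroup G) [H.Normal]
    {S T : Sylow p (G ⧸ H)} (hne : S ≠ T) : ∃ S' T' : Sylow p G, S' ≠ T' ∧ ∃ R ≤ (S' : Subgroup G) ⊓ T',
      R.map (QuotientGroup.mk' H) = (S : Subgroup (G ⧸ H)) ⊓ T := by
  have hf := QuotientGroup.mk'_surjective H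
  obtain ⟨R⟩ : Nonempty (Sylow p (((S : Subgroup (G ⧸ H)) ⊓ T).comap (QuotientGroup.mk' H))) := inferInstance
  obtain ⟨h1, h2, -⟩ := H01.sylow_map_subtype_spec R
  have key : ∀ U : Sylow p (G ⧸ H), (S : Subgroup (G ⧸ H)) ⊓ T ≤ U → ∃ U' : Sylow p G,
      R.1.map (((S : Subgroup (G ⧸ H)) ⊓ T).comap (QuotientGroup.mk' H)).subtype ≤ (U' : Subgroup G) ∧
        U'.mapSurjective hf = U := fun U hU => by
    obtain ⟨V, hV⟩ := (h2.comap_subtype (K := (U : Subgroup (G ⧸ H)).comap (QuotientGroup.mk' H))).exists_le_sylow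
    obtain ⟨h3, h4, h5⟩ := H01.sylow_map_subtype_spec V
    refine ⟨h4.toSylow fun e => ?_, fun x hx => ⟨⟨x, hU (h1 hx)⟩, hV hx, rfl⟩, Sylow.ext
      (Eq.symm ((Sylow.mapSurjective hf _).3 U.2 (map_le_iff_le_comap.2 h3)))⟩
    rw [← relIndex_mul_index h3, index_comap_of_surjective _ hf] at e
    exact ((Fact.out : p.Prime).dvd_mul.1 e).elim h5 U.not_dvd_index
  obtain ⟨S', h3, rfl⟩ := key S inf_le_left
  obtain ⟨T', h4, h5⟩ := key T inf_le_right
  refine ⟨S', T', fun e => hne (e ▸ h5), _, le_inf h3 h4, ?_⟩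
  have h6 := (QuotientGroup.mk' H).subgroupComap_surjective_of_surjective (S'.mapSurjective hf ⊓ T) hf
  have h7 := ((R.mapSurjective h6).3 (Q := ⊤) (((T.2.to_le inf_le_right)).to_subgroup ⊤) le_top)
  refine le_antisymm (map_le_iff_le_comap.2 h1) fun y hy => ?_
  obtain ⟨x, hx, e⟩ := h7.le (mem_top ⟨y, hy⟩)
  exact ⟨x, ⟨x, hx, rfl⟩, congrArg Subtype.val e⟩

/-- If any two distinct Sylow 2-subgroups of the finite group G intersect in a cyclic group, then the same holds in every quotient group G/H, H a normal subgroup of G. -/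
theorem result {G : Type*} [Group G] [Finite G]
    (hC : ∀ S T : Sylow 2 G, S ≠ T → IsCyclic ↥((S : Subgroup G) ⊓ (T : Subgroup G))) (H : Subgroup G) [H.Normal] :
    ∀ S T : Sylow 2 (G ⧸ H), S ≠ T → IsCyclic ↥((S : Subgroup (G ⧸ H)) ⊓ (T : Subgroup (G ⧸ H))) := by
  intro S T hne
  obtain ⟨S', T', h1, R, h2, h3⟩ := lift H hne
  have := hC S' T' h1
  have := Subgroup.isCyclic_of_le h2
  exact h3 ▸ isCyclic_of_surjective _ ((QuotientGroup.mk' H).subgroupMap_surjective R)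

end Cfsg.Agent.S3305
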