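import Mathlib
import Cfsg.Statements.S3303
import Cfsg.Agent.H08.Fus
import Cfsg.Agent.H24.PSolv
import Cfsg.Agent.S3305

set_option autoImplicit false
open Cfsg

namespace Cfsg.Agent.S3303

open Subgroup H08

/-- Let G be a finite solvable group in which the intersection of any two distinct Sylow 2-subgroups is cyclic. Then G/O(G) has a normal Sylow 2-subgroup, where O(G) is the largest normal subgroup of odd order. -/
theorem result {G : Type*} [Group G] [Finite G] (hs : Group.IsSolvable G)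
    (hC : ∀ S T : Sylow 2 G, S ≠ T → IsCyclic ↥((S : Subgroup G) ⊓ (T : Subgroup G))) :
    ∃ P : Sylow 2 (G ⧸ Cfsg.oddCore G), (P : Subgroup (G ⧸ Cfsg.oddCore G)).Normal := by
  obtain ⟨P⟩ : Nonempty (Sylow 2 (G ⧸ Cfsg.oddCore G)) := inferInstance
  refine ⟨P, ?_⟩
  by_cases h : ∀ T, P = T
  · have : Subsingleton (Sylow 2 (G ⧸ Cfsg.oddCore G)) := ⟨fun a b => (h a).symm.trans (h b)⟩
    exact P.normal_of_subsingleton
  push Not at h
  obtain ⟨T, hT⟩ := h
  have := S3305.result hC _ P T hT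
  have := Subgroup.isCyclic_of_le (le_inf (H02.pCore_le_sylow P) (H02.pCore_le_sylow T))
  obtain ⟨y, hy⟩ := (Subgroup.isCyclic_iff_exists_zpowers_eq_top _).1 this
  have h1 := H24.PS.centralizer_pCore_quot (p := 2) (H24.PS.of_solvable (G := G))
  have h2 := H02.pCore_isPGroup 2 (G ⧸ Cfsg.oddCore G)
  have h3 := isPGroup_of_odd (G := G ⧸ Cfsg.oddCore G) fun g hg => eq_one_of_odd_of_mem_two_group h2 (h1 (hy ▸
    conj_eq_of_odd (hy ▸ h2) (by rw [hy, normalizer_eq_top]; trivial) (Nat.coprime_two_right.2 hg))) hg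
  rw [← P.3 (h3.to_subgroup ⊤) le_top]
  infer_instance

end Cfsg.Agent.S3303
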