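import Mathlib
import Cfsg.Statements.S3307
import Cfsg.Agent.H08.DQ2
import Cfsg.Agent.S0483
import Cfsg.Agent.S0205

set_option autoImplicit false
open Cfsg

namespace Cfsg.Agent.S3307

open Subgroup H08

/-- Let G be a finite nonsolvable group whose Sylow 2-subgroups are generalized quaternion and in which any two distinct Sylow 2-subgroups intersect in a cyclic group. Then the Sylow 2-subgroups are quaternion of order 8, and G has a normal subgroup G₁ of odd index containing O(G) (the largest normal subgroup of odd order) with G₁/O(G) isomorphic to SL(2,q) for some prime power q > 3 with q ≡ 3 or 5 mod 8. -/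
theorem result {G : Type*} [Group G] [Finite G] (hns : ¬ Group.IsSolvable G)
    (hQ : ∀ S : Sylow 2 G, ∃ n : ℕ, Nonempty (↥(S : Subgroup G) ≃* QuaternionGroup (2 ^ (n + 1))))
    (hC : ∀ S T : Sylow 2 G, S ≠ T → IsCyclic ↥((S : Subgroup G) ⊓ (T : Subgroup G))) :
    (∀ S : Sylow 2 G, Nonempty (↥(S : Subgroup G) ≃* QuaternionGroup 2)) ∧
    ∃ (G₁ : Subgroup G) (_ : G₁.Normal) (_ : ((Cfsg.oddCore G).subgroupOf G₁).Normal),
      Odd G₁.index ∧ Cfsg.oddCore G ≤ G₁ ∧
      ∃ (F : Type) (_ : Field F) (_ : Fintype F), (Fintype.card F % 8 = 3 ∨ Fintype.card F % 8 = 5) ∧ 3 < Fintype.card F ∧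
        Nonempty (↥G₁ ⧸ (Cfsg.oddCore G).subgroupOf G₁ ≃* Matrix.SpecialLinearGroup (Fin 2) F) := by
  have hs := QuotientGroup.mk'_surjective (oddCore G)
  have hns' : ¬ Group.IsSolvable (G ⧸ oddCore G) := fun _ => hns (by
    have := S0205.result (odd_card_oddCore G)
    exact solvable_of_ker_le_range (oddCore G).subtype (QuotientGroup.mk' (oddCore G)) (by simp))
  have hO := H02.pPrimeCore_quotient_pPrimeCore 2 G
  have h2 : ¬ IsPGroup 2 (G ⧸ oddCore G) := fun h => hns' (by have := h.isNilpotent; infer_instance)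
  obtain ⟨S⟩ : Nonempty (Sylow 2 G) := inferInstance
  obtain ⟨n, hT⟩ := hQ S
  have hu : ∀ {D : Subgroup G}, D ≤ S → ∀ x ∈ D, ∀ y ∈ D, orderOf x = 2 → y ^ 2 = 1 → y ∈ zpowers x :=
    fun hD x hx y hy h1 h2 => H26.mem_zpowers_of_cyclic_or_quaternion S.2 (Or.inr ⟨_, hT⟩) (hD hx) (hD hy) h1 h2
  obtain ⟨D, hD, -, -, q, hq, hq2, g, hg, ⟨k, hk⟩, hn'⟩ := H03.exists_not_commute_of_not_hasNPC S
    fun h => h2 (isPGroup_of_hasNPC hO (H03.HasNPC.quotient h _))
  have hc : (orderOf g).Coprime 2 := hk ▸ ((Nat.coprime_primes hq Nat.prime_two).mpr hq2).pow_left k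
  obtain ⟨e⟩ := H03.q8_of_odd_acts (S.2.to_le hD) (hu hD) hg hc hn'
  have hgS : g • S = S := by_contra fun hne => by
    have := hC _ _ hne
    have hle : D ≤ ((g • S : Sylow 2 G) : Subgroup G) ⊓ S := fun x hx =>
      ⟨⟨g⁻¹ * x * g, hD ((mem_normalizer_iff''.1 hg x).1 hx), by simp [mul_assoc]⟩, hD hx⟩
    obtain ⟨-, -, -, i, hi, j, hj, -, -, -, hij⟩ := q8_facts e
    exact hij (congrArg Subtype.val (mul_comm' (⟨i, hle hi⟩ : ↥(((g • S : Sylow 2 G) : Subgroup G) ⊓ S)) ⟨j, hle hj⟩))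
  obtain ⟨e⟩ := H03.q8_of_odd_acts S.2 (hu le_rfl) (Sylow.smul_eq_iff_mem_normalizer.1 hgS) hc
    fun h => hn' (centralizer_le hD h)
  refine ⟨fun T => ⟨(Sylow.equiv T S).trans e⟩, ?_⟩
  have c8 := (q8_facts e).1
  obtain ⟨z, hz⟩ := even_card_iff'.1 (show Even (Nat.card S) by rw [c8]; decide)
  have e' := equivMapOdd S.2 (oddCore G) (odd_card_oddCore G)
  have hz' := orderOf_mk_of_odd ((orderOf_coe z).trans hz) _ (odd_card_oddCore G)
  have hS' : ∀ a b : S, orderOf a = 2 → orderOf b = 2 → a = b := fun a b ha hb => Subtype.ext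
    ((eq_of_mem_zpowers_invol ((orderOf_coe b).trans hb) (hu le_rfl b b.2 a a.2 ((orderOf_coe b).trans hb)
      (orderOf_dvd_iff_pow_eq_one.1 ((orderOf_coe a).trans ha).dvd))).resolve_left
        (orderOf_eq_two_iff'.1 ((orderOf_coe a).trans ha)).2)
  have hS : ∀ a b : S.mapSurjective hs, orderOf a = 2 → orderOf b = 2 → a = b := fun a b ha hb =>
    e'.symm.injective (hS' _ _ ((e'.symm.orderOf_eq a).trans ha) ((e'.symm.orderOf_eq b).trans hb))
  have hv := fun u (h : orderOf u = 2) => unique_of_sylow _ hS u _ h hz'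
    (mem_center_iff.1 (mem_center_of_unique_invol hO _ hS hz') u)
  have h16 : ¬ 16 ∣ Nat.card (G ⧸ oddCore G) := fun h => by
    have := h.trans (card_quotient_dvd_card _)
    rw [← (S : Subgroup G).card_mul_index, c8] at this
    exact S.not_dvd_index (Nat.dvd_of_mul_dvd_mul_left (by norm_num) (show 8 * 2 ∣ _ from this))
  rcases q_struct hz' hv (fun X _ _ _ S n hn hS => S0483.result S n hn hS) hO with
    h | ⟨F, _, _, L, ho, _, -, ⟨e⟩, h3⟩ | ⟨ψ, h1, h3⟩
  · exact absurd h h2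
  · have cL := (Nat.card_congr e.toEquiv).trans H09.card_SL_two
    obtain ⟨m, hm⟩ := ho
    have h8 : 8 ∣ Fintype.card F ^ 2 - 1 := by
      obtain ⟨r, hr⟩ := Nat.even_mul_succ_self m
      exact ⟨r, by rw [hm]; zify; rw [Nat.cast_sub (by nlinarith)]; push_cast; zify at hr; linarith⟩
    let φ := e.toMonoidHom.comp ((QuotientGroup.mk' _).subgroupComap L)
    refine ⟨L.comap (QuotientGroup.mk' _), inferInstance, inferInstance, ?_, fun x hx => ?_, F, _, _, ?_, h3 hns',
      ⟨(QuotientGroup.quotientMulEquivOfEq ?_).trans (QuotientGroup.quotientKerEquivOfSurjective φ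
        (e.surjective.comp (MonoidHom.subgroupComap_surjective_of_surjective _ _ hs)))⟩⟩
    · rw [index_comap_of_surjective _ hs, ← Nat.not_even_iff_odd, even_iff_two_dvd]
      exact fun h => h16 (L.card_mul_index ▸ Nat.mul_dvd_mul (cL ▸ h8.mul_left _) h)
    · rw [mem_comap, QuotientGroup.mk'_apply, (QuotientGroup.eq_one_iff x).2 hx]; exact one_mem _
    · by_contra hn
      refine h16 (Dvd.dvd.trans (cL ▸ Dvd.dvd.mul_left ?_ _) L.card_subgroup_dvd_card)
      obtain ⟨r, hr | hr⟩ : ∃ r, Fintype.card F = 8 * r + 1 ∨ Fintype.card F = 8 * r + 7 :=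
        ⟨Fintype.card F / 8, by omega⟩
      · exact ⟨4 * r * r + r, by rw [hr]; exact Nat.sub_eq_of_eq_add (by ring)⟩
      · exact ⟨4 * r * r + 7 * r + 3, by rw [hr]; exact Nat.sub_eq_of_eq_add (by ring)⟩
    · ext x
      exact ((e.map_eq_one_iff.trans Subtype.ext_iff).trans (QuotientGroup.eq_one_iff _)).symm
  · refine absurd ?_ h16
    rw [← ψ.ker.card_mul_index, index_ker, MonoidHom.range_eq_top.2 h1, card_top, h3, Nat.card_zpowers, hz',
      nat_card_alternatingGroup, Nat.card_fin]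
    decide

end Cfsg.Agent.S3307
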