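import Mathlib
import Cfsg.Statements.S3315
import Cfsg.Agent.H18.SU3Aut

set_option autoImplicit false
open scoped Pointwise
open Cfsg

namespace Cfsg.Agent.S3315

/-- Let S be a Sylow 2-subgroup of SU₃(2ⁿ), n ≥ 2 (realised over the field with 4ⁿ elements). If a finite 2-group R contains a subgroup S' of index 2 isomorphic to S, then the centre of S' is contained in the centre of R. -/
theorem result {R : Type*} [Group R] [Finite R]
    (hR : IsPGroup 2 R) (n : ℕ) (hn : 2 ≤ n) {F : Type*} [Field F] [Fintype F] (hF : Fintype.card F = 4 ^ n)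
    (P : Sylow 2 ↥(Cfsg.SU 3 F (2 ^ n))) (S' : Subgroup R) (hS : Nonempty (↥S' ≃* ↥(P : Subgroup ↥(Cfsg.SU 3 F (2 ^ n)))))
    (hidx : S'.index = 2) :
    (Subgroup.center ↥S').map S'.subtype ≤ Subgroup.center R := by
  haveI : H18.U3.UF F (2 ^ n) := ⟨by rw [hF, ← pow_mul, mul_comm, pow_mul]; rfl⟩
  haveI : CharP F 2 := H18.U3.charTwo
  have e : S' ≃* H18.U3.Q F (2 ^ n) := hS.some.trans (H18.U3.sylow_SU P).some
  haveI : S'.Normal := Subgroup.normal_of_index_eq_two hidx
  rintro _ ⟨z, hz, rfl⟩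
  rw [Subgroup.mem_center_iff]
  intro r
  let φ : MulAut (H18.U3.Q F (2 ^ n)) := MulAut.congr e (MulAut.conjNormal r)
  obtain ⟨k, σ, h⟩ := H18.U3.Q.aut_ind φ
  have h2 : ∀ a, H18.U3.Q.ind (φ * φ) a = a := by
    intro a
    obtain ⟨x, rfl⟩ := H18.U3.Q.exists_a (q := 2 ^ n) a
    obtain ⟨x, rfl⟩ := e.surjective x
    have hr : r * r ∈ S' := Subgroup.mul_self_mem_of_index_two hidx r
    have : (φ * φ) (e x) = e ⟨_, hr⟩ * e x * (e ⟨_, hr⟩)⁻¹ := by
      rw [← map_inv e, ← map_mul e, ← map_mul e]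
      simp only [φ, MulAut.mul_apply, MulAut.congr_apply, MulEquiv.trans_apply, MulEquiv.symm_apply_apply]
      congr 1
      apply Subtype.ext
      simp [mul_assoc]
    rw [H18.U3.Q.ind_a, this]
    simp
  simp only [H18.U3.Q.ind_mul, h, map_mul] at h2
  have h3 : (k : F) * σ k = 1 := by simpa using h2 1
  have h4 : ∀ a, σ (σ a) = a := fun a => by
    have := h2 a
    rwa [← mul_assoc, h3, one_mul] at this
  have hza : (e z).a = 0 := by
    rw [← H18.U3.Q.mem_center, ← H10.map_center e]; exact ⟨z, hz, rfl⟩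
  have hb := H18.U3.Q.aut_b φ h hza
  have hfix := H18.U3.Q.fix_iff.1 (H18.U3.Q.tr_of_a hza)
  have key : (k : F) * H18.U3.bar (k : F) * σ (e z).b = (e z).b := by
    by_cases hσ : (σ : F →+* F) = RingHom.id F
    · have hσ : ∀ a, σ a = a := fun a => DFunLike.congr_fun hσ a
      have : k = 1 := H18.U3.Q.unit_eq_one (m := 1) (by rw [← h3, hσ]; ring)
      simp [this, hσ]
    · obtain ⟨q', h5, h6⟩ := H10.exists_q_of_involutive hσ h4
      have : q' = 2 ^ n := Nat.pow_left_injective two_ne_zero (h5.symm.trans H18.U3.ncard)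
      subst this
      have h7 : ∀ a, σ a = H18.U3.bar a := fun a => (h6 a).trans (H18.U3.bar_apply a).symm
      rw [← h7, h3, h7, hfix, one_mul]
  have : φ (e z) = e z := H18.U3.Q.ext (((H18.U3.Q.aut_a_zero φ).2 hza).trans hza.symm) (hb.trans key)
  simp only [φ, MulAut.congr_apply, MulEquiv.trans_apply, MulEquiv.symm_apply_apply] at this
  have := congrArg Subtype.val (e.injective this)
  rw [MulAut.conjNormal_apply] at this
  exact mul_inv_eq_iff_eq_mul.1 this

end Cfsg.Agent.S3315
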