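import Mathlib
import Cfsg.Statements.S3335
import Cfsg.Agent.L.AltPres

set_option autoImplicit false
open Cfsg

namespace Cfsg.Agent.S3335

open Equiv Equiv.Perm

abbrev rel (m : ℕ) : Set (FreeGroup (Fin m)) :=
      ({g : FreeGroup (Fin m) | ∃ i : Fin m, i.val = 0 ∧ g = FreeGroup.of i ^ 3} ∪
       {g | ∃ i : Fin m, 1 ≤ i.val ∧ g = FreeGroup.of i ^ 2} ∪
       {g | ∃ i j : Fin m, j.val = i.val + 1 ∧ g = (FreeGroup.of i * FreeGroup.of j) ^ 3} ∪
       {g | ∃ i j : Fin m, i.val + 1 < j.val ∧ g = (FreeGroup.of i * FreeGroup.of j) ^ 2})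

def s {n : ℕ} (i : Fin n) : Perm (Fin (n + 1)) := swap i.castSucc i.succ

theorem s_mul_self {n : ℕ} (i : Fin n) : s i * s i = 1 := swap_mul_self _ _

theorem sign_s {n : ℕ} (i : Fin n) : sign (s i) = -1 := sign_swap (Fin.castSucc_lt_succ).ne

theorem s_cube {n : ℕ} (i j : Fin n) (h : (i : ℕ) + 1 = j) : (s i * s j) ^ 3 = 1 := by
  have e : j.castSucc = i.succ := Fin.ext (by simp; omega)
  have := isThreeCycle_swap_mul_swap_same (a := i.succ) (b := i.castSucc) (c := j.succ)
    (Fin.castSucc_lt_succ).ne' (by rw [Ne, Fin.ext_iff]; simp; omega) (by rw [Ne, Fin.ext_iff]; simp; omega)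
  rw [s, s, e, swap_comm i.castSucc, ← this.orderOf, pow_orderOf_eq_one]

theorem s_sq {n : ℕ} (i j : Fin n) (h : (i : ℕ) + 1 < j) : (s i * s j) ^ 2 = 1 := by
  have hc : s i * s j = s j * s i := by
    apply Equiv.Perm.Disjoint.commute
    rw [s, s, disjoint_iff_disjoint_support, support_swap (Fin.castSucc_lt_succ).ne, support_swap (Fin.castSucc_lt_succ).ne]
    simp only [Finset.disjoint_insert_left, Finset.mem_insert, Finset.mem_singleton, Finset.disjoint_singleton_left, Fin.ext_iff,
      Fin.val_succ, Fin.val_castSucc]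
    omega
  calc (s i * s j) ^ 2 = s i * (s j * s i) * s j := by simp only [sq, mul_assoc]
    _ = 1 := by rw [← hc, ← mul_assoc, s_mul_self, one_mul, s_mul_self]

theorem ss_mem {n : ℕ} (i j : Fin n) : s i * s j ∈ alternatingGroup (Fin (n + 1)) := by
  rw [mem_alternatingGroup, map_mul, sign_s, sign_s]; rfl

theorem alt_gen {n : ℕ} (K : Subgroup (Perm (Fin (n + 1)))) (hK : ∀ i j : Fin n, s i * s j ∈ K) :
    alternatingGroup (Fin (n + 1)) ≤ K := by
  have key : ∀ τ : Perm (Fin (n + 1)), (sign τ = 1 → τ ∈ K) ∧ (sign τ = -1 → ∀ i, s i * τ ∈ K) := by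
    intro τ
    have h5 : τ ∈ Submonoid.closure (Set.range fun i : Fin n => swap i.castSucc i.succ) := by
      rw [Equiv.Perm.mclosure_swap_castSucc_succ]; trivial
    induction h5 using Submonoid.closure_induction_left with
    | one => exact ⟨fun _ => one_mem _, fun h => by simp at h⟩
    | mul_left x hx y _ ih =>
      obtain ⟨j, rfl⟩ := hx
      change (sign (s j * y) = 1 → s j * y ∈ K) ∧ (sign (s j * y) = -1 → ∀ i, s i * (s j * y) ∈ K)
      rw [map_mul, sign_s]
      refine ⟨fun h => ih.2 (by simpa [neg_eq_iff_eq_neg] using h) j, fun h i => ?_⟩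
      rw [← mul_assoc]
      exact mul_mem (hK i j) (ih.1 (by simpa using h))
  exact fun τ hτ => (key τ).1 hτ

theorem main (m : ℕ) : Nonempty (PresentedGroup (rel m) ≃* alternatingGroup (Fin (m + 2))) := by
  let a : Fin m → PresentedGroup (rel m) := PresentedGroup.of
  have r1 : ∀ i : Fin m, i.val = 0 → a i ^ 3 = 1 := fun i h =>
    PresentedGroup.one_of_mem (rels := rel m) (x := FreeGroup.of i ^ 3) (Or.inl (Or.inl (Or.inl ⟨i, h, rfl⟩)))
  have r2 : ∀ i : Fin m, 1 ≤ i.val → a i ^ 2 = 1 := fun i h =>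
    PresentedGroup.one_of_mem (rels := rel m) (x := FreeGroup.of i ^ 2) (Or.inl (Or.inl (Or.inr ⟨i, h, rfl⟩)))
  have r3 : ∀ i j : Fin m, j.val = i.val + 1 → (a i * a j) ^ 3 = 1 := fun i j h =>
    PresentedGroup.one_of_mem (rels := rel m) (x := (FreeGroup.of i * FreeGroup.of j) ^ 3) (Or.inl (Or.inr ⟨i, j, h, rfl⟩))
  have r4 : ∀ i j : Fin m, i.val + 1 < j.val → (a i * a j) ^ 2 = 1 := fun i j h =>
    PresentedGroup.one_of_mem (rels := rel m) (x := (FreeGroup.of i * FreeGroup.of j) ^ 2) (Or.inr ⟨i, j, h, rfl⟩)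
  have r5 : ∀ i : Fin m, 1 ≤ i.val → (a i)⁻¹ = a i := fun i h => inv_eq_of_mul_eq_one_right (by rw [← sq, r2 i h])
  let x : Fin (m + 1) → PresentedGroup (rel m) := Fin.cases 1 fun i => (a i)⁻¹
  have x0 : x 0 = 1 := rfl
  have xs : ∀ i, x i.succ = (a i)⁻¹ := fun i => rfl
  obtain ⟨f, hf⟩ := L.exists_hom_alt x (by
    intro i j h
    induction j using Fin.cases with
    | zero => simp at h
    | succ j =>
      induction i using Fin.cases with
      | zero => rw [x0, xs, inv_one, one_mul, inv_pow, r1 j (by simpa using h.symm), inv_one]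
      | succ i =>
        simp only [Fin.val_succ] at h
        rw [xs, xs, inv_inv, r5 j (by omega), r3 i j (by omega)]) (by
    intro i j h
    induction j using Fin.cases with
    | zero => simp at h
    | succ j =>
      induction i using Fin.cases with
      | zero => rw [x0, xs, inv_one, one_mul, inv_pow, r2 j (by simp at h; omega), inv_one]
      | succ i =>
        simp only [Fin.val_succ] at h
        rw [xs, xs, inv_inv, r5 j (by omega), r4 i j (by omega)])
  let y : Fin m → alternatingGroup (Fin (m + 2)) := fun i => ⟨s i.succ * s 0, ss_mem _ _⟩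
  have y2 : ∀ i : Fin m, 1 ≤ i.val → s i.succ * s 0 = s 0 * s i.succ := fun i h => by
    have := s_sq 0 i.succ (by simp; omega)
    rw [sq] at this
    rw [← inv_eq_of_mul_eq_one_right this, mul_inv_rev, inv_eq_of_mul_eq_one_right (s_mul_self _),
      inv_eq_of_mul_eq_one_right (s_mul_self _)]
  have y3 : ∀ i j : Fin m, 1 ≤ j.val → ((y i * y j : alternatingGroup _) : Perm (Fin (m + 2))) = s i.succ * s j.succ := by
    intro i j h
    change s i.succ * s 0 * (s j.succ * s 0) = _
    rw [y2 j h, mul_assoc, ← mul_assoc (s 0), s_mul_self, one_mul]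
  let g : PresentedGroup (rel m) →* alternatingGroup (Fin (m + 2)) := PresentedGroup.toGroup (f := y) (by
    rintro _ (((⟨i, h, rfl⟩ | ⟨i, h, rfl⟩) | ⟨i, j, h, rfl⟩) | ⟨i, j, h, rfl⟩)
    · simp only [map_pow, FreeGroup.lift_apply_of]
      apply Subtype.ext
      change (s i.succ * s 0) ^ 3 = 1
      have := s_cube 0 i.succ (by simp; omega)
      rw [← inv_eq_one, ← inv_pow, mul_inv_rev, inv_eq_of_mul_eq_one_right (s_mul_self _),
        inv_eq_of_mul_eq_one_right (s_mul_self _), this]
    · simp only [map_pow, FreeGroup.lift_apply_of]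
      apply Subtype.ext
      change (s i.succ * s 0) ^ 2 = 1
      rw [y2 i h, s_sq 0 i.succ (by simp; omega)]
    · simp only [map_pow, map_mul, FreeGroup.lift_apply_of]
      apply Subtype.ext
      rw [Subgroup.coe_pow, y3 i j (by omega), s_cube _ _ (by simp; omega)]; rfl
    · simp only [map_pow, map_mul, FreeGroup.lift_apply_of]
      apply Subtype.ext
      rw [Subgroup.coe_pow, y3 i j (by omega), s_sq _ _ (by simp; omega)]; rfl)
  have hg : ∀ i, g (a i) = y i := fun i => PresentedGroup.toGroup.of _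
  have hfg : ∀ z, f (g z) = z := by
    have : f.comp g = MonoidHom.id _ := by
      apply PresentedGroup.ext
      intro i
      change f (g (a i)) = a i
      rw [hg]
      exact (hf i.succ 0 (ss_mem _ _)).trans (by rw [xs, x0, inv_inv, mul_one])
    exact fun z => DFunLike.congr_fun this z
  have hgx : ∀ i, (g (x i) : Perm (Fin (m + 2))) = s 0 * s i := by
    intro i
    induction i using Fin.cases with
    | zero => rw [x0, map_one, s_mul_self]; rfl
    | succ i =>
      rw [xs, map_inv, hg, Subgroup.coe_inv]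
      change (s i.succ * s 0)⁻¹ = _
      rw [mul_inv_rev, inv_eq_of_mul_eq_one_right (s_mul_self _), inv_eq_of_mul_eq_one_right (s_mul_self _)]
  refine ⟨MulEquiv.ofBijective g ⟨Function.LeftInverse.injective hfg, fun τ => ?_⟩⟩
  have := alt_gen (g.range.map (alternatingGroup _).subtype) (fun i j => ⟨g ((x i)⁻¹ * x j), ⟨_, rfl⟩, by
    rw [map_mul, map_inv, Subgroup.coe_subtype, Subgroup.coe_mul, Subgroup.coe_inv, hgx, hgx, mul_inv_rev,
      inv_eq_of_mul_eq_one_right (s_mul_self _), inv_eq_of_mul_eq_one_right (s_mul_self _), mul_assoc, ← mul_assoc (s 0),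
      s_mul_self, one_mul]⟩) τ.2
  obtain ⟨_, ⟨z, rfl⟩, h⟩ := this
  exact ⟨z, Subtype.ext h⟩

/-- A presentation of the alternating group of degree n ≥ 3 on generators x_1, …, x_{n−2} (indexed here by 0, …, n−3): the first generator cubes to 1, every other generator squares to 1, the product of two consecutive generators has order dividing 3, and the product of two generators at distance at least 2 has order dividing 2. The group so presented is isomorphic to the alternating group of degree n. -/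
theorem result (n : ℕ) (hn : 3 ≤ n) :
    Nonempty (PresentedGroup
      ({g : FreeGroup (Fin (n - 2)) | ∃ i : Fin (n - 2), i.val = 0 ∧ g = FreeGroup.of i ^ 3} ∪
       {g | ∃ i : Fin (n - 2), 1 ≤ i.val ∧ g = FreeGroup.of i ^ 2} ∪
       {g | ∃ i j : Fin (n - 2), j.val = i.val + 1 ∧ g = (FreeGroup.of i * FreeGroup.of j) ^ 3} ∪
       {g | ∃ i j : Fin (n - 2), i.val + 1 < j.val ∧ g = (FreeGroup.of i * FreeGroup.of j) ^ 2})
      ≃* alternatingGroup (Fin n)) := by
  obtain ⟨m, rfl⟩ : ∃ m, n = m + 2 := ⟨n - 2, by omega⟩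
  exact main m

end Cfsg.Agent.S3335
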