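import Mathlib
import Cfsg.Statements.S3347
import Cfsg.Agent.H23.ST3
import Cfsg.Agent.S0075
import Cfsg.Agent.S0635
import Cfsg.Agent.H24.PSolv2

set_option autoImplicit false
open Cfsg

namespace Cfsg.Agent.S3347

open scoped commutatorElement

/-- Let G be a finite group, p an odd prime, and P an abelian, non-cyclic Sylow p-subgroup of G with [N_G(P) : C_G(P)] = 2. Then either O^p(G) is a proper subgroup of G, or G has p-length 1 (G = O_{p',p,p'}(G)). -/
theorem result {G : Type*} [Group G] [Finite G]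
    (p : ℕ) [Fact p.Prime] (hp : p ≠ 2) (P : Sylow p G) (hab : IsMulCommutative (P : Subgroup G)) (hnc : ¬ IsCyclic (P : Subgroup G))
    (hidx : ((Subgroup.centralizer ((P : Subgroup G) : Set G)).subgroupOf (Subgroup.normalizer ((P : Subgroup G) : Set G))).index = 2) :
    Cfsg.pResidual p G ≠ ⊤ ∨ Cfsg.PLengthLE p 1 G := by
  rw [or_iff_not_imp_left, not_not]
  intro hO
  obtain ⟨t, ht, h⟩ := Subgroup.relIndex_eq_two_iff.1 hidx
  have hc : ∀ a ∈ (P : Subgroup G), ∀ b ∈ (P : Subgroup G), a * b = b * a := fun a ha b hb =>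
    congrArg Subtype.val (hab.is_comm.comm (⟨a, ha⟩ : (P : Subgroup G)) ⟨b, hb⟩)
  have hm : ∀ x ∈ (P : Subgroup G), t⁻¹ * x * t ∈ (P : Subgroup G) := fun x hx =>
    (Subgroup.mem_normalizer_iff''.1 ht x).1 hx
  have ht1 : t ∉ Subgroup.centralizer ((P : Subgroup G) : Set G) := by
    rcases h 1 (one_mem _) with h1 | h1
    · exact absurd (one_mem _) h1.2
    · simpa using h1.2
  have htt : ∀ x ∈ (P : Subgroup G), (t * t)⁻¹ * x * (t * t) = x := by
    rcases h t ht with h1 | h1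
    · exact H23.ST.cent_iff.1 h1.1
    · exact absurd h1.1 ht1
  have hn : ∀ n ∈ Subgroup.normalizer ((P : Subgroup G) : Set G),
      (∀ x ∈ (P : Subgroup G), n⁻¹ * x * n = x) ∨ (∀ x ∈ (P : Subgroup G), n⁻¹ * x * n = t⁻¹ * x * t) := by
    intro n hn
    rcases h n hn with h1 | h1
    · refine Or.inr fun x hx => ?_
      have h2 := H23.ST.cent_iff.1 h1.1 x hx
      have h3 := htt x hx
      calc n⁻¹ * x * n = t * ((n * t)⁻¹ * x * (n * t)) * t⁻¹ := by group
        _ = t * ((t * t)⁻¹ * x * (t * t)) * t⁻¹ := by rw [h2, h3]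
        _ = _ := by group
    · exact Or.inl (H23.ST.cent_iff.1 h1.1)
  let J : Subgroup G :=
    { carrier := {x | x ∈ (P : Subgroup G) ∧ t⁻¹ * x * t = x⁻¹}
      one_mem' := ⟨one_mem _, by simp⟩
      mul_mem' := fun {a b} ha hb => ⟨mul_mem ha.1 hb.1, by
        rw [hc a ha.1 b hb.1, mul_inv_rev, ← ha.2, ← hb.2, ← hc a ha.1 b hb.1]; group⟩
      inv_mem' := fun {a} ha => ⟨inv_mem ha.1, by rw [← congrArg (·⁻¹) ha.2]; group⟩ }
  have hJ : (P : Subgroup G) ≤ J := by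
    have h1 := Cfsg.Agent.S0075.result P hab
    rw [hO, inf_top_eq] at h1
    refine h1.le.trans (Subgroup.commutator_le.2 fun x hx n hn' => ?_)
    have e : ⁅x, n⁆ = x * (n⁻¹⁻¹ * x⁻¹ * n⁻¹) := by rw [commutatorElement_def]; group
    rcases hn n⁻¹ (inv_mem hn') with h2 | h2 <;> rw [e, h2 _ (inv_mem hx)]
    · simp
    · refine ⟨mul_mem hx (hm _ (inv_mem hx)), ?_⟩
      calc t⁻¹ * (x * (t⁻¹ * x⁻¹ * t)) * t = t⁻¹ * x * t * ((t * t)⁻¹ * x⁻¹ * (t * t)) := by group
        _ = _ := by rw [htt _ (inv_mem hx)]; group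
  have I : H23.ST.Inv (P : Subgroup G) := ⟨hab, hnc, ⟨t, ht, fun x hx => (hJ hx).2⟩, fun n h1 =>
    (hn n h1).imp id fun h2 x hx => (h2 x hx).trans (hJ hx).2⟩
  refine H24.PS.plen_mono (Cfsg.Agent.S0635.result (H23.ST.psol hp _ G rfl P I) P) ?_
  have := P.isPGroup'.isNilpotent
  exact Group.IsNilpotent.nilpotencyClass_le_one_iff.2 hab

end Cfsg.Agent.S3347
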