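import Mathlib
import Cfsg.Statements.S3349
import Cfsg.Agent.H04.Critical

set_option autoImplicit false
open Cfsg

namespace Cfsg.Agent.S3349

/-- Let Q be a finite extraspecial p-group and α an automorphism of Q fixing every element of some maximal abelian subgroup of Q. Then the order of α is a power of p. -/
theorem result {Q : Type*} [Group Q] [Finite Q]
    (p : ℕ) [Fact p.Prime] (hQ : Cfsg.IsExtraspecial p Q) (α : MulAut Q)
    (A : Subgroup Q) (hA : IsMulCommutative A) (hmax : ∀ B : Subgroup Q, A ≤ B → IsMulCommutative B → B = A)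
    (hfix : ∀ a ∈ A, α a = a) :
    ∃ k : ℕ, orderOf α = p ^ k := by
  have hp : p.Prime := Fact.out
  have hP : IsPGroup p Q := hQ.1.1
  have hC : Subgroup.centralizer (A : Set Q) ≤ A := by
    intro x hx
    have hcomm : IsMulCommutative (A ⊔ Subgroup.zpowers x : Subgroup Q) := by
      rw [Subgroup.sup_eq_closure]
      apply Subgroup.isMulCommutative_closure
      have h1 : ∀ a ∈ A, ∀ y ∈ Subgroup.zpowers x, a * y = y * a := by
        rintro a ha y ⟨k, rfl⟩
        exact (Commute.zpow_right (Subgroup.mem_centralizer_iff.1 hx a ha) k).eq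
      rintro a (ha | ha) b (hb | hb)
      · exact congrArg Subtype.val (hA.is_comm.comm (⟨a, ha⟩ : A) ⟨b, hb⟩)
      · exact h1 a ha b hb
      · exact (h1 b hb a ha).symm
      · obtain ⟨k, rfl⟩ := ha
        obtain ⟨l, rfl⟩ := hb
        exact (Commute.zpow_zpow_self x k l).eq
    rw [← hmax _ le_sup_left hcomm]
    exact Subgroup.mem_sup_right (Subgroup.mem_zpowers x)
  obtain ⟨k, m, hm, hkm⟩ := Nat.exists_eq_pow_mul_and_not_dvd (orderOf_pos α).ne' p hp.one_lt.ne'
  have h1 : α ^ p ^ k = 1 := by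
    apply H04.aut_eq_one_of_centralizer_le hP _ A hC
    · intro x hx
      exact (MulAction.stabilizer (MulAut Q) x).pow_mem (hfix x hx) _
    · rw [orderOf_pow' α (pow_pos hp.pos k).ne', hkm, Nat.gcd_mul_right_left,
        Nat.mul_div_cancel_left _ (pow_pos hp.pos k)]
      exact ((Nat.Prime.coprime_iff_not_dvd hp).2 hm).symm
  obtain ⟨j, -, hj⟩ := (Nat.dvd_prime_pow hp).1 (orderOf_dvd_of_pow_eq_one h1)
  exact ⟨j, hj⟩

end Cfsg.Agent.S3349
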