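import Mathlib
import Cfsg.Statements.S3366
import Cfsg.Agent.H12.He3B

set_option autoImplicit false
open Cfsg

namespace Cfsg.Agent.S3366

/-- Let X be a finite group with O₃(X) extraspecial of order 27 and exponent 3, X/O₃(X) isomorphic to SL(2,3), O₂(X) = 1, and a Sylow 3-subgroup of X containing an elementary abelian subgroup of order 27. Then X is isomorphic to the centralizer in PSp(4,3) of a 3-central element of order 3 (an element of order 3 in the centre of a Sylow 3-subgroup). -/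
theorem result {X : Type*} [Group X] [Finite X]
    (hR : Cfsg.IsExtraspecial 3 (Cfsg.pCore 3 X)) (hRcard : Nat.card (Cfsg.pCore 3 X) = 27)
    (hRexp : ∀ r ∈ Cfsg.pCore 3 X, r ^ 3 = 1)
    (e : X ⧸ Cfsg.pCore 3 X ≃* Matrix.SpecialLinearGroup (Fin 2) (ZMod 3))
    (hO2 : Cfsg.pCore 2 X = ⊥)
    (hE : ∃ E : Subgroup X, IsMulCommutative E ∧ (∀ a ∈ E, a ^ 3 = 1) ∧ Nat.card E = 27)
    (F : Type*) [Field F] [Fintype F] (hF : Fintype.card F = 3) :
    ∃ (c : Cfsg.PSp 2 F) (S : Sylow 3 (Cfsg.PSp 2 F)), orderOf c = 3 ∧ c ∈ (S : Subgroup (Cfsg.PSp 2 F)) ∧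
      c ∈ Subgroup.centralizer ((S : Subgroup (Cfsg.PSp 2 F)) : Set (Cfsg.PSp 2 F)) ∧
      Nonempty (X ≃* Subgroup.centralizer ({c} : Set (Cfsg.PSp 2 F))) := by
  open H12.He3 in
  have : Nontrivial He := ⟨⟨1, z, by decide⟩⟩
  open H12.He3 in
  obtain ⟨i⟩ := Cfsg.Agent.S0098.result (p := 3) (by decide) extra hR
    (Monoid.exponent_eq_prime_iff Nat.prime_three |>.2 fun a h => orderOf_eq_prime (cube a) h)
    (by
      have : Nontrivial (Cfsg.pCore 3 X) := Finite.one_lt_card_iff_nontrivial.1 (by omega)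
      exact Monoid.exponent_eq_prime_iff Nat.prime_three |>.2 fun a h => orderOf_eq_prime (Subtype.ext (hRexp _ a.2)) h)
    (by rw [hRcard, Nat.card_eq_fintype_card]; rfl)
  obtain ⟨E, _, h1, h2⟩ := hE
  obtain ⟨j⟩ := recog ((Cfsg.pCore 3 X).subtype.comp i.toMonoidHom) (Subtype.val_injective.comp i.injective)
    (e.toMonoidHom.comp (QuotientGroup.mk' _)) (e.surjective.comp (QuotientGroup.mk'_surjective _)) (by
      rw [MonoidHom.range_comp, MonoidHom.range_eq_top.2 i.surjective, ← MonoidHom.range_eq_map, Subgroup.range_subtype]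
      ext x; simp) hO2 h1 h2
  obtain ⟨c, S, a, b, d, ⟨k⟩⟩ := conc F hF
  exact ⟨c, S, a, b, d, ⟨j.trans k⟩⟩

end Cfsg.Agent.S3366
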