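import Mathlib
import Cfsg.Statements.S3376
import Cfsg.Agent.H01.Gaschutz
import Cfsg.Agent.H02.Basic
import Cfsg.Agent.H26.CharP
import Cfsg.Agent.H04.Basic

set_option autoImplicit false
open Cfsg

namespace Cfsg.Agent.S3376

open Subgroup

theorem cyc {σ : Equiv.Perm (Fin 9)} (h : orderOf σ = 3) (hf : ∀ x, σ x ≠ x) :
    σ.cycleType = Multiset.replicate 3 3 := by
  obtain ⟨n, hn⟩ := Equiv.Perm.cycleType_prime_order (h ▸ Nat.prime_three : (orderOf σ).Prime)
  have h1 := σ.sum_cycleType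
  rw [hn, h, Finset.eq_univ_of_forall fun x => Equiv.Perm.mem_support.2 (hf x)] at h1
  rw [hn, h, show n + 1 = 3 by simp at h1; omega]

/-- Let G be a group of order 162 = 3⁴·2 with Sylow 3-subgroup S and Sylow 2-subgroup T, having an elementary abelian normal subgroup J of order 27, such that Z = Z(S) has order 3, Z centralizes T, and C_S(T) ≠ S. Then G is isomorphic to the centralizer in Sym(9) of a product of three disjoint 3-cycles. -/
theorem result {G : Type*} [Group G] [Finite G] (hG : Nat.card G = 162)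
    (S : Sylow 3 G) (T : Sylow 2 G) (J : Subgroup G) [hJn : J.Normal] (hJcomm : IsMulCommutative J)
    (hJexp : ∀ a ∈ J, a ^ 3 = 1) (hJcard : Nat.card J = 27)
    (Z : Subgroup G) (hZ : Z = (S : Subgroup G) ⊓ Subgroup.centralizer ((S : Subgroup G) : Set G)) (hZcard : Nat.card Z = 3)
    (hZT : Z ≤ Subgroup.centralizer ((T : Subgroup G) : Set G))
    (hST : (S : Subgroup G) ⊓ Subgroup.centralizer ((T : Subgroup G) : Set G) ≠ S) :
    Nonempty (G ≃* Subgroup.centralizer ({Equiv.swap (0 : Fin 9) 1 * Equiv.swap 1 2 * Equiv.swap 3 4 * Equiv.swap 4 5 * Equiv.swap 6 7 * Equiv.swap 7 8} : Set (Equiv.Perm (Fin 9)))) := by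
  have h3 : Fact (Nat.Prime 3) := ⟨Nat.prime_three⟩
  have hS : Nat.card (S : Subgroup G) = 81 := by
    rw [S.card_eq_multiplicity, hG, show 162 = 3 ^ 4 * 2 by norm_num, Nat.factorization_mul (by norm_num) (by norm_num),
      Nat.prime_three.factorization_pow]
    simp [Nat.prime_two.factorization]
  have hT : Nat.card (T : Subgroup G) = 2 := by
    rw [T.card_eq_multiplicity, hG, show 162 = 3 ^ 4 * 2 by norm_num, Nat.factorization_mul (by norm_num) (by norm_num),
      Nat.prime_three.factorization_pow]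
    simp [Nat.prime_two.factorization]
  have hSn : (S : Subgroup G).Normal := normal_of_index_eq_two (by
    have := card_mul_index (S : Subgroup G); rw [hS, hG] at this; omega)
  have hJS : J ≤ S := (IsPGroup.of_card (p := 3) (n := 3) hJcard).le_sylow_of_normal S
  have hST' : (T : Subgroup G) ⊔ S = ⊤ := eq_top_of_le_card _ (by
    rw [H02.card_sup_of_disjoint le_normalizer_of_normal (disjoint_iff.1 (disjoint_of_coprime_natCard
      (by rw [hS, hT]; norm_num))), hS, hT, hG])
  have hZc : ∀ z ∈ Z, ∀ g : G, g * z = z * g := fun z hz g => by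
    have : (⊤ : Subgroup G) ≤ centralizer {z} := hST' ▸ sup_le (H26.mem_centralizer_iff_le.1 (hZT hz))
      (H26.mem_centralizer_iff_le.1 (hZ ▸ hz).2)
    exact mem_centralizer_singleton_iff.1 (this trivial)
  have hZJ : Z ≤ J := fun z hz => by
    by_contra h
    have hc : z ∈ centralizer (J : Set G) := fun g _ => hZc z hz g
    have h1 : J ⊔ zpowers z = S := eq_of_le_of_card_ge (sup_le hJS (zpowers_le.2 (hZ ▸ hz).1)) (by
      rw [H04.card_sup_zpowers (p := 3) _ (centralizer_le_normalizer _ hc) h (by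
        rw [orderOf_dvd_iff_pow_eq_one.1 (hZcard ▸ Z.orderOf_dvd_natCard hz)]; exact one_mem _), hS, hJcard])
    have h2 := H04.isMulCommutative_sup_zpowers hJcomm hc
    rw [h1] at h2
    rw [hZ, inf_eq_left.2 (le_centralizer _), hS] at hZcard
    omega
  obtain ⟨K, hKJ, hTK, hZK, hZK'⟩ := H01.maschke_elementary Nat.prime_three hJexp (A := T)
    le_normalizer_of_normal hZJ ((le_centralizer_iff.1 hZT).trans (centralizer_le_normalizer _))
    (by rw [hT, hZcard]; norm_num)
  have hK : Nat.card K = 9 := by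
    have := H02.card_sup_of_disjoint (H := Z) (K := K) (fun z hz => centralizer_le_normalizer _
      fun g _ => hZc z hz g) hZK
    rw [hZK', hJcard, hZcard] at this
    omega
  have hTK' : (T : Subgroup G) ⊓ K = ⊥ := disjoint_iff.1 (disjoint_of_coprime_natCard (by rw [hK, hT]; norm_num))
  have hH : Nat.card ((T : Subgroup G) ⊔ K : Subgroup G) = 18 := by
    rw [H02.card_sup_of_disjoint hTK hTK', hT, hK]
  have hHS : (S : Subgroup G) ⊓ ((T : Subgroup G) ⊔ K) = K := by
    rw [H26.inf_sup_eq_of_le_normalizer' hTK (hKJ.trans hJS), disjoint_iff.1 (disjoint_of_coprime_natCard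
      (by rw [hS, hT]; norm_num)), bot_sup_eq]
  generalize (T : Subgroup G) ⊔ K = H at hH hHS
  have hZH : ∀ z ∈ Z, z ∈ H → z = 1 := fun z hz h =>
    mem_bot.1 (hZK ▸ mem_inf.2 ⟨hz, hHS ▸ mem_inf.2 ⟨(hZ ▸ hz).1, h⟩⟩)
  have hcore : H.normalCore = ⊥ := by
    have h1 : H.normalCore ⊓ S = ⊥ := by
      by_contra h
      obtain ⟨z, hz, hz1, hz2⟩ := H04.exists_fixed_of_normalizes S.2 S.2.to_inf_right le_normalizer_of_normal h
      exact hz1 (hZH z (hZ ▸ mem_inf.2 ⟨hz.2, hz2⟩) (normalCore_le H hz.1))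
    by_contra h
    have h2 := H02.card_sup_of_disjoint (H := H.normalCore) le_normalizer_of_normal h1
    have h4 := card_le_of_le (le_top (a := H.normalCore ⊔ S))
    have h5 : Nat.card H.normalCore ≠ 1 := fun e => h (card_eq_one.1 e)
    have h6 : 0 < Nat.card H.normalCore := Nat.card_pos
    rw [card_top, h2, hS, hG] at h4
    have h7 : Nat.card H.normalCore = 2 := by omega
    have h8 := eq_of_le_of_card_ge ((IsPGroup.of_card (p := 2) (n := 1) h7).le_sylow_of_normal T) (by omega)
    refine hST (inf_eq_left.2 (H26.commutator_eq_bot_iff'.1 (le_bot_iff.1 (h1 ▸ ?_))))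
    rw [← h8]
    exact commutator_le_inf _ _
  have hi : Nat.card (G ⧸ H) = 9 := by have := card_mul_index H; rw [index, hH, hG] at this; omega
  obtain ⟨e⟩ : Nonempty (G ⧸ H ≃ Fin 9) := ⟨Finite.equivFinOfCardEq hi⟩
  obtain ⟨π, hπ⟩ : ∃ π : G →* Equiv.Perm (Fin 9), π = e.permCongrHom.toMonoidHom.comp
    (MulAction.toPermHom G (G ⧸ H)) := ⟨_, rfl⟩
  have hπi : Function.Injective π := hπ ▸ e.permCongrHom.injective.comp
    ((MonoidHom.ker_eq_bot_iff _).1 (normalCore_eq_ker H ▸ hcore))
  obtain ⟨z, hz, hzo⟩ := H26.exists_mem_orderOf_eq (p := 3) (H := Z) (hZcard ▸ dvd_rfl)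
  have h1 := cyc (σ := π z) (by rw [orderOf_injective π hπi, hzo]) fun x hx => by
    obtain ⟨y, rfl⟩ := e.surjective x
    obtain ⟨g, rfl⟩ := QuotientGroup.mk_surjective y
    rw [hπ] at hx
    have h2 : ((z * g : G) : G ⧸ H) = g := by simpa using hx
    have h4 := QuotientGroup.eq.1 h2
    rw [← hZc z hz g, mul_inv_rev, inv_mul_cancel_right, inv_mem_iff] at h4
    rw [hZH z hz h4, orderOf_one] at hzo
    omega
  obtain ⟨c, hc⟩ : ∃ c : Equiv.Perm (Fin 9), c = Equiv.swap (0 : Fin 9) 1 * Equiv.swap 1 2 * Equiv.swap 3 4 *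
    Equiv.swap 4 5 * Equiv.swap 6 7 * Equiv.swap 7 8 := ⟨_, rfl⟩
  have h2 := cyc (σ := c) (hc ▸ orderOf_eq_prime (by decide) (by decide)) (hc ▸ by decide)
  rw [← hc]
  obtain ⟨w, hw⟩ := isConj_iff.1 (Equiv.Perm.isConj_of_cycleType_eq (h1.trans h2.symm))
  refine ⟨MulEquiv.ofBijective (((MulAut.conj w).toMonoidHom.comp π).codRestrict (centralizer {c}) fun g => ?_)
    ((Nat.bijective_iff_injective_and_card _).2 ⟨fun a b h => hπi ((MulAut.conj w).injective
      (congrArg Subtype.val h)), ?_⟩)⟩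
  · rw [mem_centralizer_singleton_iff, ← hw]
    exact (Commute.map (Commute.map (hZc z hz g) π) (MulAut.conj w)).eq
  · rw [hG, Equiv.Perm.nat_card_centralizer, h2]
    decide

end Cfsg.Agent.S3376
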