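import Mathlib
import Cfsg.Statements.S3389
import Cfsg.Agent.H06.Derange
import Cfsg.Agent.H01.Basic
import Cfsg.Agent.H18.Gleason
import Cfsg.Agent.H17.Count

set_option autoImplicit false
open Cfsg

namespace Cfsg.Agent.S3389

open MulAction H06
open scoped Pointwise

theorem normalizer_trans {G Ω : Type*} [Group G] [Finite G] [MulAction G Ω] [IsPretransitive G Ω]
    {p : ℕ} [Fact p.Prime] {Q : Subgroup G} (hQ : IsPGroup p Q) {a b : Ω} (ha : Q ≤ stabilizer G a)
    (hb : Q ≤ stabilizer G b) (hi : ¬ p ∣ Q.relIndex (stabilizer G b)) :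
    ∃ n ∈ Subgroup.normalizer (Q : Set G), n • a = b := by
  obtain ⟨g, hg⟩ := exists_smul_eq G a b
  have h1 : MulAut.conj g • Q ≤ stabilizer G b := by
    intro y hy
    rw [H01.mem_conj_smul_iff] at hy
    have := ha hy
    rw [mem_stabilizer_iff] at this ⊢
    rw [← hg]
    rw [mul_smul, mul_smul, inv_smul_eq_iff] at this
    exact this
  obtain ⟨h, hh, he⟩ := H01.sylow_conj_of_card (p := p) hb h1 hQ hi (H01.card_conj_smul _ _)
  rw [H01.conj_smul_conj_smul, H01.conj_smul_eq_iff_mem_normalizer] at he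
  exact ⟨h * g, he, by rw [mul_smul, hg]; exact hh⟩

theorem fx_modEq {G Ω : Type*} [Group G] [MulAction G Ω] [Finite Ω] {p : ℕ} [Fact p.Prime] {x : G}
    (hx : orderOf x = p) : Nat.card Ω ≡ fx Ω x [MOD p] := by
  have hP : IsPGroup p (Subgroup.zpowers x) := IsPGroup.of_card (n := 1) (by simp [hx])
  have := hP.card_modEq_card_fixedPoints Ω
  have e : fixedBy Ω x = fixedPoints (Subgroup.zpowers x) Ω := by
    ext a
    constructor
    · rintro h ⟨_, k, rfl⟩
      exact (stabilizer G a).zpow_mem h k
    · intro h; exact h ⟨x, Subgroup.mem_zpowers x⟩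
  rw [fx, e]; exact this

/-- Let G be a finite group acting faithfully and transitively on a finite set Ω with fixity k ≥ 1: every non-identity element fixes at most k points and some non-identity element fixes exactly k points. Then |Z(G)| divides k; if k = 2 then |G| is even; and for every prime p > k dividing |G| and every point α, either p does not divide |G_α| or G_α contains a Sylow p-subgroup of G. -/
theorem result {G : Type*} [Group G] [Finite G] {Ω : Type*} [Fintype Ω] [MulAction G Ω] [FaithfulSMul G Ω]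
    (htr : MulAction.IsPretransitive G Ω) (k : ℕ) (hk : 1 ≤ k)
    (hfix : ∀ g : G, g ≠ 1 → Nat.card (MulAction.fixedBy Ω g) ≤ k) (hex : ∃ g : G, g ≠ 1 ∧ Nat.card (MulAction.fixedBy Ω g) = k) :
    Nat.card (Subgroup.center G) ∣ k ∧ (k = 2 → 2 ∣ Nat.card G) ∧
      ∀ (p : ℕ), p.Prime → k < p → p ∣ Nat.card G → ∀ α : Ω,
        ¬ p ∣ Nat.card (MulAction.stabilizer G α) ∨ ¬ p ∣ (MulAction.stabilizer G α).index := by
  classical
  have := Fintype.ofFinite G
  obtain ⟨g, hg1, hg⟩ := hex
  have part3 : ∀ (p : ℕ), p.Prime → k < p → ∀ α : Ω,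
      ¬ p ∣ Nat.card (stabilizer G α) ∨ ¬ p ∣ (stabilizer G α).index := by
    intro p hp hkp α
    by_contra h
    push Not at h
    have := Fact.mk hp
    obtain ⟨x, hx⟩ := exists_prime_orderOf_dvd_card' p h.1
    have hx' : orderOf (x : G) = p := by rw [Subgroup.orderOf_coe, hx]
    have h1 := fx_modEq (Ω := Ω) hx'
    have h2 := h.2
    rw [index_stabilizer_of_transitive] at h2
    have h3 : p ∣ fx Ω (x : G) := (h1.dvd_iff dvd_rfl).1 h2
    have h4 : 0 < fx Ω (x : G) := Nat.pos_of_ne_zero (fun e => (fx_eq_zero_iff Ω).1 e α x.2)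
    have h5 := hfix x (by intro e; rw [e, orderOf_one] at hx'; exact hp.one_lt.ne hx')
    have := Nat.le_of_dvd h4 h3
    change fx Ω (x : G) ≤ k at h5
    omega
  refine ⟨?_, fun hk2 => ?_, fun p hp hkp _ α => part3 p hp hkp α⟩
  · have := H17.card_dvd_of_free (G := Subgroup.center G) (Finset.univ.filter (fun a : Ω => g • a = a))
      (fun z x hx => by
        simp only [Finset.mem_filter, Finset.mem_univ, true_and] at hx ⊢
        change g • (z : G) • x = (z : G) • x
        rw [← mul_smul, Subgroup.mem_center_iff.1 z.2 g, mul_smul, hx])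
      (fun x _ z hz => by
        apply Subtype.ext
        apply FaithfulSMul.eq_of_smul_eq_smul (α := Ω)
        intro y
        obtain ⟨h, rfl⟩ := exists_smul_eq G x y
        have hz' : (z : G) • x = x := hz
        rw [← mul_smul, ← Subgroup.mem_center_iff.1 z.2 h, mul_smul, hz']; simp)
    rw [← hg]
    have e := fx_eq_card Ω g
    rw [fx] at e
    rw [e]
    convert this
  · subst hk2
    by_contra hodd
    obtain ⟨⟨α, hα⟩, ⟨β, hβ⟩, hne, -⟩ := (Nat.card_eq_two_iff).1 hg
    have hαβ : α ≠ β := fun e => hne (Subtype.ext e)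
    obtain ⟨p, hp, hpd⟩ := Nat.exists_prime_and_dvd (show orderOf g ≠ 1 by simpa using hg1)
    have := Fact.mk hp
    set x := g ^ (orderOf g / p) with hxd
    have hx : orderOf x = p := orderOf_pow_orderOf_div (orderOf_pos g).ne' hpd
    have hx1 : x ≠ 1 := by intro e; rw [e, orderOf_one] at hx; exact hp.one_lt.ne hx
    have hxα : x ∈ stabilizer G α := (stabilizer G α).pow_mem hα _
    have hxβ : x ∈ stabilizer G β := (stabilizer G β).pow_mem hβ _
    have hp2 : 2 < p := by
      rcases hp.two_le.lt_or_eq with h | h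
      · exact h
      · exact absurd (h ▸ hpd.trans (orderOf_dvd_natCard g)) hodd
    have hfx : fx Ω x = 2 := le_antisymm (hfix x hx1) (two_le_fx Ω hαβ hxα hxβ)
    have hset : fixedBy Ω x = {α, β} := by
      symm
      refine Set.eq_of_subset_of_ncard_le ?_ ?_ (Set.toFinite _)
      · rintro _ (rfl | rfl)
        exacts [hxα, hxβ]
      · rw [Set.ncard_pair hαβ, ← Nat.card_coe_set_eq]; exact hfx.le
    obtain ⟨P, hP⟩ := (IsPGroup.of_card (n := 1) (by rw [Nat.card_zpowers, ← Subgroup.orderOf_coe, pow_one]; exact hx) :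
      IsPGroup p (Subgroup.zpowers (⟨x, hxβ⟩ : stabilizer G β))).exists_le_sylow
    set Q := (P : Subgroup (stabilizer G β)).map (stabilizer G β).subtype with hQ
    have hQp : IsPGroup p Q := P.isPGroup'.map _
    have hxQ : x ∈ Q := ⟨_, hP (Subgroup.mem_zpowers _), rfl⟩
    have hsub : fixedPoints Q Ω ⊆ {α, β} := by
      rw [← hset]; intro a ha; exact ha ⟨x, hxQ⟩
    have hm := (hQp.card_modEq_card_fixedPoints Ω).symm.trans (fx_modEq hx)
    rw [hfx, Nat.card_coe_set_eq] at hm
    have hle := Set.ncard_le_ncard hsub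
    rw [Set.ncard_pair hαβ] at hle
    have heq : (fixedPoints Q Ω).ncard = 2 := Nat.ModEq.eq_of_lt_of_lt hm (by omega) hp2
    have hfp : fixedPoints Q Ω = {α, β} :=
      Set.eq_of_subset_of_ncard_le hsub (by rw [Set.ncard_pair hαβ, heq])
    have hQα : Q ≤ stabilizer G α := fun y hy =>
      (hfp ▸ Set.mem_insert α _ : α ∈ fixedPoints Q Ω) ⟨y, hy⟩
    have hQβ : Q ≤ stabilizer G β := Subgroup.map_subtype_le _
    obtain ⟨n, hn, hnα⟩ := normalizer_trans hQp hQα hQβ (by
      rw [Subgroup.relIndex, Subgroup.subgroupOf,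
        Subgroup.comap_map_eq_self_of_injective (Subgroup.subtype_injective _)]
      exact P.not_dvd_index)
    have hnβ : n • β = α := by
      have : n • β ∈ fixedPoints Q Ω := by
        intro y
        have h1 : n⁻¹ * y * n ∈ Q := by
          have := (Subgroup.mem_normalizer_iff''.1 hn y).1 y.2
          exact this
        have h2 : (n⁻¹ * y * n) • β = β := hQβ h1
        rw [mul_smul, mul_smul, inv_smul_eq_iff] at h2
        exact h2
      rw [hfp] at this
      rcases this with h | h
      · exact h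
      · exact absurd (smul_left_cancel n (hnα.trans (Eq.symm h))) hαβ
    have hpow : ∀ j : ℕ, (n ^ (2 * j + 1)) • α = β := by
      intro j
      induction j with
      | zero => simpa using hnα
      | succ j ih =>
        rw [show 2 * (j + 1) + 1 = 1 + 1 + (2 * j + 1) by ring, pow_add, pow_add, mul_smul, mul_smul,
          ih, pow_one, hnβ, hnα]
    obtain ⟨j, hj⟩ : Odd (Nat.card G) := Nat.odd_iff.2 (by omega)
    have := hpow j
    rw [← hj, pow_card_eq_one', one_smul] at this
    exact hαβ this

end Cfsg.Agent.S3389
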