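import Mathlib
import Cfsg.Statements.S3390
import Cfsg.Agent.H04.Rank2
import Cfsg.Agent.H17.Count
import Cfsg.Agent.H08.Wr
import Cfsg.Agent.H01.Coprime2

set_option autoImplicit false
open Cfsg

namespace Cfsg.Agent.S3390

open Subgroup MulAction
open scoped commutatorElement

theorem maxclass {S : Type*} [Group S] [Finite S] (hS : IsPGroup 2 S) {t : S} (ht : orderOf t = 2)
    (hc : Nat.card (centralizer ({t} : Set S)) ≤ 4) (h8 : 8 ≤ Nat.card S) :
    (∃ n : ℕ, Nonempty (S ≃* DihedralGroup n)) ∨ IsQuasiDihedral S := by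
  haveI : Fact (Nat.Prime 2) := ⟨Nat.prime_two⟩
  have htc : t ∉ center S := fun h => by
    have : centralizer ({t} : Set S) = ⊤ := by
      rw [eq_top_iff]; intro g _
      exact mem_centralizer_singleton_iff.2 (mem_center_iff.1 h g)
    rw [this, card_top] at hc; omega
  have hna : ¬ IsMulCommutative S := fun h => htc (mem_center_iff.2 fun g => h.is_comm.comm g t)
  have h1 : (centralizer ({t} : Set S)).index ≤ Nat.card (commutator S) := by
    let f : S ⧸ centralizer ({t} : Set S) → commutator S := fun q =>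
      ⟨⁅q.out, t⁆, commutator_mem_commutator (mem_top _) (mem_top _)⟩
    refine Nat.card_le_card_of_injective f fun a b hab => ?_
    have h2 : ⁅a.out, t⁆ = ⁅b.out, t⁆ := congrArg Subtype.val hab
    rw [← a.out_eq, ← b.out_eq]
    refine QuotientGroup.eq.2 (mem_centralizer_singleton_iff.2 ?_)
    simp only [commutatorElement_def, mul_left_inj] at h2
    calc a.out⁻¹ * b.out * t = a.out⁻¹ * (b.out * t * b.out⁻¹) * b.out := by group
      _ = _ := by rw [← h2]; group
  have h2 : (commutator S).index ≤ 4 := by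
    have e1 := (commutator S).card_mul_index
    have e2 := (centralizer ({t} : Set S)).card_mul_index
    have hpos : 0 < Nat.card (commutator S) := Nat.card_pos
    by_contra h
    nlinarith
  have h3 : 2 ^ 2 ∣ (commutator S).index :=
    (H04.sq_dvd_index_frattini hS (fun h => hna (IsCyclic.isMulCommutative))).trans
      (index_dvd_of_le (H04.commutator_le_frattini hS))
  have h4 : (commutator S).index = 4 :=
    le_antisymm h2 (Nat.le_of_dvd (Nat.pos_of_ne_zero (index_ne_zero_of_finite)) h3)
  refine ((H04.taussky hS hna h4).dihedral_or_sd (fun h => ?_)).imp (fun ⟨m, h⟩ => ⟨_, h⟩) id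
  obtain ⟨z, -, hz1, hz2, hz⟩ := H04.exists_mem_center_pow_eq_one_of_normal hS ⊤ (fun e => by
    have := card_top (G := S)
    rw [e, card_bot] at this; omega)
  have hzt : z * t = t * z := (mem_center_iff.1 hz t).symm
  have ht2 : t ^ 2 = 1 := ht ▸ pow_orderOf_eq_one t
  have hc' : t ∈ centralizer (zpowers z : Set S) := fun y hy =>
    (mem_center_iff.1 (zpowers_le.2 hz hy) t).symm
  have h5 := h (zpowers z ⊔ zpowers t) (H04.isMulCommutative_sup_zpowers inferInstance hc') (by
    intro a ha
    obtain ⟨i, j, rfl⟩ := (H08.mem_sup_zpowers_comm hzt).1 ha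
    rw [(Commute.zpow_zpow hzt i j).mul_pow, ← zpow_natCast, ← zpow_natCast, ← zpow_mul, ← zpow_mul,
      mul_comm i, mul_comm j, zpow_mul, zpow_mul, zpow_natCast, zpow_natCast, hz2, ht2]; simp)
  rw [H04.card_sup_zpowers (p := 2) _ (centralizer_le_normalizer _ hc') (fun h => htc (zpowers_le.2 hz h))
    (by rw [ht2]; exact one_mem _), Nat.card_zpowers, orderOf_eq_prime hz2 hz1] at h5
  omega

theorem three {K Ω : Type*} [Group K] [Finite Ω] [MulAction K Ω] {g : K}
    (h : Nat.card (fixedBy Ω g) ≤ 2) {a b c : Ω} (ha : g • a = a) (hb : g • b = b) (hc : g • c = c)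
    (hab : a ≠ b) : c = a ∨ c = b := by
  by_contra hn
  push Not at hn
  have hinj : Function.Injective (![⟨a, ha⟩, ⟨b, hb⟩, ⟨c, hc⟩] : Fin 3 → fixedBy Ω g) := by
    intro i j hij
    have hij' := congrArg Subtype.val hij
    have h1 := hn.1
    have h2 := hn.2
    fin_cases i <;> fin_cases j <;> first | rfl | (exfalso; simp only [Fin.zero_eta, Fin.mk_one, Fin.reduceFinMk, Matrix.cons_val_zero, Matrix.cons_val_one, Matrix.cons_val] at hij'; first | exact hab hij' | exact hab hij'.symm | exact h1 hij' | exact h1 hij'.symm | exact h2 hij' | exact h2 hij'.symm)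
  have := Nat.card_le_card_of_injective _ hinj
  rw [Nat.card_eq_fintype_card, Fintype.card_fin] at this
  omega

theorem caseA {S Ω : Type*} [Group S] [Finite S] [Finite Ω] [MulAction S Ω] (hS : IsPGroup 2 S)
    (hfix : ∀ g : S, g ≠ 1 → Nat.card (fixedBy Ω g) ≤ 2) (β : Ω) (h1 : stabilizer S β ≠ ⊥)
    (h4 : 4 ∣ (stabilizer S β).index) :
    Nat.card (stabilizer S β) = 2 ∧ ((∃ n : ℕ, Nonempty (S ≃* DihedralGroup n)) ∨ IsQuasiDihedral S) := by
  classical
  haveI : Fact (Nat.Prime 2) := ⟨Nat.prime_two⟩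
  haveI := hS.isNilpotent
  haveI := Fintype.ofFinite S
  set T := stabilizer S β with hT
  have hTt : T ≠ ⊤ := fun h => by rw [h, index_top] at h4; omega
  obtain ⟨u, hu, huT⟩ := SetLike.exists_of_lt (H04.lt_normalizer_of_ne_top hTt)
  have hub : β ≠ u • β := fun h => huT h.symm
  have hfu : ∀ t ∈ T, t • u • β = u • β := by
    intro t ht
    have : u⁻¹ * t * u ∈ T := (mem_normalizer_iff''.1 hu t).1 ht
    rw [mem_stabilizer_iff, mul_smul, mul_smul, inv_smul_eq_iff] at this
    exact this
  have hd := H17.card_dvd_of_free (G := T) (H17.orb S β \ {β, u • β}) (by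
      intro g x hx
      simp only [Finset.mem_sdiff, Finset.mem_insert, Finset.mem_singleton, not_or] at hx ⊢
      refine ⟨H17.smul_mem_orb (g : S) hx.1, fun h => hx.2.1 ?_, fun h => hx.2.2 ?_⟩
      · exact MulAction.injective (g : S) (h.trans (show (g : S) • β = β from g.2).symm)
      · exact MulAction.injective (g : S) (h.trans (hfu g g.2).symm))
    (by
      intro x hx g hg
      simp only [Finset.mem_sdiff, Finset.mem_insert, Finset.mem_singleton, not_or] at hx
      by_contra hg1
      rcases three (hfix g (fun e => hg1 (Subtype.ext e))) g.2 (hfu g g.2) hg hub with h | h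
      · exact hx.2.1 h
      · exact hx.2.2 h)
  have hsub : ({β, u • β} : Finset Ω) ⊆ H17.orb S β := by
    intro x hx
    rcases Finset.mem_insert.1 hx with rfl | hx
    · exact H17.self_mem_orb _
    · rw [Finset.mem_singleton.1 hx]; exact H17.mem_orb.2 ⟨u, rfl⟩
  have ho : (H17.orb S β).card = T.index := by
    have e1 := H17.card_orb_mul (G := S) β
    rw [← T.index_mul_card] at e1
    exact Nat.eq_of_mul_eq_mul_right Nat.card_pos e1
  rw [Finset.card_sdiff_of_subset hsub, Finset.card_pair hub, ho] at hd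
  obtain ⟨k, hk⟩ := (hS.to_subgroup T).exists_card_eq
  have hi : T.index ≠ 0 := index_ne_zero_of_finite
  have hk1 : k = 1 := by
    rcases k with _ | _ | k
    · exact absurd (eq_bot_of_card_eq _ (by simpa using hk)) h1
    · rfl
    · exfalso
      have : 4 ∣ T.index - 2 := (Dvd.intro (2 ^ k) (by rw [hk]; ring)).trans hd
      omega
  rw [hk1, pow_one] at hk
  refine ⟨hk, ?_⟩
  obtain ⟨t, ht, ht1⟩ := (T.bot_or_exists_ne_one).resolve_left h1
  have hto : orderOf t = 2 := by
    have := T.orderOf_dvd_natCard ht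
    rw [hk] at this
    exact ((Nat.dvd_prime Nat.prime_two).1 this).resolve_left (by simpa using ht1)
  refine maxclass hS hto ?_ (by
    have := T.index_mul_card
    have := Nat.le_of_dvd (Nat.pos_of_ne_zero hi) h4
    nlinarith)
  haveI := Fintype.ofFinite (centralizer ({t} : Set S))
  have e1 := H17.card_orb_mul (G := centralizer ({t} : Set S)) β
  have e2 : (H17.orb (centralizer ({t} : Set S)) β).card ≤ 2 := by
    refine (Finset.card_le_card (t := {β, u • β}) fun x hx => ?_).trans (Finset.card_pair hub).le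
    obtain ⟨c, rfl⟩ := H17.mem_orb.1 hx
    have : t • (c : S) • β = (c : S) • β := by
      rw [← mul_smul, ← mem_centralizer_singleton_iff.1 c.2, mul_smul, show t • β = β from ht]
    rw [Finset.mem_insert, Finset.mem_singleton]
    exact three (hfix t ht1) ht (hfu t ht) this hub
  have e3 : Nat.card (stabilizer (centralizer ({t} : Set S)) β) ≤ 2 := by
    rw [← hk]
    exact Nat.card_le_card_of_injective (fun c => (⟨c.1.1, c.2⟩ : T))
      (fun a b h => Subtype.ext (Subtype.ext (congrArg (fun x : T => (x : S)) h)))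
  nlinarith

theorem modr {K X : Type*} [Group K] [Finite X] [MulAction K X] {h : K} {r : ℕ} (hr : r.Prime)
    (ho : orderOf h = r) : Nat.card X ≡ Nat.card (fixedBy X h) [MOD r] := by
  haveI := Fact.mk hr
  have hp : IsPGroup r (zpowers h) := IsPGroup.of_card (n := 1) (by rw [Nat.card_zpowers, ho, pow_one])
  have := hp.card_modEq_card_fixedPoints X
  have e : fixedPoints (zpowers h) X = fixedBy X h := by
    ext x
    refine ⟨fun hx => hx ⟨h, mem_zpowers h⟩, fun hx g => ?_⟩
    exact (zpowers_le.2 (show h ∈ stabilizer K x from hx)) g.2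
  rwa [e] at this

theorem card_two {K X : Type*} [Group K] [Finite X] [MulAction K X] {g : K}
    (h : Nat.card (fixedBy X g) ≤ 2) {a b : X} (ha : g • a = a) (hb : g • b = b) (hab : a ≠ b) :
    Nat.card (fixedBy X g) = 2 := by
  refine le_antisymm h ?_
  have : Nontrivial (fixedBy X g) := ⟨⟨⟨a, ha⟩, ⟨b, hb⟩, fun e => hab (congrArg Subtype.val e)⟩⟩
  exact Finite.one_lt_card

/-- Let G be a finite group acting faithfully and transitively on a finite set Ω with fixity 2 (every non-identity element fixes at most two points, and some fixes exactly two). Let α ∈ Ω and S a Sylow 2-subgroup of G. Then one of the following holds: the stabilizer S_α of α in S is trivial; S is dihedral or semidihedral and either |S_α| = 2 or |S : S_α| = 2; |S| ≥ 4, S has exactly one orbit of size 2 on Ω, every other S-orbit is regular, and G has a normal subgroup of index 2 or of index |S| which is a Frobenius group; or S ≤ G_α. -/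
theorem result {G : Type*} [Group G] [Finite G] {Ω : Type*} [Fintype Ω] [MulAction G Ω] [FaithfulSMul G Ω] (htr : MulAction.IsPretransitive G Ω)
    (hfix : ∀ g : G, g ≠ 1 → Nat.card (MulAction.fixedBy Ω g) ≤ 2) (hex : ∃ g : G, g ≠ 1 ∧ Nat.card (MulAction.fixedBy Ω g) = 2) (α : Ω) (S : Sylow 2 G) :
    (S : Subgroup G) ⊓ MulAction.stabilizer G α = ⊥ ∨
    (((∃ n : ℕ, Nonempty (↥(S : Subgroup G) ≃* DihedralGroup n)) ∨ Cfsg.IsQuasiDihedral ↥(S : Subgroup G)) ∧
       (Nat.card ↥((S : Subgroup G) ⊓ MulAction.stabilizer G α) = 2 ∨ ((S : Subgroup G) ⊓ MulAction.stabilizer G α).relIndex (S : Subgroup G) = 2)) ∨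
    (4 ≤ Nat.card (S : Subgroup G) ∧
       (∃ ω : Ω, Nat.card (MulAction.orbit ↥(S : Subgroup G) ω) = 2 ∧
          ∀ ω' : Ω, ω' ∉ MulAction.orbit ↥(S : Subgroup G) ω → Nat.card (MulAction.orbit ↥(S : Subgroup G) ω') = Nat.card (S : Subgroup G)) ∧
       ∃ N : Subgroup G, N.Normal ∧ (N.index = 2 ∨ N.index = Nat.card (S : Subgroup G)) ∧ (∃ H : Subgroup ↥N, Cfsg.IsFrobeniusComplement H)) ∨
    (S : Subgroup G) ≤ MulAction.stabilizer G α := by
  classical
  haveI : Fact (Nat.Prime 2) := ⟨Nat.prime_two⟩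
  have hfixS : ∀ g : S, g ≠ 1 → Nat.card (fixedBy Ω g) ≤ 2 := fun g hg =>
    hfix g (fun e => hg (Subtype.ext e))
  have hsub : ((S : Subgroup G) ⊓ stabilizer G α).subgroupOf S = stabilizer S α := by
    ext x; simp [mem_subgroupOf, Subgroup.smul_def]
  have hcard : Nat.card ((S : Subgroup G) ⊓ stabilizer G α : Subgroup G) = Nat.card (stabilizer S α) := by
    rw [← hsub, Nat.card_congr (subgroupOfEquivOfLe inf_le_left).toEquiv]
  have hidx : ((S : Subgroup G) ⊓ stabilizer G α).relIndex S = (stabilizer S α).index := by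
    rw [relIndex, hsub]
  by_cases h1 : stabilizer S α = ⊥
  · left; exact eq_bot_of_card_eq _ (by rw [hcard, h1, card_bot])
  by_cases h2 : stabilizer S α = ⊤
  · right; right; right
    intro x hx
    have : (⟨x, hx⟩ : S) ∈ stabilizer S α := h2 ▸ mem_top _
    exact this
  have hpow : ∀ β : Ω, (stabilizer S β).index = 1 ∨ (stabilizer S β).index = 2 ∨ 4 ∣ (stabilizer S β).index := by
    intro β
    obtain ⟨k, hk⟩ := S.isPGroup'.index (stabilizer S β)
    rcases k with _ | _ | k
    · left; simpa using hk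
    · right; left; simpa using hk
    · right; right; exact Dvd.intro (2 ^ k) (by rw [hk]; ring)
  right
  rcases hpow α with h | hi | h
  · exact absurd (index_eq_one.1 h) h2
  swap
  · obtain ⟨a, b⟩ := caseA S.isPGroup' hfixS α h1 h
    exact Or.inl ⟨b, Or.inl (hcard.trans a)⟩
  haveI hTn : (stabilizer S α).Normal := normal_of_index_eq_two hi
  obtain ⟨u, -, huT⟩ := SetLike.exists_of_lt (lt_top_iff_ne_top.2 h2)
  have hub : α ≠ u • α := fun h => huT h.symm
  have hfu : ∀ t ∈ stabilizer S α, t • u • α = u • α := by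
    intro t ht
    have : u⁻¹ * t * u ∈ stabilizer S α := hTn.conj_mem' t ht u
    rw [mem_stabilizer_iff, mul_smul, mul_smul, inv_smul_eq_iff] at this
    exact this
  have hT2 : 2 ≤ Nat.card (stabilizer S α) := (one_lt_card_iff_ne_bot _).2 h1
  have hS4 : 4 ≤ Nat.card S := by
    have := (stabilizer S α).index_mul_card
    rw [hi] at this; omega
  by_cases hreg : ∀ γ : Ω, γ ∉ orbit S α → stabilizer S γ = ⊥
  swap
  · left
    refine ⟨?_, Or.inr (hidx.trans hi)⟩
    push Not at hreg
    obtain ⟨γ, hγ, hγ1⟩ := hreg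
    have hdis : ∀ t : S, t ∈ stabilizer S α → t ∈ stabilizer S γ → t = 1 := by
      intro t h1 h2
      by_contra ht
      rcases three (hfixS t ht) h1 (hfu t h1) h2 hub with h | h
      · exact hγ (h ▸ mem_orbit_self _)
      · exact hγ (h ▸ mem_orbit _ _)
    rcases hpow γ with h | h | h
    · exact absurd (eq_bot_iff.2 fun t ht => hdis t ht (index_eq_one.1 h ▸ mem_top t)) h1
    · left
      refine ⟨2, ?_⟩
      have hsq : ∀ x : S, x ^ 2 = 1 := fun x => hdis _ (sq_mem_of_index_two hi x) (sq_mem_of_index_two h x)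
      refine H04.nonempty_mulEquiv_of_elemAb (p := 2) ⟨⟨fun x y => ?_⟩⟩ hsq ⟨⟨by decide⟩⟩ (by decide) ?_
      · have := H04.commutatorElement_mem_of_sq_mem ⊥ (fun x => hsq x) x y
        exact commutatorElement_eq_one_iff_mul_comm.1 this
      · have e : stabilizer S α ⊓ stabilizer S γ = ⊥ := eq_bot_iff.2 fun t ht => hdis t ht.1 ht.2
        have := index_inf_le (H := stabilizer S α) (K := stabilizer S γ)
        rw [e, index_bot, hi, h] at this
        rw [DihedralGroup.nat_card]; omega
    · exact (caseA S.isPGroup' hfixS γ hγ1 h).2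
  right; left
  refine ⟨hS4, ⟨α, ?_, fun γ hγ => ?_⟩, ?_⟩
  · rw [Nat.card_coe_set_eq, ← index_stabilizer, hi]
  · rw [Nat.card_coe_set_eq, ← index_stabilizer, hreg γ hγ, index_bot]
  have hmemT : ∀ x : S, x ∈ stabilizer S α ↔ ∃ γ : Ω, x • γ = γ := by
    intro x
    refine ⟨fun h => ⟨α, h⟩, fun ⟨γ, h⟩ => ?_⟩
    by_cases hγ : γ ∈ orbit S α
    · obtain ⟨s, rfl⟩ := hγ
      have : s⁻¹ * x * s ∈ stabilizer S α := by
        rw [mem_stabilizer_iff, mul_smul, mul_smul, inv_smul_eq_iff]; exact h
      have h5 := hTn.conj_mem _ this s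
      rwa [show s * (s⁻¹ * x * s) * s⁻¹ = x by group] at h5
    · have : x ∈ stabilizer S γ := h
      rw [hreg γ hγ, mem_bot] at this
      rw [this]; exact one_mem _
  have hfoc : (S : Subgroup G).focalSubgroupOf ≤ stabilizer S α := by
    rw [focalSubgroupOf_eq_closure, closure_le]
    rintro g ⟨x, hx, v, hg⟩
    have e : g = ⟨x, hx⟩ * (⟨x, hx⟩⁻¹ * g) := by group
    rw [SetLike.mem_coe, e, mul_mem_iff_of_index_two hi, ← inv_mem_iff (x := ⟨x, hx⟩⁻¹ * g), hmemT, hmemT]
    have e2 : (((⟨x, hx⟩⁻¹ * g : S)⁻¹ : S) : G) = v * x * v⁻¹ := by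
      show (x⁻¹ * (g : G))⁻¹ = _
      rw [hg, commutatorElement_def]; group
    constructor
    · rintro ⟨γ, h⟩
      refine ⟨v • γ, ?_⟩
      rw [Subgroup.smul_def, e2, mul_smul, mul_smul, inv_smul_smul]
      exact congrArg _ h
    · rintro ⟨γ, h⟩
      rw [Subgroup.smul_def, e2, mul_smul, mul_smul, ← eq_inv_smul_iff] at h
      exact ⟨_, h⟩
  let N : Subgroup G := ((stabilizer S α).map (QuotientGroup.mk' (S : Subgroup G).focalSubgroupOf)).comap
    (S : Subgroup G).transferFocal
  have hN2 : N.index = 2 := by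
    rw [index_comap_of_surjective _ (transferFocal_surjective S),
      index_map_eq _ (QuotientGroup.mk'_surjective _) (by rwa [QuotientGroup.ker_mk']), hi]
  have hTN : (S : Subgroup G) ⊓ stabilizer G α ≤ N := by
    rintro x ⟨hx, hxa⟩
    rw [mem_comap, (S : Subgroup G).transferFocal_eq_pow ⟨x, hx⟩]
    exact Subgroup.pow_mem _ (mem_map_of_mem (QuotientGroup.mk' (S : Subgroup G).focalSubgroupOf)
      (show (⟨x, hx⟩ : (S : Subgroup G)) ∈ stabilizer S α from hxa)) _
  haveI hNn : N.Normal := normal_of_index_eq_two hN2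
  set d := (stabilizer G α).relIndex N with hd
  have hdodd : ¬ 2 ∣ d := by
    intro h
    have e1 := relIndex_mul_index hTN
    have e2 := relIndex_mul_index (inf_le_left : (S : Subgroup G) ⊓ stabilizer G α ≤ S)
    rw [hidx, hi, ← e1, hN2, mul_comm] at e2
    have e3 := Nat.eq_of_mul_eq_mul_right two_pos e2
    have e4 : d ∣ ((S : Subgroup G) ⊓ stabilizer G α).relIndex N := relIndex_dvd_of_le_left _ inf_le_right
    exact S.not_dvd_index (e3 ▸ h.trans e4)
  have hΩ : (stabilizer G α).index = Nat.card Ω := index_stabilizer_of_transitive G α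
  have hΩ2 : 2 ∣ Nat.card Ω := by
    have := S.isPGroup'.card_modEq_card_fixedPoints Ω
    have e : fixedPoints S Ω = ∅ := by
      ext γ
      simp only [Set.mem_empty_iff_false, iff_false]
      exact fun h => huT ((hmemT u).2 ⟨γ, h u⟩)
    rw [e] at this
    simpa using (Nat.modEq_zero_iff_dvd.1 (by simpa using this))
  have e5 : N.relIndex (stabilizer G α) * Nat.card Ω = d * 2 := by
    rw [← hΩ, ← hN2, hd, ← inf_relIndex_right N, ← inf_relIndex_right (stabilizer G α),
      relIndex_mul_index inf_le_right, relIndex_mul_index inf_le_right, inf_comm]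
  have e6 : N.relIndex (stabilizer G α) = 1 := by
    have := relIndex_dvd_index_of_normal N (stabilizer G α)
    rw [hN2] at this
    refine ((Nat.dvd_prime Nat.prime_two).1 this).resolve_right fun h => hdodd ?_
    rw [h] at e5
    have : d = Nat.card Ω := by omega
    rwa [this]
  have hGN : stabilizer G α ≤ N := relIndex_eq_one.1 e6
  rw [e6, one_mul] at e5
  obtain ⟨t, ht, ht1⟩ := ((stabilizer S α).bot_or_exists_ne_one).resolve_left h1
  have htG : (t : G) ≠ 1 := fun e => ht1 (Subtype.ext e)
  refine ⟨N, hNn, Or.inl hN2, stabilizer N α, fun h => htG ?_, fun h => htG ?_, fun g hg => ?_⟩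
  · have : (⟨t, hGN ht⟩ : N) ∈ stabilizer N α := ht
    rw [h, mem_bot] at this
    exact congrArg Subtype.val this
  · refine eq_of_smul_eq_smul (α := Ω) fun γ => ?_
    obtain ⟨x, rfl⟩ := exists_smul_eq G α γ
    have : (⟨_, hNn.conj_mem' _ (hGN ht) x⟩ : N) ∈ stabilizer N α := h ▸ mem_top _
    rw [mem_stabilizer_iff, Subgroup.smul_def, mul_smul, mul_smul, inv_smul_eq_iff] at this
    rw [this, one_smul]
  by_contra hne
  obtain ⟨h, ⟨hh1, hh2⟩, hr⟩ := H01.exists_prime_orderOf_mem hne
  have hh3 : h • g • α = g • α := by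
    have := H01.mem_conj_smul_iff.1 hh2
    rw [mem_stabilizer_iff, mul_smul, mul_smul, inv_smul_eq_iff] at this
    exact this
  have hga : α ≠ g • α := fun e => hg e.symm
  have hh : (h : G) ≠ 1 := fun e => by
    rw [show h = 1 from Subtype.ext e, orderOf_one] at hr; exact Nat.not_prime_one hr
  have m1 := modr (X := Ω) hr rfl
  rw [card_two (g := h) (hfix h hh) hh1 hh3 hga, e5] at m1
  have m2 := modr (X := orbit N α) hr rfl
  rw [card_two (X := orbit N α) (g := h) (a := ⟨α, mem_orbit_self α⟩) (b := ⟨g • α, mem_orbit α g⟩)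
    (le_trans (Nat.card_le_card_of_injective (fun x => (⟨x.1.1, congrArg Subtype.val x.2⟩ : fixedBy Ω (h : G)))
      (fun a b e => Subtype.ext (Subtype.ext (congrArg (fun x : fixedBy Ω (h : G) => (x : Ω)) e)))) (hfix h hh))
    (Subtype.ext hh1) (Subtype.ext hh3) (fun e => hga (congrArg Subtype.val e)),
    Nat.card_coe_set_eq, ← index_stabilizer] at m2
  have e7 : (stabilizer N α).index = d := by
    rw [hd, relIndex]; congr 1
  rw [e7] at m2
  have m3 : 2 + 2 ≡ 2 + 0 [MOD orderOf h] := (m2.mul_right 2).symm.trans m1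
  have m4 := (Nat.modEq_zero_iff_dvd.1 (Nat.ModEq.add_left_cancel' 2 m3))
  rw [(Nat.prime_dvd_prime_iff_eq hr Nat.prime_two).1 m4] at m2
  exact hdodd ((m2.dvd_iff dvd_rfl).2 dvd_rfl)

end Cfsg.Agent.S3390
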