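import Mathlib
import Cfsg.Statements.S3391
import Cfsg.Agent.H12.Sz9

set_option autoImplicit false
open Cfsg

namespace Cfsg.Agent.S3391

open H12.Sz H12.CC Subgroup

theorem aux {F : Type*} [Field F] [Fintype F] {m : ℕ} [hS : SzF F m] {M : Subgroup (G F m)} (h0 : M ≠ ⊥) (h1 : M ≠ ⊤)
    (hsq : ∀ x l : G F m, x ≠ 1 → x ∈ M → l⁻¹ * x * l ∈ M → (l * l)⁻¹ * x * (l * l) ∈ M → l * l ∈ M) :
    (∃ g, M = cj g (B F m)) ∨ Nat.card M = Fintype.card F - 1 := by
  rcases (Nat.card M).even_or_odd with h | h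
  · left
    obtain ⟨⟨x, hx⟩, ho⟩ := exists_prime_orderOf_dvd_card' 2 h.two_dvd
    rw [orderOf_mk] at ho
    obtain ⟨g, hg⟩ := invol_conj (x := x) (by rintro rfl; simp at ho) (ho ▸ pow_orderOf_eq_one x)
    have hsq' : ∀ x l : G F m, x ≠ 1 → x ∈ cj g M → l⁻¹ * x * l ∈ cj g M → (l * l)⁻¹ * x * (l * l) ∈ cj g M →
        l * l ∈ cj g M := fun x l x1 a b c => by
      rw [mem_cj] at a b c ⊢
      have := hsq (g⁻¹ * x * g) (g⁻¹ * l * g) (by simpa [mul_assoc, inv_mul_eq_one, eq_comm (a := g)] using x1) a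
        (by simpa [mul_assoc] using b) (by simpa [mul_assoc] using c)
      simpa [mul_assoc] using this
    have hz : uu 0 1 ∈ cj g M := hg ▸ conj_mem_cj.2 hx
    have z1 : (uu 0 1 : G F m) ≠ 1 := by simp [uu_eq_one]
    have hZ : Z F m ≤ cj g M := by
      rintro _ ⟨b, rfl⟩
      obtain ⟨a, rfl⟩ := Finite.surjective_of_injective (f := fun x : F => x * th x) (fun _ _ => mul_th_inj) b
      have c1 : ∀ c d : F, (uu c d)⁻¹ * uu 0 1 * uu c d ∈ cj g M := fun c d => by
        rwa [mul_assoc, ← uu_comm_Z, inv_mul_cancel_left]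
      simpa only [uu_sq] using hsq' _ (uu a 0) z1 hz (c1 _ _) (by rw [uu_sq]; exact c1 _ _)
    have hB : ∀ l ∈ B F m, l * l ∈ cj g M := fun l hl => by
      have c1 : ∀ l ∈ B F m, l⁻¹ * uu 0 1 * l ∈ cj g M := fun l hl => hZ (by simpa using conj_Z (inv_mem hl) (uu_mem_Z 1))
      exact hsq' _ l z1 hz (c1 l hl) (c1 _ (mul_mem hl hl))
    have hH : ∀ a b k, uu a b * hh k * (uu a b)⁻¹ ∈ cj g M := fun a b k => by
      obtain ⟨s, hs⟩ := sq_surj (k : F)
      have s0 : s ≠ 0 := by rintro rfl; exact k.ne_zero (by simpa using hs.symm)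
      have := hB (uu a b * hh (Units.mk0 s s0) * (uu a b)⁻¹) (mul_mem (mul_mem (uu_mem_B _ _) (hh_mem_B _))
        (inv_mem (uu_mem_B _ _)))
      rwa [← sq, conj_pow, hh_pow, show Units.mk0 s s0 ^ 2 = k from Units.ext (by simpa using hs)] at this
    have hH' : ∀ k, hh k ∈ cj g M := fun k => by simpa using hH 0 0 k
    have hle : B F m ≤ cj g M := fun y hy => by
      rcases B_cases hy with ⟨a, b, rfl⟩ | ⟨a, b, k, -, rfl⟩
      · obtain ⟨k, hk⟩ := exists_hh_ne (F := F)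
        obtain ⟨c, d, e⟩ := uh_conj (m := m) a b (k := k) (by rintro rfl; simp at hk)
        simpa [← e] using mul_mem (hH c d k) (inv_mem (hH' k))
      · exact hH a b k
    refine ⟨g⁻¹, ?_⟩
    rw [← (isCoatom_B.le_iff_eq (fun e => h1 (by rw [← cj_inv_cj g M, e, cj_top]))).1 hle, cj_inv_cj]
  · right
    obtain ⟨A, hA, hle⟩ := odd_sub h0 h
    obtain ⟨⟨x, hx⟩, x1⟩ := ne_bot_iff_exists_ne_one.1 h0
    have x1' : x ≠ 1 := fun e => x1 (Subtype.ext e)
    have c1 : ∀ l ∈ A, l⁻¹ * x * l ∈ M := fun l hl => by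
      rwa [mul_assoc, hA.abCC.comm (hle hx) hl, inv_mul_cancel_left]
    obtain rfl : M = A := le_antisymm hle fun l hl => by
      have h2 := hsq x l x1' hx (c1 l hl) (c1 _ (mul_mem hl hl))
      obtain ⟨k, hk⟩ := hA.odd
      have h3 := pow_card_of_mem hl
      rw [hk, pow_succ, pow_mul, mul_eq_one_iff_inv_eq] at h3
      rw [← h3, sq]
      exact inv_mem (pow_mem h2 k)
    rcases hA with ⟨y, rfl⟩ | hA
    · rw [card_cj, card_H]
    exfalso
    have k2 : (uu 1 0 : G F m) ^ 2 ≠ 1 := by simp [uu_sq_eq_one]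
    obtain ⟨l, hl, hc⟩ := (Set.ncard_pos (Set.toFinite _)).1 ((hA.ncard_four (uu_pow_four 1 0) k2).symm ▸ Nat.card_pos)
    obtain ⟨c, rfl⟩ := isConj_iff.1 hc
    have c2 : ∀ l ∈ normalizer (M : Set (G F m)), l⁻¹ * x * l ∈ M := fun l hl => (mem_normalizer_iff''.1 hl x).1 hx
    have h2 := hsq x _ x1' hx (c2 _ hl) (c2 _ (mul_mem hl hl))
    rw [← sq, conj_pow] at h2
    have := hA.oddPart.eq_one h2 (by rw [conj_pow, uu_pow_two, uu_pow_four]; simp)
    exact k2 (by simpa using this)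

/-- Let q = 2^{2m+1} ≥ 8 and let G be isomorphic to the Suzuki group Sz(q). If G acts faithfully and transitively on a finite set Ω with fixity 2 (every non-identity element fixes at most two points, and some fixes exactly two), then either |Ω| = q² + 1 and the action is 2-transitive, or |Ω| = q²(q² + 1) and the point stabilizers have order q − 1. -/
theorem result {G : Type*} [Group G] [Finite G] (F : Type) [Field F] [Fintype F] (m : ℕ) (hm : 1 ≤ m) (hF : Fintype.card F = 2 ^ (2 * m + 1))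
    (e : G ≃* ↥(Cfsg.Lie.Sz F (2 ^ (m + 1)))) {Ω : Type*} [Fintype Ω] [MulAction G Ω] [FaithfulSMul G Ω] (htr : MulAction.IsPretransitive G Ω)
    (hfix : ∀ g : G, g ≠ 1 → Nat.card (MulAction.fixedBy Ω g) ≤ 2) (hex : ∃ g : G, g ≠ 1 ∧ Nat.card (MulAction.fixedBy Ω g) = 2) :
    (Fintype.card Ω = Fintype.card F ^ 2 + 1 ∧ MulAction.IsMultiplyPretransitive G Ω 2) ∨
    (Fintype.card Ω = Fintype.card F ^ 2 * (Fintype.card F ^ 2 + 1) ∧ ∀ α : Ω, Nat.card (MulAction.stabilizer G α) = Fintype.card F - 1) := by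
  haveI : SzF F m := ⟨hm, hF⟩
  let f : H12.Sz.G F m ≃* G := (lieEquiv (F := F)).trans e.symm
  obtain ⟨g₀, g1, hg₀⟩ := hex
  obtain ⟨⟨α, hα⟩⟩ := (Nat.card_pos_iff.1 (hg₀ ▸ two_pos)).1
  let M := (MulAction.stabilizer G α).comap f.toMonoidHom
  have mM : ∀ x, x ∈ M ↔ f x • α = α := fun _ => Iff.rfl
  have hc : Nat.card M = Nat.card (MulAction.stabilizer G α) :=
    Nat.card_congr (f.toEquiv.subtypeEquiv fun _ => Iff.rfl)
  have hi : Nat.card M * Fintype.card Ω = Nat.card (H12.Sz.G F m) := by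
    rw [hc, Nat.card_congr f.toEquiv, ← (MulAction.stabilizer G α).card_mul_index,
      MulAction.index_stabilizer_of_transitive, Nat.card_eq_fintype_card (α := Ω)]
  have h8 := card_ge (F := F)
  rcases aux (M := M) (fun h => g1 (by
      have : f.symm g₀ ∈ M := by rw [mM]; simpa using hα
      rw [h, mem_bot] at this
      simpa using this)) (fun h => g1 (FaithfulSMul.eq_of_smul_eq_smul (α := Ω) fun β => by
        obtain ⟨y, rfl⟩ := htr.exists_smul_eq α β
        have : ∀ z : G, z • α = α := fun z => by simpa using (mM (f.symm z)).1 (h ▸ mem_top _)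
        rw [this, this, this])) (fun x l x1 a b c => by
      rw [mM] at a b c ⊢
      simp only [map_mul, map_inv, mul_smul, inv_smul_eq_iff] at b c ⊢
      by_contra hne
      have hne2 : f l • α ≠ α := fun h => hne (by rw [h, h])
      have h3 := hfix (f x) (by simpa using x1)
      refine absurd h3 (not_le.2 ?_)
      change 2 < (MulAction.fixedBy Ω (f x)).ncard
      rw [Set.two_lt_ncard]
      exact ⟨α, a, _, b, f l • f l • α, by simpa [mul_smul] using c, hne2.symm, Ne.symm hne,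
        fun h => hne2 (smul_left_cancel _ h).symm⟩) with ⟨g, hg⟩ | h
  · left
    rw [hg, card_cj, ← (B F m).card_mul_index, index_B] at hi
    refine ⟨Nat.eq_of_mul_eq_mul_left Nat.card_pos hi, ?_⟩
    have hq : ∀ a b : H12.Sz.G F m, f a • α = f b • α ↔ a • g • (inf : Ov F m) = b • g • inf := fun a b => by
      rw [← inv_smul_eq_iff, ← mul_smul, ← map_inv, ← map_mul, ← mM, hg, mem_cj_B, mul_smul, inv_smul_eq_iff]
    have hs : ∀ β : Ω, ∃ a, β = f a • α := fun β => by
      obtain ⟨y, rfl⟩ := htr.exists_smul_eq α β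
      exact ⟨f.symm y, by simp⟩
    rw [MulAction.is_two_pretransitive_iff]
    intro a b c d h1 h2
    obtain ⟨a, rfl⟩ := hs a
    obtain ⟨b, rfl⟩ := hs b
    obtain ⟨c, rfl⟩ := hs c
    obtain ⟨d, rfl⟩ := hs d
    obtain ⟨y, y1, y2⟩ := exists_two ((hq _ _).not.1 h1)
    obtain ⟨z, z1, z2⟩ := exists_two ((hq _ _).not.1 h2)
    exact ⟨f (z * y⁻¹), by rw [← mul_smul, ← map_mul, hq]; simp [mul_smul, ← y1, z1],
      by rw [← mul_smul, ← map_mul, hq]; simp [mul_smul, ← y2, z2]⟩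
  · right
    rw [h, card_G, mul_comm] at hi
    refine ⟨Nat.eq_of_mul_eq_mul_right (by omega) hi, fun β => ?_⟩
    obtain ⟨y, rfl⟩ := htr.exists_smul_eq α β
    rw [MulAction.stabilizer_smul_eq_stabilizer_map_conj, card_cj, ← hc, h]

end Cfsg.Agent.S3391
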