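import Mathlib
import Cfsg.Statements.S3410
import Cfsg.Agent.H05.ONan4
import Cfsg.Agent.H22.FStar

set_option autoImplicit false
open Cfsg

namespace Cfsg.Agent.S3410

/-- Let a finite group G act faithfully and 2-transitively on a finite set X, and let N be an abelian normal subgroup of the stabilizer of a point x which is not semiregular on the remaining points (some non-identity element of N fixes a second point). Then the generalized Fitting subgroup of G is isomorphic to PSL_n(F) for some n ≥ 3 and some finite field F. -/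
theorem result {G X : Type*} [Group G] [Finite G] [Fintype X]
    [MulAction G X] [FaithfulSMul G X] (h2 : MulAction.IsMultiplyPretransitive G X 2) (x : X)
    (N : Subgroup G) (hNle : N ≤ MulAction.stabilizer G x)
    (hNnormal : ∀ g ∈ MulAction.stabilizer G x, ∀ n ∈ N, g * n * g⁻¹ ∈ N) (hNab : IsMulCommutative N)
    (hnsr : ∃ n ∈ N, n ≠ 1 ∧ ∃ y : X, y ≠ x ∧ n • y = y) :
    ∃ (F : Type) (_ : Field F) (_ : Fintype F) (n : ℕ), 3 ≤ n ∧
      Nonempty (↥(Cfsg.generalizedFittingSubgroup G) ≃* Matrix.ProjectiveSpecialLinearGroup (Fin n) F) := by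
  haveI : Nontrivial X := by
    obtain ⟨n, -, -, y, hy, -⟩ := hnsr
    exact ⟨y, x, hy⟩
  obtain ⟨p, M, h, -⟩ := H05.ON.of_normal (fun g hg => FaithfulSMul.eq_of_smul_eq_smul
    (α := X) (by simpa using hg)) (fun a b c d => MulAction.is_two_pretransitive_iff.1 h2) x N
    (fun n hn => hNle hn) (fun g hg => hNnormal g hg)
    (fun a ha b hb => congrArg Subtype.val (hNab.is_comm.comm (⟨a, ha⟩ : N) ⟨b, hb⟩)) hnsr
  obtain ⟨m, F, _, _, hm, -, L, hL, ⟨e⟩, hC⟩ := h.main
  refine ⟨F, inferInstance, inferInstance, m + 1, by omega, ⟨(MulEquiv.subgroupCongr ?_).trans e⟩⟩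
  haveI := H09.PSL_isSimpleGroup (ι := Fin (m + 1)) (F := F) (by simp; omega)
  haveI : IsSimpleGroup L := e.isSimpleGroup
  have hna : ¬ IsMulCommutative L := fun hc => by
    have : L ≤ Subgroup.centralizer (L : Set G) := fun a ha b hb =>
      congrArg Subtype.val (hc.is_comm.comm (⟨b, hb⟩ : L) ⟨a, ha⟩)
    rw [hC, le_bot_iff] at this
    exact (Subgroup.nontrivial_iff_ne_bot L).1 inferInstance this
  have hl : L ≤ layer G := H22.le_layer ⟨hL.isSubnormal, H22.qs_of_simple hna⟩
  refine le_antisymm (H22.fstar_le_of_centralizer_le hL.isSubnormal ?_ (by rw [hC]; exact bot_le))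
    (hl.trans H22.layer_le_fstar)
  refine (H22.fitting_le_centralizer_layer.trans (Subgroup.centralizer_le hl)).trans ?_
  rw [hC]; exact bot_le

end Cfsg.Agent.S3410
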