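import Mathlib
import Cfsg.Statements.S3413
import Cfsg.Agent.H19.RecM11

set_option autoImplicit false
open Cfsg

namespace Cfsg.Agent.S3413

/-- Let H be a finite group whose commuting graph (vertices the non-identity elements, two joined when they commute) is isomorphic to that of the Mathieu group M_11: there is a bijection between the non-identity elements of H and of M_11 under which two elements commute exactly when their images do. Then H ≅ M_11. -/
theorem result {H : Type*} [Group H] [Finite H]
    (f : {h : H // h ≠ 1} ≃ {g : ↥Cfsg.Spor.M11 // g ≠ 1})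
    (hf : ∀ x y : {h : H // h ≠ 1}, (x : H) * y = y * x ↔ ((f x) : ↥Cfsg.Spor.M11) * (f y) = (f y) * (f x)) :
    Nonempty (H ≃* ↥Cfsg.Spor.M11) := by
  have := Fact.mk (by norm_num : Nat.Prime 11)
  have h := (H19.card_eq_of_commGraph f).trans H14.card_M11
  obtain ⟨x, hx⟩ := exists_prime_orderOf_dvd_card' (G := H) 11 (by omega)
  have := H19.simple_7920 h (H19.sylow_of_selfC_7920 h hx (H19.selfC_of_commGraph f hf H19.selfC_M11 hx))
  exact H19.isoM11_of_simple h

end Cfsg.Agent.S3413
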