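import Mathlib
import Cfsg.Statements.S3488
import Cfsg.Agent.H17.Aff2

set_option autoImplicit false
open Cfsg

namespace Cfsg.Agent.S3488

open Matrix
open scoped MatrixGroups

/-- the affine matrix -/
def mat {F : Type*} [Field F] (v : Fin 2 → F) (g : Matrix (Fin 2) (Fin 2) F) : Matrix (Fin 3) (Fin 3) F :=
  !![g 0 0, g 0 1, v 0; g 1 0, g 1 1, v 1; 0, 0, 1]

theorem mat_det {F : Type*} [Field F] (v : Fin 2 → F) (g : Matrix (Fin 2) (Fin 2) F) : (mat v g).det = g.det := by
  simp [mat, det_fin_three, det_fin_two]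

theorem mat_mul {F : Type*} [Field F] (v w : Fin 2 → F) (g h : Matrix (Fin 2) (Fin 2) F) :
    mat (v + g *ᵥ w) (g * h) = mat v g * mat w h := by
  ext i j
  fin_cases i <;> fin_cases j <;> simp [mat, Matrix.mul_apply, Fin.sum_univ_succ, mulVec, dotProduct] <;> ring

/-- the affine embedding -/
def emb {F : Type*} [Field F] : H17.Aff2 F →* SL(3, F) :=
  MonoidHom.mk' (fun x => ⟨mat x.left.toAdd x.right.1, (mat_det _ _).trans x.right.2⟩) fun _ _ =>
    Subtype.ext (mat_mul _ _ _ _)

/-- Let F be the field with four elements. The affine group F² ⋊ SL(2,F), realised as the subgroup of SL(3,F) of matrices with last row (0, 0, 1), has exactly the same set of element orders as the alternating group of degree 6 (namely {1, 2, 3, 4, 5}); so the alternating group of degree 6 is not determined by its element orders. -/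
theorem result {F : Type*} [Field F] [Fintype F] (hF : Fintype.card F = 4) :
    Set.range (orderOf : Subgroup.closure {M : Matrix.SpecialLinearGroup (Fin 3) F |
        (M : Matrix (Fin 3) (Fin 3) F) 2 0 = 0 ∧ (M : Matrix (Fin 3) (Fin 3) F) 2 1 = 0 ∧ (M : Matrix (Fin 3) (Fin 3) F) 2 2 = 1} → ℕ) =
      Set.range (orderOf : alternatingGroup (Fin 6) → ℕ) := by
  have hi : Function.Injective (emb (F := F)) := (injective_iff_map_eq_one _).2 fun x hx => by
    have h : ∀ i j, (emb x).1 i j = (1 : Matrix (Fin 3) (Fin 3) F) i j := fun i j => by rw [hx]; rfl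
    refine SemidirectProduct.ext (funext fun i => ?_) (Subtype.ext (Matrix.ext fun i j => ?_))
    · fin_cases i
      exacts [h 0 2, h 1 2]
    · fin_cases i <;> fin_cases j
      exacts [h 0 0, h 0 1, h 1 0, h 1 1]
  have hr : Subgroup.closure {M : SL(3, F) | (M : Matrix (Fin 3) (Fin 3) F) 2 0 = 0 ∧
      (M : Matrix (Fin 3) (Fin 3) F) 2 1 = 0 ∧ (M : Matrix (Fin 3) (Fin 3) F) 2 2 = 1} = emb.range := by
    refine le_antisymm ((Subgroup.closure_le _).2 fun M ⟨h0, h1, h2⟩ => ?_) ?_
    · have := M.det_coe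
      rw [det_fin_three, h0, h1, h2] at this
      refine ⟨⟨Multiplicative.ofAdd ![M.1 0 2, M.1 1 2], ⟨!![M.1 0 0, M.1 0 1; M.1 1 0, M.1 1 1], by
        rw [det_fin_two_of]; linear_combination this⟩⟩, Subtype.ext (Matrix.ext fun i j => ?_)⟩
      fin_cases i <;> fin_cases j
      exacts [rfl, rfl, rfl, rfl, rfl, rfl, h0.symm, h1.symm, h2.symm]
    · rintro _ ⟨x, rfl⟩
      exact Subgroup.subset_closure ⟨rfl, rfl, rfl⟩
  rw [hr, ← H17.spec_aff4 hF]
  exact (H27.range_orderOf_equiv (MonoidHom.ofInjective hi)).symm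

end Cfsg.Agent.S3488
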