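import Mathlib
import Cfsg.Statements.S3493
import Cfsg.Agent.BG.Api4
import Cfsg.Agent.H22.FStar
import Cfsg.Agent.H22.Layer
import Cfsg.Agent.S0205

set_option autoImplicit false
open Cfsg

namespace Cfsg.Agent.S3493

open BG MulAction
open scoped Pointwise

theorem exists_inverted {T : Type*} [Group T] [Finite T] [IsSimpleGroup T]
    (hna : ¬ IsMulCommutative T) : ∃ r a : T, a * r * a⁻¹ = r⁻¹ ∧ r ≠ r⁻¹ := by
  have hev : 2 ∣ Nat.card T := by
    by_contra h
    have := Cfsg.Agent.S0205.result (G := T) (Nat.odd_iff.2 (Nat.two_dvd_ne_zero.1 h))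
    exact H22.qs_not_solvable (H22.qs_of_simple hna) this
  haveI : Fact (Nat.Prime 2) := ⟨Nat.prime_two⟩
  obtain ⟨a, ha⟩ := exists_prime_orderOf_dvd_card' 2 hev
  have ha2 : a * a = 1 := by rw [← pow_two, ← ha, pow_orderOf_eq_one]
  have hai : a⁻¹ = a := inv_eq_of_mul_eq_one_right ha2
  have ha1 : a ≠ 1 := fun h => by rw [h, orderOf_one] at ha; omega
  by_contra hcon
  push Not at hcon
  have h1 : Subgroup.normalClosure {a} ≤ C_[a] := by
    rw [Subgroup.normalClosure, Subgroup.closure_le]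
    intro b hb
    obtain ⟨x, hx, hc⟩ := Group.mem_conjugatesOfSet_iff.1 hb
    rw [Set.mem_singleton_iff.1 hx] at hc
    obtain ⟨c, rfl⟩ := isConj_iff.1 hc
    have h2 : (a * (c * a * c⁻¹))⁻¹ = c * a * c⁻¹ * a := by
      rw [mul_inv_rev, mul_inv_rev, mul_inv_rev, hai]; group
    have h3 := hcon (a * (c * a * c⁻¹)) a (by
      rw [h2, hai, ← mul_assoc, ha2, one_mul])
    rw [h2] at h3
    exact mem_cent1.2 h3.symm
  rcases (inferInstance : (Subgroup.normalClosure {a}).Normal).eq_bot_or_eq_top with h | h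
  · exact ha1 (Subgroup.mem_bot.1 (h ▸ Subgroup.subset_normalClosure (Set.mem_singleton a)))
  · rw [h] at h1
    rcases (inferInstance : (Subgroup.center T).Normal).eq_bot_or_eq_top with h' | h'
    · exact ha1 (Subgroup.mem_bot.1 (h' ▸ Subgroup.mem_center_iff.2 fun g => mem_cent1.1 (h1 trivial)))
    · exact hna ⟨⟨fun x y => Subgroup.mem_center_iff.1 (h' ▸ Subgroup.mem_top y) x⟩⟩

variable {G : Type*} [Group G] [Finite G] {Ω : Type*} [MulAction G Ω] [FaithfulSMul G Ω]

theorem reg {L S : Subgroup G} {α : Ω} (hS : ∀ β, ∃ s ∈ S, s • α = β) (hc : L ≤ C_(S)) {l : G}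
    (hl : l ∈ L) (h : l • α = α) : l = 1 := by
  refine eq_of_smul_eq_smul (α := Ω) fun β => ?_
  obtain ⟨s, hs, rfl⟩ := hS β
  rw [one_smul, ← mul_smul, ← mem_cent.1 (hc hl) s hs, mul_smul, h]

/-- the diagonal configuration cannot be extremely primitive -/
theorem diag {L S : Subgroup G} {α : Ω} [IsSimpleGroup L] (hna : ¬ IsMulCommutative L)
    (hS : ∀ β, ∃ s ∈ S, s • α = β) (hc : L ≤ C_(S))
    (hH : ∀ h ∈ stabilizer G α, cj h L = L ∨ cj h L ≤ C_(L))
    (hmax : ∀ (β : Ω) (Y : Subgroup G), stabilizer G α ⊓ stabilizer G β ≤ Y → Y ≤ stabilizer G α →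
      Y = stabilizer G α ⊓ stabilizer G β ∨ Y = stabilizer G α) : False := by
  have inj : ∀ x ∈ L, ∀ y ∈ L, x • α = y • α → x = y := fun x hx y hy h => by
    have := reg hS hc (mul_mem (inv_mem hy) hx) (by rw [mul_smul, h, inv_smul_smul])
    exact (inv_mul_eq_one.1 this).symm
  have inv : ∀ h ∈ stabilizer G α, ∀ x ∈ L, ∀ y ∈ L, h • x • α = y • α →
      h • x⁻¹ • α = y⁻¹ • α := fun h hh x hx y hy e => by
    have e0 : ∀ z : G, h • z • α = (h * z * h⁻¹) • α := fun z => by
      rw [mul_smul, mul_smul, mem_stabilizer_iff.1 (inv_mem hh)]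
    rw [e0] at e ⊢
    rw [show h * x⁻¹ * h⁻¹ = (h * x * h⁻¹)⁻¹ by group]
    rcases hH h hh with h1 | h1
    · rw [inj _ (h1 ▸ conj_mem_cj h hx) _ hy e]
    · have h2 := mem_cent.1 (h1 (conj_mem_cj h hx)) y hy
      rw [inv_smul_eq_iff, ← mul_smul, show h * x * h⁻¹ * y⁻¹ = y⁻¹ * (h * x * h⁻¹) by
        rw [eq_inv_mul_iff_mul_eq, ← mul_assoc, h2]; group, mul_smul, e, inv_smul_smul]
  have dd : ∀ c ∈ L, ∃ d ∈ stabilizer G α, ∀ x ∈ L, d • x • α = (c * x * c⁻¹) • α := fun c hc' => by
    obtain ⟨s, hs, e⟩ := hS (c⁻¹ • α)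
    refine ⟨c * s, by rw [mem_stabilizer_iff, mul_smul, e, smul_inv_smul], fun x hx => ?_⟩
    rw [mul_smul, ← mul_smul s, mem_cent.1 (hc hx) s hs, mul_smul, e, mul_smul, mul_smul]
  obtain ⟨r, a, h1, h2⟩ := exists_inverted hna
  have h1' : (a : G) * (r : G) * (a : G)⁻¹ = (r : G)⁻¹ := congrArg Subtype.val h1
  let Y : Subgroup G := stabilizer G α ⊓ stabilizer G ({(r : G) • α, (r : G)⁻¹ • α} : Set Ω)
  have hY : ∀ h ∈ stabilizer G α, h • (r : G) • α = (r : G) • α ∨ h • (r : G) • α = (r : G)⁻¹ • α →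
      h ∈ Y := fun h hh e => by
    refine ⟨hh, ?_⟩
    change h • ({(r : G) • α, (r : G)⁻¹ • α} : Set Ω) = _
    rw [Set.smul_set_insert, Set.smul_set_singleton]
    rcases e with e | e
    · rw [e, inv h hh _ r.2 _ r.2 e]
    · rw [e, inv h hh _ r.2 _ (inv_mem r.2) e, inv_inv, Set.pair_comm]
  rcases hmax ((r : G) • α) Y (fun h hh => hY h hh.1 (Or.inl hh.2)) inf_le_left with h | h
  · obtain ⟨d, hd, e⟩ := dd a a.2
    have h3 : d ∈ Y := hY d hd (Or.inr (by rw [e _ r.2, h1']))
    rw [h] at h3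
    have h4 : d • (r : G) • α = (r : G) • α := h3.2
    rw [e _ r.2, h1'] at h4
    exact h2 (Subtype.ext (inj _ (inv_mem r.2) _ r.2 h4).symm)
  · have h3 : (Subgroup.zpowers r).Normal := by
      refine Subgroup.normalizer_eq_top_iff.1 (top_le_iff.1 fun c _ => mem_norm_of_cj_le ?_)
      rw [cj_zpowers, Subgroup.zpowers_le]
      obtain ⟨d, hd, e⟩ := dd c c.2
      have h4 : d • ({(r : G) • α, (r : G)⁻¹ • α} : Set Ω) = _ := (h.ge hd).2
      have h5 : d • (r : G) • α ∈ ({(r : G) • α, (r : G)⁻¹ • α} : Set Ω) :=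
        h4 ▸ Set.smul_mem_smul_set (Set.mem_insert _ _)
      rw [e _ r.2] at h5
      rcases h5 with h5 | h5
      · have : c * r * c⁻¹ = r := Subtype.ext (inj _ (c * r * c⁻¹).2 _ r.2 h5)
        rw [this]; exact Subgroup.mem_zpowers r
      · have : c * r * c⁻¹ = r⁻¹ := Subtype.ext (inj _ (c * r * c⁻¹).2 _ (inv_mem r.2) h5)
        rw [this]; exact inv_mem (Subgroup.mem_zpowers r)
    rcases h3.eq_bot_or_eq_top with h4 | h4
    · rw [Subgroup.zpowers_eq_bot] at h4
      exact h2 (by rw [h4, inv_one])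
    · exact hna ⟨⟨fun x y => mul_comm_of_abelian (abelian_of_cyclic (cyclic_zpowers r))
        (h4 ▸ Subgroup.mem_top x) (h4 ▸ Subgroup.mem_top y)⟩⟩

/-- An extremely primitive permutation group is of affine type or almost simple. Let a finite group G act faithfully and primitively on a finite set Ω with at least two points, in such a way that every point stabilizer acts primitively on each of its own orbits in Ω (an orbit of size one counts as primitive). Then either G has a non-trivial abelian normal subgroup whose elements other than the identity fix no point (affine type), or G has a non-abelian simple normal subgroup with trivial centralizer (almost simple). -/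
theorem result {G : Type*} [Group G] [Finite G] {Ω : Type*} [Fintype Ω] [MulAction G Ω] [FaithfulSMul G Ω] (hΩ : 2 ≤ Fintype.card Ω) (hprim : MulAction.IsPreprimitive G Ω) (hep : ∀ (α : Ω) (ω : Ω), MulAction.IsPreprimitive (MulAction.stabilizer G α) (MulAction.orbit (MulAction.stabilizer G α) ω)) :
    (∃ N : Subgroup G, N.Normal ∧ N ≠ ⊥ ∧ IsMulCommutative N ∧ ∀ ω : Ω, MulAction.stabilizer N ω = ⊥) ∨ (∃ T : Subgroup G, T.Normal ∧ IsSimpleGroup T ∧ ¬ IsMulCommutative T ∧ Subgroup.centralizer (T : Set G) = ⊥) := by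
  haveI : Nontrivial Ω := Fintype.one_lt_card_iff_nontrivial.1 hΩ
  obtain ⟨α⟩ : Nonempty Ω := inferInstance
  have tr : ∀ N : Subgroup G, N.Normal → N ≠ ⊥ → ∀ β γ : Ω, ∃ n ∈ N, n • β = γ := by
    intro N hN h0 β γ
    have := IsQuasiPreprimitive.isPretransitive_of_normal (G := G) (X := Ω) (N := N) (fun h => h0 (by
      rw [eq_bot_iff]; intro n hn
      refine Subgroup.mem_bot.2 (eq_of_smul_eq_smul (α := Ω) fun β => ?_)
      have : β ∈ fixedPoints N Ω := h ▸ Set.mem_univ β
      rw [one_smul]; exact this ⟨n, hn⟩))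
    obtain ⟨n, hn⟩ := this.exists_smul_eq β γ
    exact ⟨n, n.2, hn⟩
  have nrm : ∀ K : Subgroup G, ⊤ ≤ N_(K) → K.Normal := fun K h =>
    Subgroup.normalizer_eq_top_iff.1 (top_le_iff.1 h)
  have hn : ∀ (K : Subgroup G) [K.Normal] (H : Subgroup G), H ≤ N_(K) := fun K _ H => by
    rw [Subgroup.normalizer_eq_top]; exact le_top
  by_cases hF : fittingOf (⊤ : Subgroup G) = ⊥
  swap
  · left
    set F := fittingOf (⊤ : Subgroup G)
    have h1 : (F ⊓ C_(F)).Normal := nrm _ (norm_inf (le_norm_fit _) (norm_cent (le_norm_fit _)))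
    have h2 := nil_center_ne_bot (fit_nil ⊤) hF
    refine ⟨F ⊓ C_(F), h1, h2, abelian_center F, fun ω => ?_⟩
    rw [eq_bot_iff]; intro x hx
    exact Subgroup.mem_bot.2 (Subtype.ext (reg (fun β => tr _ h1 h2 ω β)
      (abelian_iff.1 (abelian_center F)) x.2 hx))
  right
  have hF' : fittingSubgroup G = ⊥ := by
    rw [eq_bot_iff, ← hF]
    exact le_fit (H02.fitting_isNilpotent G) le_top (by
      haveI := H02.fitting_normal (G := G)
      exact hn _ _)
  have hG : Nontrivial G := by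
    obtain ⟨β, hβ⟩ := exists_ne α
    obtain ⟨g, hg⟩ := exists_smul_eq G α β
    exact ⟨g, 1, fun h => hβ (by rw [← hg, h, one_smul])⟩
  obtain ⟨L, hL⟩ : ∃ L : Subgroup G, IsComponent L := by
    by_contra h
    push Not at h
    have := H22.fstar_eq_bot_iff (G := G).1 (by
      rw [H22.fstar_def, H22.layer_eq_bot_iff.2 h, hF', bot_sup_eq])
    exact not_subsingleton G this
  have hZ : ∀ {L : Subgroup G}, IsComponent L → L ⊓ C_(L) = ⊥ := fun hL => by
    rw [eq_bot_iff, ← hF']
    exact le_trans (le_inf (inf_le_left.trans (H22.le_layer hL))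
      (H22.center_comp_le_centralizer_layer hL)) H22.layer_inf_centralizer_le_fitting
  have hna : ¬ IsMulCommutative L := H22.qs_not_comm hL.2
  haveI hsimp : IsSimpleGroup L := by
    haveI := H22.qs_nontrivial hL.2
    refine ⟨fun K hK => ?_⟩
    rcases H22.qs_normal hL.2 K with h | h
    · exact Or.inr h
    · left
      rw [H22.le_center_iff_map] at h
      have := (le_inf (Subgroup.map_subtype_le K) h).trans (hZ hL).le
      exact (Subgroup.map_eq_bot_iff_of_injective _ L.subtype_injective).1 (le_bot_iff.1 this)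
  have hcj : ∀ g : G, IsComponent (cj g L) := fun g => by
    rw [cj_eq_map]; exact H22.comp_conj hL g
  have hH : ∀ h : G, cj h L = L ∨ cj h L ≤ C_(L) := fun h => by
    by_cases e : cj h L = L
    · exact Or.inl e
    · exact Or.inr (comm_eq_bot.1 (H22.comp_comm_of_ne (hcj h) hL e))
  have hco : IsCoatom (stabilizer G α) := IsPreprimitive.isCoatom_stabilizer_of_isPreprimitive G α
  have hmax : ∀ (β : Ω) (Y : Subgroup G), stabilizer G α ⊓ stabilizer G β ≤ Y →
      Y ≤ stabilizer G α → Y = stabilizer G α ⊓ stabilizer G β ∨ Y = stabilizer G α := by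
    intro β Y h1 h2
    rcases subsingleton_or_nontrivial (orbit (stabilizer G α) β) with hs | hs
    · right
      refine le_antisymm h2 (le_trans (le_inf le_rfl fun h hh => ?_) h1)
      exact congrArg Subtype.val (Subsingleton.elim (α := orbit (stabilizer G α) β)
        ⟨_, mem_orbit β (⟨h, hh⟩ : stabilizer G α)⟩ ⟨β, mem_orbit_self β⟩)
    · haveI := hep α β
      have hc := IsPreprimitive.isCoatom_stabilizer_of_isPreprimitive (stabilizer G α)
        (⟨β, mem_orbit_self β⟩ : orbit (stabilizer G α) β)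
      have h3 : stabilizer (stabilizer G α) (⟨β, mem_orbit_self β⟩ : orbit (stabilizer G α) β) ≤
          Y.subgroupOf (stabilizer G α) := fun h hh => h1 ⟨h.2, congrArg Subtype.val hh⟩
      rcases h3.eq_or_lt with h4 | h4
      · left
        refine le_antisymm (fun y hy => ⟨h2 hy, ?_⟩) h1
        have : (⟨y, h2 hy⟩ : stabilizer G α) ∈ Y.subgroupOf (stabilizer G α) := hy
        rw [← h4] at this
        exact congrArg Subtype.val this
      · right
        exact le_antisymm h2 (Subgroup.subgroupOf_eq_top.1 (hc.2 _ h4))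
  by_cases hLn : L.Normal
  · refine ⟨L, hLn, hsimp, hna, ?_⟩
    by_contra hC
    exact diag (S := C_(L)) hna (fun β => tr _ inferInstance hC α β) (cent_symm le_rfl)
      (fun h _ => hH h) hmax
  exfalso
  set N := Subgroup.normalClosure (L : Set G) with hN
  have hLN : L ≤ N := Subgroup.le_normalClosure
  have hN0 : N ≠ ⊥ := ne_bot_mono (H22.comp_ne_bot hL) hLN
  have hNL : ∀ g, N ≤ N_(cj g L) := fun g => by
    haveI := H22.layer_normal (G := G)
    exact (Subgroup.normalClosure_le_normal (H22.le_layer hL)).trans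
      (H22.layer_le_normalizer (hcj g))
  have hNL1 : N ≤ N_(L) := by simpa [cj_one] using hNL 1
  have dec : ∀ g : G, ∃ h ∈ stabilizer G α, ∃ n ∈ N, g = h * n := fun g => by
    obtain ⟨n, hn', e⟩ := tr N inferInstance hN0 α (g⁻¹ • α)
    exact ⟨g * n, by rw [mem_stabilizer_iff, mul_smul, e, smul_inv_smul], n⁻¹, inv_mem hn', by group⟩
  have hHL : ¬ stabilizer G α ≤ N_(L) := fun h => hLn (nrm _ fun g _ => by
    obtain ⟨h', hh, n, hn', rfl⟩ := dec g
    exact mul_mem (h hh) (hNL1 hn'))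
  have hNle : ∀ Y : Subgroup G, (∀ h ∈ stabilizer G α, cj h L ≤ Y) → N ≤ Y := fun Y hY => by
    rw [hN, Subgroup.normalClosure, Subgroup.closure_le]
    intro b hb
    obtain ⟨x, hx, hc⟩ := Group.mem_conjugatesOfSet_iff.1 hb
    obtain ⟨c, rfl⟩ := isConj_iff.1 hc
    obtain ⟨h, hh, n, hn', rfl⟩ := dec c
    refine hY h hh ?_
    rw [← cj_mul_of_mem_norm (hNL1 hn')]
    exact conj_mem_cj _ hx
  by_cases hNH : N ⊓ stabilizer G α = ⊥
  · -- regular case
    have h1 : stabilizer G α ⊓ N_(L) ≤ C_(L) := by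
      intro h hh
      refine mem_cent.2 fun t ht => ?_
      by_cases t1 : t = 1
      · rw [t1, one_mul, mul_one]
      have fix : ∀ k ∈ stabilizer G α, k • t • α = t • α → k * t * k⁻¹ = t := fun k hk e => by
        have h2 : t⁻¹ * (k * t * k⁻¹) ∈ N ⊓ stabilizer G α :=
          ⟨N.mul_mem (N.inv_mem (hLN ht)) (conj_mem_of_norm (hn N ⊤ trivial) (hLN ht)), by
            change _ • α = α
            rw [mul_smul, mul_smul, mul_smul, mem_stabilizer_iff.1 (inv_mem hk), e, inv_smul_smul]⟩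
        rw [hNH, Subgroup.mem_bot] at h2
        exact (inv_mul_eq_one.1 h2).symm
      rcases hmax (t • α) (stabilizer G α ⊓ N_(L)) (fun k hk => ⟨hk.1, by
        rcases hH k with e | e
        · exact cj_eq_self_iff.1 e
        · exfalso
          have h2 : t ∈ L ⊓ C_(L) := ⟨ht, e (fix k hk.1 hk.2 ▸ conj_mem_cj k ht)⟩
          rw [hZ hL] at h2
          exact t1 h2⟩) inf_le_left with e | e
      · have := fix h hh.1 (e.le hh).2
        exact (mul_inv_eq_iff_eq_mul.1 this).symm
      · exact hHL (e.ge.trans inf_le_right) |>.elim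
    obtain ⟨t, ht, t1⟩ := exists_mem_ne_one (H22.comp_ne_bot hL)
    set R := Subgroup.zpowers t
    have hRL : R ≤ L := Subgroup.zpowers_le.2 ht
    let X : Subgroup G := ⨆ h : stabilizer G α, cj h R
    have hRX : R ≤ X := le_iSup_of_le (f := fun h : stabilizer G α => cj (h : G) R) 1 (by
      simp [cj_one])
    have hXN : X ≤ N := iSup_le fun h => cj_le_of_mem_norm (hRL.trans hLN) (hn N ⊤ trivial)
    have hXn : stabilizer G α ≤ N_(X) := le_norm_of_cj_le fun k hk => by
      rw [cj_le_iff]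
      refine iSup_le fun h => ?_
      rw [← cj_le_iff, cj_cj]
      exact le_iSup (fun h : stabilizer G α => cj (h : G) R) (⟨k, hk⟩ * h)
    have hX : X ⊔ stabilizer G α = ⊤ := hco.2 _ (lt_of_le_of_ne le_sup_right fun e => by
      have : t ∈ N ⊓ stabilizer G α := ⟨hLN ht, e.ge (Subgroup.mem_sup_left
        (hRX (Subgroup.mem_zpowers t)))⟩
      rw [hNH] at this
      exact t1 this)
    have h2 := dedekind hXN (H := stabilizer G α) (Or.inl hXn)
    rw [hX, inf_top_eq, hNH, sup_bot_eq] at h2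
    have h3 : X ≤ R ⊔ C_(L) := iSup_le fun h => by
      rcases hH h with e | e
      · rw [cj_of_mem_cent (cent_anti hRL (h1 ⟨h.2, cj_eq_self_iff.1 e⟩))]
        exact le_sup_left
      · exact ((cj_mono _ hRL).trans e).trans le_sup_right
    have h4 := dedekind hRL (H := C_(L)) (Or.inl (le_norm_of_cent (cent_anti hRL)))
    rw [hZ hL, sup_bot_eq, inf_eq_left.2 (hLN.trans (h2.le.trans h3))] at h4
    exact hna (h4 ▸ abelian_of_cyclic (cyclic_zpowers t))
  · -- `N_α ≠ 1`
    have hM : stabilizer G α ≤ N_(N ⊓ stabilizer G α) := norm_inf (hn N _) (le_norm _)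
    have hNM : N_(N ⊓ stabilizer G α) = stabilizer G α := by
      by_contra e
      have h1 := nrm _ (hco.2 _ (lt_of_le_of_ne hM (Ne.symm e))).ge
      obtain ⟨β, hβ⟩ := exists_ne α
      obtain ⟨n, hn', e⟩ := tr _ h1 hNH α β
      exact hβ (e.symm.trans hn'.2)
    have h1 : ∀ h ∈ stabilizer G α, ∀ x ∈ cj h L, ∃ l ∈ L, l • α = x • α := by
      intro h hh x hx
      obtain ⟨t, ht, rfl⟩ := mem_cj'.1 hx
      have e0 : (h * t * h⁻¹) • α = h • t • α := by
        rw [mul_smul, mul_smul, mem_stabilizer_iff.1 (inv_mem hh)]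
      rw [e0]
      rcases hmax (t • α) ((N ⊓ stabilizer G α) ⊔ (stabilizer G α ⊓ stabilizer G (t • α)))
        le_sup_right (sup_le inf_le_right inf_le_left) with e | e
      · have h2 : t⁻¹ ∈ N_(N ⊓ stabilizer G α) := mem_norm_of_cj_le fun y hy => by
          obtain ⟨z, hz, rfl⟩ := mem_cj'.1 hy
          refine ⟨conj_mem_of_norm (hn N ⊤ trivial) hz.1, ?_⟩
          change _ • α = α
          have : z • t • α = t • α := (e.le (Subgroup.mem_sup_left hz)).2
          rw [inv_inv, mul_smul, mul_smul, this, inv_smul_smul]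
        rw [hNM] at h2
        refine ⟨1, one_mem _, ?_⟩
        rw [one_smul, mem_stabilizer_iff.1 (inv_mem_iff.1 h2), mem_stabilizer_iff.1 hh]
      · obtain ⟨n, hn', k, hk, rfl⟩ := (mem_sup_norm (inf_le_left.trans hM)).1 (e.ge hh)
        refine ⟨n * t * n⁻¹, conj_mem_of_norm (hNL1 hn'.1) ht, ?_⟩
        rw [mul_smul, mul_smul, mul_smul, mem_stabilizer_iff.1 (inv_mem hn'.2),
          mem_stabilizer_iff.1 hk.2]
    have h2 : ∀ β, ∃ l ∈ L, l • α = β := by
      let Y : Subgroup G :=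
        { carrier := {g | g ∈ N ∧ ∃ l ∈ L, l • α = g • α}
          one_mem' := ⟨one_mem _, 1, one_mem _, rfl⟩
          mul_mem' := by
            rintro a b ⟨ha, l, hl, e⟩ ⟨hb, m, hm, e'⟩
            refine ⟨mul_mem ha hb, a * m * a⁻¹ * l, mul_mem (conj_mem_of_norm (hNL1 ha) hm) hl, ?_⟩
            rw [mul_smul, e, mul_smul, inv_smul_smul, mul_smul, e', mul_smul]
          inv_mem' := by
            rintro a ⟨ha, l, hl, e⟩
            refine ⟨inv_mem ha, a⁻¹ * l⁻¹ * a, conj_mem_of_norm' (hNL1 ha) (inv_mem hl), ?_⟩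
            rw [mul_smul, ← e, mul_smul, inv_smul_smul] }
      have hY : N ≤ Y := hNle Y fun h hh x hx =>
        ⟨cj_le_of_mem_norm hLN (hn N ⊤ trivial) hx, h1 h hh x hx⟩
      intro β
      obtain ⟨n, hn', rfl⟩ := tr N inferInstance hN0 α β
      exact (hY hn').2
    obtain ⟨h, hh, hh'⟩ : ∃ h ∈ stabilizer G α, h ∉ N_(L) := by
      by_contra e; push Not at e; exact hHL e
    refine diag (S := cj h L) hna (fun β => ?_)
      (cent_symm ((hH h).resolve_left fun e => hh' (cj_eq_self_iff.1 e))) (fun h _ => hH h) hmax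
    obtain ⟨l, hl, e⟩ := h2 (h⁻¹ • β)
    refine ⟨_, conj_mem_cj h hl, ?_⟩
    rw [mul_smul, mul_smul, mem_stabilizer_iff.1 (inv_mem hh), e, smul_inv_smul]

end Cfsg.Agent.S3493
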