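import Mathlib
import Cfsg.Statements.S3495
import Cfsg.Agent.H18.Prim
import Cfsg.Agent.H18.Sharp2

set_option autoImplicit false
open Cfsg

namespace Cfsg.Agent.S3495

open MulAction

/-- Let a finite group G act faithfully and primitively on a finite set Ω with non-trivial point stabilizers, each acting primitively on every one of its orbits (an extremely primitive group), and suppose G has an elementary abelian normal p-subgroup N acting regularly on Ω (affine type). Then every non-trivial subgroup M of a point stabilizer G_α that is normal in G_α has the same orbits on Ω as G_α, and normalizes no subgroup of N other than 1 and N. -/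
theorem result {G : Type*} [Group G] [Finite G] {Ω : Type*} [Fintype Ω] [MulAction G Ω] [FaithfulSMul G Ω] (hprim : MulAction.IsPreprimitive G Ω) (hH : ∀ α : Ω, MulAction.stabilizer G α ≠ ⊥) (hep : ∀ (α : Ω) (ω : Ω), MulAction.IsPreprimitive (MulAction.stabilizer G α) (MulAction.orbit (MulAction.stabilizer G α) ω))
    (N : Subgroup G) [N.Normal] (hNc : IsMulCommutative N) (p : ℕ) (hp : p.Prime) (hNp : ∀ n ∈ N, n ^ p = 1)
    (hNtr : MulAction.IsPretransitive N Ω) (hNreg : ∀ ω : Ω, MulAction.stabilizer N ω = ⊥) (α : Ω) (M : Subgroup G) (hM : M ≠ ⊥) (hMle : M ≤ MulAction.stabilizer G α)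
    (hMn : MulAction.stabilizer G α ≤ Subgroup.normalizer (M : Set G)) :
    (∀ ω : Ω, MulAction.orbit M ω = MulAction.orbit (MulAction.stabilizer G α) ω) ∧
    (∀ L : Subgroup G, L ≤ N → M ≤ Subgroup.normalizer (L : Set G) → L = ⊥ ∨ L = N) := by
  classical
  have := hprim.toIsPretransitive
  obtain ⟨m₀, hm₀, ω₀, hω₀⟩ := H18.exists_move_of_ne_bot' (α := Ω) hM
  have : Nontrivial Ω := ⟨_, _, hω₀⟩
  have hco : IsCoatom (stabilizer G α) := IsPreprimitive.isCoatom_stabilizer_of_isPreprimitive G α
  have hnorm : Subgroup.normalizer (M : Set G) = stabilizer G α := by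
    by_contra hne
    have h1 := Subgroup.normalizer_eq_top_iff.1 (hco.2 _ (lt_of_le_of_ne hMn (Ne.symm hne)))
    obtain ⟨g, rfl⟩ := exists_smul_eq G α ω₀
    apply hω₀
    have h2 : (g⁻¹ * m₀ * g) • α = α := hMle (by simpa using h1.conj_mem m₀ hm₀ g⁻¹)
    rw [mul_smul, mul_smul, inv_smul_eq_iff] at h2
    exact h2
  have hfix : ∀ ω : Ω, (∀ m ∈ M, m • ω = ω) → ω = α := by
    intro ω hω
    obtain ⟨⟨n, hn⟩, rfl⟩ := exists_smul_eq N α ω
    have hc : ∀ m ∈ M, m * n * m⁻¹ = n := by
      intro m hm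
      apply H18.regular_unique (hNreg α) (Subgroup.Normal.conj_mem inferInstance n hn m) hn
      rw [mul_smul, mul_smul, show m⁻¹ • α = α from hMle (M.inv_mem hm)]
      exact hω m hm
    have : n ∈ Subgroup.normalizer (M : Set G) := by
      apply Subgroup.centralizer_le_normalizer
      rw [Subgroup.mem_centralizer_iff]
      intro m hm
      have := hc m hm
      rw [mul_inv_eq_iff_eq_mul] at this
      exact this
    rw [hnorm] at this
    exact this
  have horb : ∀ ω : Ω, orbit M ω = orbit (stabilizer G α) ω := by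
    intro ω
    apply subset_antisymm
    · rintro _ ⟨m, rfl⟩; exact ⟨⟨m, hMle m.2⟩, rfl⟩
    by_cases hω : ω = α
    · rintro _ ⟨g, rfl⟩
      refine ⟨1, ?_⟩
      subst hω
      simp only [one_smul]
      exact (g.2 : (g : G) • ω = ω).symm
    · have hex : ∃ m ∈ M, m • ω ≠ ω := by
        by_contra h; push Not at h; exact hω (hfix ω h)
      obtain ⟨m, hm, hmω⟩ := hex
      have : (M.subgroupOf (stabilizer G α)).Normal :=
        (Subgroup.normal_subgroupOf_iff_le_normalizer hMle).2 hMn
      have ht := H18.normal_trans_of_prim (hep α ω) (M.subgroupOf (stabilizer G α))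
        (n := ⟨m, hMle hm⟩) hm (a := ⟨ω, mem_orbit_self ω⟩) (fun e => hmω (congrArg Subtype.val e))
      intro x hx
      obtain ⟨k, hk⟩ := ht.exists_smul_eq ⟨ω, mem_orbit_self ω⟩ ⟨x, hx⟩
      exact ⟨⟨k.1.1, k.2⟩, congrArg Subtype.val hk⟩
  refine ⟨horb, fun L hL hML => ?_⟩
  by_cases hL1 : L = ⊥
  · exact Or.inl hL1
  right
  have h1 : ∀ g ∈ stabilizer G α, ∀ l ∈ L, g * l * g⁻¹ ∈ L := by
    intro g hg l hl
    have : g • l • α ∈ orbit M (l • α) := by rw [horb]; exact ⟨⟨g, hg⟩, rfl⟩
    obtain ⟨⟨m, hm⟩, hme⟩ := this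
    have e : g * l * g⁻¹ = m * l * m⁻¹ := by
      apply H18.regular_unique (hNreg α) (Subgroup.Normal.conj_mem inferInstance l (hL hl) g)
        (Subgroup.Normal.conj_mem inferInstance l (hL hl) m)
      rw [mul_smul, mul_smul, mul_smul, mul_smul, show m⁻¹ • α = α from hMle (M.inv_mem hm),
        show g⁻¹ • α = α from (stabilizer G α).inv_mem hg]
      exact hme.symm
    rw [e]
    exact (Subgroup.mem_normalizer_iff.1 (hML hm) l).1 hl
  have hLn : L.Normal := by
    refine ⟨fun l hl g => ?_⟩
    obtain ⟨⟨n, hn⟩, hnα⟩ := exists_smul_eq N α (g • α)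
    have hs : n⁻¹ * g ∈ stabilizer G α := by
      rw [mem_stabilizer_iff, mul_smul, inv_smul_eq_iff]; exact hnα.symm
    have h2 := h1 _ hs l hl
    have h3 := congrArg Subtype.val (hNc.is_comm.comm (⟨n, hn⟩ : N) ⟨_, hL h2⟩)
    simp only [Subgroup.coe_mul] at h3
    have e : g * l * g⁻¹ = n * (n⁻¹ * g * l * (n⁻¹ * g)⁻¹) * n⁻¹ := by group
    rw [e, h3, mul_inv_cancel_right]; exact h2
  have ht := H18.normal_trans_of_prim_faithful hprim L hL1
  refine H18.eq_of_trans_le_semiregular hL ht α (fun k hk hkα => ?_)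
  exact H18.regular_unique (hNreg α) hk N.one_mem (by rw [hkα, one_smul])

end Cfsg.Agent.S3495
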