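import Mathlib
import Cfsg.Statements.S3498
import Cfsg.Agent.S0042
import Cfsg.Agent.H02.Frobenius

set_option autoImplicit false
open Cfsg

namespace Cfsg.Agent.S3498

theorem aux {G : Type*} [Group G] (T : Subgroup G) [T.Normal] (hT : IsSimpleGroup T)
    (hC : Subgroup.centralizer (T : Set G) = ⊥) (K : Subgroup G) [K.Normal] (hK : K ≠ ⊥) : T ≤ K := by
  rcases hT.eq_bot_or_eq_top_of_normal (K.subgroupOf T) inferInstance with h | h
  · exfalso
    apply hK
    rw [eq_bot_iff, ← hC]
    intro k hk
    rw [Subgroup.mem_centralizer_iff]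
    intro t ht
    exact (Subgroup.commute_of_normal_of_disjoint T K inferInstance inferInstance
      (Subgroup.subgroupOf_eq_bot.1 h).symm t k ht hk).eq
  · exact Subgroup.subgroupOf_eq_top.1 h

/-- A maximal subgroup of a finite almost simple group does not have prime order. Here G is almost simple in the sense that it has a non-abelian simple normal subgroup T with trivial centralizer. -/
theorem result {G : Type*} [Group G] [Finite G] (T : Subgroup G) [T.Normal] (hT : IsSimpleGroup T) (hTc : ¬ IsMulCommutative T)
    (hC : Subgroup.centralizer (T : Set G) = ⊥) (H : Subgroup G) (hmax : IsCoatom H) : ¬ (Nat.card H).Prime := by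
  intro hp
  have := Fact.mk hp
  have hH1 : H ≠ ⊥ := by rintro rfl; simp at hp; exact Nat.not_prime_one hp
  have hns : ∀ K : Subgroup G, T ≤ K → ¬ Group.IsSolvable K := by
    intro K hK hs
    have : Group.IsSolvable T := solvable_of_solvable_injective (Subgroup.inclusion_injective hK)
    exact hTc ⟨⟨IsSimpleGroup.comm_iff_isSolvable.2 this⟩⟩
  by_cases hn : H.Normal
  · have : IsCyclic H := isCyclic_of_prime_card rfl
    exact hns H (aux T hT hC H hH1) (isSolvable_of_comm (fun a b => this.isMulCommutative.is_comm.comm a b))
  · have hF : Cfsg.IsFrobeniusComplement H := by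
      rw [H02.isFrob_iff]
      refine ⟨hH1, hmax.1, fun g h hh h1 hg => ?_⟩
      have hz : ∀ x ∈ H, x ≠ 1 → Subgroup.zpowers x = H := by
        intro x hx hx1
        apply Subgroup.eq_of_le_of_card_ge (by simpa using hx)
        rw [Nat.card_zpowers]
        have h2 : orderOf x ∣ Nat.card H := by
          have := orderOf_dvd_natCard (⟨x, hx⟩ : H)
          rwa [← Subgroup.orderOf_coe] at this
        rcases (Nat.dvd_prime hp).1 h2 with h3 | h3
        · exact absurd (orderOf_eq_one_iff.1 h3) hx1
        · exact h3.ge
      have hN : Subgroup.normalizer (H : Set G) = H := by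
        by_contra hne
        exact hn (Subgroup.normalizer_eq_top_iff.1 (hmax.2 _ (lt_of_le_of_ne Subgroup.le_normalizer (Ne.symm hne))))
      rw [← hN]
      apply Subgroup.mem_normalizer_fintype
      intro x hx
      rw [← hz h hh h1] at hx
      obtain ⟨k, rfl⟩ := hx
      have := H.zpow_mem hg k
      rwa [conj_zpow] at this
    obtain ⟨N, hN, hNn, hNil⟩ := Cfsg.Agent.S0042.result H hF
    exact hns N (aux T hT hC N (H02.IsFrob.ne_bot_of_coe_eq hF hN)) inferInstance

end Cfsg.Agent.S3498
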