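import Mathlib
import Cfsg.Statements.S3504

set_option autoImplicit false
open Cfsg

namespace Cfsg.Agent.S3504

open Equiv.Perm

theorem type_eq {n : ℕ} {g : Equiv.Perm (Fin n)} (hp : (orderOf g).Prime) (hg : ∀ i, g i ≠ i) :
    orderOf g ∣ n ∧ g.cycleType = Multiset.replicate (n / orderOf g) (orderOf g) := by
  obtain ⟨k, hk⟩ := cycleType_prime_order hp
  have h1 := sum_cycleType g
  have h2 : g.support = Finset.univ := Finset.eq_univ_of_forall (fun i => mem_support.2 (hg i))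
  rw [h2, hk, Multiset.sum_replicate, Finset.card_univ, Fintype.card_fin, smul_eq_mul] at h1
  refine ⟨Dvd.intro_left _ h1, ?_⟩
  have : n / orderOf g = k + 1 := Nat.div_eq_of_eq_mul_left hp.pos h1.symm
  rw [this]; exact hk

theorem exists_of_dvd {n p : ℕ} (hn : 0 < n) (hp : p.Prime) (h : p ∣ n) :
    ∃ g : Equiv.Perm (Fin n), orderOf g = p ∧ ∀ i, g i ≠ i := by
  obtain ⟨g, hg⟩ := (exists_with_cycleType_iff (Fin n) (m := Multiset.replicate (n / p) p)).2
    ⟨by simp [Nat.div_mul_cancel h], fun a ha => by rw [Multiset.eq_of_mem_replicate ha]; exact hp.two_le⟩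
  have hpos : 0 < n / p := Nat.div_pos (Nat.le_of_dvd hn h) hp.pos
  refine ⟨g, ?_, fun i => ?_⟩
  · rw [← lcm_cycleType, hg]
    apply Nat.dvd_antisymm
    · exact Multiset.lcm_dvd.2 (fun b hb => by rw [Multiset.eq_of_mem_replicate hb])
    · exact Multiset.dvd_lcm (Multiset.mem_replicate.2 ⟨hpos.ne', rfl⟩)
  · have h1 := sum_cycleType g
    rw [hg, Multiset.sum_replicate, smul_eq_mul, Nat.div_mul_cancel h] at h1
    have : g.support = Finset.univ := Finset.eq_univ_of_card _ (by simp [← h1])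
    exact mem_support.1 (this ▸ Finset.mem_univ i)

/-- For n ≥ 5, the fixed-point-free permutations of prime order in the symmetric group of degree n form a single conjugacy class if and only if n is a prime power. -/
theorem result (n : ℕ) (hn : 5 ≤ n) :
    Nat.card {c : ConjClasses (Equiv.Perm (Fin n)) // ∃ g : Equiv.Perm (Fin n), ConjClasses.mk g = c ∧ (orderOf g).Prime ∧ ∀ i : Fin n, g i ≠ i} = 1 ↔ IsPrimePow n := by
  rw [isPrimePow_iff_unique_prime_dvd, Nat.card_eq_one_iff_unique]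
  constructor
  · rintro ⟨hs, ⟨c, g, rfl, hp, hg⟩⟩
    refine ⟨orderOf g, ⟨hp, (type_eq hp hg).1⟩, fun q ⟨hq, hqn⟩ => ?_⟩
    obtain ⟨k, rfl, hk⟩ := exists_of_dvd (by omega) hq hqn
    have := congrArg Subtype.val (hs.elim ⟨_, k, rfl, hq, hk⟩ ⟨_, g, rfl, hp, hg⟩)
    have h2 := isConj_iff_cycleType_eq.1 (ConjClasses.mk_eq_mk_iff_isConj.1 this)
    rw [← lcm_cycleType, h2, lcm_cycleType]
  · rintro ⟨p, ⟨hp, hpn⟩, hu⟩
    obtain ⟨k, rfl, hk⟩ := exists_of_dvd (by omega) hp hpn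
    refine ⟨⟨?_⟩, ⟨_, k, rfl, hp, hk⟩⟩
    rintro ⟨_, a, rfl, ha, ha'⟩ ⟨_, b, rfl, hb, hb'⟩
    apply Subtype.ext
    apply ConjClasses.mk_eq_mk_iff_isConj.2
    rw [isConj_iff_cycleType_eq, (type_eq ha ha').2, (type_eq hb hb').2, hu _ ⟨ha, (type_eq ha ha').1⟩,
      hu _ ⟨hb, (type_eq hb hb').1⟩]

end Cfsg.Agent.S3504
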