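import Mathlib
import Cfsg.Statements.S3508
import Cfsg.Agent.H18.Prim
import Cfsg.Agent.H18.Sharp2

set_option autoImplicit false
open Cfsg

namespace Cfsg.Agent.S3508

open MulAction Polynomial

theorem geom_eq {p : ℕ} [Fact p.Prime] (j : ℕ) :
    ∑ i ∈ Finset.range (p ^ j), (X : (ZMod p)[X]) ^ i = (X - 1) ^ (p ^ j - 1) := by
  have hp : p.Prime := Fact.out
  have h0 : (X - 1 : (ZMod p)[X]) ≠ 0 := X_sub_C_ne_zero 1
  apply mul_right_cancel₀ h0
  rw [geom_sum_mul, ← pow_succ, Nat.sub_add_cancel (Nat.one_le_pow _ _ hp.pos), sub_pow_char_pow, one_pow]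

theorem lin {p : ℕ} [Fact p.Prime] {V : Type*} [AddCommGroup V] [Module (ZMod p) V] [Finite V]
    {m r j : ℕ} (hV : Nat.card V = p ^ m) (A : V →ₗ[ZMod p] V) (hA : A ^ p ^ r = 1) (hj : m < p ^ j) :
    A ^ p ^ j = 1 ∧ ∑ i ∈ Finset.range (p ^ j), A ^ i = 0 := by
  have hp : p.Prime := Fact.out
  have hf : Module.finrank (ZMod p) V = m := by
    rw [Module.natCard_eq_pow_finrank (K := ZMod p), Nat.card_zmod] at hV
    exact Nat.pow_right_injective hp.two_le hV
  have e1 : ∀ k, (A - 1) ^ p ^ k = A ^ p ^ k - 1 := by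
    intro k
    have := congrArg (aeval A) (sub_pow_char_pow (X : (ZMod p)[X]) 1 (p := p) (n := k))
    simpa using this
  have hn : IsNilpotent (A - 1) := ⟨p ^ r, by rw [e1, hA, sub_self]⟩
  have h2 : (A - 1) ^ m = 0 := by
    have := LinearMap.aeval_self_charpoly (A - 1)
    rw [hn.charpoly_eq_X_pow_finrank, hf] at this
    simpa using this
  constructor
  · rw [← sub_eq_zero, ← e1]
    exact pow_eq_zero_of_le hj.le h2
  · have := congrArg (aeval A) (geom_eq (p := p) j)
    simp only [map_sum, map_pow, aeval_X, map_sub, map_one] at this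
    rw [this]
    exact pow_eq_zero_of_le (by omega) h2

theorem mulv' {p : ℕ} [Fact p.Prime] {V : Type*} [CommGroup V] [Finite V] [Module (ZMod p) (Additive V)]
    {m r j : ℕ} (hV : Nat.card V = p ^ m) (φ : MulAut V) (hA : φ ^ p ^ r = 1) (hj : m < p ^ j) :
    φ ^ p ^ j = 1 ∧ ∀ b : V, ∏ i ∈ Finset.range (p ^ j), (φ ^ i) b = 1 := by
  let A : Module.End (ZMod p) (Additive V) :=
      (MonoidHom.toAdditive φ.toMonoidHom).toZModLinearMap p
  have hk : ∀ (k : ℕ) (x : Additive V), Additive.toMul ((A ^ k) x) = (φ ^ k) x.toMul := by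
    intro k
    induction k with
    | zero => intro x; rfl
    | succ k ih =>
      intro x
      rw [pow_succ', pow_succ', Module.End.mul_apply, MulAut.mul_apply, ← ih]
      rfl
  obtain ⟨h1, h2⟩ := lin (r := r) (V := Additive V) hV A (by
    apply LinearMap.ext
    intro x
    apply Additive.toMul.injective
    rw [hk, hA]; rfl) hj
  constructor
  · ext x
    have := hk (p ^ j) (Additive.ofMul x)
    rw [h1] at this
    exact this.symm
  · intro b
    have := congrArg Additive.toMul (LinearMap.congr_fun h2 (Additive.ofMul b))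
    rw [LinearMap.sum_apply, toMul_sum] at this
    simp only [hk] at this
    exact this

theorem mulv {p : ℕ} [Fact p.Prime] {V : Type*} [CommGroup V] [Finite V] (hp : ∀ x : V, x ^ p = 1)
    {m r j : ℕ} (hV : Nat.card V = p ^ m) (φ : MulAut V) (hA : φ ^ p ^ r = 1) (hj : m < p ^ j) :
    φ ^ p ^ j = 1 ∧ ∀ b : V, ∏ i ∈ Finset.range (p ^ j), (φ ^ i) b = 1 :=
  @mulv' p _ V _ _ (AddCommGroup.zmodModule (fun x => by
      apply Additive.toMul.injective
      rw [toMul_nsmul, toMul_zero]
      exact hp _)) m r j hV φ hA hj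

/-- Let a finite group G act faithfully on a set Ω with p ^ m points (p prime) and have an elementary abelian normal p-subgroup N acting regularly on Ω (so G is a group of affine transformations of an m-dimensional space over the field with p elements). If G contains an element of order p ^ r with r ≥ 1, then p ^ (r − 1) ≤ m. In particular an element of order p ^ m forces m ≤ 2, and m ≤ 1 when p is odd. -/
theorem result {G : Type*} [Group G] [Finite G] {Ω : Type*} [Fintype Ω] [MulAction G Ω] [FaithfulSMul G Ω] (p m : ℕ) (hp : p.Prime) (hcard : Fintype.card Ω = p ^ m)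
    (N : Subgroup G) [N.Normal] (hNc : IsMulCommutative N) (hNp : ∀ n ∈ N, n ^ p = 1)
    (hNtr : MulAction.IsPretransitive N Ω) (hNreg : ∀ ω : Ω, MulAction.stabilizer N ω = ⊥)
    (g : G) (r : ℕ) (hr : 1 ≤ r) (hg : orderOf g = p ^ r) :
    p ^ (r - 1) ≤ m ∧ (r = m → m ≤ 2 ∧ (2 < p → m ≤ 1)) := by
  have := Fact.mk hp
  have main : p ^ (r - 1) ≤ m := by
    by_contra hlt
    push Not at hlt
    have : Nonempty Ω := Fintype.card_pos_iff.1 (hcard ▸ pow_pos hp.pos m)
    obtain ⟨ω⟩ := this
    have hN : Nat.card N = p ^ m := by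
      rw [H18.card_eq_of_regular ω (hNreg ω), Nat.card_eq_fintype_card, hcard]
    let _ : CommGroup N := { mul_comm := hNc.is_comm.comm }
    obtain ⟨h1, h2⟩ := mulv (r := r) (V := N) (fun x => Subtype.ext (hNp _ x.2)) hN (MulAut.conjNormal g)
      (by rw [← map_pow, ← hg, pow_orderOf_eq_one, map_one]) hlt
    obtain ⟨b, hb⟩ := exists_smul_eq N ω (g • ω)
    have hb' : (b : G) • ω = g • ω := hb
    have h3 : ∀ k : ℕ, (g ^ k) • ω =
        ((∏ i ∈ Finset.range k, ((MulAut.conjNormal g : MulAut N) ^ i) b : N) : G) • ω := by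
      intro k
      induction k with
      | zero => simp
      | succ k ih =>
        rw [Finset.prod_range_succ, mul_comm, Subgroup.coe_mul, mul_smul, ← ih, ← map_pow,
          MulAut.conjNormal_apply, mul_smul, mul_smul, inv_smul_smul, hb', ← mul_smul, pow_succ]
    have h4 : g ^ p ^ (r - 1) = 1 := by
      apply FaithfulSMul.eq_of_smul_eq_smul (α := Ω)
      intro x
      obtain ⟨c, rfl⟩ := exists_smul_eq N ω x
      have e1 := MulAut.conjNormal_apply (g ^ p ^ (r - 1)) c
      rw [map_pow, h1, eq_mul_inv_iff_mul_eq] at e1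
      have e2 := h3 (p ^ (r - 1))
      rw [h2] at e2
      change (g ^ p ^ (r - 1)) • (c : G) • ω = (1 : G) • (c : G) • ω
      rw [← mul_smul, ← e1, mul_smul, e2]; simp
    have := orderOf_dvd_of_pow_eq_one h4
    rw [hg, Nat.pow_dvd_pow_iff_le_right hp.one_lt] at this
    omega
  refine ⟨main, ?_⟩
  rintro rfl
  obtain ⟨s, rfl⟩ : ∃ s, r = s + 1 := ⟨r - 1, by omega⟩
  simp only [add_tsub_cancel_right] at main
  constructor
  · by_contra h
    obtain ⟨t, rfl⟩ : ∃ t, s = t + 2 := ⟨s - 2, by omega⟩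
    have h1 : 2 ^ (t + 2) ≤ p ^ (t + 2) := Nat.pow_le_pow_left hp.two_le _
    have h2 : t < 2 ^ t := Nat.lt_two_pow_self
    rw [pow_add] at h1
    omega
  · intro h3
    by_contra h
    obtain ⟨t, rfl⟩ : ∃ t, s = t + 1 := ⟨s - 1, by omega⟩
    have h1 : 3 ^ (t + 1) ≤ p ^ (t + 1) := Nat.pow_le_pow_left h3 _
    have h2 : t < 3 ^ t := Nat.lt_pow_self (by norm_num)
    rw [pow_add] at h1
    omega

end Cfsg.Agent.S3508
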