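import Mathlib
import Cfsg.Statements.S3511

set_option autoImplicit false
open Cfsg

namespace Cfsg.Agent.S3511

/-- Let a finite group G act faithfully on a set Ω. If every element of G of square-free order has a regular cycle (an orbit of the cyclic group it generates with trivial stabilizer), then every element of G has a regular cycle. -/
theorem result {G : Type*} [Group G] [Finite G] {Ω : Type*} [MulAction G Ω] [FaithfulSMul G Ω]
    (h : ∀ g : G, Squarefree (orderOf g) → ∃ ω : Ω, MulAction.stabilizer (Subgroup.zpowers g) ω = ⊥) (g : G) :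
    ∃ ω : Ω, MulAction.stabilizer (Subgroup.zpowers g) ω = ⊥ := by
  classical
  set n := orderOf g with hn
  have hn0 : 0 < n := orderOf_pos g
  set r := n.primeFactors.prod id with hr
  have hrd : r ∣ n := Nat.prod_primeFactors_dvd n
  obtain ⟨m, hm⟩ := hrd
  have hm0 : 0 < m := Nat.pos_of_ne_zero (by rintro rfl; omega)
  have hr0 : 0 < r := Nat.pos_of_ne_zero (by rintro h0; rw [h0] at hm; omega)
  have hord : orderOf (g ^ m) = r := by
    rw [orderOf_pow' g hm0.ne', ← hn, Nat.gcd_eq_right ⟨r, by rw [hm]; ring⟩, hm,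
      Nat.mul_div_cancel _ hm0]
  have hsq : Squarefree r := by
    rw [hr]
    apply Finset.squarefree_prod_of_pairwise_isCoprime
    · intro p hp q hq hpq
      simp only [Function.onFun, id]
      rw [← Nat.coprime_iff_isRelPrime]
      exact (Nat.coprime_primes (Nat.prime_of_mem_primeFactors hp) (Nat.prime_of_mem_primeFactors hq)).2 hpq
    · intro p hp
      exact (Nat.prime_of_mem_primeFactors hp).squarefree
  obtain ⟨ω, hω⟩ := h (g ^ m) (hord ▸ hsq)
  refine ⟨ω, ?_⟩
  by_contra hne
  obtain ⟨⟨x, hx⟩, hx1⟩ := (Subgroup.ne_bot_iff_exists_ne_one).1 hne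
  have hx1' : (x : G) ≠ 1 := fun e => hx1 (Subtype.ext (Subtype.ext e))
  -- an element of prime order in the stabiliser
  have hxo : orderOf (x : G) ≠ 1 := by simpa using hx1'
  obtain ⟨p, hp, hpd⟩ := Nat.exists_prime_and_dvd hxo
  set y : G := (x : G) ^ (orderOf (x : G) / p) with hy
  have hyo : orderOf y = p := orderOf_pow_orderOf_div (orderOf_pos _).ne' hpd
  have hyfix : y • ω = ω := by
    have : (x : G) • ω = ω := hx
    exact MulAction.mem_stabilizer_iff.1 (Subgroup.pow_mem (MulAction.stabilizer G ω) (MulAction.mem_stabilizer_iff.2 this) _)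
  have hyz : y ∈ Subgroup.zpowers g := Subgroup.pow_mem _ x.2 _
  obtain ⟨k, hk⟩ := (mem_zpowers_iff_mem_range_orderOf.1 hyz |> Finset.mem_image.1)
  have hk' : g ^ k = y := hk.2
  have hpn : p ∣ n := by rw [← hyo, ← hk']; exact orderOf_pow_dvd k
  have hpr : p ∣ r := Finset.dvd_prod_of_mem id (Nat.mem_primeFactors.2 ⟨hp, hpn, hn0.ne'⟩)
  have hnk : n ∣ k * p := by
    rw [hn, orderOf_dvd_iff_pow_eq_one, pow_mul, hk', ← hyo, pow_orderOf_eq_one]
  obtain ⟨s, hs⟩ := hpr
  have hmk : m ∣ k := by
    have : m * s * p ∣ k * p := by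
      have e : m * s * p = n := by rw [hm, hs]; ring
      rwa [e]
    exact (Dvd.intro _ rfl).trans (Nat.dvd_of_mul_dvd_mul_right hp.pos this)
  obtain ⟨j, hj⟩ := hmk
  have hyz' : y ∈ Subgroup.zpowers (g ^ m) := by
    rw [← hk', hj, pow_mul]; exact Subgroup.pow_mem _ (Subgroup.mem_zpowers _) _
  have : (⟨y, hyz'⟩ : Subgroup.zpowers (g ^ m)) ∈ MulAction.stabilizer (Subgroup.zpowers (g ^ m)) ω := hyfix
  rw [hω, Subgroup.mem_bot] at this
  have h1 : y = 1 := congrArg Subtype.val this
  rw [h1, orderOf_one] at hyo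
  exact hp.one_lt.ne hyo

end Cfsg.Agent.S3511
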