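import Mathlib
import Cfsg.Statements.S3514
import Cfsg.Agent.H01.Hall

set_option autoImplicit false
open Cfsg

namespace Cfsg.Agent.S3514

theorem card_eq {V : Type*} {G : Type*} [Group G] [MulAction G V] (H : Subgroup G) (v : V) :
    Nat.card {u : V | ∃ h ∈ H, h • v = u} = (MulAction.stabilizer G v).relIndex H := by
  have : {u : V | ∃ h ∈ H, h • v = u} = MulAction.orbit H v := by
    ext u
    constructor
    · rintro ⟨h, hh, rfl⟩; exact ⟨⟨h, hh⟩, rfl⟩
    · rintro ⟨h, rfl⟩; exact ⟨h, h.2, rfl⟩
  rw [this, Nat.card_coe_set_eq, ← MulAction.index_stabilizer]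
  rfl

/-- Let p be a prime, V a finite vector space over the field with p elements, and H a group of linear transformations of V all of whose orbits on V have size coprime to p. (i) Every normal subgroup K of H has all its orbits on V of size coprime to p. (ii) If N is a group of linear transformations of V of order coprime to p that is normalized by H, then the group generated by N and H has all its orbits on V of size coprime to p. -/
theorem result (p : ℕ) [Fact p.Prime] {V : Type*} [AddCommGroup V] [Module (ZMod p) V] [Finite V]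
    (H : Subgroup (V ≃ₗ[ZMod p] V)) (hH : ∀ v : V, ¬ p ∣ Nat.card {u : V | ∃ h ∈ H, h v = u}) :
    (∀ K : Subgroup (V ≃ₗ[ZMod p] V), K ≤ H → H ≤ Subgroup.normalizer (K : Set (V ≃ₗ[ZMod p] V)) →
        ∀ v : V, ¬ p ∣ Nat.card {u : V | ∃ k ∈ K, k v = u}) ∧
    (∀ N : Subgroup (V ≃ₗ[ZMod p] V), ¬ p ∣ Nat.card N → H ≤ Subgroup.normalizer (N : Set (V ≃ₗ[ZMod p] V)) →
        ∀ v : V, ¬ p ∣ Nat.card {u : V | ∃ x ∈ N ⊔ H, x v = u}) := by
  have hp : p.Prime := Fact.out
  have : Finite (V ≃ₗ[ZMod p] V) := Finite.of_injective (fun f => (f : V → V)) DFunLike.coe_injective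
  have key : ∀ (K : Subgroup (V ≃ₗ[ZMod p] V)) (v : V), Nat.card {u : V | ∃ h ∈ K, h v = u} =
      (MulAction.stabilizer (V ≃ₗ[ZMod p] V) v).relIndex K := fun K v => card_eq K v
  simp only [key] at hH ⊢
  constructor
  · intro K hK hn v h
    apply hH v
    have : (K.subgroupOf H).Normal := (Subgroup.normal_subgroupOf_iff_le_normalizer hK).2 hn
    have h1 := H01.relIndex_dvd_index_of_normal_right
      ((MulAction.stabilizer (V ≃ₗ[ZMod p] V) v).subgroupOf H) (K.subgroupOf H)
    rw [Subgroup.relIndex_subgroupOf hK] at h1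
    exact h.trans h1
  · intro N hN hn v h
    set S := MulAction.stabilizer (V ≃ₗ[ZMod p] V) v
    have h1 : S.relIndex (N ⊔ H) ∣ (S ⊓ H).relIndex (N ⊔ H) := Subgroup.relIndex_dvd_of_le_left _ inf_le_left
    rw [← Subgroup.relIndex_mul_relIndex (S ⊓ H) H (N ⊔ H) inf_le_right le_sup_right,
      Subgroup.inf_relIndex_right] at h1
    rcases (Nat.Prime.dvd_mul hp).1 (h.trans h1) with h2 | h2
    · exact hH v h2
    · apply hN
      have e1 := H01.card_sup_mul_card_inf' hn
      have e2 := H01.card_mul_relIndex (le_sup_left : H ≤ H ⊔ N)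
      rw [← e2, mul_assoc] at e1
      have e3 := Nat.eq_of_mul_eq_mul_left Nat.card_pos e1
      rw [sup_comm] at h2
      exact h2.trans (Dvd.intro _ e3)

end Cfsg.Agent.S3514
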