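import Mathlib
import Cfsg.Statements.S3516

set_option autoImplicit false
open Cfsg

namespace Cfsg.Agent.S3516

theorem affine_of_triples {p : ℕ} [Fact p.Prime] (hp : p ≠ 2) {V : Type*} [AddCommGroup V]
    [Module (ZMod p) V] (σ : Equiv.Perm V)
    (h : ∀ t : Fin 3 → V, ∃ (A : V ≃ₗ[ZMod p] V) (b : V), ∀ i, σ (t i) = A (t i) + b) :
    ∃ (A : V ≃ₗ[ZMod p] V) (b : V), ∀ x, σ x = A x + b := by
  have h2 : (2 : ZMod p) ≠ 0 := by
    intro e
    have : ((2 : ℕ) : ZMod p) = 0 := by exact_mod_cast e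
    rw [ZMod.natCast_eq_zero_iff] at this
    exact hp ((Nat.prime_dvd_prime_iff_eq Fact.out Nat.prime_two).1 this)
  have hs : ∀ (c : ZMod p) (x : V), σ (c • x) - σ 0 = c • (σ x - σ 0) := by
    intro c x
    obtain ⟨A, b, hA⟩ := h ![0, x, c • x]
    have e0 : σ 0 = A 0 + b := hA 0
    have e1 : σ x = A x + b := hA 1
    have e2 : σ (c • x) = A (c • x) + b := hA 2
    rw [e0, e1, e2]; simp
  have ha : ∀ x y : V, σ (x + y) - σ 0 = (σ x - σ 0) + (σ y - σ 0) := by
    intro x y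
    obtain ⟨A, b, hA⟩ := h ![x, y, (2 : ZMod p)⁻¹ • (x + y)]
    have e0 : σ x = A x + b := hA 0
    have e1 : σ y = A y + b := hA 1
    have e2 : σ ((2 : ZMod p)⁻¹ • (x + y)) = A ((2 : ZMod p)⁻¹ • (x + y)) + b := hA 2
    have e3 := hs 2 ((2 : ZMod p)⁻¹ • (x + y))
    rw [smul_smul, mul_inv_cancel₀ h2, one_smul] at e3
    rw [e3, e2, e0, e1, map_smul, smul_sub, smul_add, smul_smul, mul_inv_cancel₀ h2, one_smul, map_add,
      two_smul, two_smul]
    abel
  let L : V →ₗ[ZMod p] V :=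
    { toFun := fun x => σ x - σ 0, map_add' := ha, map_smul' := hs }
  have hL : Function.Bijective L := (σ.trans (Equiv.subRight (σ 0))).bijective
  exact ⟨LinearEquiv.ofBijective L hL, σ 0, fun x => by simp [L]⟩

/-- Let p be an odd prime, d ≥ 3, and G a group of affine permutations x ↦ Ax + b of V = F_p^d containing all translations and all maps x ↦ Ax with A of determinant 1. Then the 3-closure of G is the full affine group: a permutation σ of V agrees on every triple of points with some element of G if and only if σ is an affine map. -/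
theorem result (p : ℕ) [Fact p.Prime] (hp : p ≠ 2) (d : ℕ) (hd : 3 ≤ d) (G : Subgroup (Equiv.Perm (Fin d → ZMod p)))
    (haff : (G : Set (Equiv.Perm (Fin d → ZMod p))) ⊆ {τ : Equiv.Perm (Fin d → ZMod p) | ∃ (A : (Fin d → ZMod p) ≃ₗ[ZMod p] (Fin d → ZMod p)) (b : Fin d → ZMod p), ∀ x, τ x = A x + b})
    (htrans : ∀ b : Fin d → ZMod p, ∃ g ∈ G, ∀ x, g x = x + b)
    (hsl : ∀ A : (Fin d → ZMod p) ≃ₗ[ZMod p] (Fin d → ZMod p), LinearMap.det (A : (Fin d → ZMod p) →ₗ[ZMod p] (Fin d → ZMod p)) = 1 → ∃ g ∈ G, ∀ x, g x = A x)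
    (σ : Equiv.Perm (Fin d → ZMod p)) :
    (∀ t : Fin 3 → (Fin d → ZMod p), ∃ g ∈ G, ∀ i, σ (t i) = g (t i)) ↔ σ ∈ {τ : Equiv.Perm (Fin d → ZMod p) | ∃ (A : (Fin d → ZMod p) ≃ₗ[ZMod p] (Fin d → ZMod p)) (b : Fin d → ZMod p), ∀ x, τ x = A x + b} := by
  constructor
  · intro h
    apply affine_of_triples hp σ
    intro t
    obtain ⟨g, hg, ht⟩ := h t
    obtain ⟨A, b, hA⟩ := haff hg
    exact ⟨A, b, fun i => by rw [ht, hA]⟩
  · rintro ⟨A, b, hA⟩ t
    have hlt : Submodule.span (ZMod p) {t 1 - t 0, t 2 - t 0} < ⊤ := by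
      apply Submodule.lt_top_of_finrank_lt_finrank
      classical
      have := finrank_span_finset_le_card (R := ZMod p) ({t 1 - t 0, t 2 - t 0} : Finset (Fin d → ZMod p))
      have h2 : ({t 1 - t 0, t 2 - t 0} : Finset (Fin d → ZMod p)).card ≤ 2 := Finset.card_le_two
      rw [Set.finrank, Finset.coe_pair] at this
      rw [Module.finrank_fin_fun]; omega
    obtain ⟨f, hf0, hf⟩ := Submodule.exists_le_ker_of_lt_top _ hlt
    obtain ⟨w, hw⟩ : ∃ w, f w = 1 := by
      obtain ⟨w, hw⟩ := DFunLike.ne_iff.1 hf0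
      exact ⟨(f w)⁻¹ • w, by rw [map_smul, smul_eq_mul, inv_mul_cancel₀ hw]⟩
    set c : ZMod p := (LinearMap.det (A : (Fin d → ZMod p) →ₗ[ZMod p] (Fin d → ZMod p)))⁻¹ with hc
    have hdet : LinearMap.det (A : (Fin d → ZMod p) →ₗ[ZMod p] (Fin d → ZMod p)) ≠ 0 :=
      (LinearEquiv.isUnit_det' A).ne_zero
    have h1 : 1 + f ((c - 1) • w) = c := by rw [map_smul, hw, smul_eq_mul]; ring
    have hu : IsUnit (1 + f ((c - 1) • w)) := by rw [h1]; exact (inv_ne_zero hdet).isUnit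
    obtain ⟨g, hg, hgA⟩ := hsl (LinearEquiv.dilatransvection hu ≪≫ₗ A) (by
      rw [LinearEquiv.coe_trans, LinearMap.det_comp, LinearEquiv.dilatransvection.coe_toLinearMap,
        LinearMap.transvection.det, h1, mul_inv_cancel₀ hdet])
    obtain ⟨k, hk, hkb⟩ := htrans (σ (t 0) - g (t 0))
    refine ⟨k * g, G.mul_mem hk hg, fun i => ?_⟩
    have hz : f (t i - t 0) = 0 := by
      fin_cases i
      · simp
      · exact hf (Submodule.subset_span (by simp))
      · exact hf (Submodule.subset_span (by simp))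
    have e : g (t i) - g (t 0) = A (t i - t 0) := by
      rw [hgA, hgA, ← map_sub, LinearEquiv.trans_apply, LinearEquiv.dilatransvection.apply, hz, zero_smul,
        add_zero]
    rw [Equiv.Perm.mul_apply, hkb, ← add_sub_assoc, add_sub_right_comm, e, hA, hA, map_sub]
    abel

end Cfsg.Agent.S3516
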