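import Mathlib
import Cfsg.Statements.S3515
import Cfsg.Agent.S3516

set_option autoImplicit false
open Cfsg

namespace Cfsg.Agent.S3515

theorem key : ∀ x y : Fin 2 → ZMod 2, x = 0 ∨ x = Pi.single 0 1 ∨ x = Pi.single 1 1 ∨
    y = 0 ∨ y = Pi.single 0 1 ∨ y = Pi.single 1 1 ∨ x = y := by decide

/-- Every primitive affine permutation group of degree p² is 3-closed. Let p be a prime and G a group of permutations of the plane V = F_p² consisting of affine maps x ↦ Ax + b, containing all translations, and acting primitively on V. Then any permutation σ of V that agrees on every triple of points with some element of G (σ preserves every G-orbit on ordered triples) already lies in G. -/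
theorem result (p : ℕ) [Fact p.Prime] (G : Subgroup (Equiv.Perm (Fin 2 → ZMod p)))
    (haff : (G : Set (Equiv.Perm (Fin 2 → ZMod p))) ⊆ {τ : Equiv.Perm (Fin 2 → ZMod p) | ∃ (A : (Fin 2 → ZMod p) ≃ₗ[ZMod p] (Fin 2 → ZMod p)) (b : Fin 2 → ZMod p), ∀ x, τ x = A x + b})
    (htrans : ∀ b : Fin 2 → ZMod p, ∃ g ∈ G, ∀ x, g x = x + b) (hprim : MulAction.IsPreprimitive G (Fin 2 → ZMod p))
    (σ : Equiv.Perm (Fin 2 → ZMod p)) (hσ : (∀ t : Fin 3 → (Fin 2 → ZMod p), ∃ g ∈ G, ∀ i, σ (t i) = g (t i))) : σ ∈ G := by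
  obtain ⟨g, hg, h⟩ := hσ ![0, Pi.single 0 1, Pi.single 1 1]
  have h0 : σ 0 = g 0 := h 0
  have h1 : σ (Pi.single 0 1) = g (Pi.single 0 1) := h 1
  have h2 : σ (Pi.single 1 1) = g (Pi.single 1 1) := h 2
  suffices σ = g by rw [this]; exact hg
  by_cases hp : p = 2
  · subst hp
    ext1 x
    have e : ∀ z, σ z = g z → (x = z ∨ g⁻¹ (σ x) = z) → σ x = g x := by
      rintro z hz (rfl | e)
      · exact hz
      · rw [Equiv.Perm.inv_eq_iff_eq, ← hz] at e
        rw [σ.injective e]; exact hz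
    rcases key x (g⁻¹ (σ x)) with k | k | k | k | k | k | k
    · exact e _ h0 (Or.inl k)
    · exact e _ h1 (Or.inl k)
    · exact e _ h2 (Or.inl k)
    · exact e _ h0 (Or.inr k)
    · exact e _ h1 (Or.inr k)
    · exact e _ h2 (Or.inr k)
    · rw [Equiv.Perm.eq_inv_iff_eq] at k; exact k.symm
  · obtain ⟨A, b, hA⟩ := Cfsg.Agent.S3516.affine_of_triples hp σ (fun t => by
      obtain ⟨g, hg, ht⟩ := hσ t
      obtain ⟨A, b, hA⟩ := haff hg
      exact ⟨A, b, fun i => by rw [ht, hA]⟩)
    obtain ⟨B, c, hB⟩ := haff hg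
    rw [hA, hB] at h0 h1 h2
    simp only [map_zero, zero_add] at h0
    rw [h0, add_left_inj] at h1 h2
    have : (A : (Fin 2 → ZMod p) →ₗ[ZMod p] (Fin 2 → ZMod p)) = B := by
      apply (Pi.basisFun (ZMod p) (Fin 2)).ext
      intro i
      fin_cases i
      · simpa using h1
      · simpa using h2
    ext1 x
    rw [hA, hB, h0]
    exact congrArg (· + c) (LinearMap.congr_fun this x)

end Cfsg.Agent.S3515
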