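import Mathlib
import Cfsg.Statements.S3517

set_option autoImplicit false
open Cfsg

namespace Cfsg.Agent.S3517

theorem exists_equiv_of_ker {K V W : Type*} [Field K] [AddCommGroup V] [Module K V] [AddCommGroup W]
    [Module K W] [FiniteDimensional K V] (f g : W →ₗ[K] V) (h : LinearMap.ker f = LinearMap.ker g) :
    ∃ A : V ≃ₗ[K] V, ∀ w, A (f w) = g w := by
  obtain ⟨A, hA⟩ := Submodule.exists_linearEquiv_restrict_eq
    (f.quotKerEquivRange.symm ≪≫ₗ (Submodule.quotEquivOfEq _ _ h ≪≫ₗ g.quotKerEquivRange))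
  refine ⟨A, fun w => ?_⟩
  have := hA ⟨f w, w, rfl⟩
  rw [← this]
  have e : f.quotKerEquivRange.symm ⟨f w, w, rfl⟩ = Submodule.Quotient.mk w := by
    rw [LinearEquiv.symm_apply_eq]; apply Subtype.ext; simp
  simp [e]

/-- For d ≥ 3, the 3-closure of the affine group AGL_d(2) acting on F_2^d is the full symmetric group: every permutation of F_2^d agrees on every ordered triple of points with some affine map (AGL_d(2) is 3-transitive). -/
theorem result (d : ℕ) (hd : 3 ≤ d) (σ : Equiv.Perm (Fin d → ZMod 2)) (t : Fin 3 → (Fin d → ZMod 2)) :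
    ∃ (A : (Fin d → ZMod 2) ≃ₗ[ZMod 2] (Fin d → ZMod 2)) (b : Fin d → ZMod 2), ∀ i, σ (t i) = A (t i) + b := by
  have key : ∀ u : Fin 3 → (Fin d → ZMod 2), ∀ c : ZMod 2 × ZMod 2,
      c.1 • (u 1 - u 0) + c.2 • (u 2 - u 0) = 0 ↔
        (c = (1, 0) → u 1 = u 0) ∧ (c = (0, 1) → u 2 = u 0) ∧ (c = (1, 1) → u 1 = u 2) := by
    intro u c
    have hc : ∀ c : ZMod 2 × ZMod 2, c = (0, 0) ∨ c = (1, 0) ∨ c = (0, 1) ∨ c = (1, 1) := by decide
    have h2 : ∀ x : Fin d → ZMod 2, x + x = 0 := fun x => by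
      ext i; exact CharTwo.add_self_eq_zero _
    rcases hc c with rfl | rfl | rfl | rfl
    · simp
    · simp [sub_eq_zero]
    · simp [sub_eq_zero]
    · simp only [one_smul]
      have : u 1 - u 0 + (u 2 - u 0) = u 1 - u 2 + (u 2 + u 2) - (u 0 + u 0) := by abel
      rw [this, h2, h2]
      simp [sub_eq_zero]
  let F : (Fin 3 → (Fin d → ZMod 2)) → (ZMod 2 × ZMod 2 →ₗ[ZMod 2] (Fin d → ZMod 2)) := fun u =>
    (LinearMap.toSpanSingleton _ _ (u 1 - u 0)).coprod (LinearMap.toSpanSingleton _ _ (u 2 - u 0))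
  obtain ⟨A, hA⟩ := exists_equiv_of_ker (F t) (F (fun i => σ (t i))) (by
    ext c
    simp only [LinearMap.mem_ker, F, LinearMap.coprod_apply, LinearMap.toSpanSingleton_apply]
    rw [key t c, key (fun i => σ (t i)) c]
    simp)
  have h1 := hA (1, 0)
  have h2 := hA (0, 1)
  simp only [F, LinearMap.coprod_apply, LinearMap.toSpanSingleton_apply, one_smul, zero_smul, add_zero,
    zero_add, map_sub] at h1 h2
  refine ⟨A, σ (t 0) - A (t 0), fun i => ?_⟩
  fin_cases i
  · simp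
  · change σ (t 1) = A (t 1) + _
    rw [← add_sub_assoc, add_sub_right_comm, h1]; abel
  · change σ (t 2) = A (t 2) + _
    rw [← add_sub_assoc, add_sub_right_comm, h2]; abel

end Cfsg.Agent.S3517
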