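import Mathlib
import Cfsg.Statements.S3518
import Cfsg.Agent.H18.PrimeDegree
import Cfsg.Agent.H18.Basic

set_option autoImplicit false
open Cfsg

namespace Cfsg.Agent.S3518

/-- Closures of subgroups of the one-dimensional affine group. Let p be a prime and G a group of permutations of F_p lying in the affine group AGL₁(p) = {x ↦ ax + b, a ≠ 0} and containing all translations. (1) If G is a proper subgroup of AGL₁(p), then G is 2-closed: a permutation of F_p agreeing on every ordered pair of points with some element of G lies in G. (2) Every permutation of F_p agrees on every ordered pair with some element of AGL₁(p) (the 2-closure of AGL₁(p) is the symmetric group). (3) AGL₁(p) is 3-closed: a permutation agreeing on every ordered triple with some affine map is affine. -/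
theorem result (p : ℕ) [Fact p.Prime] (G : Subgroup (Equiv.Perm (ZMod p))) (hG : G ≤ Cfsg.affineGroup (ZMod p))
    (htrans : ∀ b : ZMod p, ∃ g ∈ G, ∀ x, g x = x + b) :
    (G ≠ Cfsg.affineGroup (ZMod p) → ∀ σ : Equiv.Perm (ZMod p), (∀ t : Fin 2 → ZMod p, ∃ g ∈ G, ∀ i, σ (t i) = g (t i)) → σ ∈ G) ∧
    (∀ σ : Equiv.Perm (ZMod p), (∀ t : Fin 2 → ZMod p, ∃ g ∈ Cfsg.affineGroup (ZMod p), ∀ i, σ (t i) = g (t i))) ∧
    (∀ σ : Equiv.Perm (ZMod p), (∀ t : Fin 3 → ZMod p, ∃ g ∈ Cfsg.affineGroup (ZMod p), ∀ i, σ (t i) = g (t i)) → σ ∈ Cfsg.affineGroup (ZMod p)) := by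
  have hp : p.Prime := Fact.out
  have heq : ∀ (σ g : Equiv.Perm (ZMod p)) (u v : ZMod p), (∀ a, σ a = u * a + v) →
      g ∈ Cfsg.affineGroup (ZMod p) → σ 0 = g 0 → σ 1 = g 1 → σ = g := by
    rintro σ g u v h ⟨a, b, hg⟩ h0 h1
    rw [h, hg] at h0 h1
    simp only [mul_zero, zero_add, mul_one] at h0 h1
    rw [h0, add_left_inj] at h1
    ext x; rw [h, hg, h0, h1]
  refine ⟨fun hne σ hσ => ?_, fun σ t => ?_, fun σ hσ => ?_⟩
  · let C : Subgroup (Equiv.Perm (ZMod p)) :=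
      { carrier := {τ | ∀ x y : ZMod p, ∃ g ∈ G, τ x = g x ∧ τ y = g y}
        one_mem' := fun x y => ⟨1, G.one_mem, rfl, rfl⟩
        mul_mem' := fun {a b} ha hb x y => by
          obtain ⟨g, hg, h1, h2⟩ := hb x y
          obtain ⟨k, hk, h3, h4⟩ := ha (b x) (b y)
          refine ⟨k * g, G.mul_mem hk hg, ?_, ?_⟩
          · rw [Equiv.Perm.mul_apply, Equiv.Perm.mul_apply, h3, h1]
          · rw [Equiv.Perm.mul_apply, Equiv.Perm.mul_apply, h4, h2]
        inv_mem' := fun {a} ha x y => by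
          obtain ⟨g, hg, h1, h2⟩ := ha (a⁻¹ x) (a⁻¹ y)
          refine ⟨g⁻¹, G.inv_mem hg, ?_, ?_⟩
          · rw [Equiv.Perm.eq_inv_iff_eq, ← h1]; simp
          · rw [Equiv.Perm.eq_inv_iff_eq, ← h2]; simp }
    have hGC : G ≤ C := fun g hg x y => ⟨g, hg, rfl, rfl⟩
    have hσC : σ ∈ C := fun x y => by
      obtain ⟨g, hg, h⟩ := hσ ![x, y]
      exact ⟨g, hg, h 0, h 1⟩
    have : MulAction.IsPretransitive C (ZMod p) := ⟨fun x y => by
      obtain ⟨g, hg, h⟩ := htrans (y - x)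
      exact ⟨⟨g, hGC hg⟩, by change g x = y; rw [h]; ring⟩⟩
    obtain ⟨g₁, hg₁, h₁⟩ := htrans 1
    rcases H18.affine_or_two_trans (G := C) (e := Equiv.refl (ZMod p)) (x := ⟨g₁, hGC hg₁⟩) h₁ with h | h
    · obtain ⟨u, v, huv⟩ := h ⟨σ, hσC⟩
      obtain ⟨g, hg, h0, h1⟩ := hσC 0 1
      rw [heq σ g u v huv (hG hg) h0 h1]; exact hg
    · exfalso
      apply hne
      apply le_antisymm hG
      intro τ hτ
      obtain ⟨c, hc0, hc1⟩ := H18.mt_two_iff.1 h 0 1 (τ 0) (τ 1) zero_ne_one (by simp)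
      obtain ⟨g, hg, h0, h1⟩ := c.2 0 1
      obtain ⟨a, b, hab⟩ := hτ
      rw [heq τ g a b hab (hG hg) (hc0.symm.trans h0) (hc1.symm.trans h1)]; exact hg
  · by_cases h : t 0 = t 1
    · refine ⟨Equiv.addRight (σ (t 0) - t 0), ⟨1, σ (t 0) - t 0, fun x => by simp⟩, fun i => ?_⟩
      fin_cases i
      · simp
      · simp [← h]
    · have h1 : t 0 - t 1 ≠ 0 := sub_ne_zero.2 h
      have h2 : σ (t 0) - σ (t 1) ≠ 0 := sub_ne_zero.2 (by simpa using h)
      let a : (ZMod p)ˣ := Units.mk0 ((σ (t 0) - σ (t 1)) / (t 0 - t 1)) (div_ne_zero h2 h1)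
      refine ⟨a.mulLeft.trans (Equiv.addRight (σ (t 0) - a * t 0)), ⟨a, _, fun x => rfl⟩, fun i => ?_⟩
      fin_cases i
      · simp
      · simp [a]; field_simp; ring
  · obtain ⟨g, hg, h⟩ := hσ ![0, 1, 0]
    have : σ = g := by
      ext x
      obtain ⟨k, hk, h'⟩ := hσ ![0, 1, x]
      obtain ⟨a, b, hab⟩ := hk
      have : k = g := heq k g a b hab hg ((h' 0).symm.trans (h 0)) ((h' 1).symm.trans (h 1))
      rw [← this]; exact h' 2
    rw [this]; exact hg

end Cfsg.Agent.S3518
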