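import Mathlib
import Cfsg.Statements.S3532
import Cfsg.Agent.H27.Spec2
import Cfsg.Agent.L.PSL2Sub

set_option autoImplicit false
open scoped Pointwise
open Cfsg

namespace Cfsg.Agent.S3532

open Subgroup L.Dk
open scoped IsMulCommutative

theorem k1 {G : Type*} [Group G] {x : G} {m : ℕ} (h : x ^ m = 1) (n : ℕ) : x ^ (m * n) = 1 := by rw [pow_mul, h, one_pow]

theorem k2 {G : Type*} [Group G] {x : G} {m : ℕ} (h : x ^ m = 1) (n : ℕ) : x ^ (n * m) = 1 := mul_comm m n ▸ k1 h n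

theorem frob {p k n : ℕ} [hp : Fact p.Prime] (hk : k ≠ 0) (hn : n ∣ p ^ k - 1) : ∃ (X : Type) (_ : Group X) (_ : Finite X),
    Group.IsSolvable X ∧ (∀ x : X, x ^ p = 1 ∨ x ^ n = 1) ∧ (∃ x : X, orderOf x = p) ∧ ∃ x : X, orderOf x = n := by
  let K := GaloisField p k
  obtain ⟨g, hg⟩ := IsCyclic.exists_ofOrder_eq_natCard (α := Kˣ)
  rw [Nat.card_units, GaloisField.card p k hk] at hg
  obtain ⟨u, hu⟩ := H27.exists_orderOf_eq_of_dvd (hg ▸ hn)
  have hV : ∀ v : Multiplicative K, v ^ p = 1 := fun v => by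
    change p • v.toAdd = 0
    simp
  refine ⟨Multiplicative K ⋊[H27.actHom (zpowers u) K] zpowers u, inferInstance, inferInstance,
    solvable_of_ker_le_range SemidirectProduct.inl SemidirectProduct.rightHom SemidirectProduct.range_inl_eq_ker_rightHom.ge,
    fun x => ?_, ⟨.inl (.ofAdd 1), ?_⟩, ⟨.inr ⟨u, mem_zpowers u⟩, ?_⟩⟩
  · by_cases h : x.right = 1
    · left
      simpa using H27.sd_pow_mul_eq_one x 1 p (by simpa using h) hV
    · refine Or.inr (H27.sd_pow_eq_one_of_fpf x n ?_ fun a ha => ?_)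
      · rw [← hu, ← Nat.card_zpowers, pow_card_eq_one']
      · by_contra a1
        exact h (Subtype.ext (Units.ext (mul_right_cancel₀ (b := a.toAdd) a1 (Eq.trans (b := a.toAdd) ha (one_mul _).symm))))
  · rw [orderOf_injective _ SemidirectProduct.inl_injective]
    exact orderOf_eq_prime (hV _) (by simp)
  · rw [orderOf_injective _ SemidirectProduct.inr_injective, ← orderOf_coe, hu]

/-- Let q ≥ 4 be a prime power and L = PSL(2,q). There is a finite solvable group with the same set of element orders as L × L (so L × L is not determined by its spectrum). -/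
theorem result {F : Type*} [Field F] [Fintype F] (hF : 4 ≤ Fintype.card F) :
    ∃ (H : Type) (_ : Group H) (_ : Finite H), Group.IsSolvable H ∧
      Set.range (orderOf : H → ℕ) = Set.range (orderOf : Matrix.ProjectiveSpecialLinearGroup (Fin 2) F × Matrix.ProjectiveSpecialLinearGroup (Fin 2) F → ℕ) := by
  obtain ⟨p, _, f, hp, hf⟩ := FiniteField.card' F
  haveI := Fact.mk hp
  obtain ⟨u, hu⟩ := exists_orderOf_sub (F := F) hF
  obtain ⟨v, hv⟩ := exists_orderOf_add (F := F)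
  obtain ⟨w, hw⟩ := exists_orderOf_char (F := F) p
  have hq := char_dvd_card (F := F) p
  have h2 : p ^ (f * 2 : ℕ) - 1 = (Fintype.card F + 1) * (Fintype.card F - 1) := by
    rw [pow_mul, ← hf, ← Nat.sq_sub_sq, one_pow]
  obtain ⟨A, _, _, _, a1, ⟨x, hx⟩, x', hx'⟩ := frob (p := p) (k := f * 2) (n := orderOf u) (by simp)
    (h2 ▸ (hu ▸ dvd_mul_left _ _ :).mul_left _)
  obtain ⟨B, _, _, _, b1, ⟨y, hy⟩, y', hy'⟩ := frob (p := p) (k := f * 2) (n := orderOf v) (by simp)
    (h2 ▸ (hv ▸ dvd_mul_left _ _ :).mul_right _)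
  have c1 : p.Coprime (orderOf u) := hp.coprime_iff_not_dvd.2 fun h => hp.ne_one (Nat.dvd_one.1
    ((Nat.dvd_add_right (hu ▸ h.mul_left _ : p ∣ Fintype.card F - 1)).1 (by rwa [Nat.sub_add_cancel (by omega)])))
  have c2 : p.Coprime (orderOf v) := hp.coprime_iff_not_dvd.2 fun h => hp.ne_one (Nat.dvd_one.1
    ((Nat.dvd_add_right hq).1 (hv ▸ h.mul_left _)))
  have c3 : (orderOf u).Coprime (orderOf v) := by
    rcases dd_cases (F := F) with ⟨h, e⟩ | ⟨h, e⟩ <;> rw [e] at hu hv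
    · rw [show orderOf v = 2 + orderOf u by omega, Nat.coprime_add_self_right, Nat.coprime_two_right, Nat.odd_iff]; omega
    · rw [show orderOf v = 1 + orderOf u by omega, Nat.coprime_add_self_right]; simp
  have l1 : ∀ g : Matrix.ProjectiveSpecialLinearGroup (Fin 2) F, g ^ p = 1 ∨ g ^ orderOf u = 1 ∨ g ^ orderOf v = 1 :=
    fun g => (orderOf_psl p g).imp_right (Or.imp
      (fun h => orderOf_dvd_iff_pow_eq_one.1 (Nat.dvd_of_mul_dvd_mul_left dd_pos (hu ▸ h)))
      (fun h => orderOf_dvd_iff_pow_eq_one.1 (Nat.dvd_of_mul_dvd_mul_left dd_pos (hv ▸ h))))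
  refine ⟨A × B, inferInstance, inferInstance, inferInstance,
    H27.range_eq_of_max₂ [p * orderOf u, p * orderOf v, orderOf u * orderOf v] (fun z => ?_) ?_ (fun z => ?_) ?_⟩
  · rcases a1 z.1 with h | h <;> rcases b1 z.2 with h' | h' <;>
      simp [Prod.ext_iff, k1 h, k2 h, k1 h', k2 h']
  · simp only [List.mem_cons, List.not_mem_nil, or_false, forall_eq_or_imp, forall_eq]
    exact ⟨⟨(x', y), by rw [Prod.orderOf, hx', hy, Nat.lcm_comm, c1.lcm_eq_mul]⟩,
      ⟨(x, y'), by rw [Prod.orderOf, hx, hy', c2.lcm_eq_mul]⟩, ⟨(x', y'), by rw [Prod.orderOf, hx', hy', c3.lcm_eq_mul]⟩⟩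
  · rcases l1 z.1 with h | h | h <;> rcases l1 z.2 with h' | h' | h' <;>
      simp [Prod.ext_iff, k1 h, k2 h, k1 h', k2 h']
  · simp only [List.mem_cons, List.not_mem_nil, or_false, forall_eq_or_imp, forall_eq]
    exact ⟨⟨(w, u), by rw [Prod.orderOf, hw, c1.lcm_eq_mul]⟩,
      ⟨(w, v), by rw [Prod.orderOf, hw, c2.lcm_eq_mul]⟩, ⟨(u, v), by rw [Prod.orderOf, c3.lcm_eq_mul]⟩⟩

end Cfsg.Agent.S3532
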