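import Mathlib
import Cfsg.Statements.S3548
import Cfsg.Agent.H06.Derange
import Cfsg.Agent.H18.Sharp2

set_option autoImplicit false
open Cfsg

namespace Cfsg.Agent.S3548

open MulAction H06

/-- Let G act faithfully and transitively on a finite set with n ≥ 2 points and let D be the subgroup generated by the derangements. Then the index of D in G divides n − 1, and if it equals n − 1 then n is a prime power. -/
theorem result {G Ω : Type*} [Group G] [Finite G] [MulAction G Ω] [FaithfulSMul G Ω] [Finite Ω]
    (htrans : MulAction.IsPretransitive G Ω) (hΩ : 2 ≤ Nat.card Ω) :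
    (Subgroup.closure {g : G | ∀ ω : Ω, g • ω ≠ ω}).index ∣ Nat.card Ω - 1 ∧
    ((Subgroup.closure {g : G | ∀ ω : Ω, g • ω ≠ ω}).index = Nat.card Ω - 1 → IsPrimePow (Nat.card Ω)) := by
  classical
  have : Nonempty Ω := (Nat.card_pos_iff.1 (by omega : 0 < Nat.card Ω)).1
  refine ⟨index_der_dvd_card, fun hi => ?_⟩
  have := Fintype.ofFinite Ω
  have hD := der_trans (G := G) (Ω := Ω)
  -- every orbit of a point stabiliser on the other points is everything
  have horb : ∀ a b : Ω, a ≠ b → orbit (stabilizer G a) b = {a}ᶜ := by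
    intro a b hab
    have hna : a ∉ orbit (stabilizer G a) b := by
      rintro ⟨g, hg⟩
      have h1 : (g : G) • b = a := hg
      have h2 : (g : G) • a = a := g.2
      exact hab (smul_left_cancel (g : G) (h2.trans h1.symm))
    have h1 := index_der_dvd (G := G) a (orbit (stabilizer G a) b) hna
      (fun g hg x hx => by
        obtain ⟨k, rfl⟩ := hx
        exact ⟨(⟨g, hg⟩ : stabilizer G a) * k, mul_smul _ _ _⟩)
    apply Set.eq_of_subset_of_ncard_le (Set.subset_compl_singleton_iff.2 hna)
    rw [Set.ncard_compl, Set.ncard_singleton, ← hi]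
    exact Nat.le_of_dvd ((Set.ncard_pos).2 ⟨b, mem_orbit_self b⟩) h1
  have h2 : IsMultiplyPretransitive G Ω 2 := by
    rw [H18.mt_two_iff]
    intro a b c d hab hcd
    obtain ⟨g, hg⟩ := exists_smul_eq G a c
    have hne : c ≠ g • b := by rw [← hg]; exact fun h => hab (smul_left_cancel g h)
    have : d ∈ orbit (stabilizer G c) (g • b) := by rw [horb c _ hne]; exact hcd.symm
    obtain ⟨k, hk⟩ := this
    refine ⟨k * g, ?_, ?_⟩
    · rw [mul_smul, hg]; exact k.2
    · rw [mul_smul]; exact hk
  -- the stabiliser in `D` is trivial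
  have hst : ∀ a : Ω, ∀ g ∈ der G Ω, g • a = a → g = 1 := by
    intro a g hg hga
    apply FaithfulSMul.eq_of_smul_eq_smul (α := Ω)
    intro b
    rw [one_smul]
    by_cases hab : a = b
    · rw [← hab]; exact hga
    have e1 : (stabilizer (stabilizer G a) b).index = Nat.card Ω - 1 := by
      rw [index_stabilizer, horb a b hab, Set.ncard_compl, Set.ncard_singleton]
    have e2 : ((der G Ω).subgroupOf (stabilizer G a)).index = Nat.card Ω - 1 := by
      rw [← hi]; exact relIndex_stabilizer_of_trans _ a
    have hle : stabilizer (stabilizer G a) b ≤ (der G Ω).subgroupOf (stabilizer G a) :=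
      fun x hx => mem_der_of_two hab x.2 hx
    have heq : stabilizer (stabilizer G a) b = (der G Ω).subgroupOf (stabilizer G a) := by
      apply Subgroup.eq_of_le_of_card_ge hle
      have c1 := (stabilizer (stabilizer G a) b).card_mul_index
      have c2 := ((der G Ω).subgroupOf (stabilizer G a)).card_mul_index
      rw [e1] at c1; rw [e2, ← c1] at c2
      exact (Nat.eq_of_mul_eq_mul_right (by omega) c2).le
    have : (⟨g, hga⟩ : stabilizer G a) ∈ stabilizer (stabilizer G a) b := by rw [heq]; exact hg
    exact this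
  obtain ⟨p, j, hp, hj, hc, -⟩ := H18.frob_normal_struct h2 (by rwa [← Nat.card_eq_fintype_card])
    (der G Ω) hD (fun g hg a b _ ha _ => hst a g hg ha)
  rw [Nat.card_eq_fintype_card, hc]
  exact ⟨p, j, hp.prime, hj, rfl⟩

end Cfsg.Agent.S3548
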