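import Mathlib
import Cfsg.Statements.S3549
import Cfsg.Agent.H06.Derange

set_option autoImplicit false
open Cfsg

namespace Cfsg.Agent.S3549

open MulAction H06
open scoped Pointwise

/-- Let G act faithfully, transitively but imprimitively on a finite set with n points, and let D be the subgroup generated by the derangements. Then the index of D in G is at most √n − 1. -/
theorem result {G Ω : Type*} [Group G] [Finite G] [MulAction G Ω] [FaithfulSMul G Ω] [Finite Ω]
    (htrans : MulAction.IsPretransitive G Ω) (himp : ¬ MulAction.IsPreprimitive G Ω) :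
    ((Subgroup.closure {g : G | ∀ ω : Ω, g • ω ≠ ω}).index : ℝ) ≤ Real.sqrt (Nat.card Ω) - 1 := by
  classical
  obtain ⟨B, hB, hnt⟩ : ∃ B : Set Ω, IsBlock G B ∧ ¬ IsTrivialBlock B := by
    by_contra h
    push Not at h
    exact himp ⟨fun hB => h _ hB⟩
  have hns : ¬ B.Subsingleton := fun h => hnt (Or.inl h)
  have hnu : B ≠ Set.univ := fun h => hnt (Or.inr h)
  rw [Set.not_subsingleton_iff] at hns
  obtain ⟨a, ha, b, hb, hab⟩ := hns
  have hmul := hB.ncard_block_mul_ncard_orbit_eq ⟨a, ha⟩
  -- index divides `|B| - 1`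
  have h1 := index_der_dvd (G := G) a (B \ {a}) (by simp) (fun g hg x hx => by
    have e : g • B = B := hB.stabilizer_le ha hg
    refine ⟨e ▸ Set.smul_mem_smul_set hx.1, fun h => hx.2 ?_⟩
    rw [Set.mem_singleton_iff] at h ⊢
    rw [← hg] at h; exact smul_left_cancel g h)
  rw [Set.ncard_diff_singleton_of_mem ha] at h1
  have hB2 : 2 ≤ B.ncard := (Set.one_lt_ncard (Set.toFinite B)).2 ⟨a, ha, b, hb, hab⟩
  -- action on the blocks
  have : Finite (orbit G B) := Set.toFinite _
  have : Nonempty (orbit G B) := ⟨⟨B, mem_orbit_self B⟩⟩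
  have h2 := index_der_dvd_card (G := G) (Ω := orbit G B)
  have hle : der G (orbit G B) ≤ der G Ω := by
    apply Subgroup.closure_mono
    intro g hg ω hω
    obtain ⟨k, rfl⟩ := exists_smul_eq G a ω
    apply hg ⟨k • B, mem_orbit B k⟩
    apply Subtype.ext
    exact (hB.translate k).stabilizer_le (Set.smul_mem_smul_set ha) hω
  have h3 := (Subgroup.index_dvd_of_le hle).trans h2
  rw [Nat.card_coe_set_eq] at h3
  have hO2 : 2 ≤ (orbit G B).ncard := by
    by_contra h
    have hpos : 0 < (orbit G B).ncard := (Set.ncard_pos (Set.toFinite _)).2 ⟨B, mem_orbit_self B⟩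
    have : (orbit G B).ncard = 1 := by omega
    rw [this, mul_one] at hmul
    exact hnu (Set.eq_of_subset_of_ncard_le (Set.subset_univ _) (by rw [Set.ncard_univ, hmul]))
  have i1 := Nat.le_of_dvd (by omega) h1
  have i2 := Nat.le_of_dvd (by omega) h3
  set i := (der G Ω).index
  have i3 : (i + 1) * (i + 1) ≤ Nat.card Ω := by
    rw [← hmul]; exact Nat.mul_le_mul (by omega) (by omega)
  rw [le_sub_iff_add_le]
  apply Real.le_sqrt_of_sq_le
  rw [sq]; exact_mod_cast i3

end Cfsg.Agent.S3549
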