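import Mathlib
import Cfsg.Statements.S3560
import Cfsg.Agent.H18.Prim

set_option autoImplicit false
open Cfsg

namespace Cfsg.Agent.S3560

def adj {ι α : Type*} (x y : ι → α) : Prop := ∃ i, ∀ j, j ≠ i → x j = y j

def wr {ι α : Type*} (π : Equiv.Perm ι) (σ : ι → Equiv.Perm α) : Equiv.Perm (ι → α) :=
  (Equiv.arrowCongr π.symm (Equiv.refl α)).trans (Equiv.piCongrRight σ)

theorem wr_apply {ι α : Type*} (π : Equiv.Perm ι) (σ : ι → Equiv.Perm α) (x : ι → α) (i : ι) :
    wr π σ x i = σ i (x (π i)) := rfl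

theorem adj_wr {ι α : Type*} (π : Equiv.Perm ι) (σ : ι → Equiv.Perm α) (x y : ι → α) :
    adj (wr π σ x) (wr π σ y) ↔ adj x y := by
  constructor
  · rintro ⟨i, h⟩
    refine ⟨π i, fun j hj => ?_⟩
    have := h (π.symm j) fun e => hj (by rw [← e, Equiv.apply_symm_apply])
    rwa [wr_apply, wr_apply, (σ _).injective.eq_iff, Equiv.apply_symm_apply] at this
  · rintro ⟨i, h⟩
    exact ⟨π.symm i, fun j hj => by rw [wr_apply, wr_apply, h _ fun e => hj (by rw [← e, Equiv.symm_apply_apply])]⟩

theorem core {ι : Type*} [Fintype ι] {m : ℕ} (hm : 3 ≤ m) (r : (ι → Fin m) → (ι → Fin m) → Prop) (hr : Equivalence r)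
    (hi : ∀ π σ x y, r x y → r (wr π σ x) (wr π σ y)) {a b : ι → Fin m} (hab : a ≠ b) (h : r a b) (x y : ι → Fin m) :
    r x y := by
  classical
  obtain ⟨i, hi'⟩ := Function.ne_iff.1 hab
  obtain ⟨c, hc⟩ : ∃ c, c ∉ ({a i, b i} : Finset (Fin m)) := by
    by_contra hn
    push Not at hn
    have := Finset.card_le_card (show Finset.univ ⊆ ({a i, b i} : Finset (Fin m)) from fun c _ => hn c)
    have h2 := Finset.card_le_two (a := a i) (b := b i)
    simp only [Finset.card_univ, Fintype.card_fin] at this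
    omega
  simp only [Finset.mem_insert, Finset.mem_singleton, not_or] at hc
  have h1 : r b (Function.update b i c) := by
    have := hi 1 (Function.update 1 i (Equiv.swap (b i) c)) _ _ h
    have e1 : wr 1 (Function.update 1 i (Equiv.swap (b i) c)) a = a := by
      ext1 j
      by_cases e : j = i
      · subst e; simp [wr_apply, Equiv.swap_apply_of_ne_of_ne hi' (Ne.symm hc.1)]
      · simp [wr_apply, e]
    have e2 : wr 1 (Function.update 1 i (Equiv.swap (b i) c)) b = Function.update b i c := by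
      ext1 j
      by_cases e : j = i
      · subst e; simp [wr_apply]
      · simp [wr_apply, e]
    rw [e1, e2] at this
    exact hr.trans (hr.symm h) this
  have h2 : ∀ (x : ι → Fin m) j t, r x (Function.update x j t) := by
    intro x j t
    by_cases ht : t = x j
    · rw [ht, Function.update_eq_self]; exact hr.refl x
    obtain ⟨τ, t1, t2⟩ := H18.mt_two_iff.1 (Equiv.Perm.isMultiplyPretransitive (Fin m) 2) (b i) c (x j) t (Ne.symm hc.2)
      (Ne.symm ht)
    have := hi (Equiv.swap i j) (Function.update (fun k => Equiv.swap (b (Equiv.swap i j k)) (x k)) j τ) _ _ h1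
    convert this using 1
    · ext1 k
      by_cases e : k = j
      · subst e; simpa [wr_apply] using t1.symm
      · simp [wr_apply, e]
    · ext1 k
      by_cases e : k = j
      · subst e; simpa [wr_apply] using t2.symm
      · have : Equiv.swap i j k ≠ i := fun e' => e (by simpa using congrArg (Equiv.swap i j) e')
        simp [wr_apply, e, this]
  have h3 : ∀ s : Finset ι, r x (s.piecewise y x) := by
    intro s
    induction s using Finset.induction_on with
    | empty => rw [Finset.piecewise_empty]; exact hr.refl x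
    | insert j s _ ih => rw [Finset.piecewise_insert]; exact hr.trans ih (h2 _ _ _)
  simpa using h3 Finset.univ

/-- Let K be a finite group isomorphic to a direct product of r ≥ 2 groups all of the same order m ≥ 3. Then K is not a B-group: there is a primitive but not doubly transitive permutation group (on some finite set) containing a regular subgroup isomorphic to K. -/
theorem result {K : Type*} [Group K] [Finite K] {ι : Type*} [Fintype ι] (F : ι → Type*) [∀ i, Group (F i)]
    (hr : 2 ≤ Fintype.card ι) (m : ℕ) (hm : 3 ≤ m) (hcard : ∀ i, Nat.card (F i) = m) (e : K ≃* (∀ i, F i)) :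
    ∃ (n : ℕ) (G R : Subgroup (Equiv.Perm (Fin n))), R ≤ G ∧ Nonempty (↥R ≃* K) ∧
      MulAction.IsPretransitive ↥R (Fin n) ∧ (∀ a : Fin n, MulAction.stabilizer ↥R a = ⊥) ∧
      MulAction.IsPreprimitive ↥G (Fin n) ∧ ¬ MulAction.IsMultiplyPretransitive ↥G (Fin n) 2 := by
  classical
  have : ∀ i, Finite (F i) := fun i => Nat.finite_of_card_ne_zero (by rw [hcard]; omega)
  let ε : ∀ i, F i ≃ Fin m := fun i => Finite.equivFinOfCardEq (hcard i)
  let φ := Finite.equivFin (ι → Fin m)
  let G : Subgroup (Equiv.Perm (Fin (Nat.card (ι → Fin m)))) :=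
    { carrier := {σ | ∀ a b, adj (φ.symm (σ a)) (φ.symm (σ b)) ↔ adj (φ.symm a) (φ.symm b)}
      one_mem' := fun _ _ => Iff.rfl
      mul_mem' := fun {s t} hs ht a b => (hs _ _).trans (ht _ _)
      inv_mem' := fun {s} hs a b => by simpa using (hs (s⁻¹ a) (s⁻¹ b)).symm }
  have hG : ∀ π σ, φ.permCongr (wr π σ) ∈ G := fun π σ a b => by simp [adj_wr]
  let ρ : K →* Equiv.Perm (Fin (Nat.card (ι → Fin m))) := MonoidHom.mk'
    (fun k => φ.permCongr (wr 1 fun i => (ε i).permCongr (Equiv.mulLeft (e k i)))) fun a b => by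
      ext1 x
      simp only [Equiv.permCongr_apply, Equiv.Perm.mul_apply, Equiv.symm_apply_apply, EmbeddingLike.apply_eq_iff_eq]
      ext1 i
      simp [wr_apply, mul_assoc]
  have hρ : ∀ k x i, φ.symm (ρ k x) i = ε i (e k i * (ε i).symm (φ.symm x i)) := fun k x i => by simp [ρ, wr_apply]
  have hreg : ∀ k a, ρ k a = a → k = 1 := by
    intro k a h
    apply e.injective
    ext1 i
    have := hρ k a i
    rw [h, ← Equiv.symm_apply_eq] at this
    simpa using this
  have htr : ∀ a b, ∃ k, ρ k a = b := fun a b => ⟨e.symm fun i => (ε i).symm (φ.symm b i) * ((ε i).symm (φ.symm a i))⁻¹, by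
    apply φ.symm.injective
    ext1 i
    simp [hρ]⟩
  have hle : ρ.range ≤ G := by rintro _ ⟨k, rfl⟩; exact hG _ _
  have x0 : ι → Fin m := fun _ => ⟨0, by omega⟩
  have : MulAction.IsPretransitive G (Fin (Nat.card (ι → Fin m))) := ⟨fun a b => by
    obtain ⟨k, h⟩ := htr a b
    exact ⟨⟨_, hle ⟨k, rfl⟩⟩, h⟩⟩
  refine ⟨_, G, ρ.range, hle, ⟨(MonoidHom.ofInjective ((injective_iff_map_eq_one ρ).2 fun k hk =>
    hreg k (φ x0) (by rw [hk]; rfl))).symm⟩, ⟨fun a b => ?_⟩, fun a => (Subgroup.eq_bot_iff_forall _).2 ?_,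
    H18.prim_of_rel fun r hr hi a b hab h x y => ?_, fun h2 => ?_⟩
  · obtain ⟨k, h⟩ := htr a b
    exact ⟨⟨_, k, rfl⟩, h⟩
  · rintro ⟨_, k, rfl⟩ h
    exact Subtype.ext ((congrArg ρ (hreg k a h)).trans (map_one ρ))
  · have := core hm (fun s t => r (φ s) (φ t)) ⟨fun _ => hr.refl _, hr.symm, hr.trans⟩ (fun π σ s t h => by
      simpa [Subgroup.smul_def] using hi ⟨_, hG π σ⟩ _ _ h) (a := φ.symm a) (b := φ.symm b) (φ.symm.injective.ne hab)
      (by simpa using h) (φ.symm x) (φ.symm y)
    simpa using this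
  · obtain ⟨i, j, hij⟩ := Fintype.exists_pair_of_one_lt_card (show 1 < Fintype.card ι by omega)
    let z : Fin m := ⟨0, by omega⟩
    let o : Fin m := ⟨1, by omega⟩
    have zo : z ≠ o := by simp [z, o]
    obtain ⟨g, g1, g2⟩ := H18.mt_two_iff.1 h2 (φ fun _ => z) (φ (Function.update (fun _ => z) i o)) (φ fun _ => z)
      (φ fun _ => o) (φ.injective.ne fun e => zo (by simpa using congrFun e i)) (φ.injective.ne fun e => zo (congrFun e i))
    have := (g.2 (φ fun _ => z) (φ (Function.update (fun _ => z) i o))).2 ⟨i, fun k hk => by simp [hk]⟩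
    rw [show g.1 _ = _ from g1, show g.1 _ = _ from g2] at this
    obtain ⟨k, hk⟩ := this
    by_cases e : i = k
    · exact zo (by simpa using hk j (e ▸ hij.symm))
    · exact zo (by simpa using hk i e)

end Cfsg.Agent.S3560
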