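import Mathlib
import Cfsg.Statements.S3573
import Cfsg.Agent.H18.Gleason

set_option autoImplicit false
open Cfsg

namespace Cfsg.Agent.S3573

open Equiv.Perm

theorem main (n k r : ℕ) (hkn : k ≤ n) (hr : r.Prime) (hrn : r ≤ n) :
    (∀ σ : Equiv.Perm (Fin n), orderOf σ = r → ∃ s : Finset (Fin n), s.card = k ∧ s.image σ = s) ↔
      k % r ≤ n % r := by
  classical
  have := Fact.mk hr
  constructor
  · intro h
    obtain ⟨g, hg⟩ := (exists_with_cycleType_iff (Fin n) (m := Multiset.replicate (n / r) r)).2
      ⟨by simp [Nat.div_mul_le_self], fun a ha => by rw [Multiset.eq_of_mem_replicate ha]; exact hr.two_le⟩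
    have hpos : 0 < n / r := Nat.div_pos hrn hr.pos
    have ho : orderOf g = r := by
      rw [← lcm_cycleType, hg]
      apply Nat.dvd_antisymm
      · exact Multiset.lcm_dvd.2 (fun b hb => by rw [Multiset.eq_of_mem_replicate hb])
      · exact Multiset.dvd_lcm (Multiset.mem_replicate.2 ⟨hpos.ne', rfl⟩)
    obtain ⟨s, hs, hinv⟩ := h g ho
    have h1 := sum_cycleType g
    rw [hg, Multiset.sum_replicate, smul_eq_mul] at h1
    have hP : IsPGroup r (Subgroup.zpowers g) := IsPGroup.of_card (n := 1) (by rw [Nat.card_zpowers, ho, pow_one])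
    have h2 := H18.ncard_modEq_fixed (Subgroup.zpowers g) hP (s : Set (Fin n)) (Set.toFinite _) (by
      intro x hx a ha
      obtain ⟨j, rfl⟩ := (mem_powers_iff_mem_zpowers.2 hx)
      induction j with
      | zero => simpa using ha
      | succ j ih =>
        have := ih (Subgroup.pow_mem _ (Subgroup.mem_zpowers g) j)
        change (g ^ (j + 1)) a ∈ s
        rw [pow_succ', mul_apply, ← hinv]; exact Finset.mem_image_of_mem _ this)
    have h3 : ((s : Set (Fin n)) ∩ MulAction.fixedPoints (Subgroup.zpowers g) (Fin n)).ncard ≤ n % r := by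
      have : ((s : Set (Fin n)) ∩ MulAction.fixedPoints (Subgroup.zpowers g) (Fin n)) ⊆ (g.supportᶜ : Finset _) := by
        intro a ha
        simp only [Finset.coe_compl, Set.mem_compl_iff, Finset.mem_coe, mem_support, not_not]
        exact ha.2 ⟨g, Subgroup.mem_zpowers g⟩
      refine (Set.ncard_le_ncard this).trans ?_
      rw [Set.ncard_coe_finset, Finset.card_compl, ← h1, Fintype.card_fin]
      have := Nat.div_add_mod' n r
      omega
    rw [Set.ncard_coe_finset, hs] at h2
    rw [h2]
    exact (Nat.mod_le _ _).trans h3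
  · intro h σ hσ
    obtain ⟨c, hc⟩ := cycleType_prime_order (hσ ▸ hr)
    rw [hσ] at hc
    have h1 := sum_cycleType σ
    rw [hc, Multiset.sum_replicate, smul_eq_mul] at h1
    have hle : (c + 1) * r ≤ n := by rw [h1]; simpa using Finset.card_le_univ σ.support
    have hcard : σ.cycleFactorsFinset.card = c + 1 := by
      have := congrArg Multiset.card hc
      rwa [cycleType_def, Multiset.card_map, Multiset.card_replicate] at this
    obtain ⟨a, b, ha, hb, hab⟩ : ∃ a b, a ≤ c + 1 ∧ b + (c + 1) * r ≤ n ∧ k = a * r + b := by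
      by_cases h2 : k / r ≤ c + 1
      · refine ⟨k / r, k % r, h2, ?_, (Nat.div_add_mod' k r).symm⟩
        have := Nat.div_add_mod' n r
        have h3 : c + 1 ≤ n / r := (Nat.le_div_iff_mul_le hr.pos).2 hle
        have := Nat.mul_le_mul_right r h3
        omega
      · have h3 : (c + 1) * r ≤ k := (Nat.le_div_iff_mul_le hr.pos).1 (by omega)
        exact ⟨c + 1, k - (c + 1) * r, le_rfl, by omega, by omega⟩
    obtain ⟨T, hT, hTa⟩ := Finset.exists_subset_card_eq (hcard ▸ ha)
    obtain ⟨F, hF, hFb⟩ := Finset.exists_subset_card_eq (s := σ.supportᶜ) (n := b) (by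
      rw [Finset.card_compl, ← h1, Fintype.card_fin]; omega)
    have hT1 : (T.biUnion support).card = a * r := by
      rw [Finset.card_biUnion, Finset.sum_const_nat (m := r), hTa]
      · intro x hx
        have : x.support.card ∈ σ.cycleType := by
          rw [cycleType_def]; exact Multiset.mem_map_of_mem _ (hT hx)
        rw [hc] at this
        exact Multiset.eq_of_mem_replicate this
      · intro x hx y hy hxy
        exact (cycleFactorsFinset_pairwise_disjoint σ (hT hx) (hT hy) hxy).disjoint_support
    have hdisj : Disjoint (T.biUnion support) F := by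
      rw [Finset.disjoint_left]
      intro x hx hxF
      obtain ⟨y, hy, hxy⟩ := Finset.mem_biUnion.1 hx
      exact Finset.mem_compl.1 (hF hxF) (mem_cycleFactorsFinset_support_le (hT hy) hxy)
    refine ⟨T.biUnion support ∪ F, by rw [Finset.card_union_of_disjoint hdisj, hT1, hFb, hab], ?_⟩
    apply Finset.eq_of_subset_of_card_le
    · intro y hy
      obtain ⟨x, hx, rfl⟩ := Finset.mem_image.1 hy
      rcases Finset.mem_union.1 hx with hx | hx
      · obtain ⟨z, hz, hxz⟩ := Finset.mem_biUnion.1 hx
        apply Finset.mem_union_left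
        refine Finset.mem_biUnion.2 ⟨z, hz, ?_⟩
        rw [← (mem_cycleFactorsFinset_iff.1 (hT hz)).2 x hxz]
        exact apply_mem_support.2 hxz
      · have := Finset.mem_compl.1 (hF hx)
        rw [mem_support, not_not] at this
        rw [this]; exact Finset.mem_union_right _ hx
    · rw [Finset.card_image_of_injective _ σ.injective]

/-- Let 1 ≤ k with 2k < n and consider the symmetric group of degree n acting on the k-subsets of an n-set. Let r be a prime dividing the number C(n,k) of k-subsets. If r is odd, then every permutation of order r fixes some k-subset if and only if r ≤ k and the remainder of k modulo r is at most the remainder of n modulo r. If r = 2, then every involution fixes some k-subset if and only if k is even or n is odd. -/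
theorem result (n k : ℕ) (hk : 1 ≤ k) (hkn : 2 * k < n) (r : ℕ) (hr : r.Prime) (hrd : r ∣ Nat.choose n k) :
    (r ≠ 2 → ((∀ σ : Equiv.Perm (Fin n), orderOf σ = r → ∃ s : Finset (Fin n), s.card = k ∧ s.image σ = s) ↔
      (r ≤ k ∧ k % r ≤ n % r))) ∧
    (r = 2 → ((∀ σ : Equiv.Perm (Fin n), orderOf σ = 2 → ∃ s : Finset (Fin n), s.card = k ∧ s.image σ = s) ↔
      (Even k ∨ Odd n))) := by
  have := Fact.mk hr
  have hrn : r ≤ n := by
    by_contra h
    exact (Nat.Prime.coprime_iff_not_dvd hr).1
      ((Nat.Prime.coprime_choose_of_lt hr (by omega) (by omega : k ≤ n))) hrd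
  have hm := main n k r (by omega) hr hrn
  refine ⟨fun _ => ?_, fun h2 => ?_⟩
  · rw [hm]
    refine ⟨fun h => ⟨?_, h⟩, fun h => h.2⟩
    by_contra hlt
    have h1 := Choose.choose_modEq_choose_mod_mul_choose_div_nat (n := n) (k := k) (p := r)
    rw [Nat.div_eq_of_lt (show k < r by omega), Nat.choose_zero_right, mul_one] at h1
    have h2 := (h1.dvd_iff dvd_rfl).1 hrd
    exact (Nat.Prime.coprime_iff_not_dvd hr).1
      ((Nat.Prime.coprime_choose_of_lt hr (Nat.mod_lt _ hr.pos) h)) h2
  · subst h2
    rw [hm, Nat.even_iff, Nat.odd_iff]; omega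

end Cfsg.Agent.S3573
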