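import Mathlib
import Cfsg.Statements.S3575

set_option autoImplicit false
open scoped Pointwise
open Cfsg

namespace Cfsg.Agent.S3575

open Equiv Equiv.Perm Finset in
theorem supp {α : Type*} [Fintype α] [DecidableEq α] {r : ℕ} (hr : r.Prime) {σ : Perm α} (h : σ ^ r = 1) :
    ∃ t, #σ.support = t * r ∧ σ.cycleType = Multiset.replicate t r := by
  haveI := Fact.mk hr
  have e := cycleType_of_pow_prime_eq_one h
  exact ⟨_, by rw [← sum_cycleType, e]; simp, e⟩

open Equiv Equiv.Perm Finset in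
theorem ex (α : Type*) [Fintype α] [DecidableEq α] {r : ℕ} (hr : r.Prime) {t : ℕ} (h : t * r ≤ Fintype.card α) :
    ∃ σ : Perm α, σ ^ r = 1 ∧ #σ.support = t * r := by
  haveI := Fact.mk hr
  obtain ⟨σ, e⟩ := (exists_with_cycleType_iff α (m := Multiset.replicate t r)).2
    ⟨by simpa using h, fun a ha => Multiset.eq_of_mem_replicate ha ▸ hr.two_le⟩
  exact ⟨σ, pow_prime_eq_one_iff.2 fun c hc => Multiset.eq_of_mem_replicate (e ▸ hc), by rw [← sum_cycleType, e]; simp⟩

open Equiv Equiv.Perm Finset in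
theorem nec {α : Type*} [Fintype α] [DecidableEq α] {a b r : ℕ} (hr : r.Prime) (ha : 0 < a) {σ : Perm α}
    (h : σ ^ r = 1) (f : α → Fin b) (hf : ∀ j, #{x | f x = j} = a) (π : Perm (Fin b)) (hπ : ∀ x, f (σ x) = π (f x))
    {t : ℕ} (ht : #σ.support = t * r) : ∃ s, s * r ≤ b ∧ s * a ≤ t ∧ t ≤ s * a + (b - s * r) * (a / r) := by
  have e1 : ∀ n x, f ((σ ^ n) x) = (π ^ n) (f x) := fun n => by
    induction n with
    | zero => intro x; rfl
    | succ n ih => intro x; rw [pow_succ', pow_succ', mul_apply, mul_apply, hπ, ih]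
  obtain ⟨s, hs, -⟩ := supp hr (σ := π) (Equiv.ext fun j => by
    obtain ⟨x, hx⟩ := card_pos.1 (hf j ▸ ha)
    rw [← (mem_filter.1 hx).2, ← e1, h]; rfl)
  have e2 := card_eq_sum_card_fiberwise (f := f) (s := σ.support) (t := univ) fun _ _ => mem_univ _
  rw [← sum_add_sum_compl π.support, sum_congr rfl (g := fun _ => a) fun j hj => by
    rw [← hf j]
    congr 1
    ext x
    simp only [mem_filter, mem_univ, true_and, mem_support, and_iff_right_iff_imp]
    rintro rfl e
    exact mem_support.1 hj (by rw [← hπ, e]), sum_const, hs, ht, smul_eq_mul] at e2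
  have e3 : ∑ j ∈ π.supportᶜ, #{x ∈ σ.support | f x = j} ≤ (b - s * r) * (a / r * r) := by
    refine (sum_le_card_nsmul _ _ (a / r * r) fun j hj => ?_).trans (by
      rw [card_compl, hs, Fintype.card_fin, smul_eq_mul])
    have hj' : π j = j := by simpa using hj
    have hi : ∀ x, f (σ x) = j ↔ f x = j := fun x => by
      rw [hπ]; conv_lhs => rw [← hj']
      exact π.injective.eq_iff
    obtain ⟨c, hc, -⟩ := supp hr (σ := ofSubtype (σ.subtypePerm (p := fun x => f x = j) hi)) (by
      rw [← map_pow, subtypePerm_pow, show (σ ^ r).subtypePerm (p := fun x => f x = j) _ = 1 from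
        Equiv.ext fun x => by simp [h], map_one])
    have e4 : (ofSubtype (σ.subtypePerm (p := fun x => f x = j) hi)).support = {x ∈ σ.support | f x = j} := by
      ext x
      by_cases hx : f x = j
      · rw [mem_support, ofSubtype_subtypePerm_of_mem (p := fun x => f x = j) hi hx]; simp [hx]
      · rw [mem_support, ofSubtype_apply_of_not_mem (p := fun x => f x = j) _ hx]; simp [hx]
    rw [e4] at hc
    have e5 : c * r ≤ a := by
      rw [← hc, ← hf j]; exact card_le_card fun x hx => by simpa using (mem_filter.1 hx).2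
    rw [hc]
    exact Nat.mul_le_mul_right _ ((Nat.le_div_iff_mul_le hr.pos).2 e5)
  refine ⟨s, by rw [← hs]; simpa using card_le_univ π.support, Nat.le_of_mul_le_mul_right ?_ hr.pos,
    Nat.le_of_mul_le_mul_right ?_ hr.pos⟩
  · rw [e2, mul_right_comm]; exact Nat.le_add_right _ _
  · rw [e2, add_mul, mul_right_comm s a, mul_assoc (b - _)]; omega

open Finset in
theorem split {ι : Type*} [DecidableEq ι] (F : Finset ι) (m : ℕ) : ∀ N, N ≤ #F * m →
    ∃ c : ι → ℕ, (∀ j, c j ≤ m) ∧ (∀ j ∉ F, c j = 0) ∧ ∑ j ∈ F, c j = N := by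
  induction F using Finset.induction_on with
  | empty => intro N h; exact ⟨0, by simp, by simp, by simp at h; simp [h]⟩
  | insert i F hi ih =>
    intro N h
    rw [card_insert_of_notMem hi, add_mul, one_mul] at h
    obtain ⟨c, h1, h2, h3⟩ := ih (N - m) (by omega)
    refine ⟨Function.update c i (min N m), fun j => ?_, fun j hj => ?_, ?_⟩
    · by_cases e : j = i
      · subst e; simp
      · simpa [e] using h1 j
    · rw [mem_insert, not_or] at hj
      simpa [hj.1] using h2 j hj.2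
    · rw [sum_insert hi, Function.update_self, sum_congr rfl fun j hj =>
        Function.update_of_ne (ne_of_mem_of_not_mem hj hi) _ _, h3]
      omega

open Equiv Equiv.Perm Finset in
theorem suf {a b r s t : ℕ} (hr : r.Prime) (h1 : s * r ≤ b) (h2 : s * a ≤ t) (h3 : t ≤ s * a + (b - s * r) * (a / r)) :
    ∃ (τ : Perm (Fin b × Fin a)) (π : Perm (Fin b)), τ ^ r = 1 ∧ #τ.support = t * r ∧ ∀ x, (τ x).1 = π x.1 := by
  obtain ⟨π, p1, p2⟩ := ex (Fin b) hr (t := s) (by simpa using h1)
  obtain ⟨c, c1, c2, c3⟩ := split π.supportᶜ (a / r) (t - s * a) (by rw [card_compl, p2, Fintype.card_fin]; omega)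
  choose ρ r1 r2 using fun j => ex (Fin a) hr (t := c j) (by
    rw [Fintype.card_fin]; exact (Nat.le_div_iff_mul_le hr.pos).1 (c1 j))
  have r0 : ∀ j, π j ≠ j → ρ j = 1 := fun j hj => by
    rw [← support_eq_empty_iff, ← card_eq_zero, r2, c2 j (by simpa using hj), zero_mul]
  have rr : ∀ j, ρ (π j) = ρ j := fun j => by
    by_cases e : π j = j
    · rw [e]
    · rw [r0 j e, r0 _ fun e' => e (π.injective e')]
  let τ : Perm (Fin b × Fin a) := prodShear π ρ
  have e0 : ∀ x, τ x = (π x.1, ρ x.1 x.2) := fun _ => rfl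
  have e1 : ∀ n x, (τ ^ n) x = ((π ^ n) x.1, (ρ x.1 ^ n) x.2) := fun n => by
    induction n with
    | zero => intro x; rfl
    | succ n ih => intro x; rw [pow_succ, pow_succ, pow_succ, mul_apply, ih, e0, rr]; rfl
  refine ⟨τ, π, Equiv.ext fun x => by rw [e1, p1, r1]; rfl, ?_, fun _ => rfl⟩
  have e2 : ∀ (j : Fin b) (S : Finset (Fin a)), (∀ y, y ∈ S ↔ τ (j, y) ≠ (j, y)) →
      #{x ∈ τ.support | x.1 = j} = #S := fun j S hS => by
    refine (card_nbij (fun y => (j, y)) (fun y hy => by simpa using (hS y).1 hy) (fun y _ y' _ e => (Prod.ext_iff.1 e).2)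
      ?_).symm
    rintro ⟨j', y⟩ hx
    obtain ⟨x1, rfl⟩ : τ (j', y) ≠ (j', y) ∧ j' = j := by simpa using hx
    exact ⟨y, (hS y).2 x1, rfl⟩
  rw [card_eq_sum_card_fiberwise (f := Prod.fst) (s := τ.support) (t := univ) fun _ _ => mem_univ _,
    ← sum_add_sum_compl π.support, sum_congr rfl (g := fun _ => a) fun j hj => by
      rw [e2 j univ fun y => by simp [e0, mem_support.1 hj]]; simp,
    sum_congr rfl (s₁ := π.supportᶜ) (g := fun j => c j * r) fun j hj => by
      rw [e2 j (ρ j).support fun y => by simp [e0, show π j = j by simpa using hj], r2],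
    ← sum_mul, c3, sum_const, p2, smul_eq_mul, mul_right_comm, ← add_mul, Nat.add_sub_cancel' h2]

open Equiv Equiv.Perm Finset in
theorem red {a b r : ℕ} (hr : r.Prime) (ha : 0 < a) : (∀ σ : Equiv.Perm (Fin (a * b)), orderOf σ = r →
      ∃ f : Fin (a * b) → Fin b, (∀ j : Fin b, Nat.card {x : Fin (a * b) // f x = j} = a) ∧
        ∃ π : Equiv.Perm (Fin b), ∀ x : Fin (a * b), f (σ x) = π (f x)) ↔
    ∀ t, 1 ≤ t → t * r ≤ a * b → ∃ s, s * r ≤ b ∧ s * a ≤ t ∧ t ≤ s * a + (b - s * r) * (a / r) := by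
  haveI := Fact.mk hr
  refine ⟨fun H t t1 t2 => ?_, fun H σ hσ => ?_⟩
  · obtain ⟨σ, s1, s2⟩ := ex (Fin (a * b)) hr (t := t) (by simpa using t2)
    obtain ⟨f, hf, π, hπ⟩ := H σ (orderOf_eq_prime s1 fun e => by
      rw [e, support_one, card_empty] at s2
      exact (Nat.mul_pos t1 hr.pos).ne s2)
    exact nec hr ha s1 f (fun j => by rw [← Fintype.card_subtype, ← Nat.card_eq_fintype_card, hf]) π hπ s2
  have s1 : σ ^ r = 1 := hσ ▸ pow_orderOf_eq_one σ
  obtain ⟨t, t1, t2⟩ := supp hr s1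
  obtain ⟨s, h1, h2, h3⟩ := H t (Nat.pos_of_ne_zero fun e => by
    rw [e, zero_mul, card_eq_zero, support_eq_empty_iff] at t1
    rw [t1, orderOf_one] at hσ
    exact hr.ne_one hσ.symm) (by rw [← t1]; simpa using card_le_univ σ.support)
  obtain ⟨τ, π, p1, p2, p3⟩ := suf hr h1 h2 h3
  let e : Fin b × Fin a ≃ Fin (a * b) := finProdFinEquiv.trans (finCongr (mul_comm b a))
  obtain ⟨t', q1, q2⟩ := supp hr (σ := e.permCongrHom τ) (by rw [← map_pow, p1, map_one])
  have q3 : #(e.permCongrHom τ).support = #τ.support :=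
    card_equiv e.symm fun x => by simp [Equiv.permCongrHom_coe, ← e.eq_symm_apply]
  obtain rfl : t' = t := Nat.eq_of_mul_eq_mul_right hr.pos (by rw [← q1, q3, p2])
  obtain ⟨g, hg⟩ := isConj_iff.1 (isConj_iff_cycleType_eq.2 (q2.trans t2.symm))
  let E : Fin (a * b) ≃ Fin b × Fin a := (g⁻¹ : Perm _).trans e.symm
  refine ⟨fun x => (E x).1, fun j => ?_, π, fun x => ?_⟩
  · rw [Nat.card_congr (E.subtypeEquiv (q := fun y => y.1 = j) fun _ => Iff.rfl),
      Nat.card_congr (Equiv.prodSubtypeFstEquivSubtypeProd (p := fun i => i = j))]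
    simp
  · rw [← hg, ← p3]
    simp [E, Equiv.permCongrHom_coe]

/-- Let a, b ≥ 2 and consider the symmetric group of degree a·b acting on the partitions of an (a·b)-set into b parts of size a (encoded as maps onto a b-element set all of whose fibres have a elements; a permutation fixes such a partition when it permutes the fibres). Let r be a prime dividing the number (ab)!/((a!)^b·b!) of such partitions, and let ℓ and k be the remainders of a and b modulo r. Then every permutation of order r fixes some such partition if and only if r ≤ a and one of the following holds: ℓ = 0; or k = 0 and ℓ = 1; or ℓ and k are non-zero, k·ℓ < r, and either b < r or (k + r)·ℓ ≤ k·a + r. -/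
theorem result (a b : ℕ) (ha : 2 ≤ a) (hb : 2 ≤ b) (r : ℕ) (hr : r.Prime)
    (hrd : r ∣ (a * b).factorial / (a.factorial ^ b * b.factorial)) :
    (∀ σ : Equiv.Perm (Fin (a * b)), orderOf σ = r →
        ∃ f : Fin (a * b) → Fin b, (∀ j : Fin b, Nat.card {x : Fin (a * b) // f x = j} = a) ∧
          ∃ π : Equiv.Perm (Fin b), ∀ x : Fin (a * b), f (σ x) = π (f x)) ↔
      (r ≤ a ∧ (a % r = 0 ∨ (b % r = 0 ∧ a % r = 1) ∨
        (a % r ≠ 0 ∧ b % r ≠ 0 ∧ (b % r) * (a % r) < r ∧ (b < r ∨ (b % r + r) * (a % r) ≤ (b % r) * a + r)))) := by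
  have hab : r ≤ a * b := by
    rw [← hr.dvd_factorial]
    refine hrd.trans (Nat.div_dvd_of_dvd ?_)
    rw [mul_comm a, ← Nat.uniformBell_mul_eq b (n := a) (by omega), mul_assoc]
    exact dvd_mul_left _ _
  rw [red hr (by omega)]
  have hr0 := hr.pos
  obtain ⟨α, l, rfl, hl⟩ : ∃ α l, a = α * r + l ∧ l < r := ⟨a / r, a % r, (Nat.div_add_mod' a r).symm, Nat.mod_lt _ hr0⟩
  obtain ⟨β, k, rfl, hk⟩ : ∃ β k, b = β * r + k ∧ k < r := ⟨b / r, b % r, (Nat.div_add_mod' b r).symm, Nat.mod_lt _ hr0⟩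
  have m1 : ∀ x y, y < r → (x * r + y) % r = y := fun x y h => by rw [Nat.mul_add_mod_self_right, Nat.mod_eq_of_lt h]
  have d1 : (α * r + l) / r = α := by rw [add_comm, Nat.add_mul_div_right _ _ hr0, Nat.div_eq_of_lt hl, zero_add]
  rw [m1 _ _ hl, m1 _ _ hk, d1]
  have key : ∀ s, s ≤ β → s * (α * r + l) + (β * r + k - s * r) * α = s * l + (β * r + k) * α := fun s hs => by
    obtain ⟨u, rfl⟩ := Nat.exists_eq_add_of_le hs
    rw [show (s + u) * r + k - s * r = u * r + k by rw [add_mul]; omega]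
    ring
  have sle : ∀ s, s * r ≤ β * r + k ↔ s ≤ β := fun s =>
    ⟨fun h => by by_contra! H; nlinarith, fun h => by nlinarith⟩
  have H0 : (∀ t, 1 ≤ t → t * r ≤ (α * r + l) * (β * r + k) → ∃ s, s * r ≤ β * r + k ∧ s * (α * r + l) ≤ t ∧
      t ≤ s * (α * r + l) + (β * r + k - s * r) * α) ↔ k * l < r ∧ (l = 0 ∨ β = 0 ∨ l ≤ k * α + 1) := by
    refine ⟨fun H => ⟨?_, ?_⟩, fun ⟨h1, h2⟩ t t1 t2 => ?_⟩
    · by_contra! h
      obtain ⟨s, s1, -, s3⟩ := H (β * l + (β * r + k) * α + 1) (by omega) (by nlinarith)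
      rw [sle] at s1
      rw [key s s1] at s3
      nlinarith
    · by_contra! h
      obtain ⟨h1, h2, h3⟩ := h
      obtain ⟨γ, rfl⟩ := Nat.exists_eq_succ_of_ne_zero h2
      rw [Nat.succ_eq_add_one] at *
      have l1 : 1 ≤ l := Nat.pos_of_ne_zero h1
      obtain ⟨s, s1, s2, s3⟩ := H (γ * l + ((γ + 1) * r + k) * α + 1) (by omega) (by
        have : r ≤ l * r := Nat.le_mul_of_pos_left r l1
        nlinarith [Nat.zero_le (k * l)])
      rw [sle] at s1
      rw [key s s1] at s3
      rcases s1.lt_or_eq with s1 | rfl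
      · have : s * l ≤ γ * l := Nat.mul_le_mul_right _ (by omega)
        omega
      · nlinarith
    have t3 : t ≤ β * l + (β * r + k) * α := by
      by_contra! h
      have := Nat.mul_le_mul_right r (Nat.succ_le_of_lt h)
      rw [Nat.succ_eq_add_one] at this
      nlinarith
    have t4 : ∀ s, s ≤ β → t ≤ s * l + (β * r + k) * α → ∃ s, s ≤ β ∧ s * (α * r + l) ≤ t ∧
        t ≤ s * l + (β * r + k) * α := fun s => by
      induction s with
      | zero => intro _ h; exact ⟨0, Nat.zero_le _, by simp, h⟩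
      | succ s ih =>
        intro h h'
        by_cases h'' : t ≤ s * l + (β * r + k) * α
        · exact ih (by omega) h''
        refine ⟨s + 1, h, ?_, h'⟩
        rcases h2 with rfl | rfl | h2
        · simp at h' h''; omega
        · omega
        have := Nat.mul_le_mul_right (r * α) h
        nlinarith
    obtain ⟨s, s1, s2, s3⟩ := t4 β le_rfl t3
    exact ⟨s, (sle s).2 s1, s2, by rwa [key s s1]⟩
  rw [H0]
  refine ⟨fun ⟨h1, h2⟩ => ?_, fun ⟨h1, h2⟩ => ?_⟩
  · have a1 : α ≠ 0 := by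
      rintro rfl
      rcases h2 with rfl | rfl | h2
      · omega
      · simp at hab; nlinarith
      · omega
    refine ⟨by nlinarith [Nat.pos_of_ne_zero a1], ?_⟩
    by_cases l0 : l = 0
    · exact Or.inl l0
    by_cases k0 : k = 0
    · subst k0
      refine Or.inr (Or.inl ⟨rfl, ?_⟩)
      rcases h2 with rfl | rfl | h2 <;> omega
    refine Or.inr (Or.inr ⟨l0, k0, h1, ?_⟩)
    rcases h2 with rfl | rfl | h2
    · omega
    · left; omega
    · right; nlinarith
  · rcases h2 with rfl | ⟨rfl, rfl⟩ | ⟨-, -, h3, h4 | h4⟩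
    · exact ⟨by omega, Or.inl rfl⟩
    · exact ⟨by omega, Or.inr (Or.inr (by omega))⟩
    · exact ⟨h3, Or.inr (Or.inl (by by_contra! h; nlinarith [Nat.pos_of_ne_zero h]))⟩
    · exact ⟨h3, Or.inr (Or.inr (by by_contra! h; nlinarith))⟩

end Cfsg.Agent.S3575
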