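import Mathlib
import Cfsg.Statements.S3592
import Cfsg.Agent.H19.RecM11

set_option autoImplicit false
open Cfsg

namespace Cfsg.Agent.S3592

/-- Let M be the Mathieu group M₁₁ (order 7920). If a finite group G has the same order as M and the same set of values of the function 'number of elements of order n' (taken over the element orders n that occur), then G is isomorphic to M. -/
theorem result {G : Type*} [Group G] [Finite G]
    (hcard : Nat.card G = Nat.card ↥Cfsg.Spor.M11)
    (hnse : {c : ℕ | 0 < c ∧ ∃ n : ℕ, c = Nat.card {g : G // orderOf g = n}} =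
      {c : ℕ | 0 < c ∧ ∃ n : ℕ, c = Nat.card {g : ↥Cfsg.Spor.M11 // orderOf g = n}}) :
    Nonempty (G ≃* ↥Cfsg.Spor.M11) := by
  have := Fact.mk (by norm_num : Nat.Prime 11)
  have h := hcard.trans H14.card_M11
  obtain ⟨x, hx⟩ := exists_prime_orderOf_dvd_card' (G := Spor.M11) 11 (by rw [H14.card_M11]; norm_num)
  obtain ⟨P⟩ : Nonempty (Sylow 11 G) := inferInstance
  obtain ⟨Q⟩ : Nonempty (Sylow 11 Spor.M11) := inferInstance
  have := H19.simple_7920 h ((H19.card_sylow_eq_of_nse (by norm_num) (P := P) (by rw [P.card_eq_multiplicity, h]; decide +kernel)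
    (Q := Q) (by rw [Q.card_eq_multiplicity, H14.card_M11]; decide +kernel) H19.selfC_M11 hnse).trans
    (H19.sylow_of_selfC_7920 H14.card_M11 hx (H19.selfC_M11 x hx)))
  exact H19.isoM11_of_simple h

end Cfsg.Agent.S3592
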