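import Mathlib
import Cfsg.Statements.S3595
import Cfsg.Agent.H19.M23b
import Cfsg.Agent.H19.SelfM

set_option autoImplicit false
open Cfsg

namespace Cfsg.Agent.S3595

/-- Let M be the Mathieu group M₂₃ (order 10200960). If a finite group G has the same order as M and the same set of values of the function 'number of elements of order n' (taken over the element orders n that occur), then G is isomorphic to M. -/
theorem result {G : Type*} [Group G] [Finite G]
    (hcard : Nat.card G = Nat.card ↥Cfsg.Spor.M23)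
    (hnse : {c : ℕ | 0 < c ∧ ∃ n : ℕ, c = Nat.card {g : G // orderOf g = n}} =
      {c : ℕ | 0 < c ∧ ∃ n : ℕ, c = Nat.card {g : ↥Cfsg.Spor.M23 // orderOf g = n}}) :
    Nonempty (G ≃* ↥Cfsg.Spor.M23) := by
  have := Fact.mk (by norm_num : Nat.Prime 11)
  have := Fact.mk (by norm_num : Nat.Prime 23)
  have h := hcard.trans H14.card_M23
  have key : ∀ (p : ℕ) [Fact p.Prime], p = 11 ∨ p = 23 → ∃ e, e ∣ p - 1 ∧ Nat.card (Sylow p G) * (p * e) = 10200960 ∧
      Nat.card (Sylow p G) % p = 1 := fun p _ hp => by
    obtain ⟨x, hx⟩ := exists_prime_orderOf_dvd_card' (G := Spor.M23) p (by rw [H14.card_M23]; rcases hp with rfl | rfl <;> norm_num)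
    obtain ⟨Q, e, h1, h2, -, h3, h4⟩ := H19.card_normalizer_of_selfC hx (H19.selfC_M23 hp x hx)
    obtain ⟨P⟩ : Nonempty (Sylow p G) := inferInstance
    rw [H19.card_sylow_eq_of_nse (by omega) (P := P) (by
      rw [P.card_eq_multiplicity, hcard, ← Q.card_eq_multiplicity, h1]) h1 (H19.selfC_M23 hp) hnse]
    exact ⟨e, h2, h3.trans H14.card_M23, h4⟩
  obtain ⟨e, h1, h2, h3⟩ := key 11 (by simp)
  obtain ⟨f, h4, h5, h6⟩ := key 23 (by simp)
  have h7 : Nat.card (Sylow 11 G) = 185472 := by
    have := Nat.le_of_dvd (by norm_num) h1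
    interval_cases e <;> omega
  have h8 : Nat.card (Sylow 23 G) = 40320 := by
    have := Nat.le_of_dvd (by norm_num) h4
    interval_cases f <;> omega
  obtain ⟨P⟩ : Nonempty (Sylow 23 G) := inferInstance
  have h9 := H19.card_sylow_mul_card_normalizer P
  rw [h8] at h9
  have := H19.simple_of_normalizer (P := P) (by rw [P.card_eq_multiplicity, h]; decide +kernel) (e := 11) (by norm_num) (by omega)
    Nat.prime_two (by norm_num) (by norm_num) (by omega)
    (h ▸ H19.pow_mod_ne_one_of_list (qs := [2, 3, 5, 7, 11, 23]) (B := 24) (by decide) (by norm_num) (by norm_num) (by norm_num)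
      (by decide +kernel))
  exact H19.isoM23_of_sylow h h8 h7

end Cfsg.Agent.S3595
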