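import Mathlib
import Cfsg.Statements.S3596
import Cfsg.Agent.H19.M24f
import Cfsg.Agent.H19.Nse24

set_option autoImplicit false
open Cfsg

namespace Cfsg.Agent.S3596

/-- Let M be the Mathieu group M₂₄ (order 244823040). If a finite group G has the same order as M and the same set of values of the function 'number of elements of order n' (taken over the element orders n that occur), then G is isomorphic to M. -/
theorem result {G : Type*} [Group G] [Finite G]
    (hcard : Nat.card G = Nat.card ↥Cfsg.M24)
    (hnse : {c : ℕ | 0 < c ∧ ∃ n : ℕ, c = Nat.card {g : G // orderOf g = n}} =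
      {c : ℕ | 0 < c ∧ ∃ n : ℕ, c = Nat.card {g : ↥Cfsg.M24 // orderOf g = n}}) :
    Nonempty (G ≃* ↥Cfsg.M24) := by
  have := Fact.mk (by norm_num : Nat.Prime 23)
  have h := hcard.trans H14.card_M24
  obtain ⟨h1, h2, h3, h4⟩ := H19.sylow_of_nse24 h hnse
  obtain ⟨P⟩ : Nonempty (Sylow 23 G) := inferInstance
  have h9 := H19.card_sylow_mul_card_normalizer P
  rw [h1] at h9
  have := H19.simple_of_normalizer (P := P) (by rw [P.card_eq_multiplicity, h]; decide +kernel) (e := 11) (by norm_num) (by omega)
    Nat.prime_two (by norm_num) (by norm_num) (by omega)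
    (h ▸ H19.pow_mod_ne_one_of_list (qs := [2, 3, 5, 7, 11, 23]) (B := 28) (by decide) (by norm_num) (by norm_num) (by norm_num)
      (by decide +kernel))
  exact H19.isoM24_of_sylow h h1 h2 h3 h4

end Cfsg.Agent.S3596
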