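import Mathlib
import Cfsg.Statements.S3598
import Cfsg.Agent.H05.Fc2

set_option autoImplicit false
open Cfsg

namespace Cfsg.Agent.S3598

/-- Let p be a prime and F a field with p² elements. If a finite group G has, for every d, the same number of irreducible complex characters of degree d as PSL(2,F) (the same first column of the character table, with multiplicities), then G is isomorphic to PSL(2,F). -/
theorem result {F : Type*} [Field F] [Fintype F] (p : ℕ) (hp : p.Prime)
    (hF : Fintype.card F = p ^ 2) {G : Type*} [Group G] [Finite G]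
    (h : ∀ d : ℕ, Nat.card {χ : Cfsg.IrrCharacter G // (χ : G → ℂ) 1 = (d : ℂ)} =
      Nat.card {χ : Cfsg.IrrCharacter (Matrix.ProjectiveSpecialLinearGroup (Fin 2) F) // (χ : Matrix.ProjectiveSpecialLinearGroup (Fin 2) F → ℂ) 1 = (d : ℂ)}) :
    Nonempty (G ≃* Matrix.ProjectiveSpecialLinearGroup (Fin 2) F) := by
  classical
  have : Fact p.Prime := ⟨hp⟩
  obtain ⟨e, he⟩ := H05.Fc.exists_equiv h
  have hG := H05.Fc.card_eq_of_equiv e he
  have hL := H09.card_PSL_two_mul (F := F)
  have h2 := hp.two_le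
  have h4 : Fintype.card F % 4 = 1 ∨ Fintype.card F = 4 := by
    rcases hp.eq_two_or_odd' with rfl | ⟨k, rfl⟩
    · exact Or.inr hF
    · left; rw [hF, show (2 * k + 1) ^ 2 = 4 * (k ^ 2 + k) + 1 by ring]; omega
  have hone : ∀ χ : IrrCharacter G, (e χ : Matrix.ProjectiveSpecialLinearGroup (Fin 2) F → ℂ) = 1 →
      (χ : G → ℂ) = 1 := fun χ h1 => by
    let o : IrrCharacter G := ⟨1, H05.isIrrCharacter_one⟩
    have h3 : charDegree (e o : Matrix.ProjectiveSpecialLinearGroup (Fin 2) F → ℂ) = 1 := by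
      rw [he]; exact H05.charDegree_eq_of_apply_one (by simp [o])
    have h5 : 4 ≤ Fintype.card F := by rw [hF]; nlinarith
    have : e χ = e o := by
      refine Subtype.ext (h1.trans ?_)
      rcases H05.Fc.deg_psl h4 (e o) with h | h | h | h | ⟨⟨k, hk⟩, h⟩
      · exact h.symm
      all_goals omega
    rw [e.injective this]
  have hsyl : ∀ a b : ℕ, Nat.card G = p ^ 2 * a * b → ¬ p ∣ a * b → ∀ P : Sylow p G, Nat.card P = p ^ 2 := by
    intro a b hc hab P
    have h0 : a * b ≠ 0 := by rintro h; exact hab (h ▸ dvd_zero _)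
    rw [P.card_eq_multiplicity, hc, mul_assoc, Nat.factorization_mul (by positivity) h0, hp.factorization_pow]
    simp [Nat.factorization_eq_zero_of_not_dvd hab]
  have hcc : ∀ a b : ℕ, Nat.card G = p ^ 2 * a * b → ¬ p ∣ a * b → a.Coprime b → 1 < a → 1 < b →
      a = Fintype.card F - 1 → b ∣ Fintype.card F + 1 → (Odd (Fintype.card F) → b = (Fintype.card F + 1) / 2) →
      H05.Fc.CC p G := by
    intro a b hc hab hco ha hb e1 e2 e3
    refine H05.Fc.cc_of (fun P => IsPGroup.isMulCommutative_of_card_eq_prime_sq (hsyl a b hc hab P))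
      fun s hs hsp => H05.Fc.no_ps hp hc hab hco ha hb (fun χ hχ => ?_) hs hsp
    rw [← he]
    rcases H05.Fc.deg_psl h4 (e χ) with h | h | h | h | ⟨h0, h⟩
    · exact absurd (hone χ h) hχ
    · exact Or.inl (h.trans hF)
    · exact Or.inr (Or.inr (h ▸ e2))
    · exact Or.inr (Or.inl (by rw [h, e1]))
    · exact Or.inr (Or.inr (by rw [h, e3 h0]))
  rcases h4 with h4 | h4
  · obtain ⟨t, ht⟩ : ∃ t, Fintype.card F = 4 * t + 1 := ⟨Fintype.card F / 4, by omega⟩
    have h1 := Fintype.one_lt_card (α := F)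
    have g2 : Nat.gcd 2 (Fintype.card F - 1) = 2 := Nat.gcd_eq_left (by omega)
    rw [g2, ← hG] at hL
    have e1 : (4 * t + 1) ^ 2 - 1 = 16 * t ^ 2 + 8 * t := by
      rw [show (4 * t + 1) ^ 2 = 16 * t ^ 2 + 8 * t + 1 by ring]; rfl
    have hc : Nat.card G = p ^ 2 * (4 * t) * (2 * t + 1) := by
      rw [← hF, ht]; rw [ht, e1] at hL; nlinarith
    have hpq : p ∣ 4 * t + 1 := by rw [← ht, hF]; exact dvd_pow_self _ two_ne_zero
    have hab : ¬ p ∣ 4 * t * (2 * t + 1) := fun hd => by
      rcases (Nat.Prime.dvd_mul hp).1 hd with h' | h'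
      · exact hp.one_lt.ne' (Nat.dvd_one.1 ((Nat.dvd_add_right h').1 hpq))
      · have : p ∣ (4 * t + 1) + 1 := by rw [show 4 * t + 1 + 1 = 2 * (2 * t + 1) by ring]; exact h'.mul_left 2
        exact hp.one_lt.ne' (Nat.dvd_one.1 ((Nat.dvd_add_right hpq).1 this))
    have hco : (4 * t).Coprime (2 * t + 1) := by
      rw [show 4 * t = 2 * (2 * t) by ring]
      refine Nat.Coprime.mul_left ?_ (by simp)
      simp
    obtain ⟨P⟩ : Nonempty (Sylow p G) := inferInstance
    exact H05.Fc.psl_of_cc (hcc _ _ hc hab hco (by omega) (by omega) (by omega) ⟨2, by omega⟩ fun _ => by omega) P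
      ((hsyl _ _ hc hab P).trans hF.symm) h4 hL
  · have hp2 : p = 2 := by
      have : p ^ 2 = 2 ^ 2 := by rw [← hF, h4]; norm_num
      exact Nat.pow_left_injective two_ne_zero this
    subst hp2
    rw [h4, ← hG] at hL
    have hc : Nat.card G = 60 := by norm_num at hL; omega
    obtain ⟨φ⟩ := H05.Fc.a5_of_cc (hcc 3 5 (by rw [hc]; norm_num) (by norm_num) (by norm_num) (by norm_num) (by norm_num)
      (by omega) (by rw [h4]) (by rw [h4]; intro h; exact absurd h (by decide))) hc
    obtain ⟨ψ⟩ := H08.A5_of_psl2 (F := F) (Or.inl h4)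
    exact ⟨φ.trans ψ.symm⟩

end Cfsg.Agent.S3598
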