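import Cfsg.Statements.S3627
import Mathlib
import Cfsg.Agent.H27.J1P
import Cfsg.Agent.H27.Spec2
-- import your own Cfsg.Agent.* helpers here

set_option autoImplicit false
open Cfsg

namespace Cfsg.Agent.S3627

open scoped Pointwise commutatorElement

open DihedralGroup

theorem t4 : ∀ a ∈ H27.J1.Ms, ∀ b ∈ H27.J1.Ms, ∀ c ∈ H27.J1.Ms, ∀ d ∈ H27.J1.Ms,
    ∃ m ∈ [21945, 14630, 8778, 6270, 3990, 2310], a ∣ m ∧ b ∣ m ∧ c ∣ m ∧ d ∣ m := by decide +kernel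

theorem t5 : ∀ a ∈ [2, 3], ∀ b ∈ [2, 5], ∀ c ∈ [2, 7], ∀ d ∈ [2, 11], ∀ e ∈ [2, 19],
    ∃ m ∈ [21945, 14630, 8778, 6270, 3990, 2310], a ∣ m ∧ b ∣ m ∧ c ∣ m ∧ d ∣ m ∧ e ∣ m := by decide +kernel

/-- Let J be the first Janko group. Then there are finite groups of arbitrarily large order with exactly the same set of element orders as J × J × J × J. -/
theorem result (N : ℕ) : ∃ (H : Type) (_ : Group H) (_ : Fintype H), N < Fintype.card H ∧
      Set.range (orderOf : H → ℕ) = Set.range (orderOf : ↥Cfsg.Spor.J1 × ↥Cfsg.Spor.J1 × ↥Cfsg.Spor.J1 × ↥Cfsg.Spor.J1 → ℕ) := by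
  haveI := H27.J1.S.finite
  haveI := H27.dih_rot_normal 3
  obtain ⟨H, i1, i2, h1, h2⟩ := H27.exists_large
    (G := DihedralGroup 3 × DihedralGroup 5 × DihedralGroup 7 × DihedralGroup 11 × DihedralGroup 19)
    ((Subgroup.zpowers (r 1)).prod ⊥) (by
      rw [Ne, Subgroup.prod_eq_bot_iff, Subgroup.zpowers_eq_bot]
      exact fun h => absurd h.1 (by decide)) Nat.prime_three (by
      rintro ⟨a, b⟩ ⟨⟨k, hk⟩, hb⟩
      obtain rfl : b = 1 := hb
      obtain rfl : r 1 ^ k = a := hk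
      rw [Prod.pow_mk, one_pow, ← zpow_natCast, ← zpow_mul, mul_comm, zpow_mul, zpow_natCast, r_one_pow_n, one_zpow]
      rfl) N
  refine ⟨H, i1, i2, h1, h2.trans (H27.range_eq_of_max₂ [21945, 14630, 8778, 6270, 3990, 2310] ?_ ?_ ?_ ?_)⟩
  · rintro ⟨a, b, c, d, e⟩
    obtain ⟨ma, a1, a2⟩ := H27.dih_pow a
    obtain ⟨mb, b1, b2⟩ := H27.dih_pow b
    obtain ⟨mc, c1, c2⟩ := H27.dih_pow c
    obtain ⟨md, d1, d2⟩ := H27.dih_pow d
    obtain ⟨me, e1, e2⟩ := H27.dih_pow e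
    obtain ⟨m, hm, a3, b3, c3, d3, e3⟩ := t5 _ a1 _ b1 _ c1 _ d1 _ e1
    refine ⟨m, hm, ?_⟩
    simp only [Prod.pow_mk, H27.pow_eq_one_of_dvd a2 a3, H27.pow_eq_one_of_dvd b2 b3, H27.pow_eq_one_of_dvd c2 c3,
      H27.pow_eq_one_of_dvd d2 d3, H27.pow_eq_one_of_dvd e2 e3, Prod.mk_one_one]
  · intro m hm
    simp only [List.mem_cons, List.not_mem_nil, or_false] at hm
    rcases hm with rfl | rfl | rfl | rfl | rfl | rfl
    · exact ⟨(r 1, r 1, r 1, r 1, r 1), by simp only [Prod.orderOf, orderOf_r_one]; decide⟩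
    · exact ⟨(sr 0, r 1, r 1, r 1, r 1), by simp only [Prod.orderOf, orderOf_r_one, orderOf_sr]; decide⟩
    · exact ⟨(r 1, sr 0, r 1, r 1, r 1), by simp only [Prod.orderOf, orderOf_r_one, orderOf_sr]; decide⟩
    · exact ⟨(r 1, r 1, sr 0, r 1, r 1), by simp only [Prod.orderOf, orderOf_r_one, orderOf_sr]; decide⟩
    · exact ⟨(r 1, r 1, r 1, sr 0, r 1), by simp only [Prod.orderOf, orderOf_r_one, orderOf_sr]; decide⟩
    · exact ⟨(r 1, r 1, r 1, r 1, sr 0), by simp only [Prod.orderOf, orderOf_r_one, orderOf_sr]; decide⟩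
  · rintro ⟨a, b, c, d⟩
    obtain ⟨ma, a1, a2⟩ := H27.J1.pow_eq_one a
    obtain ⟨mb, b1, b2⟩ := H27.J1.pow_eq_one b
    obtain ⟨mc, c1, c2⟩ := H27.J1.pow_eq_one c
    obtain ⟨md, d1, d2⟩ := H27.J1.pow_eq_one d
    obtain ⟨m, hm, a3, b3, c3, d3⟩ := t4 _ a1 _ b1 _ c1 _ d1
    refine ⟨m, hm, ?_⟩
    simp only [Prod.pow_mk, H27.pow_eq_one_of_dvd a2 a3, H27.pow_eq_one_of_dvd b2 b3, H27.pow_eq_one_of_dvd c2 c3,
      H27.pow_eq_one_of_dvd d2 d3, Prod.mk_one_one]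
  · obtain ⟨x6, o6⟩ := H27.J1.exists_order (m := 6) (by decide)
    obtain ⟨x10, o10⟩ := H27.J1.exists_order (m := 10) (by decide)
    obtain ⟨x15, o15⟩ := H27.J1.exists_order (m := 15) (by decide)
    obtain ⟨x7, o7⟩ := H27.J1.exists_order (m := 7) (by decide)
    obtain ⟨x11, o11⟩ := H27.J1.exists_order (m := 11) (by decide)
    obtain ⟨x19, o19⟩ := H27.J1.exists_order (m := 19) (by decide)
    intro m hm
    simp only [List.mem_cons, List.not_mem_nil, or_false] at hm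
    rcases hm with rfl | rfl | rfl | rfl | rfl | rfl
    · exact ⟨(x15, x7, x11, x19), by simp only [Prod.orderOf, o15, o7, o11, o19]; decide⟩
    · exact ⟨(x10, x7, x11, x19), by simp only [Prod.orderOf, o10, o7, o11, o19]; decide⟩
    · exact ⟨(x6, x7, x11, x19), by simp only [Prod.orderOf, o6, o7, o11, o19]; decide⟩
    · exact ⟨(x6, x10, x11, x19), by simp only [Prod.orderOf, o6, o10, o11, o19]; decide⟩
    · exact ⟨(x6, x10, x7, x19), by simp only [Prod.orderOf, o6, o10, o7, o19]; decide⟩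
    · exact ⟨(x6, x10, x7, x11), by simp only [Prod.orderOf, o6, o10, o7, o11]; decide⟩

end Cfsg.Agent.S3627
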