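import Cfsg.Statements.S3639
import Mathlib
import Cfsg.Agent.H27.Spec
import Cfsg.Agent.H12.Sz4
import Cfsg.Agent.H12.Sz3
-- import your own Cfsg.Agent.* helpers here

set_option autoImplicit false
open Cfsg

namespace Cfsg.Agent.S3639

open scoped Pointwise commutatorElement

open Matrix H12.Sz in
theorem pow_four {F : Type*} [Field F] [Fintype F] {m : ℕ} [hS : SzF F m] {g : Matrix (Fin 4) (Fin 4) F}
    (hg : IsS g) {v : Fin 4 → F} (hv : g *ᵥ v = v) (h0 : v ≠ 0) : g ^ 4 = 1 := by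
  set g' := wM F * gᵀ * wM F with hg'
  have h1 : g' * g = 1 := by
    rw [hg', Matrix.mul_assoc, Matrix.mul_assoc, ← Matrix.mul_assoc gᵀ, hg.1, wM_sq]
  have h1' : g * g' = 1 := mul_eq_one_comm.1 h1
  have hv' : g' *ᵥ v = v := by
    conv_lhs => rw [← hv, Matrix.mulVec_mulVec, h1, Matrix.one_mulVec]
  have a := congrFun (congrFun hg.1 1) 2
  have b := congrFun (congrFun (sp_transpose hg.1) 1) 2
  have c : (Cfsg.Lie.star4 g).trace = th g.trace := by
    rw [hg.2]; simp [Matrix.trace, Fin.sum_univ_four]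
  simp [wM, Matrix.mul_apply, Fin.sum_univ_four, Matrix.vecMul, dotProduct] at a b
  simp [Cfsg.Lie.star4, Cfsg.Lie.pairOf, Matrix.trace, Fin.sum_univ_four, -map_add] at c
  have h2 : (g + g') * (g + g') = g.trace • (g + g') + th g.trace • (1 : Matrix (Fin 4) (Fin 4) F) := by
    rw [show th g.trace = th (g 0 0 + g 1 1 + g 2 2 + g 3 3) by simp [Matrix.trace, Fin.sum_univ_four, -map_add], ← c]
    ext i j
    fin_cases i <;> fin_cases j <;>
      simp [hg', wM, Matrix.mul_apply, Fin.sum_univ_four, Matrix.vecMul, dotProduct, Matrix.trace] <;> grind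
  have h3 : (g + g') *ᵥ v = 0 := by
    rw [Matrix.add_mulVec, hv, hv']; ext i; simp [CharTwo.add_self_eq_zero]
  have h4 := congrArg (· *ᵥ v) h2
  simp only [← Matrix.mulVec_mulVec, h3, Matrix.mulVec_zero, Matrix.add_mulVec, Matrix.smul_mulVec, smul_zero,
    Matrix.one_mulVec, zero_add] at h4
  have h5 : g.trace = 0 := th_eq_zero.1 ((smul_eq_zero.1 h4.symm).resolve_right h0)
  rw [h5, map_zero, zero_smul, zero_smul, add_zero, add_mul, mul_add, mul_add, h1, h1'] at h2
  have h6 : g * g = g' * g' := by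
    ext i j
    have := congrFun (congrFun h2 i) j
    simp only [Matrix.add_apply, Matrix.zero_apply] at this
    grind
  calc g ^ 4 = (g * g) * (g * g) := by simp only [pow_succ, pow_zero, one_mul, mul_assoc]
    _ = g' * (g' * g) * g := by nth_rewrite 1 [h6]; simp only [mul_assoc]
    _ = 1 := by rw [h1, mul_one, h1]

/-- Let S be the Suzuki group over the field with q = 2^(2m+1) ≥ 8 elements. Then there are finite groups of arbitrarily large order with the same prime graph as S. -/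
theorem result {F : Type*} [Field F] [Fintype F] {m : ℕ} (hm : 1 ≤ m) (hF : Fintype.card F = 2 ^ (2 * m + 1)) (N : ℕ) :
    ∃ (H : Type) (_ : Group H) (_ : Fintype H), N < Fintype.card H ∧ ((∀ r : ℕ, r.Prime → (r ∣ Nat.card ↥(Cfsg.Lie.Sz F (2 ^ (m + 1))) ↔ r ∣ Nat.card H)) ∧
      (∀ r s : ℕ, r.Prime → s.Prime → r ≠ s → ((∃ x : ↥(Cfsg.Lie.Sz F (2 ^ (m + 1))), orderOf x = r * s) ↔ (∃ y : H, orderOf y = r * s)))) := by
  haveI : H12.Sz.SzF F m := ⟨hm, hF⟩
  classical
  refine H27.act_large_pg (L := Cfsg.Lie.Sz F (2 ^ (m + 1))) (V := Fin 4 → F) Nat.prime_two (fun v => ?_) ?_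
    (fun s hs hs2 => Or.inr fun g hg v hv => ?_) N
  · ext i; simp [CharTwo.two_eq_zero]
  · rw [← Nat.card_congr (H12.Sz.lieEquiv (F := F) (m := m)).toEquiv, H12.Sz.card_G, mul_assoc]
    exact (H12.Sz.two_dvd_q.trans (dvd_pow_self _ two_ne_zero)).mul_right _
  · by_contra h0
    obtain ⟨g, hg'⟩ := g
    rw [← H12.Sz.range_toGL] at hg'
    obtain ⟨x, rfl⟩ := hg'
    have h1 := pow_four (H12.Sz.isS_mat x) hv h0
    have h2 : s ∣ 4 := by
      rw [← hg, ← Subgroup.orderOf_coe]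
      exact orderOf_dvd_of_pow_eq_one (Units.ext h1)
    exact hs2 ((Nat.prime_dvd_prime_iff_eq hs Nat.prime_two).1 (hs.dvd_of_dvd_pow (n := 2) h2))

end Cfsg.Agent.S3639
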