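import Mathlib
import Cfsg.Statements.S3641
import Cfsg.Agent.S0732
import Cfsg.Agent.L.PSL2Max
import Cfsg.Agent.H27.SylowNum
import Cfsg.Agent.H19.SylowCount
import Cfsg.Agent.H06.Degree

set_option autoImplicit false
open scoped Pointwise
open Cfsg

namespace Cfsg.Agent.S3641

open Subgroup MulAction H18 L.Dk
open scoped IsMulCommutative MatrixGroups

theorem card_sylow_le {G H : Type*} [Group G] [Finite G] [Group H] (p : ℕ) {f : H →* G} (hf : Function.Injective f) :
    Nat.card (Sylow p H) ≤ Nat.card (Sylow p G) := by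
  choose φ h using fun P : Sylow p H => P.exists_comap_eq_of_injective hf
  haveI : Finite (Sylow p G) := Finite.of_injective _ (fun _ _ => Sylow.ext : Function.Injective ((↑) : Sylow p G → Subgroup G))
  exact Nat.card_le_card_of_injective φ fun P Q e => Sylow.ext (by rw [← h, e, h])

theorem fact_eq {p k m : ℕ} (hp : p.Prime) (hm : ¬ p ∣ m) : (p ^ k * m).factorization p = k := by
  rw [Nat.factorization_mul (pow_ne_zero _ hp.ne_zero) (by rintro rfl; simp at hm), Finsupp.add_apply,
    Nat.factorization_pow_self hp, Nat.factorization_eq_zero_of_not_dvd hm, add_zero]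

theorem aux {L : Type*} [Group L] [Finite L] (hc : Nat.card L = 2448)
    (ho : ∀ g : L, orderOf g ∣ 17 ∨ orderOf g ∣ 8 ∨ orderOf g ∣ 9) {u v : L} (hu : orderOf u = 8) (hv : orderOf v = 9) :
    153 ≤ Nat.card (Sylow 2 L) ∧ 136 ≤ Nat.card (Sylow 3 L) := by
  haveI := Fact.mk Nat.prime_two
  haveI := Fact.mk Nat.prime_three
  constructor
  · obtain ⟨S, hS⟩ := (IsPGroup.of_card (p := 2) (n := 3) ((Nat.card_zpowers u).trans hu)).exists_le_sylow
    have h1 : Nat.card S = 16 := by
      rw [S.card_eq_multiplicity, hc, show 2448 = 2 ^ 4 * 153 from rfl, fact_eq Fact.out (by decide)]; rfl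
    have h2 : IsPGroup 2 (normalizer (S : Set L)) := by
      refine IsPGroup.of_card (Nat.eq_prime_pow_of_unique_prime_dvd Nat.card_pos.ne' fun {r} hr hd => ?_)
      by_contra r2
      haveI := Fact.mk hr
      obtain ⟨⟨x, hx⟩, xr⟩ := exists_prime_orderOf_dvd_card' r hd
      rw [← orderOf_coe] at xr
      have hu' : orderOf (x * u * x⁻¹) = 8 := by rw [← hu]; exact (MulAut.conj x).orderOf_eq u
      have h3 : zpowers (x * u * x⁻¹) ≤ S := zpowers_le.2 ((mem_normalizer_iff.1 hx u).1 (hS (mem_zpowers u)))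
      have h4 := ((zpowers (x * u * x⁻¹)).subgroupOf S).card_mul_index
      rw [Nat.card_congr (subgroupOfEquivOfLe h3).toEquiv, Nat.card_zpowers, hu', h1] at h4
      obtain ⟨n, hn⟩ := (mem_powers_iff_mem_zpowers).2 (show u * u ∈ zpowers (x * u * x⁻¹) from
        mul_self_mem_of_index_two (show ((zpowers (x * u * x⁻¹)).subgroupOf S).index = 2 by omega) ⟨u, hS (mem_zpowers u)⟩)
      have h5 : orderOf (u ^ 4) = 2 := by rw [orderOf_pow, hu]; rfl
      have h6 : u ^ 4 = (x * u * x⁻¹) ^ (n * 2) := by rw [pow_mul, show _ ^ n = _ from hn, ← sq, ← pow_mul]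
      have h7 : (x * u * x⁻¹) ^ (n * 2) = (x * u * x⁻¹) ^ 4 := by
        have a := orderOf_dvd_iff_pow_eq_one.1 h5.dvd
        have b := mt orderOf_eq_one_iff.2 (h5.trans_ne (by decide))
        rw [h6, ← pow_mul, ← orderOf_dvd_iff_pow_eq_one, hu'] at a
        rw [h6, ← orderOf_dvd_iff_pow_eq_one, hu'] at b
        rw [pow_eq_pow_iff_modEq, hu', Nat.ModEq]
        omega
      have h8 : Commute x (u ^ 4) := by
        rw [h7, conj_pow] at h6
        exact mul_inv_eq_iff_eq_mul.1 h6.symm
      have := ho (x * u ^ 4)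
      rw [h8.orderOf_mul_eq_mul_orderOf_of_coprime (by
        rw [xr, h5]; exact (Nat.coprime_primes hr Nat.prime_two).2 r2), xr, h5] at this
      rcases this with h | h | h
      · exact absurd ((dvd_mul_left _ _).trans h) (by decide)
      · exact r2 ((Nat.prime_dvd_prime_iff_eq hr Nat.prime_two).1
          (hr.dvd_of_dvd_pow (n := 3) ((dvd_mul_right _ _).trans h)))
      · exact absurd ((dvd_mul_left _ _).trans h) (by decide)
    have h3 := (normalizer (S : Set L)).card_mul_index
    rw [← S.card_eq_index_normalizer, show normalizer (S : Set L) = S from S.3 h2 le_normalizer, h1, hc] at h3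
    omega
  let S : Sylow 3 L := Sylow.ofCard (zpowers v) (by
    rw [Nat.card_zpowers, hv, hc, show 2448 = 3 ^ 2 * 272 from rfl, fact_eq Fact.out (by decide)]; rfl)
  have h1 : centralizer (S : Set L) = zpowers v := S.3 (fun c => ⟨2, Subtype.ext (by
    have h2 : Commute v c := c.2 v (mem_zpowers v)
    have h3 : (orderOf v).Coprime (orderOf c.1) → c.1 ^ 3 ^ 2 = 1 := fun h => by
      have := ho (v * c)
      rw [h2.orderOf_mul_eq_mul_orderOf_of_coprime h, hv] at this
      rcases this with h | h | h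
      · exact absurd ((dvd_mul_right _ _).trans h) (by decide)
      · exact absurd ((dvd_mul_right _ _).trans h) (by decide)
      · exact orderOf_dvd_iff_pow_eq_one.1 ((dvd_mul_left _ _).trans h)
    rcases ho c with h | h | h
    · exact h3 (Nat.Coprime.coprime_dvd_right h (by rw [hv]; decide))
    · exact h3 (Nat.Coprime.coprime_dvd_right h (by rw [hv]; decide))
    · exact orderOf_dvd_iff_pow_eq_one.1 h)⟩) (le_centralizer (zpowers v))
  have h2 := H19.relIndex_centralizer_normalizer_dvd (zpowers v)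
  rw [IsCyclic.card_mulAut, Nat.card_zpowers, hv] at h2
  have h3 := relIndex_mul_index (centralizer_le_normalizer (S : Set L))
  have h4 := (centralizer (S : Set L)).card_mul_index
  rw [← h3, ← S.card_eq_index_normalizer] at h4
  nth_rw 1 [h1] at h4
  rw [Nat.card_zpowers, hv, hc] at h4
  change (centralizer (S : Set L)).relIndex (normalizer (S : Set L)) ∣ 6 at h2
  have := Nat.le_of_dvd (by decide) h2
  generalize (centralizer (S : Set L)).relIndex (normalizer (S : Set L)) = k at *
  interval_cases k <;> omega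

theorem psl17 {F : Type*} [Field F] [Fintype F] (hF : Fintype.card F = 17) :
    153 ≤ Nat.card (Sylow 2 PSL(2, F)) ∧ 136 ≤ Nat.card (Sylow 3 PSL(2, F)) := by
  haveI : Fact (Nat.Prime 17) := ⟨by norm_num⟩
  haveI : CharP F 17 := charP_of_card_eq_prime hF
  have hd : dd F = 2 := by rw [dd, hF]; rfl
  obtain ⟨u, hu⟩ := exists_orderOf_sub (F := F) (by omega)
  obtain ⟨v, hv⟩ := exists_orderOf_add (F := F)
  refine aux (card_psl_of hF (by norm_num)) (fun g => ?_) (u := u) (v := v) (by rw [hd, hF] at hu; omega)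
    (by rw [hd, hF] at hv; omega)
  have := orderOf_psl 17 g
  rw [hd, hF] at this
  exact this.imp orderOf_dvd_of_pow_eq_one (Or.imp (Nat.dvd_of_mul_dvd_mul_left two_pos)
    (Nat.dvd_of_mul_dvd_mul_left two_pos))

/-- Let G be a finite group with trivial centre whose set of Sylow numbers (numbers of Sylow r-subgroups, r over the prime divisors of its order) is exactly {18, 136, 153}. Then G is isomorphic to PSL(2, 17) or to PGL(2, 17). -/
theorem result {G : Type*} [Group G] [Finite G] (hZ : Subgroup.center G = ⊥) (hNS : {c : ℕ | ∃ r : ℕ, r.Prime ∧ r ∣ Nat.card G ∧ c = Nat.card (Sylow r G)} = ({18, 136, 153} : Set ℕ))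
    {F : Type*} [Field F] [Fintype F] (hF : Fintype.card F = 17) :
    Nonempty (G ≃* Matrix.ProjectiveSpecialLinearGroup (Fin 2) F) ∨ Nonempty (G ≃* (GL (Fin 2) F ⧸ Subgroup.center (GL (Fin 2) F))) := by
  haveI := Fact.mk Nat.prime_two
  haveI := Fact.mk Nat.prime_three
  haveI : Fact (Nat.Prime 17) := ⟨by norm_num⟩
  have hn : ∀ r, r.Prime → r ∣ Nat.card G → (r = 17 ∧ Nat.card (Sylow r G) = 18) ∨
      ((r = 3 ∨ r = 5) ∧ Nat.card (Sylow r G) = 136) ∨ ((r = 2 ∨ r = 19) ∧ Nat.card (Sylow r G) = 153) := fun r hr hd => by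
    haveI := Fact.mk hr
    have h1 := (Nat.modEq_iff_dvd' Nat.card_pos).1 (card_sylow_modEq_one r G).symm
    have e := fun {s : ℕ} (hs : s.Prime) => (Nat.prime_dvd_prime_iff_eq hr hs).1
    rcases hNS.le ⟨r, hr, hd, rfl⟩ with h | h | h <;> rw [h] at h1
    · exact Or.inl ⟨e Fact.out h1, h⟩
    · exact Or.inr (Or.inl ⟨(hr.dvd_mul.1 (show r ∣ 3 ^ 3 * 5 from h1)).imp (fun h => e Fact.out (hr.dvd_of_dvd_pow h))
        (e Nat.prime_five), h⟩)
    · exact Or.inr (Or.inr ⟨(hr.dvd_mul.1 (show r ∣ 2 ^ 3 * 19 from h1)).imp (fun h => e Fact.out (hr.dvd_of_dvd_pow h))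
        (e (by norm_num)), h⟩)
  have h17 : Nat.card (Sylow 17 G) = 18 := by
    obtain ⟨r, hr, hd, e⟩ := hNS.ge (Or.inl rfl)
    rcases hn r hr hd with ⟨rfl, h⟩ | ⟨-, h⟩ | ⟨-, h⟩ <;> omega
  obtain ⟨P⟩ : Nonempty (Sylow 17 G) := inferInstance
  have h18 : 18 ∣ Nat.card G := h17 ▸ P.card_dvd_index.trans (index_dvd_card _)
  have h2 : Nat.card (Sylow 2 G) = 153 := by
    rcases hn 2 Fact.out (Dvd.dvd.trans (by decide) h18) with h | h | h <;> omega
  have h3 : Nat.card (Sylow 3 G) = 136 := by
    rcases hn 3 Fact.out (Dvd.dvd.trans (by decide) h18) with h | h | h <;> omega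
  classical
  haveI := Fintype.ofFinite (Sylow 17 G)
  let f := (toPermHom G (Sylow 17 G)).rangeRestrict
  have hf : Function.Surjective f := MonoidHom.rangeRestrict_surjective _
  rw [Nat.card_eq_fintype_card] at h17
  haveI : IsPretransitive (toPermHom G (Sylow 17 G)).range (Sylow 17 G) := ⟨fun a b => by
    obtain ⟨g, hg⟩ := exists_smul_eq G a b
    exact ⟨f g, hg⟩⟩
  obtain ⟨Q, hQ⟩ := Fintype.exists_ne_of_one_lt_card (by omega) P
  have hP : Nat.card ((P : Subgroup G).map f) = 17 := by
    obtain ⟨k, hk⟩ := (P.2.map f).exists_card_eq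
    have h := (card_subgroup_dvd_card ((P : Subgroup G).map f)).trans (card_subgroup_dvd_card _)
    rw [Nat.card_eq_fintype_card (α := Equiv.Perm _), Fintype.card_perm, h17, hk] at h
    rcases k with _ | _ | k
    · refine absurd (H19.sylow_eq_of_le fun x hx => ?_) hQ.symm
      have : f x = 1 := (card_eq_one.1 hk).le ⟨x, hx, rfl⟩
      have h4 : P ≤ normalizer (Q : Set G) := fun y hy => Sylow.smul_eq_iff_mem_normalizer.1
        (DFunLike.congr_fun (congrArg Subtype.val (show f y = 1 from (card_eq_one.1 hk).le ⟨y, hy, rfl⟩)) Q)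
      exact ((P.2.inf_normalizer_sylow Q).le ⟨hx, h4 hx⟩).2
    · exact hk
    · exact absurd ((pow_dvd_pow 17 (show 2 ≤ k + 1 + 1 by omega)).trans h) (by decide)
  have hK : IsKer P ((P : Subgroup G).map f) := by
    refine isKer_of_free ?_ ?_ (fun o ho k hk e => ?_) (by rw [hP, Nat.card_eq_fintype_card, h17])
    · rintro _ ⟨k, hk, rfl⟩; exact Sylow.smul_eq_iff_mem_normalizer.2 (le_normalizer hk)
    · rintro g hg _ ⟨k, hk, rfl⟩
      obtain ⟨g, rfl⟩ := hf g
      exact ⟨_, (mem_normalizer_iff.1 (Sylow.smul_eq_iff_mem_normalizer.1 hg) k).1 hk, by simp⟩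
    by_contra k1
    have h1 : orderOf (k : Equiv.Perm (Sylow 17 G)) = 17 := by
      rw [orderOf_coe]
      exact ((Nat.dvd_prime Fact.out).1 ((orderOf_dvd_natCard _ hk).trans hP.dvd)).resolve_left (by simpa using k1)
    have h2 := Equiv.Perm.isCycle_of_prime_order' (σ := k.1) (by rw [h1]; norm_num) (by omega)
    have h3 : ({P, o} : Finset _) ⊆ (k : Equiv.Perm (Sylow 17 G)).supportᶜ := by
      obtain ⟨k, hk, rfl⟩ := hk
      intro x hx
      rw [Finset.mem_compl, Equiv.Perm.notMem_support]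
      rcases Finset.mem_insert.1 hx with rfl | hx
      · exact Sylow.smul_eq_iff_mem_normalizer.2 (le_normalizer hk)
      · rw [Finset.mem_singleton.1 hx]; exact e
    have := Finset.card_le_card h3
    rw [Finset.card_pair ho.symm, Finset.card_compl, ← h2.orderOf] at this
    omega
  obtain ⟨hz, -⟩ := hK.z3_of_prime (by rw [hP]; norm_num)
  have hd := hK.card_dvd hz hQ.symm
  have hc := hK.card_group hz hQ.symm
  rw [hP] at hd hc
  have hmain : Nonempty ((toPermHom G (Sylow 17 G)).range ≃* PSL(2, F)) ∨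
      Nonempty ((toPermHom G (Sylow 17 G)).range ≃* PGL(2, F)) := by
    rcases S0732.result Fact.out h17 _ hc (Nat.lt_succ_of_le (Nat.le_of_dvd (by decide) hd)) with
      ⟨-, ⟨e⟩⟩ | ⟨-, ⟨e⟩⟩ | ⟨q, -, h, -⟩
    · obtain ⟨e'⟩ := H09.nonempty_pgl_equiv_of_card_eq (ι := Fin 2) (F := ZMod 17) (K := F) (by rw [hF, ZMod.card])
      exact Or.inr ⟨e.trans e'⟩
    · obtain ⟨e'⟩ := H09.nonempty_psl_equiv_of_card_eq (ι := Fin 2) (F := ZMod 17) (K := F) (by rw [hF, ZMod.card])
      exact Or.inl ⟨e.trans e'⟩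
    · exact absurd ((Nat.prime_three.dvd_of_dvd_pow (h ▸ (by decide : 3 ∣ 17 + 1)))) (by decide)
  obtain ⟨ι, hι⟩ : ∃ ι : PSL(2, F) →* (toPermHom G (Sylow 17 G)).range, Function.Injective ι := by
    rcases hmain with ⟨⟨e⟩⟩ | ⟨⟨e⟩⟩
    · exact ⟨e.symm, e.symm.injective⟩
    · exact ⟨e.symm.toMonoidHom.comp Matrix.ProjectiveSpecialLinearGroup.toPGL,
        e.symm.injective.comp Matrix.ProjectiveSpecialLinearGroup.toPGL_injective⟩
  have A : ∀ r, ∀ [Fact r.Prime], r = 2 ∨ r = 3 ∨ r = 17 → ∀ S : Sylow r G, f.ker ≤ normalizer (S : Set G) := by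
    intro r _ hr S
    have k : Nat.card (Sylow r G) ≤ Nat.card (Sylow r PSL(2, F)) → f.ker ≤ normalizer (S : Set G) := fun h => by
      replace h := h.trans (card_sylow_le r hι)
      rw [H27.card_sylow_of_surjective hf S, S.card_eq_index_normalizer] at h
      have h4 := relIndex_mul_index (le_sup_left (a := normalizer (S : Set G)) (b := f.ker))
      have h5 := Nat.pos_of_ne_zero (normalizer (S : Set G) ⊔ f.ker).index_ne_zero_of_finite
      have h6 := Nat.pos_of_ne_zero (normalizer (S : Set G)).index_ne_zero_of_finite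
      refine (le_sup_right (a := normalizer (S : Set G))).trans (relIndex_eq_one.1 ?_)
      generalize (normalizer (S : Set G)).relIndex _ = k at *
      rcases k with _ | _ | k
      · omega
      · rfl
      · nlinarith
    rcases hr with rfl | rfl | rfl
    · exact k (h2 ▸ (psl17 hF).1)
    · exact k (h3 ▸ (psl17 hF).2)
    · exact fun x hx => Sylow.smul_eq_iff_mem_normalizer.1 (DFunLike.congr_fun (congrArg Subtype.val hx) S)
  have B : ∀ r, ∀ [Fact r.Prime], r = 2 ∨ r = 3 ∨ r = 17 → ∀ S : Sylow r G, ((S : Subgroup G) ⊓ f.ker).Normal := by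
    refine fun r _ hr S => ⟨fun x hx g => ⟨?_, f.normal_ker.conj_mem x hx.2 g⟩⟩
    have := ((g • S).2.to_le (inf_le_left (b := f.ker))).inf_normalizer_sylow S
    rw [inf_of_le_left (inf_le_right.trans (A r hr S))] at this
    exact (this.le ⟨smul_mem_pointwise_smul _ (MulAut.conj g) _ hx.1, f.normal_ker.conj_mem x hx.2 g⟩).2
  have C : ∀ s, s.Prime → s ∣ Nat.card G → s = 2 ∨ s = 3 ∨ s = 17 := fun s hs hd' => by
    haveI := Fact.mk hs
    obtain ⟨S⟩ : Nonempty (Sylow s G) := inferInstance
    have k : s = 5 ∨ s = 19 → Nat.card (Sylow s G) ≤ 153 → ¬ 17 ∣ Nat.card (Sylow s G) := fun h hle => by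
      haveI := B 17 (by simp) P
      have h4 : (S : Subgroup G) ≤ f.ker := by
        rw [← Subgroup.map_eq_bot_iff]
        obtain ⟨k, hk⟩ := (S.2.map f).exists_card_eq
        have h5 := (card_subgroup_dvd_card ((S : Subgroup G).map f)).trans (hc ▸ Nat.mul_dvd_mul_left _ hd)
        rw [hk] at h5
        rcases k with _ | k
        · exact card_eq_one.1 hk
        · have := (dvd_pow_self s k.succ_ne_zero).trans h5
          rcases h with rfl | rfl <;> exact absurd this (by decide)
      have h5 := H27.card_sylow_of_le S (le_sup_left (b := (P : Subgroup G) ⊓ f.ker))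
      have h6 := card_sylow_modEq_one s ((S : Subgroup G) ⊔ (P : Subgroup G) ⊓ f.ker :)
      have h7 := (card_sylow_le s (subtype_injective ((S : Subgroup G) ⊔ (P : Subgroup G) ⊓ f.ker))).trans hle
      replace h5 := h5.trans (H27.relIndex_sup_eq_of_le le_normalizer le_normalizer_of_normal)
      obtain ⟨k, hk⟩ := (P.2.to_le (inf_le_left (b := f.ker))).exists_card_eq
      obtain ⟨j, -, hj⟩ := (Nat.dvd_prime_pow Fact.out).1 (hk ▸ relIndex_dvd_card (normalizer (S : Set G)) _)
      rw [h5, hj] at h6 h7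
      obtain rfl : j = 0 := by
        rcases j with _ | _ | j
        · rfl
        · rcases h with rfl | rfl <;> exact absurd h6 (by decide)
        · exact absurd ((Nat.pow_le_pow_right (by decide) (show 2 ≤ j + 1 + 1 by omega)).trans h7) (by decide)
      rw [← H27.card_sylow_normal_of_le S _ h4, H27.card_sylow_of_le S h4]
      exact fun h => H27.not_dvd_relIndex_inf_of_normal P f.ker (h.trans (relIndex_dvd_of_le_left _ (relIndex_eq_one.1 hj)))
    rcases hn s hs hd' with ⟨h, -⟩ | ⟨h | h, e⟩ | ⟨h | h, e⟩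
    · simp [h]
    · simp [h]
    · exact absurd (by rw [e]; decide) (k (Or.inl h) (by omega))
    · simp [h]
    · exact absurd (by rw [e]; decide) (k (Or.inr h) (by omega))
  have hinj : f.ker = ⊥ := by
    by_contra hk
    obtain ⟨r, hr, hd'⟩ := Nat.exists_prime_and_dvd (mt card_eq_one.1 hk)
    haveI := Fact.mk hr
    have hr' := C r hr (hd'.trans (card_subgroup_dvd_card _))
    obtain ⟨S⟩ : Nonempty (Sylow r G) := inferInstance
    haveI := B r hr' S
    have h4 : (S : Subgroup G) ⊔ centralizer (((S : Subgroup G) ⊓ f.ker : Subgroup G) : Set G) = ⊤ :=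
      H02.eq_top_of_forall_sylow_le fun s hs => by
        by_cases e : s = r
        · subst e; exact ⟨S, le_sup_left⟩
        obtain ⟨T⟩ : Nonempty (Sylow s G) := inferInstance
        refine ⟨T, le_sup_of_le_right ?_⟩
        by_cases hd : s ∣ Nat.card G
        · rw [← commutator_eq_bot_iff_le_centralizer, eq_bot_iff, ← (IsPGroup.disjoint_of_ne s r e _ _ T.2
            (S.2.to_le (inf_le_left (b := f.ker)))).eq_bot]
          refine le_inf ?_ (commutator_le_right _ _)
          rw [commutator_comm]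
          exact le_normalizer_iff_commutator_le_right.1 (inf_le_right.trans (A s (C s hs.out hd) T))
        · obtain ⟨k, hk⟩ := T.2.exists_card_eq
          rcases k with _ | k
          · exact (card_eq_one.1 hk).trans_le bot_le
          · exact absurd ((hk ▸ dvd_pow_self s k.succ_ne_zero :).trans (card_subgroup_dvd_card _)) hd
    obtain ⟨z, z1, z2, z3⟩ := H06.exists_mem_center_of_normal_pGroup S.2 (((S : Subgroup G) ⊓ f.ker).subgroupOf S) fun e => by
      rw [subgroupOf_eq_bot, disjoint_iff, inf_of_le_left inf_le_left] at e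
      refine H27.not_dvd_relIndex_inf_of_normal S f.ker ?_
      rwa [e, relIndex_bot_left]
    refine z3 (Subtype.ext (hZ.le (mem_center_iff.2 fun g => mem_centralizer_singleton_iff.1 ?_)))
    exact (sup_le (fun y hy => mem_centralizer_singleton_iff.2 (congrArg Subtype.val (mem_center_iff.1 z2 ⟨y, hy⟩)))
      (centralizer_le (Set.singleton_subset_iff.2 (show z.1 ∈ (S : Subgroup G) ⊓ f.ker from z1)))) (h4.ge (mem_top g))
  let e := MulEquiv.ofBijective f ⟨f.ker_eq_bot_iff.1 hinj, hf⟩
  exact hmain.imp (fun ⟨e'⟩ => ⟨e.trans e'⟩) fun ⟨e'⟩ => ⟨e.trans e'⟩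

end Cfsg.Agent.S3641
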