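import Mathlib
import Cfsg.Statements.S3648
import Cfsg.Agent.H05.Np2

set_option autoImplicit false
open Cfsg

namespace Cfsg.Agent.S3648

theorem vals_eq (X : Type*) [Group X] [Finite X] :
    H02.NS.vals X = {c : ℕ | 0 < c ∧ ∃ n : ℕ, c = Nat.card {g : X // orderOf g = n}} := by
  ext c
  constructor
  · intro h
    obtain ⟨m, rfl, h0⟩ := H02.NS.vals_ex h
    exact ⟨Nat.pos_of_ne_zero h0, m, rfl⟩
  · rintro ⟨h0, n, rfl⟩
    exact H02.NS.mem_vals h0.ne'

/-- For a finite group X let nse(X) be the set of values of the function 'number of elements of order k' over the element orders k that occur. Let F be a finite field of odd order q > 3 and P = PGL(2, F) = GL(2, F) modulo its centre. If G is a finite group with the same order as P and nse(G) = nse(P), then G is isomorphic to P. -/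
theorem result {F : Type*} [Field F] [Fintype F] (hodd : Odd (Fintype.card F)) (h3 : 3 < Fintype.card F)
    {G : Type*} [Group G] [Finite G] (hcard : Nat.card G = Nat.card (GL (Fin 2) F ⧸ Subgroup.center (GL (Fin 2) F)))
    (hnse : {c : ℕ | 0 < c ∧ ∃ n : ℕ, c = Nat.card {g : G // orderOf g = n}} = {c : ℕ | 0 < c ∧ ∃ n : ℕ, c = Nat.card {g : (GL (Fin 2) F ⧸ Subgroup.center (GL (Fin 2) F)) // orderOf g = n}}) :
    Nonempty (G ≃* (GL (Fin 2) F ⧸ Subgroup.center (GL (Fin 2) F))) := by
  exact H05.Np.main hodd hcard ((vals_eq G).trans (hnse.trans (vals_eq _).symm))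

end Cfsg.Agent.S3648
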