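import Cfsg.Statements.S3662
import Mathlib
import Cfsg.Agent.H27.Spec3
import Cfsg.Agent.H27.G24
import Cfsg.Agent.H11.G2Sp
import Cfsg.Agent.S1055
-- import your own Cfsg.Agent.* helpers here

set_option autoImplicit false
open Cfsg

namespace Cfsg.Agent.S3662

open scoped Pointwise commutatorElement

open H11 H11.G2 H11.StSys Cfsg.Lie H13 H14.PK H27 H27.MG H27.G24 Matrix

/-- the middle coordinates -/
def e6 : Fin 6 → Fin 8 := ![1, 2, 3, 4, 5, 6]
/-- addition -/
abbrev ad := opT 4 2 AT
/-- multiplication -/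
abbrev mu := opT 4 2 MT

section
variable {K : Type*} [Field K] [CharP K 2]

/-- the identity of the octonions -/
def u : Fin 8 → K := ![1, 0, 0, 0, 0, 0, 0, 1]

/-- the stabiliser of the identity and the trace -/
def P : Subgroup (GL (Fin 8) K) where
  carrier := {g | g.1 *ᵥ u = u ∧ u ᵥ* g.1 = u}
  one_mem' := by simp
  mul_mem' {a b} h k := ⟨by rw [Units.val_mul, ← mulVec_mulVec, k.1, h.1], by rw [Units.val_mul, ← vecMul_vecMul, h.2, k.2]⟩
  inv_mem' {a} h := ⟨by conv_lhs => rw [← h.1, mulVec_mulVec, Units.inv_mul, one_mulVec],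
    by conv_lhs => rw [← h.2, vecMul_vecMul, Units.mul_inv, vecMul_one]⟩

theorem oP (r : Root chevG2) (t : K) : o2 r t ∈ P := by
  have k := (by decide +kernel : ∀ r : Root chevG2, ∀ i, oA r i 7 = -oA r i 0 ∧ oA r 7 i = -oA r 0 i ∧ oB r i 7 = -oB r i 0 ∧
    oB r 7 i = -oB r 0 i) r
  constructor <;> ext i <;> simp [o2_val, add_mulVec, vecMul_add, smul_mulVec, vecMul_smul] <;>
    simp [mulVec, vecMul, dotProduct, Fin.sum_univ_eight, u, k]

/-- the middle block -/
def sg : P (K := K) →* Matrix (Fin 6) (Fin 6) K where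
  toFun g := g.1.1.submatrix e6 e6
  map_one' := submatrix_one e6 (by decide)
  map_mul' a b := by
    ext i j
    have x := congrFun a.2.1 (e6 i)
    have y := congrFun b.2.2 (e6 j)
    have z : ∀ i, u (e6 i) = (0 : K) := fun i => by fin_cases i <;> rfl
    rw [z] at x y
    simp [mulVec, vecMul, dotProduct, Fin.sum_univ_eight, u, CharTwo.add_eq_zero] at x y
    simp only [Subgroup.coe_mul, Units.val_mul, submatrix_apply, mul_apply, Fin.sum_univ_eight, Fin.sum_univ_six, x, y]
    linear_combination (norm := (simp [e6]; ring)) CharTwo.add_self_eq_zero (a.1.1 (e6 i) 7 * b.1.1 7 (e6 j))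

end

/-- The prime graph of a finite group has the prime divisors of its order as vertices, two distinct primes p, q being joined when the group has an element of order pq; two groups have the same prime graph when they have the same prime divisors and the same joined pairs. Let F be the field with 4 elements and L the Chevalley group of type G₂ over F. There are finite groups of arbitrarily large order with the same prime graph as L. -/
theorem result {F : Type*} [Field F] [Fintype F] (hF : Fintype.card F = 4) (N : ℕ) :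
    ∃ (H : Type) (_ : Group H) (_ : Finite H), N < Nat.card H ∧
      ((∀ p : ℕ, p.Prime → (p ∣ Nat.card ↥(Cfsg.Lie.chevG2.group F) ↔ p ∣ Nat.card H)) ∧
      (∀ p q : ℕ, p.Prime → q.Prime → p ≠ q → ((∃ g : ↥(Cfsg.Lie.chevG2.group F), orderOf g = p * q) ↔ (∃ g : H, orderOf g = p * q)))) := by
  obtain ⟨C⟩ := FC.table F hF fok
  have : CharP F 2 := charP_of_card_eq_prime_pow (f := 2) hF
  have hN : Nat.card (chevG2.group F) = 251596800 := by rw [Cfsg.Agent.S1059.result hF]; norm_num
  have : Finite (chevG2.group F) := Nat.finite_of_card_ne_zero (by omega)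
  have hK : ∃ a : F, a ≠ 0 ∧ a ≠ 1 := ⟨C.el 2, fun c => by simpa using C.inj 2 (by norm_num) 0 (by norm_num) (c.trans C.el0.symm),
    fun c => by simpa using C.inj 2 (by norm_num) 1 (by norm_num) (c.trans C.el1.symm)⟩
  have := (Cfsg.Agent.S1055.result hK).1
  obtain ⟨ρ, -, hρ⟩ := exists_rho hK
  let σ := sg.comp (ρ.codRestrict P fun g => (US_le (M := P.comap ρ)).2 (fun r _ t => show ρ _ ∈ P from hρ r t ▸ oP r t)
    ((grpSys_grp chevG2 F).ge trivial))
  have hx : ∀ r t M, (∀ i j : Fin 6, get 2 M (i * 6 + j) = ad (ad (if i = j then 1 else 0) (mu t (ci ad mu 1 (oA r.1 (e6 i) (e6 j)))))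
      (mu (mu t t) (ci ad mu 1 (oB r.1 (e6 i) (e6 j))))) → σ ((grpSys chevG2 F).x r (C.el t)) = C.mat (Equiv.refl _) M := fun r t M h => by
    ext i j
    change (ρ _).1 _ _ = C.el (get 2 M (i * 6 + j))
    rw [hρ, o2_val, h, C.el_ad, C.el_ad, C.el_mu, C.el_mu, C.el_mu, C.el_ci (by decide +kernel), C.el_ci (by decide +kernel)]
    simp [sq, one_apply, (show Function.Injective e6 by decide).eq_iff, apply_ite C.el, C.el0, C.el1]
  letI : DistribMulAction (chevG2.group F) (Fin 6 → F) :=
    { smul := fun g v => σ g *ᵥ v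
      one_smul := fun v => show σ 1 *ᵥ v = v by rw [map_one, one_mulVec]
      mul_smul := fun g h v => show σ (g * h) *ᵥ v = σ g *ᵥ σ h *ᵥ v by rw [map_mul, mulVec_mulVec]
      smul_zero := fun _ => mulVec_zero _
      smul_add := fun _ => mulVec_add _ }
  have k : ∀ {s : ℕ}, s.Prime → ¬ s ^ 2 ∣ 251596800 → ∀ z : chevG2.group F, ∀ {X Y : ℕ}, σ z = C.mat (Equiv.refl _) X →
      (mp ad mu 2 6 X s = mone 2 6 ∧ mm ad mu 2 6 Y (mkT 2 36 fun i => ad (get 2 X i) (get 2 (mone 2 6) i)) = mone 2 6) →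
      (∃ g : chevG2.group F, orderOf g = 2 * s) ∨ ∀ g : chevG2.group F, orderOf g = s → ∀ v : Fin 6 → F, g • v = v → v = 0 :=
    fun {s} hs hd z X Y h e => by
    have f : ∀ v : Fin 6 → F, z • v = v → v = 0 := fun v a => by
      have b := congrArg (fun M => C.mat (Equiv.refl (Fin 6)) M *ᵥ v) e.2
      have c : C.mat (Equiv.refl (Fin 6)) (mkT 2 36 fun i => ad (get 2 X i) (get 2 (mone 2 6) i)) = σ z + 1 := by
        rw [h, ← C.mat_one (Equiv.refl _)]
        ext i j
        change C.el (get 2 _ (i * 6 + j)) = _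
        rw [get_mkT fun _ _ => C.ad_lt _ _, if_pos (by omega), C.el_ad]; rfl
      simp only [C.mat_mm, C.mat_one, c, ← mulVec_mulVec, add_mulVec, one_mulVec, show σ z *ᵥ v = v from a] at b
      rw [← b, show v + v = 0 from funext fun i => CharTwo.add_self_eq_zero _, mulVec_zero]
    have z1 : σ z ≠ 1 := fun c => absurd (congrFun (f 1 (show σ z *ᵥ 1 = 1 by rw [c, one_mulVec])) 0) one_ne_zero
    have := Fact.mk hs
    refine .inr (fpf_of_sylow smul_zero hs (hN ▸ hd) (orderOf_eq_prime ?_ fun c => z1 (by rw [c, map_one])) f)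
    refine ((Subgroup.Normal.eq_bot_or_eq_top (H := σ.toHomUnits.ker) inferInstance).resolve_right fun c =>
      z1 (congrArg Units.val (c.ge trivial : σ.toHomUnits z = 1))).le (Units.ext ?_)
    change σ _ = 1
    rw [map_pow, h, ← C.mat_mp, e.1, C.mat_one]
  suffices ∃ (H : Type) (_ : Group H) (_ : Fintype H), N < Fintype.card H ∧ SamePG (chevG2.group F) H by
    obtain ⟨H, i1, i2, h1, h2⟩ := this
    exact ⟨H, i1, inferInstance, Nat.card_eq_fintype_card (α := H) ▸ h1, h2⟩
  refine act_large_pg (V := Fin 6 → F) Nat.prime_two (fun v => funext fun i => by simp [CharTwo.two_eq_zero]) (by omega)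
    (fun s hs s2 => ?_) N
  by_cases c : s ∣ 251596800
  swap
  · exact .inr fun g hg => (c (hg ▸ hN ▸ orderOf_dvd_natCard g)).elim
  have : s ∈ Nat.primeFactors 251596800 := Nat.mem_primeFactors.2 ⟨hs, c, by norm_num⟩
  rw [show Nat.primeFactors 251596800 = {2, 3, 5, 7, 13} by decide +kernel] at this
  simp only [Finset.mem_insert, Finset.mem_singleton] at this
  rcases this with rfl | rfl | rfl | rfl | rfl
  · exact (s2 rfl).elim
  · exact .inl (exists_ord_q 2 hF _ (by simp))
  · exact .inl (exists_ord_q 2 hF _ (by simp))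
  · exact k (by norm_num) (by norm_num) ((grpSys chevG2 F).x ⟨0, by decide⟩ (C.el 1) * (grpSys chevG2 F).x ⟨4, by decide⟩ (C.el 1) * (grpSys chevG2 F).x ⟨6, by decide⟩ (C.el 1) * (grpSys chevG2 F).x ⟨7, by decide⟩ (C.el 1)) (X := (mm ad mu 2 6 (mm ad mu 2 6 (mm ad mu 2 6 (nat_lit 0x400100140010005001) (nat_lit 0x400101044410004001)) (nat_lit 0x400500040014004001)) (nat_lit 0x410100040010044101)))
      (Y := nat_lit 0x551001055400114050) (by simp only [map_mul, C.mat_mm, hx ⟨0, by decide⟩ 1 (nat_lit 0x400100140010005001) (by decide +kernel), hx ⟨4, by decide⟩ 1 (nat_lit 0x400101044410004001) (by decide +kernel), hx ⟨6, by decide⟩ 1 (nat_lit 0x400500040014004001) (by decide +kernel), hx ⟨7, by decide⟩ 1 (nat_lit 0x410100040010044101) (by decide +kernel)]) (by decide +kernel)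
  · exact k (by norm_num) (by norm_num) ((grpSys chevG2 F).x ⟨0, by decide⟩ (C.el 1) * (grpSys chevG2 F).x ⟨4, by decide⟩ (C.el 2) * (grpSys chevG2 F).x ⟨6, by decide⟩ (C.el 2) * (grpSys chevG2 F).x ⟨7, by decide⟩ (C.el 2)) (X := (mm ad mu 2 6 (mm ad mu 2 6 (mm ad mu 2 6 (nat_lit 0x400100140010005001) (nat_lit 0x400102048c10004001)) (nat_lit 0x400900040018004001)) (nat_lit 0x430100040010084201)))
      (Y := nat_lit 0x6a100335f8002671a0) (by simp only [map_mul, C.mat_mm, hx ⟨0, by decide⟩ 1 (nat_lit 0x400100140010005001) (by decide +kernel), hx ⟨4, by decide⟩ 2 (nat_lit 0x400102048c10004001) (by decide +kernel), hx ⟨6, by decide⟩ 2 (nat_lit 0x400900040018004001) (by decide +kernel), hx ⟨7, by decide⟩ 2 (nat_lit 0x430100040010084201) (by decide +kernel)]) (by decide +kernel)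

end Cfsg.Agent.S3662
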