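import Cfsg.Statements.S3663
import Mathlib
import Cfsg.Agent.H27.Spec3
import Cfsg.Agent.H27.U34
-- import your own Cfsg.Agent.* helpers here

set_option autoImplicit false
open Cfsg

namespace Cfsg.Agent.S3663

open scoped Pointwise commutatorElement

open H13 H14.PK H14.PK.TS H27 H27.PKx H27.MG H27.U34

def Bs : List ℕ := [nat_lit 31, nat_lit 0x420000061, nat_lit 0x80200100081, nat_lit 0x400082000101, nat_lit 0x1018000000000201, nat_lit 0x11000020401, nat_lit 0x2000010400801, nat_lit 0x40000040201001, nat_lit 0x2000000104002001, nat_lit 0x320000004001, nat_lit 0x200000008048001, nat_lit 0x400000800810001, nat_lit 0x18001000000080001, nat_lit 0x80006001000001, nat_lit 0x904008000000001, nat_lit 0x4020840000000001, nat_lit 0x10000000280000022, nat_lit 0x40002004000042, nat_lit 0x40800040082, nat_lit 0x4008004000000102, nat_lit 0x9000080202, nat_lit 0x400040800402, nat_lit 0x1000009000802, nat_lit 0x100000010101002, nat_lit 0x10180000002002, nat_lit 0x200000020024002, nat_lit 0x800000102008002, nat_lit 0x1000000400410002, nat_lit 0x8000a00000200002,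 nat_lit 0x2022010000000002, nat_lit 0x484020000000002, nat_lit 0x10000810000024, nat_lit 0x110000008044, nat_lit 0x4000040400084, nat_lit 0x80400080104, nat_lit 0x800081000204, nat_lit 0x10808000000000404, nat_lit 0x40100020804, nat_lit 0x400001002001004, nat_lit 0x80000020202004, nat_lit 0x1000000204004004, nat_lit 0x20000008110004, nat_lit 0x8002004000040004, nat_lit 0x100202000800004, nat_lit 0x2200408000000004, nat_lit 0x4041020000000004, nat_lit 0x201008000028, nat_lit 0x408000000000848, nat_lit 0x1000022000088, nat_lit 0x10800200108, nat_lit 0x20100100208, nat_lit 0x800014000408, nat_lit 0x2000000401001008, nat_lit 0x100000080042008, nat_lit 0x20000040084008, nat_lit 0x4000000200808008, nat_lit 0x10c000010008, nat_lit 0x8014000000020008, nat_lit 0x10200002000400008, nat_lit 0x1080440000000008, nat_lit 0x842080000000008, nat_lit 0x4140000030, nat_lit 0x8000400000100050, nat_lit 0x2008200000000090, nat_lit 0x400000c000110, nat_lit 0x2000020800210, nat_lit 0x20400040410, nat_lit 0x8200200810, nat_lit 0x10000140000001010, nat_lit 0x4000001000402010,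 nat_lit 0x800000801004010, nat_lit 0x80000010088010, nat_lit 0x40000080030010, nat_lit 0x30002002000010, nat_lit 0x1101010000000010, nat_lit 0x600880000000010, nat_lit 0x10000080000080a0, nat_lit 0x400040000004120, nat_lit 0x4000010000001220, nat_lit 0x2000080000010420, nat_lit 0x800020000002820, nat_lit 0x100400001020020, nat_lit 0x21000004040020, nat_lit 0x44000000880020, nat_lit 0x80800000500020, nat_lit 0x202000002200020, nat_lit 0x8008102000000020, nat_lit 0x8220c0, nat_lit 0x441140, nat_lit 0x100080008000240, nat_lit 0x80008080000440, nat_lit 0x2004000010004040, nat_lit 0x801000040010040, nat_lit 0x4200000100080040, nat_lit 0x1020001000200040, nat_lit 0x2040201000040, nat_lit 0x820802000040, nat_lit 0x10010204000000040, nat_lit 0xf80, nat_lit 0x20400100001080, nat_lit 0x100801000004080, nat_lit 0x10000001210080, nat_lit 0x402100000080080, nat_lit 0x8880000004000080, nat_lit 0x10040010008000080, nat_lit 0x4000002410000080, nat_lit 0x200024080000080, nat_lit 0x40800200002100, nat_lit 0x200001108100, nat_lit 0x82000100010100, nat_lit 0x2001100000020100,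 nat_lit 0x9200000000800100, nat_lit 0x10020008010000100, nat_lit 0x800003020000100, nat_lit 0x110020040000100, nat_lit 0x24000800002200, nat_lit 0x81000400004200, nat_lit 0x4004028200, nat_lit 0x10000000002050200, nat_lit 0x800500000200200, nat_lit 0xa040000000400200, nat_lit 0x200240010000200, nat_lit 0x400002240000200, nat_lit 0x201000200001400, nat_lit 0x200002082400, nat_lit 0x4000604400, nat_lit 0x102000800008400, nat_lit 0x4004100000100400, nat_lit 0x8420000001000400, nat_lit 0x1000002108000400, nat_lit 0x50040020000400, nat_lit 0x10000004081800, nat_lit 0x10000000000904800, nat_lit 0x40400400008800, nat_lit 0x204001000010800, nat_lit 0x1000900000040800, nat_lit 0xc100000002000800, nat_lit 0x20084020000800, nat_lit 0x80210040000800, nat_lit 0x2000002880000800, nat_lit 0x1f000, nat_lit 0x2022000021000, nat_lit 0x88080000801000, nat_lit 0x800804008001000, nat_lit 0x8000008820001000, nat_lit 0x1004200080001000, nat_lit 0x100a000102000, nat_lit 0x208010001002000, nat_lit 0x8000040408002000, nat_lit 0x400404010002000, nat_lit 0x11002000040002000,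 nat_lit 0x482000044000, nat_lit 0x48008002004000, nat_lit 0x4012000008004000, nat_lit 0x8000010180004000, nat_lit 0x4042000208000, nat_lit 0x28020000408000, nat_lit 0x12000800020008000, nat_lit 0x8000081040008000, nat_lit 0x411000080008000, nat_lit 0x812000090000, nat_lit 0x108040004010000, nat_lit 0x8000020210010000, nat_lit 0x4000600020010000, nat_lit 0x3e0000, nat_lit 0x400008008420000, nat_lit 0x1000080012020000, nat_lit 0x8800440020000, nat_lit 0x820200200020000, nat_lit 0x14080000800020000, nat_lit 0x800010010840000, nat_lit 0x4000008041040000, nat_lit 0xc000220040000, nat_lit 0x440200100040000, nat_lit 0x2090001000040000, nat_lit 0x800040080480000, nat_lit 0x1000020021080000, nat_lit 0x8400808080000, nat_lit 0x2100004200080000, nat_lit 0x2000040042100000, nat_lit 0x400010024100000, nat_lit 0xa001080100000, nat_lit 0xa10000400100000, nat_lit 0x1040004800100000, nat_lit 0x2000020008a00000, nat_lit 0x4000080084200000, nat_lit 0x9000110200000, nat_lit 0x10500000400200000, nat_lit 0x7c00000, nat_lit 0x100100120400000, nat_lit 0x10410200400000,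 nat_lit 0x1280800400000, nat_lit 0x20100480800000, nat_lit 0x10808100800000, nat_lit 0x1045000800000, nat_lit 0x40101011000000, nat_lit 0x10004080101000000, nat_lit 0x8010020a000000, nat_lit 0x4014402000000, nat_lit 0x200100844000000, nat_lit 0x2208404000000, nat_lit 0x10000421004000000, nat_lit 0xf8000000, nat_lit 0x1f00000000, nat_lit 0xf8000000000, nat_lit 0x7c00000000000, nat_lit 0x3e0000000000000, nat_lit 0x7c00000000000000]
def F0 : ℕ := nat_lit 0x4b01080990122464b4e140052289c303501058
def X : ℕ := nat_lit 0x292cf558514417bf2ab409a24606b350e570c26c43ac749031f3670f1d70ed3b20099b3c288d0831ef8b82548059112898371d004253211a35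
def Y : ℕ := nat_lit 0x377ef11a628d81395c9de9b5e892877c70c8160e879f68b0a9306d4f0e50008a41410b896275c1034cd52b8080c3210586120c856a91a145bb
def Z : ℕ := nat_lit 0x3c3a842272a2df9204c5301484429870b8b3b32f551e288840334bc51c361d43680dd9ab185d62d5200734607c7ba64d44a31a412be7219013
def R : ℕ := nat_lit 0x200244850a081800a0c0001214489060c18312241030400100001428200141050000185060028312241821208483121448504082820608000

theorem lin : ∀ a b c d e : ZMod 5, ([a, a, b, c, b]).sum = 0 → ([a, d, b, b, d]).sum = 0 → ([a, b, c, d, e]).sum = 0 → ([a, e, e, a, d]).sum = 0 → a = b ∧ a = c ∧ a = d ∧ a = e := by decide +kernel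

/-- The prime graph of a finite group has the prime divisors of its order as vertices, two distinct primes p, q being joined when the group has an element of order pq; two groups have the same prime graph when they have the same prime divisors and the same joined pairs. Let F be the field with 16 elements and L = PSU(3,4) realised over F. There are finite groups of arbitrarily large order with the same prime graph as L. -/
theorem result {F : Type*} [Field F] [Fintype F] (hF : Fintype.card F = 16) (N : ℕ) :
    ∃ (H : Type) (_ : Group H) (_ : Finite H), N < Nat.card H ∧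
      ((∀ p : ℕ, p.Prime → (p ∣ Nat.card (Cfsg.PSU 3 F 4) ↔ p ∣ Nat.card H)) ∧
      (∀ p q : ℕ, p.Prime → q.Prime → p ≠ q → ((∃ g : (Cfsg.PSU 3 F 4), orderOf g = p * q) ↔ (∃ g : H, orderOf g = p * q)))) := by
  obtain ⟨S, M⟩ := model F hF
  have m : ∀ t ∈ [X, Y, Z], S.In ⊤ t := In.slp (pr := [[nat_lit 0, nat_lit 1, nat_lit 2, nat_lit 1, nat_lit 0, nat_lit 0, nat_lit 2, nat_lit 0, nat_lit 0, nat_lit 0, nat_lit 0],
   [nat_lit 1, nat_lit 3, nat_lit 1, nat_lit 3, nat_lit 1, nat_lit 2, nat_lit 3, nat_lit 3, nat_lit 2, nat_lit 2, nat_lit 3, nat_lit 1, nat_lit 2, nat_lit 3],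
   [nat_lit 4, nat_lit 3, nat_lit 2, nat_lit 2, nat_lit 4, nat_lit 3, nat_lit 2],
   [nat_lit 2, nat_lit 1, nat_lit 0, nat_lit 1, nat_lit 1, nat_lit 0, nat_lit 1, nat_lit 1, nat_lit 0],
   [nat_lit 3, nat_lit 2, nat_lit 1, nat_lit 2, nat_lit 2, nat_lit 3, nat_lit 2, nat_lit 1, nat_lit 1, nat_lit 1],
   [nat_lit 0, nat_lit 0, nat_lit 0],
   [nat_lit 0, nat_lit 0],
   [nat_lit 1, nat_lit 3, nat_lit 5, nat_lit 5, nat_lit 6, nat_lit 7, nat_lit 8, nat_lit 7, nat_lit 9, nat_lit 7],
   [nat_lit 2, nat_lit 1, nat_lit 4, nat_lit 7, nat_lit 6, nat_lit 7, nat_lit 8, nat_lit 10, nat_lit 8, nat_lit 10, nat_lit 8],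
   [nat_lit 2, nat_lit 5, nat_lit 7, nat_lit 7, nat_lit 8, nat_lit 10, nat_lit 11]]) (by decide +kernel) M.mem
  simp only [List.forall_mem_cons] at m
  suffices ∃ (H : Type) (_ : Group H) (_ : Fintype H), N < Fintype.card H ∧ SamePG (PSU 3 F 4) H by
    obtain ⟨H, i1, i2, h1, h2⟩ := this
    exact ⟨H, i1, inferInstance, Nat.card_eq_fintype_card (α := H) ▸ h1, h2⟩
  refine pg_of_blocks M (r := 5) (by norm_num) (by norm_num) (Bs := Bs) (by decide +kernel)
    (fun i => get 3 F0 i) (by decide +kernel) (i0 := 0) (j0 := 1) (by norm_num) (by norm_num) (by decide +kernel)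
    (fun s hs h5 hd => ?_) N
  have : s ∈ Nat.primeFactors 62400 := Nat.mem_primeFactors.2 ⟨hs, hd, by norm_num⟩
  rw [show Nat.primeFactors 62400 = {2, 3, 5, 13} by decide +kernel] at this
  simp only [Finset.mem_insert, Finset.mem_singleton] at this
  rcases this with rfl | rfl | rfl | rfl
  · exact Or.inl ⟨_, order_ex m.2.1 (by decide +kernel)⟩
  · exact Or.inl ⟨_, order_ex m.2.2.1 (by decide +kernel)⟩
  · exact absurd rfl h5
  refine Or.inr ⟨by norm_num, _, order_ex m.1 (by decide +kernel), fun f hf h => ?_⟩
  have k := eq_rep (R := R) (s := 13) m.1 (by norm_num) (by decide) (by decide +kernel) h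
  obtain ⟨a, b, c, d⟩ := lin (f 0) (f 2) (f 3) (f 5) (f 9)
    ((blk_sum (m := 31) (l := [0, 0, 2, 3, 2]) k (by decide +kernel)).symm.trans (hf _ (by decide +kernel)))
    ((blk_sum (m := 17716740193) (l := [0, 5, 2, 2, 5]) k (by decide +kernel)).symm.trans (hf _ (by decide +kernel)))
    ((blk_sum (m := 8804684005505) (l := [0, 2, 3, 5, 9]) k (by decide +kernel)).symm.trans (hf _ (by decide +kernel)))
    ((blk_sum (m := 1159676904047903233) (l := [0, 9, 9, 0, 5]) k (by decide +kernel)).symm.trans (hf _ (by decide +kernel)))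
  have k2 : ∀ i < 65, f i = f 0 := fun i hi => by
    have : get 7 R i ∈ [0, 2, 3, 5, 9] := by revert i; decide +kernel
    rw [k i hi]
    simp only [List.mem_cons, List.not_mem_nil, or_false] at this
    rcases this with e | e | e | e | e <;> rw [e]
    exacts [a.symm, b.symm, c.symm, d.symm]
  exact fun i hi j hj => (k2 i hi).trans (k2 j hj).symm

end Cfsg.Agent.S3663
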