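import Mathlib
import Cfsg.Agent.H20.U33b
import Cfsg.Agent.H20.U33c
-- Template for statement S3670 (row 3670; see /opt/grader/pristine/manifest.json for weights).
-- Copy to Cfsg/Agent/S3670.lean and replace the sorry. The statement below is byte-identical to the frozen
-- statement Cfsg.CfsgFrozen.S3670 (Cfsg/Statements/S3670.lean; the theorem Cfsg.kfact10_solvable_group_with_order_and_degree_graph_of_psu_three_three);
-- the grader kernel-checks Cfsg.Agent.S3670.result against that frozen type. Keep the theorem IN THIS FILE
-- (a `result` declared elsewhere and merely imported here is not credited); helpers may live anywhere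
-- under Cfsg/Agent/.
import Cfsg.Statements.S3670
-- import your own Cfsg.Agent.* helpers here

set_option autoImplicit false
open Cfsg

open Classical

namespace Cfsg.Agent.S3670

/-- The character degree graph of a finite group has as vertices the primes dividing some irreducible complex character degree, two distinct primes being joined when their product divides some irreducible character degree; two groups have the same character degree graph when they have the same vertices and the same joined pairs. Let F be the field with 9 elements and L = PSU(3,3) realised over F (order 6048). There is a finite solvable group of order 6048 with the same character degree graph as L; so L is not determined by its order together with its character degree graph. -/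
theorem result {F : Type*} [Field F] [Fintype F] (hF : Fintype.card F = 9) :
    ∃ (H : Type) (_ : Group H) (_ : Fintype H), Group.IsSolvable H ∧ Nat.card H = 6048 ∧ Cfsg.degreePrimes H = Cfsg.degreePrimes (Cfsg.PSU 3 F 3) ∧ Cfsg.degreeGraph H = Cfsg.degreeGraph (Cfsg.PSU 3 F 3) := by
----
  obtain ⟨H, _, _, hs, hc, hd⟩ := H20.U33.exists_solvable
  obtain ⟨h1, h2⟩ := H20.U33.graph_of hc ⟨42, hd, by norm_num⟩ ⟨42, hd, by norm_num⟩ ⟨42, hd, by norm_num⟩
  obtain ⟨h3, h4⟩ := H20.U33.graph F hF
  exact ⟨H, inferInstance, inferInstance, hs, hc, h1.trans h3.symm, SimpleGraph.ext (funext₂ fun p q => propext ((h2 p q).trans (h4 p q).symm))⟩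

end Cfsg.Agent.S3670
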