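import Mathlib
import Cfsg.Statements.S3678
import Cfsg.Agent.H17.Aff2

set_option autoImplicit false
open Cfsg

namespace Cfsg.Agent.S3678

theorem no_pq {p q n : ℕ} (hp : p.Prime) (hq : q.Prime) (hpq : p ≠ q) {r k : ℕ} (hr : r.Prime)
    (hn : n = r ^ k) : ¬ p * q ∣ n := fun h => hpq
  (((Nat.prime_dvd_prime_iff_eq hp hr).1 (hp.dvd_of_dvd_pow (hn ▸ (Dvd.intro _ rfl).trans h))).trans
    ((Nat.prime_dvd_prime_iff_eq hq hr).1 (hq.dvd_of_dvd_pow (hn ▸ (Dvd.intro_left _ rfl).trans h))).symm)

/-- The prime graph of a finite group has the prime divisors of its order as vertices, two distinct primes p, q being joined when the group has an element of order pq; two groups have the same prime graph when they have the same prime divisors and the same joined pairs. Let F be the field with 7 elements. There are finite groups of arbitrarily large order with the same prime graph as PSL(2,F) (the graph on {2, 3, 7} with no edges, which is also the prime graph of PSL(2,8)). -/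
theorem result {F : Type*} [Field F] [Fintype F] (hF : Fintype.card F = 7) (N : ℕ) :
    ∃ (H : Type) (_ : Group H) (_ : Finite H), N < Nat.card H ∧
      ((∀ p : ℕ, p.Prime → (p ∣ Nat.card (Matrix.ProjectiveSpecialLinearGroup (Fin 2) F) ↔ p ∣ Nat.card H)) ∧
      (∀ p q : ℕ, p.Prime → q.Prime → p ≠ q → ((∃ g : (Matrix.ProjectiveSpecialLinearGroup (Fin 2) F), orderOf g = p * q) ↔ (∃ g : H, orderOf g = p * q)))) := by
  classical
  letI : Fintype (GaloisField 2 3) := Fintype.ofFinite _
  have hK : Fintype.card (GaloisField 2 3) = 8 := by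
    rw [← Nat.card_eq_fintype_card, GaloisField.card 2 3 (by norm_num)]; norm_num
  obtain ⟨H, _, _, h1, h2, h3⟩ := H17.sl2_large_pg (F := GaloisField 2 3) N
  have h7 : Fact (Nat.Prime 7) := ⟨by norm_num⟩
  have hc : CharP F 7 := charP_of_card_eq_prime hF
  have d1 : L.Dk.dd F = 2 := by rcases L.Dk.dd_cases (F := F) with h | h <;> omega
  have d2 : L.Dk.dd (GaloisField 2 3) = 1 := by rcases L.Dk.dd_cases (F := GaloisField 2 3) with h | h <;> omega
  have c1 := L.Dk.card_psl (F := F)
  have c2 := L.Dk.card_psl (F := GaloisField 2 3)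
  rw [d1, hF] at c1
  rw [d2, hK] at c2
  refine ⟨H, inferInstance, inferInstance, by rwa [Nat.card_eq_fintype_card], fun p hp => ?_, fun p q hp hq hpq => ?_⟩
  · rw [← h2 p hp, show Nat.card (Matrix.ProjectiveSpecialLinearGroup (Fin 2) F) = 168 by omega,
      show Nat.card (Matrix.ProjectiveSpecialLinearGroup (Fin 2) (GaloisField 2 3)) = 3 * 168 by omega,
      hp.dvd_mul]
    exact ⟨Or.inr, fun h => h.elim (fun h => h.trans (by norm_num)) id⟩
  · rw [← h3 p q hp hq hpq]
    refine iff_of_false (fun ⟨g, hg⟩ => ?_) fun ⟨g, hg⟩ => ?_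
    · rcases L.Dk.orderOf_psl 7 g with h | h | h
      · exact no_pq hp hq hpq h7.out (pow_one 7).symm (hg ▸ orderOf_dvd_of_pow_eq_one h)
      · rw [d1, hF, hg] at h
        exact no_pq hp hq hpq Nat.prime_three (pow_one 3).symm
          (Nat.dvd_of_mul_dvd_mul_left two_pos (h.trans (by norm_num)))
      · rw [d1, hF, hg] at h
        exact no_pq hp hq hpq Nat.prime_two (show 4 = 2 ^ 2 by norm_num)
          (Nat.dvd_of_mul_dvd_mul_left two_pos (h.trans (by norm_num)))
    · rcases L.Dk.orderOf_psl 2 g with h | h | h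
      · have := orderOf_dvd_of_pow_eq_one h
        rw [hg] at this
        exact no_pq hp hq hpq Nat.prime_two (pow_one 2).symm this
      · rw [d2, hK, hg, one_mul] at h
        exact no_pq hp hq hpq h7.out (pow_one 7).symm h
      · rw [d2, hK, hg, one_mul] at h
        exact no_pq hp hq hpq Nat.prime_three (show 8 + 1 = 3 ^ 2 by norm_num) h

end Cfsg.Agent.S3678
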