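import Mathlib
import Cfsg.Statements.S3681
import Cfsg.Agent.H05.Jord

set_option autoImplicit false
open Cfsg

namespace Cfsg.Agent.S3681

/-- Bochert's bound for primitive groups. Let a finite group G act faithfully and primitively on a finite set Ω with n elements, and suppose the image of G in the symmetric group of Ω does not contain the alternating group of Ω. Then |G| · ⌊(n + 1)/2⌋! ≤ n!, that is, the index of G in the symmetric group is at least ⌊(n + 1)/2⌋!. -/
theorem result {G Ω : Type*} [Group G] [Finite G] [MulAction G Ω] [FaithfulSMul G Ω] [Fintype Ω] [DecidableEq Ω]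
    (hprim : MulAction.IsPreprimitive G Ω) (hA : ¬ alternatingGroup Ω ≤ (MulAction.toPermHom G Ω).range) :
    Nat.card G * Nat.factorial ((Fintype.card Ω + 1) / 2) ≤ Nat.factorial (Fintype.card Ω) := by
  classical
  obtain ⟨Δ, hΔ, hmax⟩ := Finset.exists_max_image
    (Finset.univ.filter fun Δ : Finset Ω => ∀ g : G, (∀ z ∉ Δ, g • z = z) → g = 1) Finset.card
    ⟨∅, by simpa using fun g hg => eq_of_smul_eq_smul (α := Ω) (by simpa using hg)⟩
  simp only [Finset.mem_filter, Finset.mem_univ, true_and] at hΔ hmax
  have h1 : Fintype.card Ω ≤ 2 * Δ.card := by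
    by_contra hc
    have ex : ∀ S : Finset Ω, Δ.card < S.card → ∃ g : G, (∀ z ∉ S, g • z = z) ∧ g ≠ 1 := fun S hS => by
      by_contra hn
      push Not at hn
      exact hS.not_ge (hmax S hn)
    obtain ⟨g, g1, g2⟩ := ex Δᶜ (by rw [Finset.card_compl]; omega)
    obtain ⟨a, ha⟩ : ∃ a : Ω, g • a ≠ a := by
      by_contra hn
      push Not at hn
      exact g2 (eq_of_smul_eq_smul (α := Ω) (by simpa using hn))
    have haΔ : a ∉ Δ := fun e => ha (g1 a (by simpa using e))
    obtain ⟨h, h1, h2⟩ := ex (insert a Δ) (by rw [Finset.card_insert_of_notMem haΔ]; omega)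
    refine hA (H05.alt_le_of_meet hprim ha (h := h) (fun e => h2 (hΔ h fun z hz => ?_)) fun x hx => ?_)
    · by_cases e' : z = a
      · rw [e', e]
      · exact h1 z (by simp [e', hz])
    · by_cases e' : x ∈ Δ
      · exact Or.inl (g1 x (by simpa using e'))
      · exact Or.inr (h1 x (by simp [e', hx]))
  have h2 := Nat.card_le_card_of_injective (α := G × Equiv.Perm Δ)
    (fun p => MulAction.toPermHom G Ω p.1 * Equiv.Perm.ofSubtype p.2) (by
      rintro ⟨g, σ⟩ ⟨g', σ'⟩ e
      have e1 : g'⁻¹ * g = 1 := hΔ _ fun z hz => by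
        have := DFunLike.congr_fun e z
        simp only [Equiv.Perm.mul_apply, Equiv.Perm.ofSubtype_apply_of_not_mem _ hz, MulAction.toPermHom_apply,
          MulAction.toPerm_apply] at this
        rw [mul_smul, this, inv_smul_smul]
      obtain rfl := inv_mul_eq_one.1 e1
      exact Prod.ext rfl (Equiv.Perm.ofSubtype_injective (mul_left_cancel e)))
  rw [Nat.card_prod, Nat.card_perm, Nat.card_perm, Nat.card_eq_fintype_card (α := Ω), Nat.card_eq_fintype_card (α := Δ),
    Fintype.card_coe] at h2
  exact le_trans (Nat.mul_le_mul_left _ (Nat.factorial_le (by omega))) h2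

end Cfsg.Agent.S3681
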