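import Mathlib
import Cfsg.Statements.S3684
import Cfsg.Agent.H18.Prim
import Cfsg.Agent.H01.Coprime
import Cfsg.Agent.H08.Dihedral

set_option autoImplicit false
open Cfsg

namespace Cfsg.Agent.S3684

open MulAction

/-- Let a finite group G act faithfully and primitively on a set Ω, and suppose the stabilizer of a point a has an orbit of length 2. Then the stabilizer of a has order 2 and G is isomorphic to the dihedral group of order 2p for some prime p. -/
theorem result {G Ω : Type*} [Group G] [Finite G] [MulAction G Ω] [FaithfulSMul G Ω] [Finite Ω]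
    (hprim : MulAction.IsPreprimitive G Ω) (a b : Ω) (h2 : Nat.card (MulAction.orbit (MulAction.stabilizer G a) b) = 2) :
    Nat.card (MulAction.stabilizer G a) = 2 ∧ ∃ p : ℕ, p.Prime ∧ Nonempty (G ≃* DihedralGroup p) := by
  classical
  have := hprim.toIsPretransitive
  set H := stabilizer G a ⊓ stabilizer G b with hH
  have hia : H.relIndex (stabilizer G a) = 2 := by
    rw [hH, Subgroup.inf_relIndex_left, ← h2, Nat.card_coe_set_eq, ← index_stabilizer]; rfl
  have hcard := H18.card_stabilizer_eq_of_trans (G := G) a b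
  have c1 : Nat.card H * H.relIndex (stabilizer G a) = Nat.card (stabilizer G a) := by
    exact H01.card_mul_relIndex inf_le_left
  have c2 : Nat.card H * H.relIndex (stabilizer G b) = Nat.card (stabilizer G b) := by
    exact H01.card_mul_relIndex inf_le_right
  have hib : H.relIndex (stabilizer G b) = 2 := by
    rw [← hia]; apply Nat.eq_of_mul_eq_mul_left (Nat.card_pos (α := H)); rw [c1, c2, hcard]
  have hne : ¬ stabilizer G b ≤ stabilizer G a := by
    intro h
    rw [hH, inf_eq_right.2 h, Subgroup.relIndex_self] at hib; omega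
  have : Nontrivial Ω := ⟨a, b, by rintro rfl; exact hne le_rfl⟩
  have hco : IsCoatom (stabilizer G a) := IsPreprimitive.isCoatom_stabilizer_of_isPreprimitive G a
  have hna : stabilizer G a ≤ Subgroup.normalizer (H : Set G) :=
    (Subgroup.normal_subgroupOf_iff_le_normalizer inf_le_left).1 (Subgroup.normal_of_index_eq_two hia)
  have hnb : stabilizer G b ≤ Subgroup.normalizer (H : Set G) :=
    (Subgroup.normal_subgroupOf_iff_le_normalizer inf_le_right).1 (Subgroup.normal_of_index_eq_two hib)
  have hHn : H.Normal := Subgroup.normalizer_eq_top_iff.1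
    (hco.2 _ (lt_of_le_of_ne hna (fun e => hne (e ▸ hnb))))
  have hH1 : H = ⊥ := by
    by_contra h
    have ht := H18.normal_trans_of_prim_faithful hprim H h
    obtain ⟨k, hk⟩ := ht.exists_smul_eq b a
    have : b = a := (k.2.2 : (k : G) • b = b).symm.trans hk
    exact hne (this ▸ le_rfl)
  rw [hia, hH1, Subgroup.card_bot, one_mul] at c1
  refine ⟨c1.symm, ?_⟩
  have hz : ∀ c : Ω, ∃ s : G, orderOf s = 2 ∧ Subgroup.zpowers s = stabilizer G c := by
    intro c
    have hc : Nat.card (stabilizer G c) = 2 := by rw [c1, H18.card_stabilizer_eq_of_trans (G := G) a c]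
    obtain ⟨s, hs⟩ := exists_prime_orderOf_dvd_card' (G := stabilizer G c) 2 hc.symm.dvd
    have hs' : orderOf (s : G) = 2 := by rw [Subgroup.orderOf_coe, hs]
    refine ⟨s, hs', Subgroup.eq_of_le_of_card_ge (by simp) ?_⟩
    rw [Nat.card_zpowers, hc, hs']
  obtain ⟨s, hs, hsa⟩ := hz a
  obtain ⟨t, ht, htb⟩ := hz b
  have hs2 := H08.mul_self_of_orderOf hs
  have ht2 := H08.mul_self_of_orderOf ht
  have hsm : s ∈ stabilizer G a := hsa ▸ Subgroup.mem_zpowers s
  have hst : s ∉ Subgroup.zpowers (s * t) := by
    rintro ⟨k, hk⟩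
    have h1 : Commute s (s * t) := by
      have := Commute.zpow_left (Commute.refl (s * t)) k
      simp only at hk
      rwa [hk] at this
    have h3 : s * t = t * s := by
      have := h1.eq
      rw [mul_assoc s t s] at this
      exact mul_left_cancel this
    have h4 : Subgroup.centralizer {s} = ⊤ := by
      apply hco.2
      refine lt_of_le_of_ne ?_ (fun e => hne ?_)
      · rw [← hsa, Subgroup.zpowers_le, Subgroup.mem_centralizer_singleton_iff]
      · rw [e, ← htb, Subgroup.zpowers_le, Subgroup.mem_centralizer_singleton_iff]; exact h3.symm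
    apply H08.ne_one_of_orderOf hs
    apply FaithfulSMul.eq_of_smul_eq_smul (α := Ω)
    intro x
    obtain ⟨g, rfl⟩ := exists_smul_eq G a x
    have : g * s = s * g := Subgroup.mem_centralizer_singleton_iff.1 (h4 ▸ Subgroup.mem_top g)
    rw [← mul_smul, ← this, mul_smul, one_smul, show s • a = a from hsm]
  have hst1 : orderOf (s * t) ≠ 1 := by
    rw [Ne, orderOf_eq_one_iff]
    intro e
    apply hne
    rw [← htb, ← hsa, eq_inv_of_mul_eq_one_right e]; simp
  obtain ⟨p, hp, hpd⟩ := Nat.exists_prime_and_dvd hst1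
  set r := (s * t) ^ (orderOf (s * t) / p) with hr
  have hro : orderOf r = p := orderOf_pow_orderOf_div (orderOf_pos _).ne' hpd
  have hrz : Subgroup.zpowers r ≤ Subgroup.zpowers (s * t) := by
    rw [Subgroup.zpowers_le]; exact Subgroup.pow_mem _ (Subgroup.mem_zpowers _) _
  have hconj : s * r * s⁻¹ = r⁻¹ := by
    rw [hr, ← conj_pow, H08.conj_mul_left hs2 ht2, inv_pow]
  obtain ⟨e⟩ := H08.nonempty_closure_equiv_dihedral hp.ne_zero hro hs2 hconj (fun h => hst (hrz h))
  have htop : Subgroup.closure ({r, s} : Set G) = ⊤ := by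
    apply hco.2
    refine lt_of_le_of_ne ?_ (fun e => ?_)
    · rw [← hsa, Subgroup.zpowers_le]; exact Subgroup.subset_closure (by simp)
    · have h1 : r ∈ Subgroup.zpowers s := by
        rw [hsa, e]; exact Subgroup.subset_closure (by simp)
      have h3 : Subgroup.zpowers r = Subgroup.zpowers s := by
        apply Subgroup.eq_of_le_of_card_ge (by simpa using h1)
        rw [Nat.card_zpowers, Nat.card_zpowers, hro, hs]; exact hp.two_le
      exact hst (hrz (h3 ▸ Subgroup.mem_zpowers s))
  exact ⟨p, hp, ⟨(Subgroup.topEquiv.symm.trans (MulEquiv.subgroupCongr htop.symm)).trans e⟩⟩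

end Cfsg.Agent.S3684
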