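import Mathlib
import Cfsg.Statements.S3687
import Cfsg.Agent.H05.AltSt

set_option autoImplicit false
open Cfsg

namespace Cfsg.Agent.S3687

/-- Let a finite group G act faithfully and primitively on a set Ω, let a and b be points such that the orbit Δ of b under the stabilizer H of a has d ≥ 6 elements, and suppose that the permutation group induced by H on Δ contains the alternating group of Δ (the image of H in the symmetric group of Δ has index at most 2) while H does not act faithfully on Δ. Then either H induces exactly the alternating group of Δ and H is isomorphic to the direct product of the alternating groups of degrees d and d - 1; or H induces the full symmetric group of Δ and H is isomorphic to one of: the direct product of the symmetric groups of degrees d and d - 1, the direct product of the symmetric group of degree d with the alternating group of degree d - 1, or the subgroup of the direct product of the symmetric groups of degrees d and d - 1 consisting of the pairs of permutations with equal signs. -/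
theorem result {G Ω : Type*} [Group G] [Finite G] [MulAction G Ω] [FaithfulSMul G Ω] [Finite Ω]
    (hprim : MulAction.IsPreprimitive G Ω) (a b : Ω) (d : ℕ) (hd : Nat.card (MulAction.orbit (MulAction.stabilizer G a) b) = d) (h6 : 6 ≤ d)
    (halt : (MulAction.toPermHom (MulAction.stabilizer G a) (MulAction.orbit (MulAction.stabilizer G a) b)).range.index ≤ 2)
    (hunf : ¬ Function.Injective (MulAction.toPermHom (MulAction.stabilizer G a) (MulAction.orbit (MulAction.stabilizer G a) b))) :
    ((MulAction.toPermHom (MulAction.stabilizer G a) (MulAction.orbit (MulAction.stabilizer G a) b)).range.index = 2 ∧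
      Nonempty (MulAction.stabilizer G a ≃* alternatingGroup (Fin d) × alternatingGroup (Fin (d - 1)))) ∨
    ((MulAction.toPermHom (MulAction.stabilizer G a) (MulAction.orbit (MulAction.stabilizer G a) b)).range = ⊤ ∧
      (Nonempty (MulAction.stabilizer G a ≃* Equiv.Perm (Fin d) × Equiv.Perm (Fin (d - 1))) ∨
       Nonempty (MulAction.stabilizer G a ≃* Equiv.Perm (Fin d) × alternatingGroup (Fin (d - 1))) ∨
       Nonempty (MulAction.stabilizer G a ≃* ((Equiv.Perm.sign.comp (MonoidHom.fst (Equiv.Perm (Fin d)) (Equiv.Perm (Fin (d - 1))))) *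
         (Equiv.Perm.sign.comp (MonoidHom.snd (Equiv.Perm (Fin d)) (Equiv.Perm (Fin (d - 1)))))).ker))) := by
  classical
  have := hprim.toIsPretransitive
  let X₁ := MulAction.orbit (MulAction.stabilizer G a) b
  let X₂ := MulAction.orbit (MulAction.stabilizer G b) a
  have := Fintype.ofFinite X₁
  have := Fintype.ofFinite X₂
  set φ := MulAction.toPermHom (MulAction.stabilizer G a) X₁ with hφ
  have s₁ : H05.AltSt.Sd (MulAction.stabilizer G a ⊓ MulAction.stabilizer G b) φ ⟨b, MulAction.mem_orbit_self b⟩ :=
    ⟨inf_le_left, fun m => ⟨fun h => ⟨m.2, congrArg Subtype.val h⟩, fun h => Subtype.ext h.2⟩⟩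
  have s₂ : H05.AltSt.Sd (MulAction.stabilizer G a ⊓ MulAction.stabilizer G b)
      (MulAction.toPermHom (MulAction.stabilizer G b) X₂) ⟨a, MulAction.mem_orbit_self a⟩ :=
    ⟨inf_le_right, fun m => ⟨fun h => ⟨congrArg Subtype.val h, m.2⟩, fun h => Subtype.ext h.1⟩⟩
  have e : Nat.card X₂ = Nat.card X₁ := H05.card_orbit_symm a b
  have hd' : Nat.card X₁ = d := hd
  obtain ⟨ψ, h1, h2, h3, h4⟩ := H05.AltSt.main (H05.pr_stab hprim (H05.stab_ne (by omega))) s₁ s₂ (by omega) e
    (fun τ hτ => let ⟨m, hm⟩ := Equiv.Perm.alternatingGroup_le_of_index_le_two halt hτ; ⟨m, trivial, hm⟩)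
    fun h0 => hunf ((injective_iff_map_eq_one _).2 fun m hm =>
      Subtype.ext (Subgroup.mem_bot.1 (h0 ▸ H05.AltSt.mem_Ker.2 hm)))
  let e₁ := (Finite.equivFinOfCardEq hd').permCongrHom
  let e₂ := (Finite.equivFinOfCardEq ((H05.AltSt.card_ne (⟨a, MulAction.mem_orbit_self a⟩ : X₂)).trans
    (by rw [e, hd'] : Nat.card X₂ - 1 = d - 1))).permCongrHom
  have g₁ : ∀ σ, Equiv.Perm.sign (e₁ σ) = Equiv.Perm.sign σ := fun σ => Equiv.Perm.sign_permCongr _ σ
  have g₂ : ∀ σ, Equiv.Perm.sign (e₂ σ) = Equiv.Perm.sign σ := fun σ => Equiv.Perm.sign_permCongr _ σ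
  have : Nontrivial (Fin d) := Fin.nontrivial_iff_two_le.2 (by omega)
  have := H05.AltSt.final (φ := e₁.toMonoidHom.comp φ) (ψ := e₂.toMonoidHom.comp ψ)
    (fun m a1 a2 => h1 m (e₁.map_eq_one_iff.1 a1) (e₂.map_eq_one_iff.1 a2))
    (fun σ hσ => by
      obtain ⟨σ, rfl⟩ := e₁.surjective σ
      obtain ⟨m, a1, a2⟩ := h2 σ ((g₁ σ).symm.trans hσ)
      exact ⟨m, congrArg e₁ a1, e₂.map_eq_one_iff.2 a2⟩)
    (fun σ hσ => by
      obtain ⟨σ, rfl⟩ := e₂.surjective σ
      obtain ⟨m, a1, a2⟩ := h3 σ ((g₂ σ).symm.trans hσ)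
      exact ⟨m, e₁.map_eq_one_iff.2 a1, congrArg e₂ a2⟩)
    fun h m => (g₂ _).trans (h4 (fun m => (g₁ _).symm.trans (h m)) m)
  rw [← MonoidHom.map_range, Subgroup.index_map_of_bijective e₁.bijective] at this
  refine this.imp id (And.imp_left fun h => ?_)
  rwa [← Subgroup.index_eq_one, Subgroup.index_map_of_bijective e₁.bijective, Subgroup.index_eq_one] at h

end Cfsg.Agent.S3687
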