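import Mathlib
import Cfsg.Statements.S3693
import Cfsg.Agent.H05.TW

set_option autoImplicit false
open Cfsg

namespace Cfsg.Agent.S3693

/-- Let a finite group G act faithfully and primitively on a set Ω, let a and b be points such that the orbit Δ of b under the stabilizer H of a has length d ≥ 2, and consider the permutation group induced on Δ by the elements of H fixing b. If that induced group has trivial Fitting subgroup (no non-trivial nilpotent normal subgroup), then the two-point stabilizer of a and b has trivial Fitting subgroup and the order of H divides d! · ((d - 1)!)^d. -/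
theorem result {G Ω : Type*} [Group G] [Finite G] [MulAction G Ω] [FaithfulSMul G Ω] [Finite Ω]
    (hprim : MulAction.IsPreprimitive G Ω) (a b : Ω) (d : ℕ) (hd : Nat.card (MulAction.orbit (MulAction.stabilizer G a) b) = d) (h2 : 2 ≤ d)
    (hF : Cfsg.fittingSubgroup ↥(((MulAction.stabilizer G b).subgroupOf (MulAction.stabilizer G a)).map (MulAction.toPermHom (MulAction.stabilizer G a) (MulAction.orbit (MulAction.stabilizer G a) b))) = ⊥) :
    Cfsg.fittingSubgroup ↥(MulAction.stabilizer G a ⊓ MulAction.stabilizer G b) = ⊥ ∧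
      Nat.card (MulAction.stabilizer G a) ∣ Nat.factorial d * (Nat.factorial (d - 1)) ^ d := by
  have pr := H05.pr_stab hprim (H05.stab_ne (hd ▸ h2))
  have key : ∀ p : ℕ, p.Prime → Cfsg.piCoreOf {p} (MulAction.stabilizer G a ⊓ MulAction.stabilizer G b) = ⊥ := by
    intro p hp
    have := Fact.mk hp
    rw [inf_comm]
    refine pr.symm.knapp' hp ?_
    set P := Cfsg.piCoreOf {p} (MulAction.stabilizer G b ⊓ MulAction.stabilizer G a) with hP
    have P1 : P ≤ MulAction.stabilizer G a := (BG.pcore_le _ _).trans inf_le_right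
    have P2 : P ≤ MulAction.stabilizer G b := (BG.pcore_le _ _).trans inf_le_left
    set φ := MulAction.toPermHom (MulAction.stabilizer G a) (MulAction.orbit (MulAction.stabilizer G a) b)
    have h1 : (P.subgroupOf (MulAction.stabilizer G a)).map φ ≤
        Cfsg.fittingOf (((MulAction.stabilizer G b).subgroupOf (MulAction.stabilizer G a)).map φ) := by
      refine BG.le_fit (BG.pg_nil hp ((BG.pcore_pg hp _).comap_subtype.map φ)) (Subgroup.map_mono fun x hx => P2 hx) ?_
      refine BG.le_norm_iff.2 ?_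
      rintro _ ⟨x, hx, rfl⟩ _ ⟨k, hk, rfl⟩
      exact ⟨x * k * x⁻¹, BG.conj_mem_of_norm (K := P) (g := (x : G)) (BG.le_norm_pcore _ _ (Subgroup.mem_inf.2 ⟨hx, x.2⟩)) hk, by simp only [map_mul, map_inv]⟩
    rw [H02.fittingOf_eq_bot_iff.2 hF, le_bot_iff, Subgroup.map_eq_bot_iff] at h1
    refine fun k hk => ⟨P1 hk, fun m hm => ?_⟩
    have h3 := DFunLike.congr_fun (MonoidHom.mem_ker.1 (h1 (show (⟨k, P1 hk⟩ : MulAction.stabilizer G a) ∈ _ from hk)))
      ⟨m⁻¹ • b, ⟨m⁻¹, inv_mem hm⟩, rfl⟩
    have h4 : k • m⁻¹ • b = m⁻¹ • b := congrArg Subtype.val h3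
    rw [MulAction.mem_stabilizer_iff, mul_smul, mul_smul, h4, smul_inv_smul]
  refine ⟨H02.fittingOf_eq_bot_iff.1 (le_bot_iff.1 (H22.fit_le_of_pcores fun s hs => (key s hs).le)), ?_⟩
  rcases H05.tw_perm hprim a b hd h2 with h | ⟨p, hp, -, h0, h⟩
  · exact h
  · exact absurd (BG.eq_bot_mono (key p hp) h) h0

end Cfsg.Agent.S3693
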