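import Mathlib
import Cfsg.Statements.S3696

set_option autoImplicit false
open Cfsg

namespace Cfsg.Agent.S3696

open MulAction

theorem split_pow {p : ℕ} (hp : 2 ≤ p) : ∀ j s : ℕ, j + 1 ≤ s →
    ∃ y : Fin (j + 1) → ℕ, ∑ i, y i ≤ p ^ s ∧ ∏ i, y i = p ^ s := by
  intro j
  induction j with
  | zero => intro s _; exact ⟨fun _ => p ^ s, by simp, by simp⟩
  | succ j ih =>
    intro s hs
    obtain ⟨t, rfl⟩ : ∃ t, s = t + 1 := ⟨s - 1, by omega⟩
    obtain ⟨y, h1, h2⟩ := ih t (by omega)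
    refine ⟨Fin.cons p y, ?_, ?_⟩
    · rw [Fin.sum_univ_succ]
      simp only [Fin.cons_zero, Fin.cons_succ]
      have : p ≤ p ^ t := Nat.le_self_pow (by omega) p
      rw [pow_succ]; nlinarith
    · rw [Fin.prod_univ_succ]
      simp only [Fin.cons_zero, Fin.cons_succ]
      rw [h2, pow_succ']

theorem amgm {ι : Type} [Fintype ι] (x : ι → ℕ) :
    (∏ i, x i) * Fintype.card ι ^ Fintype.card ι ≤ (∑ i, x i) ^ Fintype.card ι := by
  rcases Nat.eq_zero_or_pos (Fintype.card ι) with h | h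
  · have : IsEmpty ι := Fintype.card_eq_zero_iff.1 h
    simp
  set k := Fintype.card ι with hk
  have hk0 : (0 : ℝ) < k := by exact_mod_cast h
  have h1 := Real.geom_mean_le_arith_mean Finset.univ (fun _ : ι => (1 : ℝ)) (fun i => (x i : ℝ))
    (fun _ _ => zero_le_one) (by simpa using h) (fun _ _ => Nat.cast_nonneg _)
  simp only [Real.rpow_one, Finset.sum_const, Finset.card_univ, nsmul_eq_mul, mul_one, one_mul, ← hk] at h1
  have h2 := pow_le_pow_left₀ (Real.rpow_nonneg (Finset.prod_nonneg (fun _ _ => Nat.cast_nonneg _)) _) h1 k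
  rw [Real.rpow_inv_natCast_pow (Finset.prod_nonneg (fun _ _ => Nat.cast_nonneg _)) h.ne', div_pow,
    le_div_iff₀ (pow_pos hk0 k)] at h2
  exact_mod_cast h2

def om {G : Type*} [Group G] (p : ℕ) (A : Subgroup G) (hab : IsMulCommutative A) : Subgroup G where
  carrier := {x | x ∈ A ∧ x ^ p = 1}
  one_mem' := ⟨A.one_mem, one_pow p⟩
  mul_mem' := fun {a b} ha hb => ⟨A.mul_mem ha.1 hb.1, by
    have : Commute a b := congrArg Subtype.val (hab.is_comm.comm (⟨a, ha.1⟩ : A) ⟨b, hb.1⟩)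
    rw [this.mul_pow, ha.2, hb.2, one_mul]⟩
  inv_mem' := fun {a} ha => ⟨A.inv_mem ha.1, by rw [inv_pow, ha.2, inv_one]⟩

theorem main {G Ω : Type*} [Group G] [Finite G] [MulAction G Ω] {p : ℕ} (hp : p.Prime) (n : ℕ) :
    ∀ (A : Subgroup G) (S : Set Ω) (hab : IsMulCommutative A), S.Finite → S.ncard = n → IsPGroup p A →
      (∀ a ∈ A, ∀ x ∈ S, a • x ∈ S) → (∀ a ∈ A, (∀ x ∈ S, a • x = x) → a = 1) →
      ∀ k, Nat.card (om p A hab) = p ^ k →
      ∃ (ι : Type) (_ : Fintype ι) (x : ι → ℕ), Fintype.card ι = k ∧ ∑ i, x i ≤ n ∧ Nat.card A ≤ ∏ i, x i := by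
  have := Fact.mk hp
  induction n using Nat.strong_induction_on with
  | _ n ih =>
  intro A S hab hfin hS hA hinv hf k hk
  by_cases hA1 : A = ⊥
  · subst hA1
    refine ⟨Fin 0, inferInstance, fun _ => 0, ?_, by simp, by simp⟩
    have : om p ⊥ hab = ⊥ := eq_bot_iff.2 (fun x hx => hx.1)
    rw [this, Subgroup.card_bot] at hk
    simpa using ((Nat.pow_eq_one.1 hk.symm).resolve_left hp.one_lt.ne').symm
  obtain ⟨e, he⟩ := hA.exists_card_eq
  have hd : p ∣ Nat.card A := by
    rw [he]; apply dvd_pow_self; rintro rfl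
    exact hA1 (Subgroup.card_eq_one.1 (by simpa using he))
  obtain ⟨z, hz⟩ := exists_prime_orderOf_dvd_card' p hd
  have hz1 : (z : G) ≠ 1 := by
    intro e
    have : z = 1 := Subtype.ext e
    rw [this, orderOf_one] at hz; exact hp.one_lt.ne hz
  obtain ⟨a, haS, hza⟩ : ∃ a ∈ S, (z : G) • a ≠ a := by
    by_contra h; push Not at h; exact hz1 (hf z z.2 h)
  set B := A ⊓ stabilizer G a with hB
  have hBc : IsMulCommutative B := ⟨⟨fun x y => by
    have := congrArg Subtype.val (hab.is_comm.comm (⟨x, x.2.1⟩ : A) ⟨y, y.2.1⟩)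
    exact Subtype.ext this⟩⟩
  have hsub : orbit A a ⊆ S := by rintro _ ⟨g, rfl⟩; exact hinv g g.2 a haS
  have hidx : (orbit A a).ncard = B.relIndex A := by
    rw [hB, Subgroup.inf_relIndex_left, ← index_stabilizer]; rfl
  obtain ⟨s, hs⟩ : ∃ s, B.relIndex A = p ^ s := hA.index _
  have hle : om p B hBc ≤ om p A hab := fun x hx => ⟨hx.1.1, hx.2⟩
  have hpA : IsPGroup p (om p A hab) := hA.to_le (fun x hx => hx.1)
  obtain ⟨k', hk'⟩ := (hpA.to_le hle).exists_card_eq
  obtain ⟨j, hj⟩ : ∃ j, (om p B hBc).relIndex (om p A hab) = p ^ j := hpA.index _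
  have hkk : k = k' + j := by
    have : Nat.card (om p B hBc) * (om p B hBc).relIndex (om p A hab) = Nat.card (om p A hab) := by
      rw [← Nat.card_congr (Subgroup.subgroupOfEquivOfLe hle).toEquiv]; exact Subgroup.card_mul_index _
    rw [hk, hk', hj, ← pow_add] at this
    exact (Nat.pow_right_injective hp.two_le this).symm
  have hj0 : j ≠ 0 := by
    rintro rfl
    rw [pow_zero, Subgroup.relIndex_eq_one] at hj
    exact hza (hj (show (z : G) ∈ om p A hab from
      ⟨z.2, by rw [← hz, ← Subgroup.orderOf_coe, pow_orderOf_eq_one]⟩)).1.2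
  have hjs : j ≤ s := by
    have e : om p B hBc = B ⊓ om p A hab := by
      ext x; exact ⟨fun h => ⟨h.1, h.1.1, h.2⟩, fun h => ⟨h.1, h.2.2⟩⟩
    rw [e, Subgroup.inf_relIndex_right] at hj
    have := Subgroup.relIndex_le_of_le_right (H := B) (show om p A hab ≤ A from fun x hx => hx.1)
      (by rw [hs]; exact (pow_pos hp.pos s).ne')
    rw [hj, hs] at this
    exact (Nat.pow_le_pow_iff_right hp.one_lt).1 this
  have hpos : 0 < p ^ s := pow_pos hp.pos s
  have hc : (S \ orbit A a).ncard + p ^ s = n := by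
    rw [← hs, ← hidx, Set.ncard_diff_add_ncard_of_subset hsub hfin, hS]
  obtain ⟨ι, _, x, h1, h2, h3⟩ := ih (S \ orbit A a).ncard (by omega) B (S \ orbit A a) hBc
    (hfin.subset Set.diff_subset) rfl (hA.to_le inf_le_left)
    (fun g hg y hy => ⟨hinv g hg.1 y hy.1, fun h => hy.2 (by
      obtain ⟨c, hc⟩ := h
      exact ⟨(⟨g, hg.1⟩ : A)⁻¹ * c, by
        change (g⁻¹ * (c : G)) • a = y
        have hc' : (c : G) • a = g • y := hc
        rw [mul_smul, hc', inv_smul_smul]⟩)⟩)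
    (fun g hg h => hf g hg.1 (fun y hy => by
      by_cases hy' : y ∈ orbit A a
      · obtain ⟨c, rfl⟩ := hy'
        change g • (c : G) • a = (c : G) • a
        have e : g * c = c * g := congrArg Subtype.val (hab.is_comm.comm (⟨g, hg.1⟩ : A) c)
        rw [← mul_smul, e, mul_smul, show g • a = a from hg.2]
      · exact h y ⟨hy, hy'⟩)) k' hk'
  obtain ⟨j, rfl⟩ : ∃ j', j = j' + 1 := ⟨j - 1, by omega⟩
  obtain ⟨y, h4, h5⟩ := split_pow hp.two_le j s hjs
  refine ⟨ι ⊕ Fin (j + 1), inferInstance, Sum.elim x y, by simp [h1, hkk], ?_, ?_⟩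
  · rw [Fintype.sum_sum_type]; simp only [Sum.elim_inl, Sum.elim_inr]; omega
  · rw [Fintype.prod_sum_type]; simp only [Sum.elim_inl, Sum.elim_inr]
    have : Nat.card B * B.relIndex A = Nat.card A := by
      rw [← Nat.card_congr (Subgroup.subgroupOfEquivOfLe (inf_le_left : B ≤ A)).toEquiv]
      exact Subgroup.card_mul_index _
    rw [h5, ← this, hs]
    exact Nat.mul_le_mul_right _ h3

/-- Let p be a prime, Ω a finite set with n ≥ p elements, and A an abelian p-subgroup of the symmetric group on Ω whose elements of order dividing p number p^k (so k is the rank of A). Then |A| · k^k ≤ n^k, that is, |A| ≤ (n/k)^k. -/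
theorem result {Ω : Type*} [Fintype Ω] [DecidableEq Ω]
    (p : ℕ) (hp : p.Prime) (hn : p ≤ Fintype.card Ω) (A : Subgroup (Equiv.Perm Ω)) (hA : IsPGroup p A) (hab : IsMulCommutative A)
    (k : ℕ) (hk : Nat.card {x : A // x ^ p = 1} = p ^ k) :
    Nat.card A * k ^ k ≤ Fintype.card Ω ^ k := by
  obtain ⟨ι, _, x, h1, h2, h3⟩ := main (G := Equiv.Perm Ω) (Ω := Ω) hp _ A Set.univ hab (Set.toFinite _) rfl hA
    (fun _ _ _ _ => trivial) (fun a _ h => Equiv.ext (fun x => h x trivial)) k (by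
      rw [← hk]
      exact Nat.card_congr ⟨fun x => ⟨⟨x.1, x.2.1⟩, Subtype.ext x.2.2⟩,
        fun x => ⟨x.1.1, x.1.2, congrArg Subtype.val x.2⟩, fun _ => rfl, fun _ => rfl⟩)
  rw [Set.ncard_univ, Nat.card_eq_fintype_card] at h2
  have := amgm x
  rw [h1] at this
  exact (Nat.mul_le_mul_right _ h3).trans (this.trans (Nat.pow_le_pow_left h2 k))

end Cfsg.Agent.S3696
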