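import Mathlib
import Cfsg.Statements.S3701
import Cfsg.Agent.H18.E27

set_option autoImplicit false
open scoped Pointwise
open Cfsg

namespace Cfsg.Agent.S3701

open Subgroup H18.Col H18.Col.S27 DihedralGroup
theorem range_θ : θ.range = closure {pa, pb, pc, ps, pt} := by
  obtain ⟨h1, h2, h3, h4, h5⟩ := θ_gen
  refine le_antisymm ?_ ((closure_le _).2 ?_)
  · rintro _ ⟨x, rfl⟩
    obtain ⟨i, j, k, l, m, rfl⟩ := K_gen x
    simp only [map_mul, map_pow, h1, h2, h3, h4, h5]
    refine mul_mem (mul_mem (mul_mem (mul_mem (pow_mem ?_ _) (pow_mem ?_ _)) (pow_mem ?_ _)) (pow_mem ?_ _))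
      (pow_mem ?_ _) <;> exact subset_closure (by simp)
  · rintro x (rfl | rfl | rfl | rfl | rfl)
    exacts [⟨_, h1⟩, ⟨_, h2⟩, ⟨_, h3⟩, ⟨_, h4⟩, ⟨_, h5⟩]

/-- Let H₀ ≤ Sym(9) be generated by the 3-cycles (1 2 3), (4 5 6), (7 8 9) and the involutions (1 2)(4 5), (1 2)(7 8) (a group of order 108, elementary abelian of order 27 extended by a four-group). Let G be a finite group with a subgroup H ≅ H₀, and T ≤ H of order 27 (a Sylow 3-subgroup of H) with N_G(T) = H and C_G(t) ≤ H for every t ≠ 1 in T. Then G = H. -/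
theorem result {G : Type*} [Group G] [Finite G] (H : Subgroup G)
    (hH : Nonempty (↥H ≃* ↥(Subgroup.closure ({Equiv.swap (0 : Fin 9) 1 * Equiv.swap 1 2, Equiv.swap (3 : Fin 9) 4 * Equiv.swap 4 5, Equiv.swap (6 : Fin 9) 7 * Equiv.swap 7 8,
        Equiv.swap (0 : Fin 9) 1 * Equiv.swap 3 4, Equiv.swap (0 : Fin 9) 1 * Equiv.swap 6 7} : Set (Equiv.Perm (Fin 9))))))
    (T : Subgroup G) (hTH : T ≤ H) (hT : Nat.card T = 27) (hN : Subgroup.normalizer (T : Set G) = H)
    (hC : ∀ t ∈ T, t ≠ 1 → Subgroup.centralizer ({t} : Set G) ≤ H) : H = ⊤ := by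
  obtain ⟨e⟩ := hH
  let E : K ≃* H := (MonoidHom.ofInjective ((injective_iff_map_eq_one θ).2 θ_inj)).trans
    ((MulEquiv.subgroupCongr range_θ).trans e.symm)
  let f : K →* G := H.subtype.comp E.toMonoidHom
  have hi : Function.Injective f := H.subtype_injective.comp E.injective
  have hf : f.range = H := by
    rw [MonoidHom.range_comp, MonoidHom.range_eq_top.2 E.surjective, ← MonoidHom.range_eq_map, range_subtype]
  have hc : Nat.card H = 108 := by rw [← Nat.card_congr E.toEquiv, Nat.card_eq_fintype_card, cardK]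
  have hp : IsPGroup 3 T := IsPGroup.of_card (n := 3) hT
  have h3 : ¬ 3 ∣ T.index := fun h => by
    have := Sylow.prime_pow_dvd_card_normalizer (p := 3) (n := 3) (H := T) (by
      rw [← T.card_mul_index, hT]; exact mul_dvd_mul_left 27 h) hT
    rw [hN, hc] at this
    norm_num at this
  have hr : ∀ t ∈ T, ∃ v, f ⟨v, 1⟩ = t := fun t ht => by
    obtain ⟨x, rfl⟩ : t ∈ f.range := hf ▸ hTH ht
    have := K_three x (hi (by
      rw [map_pow, map_one, ← hT]; exact congrArg Subtype.val (pow_card_eq_one' (x := (⟨f x, ht⟩ : T)))))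
    exact ⟨x.left, congrArg f (SemidirectProduct.ext rfl this.symm)⟩
  have := Emb.of_sylow (hp.toSylow h3) (fun a ha b hb => by
    obtain ⟨a, rfl⟩ := hr a ha
    obtain ⟨b, rfl⟩ := hr b hb
    rw [← map_mul, ← map_mul]
    exact congrArg f (SemidirectProduct.ext (by simp [mul_comm]) rfl)) (fun t ht h1 => (hC t ht h1).trans hN.ge)
  have l : Loc f := ⟨hi, by rw [hf, ← hN]; exact this⟩
  exact eq_top_of_card_eq _ (hc.trans (card_108 l).symm)

end Cfsg.Agent.S3701
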