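import Mathlib
import Cfsg.Statements.S3702
import Cfsg.Agent.H02.Pr4
import Cfsg.Agent.H02.PCore

set_option autoImplicit false
open Cfsg

namespace Cfsg.Agent.S3702

open Subgroup H02.Pr in
theorem range_θ : θ.range = closure {θ (rp 0), θ ks, θ ku, θ kt} := by
  refine le_antisymm ?_ ((closure_le _).2 ?_)
  · rintro _ ⟨x, rfl⟩
    obtain ⟨i, j, k, h1⟩ := V_gen x.left
    obtain ⟨i', j', l, k', h2⟩ := D_gen x.right
    rw [← x.inl_left_mul_inr_right, h1, h2]
    simp only [map_mul, map_pow, map_inv]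
    have m1 : θ (rp 0) ∈ closure {θ (rp 0), θ ks, θ ku, θ kt} := subset_closure (by simp)
    have m2 : θ ks ∈ closure {θ (rp 0), θ ks, θ ku, θ kt} := subset_closure (by simp)
    have m3 : θ ku ∈ closure {θ (rp 0), θ ks, θ ku, θ kt} := subset_closure (by simp)
    have m4 : θ kt ∈ closure {θ (rp 0), θ ks, θ ku, θ kt} := subset_closure (by simp)
    exact mul_mem (mul_mem (mul_mem (pow_mem m1 _) (pow_mem (mul_mem (mul_mem m2 m1) (inv_mem m2)) _))
      (pow_mem (mul_mem (mul_mem (inv_mem m2) m1) m2) _)) (mul_mem (mul_mem (mul_mem (pow_mem m3 _)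
        (pow_mem (mul_mem (mul_mem m2 m3) (inv_mem m2)) _)) (pow_mem m2 _)) (pow_mem m4 _))
  · rintro x (rfl | rfl | rfl | rfl) <;> exact ⟨_, rfl⟩

theorem D3 {d : H02.Pr.D} {k : ℕ} (h : d ^ 3 ^ k = 1) : d ^ 3 = 1 := by
  have h1 := orderOf_dvd_of_pow_eq_one (H02.Pr.D_three d).1
  obtain ⟨j, -, hj⟩ := (Nat.dvd_prime_pow Nat.prime_three).1 (orderOf_dvd_of_pow_eq_one h)
  refine orderOf_dvd_iff_pow_eq_one.1 ?_
  rw [hj] at h1 ⊢
  rcases j with _ | _ | j
  · simp
  · simp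
  · exact absurd ((pow_dvd_pow 3 (show 2 ≤ j + 1 + 1 by omega)).trans h1) (by norm_num)


/-- Let K ≤ Sym(9) be generated by (1 2 3), (1 4 7)(2 5 8)(3 6 9), (1 2)(4 5) and (1 4)(2 5)(3 6)(7 8) (the normalizer in Alt(9) of the elementary abelian group generated by (1 2 3), (4 5 6), (7 8 9)). Let G be a finite group with a subgroup H ≅ K and J = O₃(H). If C_G(j) ≤ H for every j ≠ 1 in J and J is strongly closed in H with respect to G (a G-conjugate of an element of J lying in H lies in J), then G = H. -/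
theorem result {G : Type*} [Group G] [Finite G] (H : Subgroup G)
    (hH : Nonempty (↥H ≃* ↥(Subgroup.closure ({Equiv.swap (0 : Fin 9) 1 * Equiv.swap 1 2,
        Equiv.swap (0 : Fin 9) 3 * Equiv.swap 3 6 * (Equiv.swap (1 : Fin 9) 4 * Equiv.swap 4 7) * (Equiv.swap (2 : Fin 9) 5 * Equiv.swap 5 8),
        Equiv.swap (0 : Fin 9) 1 * Equiv.swap 3 4, Equiv.swap (0 : Fin 9) 3 * Equiv.swap 1 4 * Equiv.swap 2 5 * Equiv.swap 6 7} : Set (Equiv.Perm (Fin 9))))))
    (J : Subgroup G) (hJ : J = (Cfsg.pCore 3 ↥H).map H.subtype)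
    (hC : ∀ j ∈ J, j ≠ 1 → Subgroup.centralizer ({j} : Set G) ≤ H) (hsc : Cfsg.IsStronglyClosed J H) : H = ⊤ := by
  open Subgroup H02.Pr in
  obtain ⟨e⟩ := hH
  obtain ⟨t1, t2, t3, t4⟩ := θ_gen
  have hr := range_θ
  rw [t1, t2, t3, t4] at hr
  obtain ⟨E⟩ : Nonempty (K ≃* H) := ⟨(MonoidHom.ofInjective ((injective_iff_map_eq_one θ).2 θ_inj)).trans
    ((MulEquiv.subgroupCongr hr).trans e.symm)⟩
  let f : K →* G := H.subtype.comp E.toMonoidHom
  have hi : Function.Injective f := H.subtype_injective.comp E.injective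
  have hf : f.range = H := by
    rw [MonoidHom.range_comp, MonoidHom.range_eq_top.2 E.surjective, ← MonoidHom.range_eq_map, range_subtype]
  have h1 : ∀ v, f (jv v) ∈ J := fun v => by
    let N : Subgroup H := (E.toMonoidHom.comp SemidirectProduct.inl).range
    have hN : N ≤ pCore 3 H := le_sSup ⟨⟨by
      rintro _ ⟨w, rfl⟩ g
      obtain ⟨k, rfl⟩ := E.surjective g
      exact ⟨act k.right w, by
        show E (jv _) = E k * E (jv w) * (E k)⁻¹
        rw [← cjV, map_mul, map_mul, map_inv]⟩⟩, H26.isPGroup_iff_mem.2 (by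
      rintro _ ⟨w, rfl⟩
      exact ⟨1, by rw [pow_one]; exact (map_pow E (jv w) 3).symm.trans (by rw [jv3, map_one])⟩)⟩
    exact hJ ▸ ⟨_, hN ⟨v, rfl⟩, rfl⟩
  have h2 : ∀ x ∈ J, ∃ w, x = f (jv w) := by
    rw [hJ]
    rintro _ ⟨x, hx, rfl⟩
    obtain ⟨k, rfl⟩ := E.surjective x
    have h3 : ∀ y : K, E y ∈ pCore 3 H → y.right ^ 3 = 1 := fun y hy => by
      obtain ⟨n, hn⟩ := H26.isPGroup_iff_mem.1 (H02.pCore_isPGroup 3 H) _ hy
      rw [← map_pow, map_eq_one_iff E E.injective] at hn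
      exact D3 (k := n) ((map_pow SemidirectProduct.rightHom y _).symm.trans (by rw [hn, map_one]))
    have hn : (pCore 3 H).Normal := Subgroup.sSup_normal _ fun _ h => h.1
    refine ⟨k.left, congrArg f (eq_jv ((D_three _).2 (h3 k hx) fun g => ?_))⟩
    have := h3 (k * (⟨1, g⟩ * k * (⟨1, g⟩ : K)⁻¹)) (by
      rw [map_mul, map_mul, map_mul, map_inv]; exact mul_mem hx (hn.conj_mem _ hx _))
    simpa using this
  have l : Loc f := ⟨hi, fun v hv g hg => hf ▸ hC _ (h1 v) ((map_ne_one_iff f hi).2 fun e =>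
      hv (congrArg SemidirectProduct.left e)) (mem_centralizer_singleton_iff.2 hg),
    fun v g hg => h2 _ (hsc.2 _ (h1 v) g (hf ▸ hg))⟩
  exact hf ▸ l.top

end Cfsg.Agent.S3702
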