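import Mathlib
import Cfsg.Statements.S3703
import Cfsg.Agent.H16.FrobNorm
import Cfsg.Agent.H16.FrobSec
import Cfsg.Agent.H16.PiHall
import Cfsg.Agent.H01.Coprime2

set_option autoImplicit false
open Cfsg

namespace Cfsg.Agent.S3703

open BG Subgroup
open scoped commutatorElement

/-- Let N be a normal subgroup of the finite group G such that G/N is a Frobenius group with kernel F and cyclic complement H, where the order of F is coprime to that of N and F is not contained in the image of C_G(N) in G/N. Then G has an element of order p·#H for some prime p dividing the order of N. (A standard tool in recognising groups by their element orders.) -/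
theorem result {G : Type*} [Group G] [Finite G] (N : Subgroup G) [N.Normal]
    (Fb Hb : Subgroup (G ⧸ N)) [Fb.Normal] (hHb : Cfsg.IsFrobeniusComplement Hb) (hker : Cfsg.frobeniusKernel Hb = (Fb : Set (G ⧸ N)))
    (hcyc : IsCyclic Hb) (hcop : (Nat.card Fb).Coprime (Nat.card N))
    (hnot : ¬ Fb ≤ (Subgroup.centralizer (N : Set G)).map (QuotientGroup.mk' N)) :
    ∃ p : ℕ, p.Prime ∧ p ∣ Nat.card N ∧ ∃ g : G, orderOf g = p * Nat.card Hb := by
  classical
  have hF := H16.frob_top_of_isFrob hHb hker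
  set π := QuotientGroup.mk' N with hπ
  have hker1 : ∀ x, π x = 1 ↔ x ∈ N := fun x => QuotientGroup.eq_one_iff x
  obtain ⟨hb, hhb⟩ := cyclic_iff.1 hcyc
  have hm : orderOf hb = Nat.card Hb := by rw [← hhb, Nat.card_zpowers]
  set m := Nat.card Hb with hmdef
  by_cases hex : ∃ g, π g = hb ∧ g ^ m ≠ 1
  · obtain ⟨g, hg, hgm⟩ := hex
    obtain ⟨q, hq, hqd⟩ := Nat.exists_prime_and_dvd (n := orderOf (g ^ m)) (by rwa [Ne, orderOf_eq_one_iff])
    have hgN : g ^ m ∈ N := by rw [← hker1, map_pow, hg, ← hm, pow_orderOf_eq_one]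
    refine ⟨q, hq, hqd.trans (orderOf_dvd_natCard _ hgN), H16.exists_orderOf_eq_of_dvd g ?_⟩
    have hd : m ∣ orderOf g := by rw [← hm, ← hg]; exact orderOf_map_dvd π g
    rw [orderOf_pow_of_dvd Nat.card_pos.ne' hd] at hqd
    rw [mul_comm]; exact Nat.mul_dvd_of_dvd_div hd hqd
  exfalso
  push Not at hex
  have hNn : ∀ X : Subgroup G, X ≤ N_(N) := fun X => le_normalizer_of_normal
  have hNF : N ≤ Fb.comap π := fun x hx => by rw [mem_comap, (hker1 x).2 hx]; exact one_mem _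
  have hrel : N.relIndex (Fb.comap π) = Nat.card Fb := by
    have := relIndex_ker (Fb.comap π) π
    rwa [QuotientGroup.ker_mk', map_comap_eq_self_of_surjective (QuotientGroup.mk'_surjective N)] at this
  obtain ⟨F0, hF0⟩ := exists_compl_of_coprime hNF (hNn _) (by rw [hrel]; exact hcop.symm)
  have hF0le : F0 ≤ Fb.comap π := le_sup_right.trans hF0.sup.le
  have hcF0 : Nat.card F0 = Nat.card Fb := by
    rw [← hrel, ← hF0.sup, relIndex_sup_left, ← inf_relIndex_right, hF0.disj, relIndex_bot_left]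
  have hc0 : (Nat.card F0).Coprime (Nat.card N) := by rw [hcF0]; exact hcop
  have hsol := H16.sol_or_of_coprime hc0
  have hF0C : ¬ F0 ≤ C_(N) := by
    intro h
    apply hnot
    intro y hy
    obtain ⟨x, rfl⟩ := QuotientGroup.mk'_surjective N y
    obtain ⟨n, hn, a, ha, rfl⟩ := hF0.mem.1 (show x ∈ Fb.comap π from hy)
    exact ⟨a, h ha, by rw [map_mul, (hker1 n).2 hn, one_mul]⟩
  obtain ⟨p, hp, P, hP, hPF, hPC⟩ : ∃ p : ℕ, p.Prime ∧ ∃ P, IsSylowIn p P N ∧ F0 ≤ N_(P) ∧ ¬ F0 ≤ C_(P) := by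
    by_contra hc
    push Not at hc
    apply hF0C
    rw [le_centralizer_iff]
    refine le_of_sylows fun p hp _ => ?_
    obtain ⟨P, hP, hPF⟩ := coprime_sylow_exists hp hsol (hNn _) hc0
    exact ⟨P, hP, le_centralizer_iff.1 (hc p hp P hP hPF)⟩
  haveI : Fact p.Prime := ⟨hp⟩
  obtain ⟨h0, hh0⟩ := QuotientGroup.mk'_surjective N hb
  have h00 := mem_sup_norm_of_coprime (K := ⊤) (x := h0) (hNn F0) le_top hc0 hsol (mem_top _) (by
    rw [hF0.sup]; exact cj_le_of_mem_norm hF0le (le_normalizer_of_normal (mem_top _)))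
  obtain ⟨n, hn, h1, ⟨-, hh1⟩, rfl⟩ := (mem_sup_norm (hNn _)).1 h00
  have hπ1 : π h1 = hb := by rw [← hh0, ← hπ, map_mul, (hker1 n).2 hn, one_mul]
  obtain ⟨c, ⟨hcN, hcC⟩, hc⟩ := coprime_sylow_trans hp hsol (hNn _) hc0 hP
    (L := cj h1 P) (by have := hP.cj h1; rwa [cj_of_mem_norm (hNn ⊤ (mem_top h1))] at this) hPF
    (by rw [← cj_norm, ← cj_of_mem_norm hh1]; exact cj_mono _ hPF)
  set h := c⁻¹ * h1 with hh
  have hhP : h ∈ N_(P) := cj_eq_self_iff.1 (by rw [hh, ← cj_cj, hc, cj_inv_cj])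
  have hhF : h ∈ N_(F0) := mul_mem (inv_mem (centralizer_le_normalizer _ hcC)) hh1
  have hπh : π h = hb := by rw [hh, map_mul, (hker1 _).2 (N.inv_mem hcN), one_mul, hπ1]
  have hPN : P ≤ N := hP.1
  have hΦ : frattiniOf P ≤ N := (phi_le P).trans hPN
  have hhΦ : h ∈ N_(frattiniOf P) := norm_le_norm_phi P hhP
  have hFΦ : F0 ≤ N_(frattiniOf P) := norm_phi hPF
  have hPΦ : P ≤ N_(frattiniOf P) := norm_phi le_normalizer
  have key := H16.le_cent_of_norm_trivial (V := quo (frattiniOf P) P) (K := quo (frattiniOf P) F0)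
    (h := qmk _ ⟨h, hhΦ⟩) (elem_quo_frattiniOf (hP.pg hp)).1 (quo_le_norm _ hPF) (qmk_mem_norm hhΦ hhP)
    (qmk_mem_norm hhΦ hhF) (m := m) Nat.card_pos
    (by
      intro i h0 hi
      rw [eq_bot_iff]
      rintro y ⟨hy, hy'⟩
      obtain ⟨k, hk, hkn, rfl⟩ := mem_quo.1 hy
      have h2 := mem_cent1.1 hy'
      rw [← qmk_pow, ← qmk_mul, ← qmk_mul, qmk_eq_iff] at h2
      have h3 : π k ∈ Fb ⊓ C_[hb ^ i] := by
        refine mem_inf.2 ⟨hF0le hk, mem_cent1.2 ?_⟩
        have := (hker1 _).2 (hΦ h2)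
        simp only [map_mul, map_inv, map_pow, hπh] at this
        exact inv_mul_eq_one.1 this
      rw [hF.reg (hb ^ i) (hhb ▸ pow_mem (mem_zpowers hb) i) (pow_ne_one_of_lt_orderOf h0.ne' (hm ▸ hi)),
        mem_bot, hker1] at h3
      have h4 : k ∈ N ⊓ F0 := ⟨h3, hk⟩
      rw [hF0.disj, mem_bot] at h4
      subst h4
      exact mem_bot.2 (map_one _))
    (coprime_quo _ (coprime_mono hc0 le_rfl hPN))
    (by
      intro v hv
      obtain ⟨u, hu, hun, rfl⟩ := mem_quo.1 hv
      rw [← qmk_mul, ← qmk_pow, qmk_eq_one]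
      show (u * h) ^ m ∈ _
      rw [hex _ (by rw [map_mul, (hker1 u).2 (hPN hu), one_mul, hπh])]
      exact one_mem _)
  apply hPC
  refine H01.le_centralizer_of_frattini hPF ?_ ?_
  · exact (coprime_mono hc0 le_rfl hPN).coprime_dvd_right (card_subgroup_dvd_card _)
  · rw [commutator_comm]; exact comm_le_of_quo hFΦ hPΦ key

end Cfsg.Agent.S3703
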