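import Mathlib
import Cfsg.Statements.S3713
import Cfsg.Agent.H09.AmF

set_option autoImplicit false
open Cfsg

namespace Cfsg.Agent.S3713

open H09 Sum

def Gr {G H : Type*} [Group G] [Group H] {S : Subgroup G} (f : S →* H) : Subgroup (H × G) := (f.prod S.subtype).range
theorem Gr_gd {G H : Type*} [Group G] [Group H] {S : Subgroup G} (f : S →* H) : Gd (MonoidHom.snd H G) (Gr f) := by
  rintro _ ⟨x, rfl⟩ e
  rw [show x = 1 from Subtype.ext e, map_one]
theorem Gr_le {G H : Type*} [Group G] [Group H] {S T : Subgroup G} {f : S →* H} {k : T →* H} (l : S ≤ T)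
    (h : ∀ g hg, k ⟨g, l hg⟩ = f ⟨g, hg⟩) : Gr f ≤ Gr k := by
  rintro _ ⟨x, rfl⟩
  exact ⟨⟨x, l x.2⟩, Prod.ext (h _ _) rfl⟩

/-- A presentation of the symplectic group as the universal completion of an amalgam of small subgroups. Let F be a field with more than two elements, n ≥ 2, and Sp the group of 2n × 2n matrices over F preserving the standard alternating form, acting on column vectors; write e_k, f_k for the standard basis vectors of the two halves (a hyperbolic basis). For each k let S_k be the subgroup of Sp fixing e_l and f_l for all l ≠ k (a copy of SL(2, F) on the plane of e_k, f_k), and for each i with i + 1 < n let M_i be the subgroup fixing every e_l and fixing f_l for all l other than i, i+1 (an abelian group isomorphic to the additive group of F³). Then Sp is the universal completion of the amalgam formed by the S_k, the M_i and the subgroups generated by two of them: for every group H and homomorphisms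 σ_k : S_k → H, μ_i : M_i → H such that for each pair of these subgroups some homomorphism on the subgroup they generate restricts to the given ones, there is exactly one homomorphism Sp → H restricting to every σ_k and μ_i. -/
theorem result
    (F : Type*) [Field F] (hF : ∃ a : F, a ≠ 0 ∧ a ≠ 1) (n : ℕ) (hn : 2 ≤ n)
    (S M : Fin n → Subgroup ↥(Matrix.symplecticGroup (Fin n) F))
    (hS : ∀ j : Fin n, S j = Subgroup.closure {A : ↥(Matrix.symplecticGroup (Fin n) F) | ∀ k : Fin n, k ≠ j →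
      ((A : ↥(Matrix.symplecticGroup (Fin n) F)) : Matrix (Fin n ⊕ Fin n) (Fin n ⊕ Fin n) F).mulVec (Pi.single (Sum.inl k) (1 : F)) = (Pi.single (Sum.inl k) (1 : F)) ∧ ((A : ↥(Matrix.symplecticGroup (Fin n) F)) : Matrix (Fin n ⊕ Fin n) (Fin n ⊕ Fin n) F).mulVec (Pi.single (Sum.inr k) (1 : F)) = (Pi.single (Sum.inr k) (1 : F))})
    (hM : ∀ i : Fin n, (i : ℕ) + 1 < n → M i = Subgroup.closure {A : ↥(Matrix.symplecticGroup (Fin n) F) |
      (∀ k : Fin n, ((A : ↥(Matrix.symplecticGroup (Fin n) F)) : Matrix (Fin n ⊕ Fin n) (Fin n ⊕ Fin n) F).mulVec (Pi.single (Sum.inl k) (1 : F)) = (Pi.single (Sum.inl k) (1 : F))) ∧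
        ∀ k : Fin n, (k : ℕ) ≠ i → (k : ℕ) ≠ (i : ℕ) + 1 → ((A : ↥(Matrix.symplecticGroup (Fin n) F)) : Matrix (Fin n ⊕ Fin n) (Fin n ⊕ Fin n) F).mulVec (Pi.single (Sum.inr k) (1 : F)) = (Pi.single (Sum.inr k) (1 : F))})
    {H : Type*} [Group H] (σ : ∀ j : Fin n, ↥(S j) →* H) (μ : ∀ i : Fin n, ↥(M i) →* H)
    (hSS : ∀ j l : Fin n, j ≠ l → ∃ Ψ : ↥(S j ⊔ S l) →* H,
      (∀ (g : ↥(Matrix.symplecticGroup (Fin n) F)) (hg : g ∈ S j), Ψ ⟨g, Subgroup.mem_sup_left hg⟩ = σ j ⟨g, hg⟩) ∧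
        (∀ (g : ↥(Matrix.symplecticGroup (Fin n) F)) (hg : g ∈ S l), Ψ ⟨g, Subgroup.mem_sup_right hg⟩ = σ l ⟨g, hg⟩))
    (hMM : ∀ i i' : Fin n, i ≠ i' → (i : ℕ) + 1 < n → (i' : ℕ) + 1 < n → ∃ Ψ : ↥(M i ⊔ M i') →* H,
      (∀ (g : ↥(Matrix.symplecticGroup (Fin n) F)) (hg : g ∈ M i), Ψ ⟨g, Subgroup.mem_sup_left hg⟩ = μ i ⟨g, hg⟩) ∧
        (∀ (g : ↥(Matrix.symplecticGroup (Fin n) F)) (hg : g ∈ M i'), Ψ ⟨g, Subgroup.mem_sup_right hg⟩ = μ i' ⟨g, hg⟩))
    (hMS : ∀ i j : Fin n, (i : ℕ) + 1 < n → ∃ Ψ : ↥(M i ⊔ S j) →* H,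
      (∀ (g : ↥(Matrix.symplecticGroup (Fin n) F)) (hg : g ∈ M i), Ψ ⟨g, Subgroup.mem_sup_left hg⟩ = μ i ⟨g, hg⟩) ∧
        (∀ (g : ↥(Matrix.symplecticGroup (Fin n) F)) (hg : g ∈ S j), Ψ ⟨g, Subgroup.mem_sup_right hg⟩ = σ j ⟨g, hg⟩)) :
    ∃! Φ : ↥(Matrix.symplecticGroup (Fin n) F) →* H,
      (∀ (j : Fin n) (g : ↥(Matrix.symplecticGroup (Fin n) F)) (hg : g ∈ S j), Φ g = σ j ⟨g, hg⟩) ∧
        (∀ (i : Fin n), (i : ℕ) + 1 < n → ∀ (g : ↥(Matrix.symplecticGroup (Fin n) F)) (hg : g ∈ M i), Φ g = μ i ⟨g, hg⟩) := by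
  have hS' : ∀ j, S j = GP F (· = j) := fun j => by
    rw [hS, ← Subgroup.closure_eq (GP F _)]
    congr 1
    ext g
    refine ⟨fun h => fx_of_bv fun v m a e => ?_, fun h k e => ⟨h _ (bv_mem (P := fun i => ¬ i = j) (a := inl k) e),
      h _ (bv_mem (P := fun i => ¬ i = j) (a := inr k) e)⟩⟩
    have := mt (m a) e
    rcases a with a | a
    exacts [(h a (by simpa using this)).1, (h a (by simpa using this)).2]
  have hM' : ∀ i j, Adj i j → (min i j).val + 1 < n ∧ M (min i j) = MG F i j := fun i j a => by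
    have h1 : (min i j).val + 1 < n := by simp [Adj] at a ⊢; omega
    have h2 : ∀ k : Fin n, (k.val ≠ (min i j).val ∧ k.val ≠ (min i j).val + 1) ↔ ¬ (k = i ∨ k = j) := fun k => by
      simp [Adj, Fin.ext_iff] at a ⊢; omega
    refine ⟨h1, ?_⟩
    rw [hM _ h1, ← Subgroup.closure_eq (MG F _ _)]
    congr 1
    ext g
    refine ⟨fun h => ⟨fx_of_bv fun v m a e => ?_, fx_of_bv fun v m a e => ?_⟩, fun h => ⟨fun k => h.1 _ (e_Lg k),
      fun k e e' => h.2 _ (bv_mem (P := fun l => ¬ (l = i ∨ l = j)) (a := inr k) ((h2 k).1 ⟨e, e'⟩))⟩⟩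
    · rcases a with a | a
      exacts [h.1 a, (e (m a)).elim]
    · have := (h2 _).2 (not_not.1 (mt (m a) e))
      rcases a with a | a
      exacts [h.1 a, h.2 a this.1 this.2]
  have D : AD (MonoidHom.snd H _) (fun j => Gr (σ j)) fun i j => Gr (μ (min i j)) :=
    { a1 := by rintro j _ ⟨x, rfl⟩; exact hS' j ▸ x.2
      a2 := fun j g m => ⟨_, ⟨⟨g, (hS' j).ge m⟩, rfl⟩, rfl⟩
      b1 := by rintro i j a _ ⟨x, rfl⟩; exact (hM' i j a).2.le x.2
      b2 := fun i j a g m => ⟨_, ⟨⟨g, (hM' i j a).2.ge m⟩, rfl⟩, rfl⟩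
      bs := fun i j => by rw [min_comm]
      aa := fun j l => by
        by_cases e : j = l
        · rw [e, sup_idem]; exact Gr_gd _
        obtain ⟨Ψ, h1, h2⟩ := hSS j l e
        exact (Gr_gd Ψ).mono (sup_le (Gr_le _ h1) (Gr_le _ h2))
      bb := fun i j i' j' a a' => by
        by_cases e : min i j = min i' j'
        · rw [e, sup_idem]; exact Gr_gd _
        obtain ⟨Ψ, h1, h2⟩ := hMM _ _ e (hM' _ _ a).1 (hM' _ _ a').1
        exact (Gr_gd Ψ).mono (sup_le (Gr_le _ h1) (Gr_le _ h2))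
      ba := fun i j l a => by
        obtain ⟨Ψ, h1, h2⟩ := hMS _ l (hM' _ _ a).1
        exact (Gr_gd Ψ).mono (sup_le (Gr_le _ h1) (Gr_le _ h2)) }
  obtain ⟨Ψ, h1, h2⟩ := D.main hF
  have hm : ∀ i j : Fin n, j.val = i.val + 1 → min i j = i := fun i j e => min_eq_left (by rw [Fin.le_def]; omega)
  refine existsUnique_of_exists_of_unique ⟨(MonoidHom.fst _ _).comp Ψ, fun j g hg => congrArg Prod.fst (h1 j _ ⟨⟨g, hg⟩, rfl⟩), fun i hi g hg => ?_⟩
    fun Φ Φ' ⟨a, b⟩ ⟨a', b'⟩ => MonoidHom.ext fun g => ?_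
  · have := h2 i ⟨i + 1, hi⟩ (.inl rfl)
    rw [hm i _ rfl] at this
    exact congrArg Prod.fst (this _ ⟨⟨g, hg⟩, rfl⟩)
  refine sp_gen' (L := Φ.eqLocus Φ') (k := 0) le_rfl (fun j _ g m => (a j g ((hS' j).ge m)).trans (a' j g _).symm) (fun i j _ _ e => ?_)
    (fun v m => by rw [show v = 0 from funext fun a => m a (by simp [In]), map_zero] : g ∈ _)
  obtain ⟨g, h⟩ := spSk_sy.exE (h_ee (K := F) j i) 0
  have := hM' i j (.inl e)
  rw [hm i j e] at this
  have m : g ∈ M i := this.2.ge (isE_MG (s := 1) (by simpa))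
  exact spSk_sy.eg h (h_ee _ _) ((b i this.1 g m).trans (b' i this.1 g m).symm)

end Cfsg.Agent.S3713
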