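import Mathlib
import Cfsg.Statements.S3716
import Cfsg.Agent.H18.SE8

set_option autoImplicit false
open scoped Pointwise
open Cfsg

namespace Cfsg.Agent.S3716

/-- Let G be a finite group with an elementary abelian Sylow 3-subgroup M of order 9 which is self-centralizing (C_G(M) = M), let N = N_G(M), and suppose C_G(g) ≤ N for every nonidentity g ∈ M. If the Sylow 2-subgroups of N are dihedral of order 8, then G is not simple. -/
theorem result {G : Type*} [Group G] [Finite G] (M : Sylow 3 G) (hM9 : Nat.card ↥(M : Subgroup G) = 9)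
    (hMel : ∀ m ∈ (M : Subgroup G), m ^ 3 = 1)
    (hCM : Subgroup.centralizer ((M : Subgroup G) : Set G) = (M : Subgroup G))
    (N : Subgroup G) (hN : N = Subgroup.normalizer ((M : Subgroup G) : Set G))
    (hCg : ∀ g ∈ (M : Subgroup G), g ≠ 1 → Subgroup.centralizer ({g} : Set G) ≤ N)
    (hS : ∀ S : Sylow 2 ↥N, Nonempty (↥(S : Subgroup ↥N) ≃* DihedralGroup 4)) :
    ¬ IsSimpleGroup G := by
  intro _
  subst hN
  obtain ⟨S⟩ : Nonempty (Sylow 2 ↥(Subgroup.normalizer ((M : Subgroup G) : Set G))) := inferInstance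
  obtain ⟨e⟩ := hS S
  obtain ⟨a, ha⟩ := H18.Col.card_norm M hM9 hMel hCM.le
  have h8 : 2 ^ a = 8 := by
    have h1 := S.card_eq_multiplicity
    rw [ha, Nat.card_congr e.toEquiv, Nat.factorization_mul (by norm_num) (by positivity), Nat.Prime.factorization_pow Nat.prime_two,
      Finsupp.add_apply, Nat.factorization_eq_zero_of_not_dvd (by norm_num), Finsupp.single_eq_same, zero_add] at h1
    rw [← h1]; simp [DihedralGroup.card]
  refine H18.Col.not_simple_72 M hM9 hMel hCM.le hCg
    ((Subgroup.subtype _).comp (S.1.subtype.comp e.symm.toMonoidHom)) (fun q => (e.symm q).1.2)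
    (fun q hq => ?_) (by rw [ha, h8])
  have h3 := hMel _ hq
  rw [← map_pow] at h3
  exact (by decide : ∀ q : DihedralGroup 4, q ^ 3 = 1 → q = 1) q
    ((map_eq_one_iff _ e.symm.injective).1 (Subtype.ext (Subtype.ext h3)))

end Cfsg.Agent.S3716
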