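import Mathlib
import Cfsg.Statements.S3773
import Cfsg.Agent.H04.Quad2
import Cfsg.Agent.S4056

set_option autoImplicit false
open Cfsg

open scoped commutatorElement

namespace Cfsg.Agent.S3773

/-- Let G be a finite 2-group of nilpotency class at most 2 and exponent dividing 4 in which the elements x with x² = 1 form a subgroup N. Then |G| ≤ |N|³, and |G| < |N|³ unless G is special. -/
theorem result {G : Type*} [Group G] [Finite G] (hG : IsPGroup 2 G) (hcl : (⊤ : Subgroup G).lowerCentralSeries 2 = ⊥) (hexp : ∀ x : G, x ^ 4 = 1) (hN : ∀ x y : G, x ^ 2 = 1 → y ^ 2 = 1 → (x * y) ^ 2 = 1) : Nat.card G ≤ Nat.card {x : G // x ^ 2 = 1} ^ 3 ∧ (¬ Cfsg.IsSpecial 2 G → Nat.card G < Nat.card {x : G // x ^ 2 = 1} ^ 3) := by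
  haveI := hG.isNilpotent
  obtain ⟨h3, hF⟩ := Cfsg.Agent.S4056.result hG
    (Subgroup.lowerCentralSeries_eq_bot_iff_nilpotencyClass_le.mp hcl)
    (Monoid.exponent_dvd_iff_forall_pow_eq_one.mpr hexp)
  let N : Subgroup G :=
    { carrier := {x | x ^ 2 = 1}
      one_mem' := one_pow 2
      mul_mem' := fun {x y} => hN x y
      inv_mem' := fun {x} (h : x ^ 2 = 1) => show x⁻¹ ^ 2 = 1 by rw [inv_pow, h, inv_one] }
  change Nat.card G ≤ Nat.card N ^ 3 ∧ (_ → Nat.card G < Nat.card N ^ 3)
  have hFN : frattini G ≤ N := hF.2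
  have key : ∀ {H K L : Subgroup G}, L ≤ frattini G → K ≤ H →
      L.relIndex (frattini G) ^ 2 < K.relIndex H → ∃ x ∈ H, x ∉ K ∧ x ^ 2 ∈ L := fun h1 h2 h4 =>
    H04.exists_sq_mem (hG.to_subgroup _) (h3.trans (Subgroup.center_le_centralizer _)) hF
      (fun x _ => H04.pow_mem_frattini hG x) (fun x _ y _ => H04.commutatorElement_mem_frattini hG x y)
      h1 h2 h4
  have h1 : N.index ≤ Nat.card (frattini G) ^ 2 := by
    by_contra h
    obtain ⟨x, -, h1, h2⟩ := key (L := ⊥) (H := ⊤) (K := N) bot_le le_top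
      (by rw [Subgroup.relIndex_bot_left, Subgroup.relIndex_top_right]; exact not_le.mp h)
    exact h1 h2
  have h2 := BG.card_le hFN
  have h4 := N.card_mul_index
  have h5 : 0 < Nat.card N := Nat.card_pos
  have h6 : N.index ≤ Nat.card N ^ 2 := h1.trans (Nat.pow_le_pow_left h2 2)
  refine ⟨by rw [← h4, pow_succ']; exact Nat.mul_le_mul_left _ h6, fun h => ?_⟩
  rw [← h4, pow_succ', Nat.mul_lt_mul_left h5]
  by_contra h7
  have h8 : frattini G = N := BG.eq_of_le_of_card_le hFN
    ((Nat.pow_le_pow_iff_left two_ne_zero).mp ((not_lt.mp h7).trans h1))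
  have h9 : (frattini G).index = Nat.card (frattini G) ^ 2 := h8 ▸ h6.antisymm (not_lt.mp h7)
  have h0 : ∀ x : G, x ^ 2 = 1 → x ∈ frattini G := fun x hx => h8 ▸ hx
  have hpos : 0 < Nat.card (frattini G) := Nat.card_pos
  suffices h' : Subgroup.center G ≤ frattini G ∧ frattini G ≤ commutator G from
    h ⟨hG, h3.antisymm h'.1, le_antisymm ((H04.commutator_le_frattini hG).trans h3) (h'.1.trans h'.2)⟩
  refine ⟨fun z hz => by_contra fun hzF => ?_, by_contra fun hc => ?_⟩
  · have h10 : z ^ 2 ≠ 1 := mt (h0 z) hzF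
    have h11 := H04.pow_mem_frattini hG z
    have h12 := H04.card_mul_relIndex (Subgroup.zpowers_le.mpr h11)
    rw [H04.card_zpowers_eq_prime (hF.2 _ h11) h10] at h12
    have h13 := Subgroup.relIndex_mul_index (le_sup_left (a := frattini G) (b := Subgroup.zpowers z))
    rw [H04.relIndex_sup_zpowers _ (Subgroup.center_le_normalizer _ hz) hzF h11, h9] at h13
    obtain ⟨x, -, hx, hx2⟩ := key (H := ⊤) (K := frattini G ⊔ Subgroup.zpowers z)
      (Subgroup.zpowers_le.mpr h11) le_top (by rw [Subgroup.relIndex_top_right]; nlinarith)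
    obtain ⟨i, hi⟩ := Subgroup.mem_zpowers_iff.mp hx2
    have h14 := h0 (x * z ^ (-i)) (by
      rw [((H04.commute_of_mem_center hz x).symm.zpow_right _).mul_pow, ← hi, ← zpow_natCast (z ^ (-i)),
        ← zpow_natCast z]
      group)
    exact hx ((mul_mem_cancel_right (Subgroup.mem_sup_right (zpow_mem (Subgroup.mem_zpowers z) _))).mp
      (Subgroup.mem_sup_left h14))
  · obtain ⟨M, h10, -, h11⟩ := H04.exists_index_eq_of_ne_top (hG.to_subgroup (frattini G))
      (H := (commutator G).subgroupOf _) fun h => hc (Subgroup.subgroupOf_eq_top.mp h)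
    have h12 : commutator G ≤ M.map (frattini G).subtype :=
      Subgroup.map_subgroupOf_eq_of_le (H04.commutator_le_frattini hG) ▸ Subgroup.map_mono h10
    have h13 := Subgroup.map_subtype_le M
    have h14 : (M.map (frattini G).subtype).relIndex (frattini G) = 2 :=
      (H04.relIndex_map_subtype' M).trans h11
    set L := M.map (frattini G).subtype
    have h15 : ∀ x y : G, ⁅x, y⁆ ∈ L := fun x y =>
      h12 (Subgroup.commutator_mem_commutator (Subgroup.mem_top x) (Subgroup.mem_top y))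
    have h16 : ∀ x y : G, (x * y) ^ 2 ∈ L ↔ x ^ 2 * y ^ 2 ∈ L := fun x y => by
      rw [H04.mul_pow_eq_of_commute (H04.commute_of_mem_center (h3 (h13 (h15 y x))) x)
        (H04.commute_of_mem_center (h3 (h13 (h15 y x))) y), mul_mem_cancel_right (pow_mem (h15 y x) _)]
    let H : Subgroup G :=
      { carrier := {x | x ^ 2 ∈ L}
        one_mem' := show (1 : G) ^ 2 ∈ L from pow_mem (one_mem L) 2
        mul_mem' := fun {x y} hx hy => (h16 x y).mpr (mul_mem hx hy)
        inv_mem' := fun {x} (h : x ^ 2 ∈ L) => show x⁻¹ ^ 2 ∈ L from inv_pow x 2 ▸ inv_mem h }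
    have h17 : frattini G ≤ H := fun x hx => show x ^ 2 ∈ L from hF.2 x hx ▸ one_mem L
    have h18 : H.index ≤ 2 := Nat.le_of_dvd two_pos (Subgroup.index_dvd_two_iff.mpr (by
      by_cases h : ∃ a, a ∉ H
      · obtain ⟨a, ha⟩ := h
        refine ⟨a, fun b => (em (b ∈ H)).symm.imp_left fun hb => (h16 b a).mpr ?_⟩
        exact (Subgroup.mul_mem_iff_of_index_two h14 (a := ⟨_, H04.pow_mem_frattini hG b⟩)
          (b := ⟨_, H04.pow_mem_frattini hG a⟩)).mpr (iff_of_false hb ha)
      · exact ⟨1, fun b => Or.inr (not_not.mp (not_exists.mp h b))⟩))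
    have h19 := H04.card_mul_relIndex h13
    have h20 := Subgroup.relIndex_mul_index h17
    obtain ⟨x, -, hx, hx2⟩ := H04.exists_sq_mem (H := H) (L := ⊥) (hG.to_subgroup _)
      ((h13.trans h3).trans (Subgroup.center_le_centralizer _)) (H04.IsElementaryAbelian.of_le hF h13)
      (fun x hx => hx) (fun x _ y _ => h15 x y) bot_le h17 (by
        rw [Subgroup.relIndex_bot_left]
        rw [h14] at h19
        rw [h9, ← h19] at h20
        nlinarith)
    exact hx (h0 x hx2)

end Cfsg.Agent.S3773
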