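import Mathlib
import Cfsg.Statements.S3784

set_option autoImplicit false
open Cfsg

namespace Cfsg.Agent.S3784

theorem aux (q c k : ℕ) (hq : Odd q) (h : 2 ^ c ∣ q + 1 ∨ 2 ^ c ∣ q - 1) :
    q ^ (2 * k + 1) ≡ q [MOD 2 ^ (c + 1)] := by
  have h1 : 1 ≤ q := hq.pos
  have h2 : q ^ 2 ≡ 1 [MOD 2 ^ (c + 1)] := by
    refine ((Nat.modEq_iff_dvd' (Nat.one_le_pow _ _ h1)).2 ?_).symm
    have : q ^ 2 - 1 = (q + 1) * (q - 1) := by simpa using Nat.sq_sub_sq q 1
    obtain ⟨m, rfl⟩ := hq
    rw [this, pow_succ]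
    rcases h with h | h
    · exact Nat.mul_dvd_mul h ⟨m, by omega⟩
    · rw [mul_comm (2 * m + 1 + 1)]; exact Nat.mul_dvd_mul h ⟨m + 1, by omega⟩
  have := (h2.pow k).mul_right q
  rwa [one_pow, one_mul, ← pow_mul, ← pow_succ] at this

/-- Let p, q be primes and a, b positive integers with p^a = q^b + 1. Then either p = 2, b = 1, a is prime and q = 2^a − 1; or q = 2, a = 1, b is a power of 2 and p = 2^b + 1; or p^a = 9 and q^b = 8. -/
theorem result (p q a b : ℕ) (hp : p.Prime) (hq : q.Prime) (ha : 1 ≤ a) (hb : 1 ≤ b) (h : p ^ a = q ^ b + 1) : (p = 2 ∧ b = 1 ∧ a.Prime ∧ q + 1 = 2 ^ a) ∨ (q = 2 ∧ a = 1 ∧ (∃ m : ℕ, b = 2 ^ m) ∧ p = 2 ^ b + 1) ∨ (p ^ a = 9 ∧ q ^ b = 8) := by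
  have hqb : 1 < q ^ b := Nat.one_lt_pow (by omega) hq.one_lt
  by_cases hq2 : q = 2
  · subst hq2
    have hpo : Odd p := by
      refine hp.odd_of_ne_two ?_
      rintro rfl
      have h1 : 2 ∣ 2 ^ a := dvd_pow_self 2 (by omega)
      have h2 : 2 ∣ 2 ^ b := dvd_pow_self 2 (by omega)
      omega
    rcases Nat.even_or_odd' a with ⟨k, rfl | rfl⟩
    · right; right
      have h1 : (p ^ k + 1) * (p ^ k - 1) = 2 ^ b := by
        have := Nat.sq_sub_sq (p ^ k) 1
        rw [← this, ← pow_mul, mul_comm k, h]; simp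
      obtain ⟨i, -, hi⟩ := (Nat.dvd_prime_pow Nat.prime_two).1 (Dvd.intro _ h1)
      obtain ⟨j, -, hj⟩ := (Nat.dvd_prime_pow Nat.prime_two).1 (Dvd.intro_left _ h1)
      have hk : 3 ≤ p ^ k := by
        have : 3 ≤ p := by have := hp.two_le; obtain ⟨m, rfl⟩ := hpo; omega
        exact this.trans (Nat.le_self_pow (by omega) p)
      have h3 : p ^ k = 3 := by
        by_contra hne
        have h4 : 2 ^ 1 < 2 ^ j := by omega
        have h5 : 2 ^ j < 2 ^ i := by omega
        have h6 := (Nat.pow_lt_pow_iff_right (by norm_num)).1 h4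
        have h7 := (Nat.pow_lt_pow_iff_right (by norm_num)).1 h5
        have h8 : 2 ^ 2 ∣ 2 ^ j := pow_dvd_pow 2 (by omega)
        have h9 : 2 ^ 2 ∣ 2 ^ i := pow_dvd_pow 2 (by omega)
        omega
      have : p ^ (2 * k) = 9 := by rw [mul_comm, pow_mul, h3]; norm_num
      exact ⟨this, by omega⟩
    · right; left
      have h1 : p - 1 ∣ 2 ^ b := by
        have := Nat.sub_one_dvd_pow_sub_one p (2 * k + 1)
        rwa [h, Nat.add_sub_cancel] at this
      obtain ⟨c, hc, hpc⟩ := (Nat.dvd_prime_pow Nat.prime_two).1 h1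
      have h2 := aux p c k hpo (Or.inr (hpc ▸ dvd_rfl))
      have hp1 := hp.one_lt
      have hcb : c = b := by
        by_contra hne
        have h3 : 2 ^ (c + 1) ∣ 2 ^ b := pow_dvd_pow 2 (by omega)
        have h4 : 2 ^ b + 1 ≡ 1 [MOD 2 ^ (c + 1)] := by
          simpa using (Nat.modEq_zero_iff_dvd.2 h3).add_right 1
        rw [h] at h2
        have h5 := (Nat.modEq_iff_dvd' hp1.le).1 (h4.symm.trans h2)
        rw [hpc] at h5
        have := Nat.le_of_dvd (by positivity) h5
        have := (Nat.pow_le_pow_iff_right (by norm_num)).1 this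
        omega
      subst hcb
      have hpe : p = 2 ^ c + 1 := by omega
      have hk : 2 * k + 1 = 1 := by
        apply Nat.pow_right_injective hp.two_le
        simp only [pow_one]
        rw [h, ← hpe]
      exact ⟨rfl, hk, Nat.pow_of_pow_add_prime (by norm_num) (by omega) (hpe ▸ hp), hpe⟩
  · left
    have hqo : Odd q := hq.odd_of_ne_two hq2
    have hp2 : p = 2 := by
      by_contra hne
      have h1 : Odd (p ^ a) := (hp.odd_of_ne_two hne).pow
      have h2 : Odd (q ^ b) := hqo.pow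
      obtain ⟨m, hm⟩ := h1
      obtain ⟨n, hn⟩ := h2
      omega
    subst hp2
    have ha2 : 2 ≤ a := by
      by_contra hlt
      have : a = 1 := by omega
      subst this
      omega
    rcases Nat.even_or_odd' b with ⟨k, rfl | rfl⟩
    · exfalso
      have h1 : 2 ^ 2 ∣ 2 ^ a := pow_dvd_pow 2 ha2
      obtain ⟨m, hm⟩ : Odd (q ^ k) := hqo.pow
      rw [h, mul_comm, pow_mul, hm] at h1
      have : (2 * m + 1) ^ 2 + 1 = 4 * (m * m + m) + 2 := by ring
      omega
    · have h1 : q + 1 ∣ 2 ^ a := by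
        have := Odd.nat_add_dvd_pow_add_pow q 1 (n := 2 * k + 1) ⟨k, rfl⟩
        rwa [one_pow, ← h] at this
      obtain ⟨c, hc, hqc⟩ := (Nat.dvd_prime_pow Nat.prime_two).1 h1
      have h2 := aux q c k hqo (Or.inl (hqc ▸ dvd_rfl))
      have hca : c = a := by
        by_contra hne
        have h3 : 2 ^ (c + 1) ∣ 2 ^ a := pow_dvd_pow 2 (by omega)
        rw [h] at h3
        have h5 := (Nat.modEq_zero_iff_dvd.1 ((h2.add_right 1).symm.trans
          (Nat.modEq_zero_iff_dvd.2 h3)))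
        rw [hqc] at h5
        have := Nat.le_of_dvd (by positivity) h5
        have := (Nat.pow_le_pow_iff_right (by norm_num)).1 this
        omega
      subst hca
      have hk : 2 * k + 1 = 1 := by
        apply Nat.pow_right_injective hq.two_le
        simp only [pow_one]
        omega
      refine ⟨rfl, hk, (Nat.prime_of_pow_sub_one_prime (a := 2) (by omega) ?_).2, hqc⟩
      rw [← hqc]; exact hq

end Cfsg.Agent.S3784
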