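import Mathlib
import Cfsg.Statements.S3802
import Cfsg.Agent.H16.Subnormal
import Cfsg.Agent.H01.Coprime

set_option autoImplicit false
open Cfsg

namespace Cfsg.Agent.S3802

open scoped Pointwise

/-- Let G be a finite group, M a maximal subgroup of G and N a subnormal subgroup of G contained in M. Then N is contained in every conjugate of M, that is, N lies in the core of M in G. -/
theorem result {G : Type*} [Group G] [Finite G] (M N : Subgroup G) (hM : IsCoatom M) (hN : N.IsSubnormal) (hNM : N ≤ M) :
    N ≤ Subgroup.normalCore M := by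
  set S : Set (Subgroup G) := {U | U.IsSubnormal ∧ U ≤ M} with hS
  have h1 : (sSup S).IsSubnormal := H16.isSubnormal_sSup fun U hU => hU.1
  have h2 : sSup S ≤ M := sSup_le fun U hU => hU.2
  have h3 : M ≤ Subgroup.normalizer ((sSup S : Subgroup G) : Set G) := by
    apply H01.le_normalizer_of_conj_mem
    intro m hm x hx
    have : MulAut.conj m • sSup S ≤ sSup S := le_sSup ⟨h1.smul _, by
      rw [← H01.conj_smul_eq_of_mem hm]
      exact Subgroup.pointwise_smul_le_pointwise_smul_iff.2 h2⟩
    exact this (H01.mem_conj_smul_iff.2 (by simpa [mul_assoc] using hx))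
  have h4 : (sSup S).Normal := by
    rcases Subgroup.IsSubnormal.iff_eq_top_or_exists.1 h1 with h | ⟨K, hlt, hK, hn⟩
    · rw [h]; infer_instance
    · rw [← Subgroup.normalizer_eq_top_iff]
      refine hM.2 _ (lt_of_le_of_ne h3 fun he => ?_)
      have := (Subgroup.normal_subgroupOf_iff_le_normalizer hlt.le).1 hn
      exact not_le_of_gt hlt (le_sSup ⟨hK, this.trans he.ge⟩)
  exact (le_sSup (show N ∈ S from ⟨hN, hNM⟩)).trans (Subgroup.normal_le_normalCore.2 h2)

end Cfsg.Agent.S3802
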