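import Mathlib
import Cfsg.Statements.S3803
import Cfsg.Agent.H04.Soft

set_option autoImplicit false
open Cfsg

namespace Cfsg.Agent.S3803

/-- Let P be a 2-subgroup and A a subgroup of odd order of a finite group, with A normalizing P. Let D ≤ P with 1 < |D| < |P|. If every subgroup of P of order |D|, and also every subgroup of P of order 4 in case |D| = 2, is normalized by A, then A centralizes P. -/
theorem result {X : Type*} [Group X] [Finite X] (P A D : Subgroup X) (hP : IsPGroup 2 P) (hA : Odd (Nat.card A))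
    (hAP : A ≤ Subgroup.normalizer (P : Set X)) (hDP : D ≤ P) (hD1 : 1 < Nat.card D) (hD2 : Nat.card D < Nat.card P)
    (hinv : ∀ E : Subgroup X, E ≤ P → (Nat.card E = Nat.card D ∨ (Nat.card D = 2 ∧ Nat.card E = 4)) → A ≤ Subgroup.normalizer (E : Set X)) :
    A ≤ Subgroup.centralizer (P : Set X) := by
  open Subgroup BG H04 in
  refine fun a ha => H27.mem_centralizer_of_fix_small hP (hAP ha) (Nat.coprime_two_right.mpr
    (hA.of_dvd_nat (BG.orderOf_dvd_card ha))) fun x hx h4 => ?_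
  have h0 : ∀ E ≤ P, x ∈ E → A ≤ C_(E) → a * x * a⁻¹ = x := fun E _ h1 h2 =>
    mul_inv_eq_iff_eq_mul.mpr (h2 ha x h1).symm
  have h1 : orderOf x ∣ 2 ^ 2 := orderOf_dvd_of_pow_eq_one (h4.elim (fun h => by rw [sq 2, pow_mul, h, one_pow])
    fun h => h.2)
  have h2 := zpowers_le.mpr hx
  obtain ⟨k, hk⟩ := IsPGroup.iff_card.mp (hP.to_le hDP)
  by_cases h3 : k = 1
  · obtain ⟨j, h5, h6⟩ := (Nat.dvd_prime_pow Nat.prime_two).mp h1
    interval_cases j
    · simp [orderOf_eq_one_iff.mp h6]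
    all_goals
      exact h0 _ h2 (mem_zpowers x) (le_cent_of_isCyclic_two (hP.to_le h2) inferInstance hA
        (hinv _ h2 (by simp [hk, h3, h6])))
  have h5 : k ≠ 0 := by rintro rfl; simp [hk] at hD1
  obtain ⟨E, h6, h7, h8⟩ := exists_between_card_eq hP h2 (j := k) (by
    rw [BG.card_zpowers]
    exact (Nat.le_of_dvd (by decide) h1).trans (Nat.pow_le_pow_right two_pos (by omega))) (hk ▸ hD2.le)
  by_cases h9 : IsCyclic E
  · exact h0 E h7 (h6 (mem_zpowers x)) (le_cent_of_isCyclic_two (hP.to_le h7) h9 hA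
      (hinv E h7 (Or.inl (h8.trans hk.symm))))
  obtain ⟨F, h10, h11, h12⟩ := exists_between_card_eq hP h7 (j := k + 1)
    (h8 ▸ Nat.pow_le_pow_right two_pos k.le_succ) (pow_succ_le_of_lt_card hP (hk ▸ hD2))
  have h13 : ∀ M ≤ F, Nat.card F = 2 * Nat.card M → A ≤ N_(M) := fun M hM hc =>
    hinv M (hM.trans h11) (Or.inl (by rw [h12, pow_succ'] at hc; omega))
  refine h0 F h11 (h10 (h6 (mem_zpowers x))) (le_cent_of_maximal_invariant_two (hP.to_le h11) hA
    (le_norm_iff.mpr fun b hb y hy => ?_) h13)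
  obtain ⟨M, h14, h15, h16⟩ := exists_maximal_ge (hP.to_le h11) (lt_of_le_of_ne (zpowers_le.mpr hy)
    fun h => h9 (cyclic_of_le (h ▸ inferInstance) h10))
  exact h15 (conj_mem_of_norm (h13 M h15 h16 hb) (h14 (mem_zpowers y)))

end Cfsg.Agent.S3803
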