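import Mathlib
import Cfsg.Statements.S3805
import Cfsg.Agent.H18.SE4

set_option autoImplicit false
open scoped Pointwise
open Cfsg

namespace Cfsg.Agent.S3805

/-- Let G be a finite group whose Sylow 3-subgroup T is elementary abelian of order 9 and self-centralizing, with N_G(T)/T a Klein four-group, and suppose that the centralizer of every nonidentity element of T lies in N_G(T). Then T is normal in G. -/
theorem result {G : Type*} [Group G] [Finite G]
    (T : Sylow 3 G) (hT : Cfsg.IsElementaryAbelian 3 (T : Subgroup G)) (hcard : Nat.card T = 9)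
    (hC : Subgroup.centralizer ((T : Subgroup G) : Set G) = T)
    [hn : ((T : Subgroup G).subgroupOf (Subgroup.normalizer ((T : Subgroup G) : Set G))).Normal]
    (hK : IsKleinFour (↥(Subgroup.normalizer ((T : Subgroup G) : Set G)) ⧸
      (T : Subgroup G).subgroupOf (Subgroup.normalizer ((T : Subgroup G) : Set G))))
    (hloc : ∀ t ∈ (T : Subgroup G), t ≠ 1 →
      Subgroup.centralizer ({t} : Set G) ≤ Subgroup.normalizer ((T : Subgroup G) : Set G)) :
    Subgroup.normalizer ((T : Subgroup G) : Set G) = ⊤ := by
  obtain ⟨e⟩ := IsKleinFour.nonempty_mulEquiv (G₁ := ↥(Subgroup.normalizer ((T : Subgroup G) : Set G)) ⧸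
    (T : Subgroup G).subgroupOf (Subgroup.normalizer ((T : Subgroup G) : Set G))) (G₂ := DihedralGroup 2)
  obtain ⟨ψ, h1, h2, h3⟩ := H18.Col.exists_lift T e
  exact H18.Col.normal_of_klein T hcard hT.2 hC.le hloc ψ h1 h2 (by rw [h3, hcard]; simp [DihedralGroup.card])

end Cfsg.Agent.S3805
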