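import Mathlib
import Cfsg.Statements.S3815
import Cfsg.Agent.H03.PResidual
import Cfsg.Agent.H02.PPrimeCore

set_option autoImplicit false
open Cfsg

namespace Cfsg.Agent.S3815

/-- Let G be a finite group, p a prime and d ∈ G an element of order prime to p. If dg has order prime to p for every element g ∈ G of order prime to p, then d ∈ O_{p'}(G). -/
theorem result {G : Type*} [Group G] [Finite G] {p : ℕ} [Fact p.Prime]
    (d : G) (hd : (orderOf d).Coprime p)
    (h : ∀ g : G, (orderOf g).Coprime p → (orderOf (d * g)).Coprime p) :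
    d ∈ Cfsg.pPrimeCore p G := by
  let D0 : Submonoid G :=
    { carrier := {d | ∀ g : G, (orderOf g).Coprime p → (orderOf (d * g)).Coprime p}
      one_mem' := fun g hg => by simpa using hg
      mul_mem' := fun {a b} ha hb g hg => by rw [mul_assoc]; exact ha _ (hb g hg) }
  let D : Subgroup G :=
    { D0 with
      inv_mem' := fun {x} hx => by
        have : x⁻¹ = x ^ (orderOf x - 1) := by
          rw [inv_eq_iff_mul_eq_one, ← pow_succ', Nat.sub_add_cancel (orderOf_pos x),
            pow_orderOf_eq_one]
        rw [this]
        exact D0.pow_mem hx _ }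
  haveI : D.Normal := ⟨fun x hx c g hg => by
    have h1 := hx (c⁻¹ * g * c) (by
      rwa [show c⁻¹ * g * c = MulAut.conj c⁻¹ g by simp, MulEquiv.orderOf_eq])
    rw [← MulEquiv.orderOf_eq (MulAut.conj c)] at h1
    simpa [mul_assoc] using h1⟩
  exact H02.le_pPrimeCore (N := D) (H03.card_coprime_of_forall_orderOf fun g hg => by
    simpa using hg 1 (by simp)) h

end Cfsg.Agent.S3815
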