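import Cfsg.Statements.S3816
import Cfsg.Agent.H24.GF3
import Cfsg.Agent.H24.Hol
-- import your own Cfsg.Agent.* helpers here

set_option autoImplicit false
open Cfsg

namespace Cfsg.Agent.S3816

/-- Let p be an odd prime, H a finite solvable group of order prime to p, and x an automorphism of H of order p (so P = ⟨x⟩ has prime order p > 2 and acts coprimely on H). For h ∈ H let [h, P] be the subgroup generated by the commutators h⁻¹·xⁱ(h), and let [H, P] be the subgroup generated by all of these. Then the fixed points of x in [H, P] are generated by the fixed points of x in the subgroups [h, P], h ∈ H. -/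
theorem result {H : Type*} [Group H] [Finite H]
    [Group.IsSolvable H] {p : ℕ} [Fact p.Prime] (hp : p ≠ 2) (hcop : (Nat.card H).Coprime p)
    (x : MulAut H) (hx : orderOf x = p) :
    Subgroup.closure {c : H | ∃ h : H, ∃ i : ℕ, c = h⁻¹ * (x ^ i) h} ⊓ (x : H →* H).eqLocus (MonoidHom.id H) =
      ⨆ h : H, Subgroup.closure {c : H | ∃ i : ℕ, c = h⁻¹ * (x ^ i) h} ⊓ (x : H →* H).eqLocus (MonoidHom.id H) := by
  have hp' : p.Prime := Fact.out
  let f : H →* H24.Hol H := SemidirectProduct.inl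
  have hf : Function.Injective f := SemidirectProduct.inl_injective
  let y : H24.Hol H := SemidirectProduct.inr x
  have hc : ∀ (i : ℕ) (h : H), f ((x ^ i) h) = y ^ i * f h * (y ^ i)⁻¹ := fun i h => by
    have := SemidirectProduct.inl_aut (φ := MonoidHom.id (MulAut H)) (x ^ i) h
    rw [map_inv, map_pow SemidirectProduct.inr] at this
    exact this
  have h1 : ∀ h : H, f (x h) = y * f h * y⁻¹ := fun h => by simpa using hc 1 h
  have hE : ∀ h : H, h ∈ (x : H →* H).eqLocus (MonoidHom.id H) ↔ f h ∈ Subgroup.centralizer {y} := fun h => by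
    rw [BG.mem_cent1, eq_comm, ← mul_inv_eq_iff_eq_mul, ← h1, hf.eq_iff]; rfl
  refine le_antisymm (fun c hc' => ?_) (iSup_le fun h => inf_le_inf_right _ (Subgroup.closure_mono fun c hc => ⟨h, hc⟩))
  have h2 : f c ∈ H24.GF.D y f.range := H24.GF.main (H := f.range) (x := y) hp' hp (by rw [← map_pow, ← hx, pow_orderOf_eq_one, map_one])
    (BG.mem_norm_of_cj_le fun g hg => by
      obtain ⟨_, ⟨h, rfl⟩, rfl⟩ := BG.mem_cj'.1 hg
      exact ⟨_, h1 h⟩) (Group.isSolvable_of_surjective f.rangeRestrict_surjective) (by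
      rw [← Nat.card_congr (MonoidHom.ofInjective hf).toEquiv]
      exact (Nat.Prime.coprime_iff_not_dvd hp').1 hcop.symm) ⟨by
      refine ((Subgroup.closure_le (Subgroup.comap f ⁅f.range, Subgroup.zpowers y⁆)).2 ?_) hc'.1
      rintro _ ⟨h, i, rfl⟩
      have := Subgroup.commutator_mem_commutator (f.range.inv_mem (x := f h) ⟨h, rfl⟩)
        (pow_mem (Subgroup.mem_zpowers y) i)
      simpa [commutatorElement_def, mul_assoc, hc] using this, (hE c).1 hc'.2⟩
  have h3 : H24.GF.D y f.range ≤ Subgroup.map f (⨆ h : H, Subgroup.closure {c : H | ∃ i : ℕ, c = h⁻¹ * (x ^ i) h} ⊓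
      (x : H →* H).eqLocus (MonoidHom.id H)) := iSup₂_le (by
    rintro _ ⟨h, rfl⟩ g hg
    obtain ⟨k, hk, rfl⟩ := (H24.GF.X_le_iff (K := Subgroup.map f (Subgroup.closure {c : H | ∃ i : ℕ, c = h⁻¹ * (x ^ i) h}))).2
      (fun i => ⟨_, Subgroup.subset_closure ⟨i, rfl⟩, by rw [map_mul, map_inv, hc]⟩) hg.1
    exact ⟨k, Subgroup.mem_iSup_of_mem h ⟨hk, (hE k).2 hg.2⟩, rfl⟩)
  obtain ⟨k, hk, e⟩ := h3 h2
  exact hf e ▸ hk

end Cfsg.Agent.S3816
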