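import Cfsg.Statements.S3818
import Cfsg.Agent.H24.Fl3
-- import your own Cfsg.Agent.* helpers here

set_option autoImplicit false
open Cfsg

namespace Cfsg.Agent.S3818

/-- Let G be a finite solvable group and P a subgroup of G of prime order p > 3 whose conjugates generate G. Let V be a faithful irreducible representation of G over a field of positive characteristic, finite-dimensional. Then the subspace of V fixed by P has dimension less than half the dimension of V. -/
theorem result {G : Type*} [Group G] [Finite G] [Group.IsSolvable G]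
    {p : ℕ} [Fact p.Prime] (hp : 3 < p) (P : Subgroup G) (hP : Nat.card P = p) (hgen : Subgroup.normalClosure (P : Set G) = ⊤)
    {k : Type*} [Field k] (ℓ : ℕ) [Fact ℓ.Prime] [CharP k ℓ]
    {V : Type*} [AddCommGroup V] [Module k V] [FiniteDimensional k V]
    (ρ : Representation k G V) [ρ.IsIrreducible] (hfaith : Function.Injective ρ) :
    2 * Module.finrank k ↥(⨅ g : ↥P, LinearMap.ker (ρ (g : G) - LinearMap.id)) < Module.finrank k V := by
  have hpp : p.Prime := Fact.out
  obtain ⟨x, rfl⟩ := BG.cyclic_iff.1 (BG.cyclic_of_prime (A := P) (hP ▸ hpp))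
  rw [BG.card_zpowers] at hP
  have hx : x ^ p = 1 := hP ▸ pow_orderOf_eq_one x
  have h := H24.Fl.flavell (ρ := ρ) (x := x) ℓ hpp hp inferInstance hx
    (eq_top_iff.2 (hgen.ge.trans (Subgroup.normalClosure_le_normal
      (Subgroup.zpowers_le.2 (Subgroup.subset_normalClosure rfl)))))
    (fun U hU => by
      rcases eq_bot_or_eq_top (⟨U, fun g v hv => hU g ⟨v, hv, rfl⟩⟩ : Subrepresentation ρ) with h | h
      · exact Or.inl (congrArg Subrepresentation.toSubmodule h)
      · exact Or.inr (congrArg Subrepresentation.toSubmodule h))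
    (fun e => by
      rw [← map_one ρ] at e
      rw [hfaith e, orderOf_one] at hP
      omega)
  refine lt_of_le_of_lt (Nat.mul_le_mul_left _ (Submodule.finrank_mono ?_)) h
  exact iInf_le _ (⟨x, Subgroup.mem_zpowers x⟩ : Subgroup.zpowers x)

end Cfsg.Agent.S3818
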