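import Cfsg.Statements.S3819
import Cfsg.Agent.BG.Quo3
import Cfsg.Agent.H01.Coprime2
import Cfsg.Agent.H22.Balance
-- import your own Cfsg.Agent.* helpers here

set_option autoImplicit false
open Cfsg

namespace Cfsg.Agent.S3819

open BG

universe u

theorem stepA {G : Type u} [Group G] [Finite G] {p q : ℕ} (hp : p.Prime) (hq : q.Prime) {H P : Subgroup G}
    (hP : IsPGroup p P) (hH : ¬ p ∣ Nat.card H) (hn : P ≤ N_(H)) (hs : Group.IsSolvable ↥⁅H, P⁆) {z : G}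
    (hzH : z ∈ H) (hzP : z ∈ C_(P)) (hz : IsPGroup q (Subgroup.zpowers z)) (h0 : piCoreOf {q}ᶜ H = ⊥) :
    piCoreOf {q}ᶜ (H ⊓ C_[z]) ⊓ piCoreOf {q}ᶜ (H ⊓ C_(P)) = ⊥ ∧ ⁅piCoreOf {q}ᶜ (H ⊓ C_[z]), P⁆ = ⊥ := by
  haveI := Fact.mk hq
  set X := piCoreOf {q}ᶜ (H ⊓ C_[z]) with hX
  set Y := piCoreOf {q}ᶜ (H ⊓ C_(P)) with hY
  set K := ⁅H, P⁆ with hK
  have hKH : K ≤ H := comm_le_left hn
  have hHK : H ≤ N_(K) := left_le_norm_comm H P
  have hK0 : piCoreOf {q}ᶜ K = ⊥ := eq_bot_mono h0 (pcore_le_of_norm _ hKH hHK)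
  set Q := piCoreOf {q} K with hQ
  have hCQ : K ⊓ C_(Q) ≤ Q := cent_pcore_le hq hs hK0
  have hHQ : H ≤ N_(Q) := norm_pcore _ hHK
  have hQK : Q ≤ K := pcore_le _ _
  have hQp : IsPGroup q Q := pcore_pg hq _
  have hXH : X ≤ H := (pcore_le _ _).trans inf_le_left
  have hXz : X ≤ C_[z] := (pcore_le _ _).trans inf_le_right
  have hXq : ¬ q ∣ Nat.card X := pcore_not_dvd hq _
  have hXQ : X ≤ C_(Q) := by
    refine H01.thompson_PxQ (P := Subgroup.zpowers z) hz (((Nat.Prime.coprime_iff_not_dvd hq).2 hXq).symm) hQp ?_ ?_ (hXH.trans hHQ) ?_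
    · exact cent_symm (by rw [cent_zpowers]; exact hXz)
    · exact (Subgroup.zpowers_le.2 hzH).trans hHQ
    · rw [cent_zpowers]
      have h1 : Q ⊓ C_[z] ≤ piCoreOf {q} (H ⊓ C_[z]) :=
        le_pcore_pg hq (pg_le hQp inf_le_left) (inf_le_inf_right _ (hQK.trans hKH))
          (norm_inf (inf_le_left.trans hHQ) (norm_cent1 inf_le_right))
      exact h1.trans (pcore_cent_compl _ _)
  have hPX : P ≤ N_(X) := norm_pcore _ (norm_inf hn (norm_cent1 (le_cent1_iff.2 hzP)))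
  have hXQ0 : Q ⊓ X = ⊥ := pg_inf_eq_bot hq hQp hXq
  refine ⟨?_, ?_⟩
  · have h1 : ⁅K, X⁆ ≤ Q := by
      refine le_trans (le_inf (comm_le_left (hXH.trans hHK)) ?_) hCQ
      exact (comm_mono le_rfl hXQ).trans (comm_le_right (norm_cent (hKH.trans hHQ)))
    have h2 : K ≤ C_(X) := by
      have := le_sup_cent_of_comm_le (hXH.trans hHQ) hQK (pg_coprime hq hQp hXq).symm (Or.inr (pg_sol hq hQp)) le_rfl h1
      exact this.trans (sup_le (cent_symm hXQ) inf_le_right)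
    have h3 : K ⊔ (H ⊓ C_(P)) = H := coprime_comm_sup_cent hn (pg_coprime hp hP hH) (Or.inl (pg_sol hp hP))
    have h4 : Y ⊓ C_(K) ≤ piCoreOf {q}ᶜ H := by
      refine le_pcore_p' hq (not_dvd_of_le (pcore_not_dvd hq _) inf_le_left)
        (inf_le_left.trans ((pcore_le _ _).trans inf_le_left)) ?_
      rw [← h3]
      exact sup_le (le_norm_of_cent (cent_symm inf_le_right))
        (norm_inf (le_norm_pcore _ _) (norm_cent (inf_le_left.trans hHK)))
    exact eq_bot_mono h0 (le_trans (le_inf inf_le_right (inf_le_left.trans (cent_symm h2))) h4)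
  · refine eq_bot_mono hXQ0 (le_inf (le_trans (le_inf (comm_mono hXH le_rfl) ?_) hCQ) (comm_le_left hPX))
    exact (comm_le_left hPX).trans hXQ

theorem stepB {G : Type u} [Group G] [Finite G] {p q : ℕ} (hp : p.Prime) (hq : q.Prime) {H P : Subgroup G}
    (hP : IsPGroup p P) (hH : ¬ p ∣ Nat.card H) (hn : P ≤ N_(H)) (hs : Group.IsSolvable ↥⁅H, P⁆) {z : G}
    (hzH : z ∈ H) (hzP : z ∈ C_(P)) (hz : IsPGroup q (Subgroup.zpowers z)) :
    (piCoreOf {q}ᶜ (H ⊓ C_[z]) ⊓ piCoreOf {q}ᶜ (H ⊓ C_(P))) ⊔ ⁅piCoreOf {q}ᶜ (H ⊓ C_[z]), P⁆ ≤ piCoreOf {q}ᶜ H := by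
  set N := piCoreOf {q}ᶜ H with hN
  have hNH : N ≤ H := pcore_le _ _
  have hHN : H ≤ N_(N) := le_norm_pcore _ _
  have hPN : P ≤ N_(N) := norm_pcore _ hn
  have hNq : ¬ q ∣ Nat.card N := pcore_not_dvd hq _
  have hzc : (orderOf z).Coprime (Nat.card N) := by rw [← card_zpowers]; exact pg_coprime hq hz hNq
  have e1 := quo_cent1_coprime (hHN hzH) hNH hzc
  have e2 := quo_cent_coprime hPN hNH (pg_coprime hp hP (not_dvd_of_le hH hNH)) (Or.inl (pg_sol hp hP))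
  obtain ⟨h1, h2⟩ := stepA (G := QT N) hp hq (pgroup_quo N hP) (not_dvd_card_quo N hH) (quo_le_norm N hn)
    (by rw [← quo_comm hHN hPN]; exact sol_quo N hs) (qmk_mem_quo hzH (hHN hzH))
    (quo_cent_le N P (qmk_mem_quo hzP (hHN hzH)))
    (by rw [← quo_zpowers]; exact pgroup_quo N hz) (piCoreOf_quo_self _ _)
  rw [← e1] at h1 h2
  rw [← e2] at h1
  have hXH : piCoreOf {q}ᶜ (H ⊓ C_[z]) ≤ H := (pcore_le _ _).trans inf_le_left
  refine sup_le ?_ ?_
  · rw [← quo_eq_bot_iff (inf_le_left.trans (hXH.trans hHN))]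
    exact eq_bot_mono h1 ((quo_inf_le _ _ _).trans (inf_le_inf (quo_piCoreOf_le _ _) (quo_piCoreOf_le _ _)))
  · rw [← quo_comm_eq_bot_iff (hXH.trans hHN) hPN]
    exact eq_bot_mono h2 (comm_mono (quo_piCoreOf_le _ _) le_rfl)

/-- Let G be a finite group with Sylow p-subgroup P and H = O_{p'}(G), and suppose G = PH and the commutator subgroup [H, P] is solvable. Let q be a prime and z an element of q-power order of C_H(P). Then (O_{q'}(C_H(z)) ∩ O_{q'}(C_H(P))) · [O_{q'}(C_H(z)), P] ≤ O_{q'}(H). -/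
theorem result {G : Type*} [Group G] [Finite G] {p : ℕ} [Fact p.Prime]
    (P : Sylow p G) (hPH : Cfsg.pPrimeCore p G ⊔ (P : Subgroup G) = ⊤)
    (hsol : Group.IsSolvable ↥⁅Cfsg.pPrimeCore p G, (P : Subgroup G)⁆)
    {q : ℕ} [Fact q.Prime] (z : G) (hzH : z ∈ Cfsg.pPrimeCore p G) (hzP : z ∈ Subgroup.centralizer ((P : Subgroup G) : Set G))
    (hz : ∃ k : ℕ, orderOf z = q ^ k) :
    ((Cfsg.pPrimeCore q ↥(Cfsg.pPrimeCore p G ⊓ Subgroup.centralizer ({z} : Set G))).map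
        (Cfsg.pPrimeCore p G ⊓ Subgroup.centralizer ({z} : Set G)).subtype ⊓
      (Cfsg.pPrimeCore q ↥(Cfsg.pPrimeCore p G ⊓ Subgroup.centralizer ((P : Subgroup G) : Set G))).map
        (Cfsg.pPrimeCore p G ⊓ Subgroup.centralizer ((P : Subgroup G) : Set G)).subtype) ⊔
    ⁅(Cfsg.pPrimeCore q ↥(Cfsg.pPrimeCore p G ⊓ Subgroup.centralizer ({z} : Set G))).map
        (Cfsg.pPrimeCore p G ⊓ Subgroup.centralizer ({z} : Set G)).subtype, (P : Subgroup G)⁆ ≤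
    (Cfsg.pPrimeCore q ↥(Cfsg.pPrimeCore p G)).map (Cfsg.pPrimeCore p G).subtype := by
  have hp : p.Prime := Fact.out
  have hq : q.Prime := Fact.out
  have hH : ¬ p ∣ Nat.card (Cfsg.pPrimeCore p G) := by rw [← H22.p'core_top hp]; exact pcore_not_dvd hp _
  have hn : (P : Subgroup G) ≤ N_(Cfsg.pPrimeCore p G) := by
    rw [← H22.p'core_top hp]; exact le_top.trans (le_norm_pcore _ _)
  obtain ⟨k, hk⟩ := hz
  have := stepB hp hq P.isPGroup' hH hn hsol hzH hzP (pg_of_card (n := k) (by rw [card_zpowers, hk]))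
  rw [← H22.p'coreOf_eq hq, ← H22.p'coreOf_eq hq, ← H22.p'coreOf_eq hq] at this
  exact this

end Cfsg.Agent.S3819
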