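import Mathlib
import Cfsg.Statements.S3821
import Cfsg.Agent.H03.Fusion
import Cfsg.Agent.H01.Basic

set_option autoImplicit false
open Cfsg

namespace Cfsg.Agent.S3821

theorem aux {G : Type*} [Group G] {A H : Subgroup G} (hHA : H ≤ A) (a : A) :
    ((H.subgroupOf A).map (MulAut.conj a).toMonoidHom).map A.subtype =
      H.map (MulAut.conj (a : G)).toMonoidHom := by
  conv_rhs => rw [← Subgroup.map_subgroupOf_eq_of_le hHA]
  rw [Subgroup.map_map, Subgroup.map_map]
  rfl

/-- Let A be a normal subgroup of the finite group G and H a subgroup of A. Then H is pronormal in G (H and gHg⁻¹ conjugate inside ⟨H, gHg⁻¹⟩ for every g ∈ G) if and only if H is pronormal in A and G = A · N_G(H). -/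
theorem result {G : Type*} [Group G] [Finite G] (A H : Subgroup G) [A.Normal] (hHA : H ≤ A) :
    Cfsg.IsPronormal H ↔ (Cfsg.IsPronormal (H.subgroupOf A) ∧ A ⊔ Subgroup.normalizer (H : Set G) = ⊤) := by
  have hle : ∀ g : G, H ⊔ H.map (MulAut.conj g).toMonoidHom ≤ A := fun g =>
    sup_le hHA (H03.map_conj_le_iff.2 fun x hx => (inferInstance : A.Normal).conj_mem _ (hHA hx) g)
  constructor
  · intro h
    refine ⟨fun a => ?_, ?_⟩
    · obtain ⟨x, hx, e⟩ := h a
      refine ⟨⟨x, hle _ hx⟩, ?_, ?_⟩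
      · rw [← Subgroup.mem_map_iff_mem A.subtype_injective, Subgroup.map_sup, aux hHA,
          Subgroup.map_subgroupOf_eq_of_le hHA]
        exact hx
      · apply Subgroup.map_injective A.subtype_injective
        rw [aux hHA, aux hHA, e]
    · rw [eq_top_iff]
      intro g _
      obtain ⟨x, hx, e⟩ := h g
      have : x⁻¹ * g ∈ Subgroup.normalizer (H : Set G) := by
        rw [← H03.map_conj_eq_iff_mem_normalizer, ← H03.map_conj_map_conj, e, H03.map_conj_map_conj,
          inv_mul_cancel, H03.map_conj_one]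
      simpa using mul_mem (Subgroup.mem_sup_left (hle _ hx)) (Subgroup.mem_sup_right this)
  · rintro ⟨h1, h2⟩ g
    have hg : g ∈ A ⊔ Subgroup.normalizer (H : Set G) := h2 ▸ Subgroup.mem_top g
    obtain ⟨a, ha, n, hn, rfl⟩ := (H01.mem_sup_of_le_normalizer'
      (Subgroup.le_normalizer_of_normal)).1 hg
    obtain ⟨x, hx, e⟩ := h1 ⟨a, ha⟩
    rw [← H03.map_conj_map_conj, H03.map_conj_eq_iff_mem_normalizer.2 hn]
    rw [← Subgroup.mem_map_iff_mem A.subtype_injective, Subgroup.map_sup, aux hHA,
          Subgroup.map_subgroupOf_eq_of_le hHA] at hx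
    exact ⟨x, hx, by rw [← aux hHA x, ← e, aux hHA]⟩

end Cfsg.Agent.S3821
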