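import Cfsg.Statements.S3822
import Cfsg.Agent.H24.Fl4
-- import your own Cfsg.Agent.* helpers here

set_option autoImplicit false
open Cfsg

namespace Cfsg.Agent.S3822

open BG

/-- Let G be a finite group and P a subgroup of prime order p > 3. Consider the solvable subgroups A of G of the form A = ⟨P, aPa⁻¹⟩ for some a ∈ A, and let A be maximal under inclusion among them. Then for every nilpotent subgroup V of G normalized by A, the subgroup F(A)V generated by the Fitting subgroup of A and V is nilpotent. -/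
theorem result {G : Type*} [Group G] [Finite G]
    {p : ℕ} [Fact p.Prime] (hp : 3 < p) (P : Subgroup G) (hP : Nat.card P = p) (A : Subgroup G)
    (hA : Group.IsSolvable ↥A ∧ ∃ a ∈ A, A = P ⊔ P.map (MulAut.conj a).toMonoidHom)
    (hmax : ∀ B : Subgroup G, A ≤ B → Group.IsSolvable ↥B → (∃ b ∈ B, B = P ⊔ P.map (MulAut.conj b).toMonoidHom) → B = A)
    (V : Subgroup G) (hV : Group.IsNilpotent ↥V) (hAV : A ≤ Subgroup.normalizer (V : Set G)) :
    Group.IsNilpotent ↥((Cfsg.fittingSubgroup ↥A).map A.subtype ⊔ V) := by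
  have hpp : p.Prime := Fact.out
  obtain ⟨x, rfl⟩ := cyclic_iff.1 (cyclic_of_prime (A := P) (hP ▸ hpp))
  rw [card_zpowers] at hP
  have hx : x ^ p = 1 := hP ▸ pow_orderOf_eq_one x
  simp only [← cj_eq_map, cj_zpowers] at hA hmax
  obtain ⟨hs, a, ha, h⟩ := hA
  refine H24.Fl.nil_sup_of_pcores (fit_nil A) hV ((fit_le A).trans hAV) fun r q hr hq hrq => ?_
  refine (pcore_fit hr A).le.trans ?_
  by_contra hc
  obtain ⟨W, ⟨h1, h2, h3⟩, hmin⟩ := (wellFounded_lt (α := Subgroup G)).has_min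
    {W | IsPGroup q W ∧ A ≤ N_(W) ∧ ¬ piCoreOf {r} A ≤ C_(W)} ⟨_, pcore_pg hq _, norm_pcore _ hAV, hc⟩
  obtain ⟨v, hv, h4⟩ := H24.Fl.two_gen' hpp hp hq hs h1 h2 hx ha h hr hrq (pcore_pg hr A) (pcore_le _ _)
    (le_norm_pcore _ _) h3 fun U hU hn => by
      by_contra e; exact hmin U ⟨pg_le h1 hU.le, hn, e⟩ hU
  have hxA : x ∈ A := h.ge (Subgroup.mem_sup_left (Subgroup.mem_zpowers x))
  have hb : v * a ∈ W ⊔ A := mul_mem (Subgroup.mem_sup_left hv) (Subgroup.mem_sup_right ha)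
  have h5 := hmax (W ⊔ A) le_sup_right (sol_sup hs (pg_sol hq h1) h2) ⟨v * a, hb, le_antisymm
    (sup_le h4 (h.le.trans (sup_le le_sup_left (Subgroup.zpowers_le.2 ?_))))
    (sup_le (Subgroup.zpowers_le.2 (Subgroup.mem_sup_right hxA))
      (Subgroup.zpowers_le.2 (mul_mem (mul_mem hb (Subgroup.mem_sup_right hxA)) (inv_mem hb))))⟩
  · have h6 : W ≤ A := le_sup_left.trans h5.le
    exact h3 (le_cent_of_coprime ((pcore_le _ _).trans h2) (h6.trans (le_norm_pcore _ _))
      (pg_coprime_ne hr hq (pcore_pg hr A) h1 hrq))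
  · have := mul_mem (mul_mem (inv_mem (h4 hv)) (Subgroup.mem_sup_right (Subgroup.mem_zpowers _))) (h4 hv)
    simpa [mul_assoc] using this

end Cfsg.Agent.S3822
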