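import Mathlib
import Cfsg.Statements.S3825
import Cfsg.Agent.H16.Products

set_option autoImplicit false
open Cfsg

namespace Cfsg.Agent.S3825

/-- Let U be a subgroup of a finite group H and w an involution of H normalizing U and commuting with exactly two elements of U, the identity and y. If V is a non-cyclic elementary abelian 2-subgroup of U containing y which is normal in U and invariant under w, then V is a Sylow 2-subgroup of U, V has order 4, and U/V is abelian. -/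
theorem result {H : Type*} [Group H] [Finite H] (U : Subgroup H) (w : H) (hw : orderOf w = 2)
    (hwU : w ∈ Subgroup.normalizer (U : Set H)) (y : H) (hy : y ≠ 1) (hyU : y ∈ U)
    (hfix : ∀ u ∈ U, w * u * w⁻¹ = u ↔ (u = 1 ∨ u = y))
    (V : Subgroup H) (hVU : V ≤ U) (hVn : (V.subgroupOf U).Normal) (hVw : ∀ v ∈ V, w * v * w⁻¹ ∈ V)
    (hVe : Cfsg.IsElementaryAbelian 2 V) (hVc : ¬ IsCyclic ↥V) (hyV : y ∈ V) :
    ¬ 2 ∣ V.relIndex U ∧ Nat.card ↥V = 4 ∧ ⁅U, U⁆ ≤ V := by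
  obtain ⟨hVc', hV2⟩ := hVe
  have hw2 : w * w = 1 := by rw [← pow_two, ← hw, pow_orderOf_eq_one]
  have hwi : w⁻¹ = w := inv_eq_of_mul_eq_one_right hw2
  have hinv : ∀ v ∈ V, v⁻¹ = v := fun v hv =>
    inv_eq_of_mul_eq_one_right (by rw [← pow_two]; exact hV2 v hv)
  have hy2 : y * y = 1 := by rw [← pow_two]; exact hV2 y hyV
  have key : ∀ u ∈ U, u⁻¹ * (w * u * w⁻¹) ∈ V → u⁻¹ * (w * u * w⁻¹) = 1 ∨ u⁻¹ * (w * u * w⁻¹) = y := by
    intro u hu ht
    apply (hfix _ (hVU ht)).1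
    rw [← hinv _ ht]
    conv_lhs => rw [hinv _ ht]
    rw [hwi]
    calc w * (u⁻¹ * (w * u * w)) * w = w * u⁻¹ * w * u * (w * w) := by group
      _ = (u⁻¹ * (w * u * w))⁻¹ := by rw [hw2, mul_inv_rev, mul_inv_rev, mul_inv_rev, hwi]; group
  have hfix' : ∀ u ∈ U, u⁻¹ * (w * u * w⁻¹) = 1 → u = 1 ∨ u = y := fun u hu h =>
    (hfix u hu).1 (inv_mul_eq_one.1 h).symm
  obtain ⟨v, hvV, hv⟩ : ∃ v ∈ V, v ∉ Subgroup.zpowers y := by
    by_contra hc
    push Not at hc
    exact hVc (Subgroup.isCyclic_of_le (show V ≤ Subgroup.zpowers y from hc))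
  have hv1 : v ≠ 1 := fun h => hv (h ▸ one_mem _)
  have hvy : v ≠ y := fun h => hv (h ▸ Subgroup.mem_zpowers _)
  have hvw : v⁻¹ * (w * v * w⁻¹) = y :=
    (key v (hVU hvV) (mul_mem (inv_mem hvV) (hVw v hvV))).resolve_left fun h =>
      (hfix' v (hVU hvV) h).elim hv1 hvy
  have key2 : ∀ u ∈ U, u⁻¹ * (w * u * w⁻¹) ∈ V → u = 1 ∨ u = y ∨ u = v ∨ u = y * v := by
    intro u hu ht
    rcases key u hu ht with h | h
    · rcases hfix' u hu h with h | h
      · exact Or.inl h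
      · exact Or.inr (Or.inl h)
    · have : w * (u * v⁻¹) * w⁻¹ = u * v⁻¹ := by
        calc w * (u * v⁻¹) * w⁻¹ = u * (u⁻¹ * (w * u * w⁻¹)) * (v⁻¹ * (w * v * w⁻¹))⁻¹ * v⁻¹ := by group
          _ = _ := by rw [h, hvw]; group
      rcases (hfix _ (mul_mem hu (inv_mem (hVU hvV)))).1 this with h | h
      · exact Or.inr (Or.inr (Or.inl (mul_inv_eq_one.1 h)))
      · exact Or.inr (Or.inr (Or.inr (mul_inv_eq_iff_eq_mul.1 h)))
  have hcard : Nat.card V = 4 := by
    have : (V : Set H) = {1, y, v, y * v} := by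
      ext x
      simp only [SetLike.mem_coe, Set.mem_insert_iff, Set.mem_singleton_iff]
      refine ⟨fun hx => key2 x (hVU hx) (mul_mem (inv_mem hx) (hVw x hx)), ?_⟩
      rintro (rfl | rfl | rfl | rfl)
      exacts [one_mem _, hyV, hvV, mul_mem hyV hvV]
    have h1 : y * v ≠ 1 := fun h => hvy (by rw [← mul_left_cancel_iff (a := y), h, hy2])
    have h2 : y ≠ y * v := fun h => hv1 (by simpa using h)
    have h3 : v ≠ y * v := fun h => hy (by simpa using h)
    rw [← SetLike.coe_sort_coe, this, Nat.card_coe_set_eq, Set.ncard_eq_four]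
    exact ⟨1, y, v, y * v, hy.symm, hv1.symm, h1.symm, hvy.symm, h2, h3, rfl⟩
  let σ : U →* U := (U.normalizerMonoidHom ⟨w, hwU⟩).toMonoidHom
  have hσ : ∀ u : U, (σ u : H) = w * u * w⁻¹ := fun u => rfl
  let τ : U ⧸ V.subgroupOf U →* U ⧸ V.subgroupOf U :=
    QuotientGroup.map _ _ σ fun u hu => hVw u hu
  have hfpf : MonoidHom.FixedPointFree τ := by
    intro q hq
    obtain ⟨u, rfl⟩ := QuotientGroup.mk_surjective q
    have h1 : u⁻¹ * σ u ∈ V.subgroupOf U := QuotientGroup.eq.1 hq.symm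
    rw [QuotientGroup.eq_one_iff, Subgroup.mem_subgroupOf]
    rcases key2 u u.2 h1 with h | h | h | h <;> rw [h]
    exacts [one_mem _, hyV, hvV, mul_mem hyV hvV]
  have hinvol : Function.Involutive τ := by
    intro q
    obtain ⟨u, rfl⟩ := QuotientGroup.mk_surjective q
    change ((σ (σ u) : U) : U ⧸ V.subgroupOf U) = u
    congr 1
    apply Subtype.ext
    rw [hσ, hσ, hwi]
    calc w * (w * u * w) * w = (w * w) * u * (w * w) := by group
      _ = u := by rw [hw2]; group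
  refine ⟨fun h => ?_, hcard, ?_⟩
  · exact (Nat.not_even_iff_odd.2 (hfpf.odd_card_of_involutive hinvol)) (even_iff_two_dvd.2 h)
  · rw [Subgroup.commutator_le]
    intro a ha b hb
    have := (hfpf.commute_all_of_involutive hinvol ((⟨a, ha⟩ : U) : U ⧸ V.subgroupOf U)
      ((⟨b, hb⟩ : U) : U ⧸ V.subgroupOf U)).commutator_eq
    exact (QuotientGroup.eq_one_iff (N := V.subgroupOf U)
      ((⟨a, ha⟩ : U) * (⟨b, hb⟩ : U) * (⟨a, ha⟩ : U)⁻¹ * (⟨b, hb⟩ : U)⁻¹)).1 this

end Cfsg.Agent.S3825
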