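import Mathlib
import Cfsg.Statements.S3835
import Cfsg.Agent.H03.Qd2

set_option autoImplicit false
open Cfsg

namespace Cfsg.Agent.S3835

/-- Let p be an odd prime and n a natural number. The alternating group of degree n has a subgroup isomorphic to Qd(p) (the natural semidirect product of an elementary abelian group of order p² by SL₂(p)) if and only if n ≥ p²; and if n < p² then Qd(p) is not even involved in it. -/
theorem result {p : ℕ} [Fact p.Prime] (hp : p ≠ 2) (n : ℕ) : ((∃ H : Subgroup (alternatingGroup (Fin n)), Nonempty (↥H ≃* ↥(Cfsg.qd p))) ↔ p ^ 2 ≤ n) ∧ (n < p ^ 2 → ¬ Cfsg.Involves ↥(Cfsg.qd p) ↥(alternatingGroup (Fin n))) := by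
  have key : n < p ^ 2 → ¬ H17.Sec (Cfsg.qd p) (alternatingGroup (Fin n)) := fun h h' =>
    H03.not_sec_qd_of_comm (fun Q hQ => H03.comm_of_isPGroup_perm (by simpa using h) hQ) h'.of_subgroup
  refine ⟨⟨fun ⟨H, ⟨e⟩⟩ => not_lt.1 fun h => key h ⟨H, e.toMonoidHom, e.surjective⟩, fun h => ?_⟩,
    fun h h' => key h (H17.sec_iff_involves.2 h')⟩
  classical
  obtain ⟨ι⟩ : Nonempty ((Fin 2 → ZMod p) ↪ Fin n) := Function.Embedding.nonempty_of_card_le (by simpa using h)
  let f := (Equiv.Perm.viaEmbeddingHom ι).comp (MulAction.toPermHom (H03.QA (ZMod p)) (Fin 2 → ZMod p))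
  have hf : Function.Injective f := (Equiv.Perm.viaEmbeddingHom_injective ι).comp H03.QA.toPermHom_inj
  have h1 : (alternatingGroup (Fin n)).comap f = ⊤ := H03.QA.eq_top_of_normal fun x hx => by
    obtain ⟨S, hS⟩ := H03.QA.exists_sylow_S0 (p := p)
    obtain ⟨k, hk⟩ := H26.isPGroup_iff_mem.1 S.2 x (hS.ge hx)
    have h2 := congrArg (fun y => Equiv.Perm.sign (f y)) hk
    simp only [map_pow, map_one] at h2
    rcases Int.units_eq_one_or (Equiv.Perm.sign (f x)) with h3 | h3
    · exact h3
    · rw [h3, (((Fact.out : p.Prime).odd_of_ne_two hp).pow).neg_one_pow] at h2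
      exact absurd h2 (by decide)
  let g := f.codRestrict (alternatingGroup (Fin n)) fun x => (h1.ge (Subgroup.mem_top x) :)
  have hg : Function.Injective g := fun a b h => hf (congrArg Subtype.val h)
  exact ⟨g.range, ⟨(MonoidHom.ofInjective hg).symm.trans (H03.QA.equivP p)⟩⟩

end Cfsg.Agent.S3835
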