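import Mathlib
import Cfsg.Statements.S3838
import Cfsg.Agent.H03.Frobenius
import Cfsg.Agent.H03.Tate
import Cfsg.Agent.H04.Frattini
import Cfsg.Agent.H26.CharP

set_option autoImplicit false
open Cfsg

namespace Cfsg.Agent.S3838

open H03 Subgroup in
theorem aux {G : Type*} [Group G] [Finite G] {p : ℕ} [Fact p.Prime] (P : Sylow p G)
    (hN : Cfsg.HasNormalPComplement p (normalizer ((P : Subgroup G) : Set G))) (Q : Subgroup G) [Q.Normal]
    (h1 : ⁅(P : Subgroup G), (P : Subgroup G)⁆ ≤ Q)
    (h2 : Q ≤ (frattini (P : Subgroup G)).map (P : Subgroup G).subtype) :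
    Cfsg.HasNormalPComplement p G := by
  have hs := QuotientGroup.mk'_surjective Q
  have hQP : Q ≤ P := h2.trans (map_subtype_le _)
  have hq : Cfsg.HasNormalPComplement p (G ⧸ Q) := by
    refine hasNPC_of_normalizer_le_centralizer (P.mapSurjective hs) fun x hx => ?_
    obtain ⟨x, rfl⟩ := hs x
    have hx' : x ∈ normalizer ((P : Subgroup G) : Set G) := by
      refine mem_normalizer_of_conj_le fun a ha => ?_
      have := conj_mem_of_mem_normalizer (K := (P : Subgroup G).map (QuotientGroup.mk' Q)) hx
        (mem_map_of_mem _ ha)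
      rw [← map_inv, ← map_mul, ← map_mul, ← mem_comap, comap_map_eq, QuotientGroup.ker_mk',
        sup_eq_left.mpr hQP] at this
      exact this
    have h0 : ¬ p ∣ (P : Subgroup G).relIndex (normalizer ((P : Subgroup G) : Set G)) :=
      not_dvd_relIndex_of_le P le_normalizer
    obtain ⟨y, hy, c, hc, rfl⟩ := exists_mul_centralizer_of_coprime_centralizes h0
      (fun g hg hco => centralizes_of_hasNPC_normalizer P.2 hN hg hco) hx'
    rintro _ ⟨a, ha, rfl⟩
    have e : QuotientGroup.mk' Q a * QuotientGroup.mk' Q y = QuotientGroup.mk' Q y * QuotientGroup.mk' Q a := by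
      rw [← commutatorElement_eq_one_iff_mul_comm, ← map_commutatorElement]
      exact (QuotientGroup.eq_one_iff _).mpr (h1 (commutator_mem_commutator ha hy.1))
    rw [map_mul, mul_assoc, ← map_mul _ c, ← hc a ha, map_mul, ← mul_assoc, ← mul_assoc, e]
  refine hasNPC_of_pResidual_le _ le_rfl (hasNPC_of_inf_le_frattini P _ ?_)
  rw [inf_comm]
  exact (inf_pResidual_le_of_hasNPC_quotient Q hq P.2).trans h2

/-- Let G be a finite group with Sylow p-subgroup P such that N_G(P) has a normal p-complement. Then N_G(Q) has a normal p-complement for every subgroup Q with [P, P] ≤ Q ≤ Φ(P). -/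
theorem result {G : Type*} [Group G] [Finite G] {p : ℕ} [Fact p.Prime] (P : Sylow p G) (hN : Cfsg.HasNormalPComplement p ↥(Subgroup.normalizer ((P : Subgroup G) : Set G))) (Q : Subgroup G) (h1 : (commutator ↥(P : Subgroup G)).map (P : Subgroup G).subtype ≤ Q) (h2 : Q ≤ (frattini ↥(P : Subgroup G)).map (P : Subgroup G).subtype) : Cfsg.HasNormalPComplement p ↥(Subgroup.normalizer (Q : Set G)) := by
  rw [Subgroup.map_subtype_commutator] at h1
  have hQP : Q ≤ P := h2.trans (Subgroup.map_subtype_le _)
  have hP : (P : Subgroup G) ≤ Subgroup.normalizer (Q : Set G) :=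
    H26.le_normalizer_of_commutator_le ((Subgroup.commutator_mono hQP le_rfl).trans h1)
  refine aux (P.subtype hP) ?_ (Q.subgroupOf _) ?_ ?_
  · have := H03.HasNPC.of_le hN (inf_le_right : Subgroup.normalizer (Q : Set G) ⊓ _ ≤ _)
    rw [← H03.hasNPC_map_iff _ (Subgroup.subtype_injective _), H26.map_subtype_normalizer]
    rwa [Sylow.coe_subtype, Subgroup.subgroupOf_map_subtype, inf_eq_left.mpr hP]
  · rw [Subgroup.subgroupOf, ← Subgroup.map_le_iff_le_comap, Subgroup.map_commutator, Sylow.coe_subtype,
      Subgroup.subgroupOf_map_subtype, inf_eq_left.mpr hP]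
    exact h1
  · intro x hx
    obtain ⟨y, hy, hxy⟩ := h2 hx
    have := H04.map_frattini_le (p := p) (H := (P : Subgroup G).subgroupOf _) (P.subtype hP).2
      (Subgroup.subgroupOfEquivOfLe hP).symm.toMonoidHom (Subgroup.mem_map_of_mem _ hy)
    exact ⟨_, this, Subtype.ext hxy⟩

end Cfsg.Agent.S3838
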