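import Mathlib
import Cfsg.Statements.S3839
import Cfsg.Agent.H03.Ctl
import Cfsg.Agent.H26.Misc

set_option autoImplicit false
open Cfsg

namespace Cfsg.Agent.S3839

open H03 H26 Subgroup in
theorem aux {G : Type*} [Group G] [Finite G] {p : ℕ} [Fact p.Prime] (S : Sylow p G) (D : Subgroup G)
    (hD : Cfsg.IsStronglyClosed D (S : Subgroup G))
    (h : ∀ U : Subgroup G, U ≤ D → D ⊓ centralizer (U : Set G) ≤ U →
      Cfsg.HasNormalPComplement p (normalizer (U : Set G)))
    (A : Subgroup G) (g : G) (hA : A ≤ S) (hg : ∀ a ∈ A, g * a * g⁻¹ ∈ S) : ActM S A g := by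
  refine alperin_centric S (ActM S) (fun A B g h hB => hB.mono h) (fun A g h h1 h2 => h1.mul h2)
    (fun A _ c hc => ActM.of_cent hc) ?_ A g hA hg
  intro E hE hEc hN _ ih x hx
  have hSD : (S : Subgroup G) ≤ normalizer (D : Set G) := fun s hs =>
    mem_normalizer_of_conj_le fun d hd => hD.2 d hd s (mul_mem (mul_mem hs (hD.1 hd)) (inv_mem hs))
  have hU : normalizer (E : Set G) ≤ normalizer ((D ⊓ E : Subgroup G) : Set G) := fun y hy =>
    mem_normalizer_of_conj_le fun u hu =>
      ⟨hD.2 u hu.1 y (hE (conj_mem_of_mem_normalizer hy hu.2)), conj_mem_of_mem_normalizer hy hu.2⟩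
  by_cases hc : D ⊓ centralizer ((D ⊓ E : Subgroup G) : Set G) ≤ D ⊓ E
  · obtain ⟨y, hy, c, hc, rfl⟩ := exists_mul_centralizer_of_coprime_centralizes hN (fun g hg hco =>
      centralizes_of_hasNPC_normalizer (S.2.to_le hE) (HasNPC.of_le (h _ inf_le_left hc) hU) hg hco) hx
    exact (ActM.of_mem hy.1).mul_cent hc
  set U := D ⊓ E with hUd
  set K := normalizer (E : Set G) ⊓ (centralizer (U : Set G) ⊓ commKer E U) with hK
  obtain ⟨y, hy, c, hc', rfl⟩ := (exists_radical_step S (K := K) hN inf_le_left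
    (le_normalizer_inf le_normalizer (le_normalizer_inf (le_normalizer_centralizer hU)
      (le_normalizer_commKer le_rfl hU)))
    (fun y hy hco => mem_centralizer_of_two_step (S.2.to_le (inf_le_right.trans hE)) hco
      hy.2.2.2 hy.2.1)).2 x hx
  refine ActM.mul_cent (ActM.mono (B := E ⊔ ((S : Subgroup G) ⊓ K)) le_sup_left ?_) hc'
  have hy' : y ∈ normalizer ((E ⊔ ((S : Subgroup G) ⊓ K) : Subgroup G) : Set G) :=
    le_normalizer_sup inf_le_left inf_le_right hy
  refine ih _ y (sup_le hE inf_le_left) (card_lt_card_of_lt (left_lt_sup.mpr fun hle => hc ?_))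
    fun b hb => sup_le hE inf_le_left (conj_mem_of_mem_normalizer hy' hb)
  set X := D ⊓ centralizer (U : Set G) with hX
  have hEX : E ≤ normalizer (X : Set G) :=
    le_normalizer_inf (hE.trans hSD) (le_normalizer_centralizer (le_normalizer.trans hU))
  have hXS : X ≤ S := inf_le_left.trans hD.1
  refine le_inf inf_le_left (le_sup_right.trans (le_of_inf_normalizer_le
    (S.2.to_le (sup_le hE hXS)) le_sup_left ?_))
  rw [inf_comm, inf_sup_eq_of_le_normalizer hEX le_normalizer]
  refine sup_le le_rfl fun z hz => hle ⟨hXS hz.2, hz.1, hz.2.2, hU hz.1, fun v hv => ⟨?_, ?_⟩⟩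
  · exact commutatorElement_mem_of_mem_normalizer' (hSD (hE hv)) hz.2.1
  · exact commutatorElement_mem_of_mem_normalizer hz.1 hv

/-- A Frobenius normal p-complement criterion relative to a strongly closed subgroup. Let G be a finite group, S a Sylow p-subgroup and D a subgroup of S strongly closed in S with respect to G. Then G has a normal p-complement if and only if N_G(U) has a normal p-complement for every subgroup U of D with C_D(U) ≤ U. -/
theorem result {G : Type*} [Group G] [Finite G] {p : ℕ} [Fact p.Prime] (S : Sylow p G) (D : Subgroup G) (hD : Cfsg.IsStronglyClosed D (S : Subgroup G)) : Cfsg.HasNormalPComplement p G ↔ ∀ U : Subgroup G, U ≤ D → D ⊓ Subgroup.centralizer (U : Set G) ≤ U → Cfsg.HasNormalPComplement p ↥(Subgroup.normalizer (U : Set G)) := by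
  refine ⟨fun h U _ _ => H03.HasNPC.subgroup h _, fun h => ?_⟩
  refine H03.hasNPC_of_sylow_controls_fusion S fun x hx g hg => ?_
  obtain ⟨v, hv, h2⟩ := aux S D hD h (Subgroup.zpowers x) g (Subgroup.zpowers_le.mpr hx) (by
    rintro _ ⟨k, rfl⟩
    rw [← conj_zpow]; exact zpow_mem hg k)
  exact ⟨v, hv, h2 x (Subgroup.mem_zpowers x)⟩

end Cfsg.Agent.S3839
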