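import Mathlib
import Cfsg.Statements.S3857
import Cfsg.Agent.H16.TwoFrob
import Cfsg.Agent.H23.S16a

set_option autoImplicit false
open Cfsg

namespace Cfsg.Agent.S3857

open BG Subgroup H16

/-- A finite solvable group whose prime graph (prime divisors of the order, two distinct primes joined when there is an element of order their product) is disconnected is a Frobenius group or a 2-Frobenius group (it has normal subgroups H < K with K a Frobenius group with kernel H and G/H a Frobenius group with kernel K/H). -/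
theorem result {G : Type*} [Group G] [Finite G] (hsol : Group.IsSolvable G)
    (hdisc : (∃ A : Set ℕ, (∃ a ∈ A, a.Prime ∧ a ∣ Nat.card G) ∧ (∃ b ∉ A, b.Prime ∧ b ∣ Nat.card G) ∧
      ∀ a ∈ A, ∀ b ∉ A, a.Prime → b.Prime → a ∣ Nat.card G → b ∣ Nat.card G → ¬ ∃ g : G, orderOf g = a * b)) :
    (∃ C : Subgroup G, Cfsg.IsFrobeniusComplement C) ∨
    (∃ (H K : Subgroup G) (_ : H.Normal), K.Normal ∧ H < K ∧
      (∃ C : Subgroup ↥K, Cfsg.IsFrobeniusComplement C ∧ Cfsg.frobeniusKernel C = (H.subgroupOf K : Set ↥K)) ∧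
      (∃ C : Subgroup (G ⧸ H), Cfsg.IsFrobeniusComplement C ∧ Cfsg.frobeniusKernel C = (K.map (QuotientGroup.mk' H) : Set (G ⧸ H)))) := by
  obtain ⟨A, ⟨a, haA, ha, had⟩, ⟨b, hbA, hb, hbd⟩, hA⟩ := hdisc
  have hmix : NoMix A G := by
    intro g p q hp hq hpA hqA h1 h2
    have hne : p ≠ q := fun h => hqA (h ▸ hpA)
    exact hA p hpA q hqA hp hq (h1.trans (orderOf_dvd_natCard g)) (h2.trans (orderOf_dvd_natCard g))
      (exists_orderOf_eq_of_dvd g (Nat.Coprime.mul_dvd_of_dvd_of_dvd ((Nat.coprime_primes hp hq).2 hne) h1 h2))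
  rcases hmix.frob_or_twoFrob hsol ⟨a, ha, haA, had⟩ ⟨b, hb, hbA, hbd⟩ with ⟨K, C, h⟩ | ⟨H, B, C, h⟩
  · exact Or.inl ⟨C, (isFrob_of_frob_top h).1⟩
  · right
    have := h.normal
    refine ⟨H, H ⊔ B, this, h.normal_sup, lt_of_le_of_ne le_sup_left fun h0 => h.frob1.compl_ne ?_,
      ⟨_, H23.frob_bridge h.frob1⟩, _, isFrob_of_frob_top h.frob_quot⟩
    rw [eq_bot_iff, ← h.frob1.sd.disj]
    exact le_inf (le_sup_right.trans h0.ge) le_rfl

end Cfsg.Agent.S3857
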