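import Mathlib
import Cfsg.Statements.S3859
import Cfsg.Agent.H02.Frattini
import Cfsg.Agent.H03.Fusion
import Cfsg.Agent.H03.PResidual
import Cfsg.Agent.H01.Coprime2

set_option autoImplicit false
open Cfsg

namespace Cfsg.Agent.S3859

theorem aux {G : Type*} [Group G] [Finite G] (T : Subgroup G) [T.Normal] (hT : IsSimpleGroup T)
    (hna : ¬ IsMulCommutative T) {r : ℕ} [Fact r.Prime] (R : Sylow r G)
    (hR0 : (R : Subgroup G) ⊓ T ≠ ⊥) :
    Subgroup.normalizer (((R : Subgroup G) ⊓ T : Subgroup G) : Set G) ≠ ⊤ := by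
  intro h
  haveI := Subgroup.normalizer_eq_top_iff.1 h
  rcases hT.eq_bot_or_eq_top_of_normal (((R : Subgroup G) ⊓ T).subgroupOf T) inferInstance with h | h
  · rw [Subgroup.subgroupOf_eq_bot] at h
    exact hR0 (by simpa using h.eq_bot)
  · have h1 : IsPGroup r T := R.isPGroup'.to_le ((Subgroup.subgroupOf_eq_top.1 h).trans inf_le_left)
    haveI := h1.isNilpotent
    exact hna (IsSimpleGroup.comm_iff_isSolvable.2 inferInstance |> fun h => ⟨⟨h⟩⟩)

/-- Let G be a finite group with a normal non-abelian simple subgroup T whose centralizer is trivial (G almost simple with socle T), r a prime and R a Sylow r-subgroup of G meeting T nontrivially. If R lies in exactly one maximal subgroup of G, then G/T is an r-group. -/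
theorem result {G : Type*} [Group G] [Finite G] (T : Subgroup G) [T.Normal] (hT : IsSimpleGroup T) (hna : ¬ IsMulCommutative T)
    (hC : Subgroup.centralizer (T : Set G) = ⊥) {r : ℕ} [Fact r.Prime] (R : Sylow r G) (hR0 : (R : Subgroup G) ⊓ T ≠ ⊥)
    (huniq : ∃! M : Subgroup G, IsCoatom M ∧ (R : Subgroup G) ≤ M) : IsPGroup r (G ⧸ T) := by
  obtain ⟨M, ⟨hM, -⟩, hu⟩ := huniq
  have h1 : (R : Subgroup G) ⊔ T = ⊤ := by
    by_contra hc
    obtain ⟨M1, h1, h2⟩ := H02.exists_coatom_ge hc
    obtain ⟨M2, h3, h4⟩ := H02.exists_coatom_ge (aux T hT hna R hR0)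
    have e1 := hu M1 ⟨h1, le_sup_left.trans h2⟩
    have e2 := hu M2 ⟨h3, (H01.le_normalizer_inf Subgroup.le_normalizer
      (H01.le_normalizer_of_normal _ T)).trans h4⟩
    have h5 := H02.frattini_argument (H03.sylowInf _ R.isPGroup' T (H03.not_dvd_relIndex_inf_normal R T))
    rw [H03.coe_sylowInf, Subgroup.subgroupOf_map_subtype] at h5
    exact hM.1 (eq_top_iff.2 (h5 ▸ sup_le (e2 ▸ h4) (e1 ▸ le_sup_right.trans h2)))
  have := (R.isPGroup'.map (QuotientGroup.mk' T))
  have h2 : (R : Subgroup G).map (QuotientGroup.mk' T) = ⊤ := by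
    rw [← (Subgroup.comap_injective (QuotientGroup.mk'_surjective T)).eq_iff, Subgroup.comap_map_eq,
      QuotientGroup.ker_mk', h1, Subgroup.comap_top]
  rw [h2] at this
  exact this.of_equiv Subgroup.topEquiv

end Cfsg.Agent.S3859
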