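import Mathlib
import Cfsg.Statements.S3858
import Cfsg.Agent.S3859
import Cfsg.Agent.H27.ClassSize
import Cfsg.Agent.H02.Schmidt

set_option autoImplicit false
open Cfsg

namespace Cfsg.Agent.S3858

/-- Let G be a finite group with a normal non-abelian simple subgroup T whose centralizer is trivial (G almost simple with socle T), r a prime and R a Sylow r-subgroup of G meeting T nontrivially. Then R lies in exactly one maximal subgroup of G if and only if G has exactly one conjugacy class of maximal subgroups whose index is prime to r. -/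
theorem result {G : Type*} [Group G] [Finite G] (T : Subgroup G) [T.Normal] (hT : IsSimpleGroup T) (hna : ¬ IsMulCommutative T)
    (hC : Subgroup.centralizer (T : Set G) = ⊥) {r : ℕ} [Fact r.Prime] (R : Sylow r G) (hR0 : (R : Subgroup G) ⊓ T ≠ ⊥) :
    (∃! M : Subgroup G, IsCoatom M ∧ (R : Subgroup G) ≤ M) ↔
      ((∃ M : Subgroup G, IsCoatom M ∧ ¬ r ∣ M.index) ∧
        ∀ M₁ M₂ : Subgroup G, IsCoatom M₁ → ¬ r ∣ M₁.index → IsCoatom M₂ → ¬ r ∣ M₂.index → ∃ g : G, M₂ = M₁.map (MulAut.conj g).toMonoidHom) := by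
  constructor
  · rintro ⟨M, ⟨hM, hR⟩, hu⟩
    refine ⟨⟨M, hM, H03.not_dvd_index_of_le R hR⟩, ?_⟩
    have key : ∀ M₁ : Subgroup G, IsCoatom M₁ → ¬ r ∣ M₁.index →
        ∃ g : G, M = M₁.map (MulAut.conj g).toMonoidHom := by
      intro M₁ h1 h2
      obtain ⟨S, hS⟩ := H27.exists_sylow_le_iff.2 h2
      obtain ⟨g, rfl⟩ := MulAction.exists_smul_eq G S R
      exact ⟨g, (hu _ ⟨H02.isCoatom_smul h1 g, Subgroup.map_mono hS⟩).symm⟩
    intro M₁ M₂ h1 h2 h3 h4
    obtain ⟨g, e⟩ := key M₁ h1 h2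
    obtain ⟨g', e'⟩ := key M₂ h3 h4
    refine ⟨g'⁻¹ * g, ?_⟩
    rw [← H03.map_conj_map_conj, ← e, e', H03.map_conj_map_conj, inv_mul_cancel, H03.map_conj_one]
  · rintro ⟨-, h⟩
    have hN : Subgroup.normalizer (R : Set G) ≠ ⊤ := fun ht => S3859.aux T hT hna R hR0 (by
      haveI : (R : Subgroup G).Normal := Subgroup.normalizer_eq_top_iff.1 ht
      exact Subgroup.normalizer_eq_top _)
    obtain ⟨M, hM, hle⟩ := H02.exists_coatom_ge hN
    have hR : (R : Subgroup G) ≤ M := Subgroup.le_normalizer.trans hle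
    refine ⟨M, ⟨hM, hR⟩, fun M₁ ⟨h1, h2⟩ => ?_⟩
    obtain ⟨g, e⟩ := h M M₁ hM (H03.not_dvd_index_of_le R hR) h1 (H03.not_dvd_index_of_le R h2)
    obtain ⟨c, hc, hgc⟩ := H03.exists_mul_mem_normalizer_sylow R hR (g := g)
      (fun x hx => H03.mem_map_conj.1 (e ▸ h2 hx))
    have hg : g ∈ M := by simpa using mul_mem (hle hgc) (inv_mem hc)
    rw [e, H03.map_conj_eq_iff_mem_normalizer.2 (Subgroup.le_normalizer hg)]

end Cfsg.Agent.S3858
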