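import Mathlib
import Cfsg.Statements.S3864
import Cfsg.Agent.H08.Dih
import Cfsg.Agent.H03.NPC3
import Cfsg.Agent.H08.BrauerSuzuki
import Cfsg.Agent.H04.TwoGroups

set_option autoImplicit false
open Cfsg

namespace Cfsg.Agent.S3864

section
open Subgroup H08
variable {G : Type*} [Group G] [Finite G] {P : Sylow 2 G} {σ τ t : G} {m : ℕ}
  (h : Dih (P : Subgroup G) σ τ t (m + 1))
include h

omit [Finite G] in
theorem nm' : σ * τ ∉ zpowers σ := fun h' => h.nm ((mul_mem_cancel_left (mem_zpowers σ)).mp h')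

omit [Finite G] in
theorem conj_sq (k : ℤ) : σ ^ k * τ * (σ ^ k)⁻¹ = σ ^ (2 * k) * τ := by
  rw [← zpow_neg, mul_assoc, mul_zpow_of_inv h.rel, neg_neg, ← mul_assoc, ← zpow_add, two_mul]

omit [Finite G] in
theorem refl_cases {x : G} (hx : x ∈ (P : Subgroup G)) (hx' : x ∉ zpowers σ) :
    ∃ k : ℤ, x = σ ^ k * τ * (σ ^ k)⁻¹ ∨ x = σ ^ k * (σ * τ) * (σ ^ k)⁻¹ := by
  obtain ⟨i, hi⟩ := ((h.mem x).mp hx).resolve_left hx'
  have hx2 : x = σ ^ i * τ := by
    rw [show σ ^ i = x * τ from hi, mul_assoc, h.sq, mul_one]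
  obtain ⟨k, rfl | rfl⟩ := Int.even_or_odd' i
  · exact ⟨k, Or.inl (by rw [conj_sq h, hx2])⟩
  · refine ⟨k, Or.inr ?_⟩
    rw [show σ ^ k * (σ * τ) * (σ ^ k)⁻¹ = σ * (σ ^ k * τ * (σ ^ k)⁻¹) by group, conj_sq h, hx2]
    group

theorem classes : Nat.card {C : ConjClasses G // ∃ g : G, ConjClasses.mk g = C ∧ orderOf g = 2} =
    Set.ncard ({ConjClasses.mk t, ConjClasses.mk τ, ConjClasses.mk (σ * τ)} : Set (ConjClasses G)) := by
  rw [← Nat.card_coe_set_eq]
  refine Nat.card_congr (Equiv.subtypeEquivRight fun C => ⟨?_, ?_⟩)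
  · rintro ⟨u, rfl, hu⟩
    obtain ⟨g, hg⟩ := H27.exists_conj_mem_sylow P (x := u) ⟨1, hu⟩
    have h1 : ConjClasses.mk u = ConjClasses.mk (g * u * g⁻¹) :=
      ConjClasses.mk_eq_mk_iff_isConj.mpr (isConj_iff.mpr ⟨g, rfl⟩)
    have h2 : orderOf (g * u * g⁻¹) = 2 := (orderOf_conj' g u).trans hu
    rw [h1]
    by_cases h3 : g * u * g⁻¹ ∈ zpowers σ
    · rw [(h.eq_t h3 (mul_self_of_orderOf h2)).resolve_left (ne_one_of_orderOf h2)]
      exact Or.inl rfl
    · obtain ⟨k, hk | hk⟩ := refl_cases h hg h3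
      · exact Or.inr (Or.inl (ConjClasses.mk_eq_mk_iff_isConj.mpr (isConj_iff.mpr ⟨_, hk.symm⟩).symm))
      · exact Or.inr (Or.inr (ConjClasses.mk_eq_mk_iff_isConj.mpr (isConj_iff.mpr ⟨_, hk.symm⟩).symm))
  · rintro (rfl | rfl | rfl)
    · exact ⟨t, rfl, h.ht⟩
    · exact ⟨τ, rfl, h.ord_τ⟩
    · exact ⟨_, rfl, h.ord_not (mul_mem h.σ_mem h.τ_mem) (nm' h)⟩

omit [Finite G] in
theorem sq_mem {N : Subgroup G} (hN : commutator G ≤ N) : σ ^ 2 ∈ N ∧ t ∈ N := by
  have h1 : σ ^ 2 ∈ N := by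
    have : σ ^ 2 = σ * τ * σ⁻¹ * τ⁻¹ := by
      rw [mul_assoc, mul_assoc, ← mul_assoc τ, ← conj_inv, h.rel, inv_inv, sq]
    rw [this]
    exact hN (commutator_mem_commutator (mem_top σ) (mem_top τ))
  exact ⟨h1, by rw [h.t_eq, pow_succ', pow_mul]; exact N.pow_mem h1 _⟩

omit h in
theorem comm_le {N : Subgroup G} [N.Normal] (hN : N.index ∣ 2 ^ 2) : commutator G ≤ N := by
  rw [← Normal.quotient_commutative_iff_commutator_le]
  obtain ⟨k, hk, he⟩ := (Nat.dvd_prime_pow Nat.prime_two).mp hN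
  rw [index_eq_card] at he
  interval_cases k
  · have := (Nat.card_eq_one_iff_unique.mp he).1
    exact ⟨⟨fun a b => Subsingleton.elim _ _⟩⟩
  · have := isCyclic_of_prime_card (p := 2) he
    exact IsCyclic.isMulCommutative
  · exact IsPGroup.isMulCommutative_of_card_eq_prime_sq he

theorem dvd_two {N : Subgroup G} [hn : N.Normal] (hN : N.index ∣ 2 ^ 2) (hτ : τ ∈ N) : N.index ∣ 2 := by
  obtain ⟨k, hk, he⟩ := (Nat.dvd_prime_pow Nat.prime_two).mp hN
  have h1 := H03.sylow_sup_eq_top_of_isPGroup_quotient N (IsPGroup.of_card he) P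
  have h2 := (sq_mem h (comm_le hN)).1
  refine index_dvd_two_iff.mpr ⟨σ, fun g => ?_⟩
  obtain ⟨n, hn', x, hx, rfl⟩ := (H26.mem_sup_of_le_normalizer' (H := (P : Subgroup G))
    (by rw [normalizer_eq_top]; exact le_top)).mp (h1.ge (mem_top g))
  rw [mul_assoc, mul_mem_cancel_left hn', mul_mem_cancel_left hn']
  by_cases h3 : x ∈ zpowers σ
  · obtain ⟨i, rfl⟩ := h3
    obtain ⟨k, rfl | rfl⟩ := Int.even_or_odd' i
    · right; simp only; rw [zpow_mul, zpow_ofNat]; exact N.zpow_mem h2 k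
    · left; simp only
      rw [← zpow_add_one, show 2 * k + 1 + 1 = 2 * (k + 1) by ring, zpow_mul, zpow_ofNat]
      exact N.zpow_mem h2 _
  · obtain ⟨k, rfl | rfl⟩ := refl_cases h hx h3
    · exact Or.inr (hn.conj_mem _ hτ _)
    · left
      rw [show σ ^ k * (σ * τ) * (σ ^ k)⁻¹ * σ = σ ^ (k + 1) * τ * (σ ^ (k + 1))⁻¹ * σ ^ 2 by group]
      exact mul_mem (hn.conj_mem _ hτ _) h2

theorem exists_two (h1 : ¬ IsConj t τ) : ∃ M : Subgroup G, M.Normal ∧ M.index = 2 ∧ τ ∉ M := by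
  refine H03.thompson_transfer P.not_dvd_index h.relIndex τ h.ord_τ fun g hg => h1 ?_
  have h2 : orderOf (g * τ * g⁻¹) = 2 := (orderOf_conj' g τ).trans h.ord_τ
  rw [← (h.eq_t hg (mul_self_of_orderOf h2)).resolve_left (ne_one_of_orderOf h2)]
  exact (isConj_iff.mpr ⟨g, rfl⟩).symm

omit h [Finite G] in
theorem mem_of_isConj {N : Subgroup G} [hn : N.Normal] {x y : G} (hxy : IsConj x y) (hx : x ∈ N) : y ∈ N := by
  obtain ⟨g, rfl⟩ := isConj_iff.mp hxy
  exact hn.conj_mem _ hx _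

theorem two (h1 : IsConj t τ) (h2 : ¬ IsConj t (σ * τ)) :
    Nat.card {C : ConjClasses G // ∃ g : G, ConjClasses.mk g = C ∧ orderOf g = 2} = 2 ∧
      (∃ N : Subgroup G, N.Normal ∧ N.index = 2) ∧ ∀ N : Subgroup G, N.Normal → N.index ≠ 4 := by
  refine ⟨?_, ?_, fun N hn hN => ?_⟩
  · rw [classes h, ← ConjClasses.mk_eq_mk_iff_isConj.mpr h1, Set.insert_eq_of_mem (Set.mem_insert _ _)]
    exact Set.ncard_pair (mt ConjClasses.mk_eq_mk_iff_isConj.mp h2)
  · obtain ⟨M, h3, h4, -⟩ := exists_two (h.change (mul_mem h.σ_mem h.τ_mem) (nm' h)) h2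
    exact ⟨M, h3, h4⟩
  · have := dvd_two h (N := N) (by rw [hN]; norm_num) (mem_of_isConj h1 (sq_mem h (comm_le (by rw [hN]; norm_num))).2)
    rw [hN] at this
    exact absurd this (by norm_num)

end

/-- Let G be a finite group whose Sylow 2-subgroups are dihedral of order 2 ^ n with n ≥ 3, and count the conjugacy classes of involutions of G. Then exactly one of the following holds: there is one class of involutions and no normal subgroup of index 2; there are two classes of involutions, a normal subgroup of index 2 and none of index 4; there are three classes of involutions and G has a normal 2-complement. -/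
theorem result {G : Type*} [Group G] [Finite G] (P : Sylow 2 G) (n : ℕ) (hn : 3 ≤ n) (hdih : Nonempty (↥(P : Subgroup G) ≃* DihedralGroup (2 ^ (n - 1)))) : (Nat.card {C : ConjClasses G // ∃ g : G, ConjClasses.mk g = C ∧ orderOf g = 2} = 1 ∧ ∀ N : Subgroup G, N.Normal → N.index ≠ 2) ∨ (Nat.card {C : ConjClasses G // ∃ g : G, ConjClasses.mk g = C ∧ orderOf g = 2} = 2 ∧ (∃ N : Subgroup G, N.Normal ∧ N.index = 2) ∧ ∀ N : Subgroup G, N.Normal → N.index ≠ 4) ∨ (Nat.card {C : ConjClasses G // ∃ g : G, ConjClasses.mk g = C ∧ orderOf g = 2} = 3 ∧ Cfsg.HasNormalPComplement 2 G) := by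
  open Subgroup H08 in
  obtain ⟨e⟩ := hdih
  obtain ⟨k, rfl⟩ := Nat.exists_eq_add_of_le' hn
  obtain ⟨σ, τ, t, m, hm, h⟩ := exists_dih P.2 (Nat.le_self_pow (by omega) 2) e
  obtain rfl : m = k + 1 := by have := Nat.pow_right_injective le_rfl hm; omega
  have h' := h.change (mul_mem h.σ_mem h.τ_mem) (nm' h)
  have hc : IsConj τ (σ * (σ * τ)) := isConj_iff.mpr ⟨σ, by
    have := conj_sq h 1
    rw [zpow_one] at this
    rw [this, mul_one, zpow_two, mul_assoc]⟩
  by_cases h1 : IsConj t τ <;> by_cases h2 : IsConj t (σ * τ)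
  · refine Or.inl ⟨?_, fun N hn hN => ?_⟩
    · rw [classes h, ← ConjClasses.mk_eq_mk_iff_isConj.mpr h1, ← ConjClasses.mk_eq_mk_iff_isConj.mpr h2]
      simp
    · have ht := (sq_mem h (comm_le (N := N) (by rw [hN]; norm_num))).2
      have h3 := mem_of_isConj h1 ht
      refine H03.not_dvd_index_of_le P (C := N) ?_ (by rw [hN])
      rw [h.eq_closure, closure_le]
      rintro _ (rfl | rfl)
      · exact (mul_mem_cancel_right h3).mp (mem_of_isConj h2 ht)
      · exact h3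
  · exact Or.inr (Or.inl (two h h1 h2))
  · exact Or.inr (Or.inl (two h' h2 fun h3 => h1 (h3.trans hc.symm)))
  obtain ⟨M, hM, hM2, hM3⟩ := exists_two h h1
  obtain ⟨L, hL, hL2, hL3⟩ := exists_two h' h2
  have hq : ∀ N : Subgroup G, ∀ _ : N.Normal, N.index = 2 → pResidual 2 G ≤ N := fun N _ hN =>
    H03.pResidual_le_of_index N (k := 1) hN
  have hN : Cfsg.HasNormalPComplement 2 G := by
    refine H03.hasNPC_of_pResidual_le (M ⊓ L) (le_inf (hq M hM hM2) (hq L hL hL2)) ?_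
    have : IsCyclic (H03.sylowInf (P : Subgroup G) P.2 (M ⊓ L) (H03.not_dvd_relIndex_inf_normal P _)) := by
      have : IsCyclic ((zpowers σ).subgroupOf (M ⊓ L)) := H04.isCyclic_subgroupOf inferInstance _
      refine isCyclic_of_le (H' := (zpowers σ).subgroupOf (M ⊓ L)) fun x hx => ?_
      by_contra h3
      obtain ⟨k, hk | hk⟩ := refl_cases h hx h3
      · exact hM3 (mem_of_isConj (isConj_iff.mpr ⟨_, hk.symm⟩).symm x.2.1)
      · exact hL3 (mem_of_isConj (isConj_iff.mpr ⟨_, hk.symm⟩).symm x.2.2)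
    exact hasNPC_of_isCyclic (H03.sylowInf (P : Subgroup G) P.2 (M ⊓ L) (H03.not_dvd_relIndex_inf_normal P _))
  refine Or.inr (Or.inr ⟨?_, hN⟩)
  rw [classes h]
  refine Set.ncard_eq_three.mpr ⟨_, _, _, mt ConjClasses.mk_eq_mk_iff_isConj.mp h1,
    mt ConjClasses.mk_eq_mk_iff_isConj.mp h2, fun h3 => ?_, rfl⟩
  obtain ⟨g, hg⟩ := isConj_iff.mp (ConjClasses.mk_eq_mk_iff_isConj.mp h3)
  obtain ⟨v, hv, hv'⟩ := H03.HasNPC.exists_conj_sylow hN P g
  have h4 := (hv' τ h.τ_mem (hg ▸ mul_mem h.σ_mem h.τ_mem)).trans hg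
  have key : ∀ k : ℤ, σ ^ k * τ * (σ ^ k)⁻¹ ≠ σ * τ := by
    intro j hj
    rw [conj_sq h, mul_left_inj] at hj
    have := H04.dvd_of_zpow_eq_zpow h.ord (hj.trans (zpow_one σ).symm)
    push_cast at this
    have := (Dvd.intro_left _ (pow_succ (2 : ℤ) (k + 1)).symm).trans this
    omega
  rcases (h.mem v).mp hv with ⟨j, hj⟩ | ⟨j, hj⟩
  · exact key j (by rw [show σ ^ j = v from hj, h4])
  · refine key j ?_
    rw [show σ ^ j = v * τ from hj, ← h4]
    group

end Cfsg.Agent.S3864
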