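import Mathlib
import Cfsg.Statements.S3866
import Cfsg.Agent.H16.Schmidt

set_option autoImplicit false
open Cfsg

namespace Cfsg.Agent.S3866

/-- Let A be a commutative normal subgroup of the finite group G with G generated by A and an element x. Then a ↦ x a x⁻¹ a⁻¹ is a surjective homomorphism from A onto the commutator subgroup of G whose kernel is the centralizer of x in A; in particular the commutator subgroup has order equal to the index in A of that centralizer. -/
theorem result {G : Type*} [Group G] [Finite G] (A : Subgroup G) [A.Normal] (hA : IsMulCommutative A) (x : G) (hgen : A ⊔ Subgroup.zpowers x = ⊤) : (∀ a ∈ A, x * a * x⁻¹ * a⁻¹ ∈ commutator G) ∧ (∀ c ∈ commutator G, ∃ a ∈ A, x * a * x⁻¹ * a⁻¹ = c) ∧ (∀ a ∈ A, ∀ b ∈ A, x * (a * b) * x⁻¹ * (a * b)⁻¹ = (x * a * x⁻¹ * a⁻¹) * (x * b * x⁻¹ * b⁻¹)) ∧ Nat.card (commutator G) * Nat.card ↥(A ⊓ Subgroup.centralizer ({x} : Set G)) = Nat.card A := by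
  have hN : A.Normal := inferInstance
  have hc : ∀ {a b : G}, a ∈ A → b ∈ A → a * b = b * a := fun ha hb => H16.comm_of_isMulCommutative ha hb
  have h3 : ∀ a ∈ A, ∀ b ∈ A, x * (a * b) * x⁻¹ * (a * b)⁻¹ =
      (x * a * x⁻¹ * a⁻¹) * (x * b * x⁻¹ * b⁻¹) := by
    intro a ha b hb
    have := hc (inv_mem ha) (mul_mem (hN.conj_mem _ hb x) (inv_mem hb))
    calc x * (a * b) * x⁻¹ * (a * b)⁻¹ = x * a * x⁻¹ * ((x * b * x⁻¹ * b⁻¹) * a⁻¹) := by group
      _ = _ := by rw [← this]; group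
  let f : A →* G := MonoidHom.mk' (fun a => x * a * x⁻¹ * (a : G)⁻¹) fun a b => h3 a a.2 b b.2
  have hfA : f.range ≤ A := by
    rintro _ ⟨a, rfl⟩
    exact mul_mem (hN.conj_mem _ a.2 x) (inv_mem a.2)
  have h1 : ∀ a ∈ A, x * a * x⁻¹ * a⁻¹ ∈ commutator G := fun a ha =>
    Subgroup.commutator_mem_commutator (Subgroup.mem_top x) (Subgroup.mem_top a)
  haveI hfn : f.range.Normal := by
    refine H02.normal_of_normalizer_of_sup ?_ ?_ hgen
    · exact (Subgroup.le_centralizer_iff.1 (hfA.trans (Subgroup.le_centralizer A))).trans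
        (Subgroup.centralizer_le_normalizer _)
    · rw [Subgroup.zpowers_le]
      apply Subgroup.mem_normalizer_fintype
      rintro _ ⟨a, rfl⟩
      refine ⟨⟨x * a * x⁻¹, hN.conj_mem _ a.2 x⟩, ?_⟩
      change x * (x * a * x⁻¹) * x⁻¹ * (x * a * x⁻¹)⁻¹ = x * (x * a * x⁻¹ * (a : G)⁻¹) * x⁻¹
      group
  have h2 : commutator G = f.range := by
    apply le_antisymm
    · rw [← Subgroup.Normal.quotient_commutative_iff_commutator_le]
      haveI : IsMulCommutative (A.map (QuotientGroup.mk' f.range)) := inferInstance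
      refine H16.comm_of_sup_of_le_centralizer (A := Subgroup.zpowers (x : G ⧸ f.range))
        (B := A.map (QuotientGroup.mk' f.range)) ?_ ?_
      · rw [Subgroup.zpowers_le]
        rintro _ ⟨a, ha, rfl⟩
        have : ((x * a * x⁻¹ * a⁻¹ : G) : G ⧸ f.range) = 1 :=
          (QuotientGroup.eq_one_iff _).2 ⟨⟨a, ha⟩, rfl⟩
        rw [QuotientGroup.mk_mul, QuotientGroup.mk_mul, QuotientGroup.mk_mul, QuotientGroup.mk_inv,
          QuotientGroup.mk_inv, mul_inv_eq_one, mul_inv_eq_iff_eq_mul] at this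
        exact this.symm
      · rw [← QuotientGroup.mk'_apply, ← MonoidHom.map_zpowers, ← Subgroup.map_sup, sup_comm, hgen,
          Subgroup.map_top_of_surjective _ (QuotientGroup.mk'_surjective _)]
    · rintro _ ⟨a, rfl⟩
      exact h1 a a.2
  refine ⟨h1, fun c hc => ?_, h3, ?_⟩
  · obtain ⟨a, rfl⟩ := h2 ▸ hc
    exact ⟨a, a.2, rfl⟩
  · have hk : f.ker = (Subgroup.centralizer ({x} : Set G)).subgroupOf A := by
      ext a
      rw [MonoidHom.mem_ker, Subgroup.mem_subgroupOf, Subgroup.mem_centralizer_singleton_iff]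
      change x * a * x⁻¹ * (a : G)⁻¹ = 1 ↔ _
      rw [mul_inv_eq_one, mul_inv_eq_iff_eq_mul, eq_comm]
    rw [h2, inf_comm, ← H02.card_subgroupOf, ← hk, ← Subgroup.index_ker, mul_comm,
      Subgroup.card_mul_index]

end Cfsg.Agent.S3866
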