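import Cfsg.Statements.S3867
import Mathlib
import Cfsg.Agent.H27.SylowNum
-- import your own Cfsg.Agent.* helpers here

set_option autoImplicit false
open Cfsg

namespace Cfsg.Agent.S3867

open scoped Pointwise commutatorElement

/-- Let M and N be nontrivial normal subgroups of the finite group G with M ⊓ N trivial, and let p be a prime. Writing n(X) for the number of Sylow p-subgroups of a group X, one has n(G) · n(G/MN) = n(G/M) · n(G/N). -/
theorem result {G : Type*} [Group G] [Finite G] (p : ℕ) [Fact p.Prime] (M N : Subgroup G) [M.Normal] [N.Normal] (hM : M ≠ ⊥) (hN : N ≠ ⊥) (hMN : M ⊓ N = ⊥) : Nat.card (Sylow p G) * Nat.card (Sylow p (G ⧸ (M ⊔ N))) = Nat.card (Sylow p (G ⧸ M)) * Nat.card (Sylow p (G ⧸ N)) := by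
  obtain ⟨P⟩ : Nonempty (Sylow p G) := inferInstance
  have hn : ∀ (K : Subgroup G) [K.Normal] (X : Subgroup G), X ≤ Subgroup.normalizer (K : Set G) :=
    fun K _ X => by rw [Subgroup.normalizer_eq_top]; exact le_top
  have hpow : ∀ (K : Subgroup G) [K.Normal], ∀ x ∈ (P : Subgroup G) ⊔ K, ∃ k : ℕ, x ^ p ^ k ∈ K := by
    intro K _ x hx
    have h1 : IsPGroup p ((P : Subgroup G).map (QuotientGroup.mk' K)) := P.isPGroup'.map _
    have h2 : QuotientGroup.mk' K x ∈ (P : Subgroup G).map (QuotientGroup.mk' K) := by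
      have := Subgroup.mem_map_of_mem (QuotientGroup.mk' K) hx
      rwa [Subgroup.map_sup, (Subgroup.map_eq_bot_iff K).2 (by rw [QuotientGroup.ker_mk']), sup_bot_eq] at this
    obtain ⟨k, hk⟩ := h1 ⟨_, h2⟩
    refine ⟨k, ?_⟩
    have := congrArg Subtype.val hk
    simp only [SubmonoidClass.coe_pow, OneMemClass.coe_one, ← map_pow] at this
    exact (QuotientGroup.eq_one_iff _).1 this
  have hPP : ((P : Subgroup G) ⊔ M) ⊓ ((P : Subgroup G) ⊔ N) = P := by
    apply P.is_maximal' _ (le_inf le_sup_left le_sup_left)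
    rintro ⟨x, hx1, hx2⟩
    obtain ⟨k, hk⟩ := hpow M x hx1
    obtain ⟨l, hl⟩ := hpow N x hx2
    refine ⟨k + l, Subtype.ext ?_⟩
    have : x ^ p ^ (k + l) ∈ M ⊓ N := by
      refine ⟨?_, ?_⟩
      · rw [pow_add, pow_mul]; exact M.pow_mem hk _
      · rw [pow_add, mul_comm, pow_mul]; exact N.pow_mem hl _
    rw [hMN] at this
    simpa using this
  have key : (Subgroup.normalizer (P : Set G) ⊔ N) ⊓ M = Subgroup.normalizer (P : Set G) ⊓ M := by
    apply le_antisymm _ (inf_le_inf_right _ le_sup_left)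
    intro m hm
    refine ⟨?_, hm.2⟩
    have h1 := hm.1
    rw [← H27.normalizer_sup_normal] at h1
    have h2 : m ∈ Subgroup.normalizer ((((P : Subgroup G) ⊔ M : Subgroup G)) : Set G) :=
      Subgroup.le_normalizer (Subgroup.mem_sup_right hm.2)
    have h3 := H01.le_normalizer_inf (A := Subgroup.zpowers m) (Subgroup.zpowers_le.2 h2)
      (Subgroup.zpowers_le.2 h1) (Subgroup.mem_zpowers m)
    rw [hPP] at h3
    exact h3
  rw [H27.card_sylow_eq_quotient_mul P M, H27.card_sylow_quotient P N,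
    H27.card_sylow_quotient P (M ⊔ N), mul_assoc]
  congr 1
  rw [← Subgroup.relIndex_mul_index (H := Subgroup.normalizer (P : Set G) ⊔ N)
    (K := Subgroup.normalizer (P : Set G) ⊔ (M ⊔ N)) (sup_le_sup_left le_sup_right _)]
  congr 1
  rw [sup_comm M N, ← sup_assoc, H27.relIndex_sup_eq_of_le le_rfl (hn M _),
    ← Subgroup.inf_relIndex_right (_ ⊔ N) M, key, Subgroup.inf_relIndex_right]

end Cfsg.Agent.S3867
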