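import Mathlib
import Cfsg.Statements.S3878
import Cfsg.Agent.H16.PiHall
import Cfsg.Agent.S0713
import Cfsg.Agent.BG.Api4

set_option autoImplicit false
open Cfsg

namespace Cfsg.Agent.S3878

open scoped Pointwise
open BG

theorem not_hall {π : Set ℕ} {p q r : ℕ} (hp : p.Prime) (hq : q.Prime) (hr : r.Prime) (hpq : p ≠ q)
    (hpπ : p ∈ π) (hqπ : q ∈ π) (hrπ : r ∉ π) : ∃ n : ℕ, ¬ Cfsg.IsEPiGroup π (Equiv.Perm (Fin n)) := by
  classical
  obtain ⟨j, hj⟩ : ∃ j, 2 * r + p + 5 < q ^ j := ⟨_, Nat.lt_pow_self hq.one_lt⟩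
  have hex : ∃ a, q ^ j < p ^ a := ⟨_, Nat.lt_pow_self hp.one_lt⟩
  have ha := Nat.find_spec hex
  have hlt : ∀ b < Nat.find hex, p ^ b ≤ q ^ j := fun b hb => not_lt.1 (Nat.find_min hex hb)
  set a := Nat.find hex
  refine ⟨p ^ a, fun ⟨H, hH⟩ => ?_⟩
  have hcyc : ∀ s e : ℕ, s.Prime → s ∈ π → 2 ≤ s ^ e → s ^ e ≤ p ^ a →
      ∃ c ∈ H, c.IsCycle ∧ c.support.card = s ^ e := by
    intro s e hs hsπ h2 hle
    obtain ⟨g, hg⟩ := (Equiv.Perm.exists_with_cycleType_iff (α := Fin (p ^ a)) (m := {s ^ e})).2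
      ⟨by simpa using hle, by simpa using h2⟩
    have hc : g.IsCycle := Equiv.Perm.card_cycleType_eq_one.1 (by simp [hg])
    have hsup : g.support.card = s ^ e := by rw [← Equiv.Perm.sum_cycleType, hg]; simp
    haveI := Fact.mk hs
    obtain ⟨x, hx⟩ := H16.exists_conj_mem_of_not_dvd_index hs (hH.2 s hs hsπ) (U := Subgroup.zpowers g)
      (IsPGroup.of_card (n := e) (by rw [Nat.card_zpowers, hc.orderOf, hsup]))
    exact ⟨x * g * x⁻¹, hx (Subgroup.smul_mem_pointwise_smul _ _ _ (Subgroup.mem_zpowers g)),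
      hc.conj, by rw [Equiv.Perm.card_support_conj, hsup]⟩
  haveI htr : MulAction.IsPretransitive H (Fin (p ^ a)) := by
    obtain ⟨c, hcH, hc, hs⟩ := hcyc p a hp hpπ (by omega) le_rfl
    have hu : c.support = Finset.univ := Finset.eq_univ_of_card _ (by simpa using hs)
    refine ⟨fun x y => ?_⟩
    obtain ⟨i, hi⟩ := hc.exists_pow_eq (x := x) (y := y) (Equiv.Perm.mem_support.1 (hu ▸ Finset.mem_univ x))
      (Equiv.Perm.mem_support.1 (hu ▸ Finset.mem_univ y))
    exact ⟨⟨c ^ i, H.pow_mem hcH i⟩, hi⟩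
  have hprim : MulAction.IsPreprimitive H (Fin (p ^ a)) := by
    refine ⟨fun {B} hB => ?_⟩
    by_contra hnt
    rw [MulAction.IsTrivialBlock, not_or] at hnt
    obtain ⟨hnt1, hnt2⟩ := hnt
    obtain ⟨y₀, hy₀⟩ : B.Nonempty := (Set.not_subsingleton_iff.1 hnt1).nonempty
    obtain ⟨b, hb, hBb⟩ := (Nat.dvd_prime_pow hp).1 (by simpa using hB.ncard_dvd_card ⟨y₀, hy₀⟩)
    have hb0 : b ≠ 0 := by
      rintro rfl
      exact hnt1 ((Set.ncard_le_one_iff_subsingleton).1 (by simp [hBb]))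
    have hba : b < a := lt_of_le_of_ne hb (by
      rintro rfl
      exact hnt2 (Set.eq_of_subset_of_ncard_le (Set.subset_univ _) (by simp [hBb, Set.ncard_univ])))
    have hnd : ¬ p ^ b ∣ q ^ j := fun h => hpq ((Nat.prime_dvd_prime_iff_eq hp hq).1
      (hp.dvd_of_dvd_pow ((dvd_pow_self p hb0).trans h)))
    obtain ⟨c, hcH, hc, hs⟩ := hcyc q j hq hqπ (by omega) ha.le
    obtain ⟨x, hx, -⟩ := id hc
    obtain ⟨h, rfl⟩ := MulAction.exists_smul_eq H y₀ x
    have hB' := hB.translate h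
    have hxB : h • y₀ ∈ h • B := Set.smul_mem_smul_set hy₀
    have hcard : (h • B).ncard = p ^ b := by rw [Set.ncard_smul_set, hBb]
    generalize h • B = B' at hB' hxB hcard
    generalize h • y₀ = x at hx hxB
    let c' : H := ⟨c, hcH⟩
    rcases hB'.smul_eq_or_disjoint c' with h1 | h1
    · have hsub : (c.support : Set _) ⊆ B' := fun y hy => by
        obtain ⟨i, rfl⟩ := hc.exists_pow_eq hx (Equiv.Perm.mem_support.1 hy)
        have h2 : c' ^ i ∈ MulAction.stabilizer H B' := Subgroup.pow_mem _ h1 i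
        have h3 : (c' ^ i) • x ∈ (c' ^ i) • B' := Set.smul_mem_smul_set hxB
        rwa [show (c' ^ i) • B' = B' from h2] at h3
      have h4 := Set.ncard_le_ncard hsub
      rw [Set.ncard_coe_finset, hs, hcard] at h4
      exact hnd (le_antisymm (hlt b hba) h4 ▸ dvd_rfl)
    · let T : Subgroup H := MulAction.stabilizer H B' ⊓ Subgroup.zpowers c'
      have horb : MulAction.orbit T x = B' := by
        apply Set.Subset.antisymm
        · rintro _ ⟨t, rfl⟩
          have h3 : (t : H) • x ∈ (t : H) • B' := Set.smul_mem_smul_set hxB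
          rwa [show (t : H) • B' = B' from t.2.1] at h3
        · intro y hy
          have hy' : c y ≠ y := fun e =>
            Set.disjoint_left.1 h1 (show y ∈ c' • B' from ⟨y, hy, e⟩) hy
          obtain ⟨i, rfl⟩ := hc.exists_pow_eq hx hy'
          refine ⟨⟨c' ^ i, ?_, Subgroup.npow_mem_zpowers _ _⟩, rfl⟩
          exact (hB'.smul_eq_or_disjoint (c' ^ i)).resolve_right fun hd =>
            Set.disjoint_left.1 hd (Set.smul_mem_smul_set hxB) hy
      apply hnd
      rw [← hcard, ← horb, ← MulAction.index_stabilizer, ← hs, ← hc.orderOf,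
        show orderOf c = orderOf c' from (Subgroup.orderOf_coe c'), ← Nat.card_zpowers]
      exact (Subgroup.index_dvd_card _).trans (Subgroup.card_dvd_of_le inf_le_right)
  obtain ⟨c, hcH, hc, hs⟩ := hcyc p 1 hp hpπ (by simpa using hp.two_le) (by rw [pow_one]; omega)
  have hA := Cfsg.Agent.S0713.result H hprim hp (by rw [Fintype.card_fin]; omega)
    (by rw [Fintype.card_fin]; omega) hc (by simpa using hs) hcH
  haveI : Nontrivial (Fin (p ^ a)) := Fin.nontrivial_iff_two_le.2 (by omega)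
  have h2 := two_mul_nat_card_alternatingGroup (α := Fin (p ^ a))
  rw [Nat.card_perm, Nat.card_fin] at h2
  have h3 : 2 * r ∣ 2 * Nat.card (alternatingGroup (Fin (p ^ a))) :=
    h2 ▸ Nat.dvd_factorial (by have := hr.pos; omega) (by omega)
  exact hrπ (hH.1 r hr ((Nat.dvd_of_mul_dvd_mul_left two_pos h3).trans (Subgroup.card_dvd_of_le hA)))

theorem E_of_D {π : Set ℕ} {G : Type} [Group G] [Finite G] (h : Cfsg.IsDPiGroup π G) :
    Cfsg.IsEPiGroup π G := by
  obtain ⟨H, -, hH⟩ := exists_maximal_ge_of_wellFoundedGT (Cfsg.IsPiSubgroup π) (⊥ : Subgroup G)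
    (fun p hp hd => absurd (by simpa using hd) hp.one_lt.ne')
  refine ⟨H, hH.1, fun p hp hπ hd => ?_⟩
  obtain ⟨P, hP⟩ := sylow_exists hp (⊤ : Subgroup G)
  haveI := Fact.mk hp
  obtain ⟨K, hK, hK'⟩ := exists_maximal_ge_of_wellFoundedGT (Cfsg.IsPiSubgroup π) P
    (H01.piNum_of_isPGroup hp (hP.pg hp) hπ)
  obtain ⟨g, rfl⟩ := h H K hH hK'
  refine hP.not_dvd' hp ?_
  rw [Subgroup.relIndex_top_right]
  exact (index_cj g H ▸ hd).trans (Subgroup.index_dvd_of_le hK)

/-- For a set of primes π the following are equivalent: every finite group has a Hall π-subgroup; in every finite group the maximal π-subgroups are pairwise conjugate; π contains at most one prime or contains every prime. -/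
theorem result (π : Set ℕ) :
    ((∀ (G : Type) [Group G] [Finite G], Cfsg.IsEPiGroup π G) ↔
      ((∀ p q : ℕ, p.Prime → q.Prime → p ∈ π → q ∈ π → p = q) ∨ ∀ p : ℕ, p.Prime → p ∈ π)) ∧
    ((∀ (G : Type) [Group G] [Finite G], Cfsg.IsDPiGroup π G) ↔
      ((∀ p q : ℕ, p.Prime → q.Prime → p ∈ π → q ∈ π → p = q) ∨ ∀ p : ℕ, p.Prime → p ∈ π)) := by
  have h1 : (∀ (G : Type) [Group G] [Finite G], Cfsg.IsEPiGroup π G) →
      ((∀ p q : ℕ, p.Prime → q.Prime → p ∈ π → q ∈ π → p = q) ∨ ∀ p : ℕ, p.Prime → p ∈ π) := by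
    intro h
    by_contra hne
    push Not at hne
    obtain ⟨⟨p, q, hp, hq, hpπ, hqπ, hpq⟩, r, hr, hrπ⟩ := hne
    obtain ⟨n, hn⟩ := not_hall hp hq hr hpq hpπ hqπ hrπ
    exact hn (h _)
  have h2 : ((∀ p q : ℕ, p.Prime → q.Prime → p ∈ π → q ∈ π → p = q) ∨ ∀ p : ℕ, p.Prime → p ∈ π) →
      ∀ (G : Type) [Group G] [Finite G], Cfsg.IsDPiGroup π G := by
    rintro (h | h) G _ _ H K hH hK
    · by_cases hex : ∃ p : ℕ, p.Prime ∧ p ∈ π
      · obtain ⟨p, hp, hpπ⟩ := hex
        have key : ∀ X : Subgroup G, Maximal (Cfsg.IsPiSubgroup π) X → IsSylowIn p X ⊤ := fun X hX =>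
          sylow_of_max hp (H16.isPGroup_of_forall_prime fun q hq hd => h q p hq hp (hX.1 q hq hd) hpπ)
            le_top fun Y hY hle _ => le_antisymm (hX.2 (H01.piNum_of_isPGroup hp hY hpπ) hle) hle
        obtain ⟨g, -, hg⟩ := sylow_trans hp (key H hH) (key K hK)
        exact ⟨g, hg⟩
      · have key : ∀ X : Subgroup G, Cfsg.IsPiSubgroup π X → X = ⊥ := fun X hX => by
          rw [← Subgroup.card_eq_one]
          by_contra hne
          obtain ⟨s, hs, hd⟩ := Nat.exists_prime_and_dvd hne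
          exact hex ⟨s, hs, hX s hs hd⟩
        exact ⟨1, by rw [key H hH.1, key K hK.1, Subgroup.map_bot]⟩
    · have key : ∀ X : Subgroup G, Maximal (Cfsg.IsPiSubgroup π) X → X = ⊤ := fun X hX =>
        top_le_iff.1 (hX.2 (fun p hp _ => h p hp) le_top)
      exact ⟨1, by rw [key H hH, key K hK]; exact (cj_top 1).symm⟩
  exact ⟨⟨h1, fun h G _ _ => E_of_D (h2 h G)⟩, ⟨fun h => h1 fun G _ _ => E_of_D (h G), h2⟩⟩

end Cfsg.Agent.S3878
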