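import Mathlib
import Cfsg.Statements.S3881
import Cfsg.Agent.H04.MetaOdd

set_option autoImplicit false
open Cfsg

namespace Cfsg.Agent.S3881

/-- Let p be an odd prime and G a finite metacyclic p-group (G has a cyclic normal subgroup with cyclic quotient). Suppose G is non-abelian with |G'| = p^n. Then for 1 ≤ i ≤ n the number of elements of G whose conjugacy class has exactly p^i elements is |Z(G)| · (p^(2i) − p^(2i−2)). -/
theorem result {G : Type*} [Group G] [Finite G] {p : ℕ} [Fact p.Prime] (hp : p ≠ 2) (hG : IsPGroup p G) (hmc : Cfsg.IsMetacyclic G) (n : ℕ) (hn : n ≠ 0) (hGn : Nat.card ↥(commutator G) = p ^ n) (i : ℕ) (hi : 1 ≤ i) (hin : i ≤ n) :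
    Nat.card {g : G // (Subgroup.centralizer ({g} : Set G)).index = p ^ i} =
      Nat.card ↥(Subgroup.center G) * (p ^ (2 * i) - p ^ (2 * i - 2)) := by
  have h : H04.MO p G := ⟨hp, hG, hmc⟩
  have hpp : p.Prime := Fact.out
  have h1 : ∀ j ≤ n, Nat.card (powerClosure p (n - j) (⊤ : Subgroup G)) =
      Nat.card (Subgroup.center G) * p ^ (2 * j) := fun j hj => by
    refine Nat.eq_of_mul_eq_mul_right (pow_pos hpp.pos (2 * (n - j))) ?_
    rw [← h.index_pc hGn (Nat.sub_le n j), Subgroup.card_mul_index, h.index_pc hGn (Nat.sub_le n j),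
      mul_assoc, ← pow_add, ← mul_add, Nat.add_sub_cancel' hj, ← (Subgroup.center G).card_mul_index,
      h.index_center, hGn, ← pow_mul, mul_comm n]
  have h2 : {g : G | (Subgroup.centralizer ({g} : Set G)).index = p ^ i} =
      (powerClosure p (n - i) (⊤ : Subgroup G) : Set G) \
        (powerClosure p (n - (i - 1)) (⊤ : Subgroup G) : Set G) := by
    ext g
    obtain ⟨k, hk⟩ := hG.index (Subgroup.centralizer ({g} : Set G))
    rw [Set.mem_sdiff, SetLike.mem_coe, SetLike.mem_coe, h.mem_pc_iff hGn (Nat.sub_le _ _),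
      h.mem_pc_iff hGn (Nat.sub_le _ _), Set.mem_ofPred_eq, hk, Nat.pow_le_pow_iff_right hpp.one_lt,
      Nat.pow_le_pow_iff_right hpp.one_lt, (Nat.pow_right_injective hpp.two_le).eq_iff]
    omega
  change Set.ncard {g : G | (Subgroup.centralizer ({g} : Set G)).index = p ^ i} = _
  rw [h2, Set.ncard_sdiff (fun g hg => (h.mem_pc_iff hGn (Nat.sub_le _ _) g).mpr
    (((h.mem_pc_iff hGn (Nat.sub_le _ _) g).mp hg).trans (Nat.pow_le_pow_right hpp.pos (by omega)))),
    Nat.mul_sub, ← h1 i hin, show 2 * i - 2 = 2 * (i - 1) by omega, ← h1 (i - 1) (by omega)]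
  rfl

end Cfsg.Agent.S3881
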