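import Mathlib
import Cfsg.Statements.S3883
import Cfsg.Agent.H04.MetaOdd

set_option autoImplicit false
open Cfsg

namespace Cfsg.Agent.S3883

/-- Let p be an odd prime and G a finite metacyclic p-group (G has a cyclic normal subgroup with cyclic quotient). Suppose G is non-abelian. Then an element g of G lies outside the Frattini subgroup if and only if its centralizer C_G(g) is abelian. -/
theorem result {G : Type*} [Group G] [Finite G] {p : ℕ} [Fact p.Prime] (hp : p ≠ 2) (hG : IsPGroup p G) (hmc : Cfsg.IsMetacyclic G) (hna : ¬ IsMulCommutative G) (g : G) :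
    g ∉ frattini G ↔ IsMulCommutative ↥(Subgroup.centralizer ({g} : Set G)) := by
  have h : H04.MO p G := ⟨hp, hG, hmc⟩
  have hpp : p.Prime := Fact.out
  obtain ⟨n, hn⟩ := H04.card_eq_pow hG (commutator G)
  obtain ⟨k, hk⟩ := hG.index (Subgroup.centralizer ({g} : Set G))
  have h1 := (h.abelian_iff_index ⊤).not.mp (H04.isMulCommutative_top_iff.not.mpr hna)
  rw [hn, Subgroup.index_top, ← pow_zero p, Nat.pow_le_pow_iff_right hpp.one_lt] at h1
  rw [h.abelian_iff_index, h.frattini_eq, h.mem_pc_iff hn (by omega), hk, hn,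
    Nat.pow_le_pow_iff_right hpp.one_lt, Nat.pow_le_pow_iff_right hpp.one_lt]
  omega

end Cfsg.Agent.S3883
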