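import Mathlib
import Cfsg.Statements.S3886
import Cfsg.Agent.H04.MetaOdd

set_option autoImplicit false
open Cfsg

namespace Cfsg.Agent.S3886

/-- Let p be an odd prime and G a finite metacyclic p-group (G has a cyclic normal subgroup with cyclic quotient). Then the largest value of |R| · |Z(R)| over subgroups R of G is |G : G'|², and the subgroups attaining it (the centrally large subgroups) are exactly the non-abelian subgroups together with the maximal abelian subgroups of G. -/
theorem result {G : Type*} [Group G] [Finite G] {p : ℕ} [Fact p.Prime] (hp : p ≠ 2) (hG : IsPGroup p G) (hmc : Cfsg.IsMetacyclic G) : Cfsg.maxCentralProduct G = (commutator G).index ^ 2 ∧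
    ∀ R : Subgroup G, Cfsg.IsCentrallyLarge R ↔ (¬ IsMulCommutative ↥R ∨ Maximal (fun K : Subgroup G => IsMulCommutative ↥K) R) := by
  have h : H04.MO p G := ⟨hp, hG, hmc⟩
  have h1 : Cfsg.maxCentralProduct G = (commutator G).index ^ 2 := IsGreatest.csSup_eq
    ⟨⟨⊤, by
      rw [← h.card_mul_card_center, ← H04.card_map_subtype (Subgroup.center _), H04.map_subtype_center]
      simp [Subgroup.centralizer_univ]⟩, by rintro _ ⟨R, rfl⟩; exact h.card_mul_card_center_le R⟩
  refine ⟨h1, fun R => ?_⟩
  rw [Cfsg.IsCentrallyLarge, h1, (h.subgroup R).card_mul_card_center, h.maximal_abelian_iff,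
    (Nat.pow_left_injective two_ne_zero).eq_iff]
  by_cases hR : IsMulCommutative R
  · simp [hR, (commutator_eq_bot_iff R).mpr hR]
  · simp [hR, h.index_der_eq hR]

end Cfsg.Agent.S3886
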