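import Mathlib
import Cfsg.Statements.S3887
import Cfsg.Agent.H04.MetaOdd

set_option autoImplicit false
open Cfsg

namespace Cfsg.Agent.S3887

/-- Let p be an odd prime and G a finite metacyclic p-group (G has a cyclic normal subgroup with cyclic quotient). Then a subgroup R of G maximizes |R| · |C_G(R)| over all subgroups of G if and only if R contains the center of G. -/
theorem result {G : Type*} [Group G] [Finite G] {p : ℕ} [Fact p.Prime] (hp : p ≠ 2) (hG : IsPGroup p G) (hmc : Cfsg.IsMetacyclic G) (R : Subgroup G) : Cfsg.IsCentralizerLarge R ↔ Subgroup.center G ≤ R := by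
  have h : H04.MO p G := ⟨hp, hG, hmc⟩
  have h1 : Cfsg.maxCentralizerProduct G = (commutator G).index ^ 2 := IsGreatest.csSup_eq
    ⟨⟨⊤, h.card_mul_card_cent le_top⟩, by rintro _ ⟨R, rfl⟩; exact h.card_mul_card_cent_le R⟩
  rw [Cfsg.IsCentralizerLarge, h1]
  refine ⟨fun h2 => ?_, h.card_mul_card_cent⟩
  rw [← h.card_mul_card_cent (le_sup_right (a := R)), BG.cent_sup, inf_eq_left.mpr
    (le_top.trans (Subgroup.centralizer_eq_top_iff_subset.mpr le_rfl).ge)] at h2
  exact le_sup_right.trans (BG.eq_of_le_of_card_eq le_sup_left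
    (Nat.eq_of_mul_eq_mul_right Nat.card_pos h2)).ge

end Cfsg.Agent.S3887
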