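import Cfsg.Statements.S3895
import Mathlib
import Cfsg.Agent.H27.Kpi2
-- import your own Cfsg.Agent.* helpers here

set_option autoImplicit false
open Cfsg

namespace Cfsg.Agent.S3895

open scoped Pointwise commutatorElement

/-- Let G be a finite group with Sylow 2-subgroup P, and write k₂(G) for the number of conjugacy classes of G consisting of 2-elements (elements of 2-power order, the identity included). Then k₂(G) > |P|/2 if and only if G has a normal 2-complement and P has more than |P|/2 conjugacy classes. -/
theorem result {G : Type*} [Group G] [Finite G] (P : Sylow 2 G) :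
    Nat.card ↥(P : Subgroup G) < 2 * Nat.card {c : ConjClasses G // ∀ x ∈ c.carrier, ∃ k : ℕ, orderOf x = 2 ^ k} ↔
      Cfsg.HasNormalPComplement 2 G ∧ Nat.card ↥(P : Subgroup G) < 2 * Nat.card (ConjClasses ↥(P : Subgroup G)) := by
  have e : Nat.card {c : ConjClasses G // ∀ x ∈ c.carrier, ∃ k : ℕ, orderOf x = 2 ^ k} = H27.kpi {2} G := by
    rw [← H24.kpi_eq_carrier]
    apply Nat.card_congr
    apply Equiv.subtypeEquivRight
    intro c
    refine forall_congr' fun x => forall_congr' fun _ => ?_
    exact (H27.isPiElt_singleton_iff Nat.prime_two).symm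
  rw [e]
  constructor
  · intro h
    refine ⟨?_, h.trans_le (Nat.mul_le_mul_left _ (H27.kpi_le_card_conjClasses _ _ fun x hx => ?_))⟩
    · by_contra hc
      obtain ⟨D, h1, h2, -, q, hq, hqp, g, hg, hk, hn⟩ := H03.exists_not_commute_of_not_hasNPC P hc
      exact h.not_ge (H27.two_mul_kp_le P h1 h2 hq hqp hqp hg hk hn)
    · exact H27.exists_conj_mem_sylow P ((H27.isPiElt_singleton_iff Nat.prime_two).1 hx)
  · rintro ⟨h1, h2⟩
    exact h2.trans_le (Nat.mul_le_mul_left _ (H27.card_conjClasses_le_kp P h1))

end Cfsg.Agent.S3895
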