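import Cfsg.Statements.S3898
import Mathlib
import Cfsg.Agent.H27.Kpi2
import Cfsg.Agent.S0205
import Cfsg.Agent.H01.Hall
-- import your own Cfsg.Agent.* helpers here

set_option autoImplicit false
open Cfsg

namespace Cfsg.Agent.S3898

open scoped Pointwise commutatorElement

/-- Let π be a finite set of primes containing 2 and G a finite group. Write k_π(G) for the number of conjugacy classes of G consisting of π-elements (elements all of whose order's prime divisors lie in π) and |G|_π for the π-part of the order of G. If k_π(G) > |G|_π/2, then G has a normal π-complement (a normal subgroup of order prime to π whose index is a π-number) and an abelian Hall subgroup for the set of odd primes in π. -/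
theorem result {G : Type*} [Group G] [Finite G] (π : Finset ℕ) (hπ : ∀ r ∈ π, r.Prime) (h2 : 2 ∈ π)
    (hk : π.prod (fun r => r ^ (Nat.card G).factorization r) < 2 * Nat.card {c : ConjClasses G // ∀ x ∈ c.carrier, ∀ r : ℕ, r.Prime → r ∣ orderOf x → r ∈ π}) :
    (∃ N : Subgroup G, N.Normal ∧ (∀ r : ℕ, r.Prime → r ∣ Nat.card ↥N → r ∉ π) ∧ ∀ r : ℕ, r.Prime → r ∣ N.index → r ∈ π) ∧ ∃ H : Subgroup G, Cfsg.IsPiHall ((↑π : Set ℕ) \ {2}) H ∧ IsMulCommutative ↥H := by
  classical
  have hk' : π.prod (fun r => r ^ (Nat.card G).factorization r) < 2 * H27.kpi (↑π : Set ℕ) G := by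
    rw [← H24.kpi_eq_carrier]; exact hk
  have key : ∀ r ∈ π, ∀ [Fact r.Prime] (P : Sylow r G), Nat.card (P : Subgroup G) < 2 * H27.kpi {r} G := by
    intro r hr _ P
    have h1 := H24.kpi_union_le (G := G) {r} (π.erase r) (fun q hq => hπ q (Finset.mem_of_mem_erase hq))
    have e : ({r} : Set ℕ) ∪ ↑(π.erase r) = ↑π := by
      ext q; simp only [Set.mem_union, Set.mem_singleton_iff, Finset.coe_erase, Set.mem_sdiff, Finset.mem_coe]
      constructor
      · rintro (rfl | h)
        exacts [hr, h.1]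
      · intro h; by_cases h' : q = r
        exacts [Or.inl h', Or.inr ⟨h, h'⟩]
    rw [e] at h1
    rw [← Finset.mul_prod_erase π _ hr, ← Sylow.card_eq_multiplicity P] at hk'
    refine Nat.lt_of_mul_lt_mul_right (a := ∏ x ∈ π.erase r, x ^ (Nat.card G).factorization x) (hk'.trans_le ?_)
    rw [mul_assoc]; exact Nat.mul_le_mul_left _ h1
  have odd : ∀ r ∈ π, ∀ [Fact r.Prime] (P : Sylow r G), ¬ HasNormalPComplement r G → r ≠ 2 ∧
      ∃ D : Subgroup G, IsPGroup r D ∧ ∃ g ∈ Subgroup.normalizer (D : Set G), (∃ k, orderOf g = 2 ^ k) ∧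
        g ∉ Subgroup.centralizer (D : Set G) := by
    intro r hr _ P hc
    obtain ⟨D, h1, h2, -, q, hq, hqp, g, hg, hk, hn⟩ := H03.exists_not_commute_of_not_hasNPC P hc
    by_cases hq2 : q = 2
    · subst hq2
      exact ⟨hqp.symm, D, P.2.to_le h1, g, hg, hk, hn⟩
    · exact absurd (H27.two_mul_kp_le P h1 h2 hq hqp hq2 hg hk hn) (key r hr P).not_ge
  have npc2 : HasNormalPComplement 2 G := by
    by_contra hc
    exact (odd 2 h2 default hc).1 rfl
  haveI : Group.IsSolvable G := by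
    haveI : Group.IsSolvable (pResidual 2 G) := Cfsg.Agent.S0205.result (by
      rw [← Nat.not_even_iff_odd, even_iff_two_dvd]
      exact H03.hasNPC_iff_not_dvd_card_pResidual.1 npc2)
    haveI : Group.IsSolvable (G ⧸ pResidual 2 G) := by
      haveI := (H03.isPGroup_quotient_pResidual (p := 2) (G := G)).isNilpotent
      infer_instance
    exact Group.isSolvable_of_ker_le_range (pResidual 2 G).subtype (QuotientGroup.mk' (pResidual 2 G)) (by simp)
  obtain ⟨H, hH⟩ := H01.exists_isPiHall (↑π : Set ℕ) G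
  have hHc : Nat.card H ≤ π.prod (fun r => r ^ (Nat.card G).factorization r) := by
    have h0 : Nat.card H ≠ 0 := Nat.card_pos.ne'
    apply Nat.le_of_dvd (Finset.prod_pos fun r hr => pow_pos (hπ r hr).pos _)
    conv_lhs => rw [← Nat.prod_factorization_pow_eq_self h0]
    rw [Finsupp.prod, Nat.support_factorization]
    refine (Finset.prod_dvd_prod_of_dvd _ (fun r => r ^ (Nat.card G).factorization r) fun r _ => ?_).trans
      (Finset.prod_dvd_prod_of_subset _ _ _ fun r hr => ?_)
    · exact pow_dvd_pow _ ((Nat.factorization_le_iff_dvd h0 Nat.card_pos.ne').2 H.card_subgroup_dvd_card r)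
    · exact hH.1 r (Nat.prime_of_mem_primeFactors hr) (Nat.dvd_of_mem_primeFactors hr)
  have hsq := H27.sq_mem_center_of_classes (G := H) (hHc.trans_lt (hk'.trans_le (Nat.mul_le_mul_left _
    (H27.kpi_le_card_conjClasses _ H fun x hx => ?_))))
  swap
  · obtain ⟨g, hg⟩ := H01.exists_conj_le_isPiHall (K := Subgroup.zpowers x) hH (by rw [Nat.card_zpowers]; exact hx)
    exact ⟨g, hg (Subgroup.smul_mem_pointwise_smul _ _ _ (Subgroup.mem_zpowers x))⟩
  have hcen : ∀ x ∈ H, Odd (orderOf x) → ∀ y ∈ H, x * y = y * x := by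
    intro x hx ⟨m, hm⟩ y hy
    have h1 : Commute (x ^ 2) y := (congrArg Subtype.val (Subgroup.mem_center_iff.1 (hsq ⟨x, hx⟩) ⟨y, hy⟩)).symm
    have : x = (x ^ 2) ^ (m + 1) := by
      rw [← pow_mul, show 2 * (m + 1) = orderOf x + 1 by omega, pow_succ, pow_orderOf_eq_one, one_mul]
    rw [this]; exact h1.pow_left _
  have npc : ∀ r : ℕ, r.Prime → r ∣ Nat.card H → HasNormalPComplement r G := by
    intro r hr hd
    haveI := Fact.mk hr
    have hrπ : r ∈ π := hH.1 r hr hd
    by_contra hc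
    obtain ⟨hr2, D, hD, g, hg, ⟨k, hk⟩, hn⟩ := odd r hrπ default hc
    have hK : H01.PiNum (↑π : Set ℕ) (Nat.card (Subgroup.zpowers g ⊔ D : Subgroup G)) := by
      refine H01.PiNum.of_dvd (H01.PiNum.mul ?_ (H01.piNum_of_isPGroup hr hD hrπ))
        (H01.card_sup_dvd_of_le_normalizer (Subgroup.zpowers_le.2 hg))
      rw [Nat.card_zpowers, hk]; exact H01.piNum_prime_pow Nat.prime_two h2 k
    obtain ⟨c, hc⟩ := H01.exists_conj_le_isPiHall hH hK
    have hm : ∀ x ∈ Subgroup.zpowers g ⊔ D, c * x * c⁻¹ ∈ H := fun x hx =>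
      hc (Subgroup.smul_mem_pointwise_smul _ _ _ hx)
    refine hn fun d hd => ?_
    have h1 := hcen _ (hm d (Subgroup.mem_sup_right hd)) (by
      obtain ⟨j, hj⟩ := H27.orderOf_of_mem_pGroup hD hd
      rw [BG.orderOf_conj, hj]; exact (hr.odd_of_ne_two hr2).pow) _
      (hm g (Subgroup.mem_sup_left (Subgroup.mem_zpowers g)))
    calc d * g = c⁻¹ * (c * d * c⁻¹ * (c * g * c⁻¹)) * c := by group
      _ = c⁻¹ * (c * g * c⁻¹ * (c * d * c⁻¹)) * c := by rw [h1]
      _ = g * d := by group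
  have hH' := H01.isPiHall_iff.1 hH
  obtain ⟨N, hN, hNH⟩ := H03.exists_normal_complement_of_hall H (hH'.1.coprime hH'.2) npc
  refine ⟨⟨N, hN, fun r hr hd => hH'.2 r hr (by rw [hNH.index_eq_card]; exact hd),
    fun r hr hd => hH'.1 r hr (by rw [← hNH.symm.index_eq_card]; exact hd)⟩, ?_⟩
  obtain ⟨L, hL⟩ := H01.exists_isPiHall ((↑π : Set ℕ) \ {2}) G
  obtain ⟨c, hc⟩ := H01.exists_conj_le_isPiHall hH (H01.PiNum.mono hL.1 Set.sdiff_subset)
  have hL' := H01.isPiHall_conj_smul hL c
  refine ⟨_, hL', ⟨⟨fun x y => Subtype.ext (hcen _ (hc x.2) ?_ _ (hc y.2))⟩⟩⟩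
  rw [← Nat.not_even_iff_odd, even_iff_two_dvd, Subgroup.orderOf_coe]
  exact fun h => (hL'.1 2 Nat.prime_two (h.trans (orderOf_dvd_natCard x))).2 rfl

end Cfsg.Agent.S3898
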