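import Cfsg.Statements.S3899
import Cfsg.Agent.H24.Kpi
-- import your own Cfsg.Agent.* helpers here

set_option autoImplicit false
open Cfsg

namespace Cfsg.Agent.S3899

/-- Let π be a finite non-empty set of odd primes with smallest member p and G a finite group. Write k_π(G) for the number of conjugacy classes of G consisting of π-elements (elements all of whose order's prime divisors lie in π) and |G|_π for the π-part of the order of G. If k_π(G) > (p + 1)|G|_π/(2p), then G has a normal π-complement (a normal subgroup of order prime to π whose index is a π-number) and an abelian Hall π-subgroup. -/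
theorem result {G : Type*} [Group G] [Finite G] (π : Finset ℕ) (hπ : ∀ r ∈ π, r.Prime) (h2 : 2 ∉ π) (p : ℕ) (hp : p ∈ π)
    (hmin : ∀ r ∈ π, p ≤ r) (hk : (p + 1) * π.prod (fun r => r ^ (Nat.card G).factorization r) < 2 * p * Nat.card {c : ConjClasses G // ∀ x ∈ c.carrier, ∀ r : ℕ, r.Prime → r ∣ orderOf x → r ∈ π}) :
    (∃ N : Subgroup G, N.Normal ∧ (∀ r : ℕ, r.Prime → r ∣ Nat.card ↥N → r ∉ π) ∧ ∀ r : ℕ, r.Prime → r ∣ N.index → r ∈ π) ∧ ∃ H : Subgroup G, Cfsg.IsPiHall (↑π : Set ℕ) H ∧ IsMulCommutative ↥H := by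
  classical
  have hk' : (p + 1) * π.prod (fun r => r ^ (Nat.card G).factorization r) < 2 * p * H27.kpi (↑π : Set ℕ) G := by
    rw [← H24.kpi_eq_carrier]; exact hk
  have key : ∀ r ∈ π, ∃ N : Subgroup G, N.Normal ∧ ¬ r ∣ Nat.card N ∧ (∀ g : G, ∃ k, g ^ r ^ k ∈ N) ∧ commutator G ≤ N := by
    intro r hr
    haveI := Fact.mk (hπ r hr)
    let P : Sylow r G := default
    have h1 := H24.kpi_union_le (G := G) {r} (π.erase r) (fun q hq => hπ q (Finset.mem_of_mem_erase hq))
    have e : ({r} : Set ℕ) ∪ ↑(π.erase r) = ↑π := by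
      ext q; simp only [Set.mem_union, Set.mem_singleton_iff, Finset.coe_erase, Set.mem_sdiff, Finset.mem_coe]
      constructor
      · rintro (rfl | h)
        exacts [hr, h.1]
      · intro h; by_cases h' : q = r
        exacts [Or.inl h', Or.inr ⟨h, h'⟩]
    rw [e] at h1
    rw [← Finset.mul_prod_erase π _ hr, ← Sylow.card_eq_multiplicity P] at hk'
    set m := ∏ x ∈ π.erase r, x ^ (Nat.card G).factorization x
    have h2 : (p + 1) * Nat.card (P : Subgroup G) < 2 * p * H27.kpi {r} G := by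
      have : (p + 1) * Nat.card (P : Subgroup G) * m < 2 * p * H27.kpi {r} G * m := by
        calc _ = (p + 1) * (Nat.card (P : Subgroup G) * m) := by ring
          _ < _ := hk'
          _ ≤ 2 * p * (H27.kpi {r} G * m) := Nat.mul_le_mul_left _ h1
          _ = _ := by ring
      exact Nat.lt_of_mul_lt_mul_right this
    have h3 : (r + 1) * Nat.card (P : Subgroup G) < 2 * r * H27.kpi {r} G := by
      have hpr := hmin r hr
      have hp0 := (hπ p hp).pos
      have : p * ((r + 1) * Nat.card (P : Subgroup G)) < p * (2 * r * H27.kpi {r} G) := by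
        calc p * ((r + 1) * Nat.card (P : Subgroup G)) ≤ r * ((p + 1) * Nat.card (P : Subgroup G)) := by nlinarith
          _ < r * (2 * p * H27.kpi {r} G) := Nat.mul_lt_mul_of_pos_left h2 (by omega)
          _ = _ := by ring
      exact Nat.lt_of_mul_lt_mul_left this
    obtain ⟨h4, h5⟩ := (H24.kp_iff P).1 h3
    refine ⟨pResidual r G, inferInstance, H03.hasNPC_iff_not_dvd_card_pResidual.1 h4, fun g => ?_,
      H03.commutator_le_pResidual_of_abelian_sylow P h5⟩
    obtain ⟨k, hk⟩ := H03.isPGroup_quotient_pResidual (p := r) (G := G) (g : G ⧸ pResidual r G)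
    exact ⟨k, (QuotientGroup.eq_one_iff _).1 (by rw [QuotientGroup.mk_pow]; exact hk)⟩
  choose! N hNn hNd hNp hNc using key
  let K : Subgroup G := ⨅ r ∈ π, N r
  have hKle : ∀ r ∈ π, K ≤ N r := fun r hr => iInf₂_le r hr
  haveI hK : K.Normal := ⟨fun n hn g => Subgroup.mem_iInf.2 fun r => Subgroup.mem_iInf.2 fun hr =>
    (hNn r hr).conj_mem _ (hKle r hr hn) g⟩
  have h1 : ∀ r : ℕ, r.Prime → r ∣ Nat.card K → r ∉ π := fun r _ hd hr => hNd r hr (hd.trans (BG.card_dvd (hKle r hr)))
  have h2 : ∀ r : ℕ, r.Prime → r ∣ K.index → r ∈ π := by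
    intro q hq hd
    haveI := Fact.mk hq
    obtain ⟨x, hx⟩ := exists_prime_orderOf_dvd_card' (G := G ⧸ K) q hd
    obtain ⟨g, rfl⟩ := QuotientGroup.mk_surjective x
    by_contra hqπ
    have hg : g ∈ K := by
      refine Subgroup.mem_iInf.2 fun r => Subgroup.mem_iInf.2 fun hr => ?_
      obtain ⟨k, hk⟩ := hNp r hr g
      have h3 : g ^ q ∈ N r := hKle r hr ((QuotientGroup.eq_one_iff _).1 (by
        rw [QuotientGroup.mk_pow, ← hx, pow_orderOf_eq_one]))
      have hc : (r ^ k).Coprime q := Nat.Coprime.pow_left _ ((Nat.coprime_primes (hπ r hr) hq).2 (by rintro rfl; exact hqπ hr))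
      have h4 := Nat.gcd_eq_gcd_ab (r ^ k) q
      rw [hc.gcd_eq_one] at h4
      have : g = (g ^ r ^ k) ^ (Nat.gcdA (r ^ k) q) * (g ^ q) ^ (Nat.gcdB (r ^ k) q) := by
        rw [← zpow_natCast, ← zpow_natCast, ← zpow_mul, ← zpow_mul, ← zpow_add, ← h4]; simp
      rw [this]; exact mul_mem (zpow_mem hk _) (zpow_mem h3 _)
    rw [(QuotientGroup.eq_one_iff g).2 hg, orderOf_one] at hx
    exact hq.one_lt.ne hx
  refine ⟨⟨K, hK, h1, h2⟩, ?_⟩
  obtain ⟨H, hH⟩ := Subgroup.exists_right_complement'_of_coprime (N := K)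
    (BG.coprime_of_forall fun q hq hd hd' => h1 q hq hd (h2 q hq hd'))
  refine ⟨H, ⟨fun q hq hd => h2 q hq (by rw [hH.symm.index_eq_card]; exact hd), fun q hq hqπ hd => h1 q hq (by
    rw [← hH.index_eq_card]; exact hd) hqπ⟩, BG.abelian_iff_der.2 ?_⟩
  refine le_bot_iff.1 ((le_inf ?_ (BG.der_le H)).trans hH.disjoint.le_bot)
  exact (Subgroup.commutator_mono le_top le_top).trans (le_iInf₂ fun r hr => hNc r hr)

end Cfsg.Agent.S3899
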