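import Mathlib
import Cfsg.Statements.S3910
import Cfsg.Agent.H04.Basic
import Cfsg.Agent.H16.Schmidt
import Cfsg.Agent.H01.Coprime2
import Cfsg.Agent.S3909

set_option autoImplicit false
open Cfsg

namespace Cfsg.Agent.S3910

theorem exists_min_notMem {G : Type*} [Group G] [Finite G] (N : Subgroup G) (h : N ≠ ⊤) :
    ∃ (x : G) (p k : ℕ), p.Prime ∧ x ∉ N ∧ x ^ p ∈ N ∧ orderOf x = p ^ (k + 1) := by
  classical
  have hex : ∃ n, ∃ x : G, x ∉ N ∧ orderOf x = n := by
    by_contra hc
    push Not at hc
    apply h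
    rw [eq_top_iff]
    intro x _
    by_contra hx
    exact hc _ x hx rfl
  obtain ⟨x, hx, hxo⟩ := Nat.find_spec hex
  have hmin : ∀ y : G, orderOf y < orderOf x → y ∈ N := by
    intro y hy
    by_contra hyN
    exact Nat.find_min hex (hxo ▸ hy) ⟨y, hyN, rfl⟩
  have hpos := orderOf_pos x
  have hq : ∀ q : ℕ, q.Prime → q ∣ orderOf x → x ^ q ∈ N := by
    intro q hq hd
    apply hmin
    rw [orderOf_pow_of_dvd hq.ne_zero hd]
    exact Nat.div_lt_self hpos hq.one_lt
  have h1 : orderOf x ≠ 1 := by
    intro h1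
    rw [orderOf_eq_one_iff] at h1
    exact hx (h1 ▸ N.one_mem)
  obtain ⟨p, hp, hpd⟩ := Nat.exists_prime_and_dvd h1
  have huniq : ∀ {q : ℕ}, q.Prime → q ∣ orderOf x → q = p := by
    intro q hq' hd
    by_contra hne
    have hc : Nat.Coprime q p := (Nat.coprime_primes hq' hp).2 hne
    apply hx
    have := Nat.gcd_eq_gcd_ab q p
    rw [hc] at this
    have h2 : x = (x ^ q) ^ (q.gcdA p) * (x ^ p) ^ (q.gcdB p) := by
      rw [← zpow_natCast, ← zpow_natCast, ← zpow_mul, ← zpow_mul, ← zpow_add, ← this]; simp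
    rw [h2]
    exact N.mul_mem (N.zpow_mem (hq q hq' hd) _) (N.zpow_mem (hq p hp hpd) _)
  have h3 := Nat.eq_prime_pow_of_unique_prime_dvd hpos.ne' huniq
  generalize (orderOf x).primeFactorsList.length = k at h3
  cases k with
  | zero => exact absurd (by simpa using h3) h1
  | succ k => exact ⟨x, p, k, hp, hx, hq p hp hpd, h3⟩

/-- A finite nilpotent group in which any two abelian subgroups of the same order are conjugate is cyclic. -/
theorem result {G : Type*} [Group G] [Finite G] (hB : ∀ A B : Subgroup G, IsMulCommutative ↥A → IsMulCommutative ↥B → Nat.card ↥A = Nat.card ↥B → ∃ g : G, B = A.map (MulAut.conj g).toMonoidHom) (hnil : Group.IsNilpotent G) : IsCyclic G := by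
  obtain ⟨N, -, hNn, hNc, hNC⟩ := H04.exists_scn (⊥ : Subgroup G) inferInstance inferInstance
  have hN : N = ⊤ := by
    by_contra hne
    obtain ⟨x, p, k, hp, hx, hxp, hxo⟩ := exists_min_notMem N hne
    haveI := Fact.mk hp
    by_cases hd : p ^ (k + 1) ∣ Nat.card N
    · exact hx (Cfsg.Agent.S3909.aux2 hB N hNc x hxo hd)
    apply hx
    rw [← hNC]
    have : N ≤ Subgroup.centralizer ((Subgroup.zpowers x : Subgroup G) : Set G) := by
      apply H01.le_of_sylow_le
      intro q hq
      by_cases hqp : q = p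
      · subst hqp
        refine ⟨Subgroup.zpowers (x ^ q), ?_, ?_⟩
        · exact (Subgroup.zpowers_le.2 (Subgroup.pow_mem _ (Subgroup.mem_zpowers x) q)).trans (Subgroup.le_centralizer _)
        · intro hdv
          apply hd
          have hle : Subgroup.zpowers (x ^ q) ≤ N := Subgroup.zpowers_le.2 hxp
          have h1 := Subgroup.card_mul_index ((Subgroup.zpowers (x ^ q)).subgroupOf N)
          rw [Nat.card_congr (Subgroup.subgroupOfEquivOfLe hle).toEquiv, Nat.card_zpowers,
            orderOf_pow_of_dvd hq.ne_zero (by rw [hxo]; exact dvd_pow_self q (Nat.succ_ne_zero k)), hxo, pow_succ,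
            Nat.mul_div_cancel _ hq.pos] at h1
          rw [← h1, pow_succ]
          exact Nat.mul_dvd_mul_left _ hdv
      · haveI := Fact.mk hq
        obtain ⟨Q⟩ : Nonempty (Sylow q N) := inferInstance
        refine ⟨(Q : Subgroup N).map N.subtype, ?_, ?_⟩
        · apply H16.le_centralizer_of_nilpotent_coprime (H := ⊤) le_top le_top
          apply H16.coprime_card_of_isPGroup_ne hqp (Q.isPGroup'.map _)
          exact IsPGroup.of_card (by rw [Nat.card_zpowers, hxo])
        · rw [Subgroup.relIndex, Subgroup.subgroupOf, Subgroup.comap_map_eq_self_of_injective N.subtype_injective]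
          exact Q.not_dvd_index
    rw [Subgroup.le_centralizer_iff] at this
    exact this (Subgroup.mem_zpowers x)
  subst hN
  have hcomm : ∀ a b : G, a * b = b * a := fun a b => by
    have := hNc.is_comm.comm ⟨a, trivial⟩ ⟨b, trivial⟩
    exact congrArg Subtype.val this
  obtain ⟨g, hg⟩ : ∃ g : G, orderOf g = Monoid.exponent G := by
    letI : CommGroup G := { (inferInstance : Group G) with mul_comm := hcomm }
    exact Monoid.exists_orderOf_eq_exponent Monoid.ExponentExists.of_finite
  haveI : (Subgroup.zpowers g).Normal := ⟨fun n hn a => by rw [hcomm a n, mul_inv_cancel_right]; exact hn⟩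
  refine ⟨⟨g, fun a => ?_⟩⟩
  apply (Cfsg.Agent.S3909.result hB (Subgroup.zpowers g)).1 a
  have hd : orderOf a ∣ orderOf g := hg ▸ Monoid.order_dvd_exponent a
  refine ⟨g ^ (orderOf g / orderOf a), Subgroup.pow_mem _ (Subgroup.mem_zpowers g) _, ?_⟩
  exact orderOf_pow_orderOf_div (orderOf_pos g).ne' hd

end Cfsg.Agent.S3910
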