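import Cfsg.Statements.S3915
import Cfsg.Agent.BG.Api
import Cfsg.Agent.BG.Quo3
import Cfsg.Agent.H22.Components
import Cfsg.Agent.H27.Classes
import Cfsg.Agent.S0205
-- import your own Cfsg.Agent.* helpers here

set_option autoImplicit false
open Cfsg

namespace Cfsg.Agent.S3915

open BG in
theorem exists_two {G : Type*} [Group G] [Finite G] {L : Subgroup G} (hL : IsComponent L) :
    ∃ x ∈ L, x ∉ C_(L) ∧ ∃ k, orderOf x = 2 ^ k := by
  by_contra hc
  push Not at hc
  obtain ⟨S, hS⟩ := sylow_exists Nat.prime_two L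
  have h1 : S ≤ L ⊓ C_(L) := fun x hx => ⟨hS.le hx, by
    by_contra h
    obtain ⟨k, hk⟩ := H27.orderOf_of_mem_pGroup (hS.pg Nat.prime_two) hx
    exact hc x (hS.le hx) h k hk⟩
  have hn : L ≤ N_(L ⊓ C_(L)) := le_norm_inf_cent (le_norm L)
  refine H22.comp_not_solvable hL (sol_of_quo hn (sol_of_abelian (abelian_of_le (abelian_center L) inf_le_left)) ?_)
  refine Cfsg.Agent.S0205.result ?_
  rw [card_quo hn, ← Nat.not_even_iff_odd, even_iff_two_dvd]
  exact fun hd => hS.not_dvd' Nat.prime_two (hd.trans (relIndex_dvd_left L h1))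

open BG in
theorem uniq {G : Type*} [Group G] [Finite G] (hP : ∀ A B : Subgroup G, IsCyclic ↥A → IsCyclic ↥B → IsPGroup 2 ↥A → Nat.card ↥A = Nat.card ↥B → ∃ g : G, B = A.map (MulAut.conj g).toMonoidHom)
    {L M : Subgroup G} (hL : IsComponent L) (hM : IsComponent M) {x y : G} (hx : x ∈ L) (hx' : x ∉ C_(L))
    (hy : y ∈ M) (hy' : y ∉ C_(M)) {k : ℕ} (hk : orderOf x = 2 ^ k) (hd : orderOf y ∣ orderOf x) : L = M := by
  by_contra hne
  have hc : L ≤ C_(M) := comm_eq_bot.1 (H22.comp_comm_of_ne hL hM hne)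
  have hxy : Commute x y := (mem_cent.1 (hc hx) y hy).symm
  have h1 : orderOf (x * y) ∣ 2 ^ k := by
    rw [← hk, orderOf_dvd_iff_pow_eq_one, hxy.mul_pow, pow_orderOf_eq_one, orderOf_dvd_iff_pow_eq_one.1 hd, one_mul]
  obtain ⟨j, hjk, hj⟩ := (Nat.dvd_prime_pow Nat.prime_two).1 h1
  obtain ⟨A, hA, hAc⟩ := exists_le_card_pow (H := Subgroup.zpowers x) Nat.prime_two (n := j) (by
    rw [card_zpowers, hk]; exact pow_dvd_pow 2 hjk)
  obtain ⟨g, hg⟩ := hP A (Subgroup.zpowers (x * y)) (cyclic_of_le (cyclic_zpowers x) hA) (cyclic_zpowers _) (pg_of_card hAc)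
    (by rw [hAc, card_zpowers, hj])
  have hK := H22.comp_conj hL g
  have hm : x * y ∈ cj g L := cj_mono g (hA.trans (Subgroup.zpowers_le.2 hx)) (by
    show _ ∈ A.map _
    rw [← hg]; exact Subgroup.mem_zpowers _)
  by_cases h : cj g L = L
  · have h2 : x * y ∈ C_(M) := comm_eq_bot.1 (H22.comp_comm_of_ne hK hM (by rw [← h] at hne; exact hne)) hm
    exact hy' (by simpa using mul_mem (inv_mem (hc hx)) h2)
  · have h2 : x * y ∈ C_(L) := comm_eq_bot.1 (H22.comp_comm_of_ne hK hL h) hm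
    exact hx' (by simpa using mul_mem h2 (inv_mem (cent_symm hc hy)))

/-- Let G be a finite group in which, for every prime p, any two cyclic p-subgroups of the same order are conjugate. If the layer E(G), the subgroup generated by the components of G, is non-trivial, then E(G)/Z(E(G)) is a non-abelian simple group. -/
theorem result {G : Type*} [Group G] [Finite G] (hP : ∀ (p : ℕ), p.Prime → ∀ A B : Subgroup G, IsCyclic ↥A → IsCyclic ↥B → IsPGroup p ↥A → Nat.card ↥A = Nat.card ↥B → ∃ g : G, B = A.map (MulAut.conj g).toMonoidHom) (hE : Cfsg.layer G ≠ ⊥) :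
    IsSimpleGroup (↥(Cfsg.layer G) ⧸ Subgroup.center ↥(Cfsg.layer G)) ∧ ¬ IsMulCommutative (↥(Cfsg.layer G) ⧸ Subgroup.center ↥(Cfsg.layer G)) := by
  obtain ⟨L, hL⟩ := H22.layer_ne_bot_iff.1 hE
  have hu : ∀ M : Subgroup G, IsComponent M → M = L := by
    intro M hM
    obtain ⟨x, hx, hx', k, hk⟩ := exists_two hL
    obtain ⟨y, hy, hy', j, hj⟩ := exists_two hM
    rcases le_total j k with h | h
    · exact (uniq (hP 2 Nat.prime_two) hL hM hx hx' hy hy' hk (by rw [hk, hj]; exact pow_dvd_pow 2 h)).symm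
    · exact uniq (hP 2 Nat.prime_two) hM hL hy hy' hx hx' hj (by rw [hk, hj]; exact pow_dvd_pow 2 h)
  have e : layer G = L := le_antisymm (H22.layer_le_iff.2 fun M hM => (hu M hM).le) (H22.le_layer hL)
  rw [e]
  refine ⟨hL.2.2, fun hc => H22.comp_not_solvable hL ?_⟩
  haveI : Group.IsSolvable (L ⧸ Subgroup.center L) := Group.isSolvable_of_comm fun a b => hc.is_comm.comm a b
  haveI : Group.IsSolvable (Subgroup.center L) := BG.sol_of_abelian inferInstance
  exact Group.isSolvable_of_ker_le_range (Subgroup.center L).subtype (QuotientGroup.mk' (Subgroup.center L)) (by simp)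

end Cfsg.Agent.S3915
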