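import Mathlib
import Cfsg.Statements.S3917
import Cfsg.Agent.H04.Metacyclic
import Cfsg.Agent.BG.Api4

set_option autoImplicit false
open Cfsg

namespace Cfsg.Agent.S3917

/-- Say that a group has self-centralizing non-cyclic subgroups when every non-cyclic subgroup H satisfies C_G(H) ≤ H. A finite abelian group with self-centralizing non-cyclic subgroups is cyclic or elementary abelian of order p² for a prime p. -/
theorem result {G : Type*} [CommGroup G] [Finite G] (hX : (∀ H : Subgroup G, ¬ IsCyclic ↥H → Subgroup.centralizer (H : Set G) ≤ H)) :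
    IsCyclic G ∨ ∃ p : ℕ, p.Prime ∧ Nat.card G = p ^ 2 ∧ Monoid.exponent G = p := by
  by_cases hc : IsCyclic G
  · exact Or.inl hc
  right
  have htop : ∀ H : Subgroup G, ¬ IsCyclic H → H = ⊤ := by
    intro H hH
    rw [eq_top_iff]
    intro x _
    apply hX H hH
    intro y _
    exact mul_comm _ _
  have : ¬ IsZGroup G := fun h => hc inferInstance
  have : ∃ p : ℕ, ∃ _ : p.Prime, ∃ P : Sylow p G, ¬ IsCyclic P := by
    by_contra h
    push Not at h
    exact this ⟨fun p hp P => h p hp P⟩
  obtain ⟨p, hp, P, hP⟩ := this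
  haveI := Fact.mk hp
  have h1 := H04.RegOn.sq_le_card_omegaOne P.isPGroup' (H04.regOn_of_comm inferInstance) hP
  have hE := BG.omega_elemAb p (X := (P : Subgroup G)) inferInstance
  have hEp : IsPGroup p (Cfsg.omegaOne p (P : Subgroup G)) := H04.isPGroup_subgroup_of_pow_eq_one hE.2
  obtain ⟨n, hn⟩ := IsPGroup.iff_card.1 hEp
  have hd : p ^ 2 ∣ Nat.card (Cfsg.omegaOne p (P : Subgroup G)) := by
    rw [hn] at h1 ⊢
    exact pow_dvd_pow p ((Nat.pow_le_pow_iff_right hp.one_lt).1 h1)
  obtain ⟨K, hK⟩ := Sylow.exists_subgroup_card_pow_prime p hd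
  set L := K.map (Cfsg.omegaOne p (P : Subgroup G)).subtype with hL
  have hLc : Nat.card L = p ^ 2 := by rw [Subgroup.card_map_of_injective (Subgroup.subtype_injective _), hK]
  have hLe : ∀ x ∈ L, x ^ p = 1 := fun x hx => hE.2 x (Subgroup.map_subtype_le K hx)
  have hLn : ¬ IsCyclic L := by
    intro h
    obtain ⟨g, hg⟩ := IsCyclic.exists_ofOrder_eq_natCard (α := L)
    have : orderOf g ∣ p := orderOf_dvd_of_pow_eq_one (Subtype.ext (hLe g g.2))
    rw [hg, hLc] at this
    have := Nat.le_of_dvd hp.pos this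
    nlinarith [hp.one_lt]
  have hLt := htop L hLn
  have hcard : Nat.card G = p ^ 2 := by rw [← hLc, hLt, Subgroup.card_top]
  refine ⟨p, hp, hcard, ?_⟩
  haveI : Nontrivial G := by
    by_contra h
    rw [not_nontrivial_iff_subsingleton] at h
    exact hc inferInstance
  rw [Monoid.exponent_eq_prime_iff hp]
  intro g hg
  exact H04.orderOf_eq_prime_of_pow (hLe g (hLt ▸ trivial)) hg

end Cfsg.Agent.S3917
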