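import Mathlib
import Cfsg.Statements.S3918
import Cfsg.Agent.H04.MaxClass

set_option autoImplicit false
open Cfsg

namespace Cfsg.Agent.S3918

/-- Say that a group has self-centralizing non-cyclic subgroups when every non-cyclic subgroup H satisfies C_G(H) ≤ H. For an odd prime p, a finite non-abelian p-group has self-centralizing non-cyclic subgroups if and only if it has order p³. -/
theorem result {G : Type*} [Group G] [Finite G] {p : ℕ} [Fact p.Prime] (hp : p ≠ 2) (hG : IsPGroup p G) (hna : ¬ IsMulCommutative G) :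
    (∀ H : Subgroup G, ¬ IsCyclic ↥H → Subgroup.centralizer (H : Set G) ≤ H) ↔ Nat.card G = p ^ 3 := by
  have hpp : p.Prime := Fact.out
  constructor
  · intro h
    obtain ⟨V, -, hn, hV, h2⟩ := H04.exists_normal_elemAb_sq hp hG ⊤ fun hc => hna (by
      haveI := H04.isCyclic_top_iff.mp hc; infer_instance)
    have h3 := H04.card_le_of_scn hG V (h V (H04.not_isCyclic_of_elemAb hpp hV
      (by rw [h2, sq]; nlinarith [hpp.one_lt]))) h2
    obtain ⟨n, hn⟩ := IsPGroup.iff_card.mp hG
    have h1 : p ^ 2 < Nat.card G := not_le.mp fun h => hna (H04.isMulCommutative_of_card_le_sq hG h)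
    rw [hn, Nat.pow_lt_pow_iff_right hpp.one_lt] at h1
    rw [hn, Nat.pow_le_pow_iff_right hpp.one_lt, show Nat.choose (2 + 1) 2 = 3 from rfl] at h3
    rw [hn, show n = 3 by omega]
  · intro h3 H hH x hx
    by_contra hxH
    have h1 : p < Nat.card H := not_le.mp fun h => hH (H04.isCyclic_of_card_le_prime (hG.to_subgroup _) h)
    have h2 := H04.pow_succ_le_of_lt_card (k := 1) (hG.to_subgroup H) (by rwa [pow_one])
    have h4 := H04.mul_card_le_of_lt (hG.to_subgroup (H ⊔ Subgroup.zpowers x))
      (left_lt_sup.mpr fun h => hxH (h (Subgroup.mem_zpowers x)))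
    have h5 := BG.card_le (le_top (a := H ⊔ Subgroup.zpowers x))
    rw [Subgroup.card_top, h3] at h5
    have h6 : Nat.card H ≤ p ^ 2 := Nat.le_of_mul_le_mul_left (h4.trans (h5.trans_eq (by ring))) hpp.pos
    refine hna (H04.isMulCommutative_of_sup_zpowers_eq_top
      (H04.isMulCommutative_of_card_le_sq (hG.to_subgroup H) h6) hx (BG.eq_of_le_of_card_le le_top ?_))
    rw [Subgroup.card_top, h3]
    exact le_trans (by rw [pow_succ']; exact Nat.mul_le_mul_left _ h2) h4

end Cfsg.Agent.S3918
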