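import Mathlib
import Cfsg.Statements.S3919
import Cfsg.Agent.H04.MaxClass

set_option autoImplicit false
open Cfsg

namespace Cfsg.Agent.S3919

/-- Say that a group has self-centralizing non-cyclic subgroups when every non-cyclic subgroup H satisfies C_G(H) ≤ H. A finite non-abelian 2-group G of order 2^n has self-centralizing non-cyclic subgroups if and only if G has nilpotency class n − 1 (that is, G is dihedral, semidihedral or generalized quaternion). -/
theorem result {G : Type*} [Group G] [Finite G] (hna : ¬ IsMulCommutative G) (n : ℕ) (hG : Nat.card G = 2 ^ n) :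
    (∀ H : Subgroup G, ¬ IsCyclic ↥H → Subgroup.centralizer (H : Set G) ≤ H) ↔ (⊤ : Subgroup G).lowerCentralSeries (n - 2) ≠ ⊥ := by
  have hP : IsPGroup 2 G := .of_card hG
  have h1 : 2 ^ 2 < Nat.card G := not_le.mp fun h => hna (H04.isMulCommutative_of_card_le_sq hP h)
  rw [hG, Nat.pow_lt_pow_iff_right one_lt_two] at h1
  obtain ⟨m, rfl⟩ : ∃ m, n = m + 3 := ⟨n - 3, by omega⟩
  constructor
  · intro h
    by_cases h2 : ∃ V : Subgroup G, Cfsg.IsElementaryAbelian 2 V ∧ Nat.card V = 2 ^ 2
    · obtain ⟨V, hV, h2⟩ := h2
      exact H04.maxClass_of_centralizer_le_sq (n := m + 1) hG h2.le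
        (h V (H04.not_isCyclic_of_elemAb Nat.prime_two hV (by omega)))
    · push Not at h2
      obtain h3 | ⟨k, a, b, h3, -⟩ := H04.isCyclic_or_dsq_of_unique hP
        (H04.unique_of_forall_isCyclic hP h2)
      · exact (hna inferInstance).elim
      · obtain rfl : m = k := by
          have := Nat.pow_right_injective le_rfl (hG.symm.trans h3.card); omega
        exact h3.lcs_ne_bot
  · intro h H hH
    obtain ⟨a, b, h⟩ := H04.dsq_of_maxClass hG h
    exact h.centralizer_le hH

end Cfsg.Agent.S3919
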