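import Mathlib
import Cfsg.Statements.S3920
import Cfsg.Agent.H04.MaxClass

set_option autoImplicit false
open Cfsg

namespace Cfsg.Agent.S3920

/-- Say that a group has self-centralizing non-cyclic subgroups when every non-cyclic subgroup H satisfies C_G(H) ≤ H. For n ≥ 3, the dihedral group of order 2n has self-centralizing non-cyclic subgroups if and only if n is odd or a power of 2. -/
theorem result (n : ℕ) (hn : 3 ≤ n) : (∀ H : Subgroup (DihedralGroup n), ¬ IsCyclic ↥H → Subgroup.centralizer (H : Set (DihedralGroup n)) ≤ H) ↔ (Odd n ∨ ∃ k : ℕ, n = 2 ^ k) := by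
  haveI : NeZero n := ⟨by omega⟩
  constructor
  · intro h
    by_contra h1
    push Not at h1
    obtain ⟨m, hm⟩ := Nat.not_odd_iff_even.mp h1.1
    obtain ⟨k, q, hq, rfl⟩ := Nat.exists_eq_two_pow_mul_odd (NeZero.ne n)
    have hq1 : 1 < q := by
      by_contra h2
      obtain rfl : q = 1 := by have := hq.pos; omega
      exact h1.2 k (mul_one _)
    let H : Subgroup (DihedralGroup (2 ^ k * q)) :=
      { carrier := {x | ∃ i : ZMod (2 ^ k * q), (q : ZMod (2 ^ k * q)) * i = 0 ∧
          (x = DihedralGroup.r i ∨ x = DihedralGroup.sr i)}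
        one_mem' := ⟨0, mul_zero _, Or.inl rfl⟩
        mul_mem' := by
          rintro _ _ ⟨i, hi, rfl | rfl⟩ ⟨j, hj, rfl | rfl⟩
          · exact ⟨i + j, by rw [mul_add, hi, hj, add_zero], Or.inl rfl⟩
          · exact ⟨j - i, by rw [mul_sub, hi, hj, sub_zero], Or.inr rfl⟩
          · exact ⟨i + j, by rw [mul_add, hi, hj, add_zero], Or.inr rfl⟩
          · exact ⟨j - i, by rw [mul_sub, hi, hj, sub_zero], Or.inl rfl⟩
        inv_mem' := by
          rintro _ ⟨i, hi, rfl | rfl⟩
          · exact ⟨-i, by rw [mul_neg, hi, neg_zero], Or.inl rfl⟩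
          · exact ⟨i, hi, Or.inr rfl⟩ }
    have h2 : ((m : ZMod (2 ^ k * q))) + m = 0 := by rw [← Nat.cast_add, ← hm, ZMod.natCast_self]
    have h3 : DihedralGroup.r (m : ZMod (2 ^ k * q)) ∈ H := by
      refine h H (fun hc => ?_) ?_
      · have h4 := BG.mul_comm_of_abelian (BG.abelian_of_cyclic hc)
          (show DihedralGroup.r ((2 ^ k : ℕ) : ZMod (2 ^ k * q)) ∈ H from
            ⟨_, by rw [← Nat.cast_mul, mul_comm q, ZMod.natCast_self], Or.inl rfl⟩)
          (show DihedralGroup.sr 0 ∈ H from ⟨0, mul_zero _, Or.inr rfl⟩)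
        rw [DihedralGroup.r_mul_sr, DihedralGroup.sr_mul_r, DihedralGroup.sr.injEq, zero_sub, zero_add,
          neg_eq_iff_add_eq_zero, ← Nat.cast_add, ZMod.natCast_eq_zero_iff, ← mul_two] at h4
        have := Nat.le_of_dvd two_pos (Nat.dvd_of_mul_dvd_mul_left (Nat.two_pow_pos k) h4)
        obtain ⟨j, rfl⟩ := hq
        omega
      · rintro _ ⟨i, -, rfl | rfl⟩
        · simp [add_comm]
        · rw [DihedralGroup.r_mul_sr, DihedralGroup.sr_mul_r, sub_eq_add_neg,
            (neg_eq_iff_add_eq_zero.mpr h2)]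
    obtain ⟨i, hi, h4 | h4⟩ := h3
    · obtain rfl := DihedralGroup.r.inj h4
      obtain ⟨j, rfl⟩ := hq
      have h5 : ((m : ℕ) : ZMod (2 ^ k * (2 * j + 1))) = 0 := by
        rw [← hi]; push_cast; linear_combination (-j : ZMod (2 ^ k * (2 * j + 1))) * h2
      rw [ZMod.natCast_eq_zero_iff] at h5
      have := Nat.le_of_dvd (by omega) h5
      omega
    · cases h4
  · rintro (h | ⟨k, rfl⟩) H hH
    · have h2 : ∀ i j : ZMod n, i + i = j + j → i = j := fun i j hij =>
        sub_eq_zero.mp ((ZMod.add_self_eq_zero_iff_eq_zero h).mp (by linear_combination hij))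
      obtain ⟨x, hxH, hx⟩ := SetLike.not_le_iff_exists.mp
        fun h1 : H ≤ Subgroup.zpowers (DihedralGroup.r 1) => hH (BG.cyclic_of_le inferInstance h1)
      rcases x with i | i
      · exact absurd ⟨(i.val : ℤ), by simp⟩ hx
      · rintro (j | j) hy
        · have := hy _ hxH
          rw [DihedralGroup.r_mul_sr, DihedralGroup.sr_mul_r, DihedralGroup.sr.injEq] at this
          rw [h2 j 0 (by linear_combination this)]; exact one_mem H
        · have := hy _ hxH
          rw [DihedralGroup.sr_mul_sr, DihedralGroup.sr_mul_sr, DihedralGroup.r.injEq] at this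
          rwa [h2 j i (by linear_combination this)]
    · have h1 : 2 ≤ k := by
        by_contra h1
        obtain rfl | rfl : k = 0 ∨ k = 1 := by omega
        all_goals omega
      obtain ⟨m, rfl⟩ : ∃ m, k = m + 2 := ⟨k - 2, by omega⟩
      exact (H04.dsq_dihedral m).centralizer_le hH

end Cfsg.Agent.S3920
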