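import Mathlib
import Cfsg.Statements.S3933
import Cfsg.Agent.H29.SyN

set_option autoImplicit false
open Cfsg

namespace Cfsg.Agent.S3933

universe u

theorem main : ∀ (n : ℕ) (G : Type u) [Group G] [Finite G], Nat.card G = n →
    (∀ (r : ℕ) [Fact r.Prime], ∃ q k : ℕ, q.Prime ∧ Nat.card (Sylow r G) ∣ q ^ k) → Group.IsSolvable G := by
  refine H29.SyN.induct (fun G _ _ => ∀ (r : ℕ) [Fact r.Prime], ∃ q k : ℕ, q.Prime ∧ Nat.card (Sylow r G) ∣ q ^ k)
    (fun G _ _ K _ h r _ => (h r).imp fun q k => k.imp fun k e => ⟨e.1, (H29.SyN.dvd_normal K).trans e.2⟩)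
    (fun G _ _ K _ h r _ => (h r).imp fun q k => k.imp fun k e => ⟨e.1, (H29.SyN.dvd_quot K).trans e.2⟩) ?_
  intro G _ _ _ h
  by_contra hG
  -- `f p` is the prime of the Sylow number
  have A : ∀ p : ℕ, p.Prime → p ∣ Nat.card G → ∃ q : ℕ, q.Prime ∧ q ∣ Nat.card G ∧ q ≠ p ∧
      q ∣ Nat.card (Sylow p G) ∧ ∃ k, Nat.card (Sylow p G) ∣ q ^ k := fun p hp hd => by
    haveI := Fact.mk hp
    obtain ⟨q, k, hq, e⟩ := h p
    obtain ⟨r, hr, hr'⟩ := Nat.exists_prime_and_dvd (H29.SyN.ne_one hG hd)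
    obtain rfl := (Nat.prime_dvd_prime_iff_eq hr hq).1 (hr.dvd_of_dvd_pow (hr'.trans e))
    obtain ⟨P⟩ : Nonempty (Sylow p G) := inferInstance
    exact ⟨r, hr, hr'.trans (P.card_dvd_index.trans (Subgroup.index_dvd_card _)),
      fun k => not_dvd_card_sylow p G (k ▸ hr'), hr', k, e⟩
  have B : ∀ p q a b : ℕ, p.Prime → q.Prime → a.Prime → b.Prime → p ∣ Nat.card G → q ∣ Nat.card G →
      (∃ k, Nat.card (Sylow p G) ∣ a ^ k) → (∃ k, Nat.card (Sylow q G) ∣ b ^ k) → a ≠ b → p = b := by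
    rintro p q a b hp hq ha hb h1 h2 ⟨k, e1⟩ ⟨l, e2⟩ ne
    haveI := Fact.mk hp
    haveI := Fact.mk hq
    exact (Nat.prime_dvd_prime_iff_eq hp hb).1 (hp.dvd_of_dvd_pow ((H29.SyN.key hG h1 h2
      (Nat.Coprime.coprime_dvd_left e2 (Nat.Coprime.coprime_dvd_right e1
        (Nat.coprime_pow_primes l k hb ha ne.symm)))).trans e2))
  obtain ⟨p, hp, p1, -⟩ := H29.SyN.third hG Nat.prime_two Nat.prime_two
  obtain ⟨q, hq, q1, q2, -, q3⟩ := A p hp p1
  obtain ⟨r, hr, -, r2, -, r3⟩ := A q hq q1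
  obtain rfl := B p q q r hp hq hq hr p1 q1 q3 r3 r2.symm
  obtain ⟨s, hs, s1, s2, s3⟩ := H29.SyN.third hG hp hq
  obtain ⟨t, ht, -, -, -, t3⟩ := A s hs s1
  by_cases c : t = q
  · exact s2 (B s q t p hs hq ht hp s1 q1 t3 r3 (c ▸ q2))
  · exact s3 (B s p t q hs hp ht hq s1 p1 t3 q3 c)

/-- If for every prime r the number of Sylow r-subgroups of the finite group G is a prime power or 1, then G is solvable. -/
theorem result {G : Type*} [Group G] [Finite G] (h : ∀ (r : ℕ) [Fact r.Prime], Nat.card (Sylow r G) = 1 ∨ IsPrimePow (Nat.card (Sylow r G))) :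
    Group.IsSolvable G := by
  refine main _ G rfl fun r _ => ?_
  rcases h r with e | e
  · exact ⟨2, 0, Nat.prime_two, by simp [e]⟩
  · obtain ⟨q, k, hq, -, e'⟩ := (isPrimePow_nat_iff _).1 e
    exact ⟨q, k, hq, e'.symm ▸ dvd_rfl⟩

end Cfsg.Agent.S3933
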