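import Mathlib
import Cfsg.Statements.S3939
import Cfsg.Agent.BG.Api4
import Cfsg.Agent.H16.Util
import Cfsg.Agent.H03.PResidual
import Cfsg.Agent.H16.PrimPair

set_option autoImplicit false
open Cfsg

namespace Cfsg.Agent.S3939

open BG Cfsg

universe u in
theorem aux {p : ℕ} (hp : p.Prime) (n : ℕ) : ∀ (G : Type u) [Group G] [Finite G], Nat.card G = n →
    ∀ K : Subgroup G, K.Normal → IsPGroup p K → (∀ y : G, (orderOf y).Coprime p → y ∈ C_(K)) →
    ∃ m, K ≤ Subgroup.upperCentralSeries G m := by
  induction n using Nat.strong_induction_on with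
  | _ n ih =>
  intro G _ _ hn K hK hKp hc
  haveI := Fact.mk hp
  by_cases h0 : K = ⊥
  · exact ⟨0, h0.le.trans bot_le⟩
  obtain ⟨P⟩ := (inferInstance : Nonempty (Sylow p G))
  have hZ : Subgroup.center G ≠ ⊥ := by
    refine ne_bot_mono (pg_fix_ne_bot hp P.isPGroup' hKp Subgroup.le_normalizer_of_normal h0) fun x hx => ?_
    have h1 : pResidual p G ⊔ P ≤ C_[x] := sup_le ((Subgroup.closure_le _).2 fun y hy => cent_le_cent1 hx.1 (hc y hy))
      (le_cent1_iff.2 hx.2)
    rw [H03.pResidual_sup_sylow] at h1
    exact Subgroup.mem_center_iff.2 fun g => mem_cent1.1 (h1 (Subgroup.mem_top g))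
  obtain ⟨m, hm⟩ := ih _ (hn ▸ H02.card_quotient_lt hZ) (G ⧸ Subgroup.center G) rfl
    (K.map (QuotientGroup.mk' _)) (hK.map _ (QuotientGroup.mk'_surjective _)) (hKp.map _) (by
      intro y hy
      have h1 : y ∈ (pResidual p G).map (QuotientGroup.mk' (Subgroup.center G)) := by
        rw [H03.pResidual_map_of_surjective _ (QuotientGroup.mk'_surjective _)]
        exact H03.mem_pResidual_of_coprime hy
      obtain ⟨y, hy', rfl⟩ := h1
      have h2 : y ∈ C_(K) := (Subgroup.closure_le _).2 hc hy'
      rintro _ ⟨k, hk, rfl⟩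
      rw [← map_mul, ← map_mul, h2 k hk])
  refine ⟨m + 1, ?_⟩
  rw [← Subgroup.comap_upperCentralSeries_quotient_center]
  exact Subgroup.map_le_iff_le_comap.1 hm

theorem sub_le {G : Type*} [Group G] (H : Subgroup G) (n : ℕ) :
    (Subgroup.upperCentralSeries G n).subgroupOf H ≤ Subgroup.upperCentralSeries H n := by
  induction n with
  | zero => simp
  | succ n ih =>
    intro x hx
    rw [Subgroup.mem_upperCentralSeries_succ_iff]
    exact fun y => ih (Subgroup.mem_upperCentralSeries_succ_iff.1 hx y)

/-- In a finite group G the set of elements g such that the subgroup generated by g and x is nilpotent for every x ∈ G is exactly the hypercenter of G (the last term of the upper central series). -/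
theorem result {G : Type*} [Group G] [Finite G] (g : G) :
    (∀ x : G, Group.IsNilpotent ↥(Subgroup.closure ({x, g} : Set G))) ↔ g ∈ ⨆ n : ℕ, Subgroup.upperCentralSeries G n := by
  constructor
  · intro h
    refine H16.le_of_primePow (K := Subgroup.zpowers g) (fun p k x hp hx ho => ?_) (Subgroup.mem_zpowers g)
    haveI := Fact.mk hp
    have hxc : ∀ y : G, (orderOf y).Coprime p → y ∈ C_(Subgroup.zpowers x) := by
      intro y hy
      refine nil_cent_of_coprime (h y) (A := Subgroup.zpowers y) (by simpa using Subgroup.subset_closure (by simp))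
        (le_trans (by simpa using hx) (show Subgroup.zpowers g ≤ _ by simpa using Subgroup.subset_closure (by simp)))
        (by rw [card_zpowers, card_zpowers, ho]; exact hy.pow_right k) (Subgroup.mem_zpowers y)
    have hle := H16.le_pcore_of_coprime_norm hp (H16.isPGroup_zpowers ho) (D := ⊤) le_top
      fun d _ hd => cent_le_norm _ (hxc d hd)
    let K := piCoreOf {p} (⊤ : Subgroup G) ⊓ C_(pResidual p G)
    have hK : K.Normal := by
      rw [← Subgroup.normalizer_eq_top_iff, eq_top_iff]
      exact norm_inf (le_norm_pcore _ _) (norm_cent Subgroup.le_normalizer_of_normal)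
    obtain ⟨m, hm⟩ := aux hp _ G rfl K hK (pg_le (pcore_pg hp _) inf_le_left) fun y hy =>
      cent_symm (inf_le_right : K ≤ _) (H03.mem_pResidual_of_coprime hy)
    refine le_iSup (Subgroup.upperCentralSeries G) m (hm ⟨hle (Subgroup.mem_zpowers x), ?_⟩)
    exact cent_symm (show pResidual p G ≤ _ from (Subgroup.closure_le _).2 hxc) (Subgroup.mem_zpowers x)
  · intro h x
    obtain ⟨n, hn⟩ := (Subgroup.mem_iSup_of_directed (Subgroup.upperCentralSeries_mono G).directed_le).1 h
    set H := Subgroup.closure ({x, g} : Set G) with hH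
    have hx : x ∈ H := Subgroup.subset_closure (by simp)
    have hg : g ∈ H := Subgroup.subset_closure (by simp)
    refine ⟨n + 1, eq_top_iff.2 ?_⟩
    let φ := QuotientGroup.mk' (Subgroup.upperCentralSeries H n)
    have h1 : φ ⟨g, hg⟩ = 1 := (QuotientGroup.eq_one_iff _).2 (sub_le H n hn)
    have h2 : ∀ y : H, φ y ∈ Subgroup.zpowers (φ ⟨x, hx⟩) := by
      rintro ⟨y, hy⟩
      induction hy using Subgroup.closure_induction with
      | mem z hz =>
        rcases hz with rfl | rfl
        · exact Subgroup.mem_zpowers _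
        · rw [h1]; exact one_mem _
      | one => exact (map_one φ).symm ▸ one_mem _
      | mul a b ha hb iha ihb => exact (map_mul φ ⟨a, ha⟩ ⟨b, hb⟩).symm ▸ mul_mem iha ihb
      | inv a ha iha => exact (map_inv φ ⟨a, ha⟩).symm ▸ inv_mem iha
    intro a _
    rw [Subgroup.mem_upperCentralSeries_succ_iff]
    intro b
    rw [← QuotientGroup.eq_one_iff]
    change φ _ = 1
    simp only [commutatorElement_def, map_mul, map_inv]
    rw [(commute_of_mem_zpowers (h2 a) (h2 b)).eq]; group

end Cfsg.Agent.S3939
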