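import Mathlib
import Cfsg.Statements.S3941
import Cfsg.Agent.H16.Util

set_option autoImplicit false
open Cfsg

namespace Cfsg.Agent.S3941

open Equiv Equiv.Perm

/-- Let n ≥ 5 and p an odd prime with p ≤ n, and suppose that every proper subgroup of the alternating group of degree n whose order is divisible by p has a normal Sylow p-subgroup. Then n = p. -/
theorem result (n p : ℕ) (hn : 5 ≤ n) [Fact p.Prime] (hp : p ≠ 2) (hpn : p ≤ n)
    (h : ∀ H : Subgroup ↥(alternatingGroup (Fin n)), H ≠ ⊤ → p ∣ Nat.card ↥H → Cfsg.IsPClosed p ↥H) : n = p := by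
  have hpp := (Fact.out : p.Prime)
  by_contra hne
  obtain ⟨m, rfl⟩ : ∃ m, n = m + 1 := ⟨n - 1, by omega⟩
  have hpm : p ≤ m := by omega
  have hp3 : 3 ≤ p := by
    have := hpp.two_le
    omega
  let H : Subgroup ↥(alternatingGroup (Fin (m + 1))) := MulAction.stabilizer _ (Fin.last m)
  let f : ℕ → Fin (m + 1) := fun i => Fin.ofNat (m + 1) i
  have hf : ∀ i, i ≤ m → (f i : ℕ) = i := fun i hi => by simp [f, Nat.mod_eq_of_lt (Nat.lt_succ_of_le hi)]
  have hfne : ∀ i j, i ≤ m → j ≤ m → i ≠ j → f i ≠ f j := fun i j hi hj hij h => hij (by rw [← hf i hi, ← hf j hj, h])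
  have hlast : Fin.last m = f m := Fin.ext (by rw [hf m le_rfl]; rfl)
  have hH : H ≠ ⊤ := by
    intro ht
    have h1 : (⟨swap (f 0) (f 1) * swap (f 0) (f m), by simp [mem_alternatingGroup, hfne 0 1 (by omega) (by omega) (by omega), hfne 0 m (by omega) (by omega) (by omega)]⟩ : alternatingGroup (Fin (m + 1))) ∈ H := ht ▸ Subgroup.mem_top _
    change (swap (f 0) (f 1) * swap (f 0) (f m)) (Fin.last m) = Fin.last m at h1
    rw [hlast, mul_apply, swap_apply_right, swap_apply_left] at h1
    exact hfne 1 m (by omega) le_rfl (by omega) h1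
  have key : ∀ a b : Perm (Fin (m + 1)), orderOf a = p → orderOf b = p → a (Fin.last m) = Fin.last m →
      b (Fin.last m) = Fin.last m → ∃ k, orderOf (a * b) = p ^ k := by
    intro a b ha hb ha' hb'
    have hev : ∀ c : Perm (Fin (m + 1)), orderOf c = p → c ∈ alternatingGroup (Fin (m + 1)) := by
      intro c hc
      apply H16.mem_of_coprime_index
      rw [hc]
      haveI : Nontrivial (Fin (m + 1)) := Fin.nontrivial_iff_two_le.2 (by omega)
      rw [alternatingGroup.index_eq_two]
      exact (Nat.coprime_primes hpp Nat.prime_two).2 hp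
    let a' : H := ⟨⟨a, hev a ha⟩, ha'⟩
    let b' : H := ⟨⟨b, hev b hb⟩, hb'⟩
    have ha2 : orderOf a' = p ^ 1 := by rw [pow_one, ← ha, ← Subgroup.orderOf_coe, ← Subgroup.orderOf_coe]
    have hb2 : orderOf b' = p ^ 1 := by rw [pow_one, ← hb, ← Subgroup.orderOf_coe, ← Subgroup.orderOf_coe]
    obtain ⟨P⟩ : Nonempty (Sylow p H) := inferInstance
    haveI := h H hH (by rw [← pow_one p, ← ha2]; exact orderOf_dvd_natCard _) P
    obtain ⟨k, hk⟩ := H16.exists_orderOf_eq_of_mem P.isPGroup' (mul_mem (H16.mem_of_normal_sylow P ha2) (H16.mem_of_normal_sylow P hb2))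
    refine ⟨k, ?_⟩
    rw [← hk, ← Subgroup.orderOf_coe, ← Subgroup.orderOf_coe]
    rfl
  by_cases hp3' : p = 3
  · subst hp3'
    have h01 := hfne 0 1 (by omega) (by omega) (by omega)
    have h02 := hfne 0 2 (by omega) (by omega) (by omega)
    have h03 := hfne 0 3 (by omega) (by omega) (by omega)
    have h12 := hfne 1 2 (by omega) (by omega) (by omega)
    have h13 := hfne 1 3 (by omega) (by omega) (by omega)
    have h23 := hfne 2 3 (by omega) (by omega) (by omega)
    have h0m := hfne 0 m (by omega) (by omega) (by omega)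
    have h1m := hfne 1 m (by omega) (by omega) (by omega)
    have h2m := hfne 2 m (by omega) (by omega) (by omega)
    have h3m := hfne 3 m (by omega) (by omega) (by omega)
    obtain ⟨k, hk⟩ := key (swap (f 0) (f 1) * swap (f 0) (f 2)) (swap (f 2) (f 0) * swap (f 2) (f 3))
      (isThreeCycle_swap_mul_swap_same h01 h02 h12).orderOf
      (isThreeCycle_swap_mul_swap_same h02.symm h23 h03).orderOf
      (by rw [hlast, mul_apply, swap_apply_of_ne_of_ne h0m.symm h2m.symm, swap_apply_of_ne_of_ne h0m.symm h1m.symm])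
      (by rw [hlast, mul_apply, swap_apply_of_ne_of_ne h2m.symm h3m.symm, swap_apply_of_ne_of_ne h2m.symm h0m.symm])
    rw [swap_comm (f 2) (f 0), mul_assoc, swap_mul_self_mul] at hk
    have hd : Perm.Disjoint (swap (f 0) (f 1)) (swap (f 2) (f 3)) := disjoint_swap_swap (by simp [h01, h02, h03, h12, h13, h23])
    rw [hd.orderOf, IsSwap.orderOf ⟨_, _, h01, rfl⟩, IsSwap.orderOf ⟨_, _, h23, rfl⟩] at hk
    have : (3 : ℕ) ^ k % 2 = 1 := Nat.odd_iff.1 (Odd.pow (by decide))
    rw [← hk] at this
    simp at this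
  · have hp4 : 4 ≤ p := by omega
    let i : Fin (m + 1) := f (p - 1)
    have hi : (i : ℕ) = p - 1 := hf _ (by omega)
    have hi0 : i ≠ 0 := by
      intro h0; rw [h0] at hi; simp at hi; omega
    have hσ : orderOf (Fin.cycleRange i) = p := by
      rw [← lcm_cycleType, Fin.cycleType_cycleRange hi0, hi]
      simp; omega
    have hσl : Fin.cycleRange i (Fin.last m) = Fin.last m := Fin.cycleRange_of_gt (by rw [Fin.lt_def, hi]; simp; omega)
    have hσa : ∀ j, j < p - 1 → Fin.cycleRange i (f j) = f (j + 1) := by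
      intro j hj
      apply Fin.ext
      rw [Fin.coe_cycleRange_of_lt (by rw [Fin.lt_def, hi, hf j (by omega)]; exact hj), hf j (by omega), hf _ (by omega)]
    have h01 := hfne 0 1 (by omega) (by omega) (by omega)
    have h02 := hfne 0 2 (by omega) (by omega) (by omega)
    have h12 := hfne 1 2 (by omega) (by omega) (by omega)
    have h0m := hfne 0 m (by omega) (by omega) (by omega)
    have h1m := hfne 1 m (by omega) (by omega) (by omega)
    obtain ⟨k, hk⟩ := key (Fin.cycleRange i) (swap (f 0) (f 1) * (Fin.cycleRange i)⁻¹ * (swap (f 0) (f 1))⁻¹) hσ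
      (by rw [← hσ, ← orderOf_inv (Fin.cycleRange i)]; exact (MulAut.conj (swap (f 0) (f 1))).orderOf_eq _) hσl
      (by
        rw [swap_inv, mul_apply, mul_apply, hlast, swap_apply_of_ne_of_ne h0m.symm h1m.symm, ← hlast]
        have : (Fin.cycleRange i)⁻¹ (Fin.last m) = Fin.last m := by
          rw [Perm.inv_eq_iff_eq, hσl]
        rw [this, hlast, swap_apply_of_ne_of_ne h0m.symm h1m.symm])
    have h3 : Fin.cycleRange i * (swap (f 0) (f 1) * (Fin.cycleRange i)⁻¹ * (swap (f 0) (f 1))⁻¹) =
        swap (f 1) (f 2) * swap (f 1) (f 0) := by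
      rw [← mul_assoc, ← mul_assoc, ← swap_apply_apply, hσa 0 (by omega), hσa 1 (by omega), swap_inv, swap_comm (f 0)]
    rw [h3, (isThreeCycle_swap_mul_swap_same h12 h01.symm h02.symm).orderOf] at hk
    cases k with
    | zero => simp at hk
    | succ k =>
      have : p ∣ 3 := hk ▸ dvd_pow_self p (Nat.succ_ne_zero k)
      have := Nat.le_of_dvd (by norm_num) this
      omega

end Cfsg.Agent.S3941
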