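import Mathlib
import Cfsg.Statements.S3946
import Cfsg.Agent.H02.PT1

set_option autoImplicit false
open Cfsg

namespace Cfsg.Agent.S3946

/-- Call an automorphism α of order n of a group G splitting when x · α(x) · α²(x) ⋯ α^(n−1)(x) = 1 for every x ∈ G. A finite group admitting a splitting automorphism of prime order is nilpotent (this contains the case of a fixed-point-free automorphism of prime order). -/
theorem result {G : Type*} [Group G] [Finite G] (α : MulAut G) (hp : (orderOf α).Prime)
    (hsplit : ∀ x : G, (((List.range (orderOf α)).map (fun i : ℕ => (α ^ i) x)).prod = 1)) : Group.IsNilpotent G := by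
  let X := G ⋊[MonoidHom.id (MulAut G)] MulAut G
  have : Finite X := Finite.of_equiv _ SemidirectProduct.equivProd.symm
  have h1 : ((SemidirectProduct.inl : G →* X).range).Normal := by
    rw [SemidirectProduct.range_inl_eq_ker_rightHom]; infer_instance
  have k : ∀ (g : G) (n : ℕ), (⟨g, α⟩ : X) ^ n = ⟨((List.range n).map fun i : ℕ => (α ^ i) g).prod, α ^ n⟩ := by
    intro g n
    induction n with
    | zero => rfl
    | succ n ih =>
      rw [pow_succ, ih, List.range_succ, List.map_append, List.prod_append, pow_succ]
      simp only [List.map_cons, List.map_nil, List.prod_cons, List.prod_nil, mul_one]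
      rfl
  have := H02.PT.kegel (K := (SemidirectProduct.inl : G →* X).range) (a := SemidirectProduct.inr α) hp
    (by rw [Subgroup.normalizer_eq_top]; trivial) (by
      rintro _ ⟨g, rfl⟩
      rw [show (SemidirectProduct.inr α * SemidirectProduct.inl g : X) = ⟨α g, α⟩ by ext <;> simp [X], k, hsplit,
        pow_orderOf_eq_one]
      rfl)
  exact Group.nilpotent_of_mulEquiv (MonoidHom.ofInjective (f := (SemidirectProduct.inl : G →* X))
    SemidirectProduct.inl_injective).symm

end Cfsg.Agent.S3946
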