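import Mathlib
import Cfsg.Statements.S3949
import Cfsg.Agent.H16.Util

set_option autoImplicit false
open Cfsg

namespace Cfsg.Agent.S3949

/-- Let G be a finite group and α an automorphism of G of order 2 such that the elements g·α(g)⁻¹ generate G. Let j be a positive integer such that 2^j divides the order of no element inverted by α. Then the set of values of the j-th iterate of the map c ↦ c·α(c)⁻¹ is exactly the set of elements of odd order inverted by α. -/
theorem result {G : Type*} [Group G] [Finite G] (α : MulAut G) (hα : orderOf α = 2) (hG : Subgroup.closure (Set.range (fun c : G => c * (α c)⁻¹)) = ⊤)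
    (j : ℕ) (hj : ∀ g : G, α g = g⁻¹ → ¬ 2 ^ j ∣ orderOf g) :
    Set.range ((fun c : G => c * (α c)⁻¹)^[j]) = {g : G | Odd (orderOf g) ∧ α g = g⁻¹} := by
  have hα2 : ∀ g, α (α g) = g := by
    intro g
    have : α ^ 2 = 1 := by rw [← hα, pow_orderOf_eq_one]
    rw [← MulAut.mul_apply, ← pow_two, this, MulAut.one_apply]
  set f : G → G := fun c => c * (α c)⁻¹ with hf
  have h1 : ∀ c, α (f c) = (f c)⁻¹ := by
    intro c; simp [hf, hα2]
  have h2 : ∀ g, α g = g⁻¹ → f g = g ^ 2 := by
    intro g hg; simp [hf, hg, pow_two]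
  have h3 : ∀ (k : ℕ) g, α g = g⁻¹ → f^[k] g = g ^ 2 ^ k := by
    intro k
    induction k with
    | zero => intro g _; simp
    | succ k ih =>
      intro g hg
      rw [Function.iterate_succ_apply, ih _ (h1 g), h2 g hg, ← pow_mul, ← pow_succ']
  cases j with
  | zero => exact absurd (by simp) (hj 1 (by simp))
  | succ j =>
    ext g
    constructor
    · rintro ⟨c, rfl⟩
      rw [Function.iterate_succ_apply, h3 j _ (h1 c)]
      refine ⟨?_, by rw [map_pow, h1, inv_pow]⟩
      have h4 := hj _ (h1 c)
      obtain ⟨a, m, hm, hma⟩ := Nat.exists_eq_two_pow_mul_odd (orderOf_pos (f c)).ne'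
      have ha : a ≤ j := by
        by_contra h
        exact h4 (hma ▸ (pow_dvd_pow 2 (by omega)).mul_right m)
      apply Odd.of_dvd_nat hm
      apply orderOf_dvd_of_pow_eq_one
      rw [← pow_mul, ← orderOf_dvd_iff_pow_eq_one, hma]
      exact Nat.mul_dvd_mul_right (pow_dvd_pow 2 ha) m
    · rintro ⟨hodd, hg⟩
      obtain ⟨m, hm⟩ := exists_pow_eq_self_of_coprime (x := g) (n := 2 ^ (j + 1)) ((Nat.coprime_two_left.2 hodd).pow_left _)
      refine ⟨g ^ m, ?_⟩
      rw [h3 _ _ (by rw [map_pow, hg, inv_pow]), ← pow_mul, mul_comm, pow_mul, hm]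

end Cfsg.Agent.S3949
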