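import Mathlib
import Cfsg.Statements.S3982
import Cfsg.Agent.H16.Util
import Cfsg.Agent.H04.Basic
import Cfsg.Agent.H01.Coprime
import Cfsg.Agent.H02.Frobenius

set_option autoImplicit false
open Cfsg

namespace Cfsg.Agent.S3982

open scoped Pointwise

/-- Let p be an odd prime and G a finite group of even order divisible by p in which the centralizer of every non-identity p-element has odd order. If some nontrivial p-subgroup of G has a normalizer of even order, then the normalizer of every Sylow p-subgroup of G has even order. -/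
theorem result {G : Type*} [Group G] [Finite G] (p : ℕ) [Fact p.Prime] (hp2 : p ≠ 2) (hpG : p ∣ Nat.card G) (h2G : 2 ∣ Nat.card G) (hC : ∀ g : G, g ≠ 1 → (∃ k : ℕ, orderOf g = p ^ k) → Odd (Nat.card ↥(Subgroup.centralizer ({g} : Set G)))) (Q : Subgroup G) (hQ : IsPGroup p ↥Q) (hQ1 : Q ≠ ⊥) (hev : Even (Nat.card ↥(Subgroup.normalizer (Q : Set G)))) (P : Sylow p G) : Even (Nat.card ↥(Subgroup.normalizer ((P : Subgroup G) : Set G))) := by
  have hp := (Fact.out : p.Prime)
  obtain ⟨⟨y, hyQ⟩, hy⟩ := exists_prime_orderOf_dvd_card' 2 (even_iff_two_dvd.1 hev)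
  rw [Subgroup.orderOf_mk] at hy
  have hy2 : y * y = 1 := by rw [← pow_two, ← hy, pow_orderOf_eq_one]
  obtain ⟨R, ⟨hR, hQR, hyR⟩, hmax⟩ := exists_maximal_of_wellFoundedGT
    (fun R : Subgroup G => IsPGroup p R ∧ Q ≤ R ∧ y ∈ Subgroup.normalizer (R : Set G)) ⟨Q, hQ, le_rfl, hyQ⟩
  have hodd : ∀ g ∈ R, g ≠ 1 → Odd (Nat.card ↥(Subgroup.centralizer ({g} : Set G))) :=
    fun g hg h1 => hC g h1 (H16.exists_orderOf_eq_of_mem hR hg)
  have hfix : R ⊓ Subgroup.centralizer {y} = ⊥ := by
    rw [eq_bot_iff]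
    rintro g ⟨hg, hgy⟩
    by_contra h1
    have h2 : y ∈ Subgroup.centralizer ({g} : Set G) := by
      rw [Subgroup.mem_centralizer_singleton_iff]
      exact (Subgroup.mem_centralizer_singleton_iff.1 hgy).symm
    have h3 := Subgroup.orderOf_dvd_natCard _ h2
    rw [hy] at h3
    exact (Nat.not_even_iff_odd.2 (hodd g hg h1)) (even_iff_two_dvd.2 h3)
  have hinv : ∀ k ∈ R, y * k * y⁻¹ = k⁻¹ := fun k hk => H02.fpf_involution_inverts hyR hy2 hfix hk
  obtain ⟨S, hRS⟩ := hR.exists_le_sylow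
  have hRS' : R = S := by
    by_contra hne
    obtain ⟨x, hxS, hxN, hxR, hxp⟩ := H04.exists_card_mul_of_lt S.isPGroup' (lt_of_le_of_ne hRS hne)
    set C := Subgroup.centralizer (R : Set G) with hCdef
    have hRC : R ≤ C := by
      intro a ha b hb
      have h1 := hinv _ (R.mul_mem (R.inv_mem ha) (R.inv_mem hb))
      have h2 : y * (a⁻¹ * b⁻¹) * y⁻¹ = (y * a⁻¹ * y⁻¹) * (y * b⁻¹ * y⁻¹) := by group
      rw [h2, hinv _ (R.inv_mem ha), hinv _ (R.inv_mem hb)] at h1
      simpa using h1.symm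
    have hNC : Subgroup.normalizer (R : Set G) ≤ Subgroup.normalizer (C : Set G) := by
      intro n hn
      apply H16.mem_normalizer_of_conj_mem
      intro c hc r hr
      have := hc _ ((Subgroup.mem_normalizer_iff.1 (inv_mem hn) r).1 hr)
      calc r * (n * c * n⁻¹) = n * ((n⁻¹ * r * n⁻¹⁻¹) * c) * n⁻¹ := by group
        _ = _ := by rw [this]; group
    have hcomm : y * x * y⁻¹ * x⁻¹ ∈ C := by
      intro r hr
      have h1 := hinv _ ((Subgroup.mem_normalizer_iff.1 (inv_mem hxN) r).1 hr)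
      have h2 := hinv _ (R.inv_mem hr)
      have hyi : y⁻¹ = y := inv_eq_of_mul_eq_one_right hy2
      rw [hyi] at h1 h2 ⊢
      calc r * (y * x * y * x⁻¹) = (y * r⁻¹ * y) * (y * x * y * x⁻¹) := by rw [h2, inv_inv]
        _ = y * r⁻¹ * (y * y) * x * y * x⁻¹ := by group
        _ = y * x * (x⁻¹ * r * x⁻¹⁻¹)⁻¹ * y * x⁻¹ := by rw [hy2]; group
        _ = y * x * (y * (x⁻¹ * r * x⁻¹⁻¹) * y) * y * x⁻¹ := by rw [h1]
        _ = y * x * y * (x⁻¹ * r * x⁻¹⁻¹) * (y * y) * x⁻¹ := by simp only [mul_assoc]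
        _ = _ := by rw [hy2]; group
    obtain ⟨k, hk⟩ := H16.exists_orderOf_eq_of_mem S.isPGroup' hxS
    set D := C ⊔ Subgroup.zpowers x with hD
    have hyD : y ∈ Subgroup.normalizer (D : Set G) := by
      apply H16.mem_normalizer_of_conj_mem
      have : D ≤ D.comap (MulAut.conj y).toMonoidHom := by
        refine sup_le (fun a ha => ?_) (Subgroup.zpowers_le.2 ?_)
        · exact Subgroup.mem_sup_left ((Subgroup.mem_normalizer_iff.1 (hNC hyR) a).1 ha)
        · change y * x * y⁻¹ ∈ D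
          have : y * x * y⁻¹ = (y * x * y⁻¹ * x⁻¹) * x := by group
          rw [this]
          exact mul_mem (Subgroup.mem_sup_left hcomm) (Subgroup.mem_sup_right (Subgroup.mem_zpowers x))
      exact fun a ha => this ha
    have hCodd : Odd (Nat.card C) := by
      obtain ⟨⟨g, hg⟩, hg1⟩ := (Subgroup.ne_bot_iff_exists_ne_one).1 hQ1
      refine Odd.of_dvd_nat (hodd g (hQR hg) (fun h => hg1 (Subtype.ext h))) (Subgroup.card_dvd_of_le ?_)
      exact Subgroup.centralizer_le (Set.singleton_subset_iff.2 (hQR hg))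
    have hxC : x ∈ Subgroup.normalizer (C : Set G) := hNC hxN
    have hDodd : Odd (Nat.card D) := by
      by_cases hx : x ∈ C
      · rw [hD, sup_eq_left.2 (Subgroup.zpowers_le.2 hx)]; exact hCodd
      · rw [hD, H04.card_sup_zpowers C hxC hx (hRC hxp)]
        exact (hp.odd_of_ne_two hp2).mul hCodd
    have hDN : D ≤ Subgroup.normalizer (R : Set G) :=
      sup_le (Subgroup.centralizer_le_normalizer _) (Subgroup.zpowers_le.2 hxN)
    obtain ⟨T, hRT, hTD, hT, hTi, hyT⟩ := H01.exists_invariant_sylow_le (A := Subgroup.zpowers y) (K := D)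
      (Subgroup.zpowers_le.2 hyD) (by rw [Nat.card_zpowers, hy]; exact Nat.coprime_two_left.2 hDodd)
      (Or.inl inferInstance) (hRC.trans le_sup_left) hR (Subgroup.zpowers_le.2 hyR)
    have hTR : T ≤ R := hmax ⟨hT, hQR.trans hRT, hyT (Subgroup.mem_zpowers y)⟩ hRT
    have hTR' : T = R := le_antisymm hTR hRT
    subst hTR'
    have h1 : T.relIndex (T ⊔ Subgroup.zpowers x) = p := H04.relIndex_sup_zpowers T hxN hxR hxp
    apply hTi
    rw [← h1]
    have h2 : T ⊔ Subgroup.zpowers x ≤ D := sup_le hTD le_sup_right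
    rw [← Subgroup.relIndex_mul_relIndex T (T ⊔ Subgroup.zpowers x) D le_sup_left h2]
    exact Dvd.intro _ rfl
  obtain ⟨g, rfl⟩ := MulAction.exists_smul_eq G S P
  have hy' : g * y * g⁻¹ ∈ Subgroup.normalizer (((g • S : Sylow p G) : Subgroup G) : Set G) := by
    apply H16.mem_normalizer_of_conj_mem
    intro a ha
    rw [H16.mem_sylow_smul] at ha ⊢
    have := (Subgroup.mem_normalizer_iff.1 (hRS' ▸ hyR) _).1 ha
    convert this using 1
    group
  have h3 := Subgroup.orderOf_dvd_natCard _ hy'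
  have h4 : orderOf (g * y * g⁻¹) = 2 := by
    rw [← hy]; exact (MulAut.conj g).orderOf_eq y
  rw [h4] at h3
  exact even_iff_two_dvd.2 h3

end Cfsg.Agent.S3982
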