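import Mathlib
import Cfsg.Statements.S3983
import Cfsg.Agent.H16.Util

set_option autoImplicit false
open scoped Pointwise
open Cfsg

namespace Cfsg.Agent.S3983

/-- Let P be a Sylow p-subgroup of the finite group G that meets each conjugate g P g⁻¹ with g outside N_G(P) trivially, and let U be a subgroup of G of order divisible by p. Then a Sylow p-subgroup Q of U has the same property inside U: Q meets each conjugate u Q u⁻¹ with u ∈ U outside N_U(Q) trivially. -/
theorem result {G : Type*} [Group G] [Finite G] (p : ℕ) [Fact p.Prime] (P : Sylow p G) (hTI : ∀ g : G, g ∉ Subgroup.normalizer ((P : Subgroup G) : Set G) → (P : Subgroup G) ⊓ (MulAut.conj g • (P : Subgroup G)) = ⊥) (U : Subgroup G) (hU : p ∣ Nat.card ↥U) (Q : Sylow p ↥U) : ∀ u : ↥U, u ∉ Subgroup.normalizer ((Q : Subgroup ↥U) : Set ↥U) → (Q : Subgroup ↥U) ⊓ (MulAut.conj u • (Q : Subgroup ↥U)) = ⊥ := by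
  intro u hu
  rw [eq_bot_iff]
  rintro x ⟨hx1, hx2⟩
  by_contra hx
  apply hu
  obtain ⟨R, hR⟩ := Q.exists_comap_subtype_eq
  have h1 : (x : G) ∈ (R : Subgroup G) := by
    have : x ∈ (Q : Subgroup U) := hx1
    rw [← hR] at this; exact this
  have h2 : (x : G) ∈ (((u : G) • R : Sylow p G) : Subgroup G) := by
    have : u⁻¹ * x * u ∈ (Q : Subgroup U) := H16.mem_conj_smul.1 hx2
    rw [← hR] at this
    exact H16.mem_sylow_smul.2 this
  have h3 := H16.sylow_eq_of_TI P hTI _ _ (fun h => hx (Subtype.ext h)) h1 h2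
  have h4 := Sylow.smul_eq_iff_mem_normalizer.1 h3.symm
  apply H16.mem_normalizer_of_conj_mem
  intro a ha
  rw [← hR] at ha ⊢
  exact (Subgroup.mem_normalizer_iff.1 h4 (a : G)).1 ha

end Cfsg.Agent.S3983
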