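import Mathlib
import Cfsg.Statements.S3984
import Cfsg.Agent.H16.Util
import Cfsg.Agent.H03.Fusion

set_option autoImplicit false
open scoped Pointwise
open Cfsg

namespace Cfsg.Agent.S3984

/-- Let P be a Sylow p-subgroup of the finite group G that meets each conjugate g P g⁻¹ with g outside N_G(P) trivially, and let N be a normal subgroup of G of order prime to p. Then every Sylow p-subgroup Q of G ⧸ N meets each conjugate x Q x⁻¹ with x outside its normalizer trivially. -/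
theorem result {G : Type*} [Group G] [Finite G] (p : ℕ) [Fact p.Prime] (P : Sylow p G) (hTI : ∀ g : G, g ∉ Subgroup.normalizer ((P : Subgroup G) : Set G) → (P : Subgroup G) ⊓ (MulAut.conj g • (P : Subgroup G)) = ⊥) (N : Subgroup G) [N.Normal] (hN : (Nat.card ↥N).Coprime p) (Q : Sylow p (G ⧸ N)) : ∀ x : G ⧸ N, x ∉ Subgroup.normalizer ((Q : Subgroup (G ⧸ N)) : Set (G ⧸ N)) → (Q : Subgroup (G ⧸ N)) ⊓ (MulAut.conj x • (Q : Subgroup (G ⧸ N))) = ⊥ := by
  intro x hx
  rw [eq_bot_iff]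
  rintro y ⟨hy1, hy2⟩
  by_contra hy
  apply hx
  obtain ⟨R, hR⟩ := Sylow.mapSurjective_surjective (QuotientGroup.mk'_surjective N) p Q
  have hR' : (R : Subgroup G).map (QuotientGroup.mk' N) = Q := by rw [← hR]; rfl
  obtain ⟨g, rfl⟩ := QuotientGroup.mk'_surjective N x
  have hy3 : (QuotientGroup.mk' N g)⁻¹ * y * QuotientGroup.mk' N g ∈ (Q : Subgroup (G ⧸ N)) := H16.mem_conj_smul.1 hy2
  rw [← hR'] at hy3
  obtain ⟨a, ha, hay⟩ := hy3
  -- b = g a g⁻¹ ∈ g • R maps to y ∈ Q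
  set C := (Q : Subgroup (G ⧸ N)).comap (QuotientGroup.mk' N) with hC
  have hRC : (R : Subgroup G) ≤ C := by rw [hC, ← hR']; exact Subgroup.le_comap_map _ _
  have hb : QuotientGroup.mk' N (g * a * g⁻¹) = y := by
    rw [map_mul, map_mul, hay, map_inv]; group
  obtain ⟨k, hk⟩ := H16.exists_orderOf_eq_of_mem R.isPGroup' ha
  have hbo : orderOf (g * a * g⁻¹) = p ^ k := by rw [← hk]; exact (MulAut.conj g).orderOf_eq a
  obtain ⟨c, hc, hcb⟩ := H03.exists_conj_mem_of_not_dvd_relIndex (C := C) R.isPGroup'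
    (fun h => R.not_dvd_index (h.trans (Subgroup.relIndex_dvd_index_of_le hRC)))
    (H16.isPGroup_zpowers hbo) (Subgroup.zpowers_le.2 (by rw [hC, Subgroup.mem_comap, hb]; exact hy1))
  have h1 := hcb _ (Subgroup.mem_zpowers _)
  have h2 : c * (g * a * g⁻¹) * c⁻¹ ∈ (((c * g) • R : Sylow p G) : Subgroup G) := by
    rw [H16.mem_sylow_smul]
    have : (c * g)⁻¹ * (c * (g * a * g⁻¹) * c⁻¹) * (c * g) = a := by group
    rw [this]; exact ha
  have h3 := H16.sylow_eq_of_TI P hTI _ _ (fun h => hy (by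
    have : g * a * g⁻¹ = 1 := by
      calc g * a * g⁻¹ = c⁻¹ * (c * (g * a * g⁻¹) * c⁻¹) * c := by group
        _ = 1 := by rw [h]; group
    rw [← hb, this, map_one]; exact one_mem _)) h1 h2
  have h4 := Sylow.smul_eq_iff_mem_normalizer.1 h3.symm
  have h5 : QuotientGroup.mk' N (c * g) ∈ Subgroup.normalizer ((Q : Subgroup (G ⧸ N)) : Set (G ⧸ N)) := by
    rw [← hR']
    exact Subgroup.le_normalizer_map _ (Subgroup.mem_map_of_mem _ h4)
  have h6 : QuotientGroup.mk' N c ∈ Subgroup.normalizer ((Q : Subgroup (G ⧸ N)) : Set (G ⧸ N)) :=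
    Subgroup.le_normalizer hc
  have := mul_mem (inv_mem h6) h5
  rwa [map_mul, inv_mul_cancel_left] at this

end Cfsg.Agent.S3984
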