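import Mathlib
import Cfsg.Statements.S3985
import Cfsg.Agent.H16.Util
import Cfsg.Agent.H01.Coprime2

set_option autoImplicit false
open scoped Pointwise
open Cfsg

namespace Cfsg.Agent.S3985

open scoped commutatorElement

/-- Let P be a cyclic Sylow p-subgroup of the finite group G. Then P meets each conjugate g P g⁻¹ with g outside N_G(P) trivially if and only if P is weakly self-centralizing: C_G(x) = C_G(P) for every non-identity x ∈ P. -/
theorem result {G : Type*} [Group G] [Finite G] (p : ℕ) [Fact p.Prime] (P : Sylow p G) (hcyc : IsCyclic ↥(P : Subgroup G)) : (∀ g : G, g ∉ Subgroup.normalizer ((P : Subgroup G) : Set G) → (P : Subgroup G) ⊓ (MulAut.conj g • (P : Subgroup G)) = ⊥) ↔ ∀ x : G, x ∈ (P : Subgroup G) → x ≠ 1 → Subgroup.centralizer ({x} : Set G) = Subgroup.centralizer ((P : Subgroup G) : Set G) := by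
  constructor
  · intro hTI x hx hx1
    apply le_antisymm _ (Subgroup.centralizer_le (Set.singleton_subset_iff.2 hx))
    have hN : Subgroup.centralizer {x} ≤ Subgroup.normalizer ((P : Subgroup G) : Set G) := by
      intro g hg
      by_contra h
      have : x ∈ (P : Subgroup G) ⊓ (MulAut.conj g • (P : Subgroup G)) := by
        refine Subgroup.mem_inf.2 ⟨hx, H16.mem_conj_smul.2 ?_⟩
        rw [mul_assoc, ← Subgroup.mem_centralizer_singleton_iff.1 hg, inv_mul_cancel_left]
        exact hx
      rw [hTI g h] at this
      exact hx1 this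
    apply H16.le_of_primePow
    intro q k g hq hg hgo
    by_cases hqp : q = p
    · subst hqp
      exact Subgroup.le_centralizer _ (H16.mem_sylow_of_mem_normalizer P hgo (hN hg))
    · have hcop : (Nat.card (Subgroup.zpowers g)).Coprime (Nat.card (P : Subgroup G)) := by
        obtain ⟨n, hn⟩ := IsPGroup.iff_card.1 P.isPGroup'
        rw [Nat.card_zpowers, hgo, hn]
        exact Nat.Coprime.pow _ _ ((Nat.coprime_primes hq Fact.out).2 hqp)
      rcases IsPGroup.commutator_eq_bot_or_commutator_eq_self P.isPGroup'
        (Subgroup.zpowers_le.2 (hN hg)) hcop.symm with h | h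
      · exact Subgroup.commutator_eq_bot_iff_le_centralizer.1 h (Subgroup.mem_zpowers g)
      · exfalso
        have h2 := H01.centralizer_inf_commutator_eq_bot (Subgroup.zpowers_le.2 (hN hg)) hcop
        rw [Subgroup.commutator_comm, h] at h2
        have : x ∈ ((P : Subgroup G) ⊓ Subgroup.centralizer ((Subgroup.zpowers g : Subgroup G) : Set G)) ⊓ (P : Subgroup G) := by
          refine Subgroup.mem_inf.2 ⟨Subgroup.mem_inf.2 ⟨hx, ?_⟩, hx⟩
          rintro _ ⟨n, rfl⟩
          have : Commute g x := Subgroup.mem_centralizer_singleton_iff.1 hg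
          exact (this.zpow_left n).eq
        rw [h2] at this
        exact hx1 this
  · intro h g hg
    rw [eq_bot_iff]
    rintro x ⟨hx1, hx2⟩
    by_contra hx
    apply hg
    have hx3 : g⁻¹ * x * g ∈ (P : Subgroup G) := H16.mem_conj_smul.1 hx2
    have h1 := h x hx1 hx
    have h2 := h _ hx3 (fun h => hx (by
      calc x = g * (g⁻¹ * x * g) * g⁻¹ := by group
        _ = 1 := by rw [h]; group))
    have h3 : ((g • P : Sylow p G) : Subgroup G) ≤ Subgroup.centralizer ((P : Subgroup G) : Set G) := by
      intro a ha
      rw [H16.mem_sylow_smul] at ha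
      have := Subgroup.le_centralizer _ ha
      rw [← h2, Subgroup.mem_centralizer_singleton_iff] at this
      rw [← h1, Subgroup.mem_centralizer_singleton_iff]
      calc a * x = g * (g⁻¹ * a * g * (g⁻¹ * x * g)) * g⁻¹ := by group
        _ = _ := by rw [this]; group
    have h4 := H16.le_sylow_of_le_normalizer P (g • P).isPGroup' (h3.trans (Subgroup.centralizer_le_normalizer _))
    have h5 := (g • P).is_maximal' P.isPGroup' h4
    exact Sylow.smul_eq_iff_mem_normalizer.1 (Sylow.ext h5.symm)

end Cfsg.Agent.S3985
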