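import Mathlib
import Cfsg.Statements.S3986
import Cfsg.Agent.H16.Util
import Cfsg.Agent.H01.Coprime2

set_option autoImplicit false
open Cfsg

namespace Cfsg.Agent.S3986

/-- Let p be a prime and G a finite group. Then some Sylow p-subgroup of G is a direct factor of G (it is normal and has a normal complement) if and only if every element of p-power order commutes with every element whose order is a power of a prime other than p. -/
theorem result {G : Type*} [Group G] [Finite G] (p : ℕ) [Fact p.Prime] : (∃ (P : Sylow p G) (K : Subgroup G), (P : Subgroup G).Normal ∧ K.Normal ∧ (P : Subgroup G) ⊓ K = ⊥ ∧ (P : Subgroup G) ⊔ K = ⊤) ↔ ∀ x y : G, (∃ a : ℕ, orderOf x = p ^ a) → (∃ q b : ℕ, q.Prime ∧ q ≠ p ∧ orderOf y = q ^ b) → x * y = y * x := by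
  have hp := (Fact.out : p.Prime)
  constructor
  · rintro ⟨P, K, hP, hK, hPK, hsup⟩ x y ⟨a, ha⟩ ⟨q, b, hq, hqp, hb⟩
    have hx : x ∈ (P : Subgroup G) := H16.mem_of_normal_sylow P ha
    have hy : y ∈ K := by
      apply H16.mem_of_coprime_index
      have h1 : K.index ∣ Nat.card (P : Subgroup G) := by
        rw [← Subgroup.relIndex_top_right, ← hsup, Subgroup.relIndex_sup_right]
        exact Subgroup.relIndex_dvd_card _ _
      obtain ⟨n, hn⟩ := IsPGroup.iff_card.1 P.isPGroup'
      rw [hn] at h1
      rw [hb]
      exact Nat.Coprime.coprime_dvd_right h1 (Nat.Coprime.pow _ _ ((Nat.coprime_primes hq hp).2 hqp))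
    exact H16.commute_of_normal_of_disjoint' (by rw [Subgroup.normalizer_eq_top]; exact le_top)
      (by rw [Subgroup.normalizer_eq_top]; exact le_top) hPK hx hy
  · intro h
    obtain ⟨P⟩ : Nonempty (Sylow p G) := inferInstance
    have hc : ∀ (q k : ℕ) (y : G), q.Prime → q ≠ p → orderOf y = q ^ k →
        y ∈ Subgroup.centralizer ((P : Subgroup G) : Set G) := by
      intro q k y hq hqp hy x hx
      exact h x y (H16.exists_orderOf_eq_of_mem P.isPGroup' hx) ⟨q, k, hq, hqp, hy⟩
    have hN : (⊤ : Subgroup G) ≤ Subgroup.normalizer ((P : Subgroup G) : Set G) := by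
      apply H01.le_of_sylow_le
      intro q hq
      by_cases hqp : q = p
      · subst hqp
        exact ⟨P, Subgroup.le_normalizer, by rw [Subgroup.relIndex_top_right]; exact P.not_dvd_index⟩
      · haveI := Fact.mk hq
        obtain ⟨Q⟩ : Nonempty (Sylow q G) := inferInstance
        refine ⟨Q, fun y hy => ?_, by rw [Subgroup.relIndex_top_right]; exact Q.not_dvd_index⟩
        obtain ⟨k, hk⟩ := H16.exists_orderOf_eq_of_mem Q.isPGroup' hy
        exact Subgroup.centralizer_le_normalizer _ (hc q k y hq hqp hk)
    haveI hP : (P : Subgroup G).Normal := Subgroup.normalizer_eq_top_iff.1 (top_le_iff.1 hN)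
    obtain ⟨K, hK⟩ := Subgroup.exists_right_complement'_of_coprime P.card_coprime_index
    have hKC : K ≤ Subgroup.centralizer ((P : Subgroup G) : Set G) := by
      apply H16.le_of_primePow
      intro q k y hq hy hyo
      by_cases hqp : q = p
      · subst hqp
        have : y ∈ (P : Subgroup G) ⊓ K := Subgroup.mem_inf.2 ⟨H16.mem_of_normal_sylow P hyo, hy⟩
        rw [hK.disjoint.eq_bot, Subgroup.mem_bot] at this
        rw [this]; exact one_mem _
      · exact hc q k y hq hqp hyo
    refine ⟨P, K, hP, ?_, hK.disjoint.eq_bot, hK.sup_eq_top⟩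
    rw [← Subgroup.normalizer_eq_top_iff, eq_top_iff, ← hK.sup_eq_top]
    exact sup_le ((Subgroup.le_centralizer_iff.1 hKC).trans (Subgroup.centralizer_le_normalizer _))
      Subgroup.le_normalizer

end Cfsg.Agent.S3986
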