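import Mathlib
import Cfsg.Statements.S3987
import Cfsg.Agent.H16.Util
import Cfsg.Agent.S3986

set_option autoImplicit false
open Cfsg

namespace Cfsg.Agent.S3987

theorem cent_mul {G : Type*} [Group G] {x y : G} (hxy : Commute x y) (h : (orderOf x).Coprime (orderOf y)) [Finite G] :
    Subgroup.centralizer {x * y} = Subgroup.centralizer {x} ⊓ Subgroup.centralizer {y} := by
  apply le_antisymm
  · intro g hg
    have hg' : Commute g (x * y) := Subgroup.mem_centralizer_singleton_iff.1 hg
    have h1 : x ∈ Subgroup.centralizer ({g} : Set G) := by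
      apply H16.mem_of_pow_mem_of_pow_mem h (by rw [pow_orderOf_eq_one]; exact one_mem _)
      rw [Subgroup.mem_centralizer_singleton_iff]
      have := (hg'.pow_right (orderOf y)).symm
      rwa [hxy.mul_pow, pow_orderOf_eq_one, mul_one] at this
    have h2 : y ∈ Subgroup.centralizer ({g} : Set G) := by
      apply H16.mem_of_pow_mem_of_pow_mem h _ (by rw [pow_orderOf_eq_one]; exact one_mem _)
      rw [Subgroup.mem_centralizer_singleton_iff]
      have := (hg'.pow_right (orderOf x)).symm
      rwa [hxy.mul_pow, pow_orderOf_eq_one, one_mul] at this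
    rw [Subgroup.mem_centralizer_singleton_iff] at h1 h2
    exact Subgroup.mem_inf.2 ⟨Subgroup.mem_centralizer_singleton_iff.2 h1.symm, Subgroup.mem_centralizer_singleton_iff.2 h2.symm⟩
  · rintro g ⟨h1, h2⟩
    have h1' : Commute g x := Subgroup.mem_centralizer_singleton_iff.1 h1
    have h2' : Commute g y := Subgroup.mem_centralizer_singleton_iff.1 h2
    exact Subgroup.mem_centralizer_singleton_iff.2 (h1'.mul_right h2')

/-- Let p be a prime and G a finite group. Then some Sylow p-subgroup of G is a direct factor of G (normal with a normal complement) if and only if for every element x of p-power order and every element y whose order is a power of a prime other than p, the conjugacy class of x y has as many elements as the product of the sizes of the classes of x and of y. -/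
theorem result {G : Type*} [Group G] [Finite G] (p : ℕ) [Fact p.Prime] : (∃ (P : Sylow p G) (K : Subgroup G), (P : Subgroup G).Normal ∧ K.Normal ∧ (P : Subgroup G) ⊓ K = ⊥ ∧ (P : Subgroup G) ⊔ K = ⊤) ↔ ∀ x y : G, (∃ a : ℕ, orderOf x = p ^ a) → (∃ q b : ℕ, q.Prime ∧ q ≠ p ∧ orderOf y = q ^ b) → (Subgroup.centralizer ({x * y} : Set G)).index = (Subgroup.centralizer ({x} : Set G)).index * (Subgroup.centralizer ({y} : Set G)).index := by
  have hp := (Fact.out : p.Prime)
  rw [Cfsg.Agent.S3986.result p]
  constructor
  · intro h x y ⟨a, ha⟩ ⟨q, b, hq, hqp, hb⟩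
    have hxy : Commute x y := h x y ⟨a, ha⟩ ⟨q, b, hq, hqp, hb⟩
    rw [cent_mul hxy (by rw [ha, hb]; exact Nat.Coprime.pow _ _ ((Nat.coprime_primes hp hq).2 hqp.symm))]
    -- the indices are coprime
    have h1 : ¬ p ∣ (Subgroup.centralizer ({y} : Set G)).index := by
      obtain ⟨P⟩ : Nonempty (Sylow p G) := inferInstance
      refine fun hd => P.not_dvd_index (hd.trans (Subgroup.index_dvd_of_le ?_))
      intro z hz
      exact Subgroup.mem_centralizer_singleton_iff.2 (h z y (H16.exists_orderOf_eq_of_mem P.isPGroup' hz) ⟨q, b, hq, hqp, hb⟩)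
    have h2 : ∀ r : ℕ, r.Prime → r ∣ (Subgroup.centralizer ({x} : Set G)).index → r = p := by
      intro r hr hd
      by_contra hne
      haveI := Fact.mk hr
      obtain ⟨R⟩ : Nonempty (Sylow r G) := inferInstance
      refine R.not_dvd_index (hd.trans (Subgroup.index_dvd_of_le ?_))
      intro z hz
      obtain ⟨k, hk⟩ := H16.exists_orderOf_eq_of_mem R.isPGroup' hz
      exact Subgroup.mem_centralizer_singleton_iff.2 (h x z ⟨a, ha⟩ ⟨r, k, hr, hne, hk⟩).symm
    have h3 : (Subgroup.centralizer ({x} : Set G)).index.Coprime (Subgroup.centralizer ({y} : Set G)).index := by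
      apply Nat.coprime_of_dvd
      intro r hr hd1 hd2
      exact h1 (h2 r hr hd1 ▸ hd2)
    apply le_antisymm Subgroup.index_inf_le
    apply Nat.le_of_dvd (Nat.pos_of_ne_zero Subgroup.FiniteIndex.index_ne_zero)
    exact h3.mul_dvd_of_dvd_of_dvd (Subgroup.index_dvd_of_le inf_le_left) (Subgroup.index_dvd_of_le inf_le_right)
  · intro h x y hx hy
    have h1 := h x y hx hy
    have h2 : Subgroup.centralizer {x} ⊓ Subgroup.centralizer {y} ≤ Subgroup.centralizer ({x * y} : Set G) := by
      rintro g ⟨h1, h2⟩
      have h1' : Commute g x := Subgroup.mem_centralizer_singleton_iff.1 h1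
      have h2' : Commute g y := Subgroup.mem_centralizer_singleton_iff.1 h2
      exact Subgroup.mem_centralizer_singleton_iff.2 (h1'.mul_right h2')
    have h3 : Subgroup.centralizer {x} ⊓ Subgroup.centralizer {y} = Subgroup.centralizer ({x * y} : Set G) := by
      by_contra hne
      have := Subgroup.index_strictAnti (lt_of_le_of_ne h2 hne)
      have h4 := Subgroup.index_inf_le (H := Subgroup.centralizer ({x} : Set G)) (K := Subgroup.centralizer {y})
      omega
    have h4 : x * y ∈ Subgroup.centralizer ({x * y} : Set G) := Subgroup.mem_centralizer_singleton_iff.2 rfl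
    rw [← h3] at h4
    have h5 := Subgroup.mem_centralizer_singleton_iff.1 h4.2
    rw [mul_assoc, ← mul_assoc y] at h5
    have := mul_right_cancel (a := x * y) (b := y) (c := y * x) (by rw [← h5, mul_assoc])
    exact this

end Cfsg.Agent.S3987
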