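import Mathlib
import Cfsg.Statements.S4005
import Cfsg.Agent.BG.Api4
import Cfsg.Agent.H05.Burnside
import Cfsg.Agent.H02.Frobenius
import Cfsg.Agent.H22.SigBasic
import Cfsg.Agent.S2924

set_option autoImplicit false
open Cfsg

namespace Cfsg.Agent.S4005

open BG Cfsg

/-- A finite group whose set of element orders is exactly {1, 2, 3} has either a normal elementary abelian 3-subgroup of index 2 or a normal elementary abelian 2-subgroup of index 3. -/
theorem result {G : Type*} [Group G] [Finite G] (h : Set.range (orderOf : G → ℕ) = {k : ℕ | 1 ≤ k ∧ k ≤ 3}) :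
    (∃ N : Subgroup G, N.Normal ∧ Cfsg.IsElementaryAbelian 3 N ∧ N.index = 2) ∨
      (∃ N : Subgroup G, N.Normal ∧ Cfsg.IsElementaryAbelian 2 N ∧ N.index = 3) := by
  have ho : ∀ g : G, orderOf g = 1 ∨ orderOf g = 2 ∨ orderOf g = 3 := fun g => by
    have : orderOf g ∈ {k : ℕ | 1 ≤ k ∧ k ≤ 3} := h ▸ Set.mem_range_self g
    obtain ⟨h1, h2⟩ := this
    omega
  obtain ⟨t, ht⟩ : ∃ t : G, orderOf t = 2 := (h.symm ▸ ⟨by norm_num, by norm_num⟩ : 2 ∈ Set.range (orderOf : G → ℕ))
  obtain ⟨s, hs⟩ : ∃ t : G, orderOf t = 3 := (h.symm ▸ ⟨by norm_num, by norm_num⟩ : 3 ∈ Set.range (orderOf : G → ℕ))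
  have h23 : ∀ r : ℕ, r.Prime → r ∣ Nat.card G → r = 2 ∨ r = 3 := fun r hr hd => by
    haveI := Fact.mk hr
    obtain ⟨g, hg⟩ := exists_prime_orderOf_dvd_card' r hd
    have := hr.one_lt
    rcases ho g with h | h | h <;> omega
  haveI hsol := H05.isSolvable_of_prime_dvd G Nat.prime_two Nat.prime_three h23
  have hnc : ∀ x y : G, orderOf x = 2 → orderOf y = 3 → x * y ≠ y * x := fun x y hx hy e => by
    have := (show Commute x y from e).orderOf_mul_eq_mul_orderOf_of_coprime (by rw [hx, hy]; norm_num)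
    rw [hx, hy] at this
    rcases ho (x * y) with h | h | h <;> omega
  have hpg : ∀ (p : ℕ) (X : Subgroup G), p.Prime → IsPGroup p X → ∀ x ∈ X, x ≠ 1 → orderOf x = p := by
    intro p X hp hX x hx h1
    have := pg_prime_eq hp hX (q := orderOf x) (by
      rcases ho x with h | h | h
      · exact absurd (orderOf_eq_one_iff.1 h) h1
      · rw [h]; exact Nat.prime_two
      · rw [h]; exact Nat.prime_three) (orderOf_dvd_card hx)
    exact this
  have hpow : ∀ (p : ℕ) (X : Subgroup G), p.Prime → IsPGroup p X → ∀ x ∈ X, x ^ p = 1 := by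
    intro p X hp hX x hx
    by_cases h1 : x = 1
    · simp [h1]
    · rw [← hpg p X hp hX x hx h1, pow_orderOf_eq_one]
  have hF : C_(fittingOf (⊤ : Subgroup G)) ≤ fittingOf ⊤ := by simpa using fit_cent_le (X := (⊤ : Subgroup G)) inferInstance
  have hFeq : ∀ p q : ℕ, p.Prime → (∀ r : ℕ, r.Prime → r ∣ Nat.card G → r = p ∨ r = q) →
      piCoreOf {q} (⊤ : Subgroup G) = ⊥ → C_(piCoreOf {p} (⊤ : Subgroup G)) ≤ piCoreOf {p} ⊤ := by
    intro p q hp hr h0
    have : fittingOf (⊤ : Subgroup G) = piCoreOf {p} ⊤ := le_antisymm (nil_le_of_pcores (fit_nil _) fun r hr' hd => by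
      rw [pcore_fit hr']
      rcases hr r hr' (hd.trans (card_dvd_top _)) with rfl | rfl
      · exact le_rfl
      · rw [h0]; exact bot_le) (pcore_le_fit hp _)
    rwa [this] at hF
  have hab2 : ∀ X : Subgroup G, IsPGroup 2 X → X ≤ C_(X) := fun X hX => le_cent_iff.2 fun a ha b hb => by
    have h1 := hpow 2 X Nat.prime_two hX _ (mul_mem ha hb)
    have h2 := hpow 2 X Nat.prime_two hX _ ha
    have h3 := hpow 2 X Nat.prime_two hX _ hb
    rw [pow_two] at h1 h2 h3
    rw [eq_inv_of_mul_eq_one_left h1, mul_inv_rev, ← eq_inv_of_mul_eq_one_left h2, ← eq_inv_of_mul_eq_one_left h3]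
  have hnorm : ∀ p : ℕ, (piCoreOf {p} (⊤ : Subgroup G)).Normal := fun p => inferInstance
  have hdis : ∀ (p : ℕ) (x : G), p.Prime → (∀ y : G, orderOf y = p → y * x ≠ x * y) →
      piCoreOf {p} (⊤ : Subgroup G) ⊓ C_[x] = ⊥ := fun p x hp hx => by
    by_contra h0
    obtain ⟨y, hy, hy1⟩ := exists_mem_ne_one h0
    exact hx y (hpg p _ hp (pcore_pg hp _) y hy.1 hy1) (mem_cent1.1 hy.2)
  by_cases h2 : piCoreOf {2} (⊤ : Subgroup G) = ⊥
  · left
    have hC := hFeq 3 2 Nat.prime_three (fun r hr hd => (h23 r hr hd).symm) h2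
    set N := piCoreOf {3} (⊤ : Subgroup G) with hN
    have hNp : IsPGroup 3 N := pcore_pg Nat.prime_three _
    have hinv : ∀ x : G, orderOf x = 2 → ∀ k ∈ N, x * k * x⁻¹ = k⁻¹ := fun x hx k hk =>
      H02.fpf_involution_inverts (le_norm_pcore _ _ (Subgroup.mem_top x))
        (by have := pow_orderOf_eq_one x; rwa [hx, pow_two] at this)
        (hdis 3 x Nat.prime_three fun y hy e => hnc x y hx hy e.symm) hk
    have hodd : Odd (Nat.card N) := Nat.odd_iff.2 (Nat.two_dvd_ne_zero.1
      (pg_not_dvd Nat.prime_two Nat.prime_three hNp (by norm_num)))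
    have hprod : ∀ x y : G, orderOf x = 2 → orderOf y = 2 → x * y ∈ N := fun x y hx hy => hC (mem_cent.2 fun k hk => by
      have a1 := hinv x hx _ (inv_mem hk)
      rw [inv_inv, ← hinv y hy k hk] at a1
      calc k * (x * y) = x * (y * k * y⁻¹) * x⁻¹ * (x * y) := by rw [a1]
        _ = _ := by group)
    have htN : t ∉ N := fun e => by
      have := hpg 3 N Nat.prime_three hNp t e (by rintro rfl; simp at ht)
      omega
    have htt : t * t = 1 := by have := pow_orderOf_eq_one t; rwa [ht, pow_two] at this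
    refine ⟨N, hnorm 3, ⟨abelian_iff.2 (S2924.cent_of_inv hodd (le_norm _) (hinv t ht) (hinv t ht)),
      hpow 3 N Nat.prime_three hNp⟩, Subgroup.index_eq_two_iff.2 ⟨t, fun b => ?_⟩⟩
    by_cases hb : b ∈ N
    · exact Or.inr ⟨hb, fun e => htN ((mul_mem_cancel_left hb).1 e)⟩
    refine Or.inl ⟨?_, hb⟩
    rcases ho b with h1 | h1 | h1
    · exact absurd (orderOf_eq_one_iff.1 h1 ▸ one_mem N) hb
    · exact hprod b t h1 ht
    · rcases ho (b * t) with h3 | h3 | h3
      · rw [orderOf_eq_one_iff.1 h3]; exact one_mem _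
      · exact absurd (by simpa [mul_assoc, htt] using hprod _ t h3 ht) hb
      · exfalso
        haveI := hnorm 3
        have c1 : (b : G ⧸ N) * t * (b : G ⧸ N)⁻¹ * t = 1 :=
          (QuotientGroup.eq_one_iff (b * t * b⁻¹ * t)).2 (hprod _ t (by rw [orderOf_conj, ht]) ht)
        have c2 : (t : G ⧸ N) * t = 1 := by rw [← QuotientGroup.mk_mul, htt]; rfl
        have c3 : Commute (b : G ⧸ N) t := by
          have := c1.trans c2.symm
          rwa [mul_left_inj, mul_inv_eq_iff_eq_mul] at this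
        have c4 : ((b : G ⧸ N) * t) ^ 3 = 1 := by
          rw [← QuotientGroup.mk_mul, ← QuotientGroup.mk_pow, ← h3, pow_orderOf_eq_one]; rfl
        have c5 : (b : G ⧸ N) ^ 3 = 1 := by rw [← QuotientGroup.mk_pow, ← h1, pow_orderOf_eq_one]; rfl
        rw [c3.mul_pow, c5, one_mul, pow_succ, pow_two, c2, one_mul] at c4
        exact htN ((QuotientGroup.eq_one_iff t).1 c4)
  · right
    have h3 : piCoreOf {3} (⊤ : Subgroup G) = ⊥ := by
      obtain ⟨x, hx, hx1⟩ := exists_mem_ne_one h2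
      have := hdis 3 x Nat.prime_three fun y hy e =>
        hnc x y (hpg 2 _ Nat.prime_two (pcore_pg Nat.prime_two _) x hx hx1) hy e.symm
      rwa [inf_eq_left.2 (le_cent1_iff.2 (pcore_cent (by simp) _ hx))] at this
    have hC := hFeq 2 3 Nat.prime_two h23 h3
    set N := piCoreOf {2} (⊤ : Subgroup G) with hN
    have hNp : IsPGroup 2 N := pcore_pg Nat.prime_two _
    obtain ⟨S, hS⟩ := sylow_exists Nat.prime_two (⊤ : Subgroup G)
    have hSN : S = N := le_antisymm (((hab2 S (hS.pg Nat.prime_two)).trans (cent_anti hS.pcore_le)).trans hC) hS.pcore_le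
    rw [hSN] at hS
    obtain ⟨T, hT⟩ := hS.exists_compl (le_norm_pcore _ _)
    have hTp : IsPGroup 3 T := (isPi_singleton Nat.prime_three).1 ((hT.hall_compl hS).isPi.mono' fun r hr hd hr2 => by
      rcases h23 r hr (hd.trans (card_dvd_top _)) with h | h
      · exact absurd h hr2
      · exact h)
    have hcyc : IsCyclic T := by
      by_contra hc
      obtain ⟨E, hE⟩ := exists_elem2_of_not_cyclic Nat.prime_three (by norm_num) hTp hc
      refine h2 (le_bot_iff.1 (H22.gen_elts Nat.prime_three hE.elemAb hE.card.ge (le_top.trans (le_norm_pcore _ _))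
        (pg_not_dvd Nat.prime_three Nat.prime_two hNp (by norm_num)) fun a ha h1 => ?_))
      exact (hdis 2 a Nat.prime_two fun y hy => hnc y a hy (hE.elemAb.orderOf Nat.prime_three ha h1)).le
    refine ⟨N, hnorm 2, ⟨abelian_iff.2 (hab2 N hNp), hpow 2 N Nat.prime_two hNp⟩, ?_⟩
    rw [← Subgroup.relIndex_top_right, hT.relIndex_left]
    obtain ⟨x, rfl⟩ := cyclic_iff.1 hcyc
    rw [card_zpowers]
    refine hpg 3 _ Nat.prime_three hTp x (Subgroup.mem_zpowers x) ?_
    rintro rfl
    have := hpg 2 N Nat.prime_two hNp s (by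
      rw [hT.eq_left Subgroup.zpowers_one_eq_bot]; trivial) (by rintro rfl; simp at hs)
    omega

end Cfsg.Agent.S4005
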