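import Cfsg.Statements.S4010
import Mathlib
import Cfsg.Agent.H27.DerLen
-- import your own Cfsg.Agent.* helpers here

set_option autoImplicit false
open Cfsg

namespace Cfsg.Agent.S4010

open scoped Pointwise commutatorElement

/-- Let F be a field, n ≥ 1, and P a finite p-group (p a prime) admitting an injective homomorphism into the general linear group of degree n over F. Then the derived length of P is at most ⌊log₂ n⌋ + 1: that term of the derived series of P is trivial. -/
theorem result {P : Type*} [Group P] [Finite P] (p : ℕ) [Fact p.Prime] (hP : IsPGroup p P) (F : Type*) [Field F] (n : ℕ) (hn : 1 ≤ n) (ρ : P →* Matrix.GeneralLinearGroup (Fin n) F) (hρ : Function.Injective ρ) : derivedSeries P (Nat.log 2 n + 1) = ⊥ := by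
  rw [eq_bot_iff]
  intro g hg
  have hlt : Module.finrank F (Fin n → F) < 2 ^ (Nat.log 2 n + 1) := by
    rw [Module.finrank_fin_fun]; exact Nat.lt_pow_succ_log_self (by norm_num) n
  have : H27.glRep ρ g = 1 := by
    by_cases h : (p : F) = 0
    · haveI : CharP F p := (CharP.charP_iff_prime_eq_zero Fact.out).2 h
      exact H27.derived_triv_charP hP _ _ _ hlt.le g hg
    · exact H27.derived_triv_coprime h hP _
        (hlt.trans_le (Nat.pow_le_pow_left (Fact.out : p.Prime).two_le _)) hg
  exact hρ ((H27.glRep_eq_one ρ this).trans (map_one ρ).symm)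

end Cfsg.Agent.S4010
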