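import Mathlib
import Cfsg.Statements.S4013

set_option autoImplicit false
open Cfsg

namespace Cfsg.Agent.S4013

/-- Let G be a finite p-group (p prime) and N < M normal subgroups of G such that for some g ∈ M ∖ N the conjugacy class of g is exactly M ∖ N. Then p = 2 and N has index 2 in M. -/
theorem result {G : Type*} [Group G] [Finite G] (p : ℕ) [Fact p.Prime] (hG : IsPGroup p G) (N M : Subgroup G) [N.Normal] [M.Normal] (hNM : N < M) (g : G) (hgM : g ∈ M) (hgN : g ∉ N) (hcl : {h : G | IsConj g h} = (M : Set G) \ (N : Set G)) : p = 2 ∧ N.relIndex M = 2 := by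
  have hp := (Fact.out : p.Prime)
  have h1 : ({h : G | IsConj g h} : Set G).ncard = (Subgroup.centralizer ({g} : Set G)).index := by
    have : {h : G | IsConj g h} = MulAction.orbit (ConjAct G) g := by
      ext h; rw [ConjAct.mem_orbit_conjAct, isConj_comm]; rfl
    rw [this, ← MulAction.index_stabilizer, ConjAct.stabilizer_eq_centralizer]
    rfl
  obtain ⟨a, ha⟩ := hG.index (Subgroup.centralizer ({g} : Set G))
  rw [hcl, Set.ncard_diff hNM.le, ha] at h1
  have h2 : Nat.card N * N.relIndex M = Nat.card M := by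
    rw [← Subgroup.card_mul_index (N.subgroupOf M), Nat.card_congr (Subgroup.subgroupOfEquivOfLe hNM.le).toEquiv]
    rfl
  obtain ⟨k, hk⟩ := (hG.to_subgroup M).index (N.subgroupOf M)
  change N.relIndex M = _ at hk
  have hk0 : k ≠ 0 := by
    rintro rfl
    rw [pow_zero, Subgroup.relIndex_eq_one] at hk
    exact hNM.not_ge hk
  change Nat.card M - Nat.card N = _ at h1
  rw [← h2, hk, ← Nat.mul_sub_one] at h1
  have h3 : p ^ k - 1 ∣ p ^ a := Dvd.intro_left _ h1
  have h4 : (p ^ k - 1).Coprime (p ^ a) := by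
    apply Nat.Coprime.pow_right
    rw [Nat.coprime_comm, hp.coprime_iff_not_dvd]
    intro hd
    have := (Nat.dvd_sub_iff_right (Nat.one_le_pow _ _ hp.pos) (dvd_pow_self p hk0)).1 hd
    exact hp.one_lt.ne' (Nat.dvd_one.1 this)
  have h5 : p ^ k = 2 := by
    have := Nat.Coprime.eq_one_of_dvd h4 h3
    omega
  refine ⟨?_, hk.trans h5⟩
  exact (Nat.prime_dvd_prime_iff_eq hp Nat.prime_two).1 (h5 ▸ dvd_pow_self p hk0)

end Cfsg.Agent.S4013
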