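import Cfsg.Statements.S4015
import Mathlib
import Cfsg.Agent.H27.DerLen
-- import your own Cfsg.Agent.* helpers here

set_option autoImplicit false
open Cfsg

namespace Cfsg.Agent.S4015

open scoped Pointwise commutatorElement

universe u in
theorem aux (p : ℕ) [hp : Fact p.Prime] (F : Type u) [Field F] [Fintype F] (hpq : ¬ p ∣ Fintype.card F) (j : ℕ) :
    ∃ (D : Type u) (_ : Group D) (_ : Finite D) (V : Type u) (_ : AddCommGroup V) (_ : Module F V)
    (_ : FiniteDimensional F V) (ρ : Representation F D V), IsPGroup p D ∧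
    Module.finrank F V = p ^ j * orderOf (Fintype.card F : ZMod p) ∧ ∃ g ∈ derivedSeries D j, ρ g ≠ 1 := by
  classical
  have hQ : IsPGroup p (Multiplicative (ZMod p)) := IsPGroup.of_card (n := 1) (by simp)
  induction j with
  | zero =>
    set e := orderOf (Fintype.card F : ZMod p) with he
    have he0 : 0 < e := by
      have : (Fintype.card F : ZMod p) ≠ 0 := fun h => hpq ((ZMod.natCast_eq_zero_iff _ _).1 h)
      exact (isOfFinOrder_iff_pow_eq_one.2 ⟨p - 1, by have := hp.out.two_le; omega,
        ZMod.pow_card_sub_one_eq_one this⟩).orderOf_pos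
    have h1 : p ∣ Nat.card (GL (Fin e) F) := by
      rw [Matrix.card_GL_field]
      refine dvd_trans ?_ (Finset.dvd_prod_of_mem _ (Finset.mem_univ (⟨0, he0⟩ : Fin e)))
      rw [← ZMod.natCast_eq_zero_iff, Nat.cast_sub (by simpa using Nat.one_le_pow _ _ Fintype.card_pos)]
      simp [he, pow_orderOf_eq_one]
    obtain ⟨g, hg⟩ := exists_prime_orderOf_dvd_card' p h1
    refine ⟨Subgroup.zpowers g, inferInstance, inferInstance, Fin e → F, inferInstance, inferInstance,
      inferInstance, H27.glRep (Subgroup.zpowers g).subtype,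
      IsPGroup.of_card (n := 1) (by rw [Nat.card_zpowers, hg, pow_one]), by simp,
      ⟨g, Subgroup.mem_zpowers g⟩, trivial, fun h => ?_⟩
    have h2 : g = 1 := H27.glRep_eq_one _ h
    rw [h2, orderOf_one] at hg
    exact hp.out.ne_one hg.symm
  | succ j ih =>
    obtain ⟨D, _, _, V, _, _, _, ρ, hD, hV, g, hg, hx⟩ := ih
    obtain ⟨w, hw, h1, h2⟩ := H27.wreath_derived (Q := Multiplicative (ZMod p)) j g hg
    refine ⟨D ≀ᵣ Multiplicative (ZMod p), inferInstance, inferInstance, Multiplicative (ZMod p) → V, inferInstance,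
      inferInstance, inferInstance, H27.wreathRep _ ρ, H27.wreath_isPGroup hD hQ, ?_, w, hw, fun h => hx ?_⟩
    · rw [Module.finrank_pi_fintype, Finset.sum_const, hV, pow_succ']
      simp [mul_assoc]
    · ext v
      have := congrArg (fun f : Module.End F (Multiplicative (ZMod p) → V) => f (fun _ => v) 1) h
      simpa [H27.wreathRep_apply, h2] using this

/-- Let p be an odd prime, F a finite field with q elements where p does not divide q, and e the multiplicative order of q modulo p. Let n ≥ e and write w = ⌊n/e⌋ and k = ⌊log_p w⌋. Then a Sylow p-subgroup of GL(n, F) has derived length exactly k + 1: its (k+1)-st derived subgroup is trivial and its k-th is not. -/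
theorem result (p : ℕ) [Fact p.Prime] (hp : p ≠ 2) (F : Type*) [Field F] [Fintype F] (q : ℕ) (hq : Fintype.card F = q) (hpq : ¬ p ∣ q) (n : ℕ) (hn : orderOf (q : ZMod p) ≤ n) (P : Sylow p (Matrix.GeneralLinearGroup (Fin n) F)) : derivedSeries ↥(P : Subgroup (Matrix.GeneralLinearGroup (Fin n) F)) (Nat.log p (n / orderOf (q : ZMod p)) + 1) = ⊥ ∧ derivedSeries ↥(P : Subgroup (Matrix.GeneralLinearGroup (Fin n) F)) (Nat.log p (n / orderOf (q : ZMod p))) ≠ ⊥ := by
  classical
  subst hq
  have hpp : p.Prime := Fact.out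
  constructor
  · rw [eq_bot_iff]
    intro g hg
    have := H27.derived_triv_ord hpq _ n _ P.isPGroup' _ (H27.glRep (P : Subgroup (GL (Fin n) F)).subtype)
      (Module.finrank_fin_fun F) (Nat.lt_pow_succ_log_self hpp.one_lt _) g hg
    exact Subtype.ext (H27.glRep_eq_one _ this)
  · obtain ⟨D, _, _, V, _, _, _, ρ, hD, hV, g, hg, hx⟩ :=
      aux p F hpq (Nat.log p (n / orderOf (Fintype.card F : ZMod p)))
    have he0 : 0 < orderOf (Fintype.card F : ZMod p) := by
      have : (Fintype.card F : ZMod p) ≠ 0 := fun h => hpq ((ZMod.natCast_eq_zero_iff _ _).1 h)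
      exact (isOfFinOrder_iff_pow_eq_one.2 ⟨p - 1, by have := hpp.two_le; omega,
        ZMod.pow_card_sub_one_eq_one this⟩).orderOf_pos
    obtain ⟨f, hf⟩ := H27.exists_GL_of_rep ρ (n := n) (by
      rw [hV, ← Nat.le_div_iff_mul_le he0]
      exact Nat.pow_log_le_self p (Nat.div_pos hn he0).ne')
    exact H27.sylow_derived_ne_bot hD f hg (fun h => hx (hf g h)) P

end Cfsg.Agent.S4015
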