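import Mathlib
import Cfsg.Statements.S4028
import Cfsg.Agent.H16.Util

set_option autoImplicit false
open Cfsg

namespace Cfsg.Agent.S4028

/-- Let G be a finite group with Sylow 2-subgroup P. Then N_G(⟨x⟩) = C_G(x) holds for every 2-element x of G if and only if N_P(⟨y⟩) = C_P(y) holds for every y ∈ P (computed inside P). -/
theorem result {G : Type*} [Group G] [Finite G] (P : Sylow 2 G) :
    (∀ x : G, (∀ r : ℕ, r.Prime → r ∣ orderOf x → r = 2) →
      Subgroup.normalizer ((Subgroup.zpowers x : Subgroup G) : Set G) ≤ Subgroup.centralizer {x}) ↔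
    (∀ y : ↥(P : Subgroup G), Subgroup.normalizer ((Subgroup.zpowers y : Subgroup ↥(P : Subgroup G)) : Set ↥(P : Subgroup G)) ≤
        Subgroup.centralizer {y}) := by
  constructor
  · intro h y g hg
    obtain ⟨k, hk⟩ := H16.exists_orderOf_eq_of_mem P.isPGroup' y.2
    have h' := h (y : G) (fun r hr hd => (Nat.prime_dvd_prime_iff_eq hr Nat.prime_two).1 (hr.dvd_of_dvd_pow (hk ▸ hd)))
    have := h' (x := (g : G)) (by
      apply H16.mem_normalizer_of_conj_mem
      rintro _ ⟨n, rfl⟩
      obtain ⟨m, hm⟩ := (Subgroup.mem_normalizer_iff.1 hg (y ^ n)).1 ⟨n, rfl⟩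
      exact ⟨m, by simpa using congrArg Subtype.val hm⟩)
    rw [Subgroup.mem_centralizer_singleton_iff] at this ⊢
    exact Subtype.ext this
  · intro h x hx
    have hxo := Nat.eq_prime_pow_of_unique_prime_dvd (orderOf_pos x).ne' (fun {d} hd hd' => hx d hd hd')
    generalize (orderOf x).primeFactorsList.length = a at hxo
    apply H16.le_of_primePow
    intro q k g hq hg hgo
    by_cases hq2 : q = 2
    · subst hq2
      have h1 : IsPGroup 2 ↥(Subgroup.zpowers x ⊔ Subgroup.zpowers g) :=
        IsPGroup.to_sup_of_normal_left' (H16.isPGroup_zpowers hxo) (H16.isPGroup_zpowers hgo) (Subgroup.zpowers_le.2 hg)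
      obtain ⟨c, hc⟩ := H16.exists_conj_le_sylow P h1
      have hx' := hc x (Subgroup.mem_sup_left (Subgroup.mem_zpowers x))
      have hg' := hc g (Subgroup.mem_sup_right (Subgroup.mem_zpowers g))
      have := h ⟨_, hx'⟩ (x := ⟨_, hg'⟩) (by
        apply H16.mem_normalizer_of_conj_mem
        rintro _ ⟨n, rfl⟩
        obtain ⟨m, hm⟩ := (Subgroup.mem_normalizer_iff.1 hg (x ^ n)).1 ⟨n, rfl⟩
        refine ⟨m, Subtype.ext ?_⟩
        simp only [SubgroupClass.coe_zpow, Subgroup.coe_mul, Subgroup.coe_inv, conj_zpow] at hm ⊢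
        rw [hm]; group)
      rw [Subgroup.mem_centralizer_singleton_iff] at this ⊢
      have h2 : c * g * c⁻¹ * (c * x * c⁻¹) = c * x * c⁻¹ * (c * g * c⁻¹) := congrArg Subtype.val this
      calc g * x = c⁻¹ * (c * g * c⁻¹ * (c * x * c⁻¹)) * c := by group
        _ = _ := by rw [h2]; group
    · have h1 : orderOf ((Subgroup.zpowers x).normalizerMonoidHom ⟨g, hg⟩) ∣ q ^ k := by
        rw [← hgo, ← Subgroup.orderOf_mk g hg]
        exact orderOf_map_dvd _ _
      have h2 : orderOf ((Subgroup.zpowers x).normalizerMonoidHom ⟨g, hg⟩) ∣ 2 ^ a := by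
        refine (orderOf_dvd_natCard _).trans ?_
        rw [IsCyclic.card_mulAut, Nat.card_zpowers, hxo]
        cases a with
        | zero => simp
        | succ a => rw [Nat.totient_prime_pow_succ Nat.prime_two]; simp [pow_succ]
      have h3 := Nat.eq_one_of_dvd_coprimes (Nat.Coprime.pow _ _ ((Nat.coprime_primes hq Nat.prime_two).2 hq2)) h1 h2
      rw [orderOf_eq_one_iff, ← MonoidHom.mem_ker, Subgroup.normalizerMonoidHom_ker, Subgroup.mem_subgroupOf] at h3
      exact Subgroup.mem_centralizer_singleton_iff.2 (h3 x (Subgroup.mem_zpowers x)).symm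

end Cfsg.Agent.S4028
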