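import Mathlib
import Cfsg.Statements.S4029
import Cfsg.Agent.H04.Breadth

set_option autoImplicit false
open Cfsg

open scoped commutatorElement

namespace Cfsg.Agent.S4029

/-- Let P be a finite 2-group in which N_P(⟨y⟩) = C_P(y) for every y ∈ P. If s is the number of conjugacy classes of involutions of P, then #(P/Φ(P)) ≤ s + 1; in particular the subgroup generated by the involutions of P has order at least #(P/Φ(P)). -/
theorem result {P : Type*} [Group P] [Finite P] (hP : IsPGroup 2 P)
    (hirr : ∀ y : P, Subgroup.normalizer ((Subgroup.zpowers y : Subgroup P) : Set P) ≤ Subgroup.centralizer {y}) :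
    Nat.card (P ⧸ frattini P) ≤ Nat.card {c : ConjClasses P // ∃ y : P, ConjClasses.mk y = c ∧ orderOf y = 2} + 1 ∧
    Nat.card (P ⧸ frattini P) ≤ Nat.card (Subgroup.closure {y : P | orderOf y = 2}) := by
  open Subgroup BG H04 in
  classical
  haveI := Fintype.ofFinite P
  let S : Set P := {y | orderOf y = 2}
  have h1 : {y : P | y ^ 2 = 1} = insert 1 S := Set.ext fun y => by
    simp only [Set.mem_ofPred_eq, Set.mem_insert_iff, S, ← orderOf_dvd_iff_pow_eq_one,
      Nat.dvd_prime Nat.prime_two, orderOf_eq_one_iff]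
  have h2 := ncard_conj_pairs {y : P | y ^ 2 = 1} fun x hx g => by
    rw [Set.mem_ofPred_eq, conj_pow, hx]; simp
  have h3 : {z : P × P | z.1 ∈ {y : P | y ^ 2 = 1} ∧ z.2 * z.1 = z.1 * z.2}.ncard =
      {z : P × P | z.1 ^ 2 = z.2 ^ 2}.ncard := by
    refine Set.ncard_congr (fun z _ => (z.1 * z.2, z.2)) (fun z hz => ?_) (fun a b _ _ h => ?_)
      fun z hz => ?_
    · exact (Commute.mul_pow hz.2.symm 2).trans (by rw [hz.1, one_mul])
    · obtain ⟨h, h'⟩ := Prod.mk.inj h
      exact Prod.ext (mul_right_cancel (h' ▸ h)) h'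
    · have h3 : z.2 * (z.1 * z.2⁻¹) * z.2⁻¹ = (z.1 * z.2⁻¹)⁻¹ := by
        have : z.1 * z.1 = z.2 * z.2 := by simpa [sq] using hz
        calc _ = z.2 * z.1⁻¹ * (z.1 * z.1) * z.2⁻¹ * z.2⁻¹ := by group
          _ = _ := by rw [this]; group
      have h4 := mem_cent1.mp (hirr (z.1 * z.2⁻¹) (cj_eq_self_iff.mp (by
        rw [cj_zpowers, h3, zpowers_inv])))
      refine ⟨(z.1 * z.2⁻¹, z.2), ⟨?_, h4⟩, by simp⟩
      rw [h4, mul_inv_cancel_right] at h3
      exact (sq _).trans (mul_eq_one_iff_eq_inv.mpr h3)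
  let r : P → ℕ := fun h => (Finset.univ.filter fun x : P => x ^ 2 = h).card
  let F := Finset.univ.filter (· ∈ frattini P)
  have h4 : {z : P × P | z.1 ^ 2 = z.2 ^ 2}.ncard = ∑ h ∈ F, r h ^ 2 := by
    rw [Set.ncard_eq_toFinset_card', Finset.card_eq_sum_card_fiberwise (f := fun z => z.1 ^ 2) (t := F)
      fun z _ => by simpa [F] using pow_mem_frattini hP z.1]
    refine Finset.sum_congr rfl fun h _ => ?_
    rw [sq, ← Finset.card_product]
    congr 1
    ext z
    simp only [Finset.mem_filter, Set.mem_toFinset, Set.mem_ofPred_eq, Finset.mem_product,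
      Finset.mem_univ, true_and]
    exact ⟨fun h => ⟨h.2, h.1 ▸ h.2⟩, fun h => ⟨h.1.trans h.2.symm, h.1⟩⟩
  have h5 : ∑ h ∈ F, r h = Nat.card P := by
    rw [Nat.card_eq_fintype_card, ← Finset.card_univ, Finset.card_eq_sum_card_fiberwise
      (f := fun z => z ^ 2) (t := F) fun z _ => by simpa [F] using pow_mem_frattini hP z]
  have h6 := sq_sum_le_card_mul_sum_sq (s := F) (f := r)
  rw [h5, ← h4, ← h3, h2, ← Fintype.card_subtype, ← Nat.card_eq_fintype_card, h1, Set.image_insert_eq,
    sq, ← mul_assoc] at h6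
  have h7 := Nat.le_of_mul_le_mul_right h6 Nat.card_pos
  rw [← (frattini P).card_mul_index] at h7
  have h8 := Nat.le_of_mul_le_mul_left h7 Nat.card_pos
  refine ⟨h8.trans ((Set.ncard_insert_le _ _).trans (le_of_eq ?_)), h8.trans ?_⟩
  · congr 1
    exact Nat.card_congr (Equiv.subtypeEquivRight fun c => exists_congr fun y => and_comm)
  · rw [← Set.image_insert_eq]
    exact (Set.ncard_image_le (Set.toFinite _)).trans (Set.ncard_le_ncard
      (Set.insert_subset (one_mem (closure S)) subset_closure))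

end Cfsg.Agent.S4029
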