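import Mathlib
import Cfsg.Statements.S4032
import Cfsg.Agent.H16.PiHall

set_option autoImplicit false
open Cfsg

namespace Cfsg.Agent.S4032

open scoped Pointwise

/-- Let π be a set of primes and G a finite group in which N_G(⟨x⟩) = C_G(x) for every π-element x. If N is a normal subgroup of G whose order is divisible by no prime of π, then G/N has the same property: N_{G/N}(⟨y⟩) = C_{G/N}(y) for every π-element y of G/N. -/
theorem result {G : Type*} [Group G] [Finite G] (π : Set ℕ)
    (hirr : ∀ x : G, (∀ r : ℕ, r.Prime → r ∣ orderOf x → r ∈ π) →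
      Subgroup.normalizer ((Subgroup.zpowers x : Subgroup G) : Set G) ≤ Subgroup.centralizer {x})
    (N : Subgroup G) [N.Normal] (hN : ∀ r : ℕ, r.Prime → r ∣ Nat.card N → r ∉ π) :
    ∀ y : G ⧸ N, (∀ r : ℕ, r.Prime → r ∣ orderOf y → r ∈ π) →
      Subgroup.normalizer ((Subgroup.zpowers y : Subgroup (G ⧸ N)) : Set (G ⧸ N)) ≤ Subgroup.centralizer {y} := by
  intro y hy g hg
  have hs := QuotientGroup.mk'_surjective N
  obtain ⟨x, -, rfl, hxo⟩ := H16.exists_lift_primes (QuotientGroup.mk' N) (L := ⊤) (y := y)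
    (by rw [Subgroup.map_top_of_surjective _ hs]; trivial)
  obtain ⟨g, rfl⟩ := hs g
  have hx : ∀ r : ℕ, r.Prime → r ∣ orderOf x → r ∈ π := fun r hr hd => hy r hr (hxo r hr hd)
  have hcop : (Nat.card (Subgroup.zpowers x)).Coprime (Nat.card N) := by
    rw [Nat.card_zpowers]
    exact H01.PiNum.coprime (π := π) hx hN
  obtain ⟨n, hn, e⟩ := H01.conj_of_le_sup (A := Subgroup.zpowers x) (N := N)
    (B := MulAut.conj g • Subgroup.zpowers x) (H01.le_normalizer_of_normal _ _) hcop
    (Or.inl inferInstance) (by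
      have h1 := H01.conj_smul_eq_iff_mem_normalizer.2 hg
      rw [← MonoidHom.map_zpowers, ← H01.map_conj_smul] at h1
      have h2 := Subgroup.le_comap_map (QuotientGroup.mk' N) (MulAut.conj g • Subgroup.zpowers x)
      rw [h1, Subgroup.comap_map_eq, QuotientGroup.ker_mk'] at h2
      exact h2) (H01.card_conj_smul _ _)
  have h1 : n⁻¹ * g ∈ Subgroup.normalizer (Subgroup.zpowers x : Set G) := by
    rw [← H01.conj_smul_eq_iff_mem_normalizer, ← H01.conj_smul_conj_smul, ← e,
      H01.conj_smul_conj_smul, inv_mul_cancel, map_one, one_smul]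
  have h2 := hirr x hx h1 x rfl
  rw [Subgroup.mem_centralizer_singleton_iff]
  have h3 := congrArg (QuotientGroup.mk' N) h2
  have h4 : QuotientGroup.mk' N n = 1 := (QuotientGroup.eq_one_iff n).2 hn
  simpa only [map_mul, map_inv, h4, inv_one, one_mul] using h3.symm

end Cfsg.Agent.S4032
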