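import Cfsg.Statements.S4034
import Mathlib
import Cfsg.Agent.H27.Kazarin
import Cfsg.Agent.H01.Hall
-- import your own Cfsg.Agent.* helpers here

set_option autoImplicit false
open Cfsg

namespace Cfsg.Agent.S4034

open scoped Pointwise commutatorElement

/-- Let G be a finite group and p a prime. Every conjugacy class of p-regular elements of G (elements of order prime to p) has p-power size if and only if G has an abelian p-complement, i.e. an abelian subgroup of order prime to p and p-power index. -/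
theorem result {G : Type*} [Group G] [Finite G] {p : ℕ} (hp : p.Prime) :
    (∀ x : G, (orderOf x).Coprime p → ∃ k : ℕ, (ConjClasses.mk x).carrier.ncard = p ^ k) ↔
    (∃ H : Subgroup G, IsMulCommutative H ∧ ¬ p ∣ Nat.card H ∧ ∃ k : ℕ, H.index = p ^ k) := by
  haveI := Fact.mk hp
  have e : ∀ x : G, (ConjClasses.mk x).carrier.ncard = H27.cs x := by
    intro x
    rw [← H27.ncard_isConj]
    congr 1
  simp only [e]
  have hsol : ∀ K : Subgroup G, K ≤ solvableRadical G → (∃ k, K.index = p ^ k) → Group.IsSolvable G := by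
    rintro K hK ⟨k, hk⟩
    obtain ⟨m, -, hm⟩ := (Nat.dvd_prime_pow hp).1 (hk ▸ Subgroup.index_dvd_of_le hK)
    haveI := (IsPGroup.of_card (G := G ⧸ solvableRadical G) hm).isNilpotent
    exact H02.isSolvable_of_normal_of_quotient (solvableRadical G)
  constructor
  · intro h
    haveI := hsol (pResidual p G) ((Subgroup.closure_le _).2 fun x hx => by
      obtain ⟨k, hk⟩ := h x hx
      exact H27.kazarin hp hk.dvd) H03.exists_index_pResidual
    obtain ⟨H, hH⟩ := H01.exists_isPiHall {p}ᶜ G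
    rw [H01.isPiHall_iff, H01.piNum_compl_singleton_iff hp, compl_compl,
      H01.piNum_singleton_iff hp Subgroup.index_ne_zero_of_finite] at hH
    refine ⟨H, ⟨⟨fun x y => Subtype.ext ?_⟩⟩, H03.coprime_iff_not_dvd.1 hH.1, hH.2⟩
    obtain ⟨k, hk⟩ := h x (H03.orderOf_coprime_of_mem hH.1 x.2)
    obtain ⟨l, hl⟩ := h y (H03.orderOf_coprime_of_mem hH.1 y.2)
    have h1 := H27.commutator_mem_pCore_of_cs_dvd hk.dvd hl.dvd
    have h2 : ⁅(x : G), (y : G)⁆ ∈ H := by
      rw [commutatorElement_def]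
      exact mul_mem (mul_mem (mul_mem x.2 y.2) (inv_mem x.2)) (inv_mem y.2)
    exact commutatorElement_eq_one_iff_mul_comm.1 (Subgroup.disjoint_def.1
      (H03.disjoint_of_isPGroup_of_coprime (H02.pCore_isPGroup p G) hH.1) h2 h1)
  · rintro ⟨H, hc, h1, k, hk⟩ x hx
    have h2 : ∀ y ∈ H, H27.cs y ∣ p ^ k := fun y hy => hk ▸ Subgroup.index_dvd_of_le fun a ha =>
      H27.mem_cent.2 (congrArg Subtype.val (hc.is_comm.comm (⟨a, ha⟩ : H) ⟨y, hy⟩))
    haveI := hsol H (fun y hy => H27.kazarin hp (h2 y hy)) ⟨k, hk⟩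
    have hH : IsPiHall {p}ᶜ H := by
      rw [H01.isPiHall_iff, H01.piNum_compl_singleton_iff hp, compl_compl,
        H01.piNum_singleton_iff hp Subgroup.index_ne_zero_of_finite]
      exact ⟨H03.coprime_iff_not_dvd.2 h1, k, hk⟩
    obtain ⟨g, hg⟩ := H01.exists_conj_le_isPiHall (K := Subgroup.zpowers x) hH (by
      rwa [H01.piNum_compl_singleton_iff hp, Nat.card_zpowers])
    have h3 := h2 _ (hg (Subgroup.smul_mem_pointwise_smul _ _ _ (Subgroup.mem_zpowers x)))
    change H27.cs (g * x * g⁻¹) ∣ _ at h3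
    rw [H27.cs_conj] at h3
    obtain ⟨m, -, hm⟩ := (Nat.dvd_prime_pow hp).1 h3
    exact ⟨m, hm⟩

end Cfsg.Agent.S4034
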