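import Mathlib
import Cfsg.Statements.S4036
import Cfsg.Agent.H16.Util

set_option autoImplicit false
open Cfsg

namespace Cfsg.Agent.S4036

/-- Let P be a finite abelian p-group and K a group of automorphisms of P (a subgroup of Aut P) whose order is divisible by p. If all non-identity elements of K have the same fixed-point subgroup on P, then K has no non-trivial normal subgroup of order prime to p. -/
theorem result {P : Type*} [CommGroup P] [Finite P] {p : ℕ}
    [Fact p.Prime] (hP : IsPGroup p P) (K : Subgroup (MulAut P)) (hK : p ∣ Nat.card K)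
    (hfix : ∀ x y : MulAut P, x ∈ K → y ∈ K → x ≠ 1 → y ≠ 1 → ∀ v : P, x v = v ↔ y v = v) :
    ∀ N : Subgroup ↥K, N.Normal → ¬ p ∣ Nat.card N → N = ⊥ := by
  classical
  have hp := (Fact.out : p.Prime)
  intro N hN hNp
  by_contra hne
  obtain ⟨⟨n0, hn0⟩, hn1⟩ := (Subgroup.ne_bot_iff_exists_ne_one).1 hne
  haveI : Finite (MulAut P) := Finite.of_injective _ DFunLike.coe_injective
  haveI := Fintype.ofFinite N
  let nm : P →* P :=
    { toFun := fun v => ∏ n : N, ((n : K) : MulAut P) v
      map_one' := by simp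
      map_mul' := by intro a b; simp [Finset.prod_mul_distrib] }
  have hnm : ∀ v, nm v = ∏ n : N, ((n : K) : MulAut P) v := fun v => rfl
  have hconj : ∀ (x : K) (v : P), nm ((x : MulAut P) v) = (x : MulAut P) (nm v) := by
    intro x v
    rw [hnm, hnm, map_prod]
    refine Fintype.prod_equiv (MulAut.conjNormal (H := N) x⁻¹).toEquiv _ _ (fun n => ?_)
    simp [MulAut.conjNormal_apply]
  have hinvN : ∀ (n : N) (v : P), nm (((n : K) : MulAut P) v) = nm v := by
    intro m v
    rw [hnm, hnm]
    refine Fintype.prod_equiv (Equiv.mulRight m) _ _ (fun n => ?_)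
    simp
  obtain ⟨⟨x, hxK⟩, hx⟩ := exists_prime_orderOf_dvd_card' p hK
  have hx' : orderOf x = p := by rw [← hx, Subgroup.orderOf_mk]
  have hx1 : x ≠ 1 := by
    rintro rfl
    rw [orderOf_one] at hx'
    exact hp.one_lt.ne hx'
  have hU : nm.ker ≠ ⊥ := by
    intro h
    apply hn1
    ext v
    have : v⁻¹ * ((n0 : K) : MulAut P) v ∈ nm.ker := by
      rw [MonoidHom.mem_ker, map_mul, map_inv, hinvN ⟨n0, hn0⟩, inv_mul_cancel]
    rw [h, Subgroup.mem_bot, inv_mul_eq_one] at this
    exact this.symm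
  have hdvd : p ∣ Nat.card nm.ker := by
    obtain ⟨k, hk⟩ := IsPGroup.iff_card.1 (hP.to_subgroup nm.ker)
    rw [hk]
    apply dvd_pow_self
    rintro rfl
    exact hU (Subgroup.card_eq_one.1 hk)
  have hxU : ∀ v : P, (x : Equiv.Perm P) v ∈ nm.ker ↔ v ∈ nm.ker := by
    intro v
    rw [MonoidHom.mem_ker, MonoidHom.mem_ker]
    have := hconj ⟨x, hxK⟩ v
    change nm (x v) = 1 ↔ _
    rw [this]
    exact map_eq_one_iff _ x.injective
  haveI := Fintype.ofFinite nm.ker
  let σ : Equiv.Perm nm.ker := Equiv.Perm.subtypePerm (x : Equiv.Perm P) hxU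
  have hσ : σ ^ p ^ 1 = 1 := by
    rw [pow_one, Equiv.Perm.subtypePerm_pow]
    ext v
    have h1 : x ^ p = 1 := by rw [← hx', pow_orderOf_eq_one]
    have h2 : (x : Equiv.Perm P) ^ p = ((x ^ p : MulAut P) : Equiv.Perm P) := (map_pow (MulAut.toPerm P) x p).symm
    simp only [Equiv.Perm.subtypePerm_apply, Equiv.Perm.coe_one, id_eq]
    rw [h2, h1]; rfl
  obtain ⟨b, hb, hb1⟩ := Equiv.Perm.exists_fixed_point_of_prime' (by rwa [← Nat.card_eq_fintype_card]) hσ (a := 1)
    (Subtype.ext (map_one x))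
  have hb2 : x b = b := congrArg Subtype.val hb
  have hall : ∀ n : N, ((n : K) : MulAut P) b = b := by
    intro n
    by_cases h : ((n : K) : MulAut P) = 1
    · rw [h]; rfl
    · exact (hfix x _ hxK (n : K).2 hx1 h b).1 hb2
  have h3 : (b : P) ^ Nat.card N = 1 := by
    have := b.2
    rw [MonoidHom.mem_ker, hnm] at this
    simp only [hall, Finset.prod_const, Finset.card_univ] at this
    rwa [Nat.card_eq_fintype_card]
  obtain ⟨k, hk⟩ := hP (b : P)
  apply hb1
  have := H16.mem_of_pow_mem_of_pow_mem (N := ⊥) (((Nat.Prime.coprime_iff_not_dvd hp).2 hNp).pow_left k) hk h3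
  exact Subtype.ext this

end Cfsg.Agent.S4036
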