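import Cfsg.Statements.S4038
import Mathlib
import Cfsg.Agent.H27.NilpMax2
import Cfsg.Agent.S0205
-- import your own Cfsg.Agent.* helpers here

set_option autoImplicit false
open Cfsg

namespace Cfsg.Agent.S4038

open scoped Pointwise commutatorElement

/-- Let A and G be finite groups of coprime orders with A acting on G by automorphisms. Suppose G has a proper A-invariant subgroup M, maximal among proper A-invariant subgroups, which is nilpotent and whose Sylow 2-subgroups have nilpotency class at most 2. Then G is solvable. -/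
theorem result {G A : Type*} [Group G] [Finite G]
    [Group A] [Finite A] (φ : A →* MulAut G) (hcop : (Nat.card A).Coprime (Nat.card G))
    (M : Subgroup G) (hMtop : M ≠ ⊤) (hMinv : ∀ a : A, ∀ m : G, m ∈ M → φ a m ∈ M)
    (hMmax : ∀ H : Subgroup G, M ≤ H → H ≠ ⊤ → (∀ a : A, ∀ h : G, h ∈ H → φ a h ∈ H) → H = M)
    (hnil : Group.IsNilpotent M) (h2 : ∀ S : Sylow 2 ↥M, Group.nilpotencyClass ↥(S : Subgroup ↥M) ≤ 2) :
    Group.IsSolvable G := by
  rcases Nat.even_or_odd (Nat.card G) with h | h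
  · haveI := Cfsg.Agent.S0205.result (G := A)
      (Nat.coprime_two_right.1 (hcop.coprime_dvd_right h.two_dvd))
    obtain ⟨S⟩ : Nonempty (Sylow 2 M) := inferInstance
    refine H27.isSolvable_of_maxInv_nilpotent (φ := φ) ⟨hMtop, hMinv, hMmax⟩ hcop
      (H26.isSyl_map_subtype S) ?_
    rintro _ ⟨a, ha, rfl⟩ _ ⟨b, hb, rfl⟩ _ ⟨c, hc, rfl⟩
    haveI := S.isPGroup'.isNilpotent
    have h0 := Subgroup.upperCentralSeries_eq_top_iff_nilpotencyClass_le.2 (h2 S)
    have h1 : (⟨a, ha⟩ : (S : Subgroup M)) ∈ Subgroup.upperCentralSeries (S : Subgroup M) 2 :=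
      h0 ▸ Subgroup.mem_top _
    have h3 := Subgroup.mem_upperCentralSeries_succ_iff.1 h1 ⟨b, hb⟩
    rw [Subgroup.upperCentralSeries_one, Subgroup.mem_center_iff] at h3
    exact (congrArg (fun x : (S : Subgroup M) => ((x : M) : G)) (h3 ⟨c, hc⟩)).symm
  · exact Cfsg.Agent.S0205.result h

end Cfsg.Agent.S4038
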