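import Cfsg.Statements.S4039
import Mathlib
import Cfsg.Agent.H27.NilpMax
-- import your own Cfsg.Agent.* helpers here

set_option autoImplicit false
open Cfsg

namespace Cfsg.Agent.S4039

open scoped Pointwise commutatorElement

/-- A finite group possessing a maximal subgroup that is nilpotent of class at most 2 is solvable. -/
theorem result {G : Type*} [Group G] [Finite G]
    (M : Subgroup G) (hmax : IsCoatom M) (hnil : Group.IsNilpotent M) (hcl : Group.nilpotencyClass ↥M ≤ 2) :
    Group.IsSolvable G := by
  apply H27.isSolvable_of_coatom_class_two hmax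
  intro a ha b hb c hc
  have h := Subgroup.upperCentralSeries_eq_top_iff_nilpotencyClass_le.2 hcl
  have h1 : (⟨a, ha⟩ : M) ∈ Subgroup.upperCentralSeries M 2 := h ▸ Subgroup.mem_top _
  have h2 := Subgroup.mem_upperCentralSeries_succ_iff.1 h1 ⟨b, hb⟩
  rw [Subgroup.upperCentralSeries_one, Subgroup.mem_center_iff] at h2
  exact (congrArg Subtype.val (h2 ⟨c, hc⟩)).symm

end Cfsg.Agent.S4039
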