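import Mathlib
import Cfsg.Statements.S4043
import Cfsg.Agent.BG.Api4
import Cfsg.Agent.H16.Util

set_option autoImplicit false
open Cfsg

namespace Cfsg.Agent.S4043

open BG Cfsg

theorem dec {G : Type*} [Group G] [Finite G] {p : ℕ} [Fact p.Prime] {A : Subgroup G} (h : HasNormalPComplement p A) :
    ∃ R P : Subgroup G, Sdprod R P A ∧ ¬ p ∣ Nat.card R ∧ IsPGroup p P := by
  obtain ⟨P, K, hK, hc⟩ := h
  have hle : (P : Subgroup A).map A.subtype ≤ A := Subgroup.map_subtype_le _
  refine ⟨K.map A.subtype, (P : Subgroup A).map A.subtype, Sdprod.of_card (Subgroup.map_subtype_le _) hle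
    (hle.trans (H02.le_normalizer_map_subtype K)) ?_ ?_, ?_, P.isPGroup'.map _⟩
  · rw [← Subgroup.map_inf _ _ _ A.subtype_injective, hc.disjoint.eq_bot, Subgroup.map_bot]
  · rw [H02.card_map_subtype, H02.card_map_subtype, hc.card_mul_card]
  · rw [H02.card_map_subtype, ← hc.index_eq_card]; exact P.not_dvd_index

/-- Let G be a finite group that is the semidirect product of a normal p-subgroup N by a subgroup A, and also of N by a subgroup A₁, where p is a prime and A and A₁ both have normal p-complements. If C_N(A) = C_N(A₁) = 1, then A₁ is conjugate to A by an element of N. -/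
theorem result {G : Type*} [Group G] [Finite G] {p : ℕ}
    [Fact p.Prime] (N : Subgroup G) [N.Normal] (hN : IsPGroup p N) (A A₁ : Subgroup G)
    (hA : A.IsComplement' N) (hA₁ : A₁.IsComplement' N)
    (hAp : Cfsg.HasNormalPComplement p A) (hA₁p : Cfsg.HasNormalPComplement p A₁)
    (hC : ∀ n : G, n ∈ N → (∀ a : G, a ∈ A → a * n * a⁻¹ = n) → n = 1)
    (hC₁ : ∀ n : G, n ∈ N → (∀ a : G, a ∈ A₁ → a * n * a⁻¹ = n) → n = 1) :
    ∃ n : G, n ∈ N ∧ A₁ = A.map (MulAut.conj n).toMonoidHom := by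
  have hp : p.Prime := Fact.out
  obtain ⟨R, P, hs, hR, hP⟩ := dec hAp
  obtain ⟨R₁, P₁, hs₁, hR₁, hP₁⟩ := dec hA₁p
  have hn : ∀ X : Subgroup G, X ≤ N_(N) := fun X => Subgroup.le_normalizer_of_normal
  obtain ⟨a, ha⟩ := pg_card hp hP
  obtain ⟨b, hb⟩ := pg_card hp hP₁
  have hc : Nat.card A = Nat.card A₁ := Nat.eq_of_mul_eq_mul_right (card_pos N) (hA.card_mul_card.trans hA₁.card_mul_card.symm)
  have hRR : Nat.card R₁ = Nat.card R := by
    rw [hs.card, hs₁.card, ha, hb] at hc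
    have c1 := ((Nat.Prime.coprime_iff_not_dvd hp).2 hR).symm
    have c2 := ((Nat.Prime.coprime_iff_not_dvd hp).2 hR₁).symm
    exact Nat.dvd_antisymm ((c2.pow_right a).dvd_of_dvd_mul_right (hc ▸ Dvd.intro _ rfl))
      ((c1.pow_right b).dvd_of_dvd_mul_right (hc ▸ Dvd.intro _ rfl))
  have hcop := pg_coprime hp hN hR
  haveI : (N ⊔ R).Normal := by
    rw [← Subgroup.normalizer_eq_top_iff, eq_top_iff, ← hA.sup_eq_top]
    exact sup_le_norm (norm_sup (hn A) hs.normal) (norm_of_le le_sup_left)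
  have hidx : (N ⊔ R).index = p ^ a := by
    have h1 := (N ⊔ R).card_mul_index
    rw [card_sup_of_disj (hn R) (inf_eq_bot_of_coprime hcop), ← hA.card_mul_card, hs.card, ha] at h1
    refine Nat.eq_of_mul_eq_mul_left (Nat.mul_pos (card_pos N) (card_pos R)) ?_
    rw [h1]; ring
  have hle : R₁ ≤ R ⊔ N := fun x hx => by
    rw [sup_comm]
    refine H16.mem_of_coprime_index ?_
    rw [hidx]
    exact (Nat.Coprime.coprime_dvd_left (orderOf_dvd_card hx) ((Nat.Prime.coprime_iff_not_dvd hp).2 hR₁).symm).pow_right a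
  obtain ⟨n, hnN, hn'⟩ := H01.conj_of_le_sup (hn R) hcop.symm (Or.inr (pg_sol hp hN)) hle hRR
  rw [← cj_eq_smul] at hn'
  have h0 : N ⊓ C_(R) = ⊥ := by
    by_contra h0
    obtain ⟨x, hx, hx1⟩ := exists_mem_ne_one (pg_fix_ne_bot hp hP (pg_le hN inf_le_left)
      (norm_inf (hn P) (norm_cent (hs.le_right.trans hs.normal))) h0)
    refine hx1 (hC x hx.1.1 fun a ha => ?_)
    have : x ∈ C_(A) := by rw [← hs.sup, cent_sup]; exact ⟨hx.1.2, hx.2⟩
    rw [mem_cent.1 this a ha]; simp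
  have h1 : N_(R) ≤ A := by
    have e := dedekind (U := A) (V := N_(R)) (H := N) hs.normal (Or.inr (hn A))
    rw [hA.sup_eq_top, inf_top_eq] at e
    rw [e]
    refine sup_le le_rfl (le_trans (le_inf inf_le_right (le_cent_of_coprime inf_le_left
      ((le_norm R).trans (norm_inf (le_norm _) (hn _)) ) (coprime_mono hcop inf_le_right le_rfl))) ?_)
    rw [h0]; exact bot_le
  refine ⟨n, hnN, eq_of_le_of_card_le ?_ (by rw [← cj_eq_map, card_cj, hc])⟩
  rw [← cj_eq_map]
  exact hs₁.normal.trans (by rw [← hn', ← cj_norm]; exact cj_mono n h1)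

end Cfsg.Agent.S4043
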