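import Mathlib
import Cfsg.Statements.S4050
import Cfsg.Agent.H16.PiHall

set_option autoImplicit false
open Cfsg

namespace Cfsg.Agent.S4050

/-- Let π be a set of primes and G a finite group. The π-elements of G (elements whose order is divisible only by primes of π) form a subgroup if and only if G is π-separable (it has a chain of normal subgroups from 1 to G with each successive index divisible only by primes in π or only by primes outside π) and N_G(H)/C_G(H) is a π'-group for every nontrivial π'-subgroup H of G. -/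
theorem result {G : Type*} [Group G] [Finite G] (π : Set ℕ)
    (hπ : ∀ p ∈ π, p.Prime) :
    (∃ K : Subgroup G, ∀ x : G, x ∈ K ↔ ∀ p : ℕ, p.Prime → p ∣ orderOf x → p ∈ π) ↔
    ((∃ (n : ℕ) (H : Fin (n + 1) → Subgroup G), H 0 = ⊥ ∧ H (Fin.last n) = ⊤ ∧ Monotone H ∧ (∀ i, (H i).Normal) ∧
      ∀ i : Fin n, (∀ q : ℕ, q.Prime → q ∣ (H i.castSucc).relIndex (H i.succ) → q ∈ π) ∨
        (∀ q : ℕ, q.Prime → q ∣ (H i.castSucc).relIndex (H i.succ) → q ∉ π)) ∧
     (∀ H : Subgroup G, H ≠ ⊥ → (∀ p : ℕ, p.Prime → p ∣ Nat.card ↥H → p ∉ π) →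
        ∀ p : ℕ, p.Prime → p ∣ (Subgroup.centralizer (H : Set G)).relIndex (Subgroup.normalizer (H : Set G)) → p ∉ π)) := by
  constructor
  · rintro ⟨K, hK⟩
    obtain ⟨hn, hH⟩ := H16.normal_hall_of_mem_iff hK
    refine ⟨⟨2, ![⊥, K, ⊤], rfl, rfl, ?_, ?_, ?_⟩, fun H _ hH' p hp hd hpπ => ?_⟩
    · refine Fin.monotone_iff_le_succ.2 fun i => ?_
      fin_cases i <;> simp
    · intro i; fin_cases i
      · exact (inferInstance : (⊥ : Subgroup G).Normal)
      · exact hn
      · exact (inferInstance : (⊤ : Subgroup G).Normal)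
    · intro i; fin_cases i
      · left; simpa using hH.1
      · right
        intro q hq hd hqπ
        exact hH.2 q hq hqπ (by simpa using hd)
    · have h1 : K ⊓ Subgroup.normalizer (H : Set G) ≤ Subgroup.centralizer (H : Set G) := by
        intro k hk h hh
        have h2 : k * h * k⁻¹ * h⁻¹ ∈ K ⊓ H := Subgroup.mem_inf.2 ⟨by
          have := K.mul_mem hk.1 (hn.conj_mem _ (K.inv_mem hk.1) h)
          simpa only [mul_assoc] using this, H.mul_mem ((hk.2 h).1 hh) (H.inv_mem hh)⟩
        rw [(Subgroup.disjoint_of_coprime_natCard (H01.PiNum.coprime (π := π) hH.1 hH')).eq_bot,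
          Subgroup.mem_bot] at h2
        calc h * k = (k * h * k⁻¹ * h⁻¹)⁻¹ * (k * h) := by group
          _ = k * h := by rw [h2]; group
      have h3 := Subgroup.relIndex_dvd_of_le_left (Subgroup.normalizer (H : Set G)) h1
      rw [Subgroup.inf_relIndex_right] at h3
      exact hH.2 p hp hpπ ((hd.trans h3).trans (Subgroup.relIndex_dvd_index_of_normal _ _))
  · rintro ⟨⟨n, H, h0, h1, -, hN, hi⟩, hhom⟩
    refine ⟨_, H16.mem_iff_of_normal_hall (H16.piCore_hall_of_automizers
      (H01.piSep_of_chain H h0 h1 hN hi) fun H hH x hx ho => ?_)⟩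
    by_cases hb : H = ⊥
    · subst hb; intro h hh; rw [Subgroup.mem_bot.1 hh]; simp
    exact H16.automizer_of_relIndex (hhom H hb hH) hx ho

end Cfsg.Agent.S4050
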