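import Mathlib
import Cfsg.Statements.S4051
import Cfsg.Agent.H16.PiHall

set_option autoImplicit false
open Cfsg

namespace Cfsg.Agent.S4051

/-- Let π be a set of primes and G a finite group such that N_G(H)/C_G(H) is a π'-group for every nontrivial π'-subgroup H of G. If K is a normal subgroup of G such that the π-elements of K form a subgroup and the π-elements of G/K form a subgroup, then the π-elements of G form a subgroup. -/
theorem result {G : Type*} [Group G] [Finite G] (π : Set ℕ)
    (hπ : ∀ p ∈ π, p.Prime) (hhom : (∀ H : Subgroup G, H ≠ ⊥ → (∀ p : ℕ, p.Prime → p ∣ Nat.card ↥H → p ∉ π) →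
        ∀ p : ℕ, p.Prime → p ∣ (Subgroup.centralizer (H : Set G)).relIndex (Subgroup.normalizer (H : Set G)) → p ∉ π))
    (K : Subgroup G) [K.Normal]
    (hK : ∃ L : Subgroup ↥K, ∀ x : ↥K, x ∈ L ↔ ∀ p : ℕ, p.Prime → p ∣ orderOf x → p ∈ π)
    (hQ : ∃ L : Subgroup (G ⧸ K), ∀ x : G ⧸ K, x ∈ L ↔ ∀ p : ℕ, p.Prime → p ∣ orderOf x → p ∈ π) :
    (∃ K : Subgroup G, ∀ x : G, x ∈ K ↔ ∀ p : ℕ, p.Prime → p ∣ orderOf x → p ∈ π) := by
  obtain ⟨L, hL⟩ := hK
  obtain ⟨M, hM⟩ := hQ
  obtain ⟨hLn, hLH⟩ := H16.normal_hall_of_mem_iff hL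
  obtain ⟨hMn, hMH⟩ := H16.normal_hall_of_mem_iff hM
  have hLe : L = Cfsg.piCore π K :=
    H01.eq_of_isPiHall_of_le hLH (H02.piCore_isPi π K) (H02.le_piCore hLH.1)
  have hL' : (L.map K.subtype).Normal := by
    rw [hLe]; exact ConjAct.normal_of_characteristic_of_normal
  have hs : H01.PiSep π G := by
    refine H01.piSep_of_chain (n := 4) ![⊥, L.map K.subtype, K, M.comap (QuotientGroup.mk' K), ⊤]
      rfl rfl (fun i => ?_) (fun i => ?_)
    · fin_cases i
      · exact (inferInstance : (⊥ : Subgroup G).Normal)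
      · exact hL'
      · exact (inferInstance : K.Normal)
      · exact (inferInstance : (M.comap (QuotientGroup.mk' K)).Normal)
      · exact (inferInstance : (⊤ : Subgroup G).Normal)
    · fin_cases i
      · left
        show H01.PiNum π ((⊥ : Subgroup G).relIndex (L.map K.subtype))
        rw [Subgroup.relIndex_bot_left, Subgroup.card_subtype]
        exact hLH.1
      · right
        exact (H01.isPiHallOf_iff.1 (H01.isPiHallOf_map_subtype.2 hLH)).2.2
      · left
        show H01.PiNum π (K.relIndex (M.comap (QuotientGroup.mk' K)))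
        rw [H16.relIndex_comap_mk']
        exact hMH.1
      · right
        show H01.PiNum πᶜ ((M.comap (QuotientGroup.mk' K)).relIndex ⊤)
        rw [Subgroup.relIndex_top_right,
          Subgroup.index_comap_of_surjective _ (QuotientGroup.mk'_surjective K)]
        exact (H01.isPiHall_iff.1 hMH).2
  refine ⟨_, H16.mem_iff_of_normal_hall (H16.piCore_hall_of_automizers hs fun H hH x hx ho => ?_)⟩
  by_cases hb : H = ⊥
  · subst hb; intro h hh; rw [Subgroup.mem_bot.1 hh]; simp
  exact H16.automizer_of_relIndex (hhom H hb hH) hx ho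

end Cfsg.Agent.S4051
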