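import Mathlib
import Cfsg.Statements.S4058
import Cfsg.Agent.H04.Basic
import Cfsg.Agent.H04.Frattini
import Cfsg.Agent.H05.FrobeniusSchur
import Cfsg.Agent.H05.RepEquiv
import Cfsg.Agent.H05.Integral

set_option autoImplicit false
open Cfsg

namespace Cfsg.Agent.S4058

theorem dvd_sum_of_orbits {A X : Type*} [Group A] [MulAction A X] [Fintype X] (F : X → ℤ) (m : ℤ)
    (h1 : ∀ (a : A) (x : X), F (a • x) = F x)
    (h2 : ∀ x, m ∣ (MulAction.stabilizer A x).index * F x) : m ∣ ∑ x, F x := by
  classical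
  haveI := Fintype.ofFinite (MulAction.orbitRel.Quotient A X)
  rw [← Finset.sum_fiberwise Finset.univ (fun x => (Quotient.mk'' x : MulAction.orbitRel.Quotient A X)) F]
  refine Finset.dvd_sum fun q _ => ?_
  obtain ⟨x, rfl⟩ := Quotient.exists_rep q
  have h3 : ∀ y, y ∈ Finset.univ.filter (fun y => (Quotient.mk'' y : MulAction.orbitRel.Quotient A X) =
      ⟦x⟧) ↔ y ∈ MulAction.orbit A x := fun y => by
    rw [Finset.mem_filter_univ]; exact Quotient.eq''
  rw [Finset.sum_congr rfl (g := fun _ => F x) fun y hy => by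
    obtain ⟨a, rfl⟩ := (h3 y).mp hy
    exact h1 a x, Finset.sum_const, nsmul_eq_mul, ← Set.ncard_coe_finset,
    Set.ext (b := MulAction.orbit A x) fun y => Finset.mem_coe.trans (h3 y), ← MulAction.index_stabilizer]
  exact h2 x


/-- Let G be a finite 2-group with #(G/Φ(G)) ≥ 2^(2k+1). Then the number of elements x of G with x² = 1 is divisible by 2^(k+1). -/
theorem result {G : Type*} [Group G] [Finite G] (hG : IsPGroup 2 G) (k : ℕ)
    (hgen : 2 ^ (2 * k + 1) ≤ Nat.card (G ⧸ frattini G)) :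
    2 ^ (k + 1) ∣ Nat.card {x : G // x ^ 2 = 1} := by
  open H05 in
  classical
  haveI := Fintype.ofFinite G
  haveI := Fintype.ofFinite (IrrCharacter G)
  let π := QuotientGroup.mk' (frattini G)
  letI : MulAction ((G ⧸ frattini G) →* ℂˣ) (IrrCharacter G) :=
    { smul := fun l χ => ⟨_, χ.2.mul_monoidHom (l.comp π)⟩
      one_smul := fun χ => Subtype.ext (funext fun g => mul_one _)
      mul_smul := fun l m χ => Subtype.ext (funext fun g => by
        change χ.1 g * ((l (π g) * m (π g) : ℂˣ) : ℂ) = χ.1 g * m (π g) * l (π g)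
        push_cast; ring) }
  have hs : ∀ (l : (G ⧸ frattini G) →* ℂˣ) (χ : IrrCharacter G) (g : G),
      (l • χ).1 g = χ.1 g * l (π g) := fun _ _ _ => rfl
  have h1 : ∀ χ : IrrCharacter G, ∃ n : ℤ, fsIndicator χ.1 = n := fun χ => by
    rcases χ.2.fsIndicator_cases with h | h | h
    exacts [⟨0, by simpa using h⟩, ⟨1, by simpa using h⟩, ⟨-1, by simpa using h⟩]
  choose ν hν using h1
  have hd1 : ∀ χ : IrrCharacter G, χ.1 1 = charDegree χ.1 := fun χ => χ.2.charDegree_eq.symm
  have h2 : (Nat.card {x : G // x ^ 2 = 1} : ℤ) = ∑ χ : IrrCharacter G, charDegree χ.1 * ν χ := by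
    have := card_sqrt_eq_sum (1 : G)
    simp only [← pow_two, hν, hd1, mul_comm (ν _ : ℂ)] at this
    exact_mod_cast this
  have h3 : Nat.card ((G ⧸ frattini G) →* ℂˣ) = Nat.card (G ⧸ frattini G) := by
    rw [card_monoidHom_units, (commutator_eq_bot_iff _).mpr
      (Subgroup.Normal.quotient_commutative_iff_commutator_le.mpr (H04.commutator_le_frattini hG)),
      Subgroup.index_bot]
  haveI : Finite ((G ⧸ frattini G) →* ℂˣ) := Nat.finite_of_card_ne_zero (h3 ▸ Nat.card_pos.ne')
  rw [← Int.natCast_dvd_natCast, h2]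
  refine dvd_sum_of_orbits (A := (G ⧸ frattini G) →* ℂˣ) _ _ (fun l χ => ?_) fun χ => ?_
  · have h4 : ∀ g : G, π (g * g) = 1 := fun g =>
      (QuotientGroup.eq_one_iff _).mpr (pow_two g ▸ H04.pow_mem_frattini hG g)
    congr 1
    · simp [charDegree, hs]
    · have := hν (l • χ)
      simp only [fsIndicator, hs, h4, map_one, Units.val_one, mul_one] at this
      exact_mod_cast this.symm.trans (hν χ)
  · set S := MulAction.stabilizer ((G ⧸ frattini G) →* ℂˣ) χ
    have h4 : Nat.card S ≤ charDegree χ.1 ^ 2 := by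
      obtain ⟨m, h5, h6⟩ := (χ.2.isCharacter.mul χ.2.isCharacter.conj).exists_nat_coeff
      have h7 : charDegree χ.1 ^ 2 = ∑ ψ : IrrCharacter G, m ψ * charDegree ψ.1 := by
        have := congrFun h6 1
        simp only [Pi.mul_apply, Finset.sum_apply, Pi.smul_apply, smul_eq_mul,
          hd1, map_natCast, ← pow_two] at this
        exact_mod_cast this
      let f : S → IrrCharacter G := fun l => ⟨_, isIrrCharacter_monoidHom (l.1.comp π)⟩
      have h8 : Function.Injective f := fun l l' h => Subtype.ext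
        ((MonoidHom.cancel_right (QuotientGroup.mk'_surjective _)).mp
          (monoidHom_coe_injective (congrArg Subtype.val h)))
      haveI := Fintype.ofFinite S
      rw [h7, Nat.card_eq_fintype_card, ← Finset.card_univ, ← Finset.card_image_of_injective _ h8,
        Finset.card_eq_sum_ones]
      refine (Finset.sum_le_sum fun ψ hψ => ?_).trans (Finset.sum_le_sum_of_subset (Finset.subset_univ _))
      obtain ⟨l, -, rfl⟩ := Finset.mem_image.mp hψ
      refine Nat.mul_pos (Nat.pos_of_ne_zero fun h9 => ?_) (f l).2.charDegree_pos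
      have h10 := h5 (f l)
      have h11 := χ.2.classInner_self
      nth_rewrite 2 [← show l.1 • χ = χ from l.2] at h11
      rw [h9, Nat.cast_zero] at h10
      refine one_ne_zero (h11.symm.trans (Eq.trans ?_ h10))
      simp only [classInner, hs, map_mul, Pi.mul_apply, mul_assoc]
      rfl
    obtain ⟨n, hn⟩ := IsPGroup.iff_card.mp hG
    obtain ⟨a, -, ha⟩ := (Nat.dvd_prime_pow Nat.prime_two).mp (hn ▸ χ.2.charDegree_dvd_card)
    obtain ⟨d, hd⟩ := IsPGroup.iff_card.mp (hG.to_quotient (frattini G))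
    have h5 := S.card_mul_index
    rw [h3, hd] at h5
    obtain ⟨s, -, hs⟩ := (Nat.dvd_prime_pow Nat.prime_two).mp (Dvd.intro _ h5)
    obtain ⟨t, -, ht⟩ := (Nat.dvd_prime_pow Nat.prime_two).mp (Dvd.intro_left _ h5)
    rw [hs, ht, ← pow_add] at h5
    have h6 := Nat.pow_right_injective le_rfl h5
    rw [hs, ha, ← pow_mul, Nat.pow_le_pow_iff_right one_lt_two] at h4
    rw [hd, Nat.pow_le_pow_iff_right one_lt_two] at hgen
    rw [← mul_assoc, ht, ha]
    refine Dvd.dvd.mul_right ?_ _
    exact_mod_cast pow_add 2 t a ▸ pow_dvd_pow 2 (show k + 1 ≤ t + a by omega)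

end Cfsg.Agent.S4058
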