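import Mathlib
import Cfsg.Agent.L.PSL2Tr
-- Template for statement S4065 (row 4065; see /opt/grader/pristine/manifest.json for weights).
-- Copy to Cfsg/Agent/S4065.lean and replace the sorry. The statement below is byte-identical to the frozen
-- statement Cfsg.CfsgFrozen.S4065 (Cfsg/Statements/S4065.lean; the theorem Cfsg.fg5_psl_two_even_element_centralizers_ti);
-- the grader kernel-checks Cfsg.Agent.S4065.result against that frozen type. Keep the theorem IN THIS FILE
-- (a `result` declared elsewhere and merely imported here is not credited); helpers may live anywhere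
-- under Cfsg/Agent/.
import Cfsg.Statements.S4065
-- import your own Cfsg.Agent.* helpers here

set_option autoImplicit false
open Cfsg

namespace Cfsg.Agent.S4065

/-- Let F be a finite field with 2ⁿ elements, n ≥ 2. In PSL₂(F) the centralizer of every element meets each of its conjugates by elements outside its normalizer trivially. -/
theorem result (n : ℕ) (hn : 2 ≤ n)
    (x : Matrix.ProjectiveSpecialLinearGroup (Fin 2) (GaloisField 2 n)) :
    Cfsg.IsTISubset (Subgroup.centralizer ({x} : Set (Matrix.ProjectiveSpecialLinearGroup (Fin 2) (GaloisField 2 n))) :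
      Set (Matrix.ProjectiveSpecialLinearGroup (Fin 2) (GaloisField 2 n))) := by
  intro g hg y hy hgy
  by_contra h1
  apply hg
  have h2 : (2 : GaloisField 2 n) = 0 := by exact_mod_cast CharP.cast_eq_zero (GaloisField 2 n) 2
  have key : ∀ x y : Matrix.ProjectiveSpecialLinearGroup (Fin 2) (GaloisField 2 n), x ≠ 1 → y ≠ 1 →
      y ∈ Subgroup.centralizer {x} → Subgroup.centralizer {y} =
        Subgroup.centralizer ({x} : Set (Matrix.ProjectiveSpecialLinearGroup (Fin 2) (GaloisField 2 n))) := by
    intro x y hx hy h
    obtain ⟨s, rfl⟩ := QuotientGroup.mk_surjective x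
    obtain ⟨t, rfl⟩ := QuotientGroup.mk_surjective y
    apply Subgroup.comap_injective (QuotientGroup.mk'_surjective _)
    rw [L.comap_centralizer_of_trace (Or.inl h2), L.comap_centralizer_of_trace (Or.inl h2)]
    exact L.centralizer_eq_of_mem (L.mk_ne_one_iff.1 hx) (by rw [← L.comap_centralizer_of_trace (Or.inl h2)]; exact h)
      (L.mk_ne_one_iff.1 hy)
  by_cases hx : x = 1
  · subst hx
    intro z
    simp [Subgroup.mem_centralizer_singleton_iff]
  intro z
  have e1 := key x y hx h1 hy
  have e2 := key x _ hx (by simpa using h1) hgy
  rw [SetLike.mem_coe, SetLike.mem_coe]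
  nth_rewrite 1 [← e1]
  rw [← e2, Subgroup.mem_centralizer_singleton_iff, Subgroup.mem_centralizer_singleton_iff]
  constructor
  · intro h
    calc _ = g * (z * y) * g⁻¹ := by group
      _ = _ := by rw [h]; group
  · intro h
    calc _ = g⁻¹ * (g * z * g⁻¹ * (g * y * g⁻¹)) * g := by group
      _ = _ := by rw [h]; group

end Cfsg.Agent.S4065
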