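import Mathlib
import Cfsg.Statements.S4066
import Cfsg.Agent.H16.Util

set_option autoImplicit false
open Cfsg

namespace Cfsg.Agent.S4066

/-- Let G be a finite group in which the centralizer of every element meets each of its conjugates by elements outside its normalizer trivially. Then any two distinct Sylow p-subgroups of G, for any prime p, intersect trivially. -/
theorem result {G : Type*} [Group G] [Finite G] (hTI : ∀ x : G, Cfsg.IsTISubset (Subgroup.centralizer ({x} : Set G) : Set G))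
    {p : ℕ} [Fact p.Prime] (P Q : Sylow p G) (hPQ : P ≠ Q) : (P : Subgroup G) ⊓ (Q : Subgroup G) = ⊥ := by
  have hp := (Fact.out : p.Prime)
  rw [eq_bot_iff]
  rintro d ⟨hdP, hdQ⟩
  by_contra hd
  apply hPQ
  have hcn : ∀ x y : G, x ≠ 1 → x * y = y * x → Subgroup.centralizer {x} ≤ Subgroup.normalizer ((Subgroup.centralizer ({y} : Set G) : Subgroup G) : Set G) := by
    intro x y hx hxy g hg
    by_contra h
    refine hx (hTI y g h x (Subgroup.mem_centralizer_singleton_iff.2 hxy) ?_)
    rw [Subgroup.mem_centralizer_singleton_iff.1 hg, mul_inv_cancel_right]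
    exact Subgroup.mem_centralizer_singleton_iff.2 hxy
  haveI : Nontrivial (P : Subgroup G) := ⟨⟨⟨d, hdP⟩, 1, fun h => hd (congrArg Subtype.val h)⟩⟩
  obtain ⟨⟨⟨z, hzP⟩, hz⟩, hz1⟩ := (Subgroup.ne_bot_iff_exists_ne_one).1 ((Subgroup.nontrivial_iff_ne_bot _).1 P.isPGroup'.center_nontrivial)
  have hz1' : z ≠ 1 := fun h => hz1 (Subtype.ext (Subtype.ext h))
  have hPC : (P : Subgroup G) ≤ Subgroup.centralizer {z} := fun s hs =>
    Subgroup.mem_centralizer_singleton_iff.2 (congrArg Subtype.val (Subgroup.mem_center_iff.1 hz ⟨s, hs⟩))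
  obtain ⟨g, rfl⟩ := MulAction.exists_smul_eq G P Q
  have hg : g⁻¹ ∈ Subgroup.normalizer ((Subgroup.centralizer ({z} : Set G) : Subgroup G) : Set G) := by
    by_contra h
    refine hd (hTI z g⁻¹ h d (hPC hdP) ?_)
    rw [inv_inv]
    exact hPC (H16.mem_sylow_smul.1 hdQ)
  have hQC : ((g • P : Sylow p G) : Subgroup G) ≤ Subgroup.centralizer {z} := by
    intro s hs
    have := hPC (H16.mem_sylow_smul.1 hs)
    exact (Subgroup.mem_normalizer_iff.1 hg s).2 (by rwa [inv_inv])
  have key : ((g • P : Sylow p G) : Subgroup G) ≤ P := by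
    intro y hy
    obtain ⟨k, hk⟩ := H16.exists_pow_eq_one_of_mem (g • P).isPGroup' hy
    set C := Subgroup.centralizer ({y} : Set G) with hC
    have hPN : (P : Subgroup G) ≤ Subgroup.normalizer (C : Set G) :=
      hPC.trans (hcn z y hz1' (Subgroup.mem_centralizer_singleton_iff.1 (hQC hy)).symm)
    let A : Subgroup G :=
      { carrier := {a | a ∈ C ∧ a ∈ Subgroup.centralizer (C : Set G) ∧ a ^ p ^ k = 1}
        one_mem' := ⟨one_mem _, one_mem _, one_pow _⟩
        mul_mem' := by
          rintro a b ⟨ha1, ha2, ha3⟩ ⟨hb1, hb2, hb3⟩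
          refine ⟨mul_mem ha1 hb1, mul_mem ha2 hb2, ?_⟩
          have : Commute a b := hb2 a ha1
          rw [this.mul_pow, ha3, hb3, one_mul]
        inv_mem' := by
          rintro a ⟨ha1, ha2, ha3⟩
          exact ⟨inv_mem ha1, inv_mem ha2, by rw [inv_pow, ha3, inv_one]⟩ }
    have hA : IsPGroup p A := fun a => ⟨k, Subtype.ext a.2.2.2⟩
    have hyA : y ∈ A := ⟨Subgroup.mem_centralizer_singleton_iff.2 rfl, fun c hc => Subgroup.mem_centralizer_singleton_iff.1 hc, hk⟩
    refine H16.le_sylow_of_normalized P hA (fun s hs => ?_) hyA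
    apply H16.mem_normalizer_of_conj_mem
    rintro a ⟨ha1, ha2, ha3⟩
    refine ⟨(Subgroup.mem_normalizer_iff.1 (hPN hs) a).1 ha1, fun c hc => ?_, by rw [conj_pow, ha3]; group⟩
    have := ha2 _ ((Subgroup.mem_normalizer_iff.1 (inv_mem (hPN hs)) c).1 hc)
    calc c * (s * a * s⁻¹) = s * ((s⁻¹ * c * s⁻¹⁻¹) * a) * s⁻¹ := by group
      _ = _ := by rw [this]; group
  exact Sylow.ext ((g • P).is_maximal' P.isPGroup' key)

end Cfsg.Agent.S4066
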