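import Mathlib
import Cfsg.Statements.S4067
import Cfsg.Agent.H05.RepEquiv
import Cfsg.Agent.H05.Integral
import Cfsg.Agent.H04.Extraspecial
import Cfsg.Agent.H04.Class2
import Cfsg.Agent.H04.Basic
import Cfsg.Agent.BG.Api4

set_option autoImplicit false
open Cfsg

namespace Cfsg.Agent.S4067

open Subgroup BG H05
open scoped commutatorElement

section
variable {G : Type*} [Group G] [Finite G]

theorem aux_graph {p : ℕ} [Fact p.Prime] (M : Subgroup G) [M.Normal] (hM : M.index = p) {x y : G} (hx : x ∉ M)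
    (hy : y ∈ M) (hyC : y ∈ C_(M)) (hp : (x * y) ^ p = x ^ p) : ∃ α : MulAut G, α x = x * y := by
  have hxp : x ^ p ∈ M := hM ▸ M.pow_index_mem x
  let Δ : Subgroup (G × G) := M.map ((MonoidHom.id G).prod (MonoidHom.id G))
  have hΔ : ∀ d, d ∈ Δ ↔ d.1 ∈ M ∧ d.1 = d.2 := fun d =>
    ⟨by rintro ⟨m, hm, rfl⟩; exact ⟨hm, rfl⟩, by rintro ⟨h1, h2⟩; exact ⟨d.1, h1, Prod.ext rfl h2⟩⟩
  have hn : (x, x * y) ∈ N_(Δ) := by
    refine mem_norm_of_cj_le fun d hd => ?_
    obtain ⟨e, he, rfl⟩ := mem_cj'.1 hd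
    obtain ⟨h1, h2⟩ := (hΔ e).1 he
    refine (hΔ _).2 ⟨Normal.conj_mem inferInstance _ h1 x, ?_⟩
    show x * e.1 * x⁻¹ = x * y * e.2 * (x * y)⁻¹
    rw [← h2, mul_assoc x y, ← hyC _ h1]; group
  have hrel := H04.relIndex_sup_zpowers (p := p) Δ hn (fun h => hx ((hΔ _).1 h).1) ((hΔ _).2 ⟨hxp, hp.symm⟩)
  have hmax : ∀ z, z ∉ M → M ⊔ zpowers z = ⊤ := by
    intro z hz
    have h1 : (M ⊔ zpowers z).index ∣ p := hM ▸ index_dvd_of_le le_sup_left
    rcases (Nat.dvd_prime Fact.out).1 h1 with h | h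
    · exact index_eq_one.1 h
    · exfalso
      have h2 := relIndex_mul_index (le_sup_left : M ≤ M ⊔ zpowers z)
      rw [h, hM] at h2
      have h3 : M.relIndex (M ⊔ zpowers z) = 1 :=
        Nat.eq_of_mul_eq_mul_right (Fact.out : p.Prime).pos (by rw [h2, one_mul])
      exact hz (relIndex_eq_one.1 h3 (mem_sup_right (mem_zpowers z)))
  obtain ⟨e, he⟩ := H04.exists_equiv_of_graph (A := ⊤) (B := ⊤) (Δ ⊔ zpowers (x, x * y))
    (by rw [Subgroup.map_sup, MonoidHom.map_zpowers, map_map]
        exact (congrArg (· ⊔ zpowers x) (map_id M)).trans (hmax x hx))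
    (by rw [Subgroup.map_sup, MonoidHom.map_zpowers, map_map]
        exact (congrArg (· ⊔ zpowers (x * y)) (map_id M)).trans
          (hmax _ fun h => hx ((M.mul_mem_cancel_right hy).1 h)))
    (by rw [← H04.card_mul_relIndex (le_sup_left : Δ ≤ _), hrel, card_top, ← M.card_mul_index, hM,
          card_map_of_injective (fun a b h => congrArg Prod.fst h)]) rfl
  refine ⟨topEquiv.symm.trans (e.trans topEquiv), ?_⟩
  exact he (x, x * y) (mem_sup_right (mem_zpowers _)) (mem_top _)

theorem aux_comm (hz : commutator G ≤ center G) (a b c : G) : Commute ⁅a, b⁆ c :=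
  (mem_center_iff.1 (hz (commutator_mem_commutator (mem_top a) (mem_top b))) c).symm

/-- `g ↦ x⁻¹ g x g⁻¹` -/
def cm (hz : commutator G ≤ center G) (x : G) : G →* commutator G :=
  MonoidHom.mk' (fun g => ⟨⁅x⁻¹, g⁆, commutator_mem_commutator (mem_top _) (mem_top _)⟩) fun g h => by
    apply Subtype.ext
    have := (aux_comm hz x⁻¹ h g⁻¹).eq
    simp only [commutatorElement_def, inv_inv, coe_mul, mul_inv_rev] at this ⊢
    calc x⁻¹ * (g * h) * x * (h⁻¹ * g⁻¹) = x⁻¹ * g * x * (x⁻¹ * h * x * h⁻¹ * g⁻¹) := by group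
      _ = _ := by rw [this]; group

theorem cm_ker (hz : commutator G ≤ center G) (x : G) : (cm hz x).ker = C_[x] := by
  ext g
  rw [MonoidHom.mem_ker, mem_cent1, Subtype.ext_iff]
  show ⁅x⁻¹, g⁆ = 1 ↔ _
  rw [commutatorElement_eq_one_iff_commute, Commute.inv_left_iff]
  exact ⟨fun h => h.eq.symm, fun h => h.symm⟩

theorem cm_range {p : ℕ} (hp : p.Prime) (hc : Nat.card (commutator G) = p) (hz : commutator G ≤ center G)
    {x : G} (hx : x ∉ center G) : (cm hz x).range = ⊤ := by
  haveI : Fact (Nat.card (commutator G)).Prime := ⟨hc ▸ hp⟩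
  refine (cm hz x).range.eq_bot_or_eq_top_of_prime_card.resolve_left fun h => hx ?_
  rw [mem_center_iff]
  intro g
  have : g ∈ (cm hz x).ker := by
    have : cm hz x g ∈ (cm hz x).range := ⟨g, rfl⟩
    rwa [h] at this
  rwa [cm_ker, mem_cent1] at this

theorem index_cent {p : ℕ} (hp : p.Prime) (hc : Nat.card (commutator G) = p) (hz : commutator G ≤ center G)
    {x : G} (hx : x ∉ center G) : (C_[x]).index = p := by
  rw [← cm_ker hz, index_ker, cm_range hp hc hz hx, card_top, hc]

theorem pow_center {p : ℕ} (hc : Nat.card (commutator G) = p) (hz : commutator G ≤ center G) (x : G) :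
    x ^ p ∈ center G := by
  rw [mem_center_iff]
  intro g
  have : x ^ p ∈ (cm hz g).ker := by rw [MonoidHom.mem_ker, map_pow, ← hc, pow_card_eq_one']
  rw [cm_ker, mem_cent1] at this
  exact this.symm

theorem two_le_relIndex {p : ℕ} (hp : p = (Nat.card G).minFac) {A B : Subgroup G} (h : A < B) :
    Nat.card A * p ≤ Nat.card B := by
  rw [← H04.card_mul_relIndex h.le]
  refine Nat.mul_le_mul_left _ (hp ▸ Nat.minFac_le_of_dvd ?_ ?_)
  · have h1 : A.relIndex B ≠ 1 := fun h1 => h.not_ge (relIndex_eq_one.1 h1)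
    have h2 : A.relIndex B ≠ 0 := index_ne_zero_of_finite
    omega
  · exact (index_dvd_card _).trans (card_subgroup_dvd_card B)

theorem center_sq {p : ℕ} (hp : p.Prime) (hpm : p = (Nat.card G).minFac) (hc : Nat.card (commutator G) = p)
    (hz : commutator G ≤ center G) {x : G} (hx : x ∉ center G) :
    Nat.card (center G) * p ≤ Nat.card (C_[x]) ∧ Nat.card (C_[x]) * p = Nat.card G := by
  refine ⟨two_le_relIndex hpm (lt_of_le_of_ne (center_le_centralizer _) fun h => hx ?_), ?_⟩
  · rw [h]; exact mem_cent1_self x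
  · rw [← index_cent hp hc hz hx, card_mul_index]

theorem exists_y {p : ℕ} (hp : p.Prime) (hpm : p = (Nat.card G).minFac) (hc : Nat.card (commutator G) = p)
    (hz : commutator G ≤ center G) {x0 : G} (hx0 : x0 ∉ center G) :
    ∃ y, y ∉ commutator G ∧ ((y ∈ center G ∧ y ^ p = 1) ∨
      (y ∉ center G ∧ ∀ x, x ∉ C_[y] → (x * y) ^ p = x ^ p)) := by
  obtain ⟨h1, h2⟩ := center_sq hp hpm hc hz hx0
  have hZ0 : 0 < Nat.card (center G) := Nat.card_pos
  have hcp : ∀ a b : G, ⁅a, b⁆ ^ p = 1 := fun a b =>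
    hc ▸ pow_card_eq_one (commutator_mem_commutator (mem_top a) (mem_top b))
  have hmul : ∀ a b : G, ∀ n, (a * b) ^ n = a ^ n * b ^ n * ⁅b, a⁆ ^ n.choose 2 := fun a b n =>
    H04.mul_pow_eq_of_commute (aux_comm hz _ _ _) (aux_comm hz _ _ _) n
  by_cases h2' : p = 2
  swap
  · have hmul' : ∀ a b : G, (a * b) ^ p = a ^ p * b ^ p := fun a b => by
      obtain ⟨k, hk⟩ := hp.dvd_choose_self (k := 2) (by norm_num) (lt_of_le_of_ne hp.two_le (Ne.symm h2'))
      rw [hmul, hk, pow_mul, hcp, one_pow, mul_one]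
    let π : G →* center G := MonoidHom.mk' (fun g => ⟨g ^ p, pow_center hc hz g⟩) fun a b => Subtype.ext (hmul' a b)
    have h3 : ¬ π.ker ≤ commutator G := by
      intro h
      have h4 := card_le_of_le h
      have h5 : π.ker.index ≤ Nat.card (center G) := by rw [index_ker]; exact card_le_card_group _
      have h6 := π.ker.card_mul_index
      rw [hc] at h4
      have h7 := Nat.mul_le_mul h4 h5
      have := hp.two_le
      nlinarith
    obtain ⟨y, hy, hy'⟩ := SetLike.not_le_iff_exists.1 h3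
    have hyp : y ^ p = 1 := congrArg Subtype.val hy
    refine ⟨y, hy', ?_⟩
    by_cases hyZ : y ∈ center G
    · exact Or.inl ⟨hyZ, hyp⟩
    · exact Or.inr ⟨hyZ, fun x _ => by rw [hmul', hyp, mul_one]⟩
  subst h2'
  by_contra hcon
  push Not at hcon
  have hA : ∀ y ∈ center G, y ^ 2 = 1 → y ∈ commutator G := fun y h h' => by
    by_contra h3; exact (hcon y h3).1 h h'
  have hB : ∀ y, y ∉ center G → y ^ 2 ∈ commutator G → y ^ 2 = 1 := by
    intro y h h'
    by_contra h3
    obtain ⟨x, hx, hx'⟩ := (hcon y fun h4 => h (hz h4)).2 h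
    apply hx'
    rw [hmul, mul_assoc, mul_eq_left]
    have h5 : ⁅y, x⁆ ≠ 1 := fun h5 => hx (mem_cent1.2 (commutatorElement_eq_one_iff_mul_comm.1 h5).symm)
    have h6 := (Nat.card_eq_two_iff' (1 : commutator G)).1 hc
    have h7 := h6.unique (y₁ := ⟨_, h'⟩) (y₂ := ⟨⁅y, x⁆, commutator_mem_commutator (mem_top _) (mem_top _)⟩)
      (fun h => h3 (congrArg Subtype.val h)) (fun h => h5 (congrArg Subtype.val h))
    have h8 : y ^ 2 = ⁅y, x⁆ := congrArg Subtype.val h7
    rw [h8, Nat.choose_self, pow_one, ← sq, hcp]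
  let q : G →* Abelianization G := (powMonoidHom 2).comp Abelianization.of
  have hq : ∀ x, x ∈ q.ker ↔ x ^ 2 ∈ commutator G := fun x => by
    rw [← Abelianization.ker_of, MonoidHom.mem_ker, MonoidHom.mem_ker, map_pow]; rfl
  have hK : q.ker.index * 2 ≤ Nat.card (center G) := by
    have h3 : q.range ≤ (center G).map Abelianization.of := by
      rintro _ ⟨x, rfl⟩
      exact ⟨x ^ 2, pow_center hc hz x, map_pow _ _ _⟩
    have h4 := card_le_of_le h3
    rw [← relIndex_ker, Abelianization.ker_of] at h4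
    rw [index_ker, ← H04.card_mul_relIndex hz, hc]
    omega
  have hK2 := q.ker.card_mul_index
  by_cases hw : ∃ w ∈ center G, w ^ 2 ∈ commutator G ∧ w ^ 2 ≠ 1
  · obtain ⟨w, hwZ, hw1, hw2⟩ := hw
    have h3 : ¬ q.ker ≤ center G := by
      intro h
      let s : q.ker →* commutator G := MonoidHom.mk' (fun g => ⟨g ^ 2, (hq _).1 g.2⟩) fun a b =>
        Subtype.ext (Commute.mul_pow (mem_center_iff.1 (h b.2) a) 2)
      have h4 : s.ker.index ≤ 2 := by rw [index_ker, ← hc]; exact card_le_card_group _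
      have h5 : Nat.card s.ker ≤ 2 := by
        rw [← hc, ← card_map_of_injective (K := s.ker) q.ker.subtype_injective]
        refine card_le_of_le ?_
        rintro _ ⟨a, ha, rfl⟩
        exact hA _ (h a.2) (congrArg Subtype.val ha)
      have h6 := s.ker.card_mul_index
      have h7 := Nat.mul_le_mul h5 h4
      nlinarith
    obtain ⟨x, hx, hxZ⟩ := SetLike.not_le_iff_exists.1 h3
    have h4 : (x * w) ^ 2 = w ^ 2 := by
      rw [Commute.mul_pow (mem_center_iff.1 hwZ x), hB x hxZ ((hq x).1 hx), one_mul]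
    exact hw2 (h4 ▸ hB (x * w) (fun h => hxZ ((mul_mem_cancel_right hwZ).1 h)) (h4 ▸ hw1))
  · push Not at hw
    have h3 : ∀ x ∈ q.ker, x ^ 2 = 1 := fun x hx => by
      by_cases hxZ : x ∈ center G
      · exact hw x hxZ ((hq x).1 hx)
      · exact hB x hxZ ((hq x).1 hx)
    have h4 : Nat.card ↥(q.ker ⊓ center G) ≤ 2 := by
      rw [← hc]
      exact card_le_of_le fun x hx => hA x hx.2 (h3 x hx.1)
    have h5 := card_sup_mul (K := q.ker) (H := center G) le_normalizer_of_normal
    have h6 : q.ker ⊔ center G = ⊤ := by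
      apply eq_top_of_le_card
      nlinarith
    apply hx0
    rw [mem_center_iff]
    intro g
    obtain ⟨a, ha, b, hb, rfl⟩ := (mem_sup_norm (K := q.ker) (H := center G) le_normalizer_of_normal).1
      (h6.ge (mem_top g))
    obtain ⟨a', ha', b', hb', rfl⟩ := (mem_sup_norm (K := q.ker) (H := center G) le_normalizer_of_normal).1
      (h6.ge (mem_top x0))
    have h7 : a * a' = a' * a := by
      have e1 := h3 _ (mul_mem ha ha')
      have e2 := h3 _ ha
      have e3 := h3 _ ha'
      rw [sq] at e1 e2 e3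
      calc a * a' = (a * a')⁻¹ := (inv_eq_of_mul_eq_one_right e1).symm
        _ = a' * a := by rw [mul_inv_rev, inv_eq_of_mul_eq_one_right e2, inv_eq_of_mul_eq_one_right e3]
    calc a * b * (a' * b') = a * a' * (b * b') := by rw [mul_assoc, ← mul_assoc b, ← mem_center_iff.1 hb a']; group
      _ = a' * b' * (a * b) := by
        rw [h7, mul_assoc a' b', ← mul_assoc b', ← mem_center_iff.1 hb' a, mul_assoc a b' b,
          mem_center_iff.1 hb b']; group

theorem card_comm {p : ℕ} (hpm : p = (Nat.card G).minFac) (hna : ¬ IsMulCommutative G)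
    (hk : Nat.card G < p * Nat.card (ConjClasses G)) : Nat.card (commutator G) = p := by
  classical
  have := Fintype.ofFinite (IrrCharacter G)
  have h0 : ⊥ < commutator G := bot_lt_iff_ne_bot.2 fun h => hna ((commutator_eq_bot_iff G).1 h)
  have h1 := two_le_relIndex hpm h0
  rw [card_bot, one_mul] at h1
  refine le_antisymm ?_ h1
  have h2 := sum_charDegree_sq (G := G)
  have h3 := card_linear_irr (G := G)
  rw [Nat.card_eq_fintype_card, Fintype.card_subtype] at h3
  have h4 : ∑ χ : IrrCharacter G, (p ^ 2 + if (χ : G → ℂ) 1 = 1 then 1 else 0) ≤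
      ∑ χ : IrrCharacter G, (charDegree (χ : G → ℂ) ^ 2 + if (χ : G → ℂ) 1 = 1 then p ^ 2 else 0) := by
    refine Finset.sum_le_sum fun χ _ => ?_
    have hχ : IsIrrCharacter G χ := χ.2
    split_ifs with h
    · rw [charDegree_eq_of_apply_one (n := 1) (by simpa using h)]; omega
    · refine Nat.add_le_add_right (Nat.pow_le_pow_left (hpm ▸ Nat.minFac_le_of_dvd ?_ hχ.charDegree_dvd_card) 2) _
      have h5 := hχ.charDegree_pos
      have h6 : charDegree (χ : G → ℂ) ≠ 1 := fun h6 => h (by rw [← hχ.charDegree_eq, h6]; simp)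
      omega
  simp only [Finset.sum_add_distrib, h2, ← Finset.sum_filter, Finset.sum_const, smul_eq_mul, h3,
    Finset.card_univ, ← Nat.card_eq_fintype_card, card_irr_eq_card_conjClasses] at h4
  have h5 := (commutator G).card_mul_index
  by_contra h6
  push Not at h6
  have hp : 0 < p := hpm ▸ Nat.minFac_pos _
  set a := (commutator G).index
  set d := Nat.card (commutator G)
  set k := Nat.card (ConjClasses G)
  obtain ⟨r, rfl⟩ : ∃ r, p = r + 1 := ⟨p - 1, by omega⟩
  have h7 : (r + 2) * a ≤ d * a := Nat.mul_le_mul_right _ h6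
  rw [h5] at h7
  nlinarith [Nat.mul_le_mul_left r h7, Nat.mul_le_mul_left (r + 1) (Nat.succ_le_of_lt hk)]

theorem center_of_card {p : ℕ} (hp : p.Prime) (hpm : p = (Nat.card G).minFac) (N : Subgroup G) [N.Normal]
    (hc : Nat.card N = p) : N ≤ center G := by
  haveI : Fact p.Prime := ⟨hp⟩
  haveI : IsCyclic N := isCyclic_of_prime_card hc
  have h1 : (MulAut.conjNormal (H := N)).ker.index ∣ p - 1 := by
    rw [index_ker]
    refine (card_subgroup_dvd_card _).trans ?_
    rw [IsCyclic.card_mulAut, hc, Nat.totient_prime hp]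
  have h2 : (MulAut.conjNormal (H := N)).ker.index = 1 := by
    by_contra h
    have h3 : (MulAut.conjNormal (H := N)).ker.index ≠ 0 := index_ne_zero_of_finite
    have h4 := Nat.minFac_le_of_dvd (by omega) (index_dvd_card (MulAut.conjNormal (H := N)).ker)
    have h5 := Nat.le_of_dvd (by have := hp.two_le; omega) h1
    have := hp.two_le
    omega
  intro x hx
  rw [mem_center_iff]
  intro g
  have h6 : MulAut.conjNormal (H := N) g = 1 := (index_eq_one.1 h2).ge (mem_top g)
  have h7 := congrArg Subtype.val (DFunLike.congr_fun h6 (⟨x, hx⟩ : N))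
  exact mul_inv_eq_iff_eq_mul.1 h7

theorem count {α β : Type*} [Fintype α] [Fintype β] [DecidableEq β] (f : α → β) (w : α → ℕ) (C : ℕ)
    (h : ∀ b, C ≤ ∑ x with f x = b, w x) : Fintype.card β * C ≤ ∑ x, w x := by
  rw [← Finset.sum_fiberwise (s := Finset.univ) f w, ← Finset.card_univ, ← smul_eq_mul, ← Finset.sum_const]
  exact Finset.sum_le_sum fun b _ => h b

end

/-- Let G be a finite non-abelian group and p the least prime dividing its order. Then the automorphism group of G has at most #G/p orbits on G. -/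
theorem result {G : Type*} [Group G] [Finite G] (hna : ¬ IsMulCommutative G) :
    Nat.card (MulAction.orbitRel.Quotient (MulAut G) G) ≤ Nat.card G / (Nat.card G).minFac := by
  classical
  have := Fintype.ofFinite G
  set p := (Nat.card G).minFac with hpm
  haveI : Nontrivial G := by
    by_contra hc
    rw [not_nontrivial_iff_subsingleton] at hc
    exact hna ⟨⟨fun a b => Subsingleton.elim _ _⟩⟩
  have hp : p.Prime := Nat.minFac_prime Finite.one_lt_card.ne'
  haveI : Fact p.Prime := ⟨hp⟩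
  rw [Nat.le_div_iff_mul_le hp.pos]
  let f : G → MulAction.orbitRel.Quotient (MulAut G) G := Quotient.mk''
  have hf : ∀ (α : MulAut G) (x : G), f (α x) = f x := fun α x => Quotient.sound' ⟨α, rfl⟩
  by_cases hk : p * Nat.card (ConjClasses G) ≤ Nat.card G
  · refine le_trans ?_ hk
    rw [mul_comm]
    refine Nat.mul_le_mul_left _ (Nat.card_le_card_of_surjective
      (Quotient.lift f fun a b h => ?_ : ConjClasses G → _) fun q => ?_)
    · obtain ⟨c, rfl⟩ := isConj_iff.1 h
      exact (hf (MulAut.conj c) a).symm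
    · obtain ⟨x, rfl⟩ := Quotient.exists_rep q
      exact ⟨ConjClasses.mk x, rfl⟩
  have hc := card_comm hpm hna (not_le.1 hk)
  have hz := center_of_card hp hpm _ hc
  obtain ⟨x0, hx0⟩ : ∃ x0 : G, x0 ∉ center G := by
    by_contra h
    push Not at h
    exact hna ⟨⟨fun a b => mem_center_iff.1 (h b) a⟩⟩
  obtain ⟨y, y0, hy, hy0, hyM, hyC, hyp⟩ : ∃ y y0 : G, y ∉ commutator G ∧ y0 ∉ center G ∧ y ∈ C_[y0] ∧
      y ∈ C_(C_[y0]) ∧ ∀ x, x ∉ C_[y0] → (x * y) ^ p = x ^ p := by
    obtain ⟨y, hy, ⟨h1, h2⟩ | ⟨h1, h2⟩⟩ := exists_y hp hpm hc hz hx0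
    · exact ⟨y, x0, hy, hx0, center_le_centralizer _ h1, center_le_centralizer _ h1, fun x _ => by
        rw [Commute.mul_pow (mem_center_iff.1 h1 x), h2, mul_one]⟩
    · exact ⟨y, y, hy, h1, mem_cent1_self y, fun g hg => mem_cent1.1 hg, h2⟩
  obtain ⟨h1, h2⟩ := center_sq hp hpm hc hz hy0
  set M := C_[y0] with hM
  have hZM : center G ≤ M := center_le_centralizer _
  haveI : M.Normal := Normal.of_commutator_le G (hz.trans hZM)
  have hconj : ∀ x, x ∉ center G → ∀ c ∈ commutator G, f (x * c) = f x := by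
    intro x hx c hc'
    obtain ⟨g, hg⟩ := (cm_range hp hc hz hx).ge (mem_top ⟨c, hc'⟩)
    have hg' : ⁅x⁻¹, g⁆ = c := congrArg Subtype.val hg
    rw [← hf (MulAut.conj g) x, ← hg']
    congr 1
    simp [commutatorElement_def, mul_assoc]
  let S : Subgroup G :=
    { carrier := {k | k ∈ M ∧ ∀ x, x ∉ M → f (x * k) = f x}
      mul_mem' := fun {a b} ha hb => ⟨M.mul_mem ha.1 hb.1, fun x hx => by
        rw [← mul_assoc, hb.2 _ fun h => hx ((M.mul_mem_cancel_right ha.1).1 h), ha.2 x hx]⟩
      one_mem' := ⟨M.one_mem, fun x _ => by rw [mul_one]⟩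
      inv_mem' := fun {a} ha => ⟨M.inv_mem ha.1, fun x hx => by
        rw [← ha.2 _ fun h => hx ((M.mul_mem_cancel_right (M.inv_mem ha.1)).1 h), inv_mul_cancel_right]⟩ }
  have hS : p * p ≤ Nat.card S := by
    have := two_le_relIndex hpm (A := commutator G) (B := S) (lt_of_le_of_ne
      (fun c hc' => ⟨hZM (hz hc'), fun x hx => hconj x (fun h => hx (hZM h)) c hc'⟩) fun h => hy (by
        rw [h]
        refine ⟨hyM, fun x hx => ?_⟩
        obtain ⟨α, hα⟩ := aux_graph M (index_cent hp hc hz hy0) hx hyM hyC (hyp x hx)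
        rw [← hα, hf]))
    rwa [hc] at this
  have hfib : ∀ (x : G) (K : Subgroup G), (∀ k ∈ K, f (x * k) = f x) →
      Nat.card K ≤ (Finset.univ.filter fun z => f z = f x).card := by
    intro x K hK
    rw [← Fintype.card_subtype, ← Nat.card_eq_fintype_card]
    exact Nat.card_le_card_of_injective (fun k : K => (⟨x * k, hK k k.2⟩ : {z // f z = f x}))
      fun a b h => Subtype.ext (mul_left_cancel (congrArg Subtype.val h))
  obtain ⟨r, hr⟩ : ∃ r, p = r + 1 := ⟨p - 1, by have := hp.pos; omega⟩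
  have key := count f (fun x => (if x ∈ center G then p * r else 0) + (if x ∈ M then r else 0) + 1) (p * p) (by
    intro b
    obtain ⟨x, rfl⟩ : ∃ x, f x = b := Quotient.exists_rep b
    by_cases hA : ∃ x', f x' = f x ∧ x' ∉ M
    · obtain ⟨x', e, hx'⟩ := hA
      rw [← e]
      refine hS.trans ((hfib x' S fun k hk => hk.2 x' hx').trans ?_)
      rw [Finset.card_eq_sum_ones]
      exact Finset.sum_le_sum fun _ _ => by omega
    push Not at hA
    by_cases hB : x ∈ center G
    · refine le_trans ?_ (Finset.single_le_sum (f := fun x => (if x ∈ center G then p * r else 0) +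
        (if x ∈ M then r else 0) + 1) (fun _ _ => Nat.zero_le _) (a := x) (by simp))
      simp only [hB, hZM hB, if_true]
      rw [hr]; ring_nf; rfl
    · have h3 := hfib x _ (hconj x hB)
      rw [hc] at h3
      refine (Nat.mul_le_mul_right p h3).trans ?_
      rw [← smul_eq_mul, ← Finset.sum_const]
      refine Finset.sum_le_sum fun z hz => ?_
      rw [if_pos (hA z (by simpa using hz))]
      omega)
  simp only [Finset.sum_add_distrib, ← Finset.sum_filter, Finset.sum_const, smul_eq_mul, Finset.card_univ,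
    ← Fintype.card_subtype, ← Nat.card_eq_fintype_card, mul_one] at key
  have h3 : 1 ≤ r := by have := hp.two_le; omega
  rw [← h2]
  refine Nat.mul_le_mul_right _ (Nat.le_of_mul_le_mul_right (c := p * p) (key.trans ?_) (Nat.mul_pos hp.pos hp.pos))
  rw [← h2]
  set z := Nat.card (center G)
  set m := Nat.card M
  have h4 := Nat.mul_le_mul_right r h1
  rw [hr] at *
  nlinarith [Nat.mul_le_mul_left (m * r) h3]

end Cfsg.Agent.S4067
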