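import Mathlib
import Cfsg.Statements.S4068
import Cfsg.Agent.H08.Simp2
import Cfsg.Agent.S1230

set_option autoImplicit false
open Cfsg

namespace Cfsg.Agent.S4068

open Subgroup H08 L.Dk

/-- A finite non-solvable group on which its automorphism group has exactly four orbits is isomorphic to the alternating group of degree 5. -/
theorem result {G : Type*} [Group G] [Finite G] (hns : ¬ Group.IsSolvable G)
    (h4 : Nat.card (MulAction.orbitRel.Quotient (MulAut G) G) = 4) : Nonempty (G ≃* alternatingGroup (Fin 5)) := by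
  obtain ⟨q, r, hq, hr, h1, h2, h3, h5, h6⟩ := exists_three_primes hns
  have hex : ∀ p : ℕ, p.Prime → p ∣ Nat.card G → p ∈ Set.range (orderOf : G → ℕ) := fun p hp hd =>
    have := Fact.mk hp; exists_prime_orderOf_dvd_card' p hd
  have hpr : ∀ x : G, x ≠ 1 → (orderOf x).Prime := fun x hx => by_contra fun hn => by
    let f : MulAction.orbitRel.Quotient (MulAut G) G → ℕ := Quotient.lift orderOf (by
      rintro a b ⟨α, rfl⟩; exact α.orderOf_eq b)
    have h7 : Set.range (orderOf : G → ℕ) ⊆ Set.range f := by rintro _ ⟨a, rfl⟩; exact ⟨Quotient.mk _ a, rfl⟩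
    have h8 : ({orderOf x, 1, 2, q, r} : Set ℕ) ⊆ Set.range f := by
      refine Set.Subset.trans ?_ h7
      rintro _ (rfl | rfl | rfl | rfl | rfl)
      exacts [⟨x, rfl⟩, ⟨1, orderOf_one⟩, hex 2 Nat.prime_two (two_dvd_of_not_sol hns), hex _ hq h5, hex _ hr h6]
    have h9 := (Set.ncard_le_ncard h8 (Set.toFinite _)).trans (Finite.card_range_le f)
    have := hq.two_le
    have := hr.two_le
    have h10 : orderOf x ≠ 2 ∧ orderOf x ≠ q ∧ orderOf x ≠ r :=
      ⟨fun e => hn (e ▸ Nat.prime_two), fun e => hn (e ▸ hq), fun e => hn (e ▸ hr)⟩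
    rw [h4, Set.ncard_insert_of_notMem (by simp [hx, h10]), Set.ncard_insert_of_notMem (by simp; omega),
      Set.ncard_insert_of_notMem (by simp; omega), Set.ncard_pair h3.symm] at h9
    omega
  have hC : ∀ t : G, orderOf t = 2 → ∀ c ∈ centralizer ({t} : Set G), c ^ 2 = 1 := fun t ht c hc => by_contra fun hn => by
    have h7 := hpr c (fun e => hn (by simp [e]))
    have h8 : (orderOf c).Coprime (orderOf t) := ht ▸ (Nat.coprime_primes h7 Nat.prime_two).2 fun e => hn (e ▸ pow_orderOf_eq_one c)
    have h9 := Commute.orderOf_mul_eq_mul_orderOf_of_coprime (mem_centralizer_singleton_iff.1 hc) h8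
    have h10 := h7.two_le
    have := hpr (c * t) (fun e => by rw [e, orderOf_one, ht] at h9; omega)
    rw [h9, ht] at this
    exact Nat.not_prime_mul h7.ne_one (by norm_num) this
  obtain ⟨T⟩ : Nonempty (Sylow 2 G) := inferInstance
  obtain ⟨F, _, _, hF, ⟨e⟩⟩ := S1230.result T (fun h => hns (sol_of_cyclic_sylow T h)) (fun h => hns (sol_of_normal_sylow T h))
    fun t ht => ⟨⟨⟨fun a b => Commute.of_orderOf_dvd_two
      (fun x => orderOf_dvd_of_pow_eq_one (Subtype.ext (hC t ht x x.2))) a b⟩⟩, hC t ht⟩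
  have h7 : 4 ≤ Fintype.card F := by_contra fun h => hns (by
    have := isSolvable_psl_small (F := F) (by omega)
    exact Group.isSolvable_of_isSolvable_injective (f := e.toMonoidHom) e.injective)
  obtain ⟨n, hn⟩ := IsPGroup.iff_card.1 T.2
  have h8 : ¬ 3 ∣ Fintype.card F := fun h => by
    rw [hF, hn] at h; exact absurd (Nat.prime_three.dvd_of_dvd_pow h) (by norm_num)
  have h9 : dd F = 1 := ((dd_cases (F := F)).resolve_right fun h => by
    rcases n with _ | n
    · omega
    · rw [hF, hn, pow_succ] at h; omega).2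
  have hp : ∀ g : Matrix.ProjectiveSpecialLinearGroup (Fin 2) F, 3 ∣ orderOf g → orderOf g = 3 := fun g hg => by
    have := hpr (e.symm g) (fun h => by rw [(map_eq_one_iff _ e.symm.injective).1 h, orderOf_one] at hg; omega)
    rw [e.symm.orderOf_eq] at this
    exact ((Nat.prime_dvd_prime_iff_eq Nat.prime_three this).1 hg).symm
  obtain ⟨a, ha⟩ := exists_orderOf_add (F := F)
  obtain ⟨b, hb⟩ := exists_orderOf_sub h7
  rw [h9, one_mul] at ha hb
  have := hp a
  have := hp b
  obtain ⟨f⟩ := A5_of_psl2 (F := F) (Or.inl (by omega))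
  exact ⟨e.trans f⟩

end Cfsg.Agent.S4068
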