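import Mathlib
import Cfsg.Statements.S4072
import Cfsg.Agent.BG.Api4
import Cfsg.Agent.H03.Frobenius
import Cfsg.Agent.H05.Burnside
import Cfsg.Agent.H02.PCore

set_option autoImplicit false
open Cfsg

namespace Cfsg.Agent.S4072

open BG Subgroup
open scoped commutatorElement

theorem aux_center {G : Type*} [Group G] [Finite G]
    (hS : ∀ H : Subgroup G, ¬ IsMulCommutative H → Subgroup.normalizer (H : Set G) = H)
    (hZ : center G ≠ ⊥) : Group.IsSolvable G := by
  obtain ⟨p, hp, hd⟩ := Nat.exists_prime_and_dvd (n := Nat.card (center G)) (fun h => hZ (Subgroup.card_eq_one.1 h))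
  haveI : Fact p.Prime := ⟨hp⟩
  obtain ⟨⟨z, hzZ⟩, hz⟩ := exists_prime_orderOf_dvd_card' p hd
  have hz : orderOf z = p := by rw [← hz, ← orderOf_coe]
  obtain ⟨P⟩ : Nonempty (Sylow p G) := inferInstance
  have hnpc : HasNormalPComplement p G := by
    refine H03.hasNPC_of_local P fun D hDP _ g hg hc => ?_
    by_contra hgC
    have hD : IsPGroup p D := P.isPGroup'.to_le hDP
    have hab : IsMulCommutative D := by
      by_contra h
      rw [hS D h] at hg
      obtain ⟨k, hk⟩ := IsPGroup.iff_orderOf.1 hD ⟨g, hg⟩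
      rw [← orderOf_coe] at hk
      have : orderOf g = 1 := Nat.eq_one_of_dvd_coprimes (hc.pow_right k) dvd_rfl (hk ▸ dvd_rfl)
      rw [orderOf_eq_one_iff.1 this] at hgC
      exact hgC (one_mem _)
    have hcop : (Nat.card (zpowers g)).Coprime (Nat.card D) := by
      obtain ⟨k, hk⟩ := IsPGroup.iff_card.1 hD
      rw [hk, Nat.card_zpowers]; exact hc.pow_right k
    have hd := coprime_abelian_dprod (zpowers_le.2 hg) hcop hab
    have hWD : ⁅D, zpowers g⁆ ≤ D := le_sup_right.trans hd.sup.le
    have hna : ¬ IsMulCommutative ↥(⁅D, zpowers g⁆ ⊔ zpowers g) := by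
      intro h
      have h1 : ⁅D, zpowers g⁆ ≤ C_(zpowers g) :=
        le_sup_left.trans ((abelian_iff.1 h).trans (cent_anti le_sup_right))
      have h2 : ⁅D, zpowers g⁆ = ⊥ := by
        rw [← hd.disj]; exact (inf_eq_right.2 (le_inf hWD h1)).symm
      rw [commutator_comm, commutator_eq_bot_iff_le_centralizer, zpowers_le] at h2
      exact hgC h2
    have hzH : z ∈ ⁅D, zpowers g⁆ ⊔ zpowers g := by
      rw [← hS _ hna]; exact center_le_normalizer _ hzZ
    obtain ⟨w, hw, a, ha, rfl⟩ := (mem_sup_norm (right_le_norm_comm _ _)).1 hzH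
    have hwa : Commute w a := by
      have := mem_center_iff.1 hzZ w
      rw [mul_assoc] at this
      exact mul_left_cancel this
    have ha1 : a = 1 := by
      obtain ⟨k, hk⟩ := hD ⟨w, hWD hw⟩
      have hk' : w ^ p ^ k = 1 := congrArg Subtype.val hk
      have h1 : a ^ p ^ (k + 1) = 1 := by
        have h2 : (w * a) ^ p ^ (k + 1) = 1 := by rw [pow_succ', pow_mul, ← hz, pow_orderOf_eq_one, one_pow]
        rwa [hwa.mul_pow, pow_succ, pow_mul w, hk', one_pow, one_mul, ← pow_succ] at h2
      exact orderOf_eq_one_iff.1 (Nat.eq_one_of_dvd_coprimes (hc.pow_right (k + 1))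
        (orderOf_dvd_of_mem_zpowers ha) (orderOf_dvd_of_pow_eq_one h1))
    rw [ha1, mul_one] at hz hzZ
    have : w ∈ (D ⊓ C_(zpowers g)) ⊓ ⁅D, zpowers g⁆ := ⟨⟨hWD hw, fun x _ => mem_center_iff.1 hzZ x⟩, hw⟩
    rw [hd.disj, mem_bot] at this
    rw [this, orderOf_one] at hz
    exact hp.one_lt.ne hz
  obtain ⟨Q, K, hK, hKQ⟩ := hnpc
  have hKt : K ≠ ⊤ := by
    intro h
    have h4 := hKQ.disjoint.eq_bot
    rw [h, top_inf_eq] at h4
    exact Q.ne_bot_of_dvd_card (hd.trans (card_subgroup_dvd_card _)) h4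
  have hKab : IsMulCommutative K := by
    by_contra h
    exact hKt ((hS K h).symm.trans (normalizer_eq_top K))
  haveI := sol_of_abelian hKab
  haveI : Group.IsSolvable (Q : Subgroup G) := by have := Q.isPGroup'.isNilpotent; infer_instance
  haveI : Group.IsSolvable (G ⧸ K) := Group.isSolvable_of_surjective (f := hKQ.symm.QuotientMulEquiv.symm.toMonoidHom)
    hKQ.symm.QuotientMulEquiv.symm.surjective
  exact Group.isSolvable_of_ker_le_range K.subtype (QuotientGroup.mk' K) (by simp)

/-- A finite group in which every non-abelian subgroup is self-normalizing is solvable or simple. -/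
theorem result {G : Type*} [Group G] [Finite G] (hS : ∀ H : Subgroup G, ¬ IsMulCommutative H → Subgroup.normalizer (H : Set G) = H) :
    Group.IsSolvable G ∨ IsSimpleGroup G := by
  by_cases hZ : center G = ⊥
  swap
  · exact Or.inl (aux_center hS hZ)
  have hab : ∀ N : Subgroup G, N.Normal → N ≠ ⊤ → IsMulCommutative N := by
    intro N hN hne
    by_contra h
    exact hne ((hS N h).symm.trans (normalizer_eq_top N))
  by_cases hnt : Nontrivial G
  swap
  · rw [not_nontrivial_iff_subsingleton] at hnt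
    exact Or.inl inferInstance
  by_cases hsimp : ∀ N : Subgroup G, N.Normal → N = ⊥ ∨ N = ⊤
  · exact Or.inr ⟨hsimp⟩
  left
  push Not at hsimp
  obtain ⟨N0, hN0, hb, ht⟩ := hsimp
  obtain ⟨N, hN0N, ⟨hN, hNt⟩, hmax⟩ := exists_maximal_ge_of_wellFoundedGT
    (fun K : Subgroup G => K.Normal ∧ K ≠ ⊤) N0 ⟨hN0, ht⟩
  have hNab := hab N hN hNt
  have hC : C_(N) ≤ N := by
    refine hmax ⟨inferInstance, fun h => hb ?_⟩ (le_centralizer N)
    rw [eq_bot_iff, ← hZ]
    intro x hx
    exact mem_center_iff.2 fun g => ((h.ge (mem_top g)) x (hN0N hx)).symm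
  have hsn : ∀ K : Subgroup (G ⧸ N), K ≠ ⊥ → N_(K) ≤ K := by
    intro K hK
    have hna : ¬ IsMulCommutative (K.comap (QuotientGroup.mk' N)) := by
      intro h
      apply hK
      have h1 : N ≤ K.comap (QuotientGroup.mk' N) := fun x hx => by
        rw [mem_comap, QuotientGroup.mk'_apply, (QuotientGroup.eq_one_iff x).2 hx]; exact one_mem _
      have h2 : K.comap (QuotientGroup.mk' N) ≤ N := ((le_centralizer _).trans (centralizer_le h1)).trans hC
      rw [eq_bot_iff]
      intro y hy
      obtain ⟨x, rfl⟩ := QuotientGroup.mk'_surjective N y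
      exact (QuotientGroup.eq_one_iff x).2 (h2 hy)
    intro y hy
    obtain ⟨x, rfl⟩ := QuotientGroup.mk'_surjective N y
    exact (hS _ hna).le (le_normalizer_comap _ hy)
  haveI : Nontrivial (G ⧸ N) := QuotientGroup.nontrivial_iff.2 hNt
  obtain ⟨p, hp, hd⟩ := Nat.exists_prime_and_dvd (Finite.one_lt_card (α := G ⧸ N)).ne'
  haveI : Fact p.Prime := ⟨hp⟩
  obtain ⟨P⟩ : Nonempty (Sylow p (G ⧸ N)) := inferInstance
  have hP0 : (P : Subgroup (G ⧸ N)) ≠ ⊥ := P.ne_bot_of_dvd_card hd
  have h1 : (P : Subgroup (G ⧸ N)) ≤ C_((P : Subgroup (G ⧸ N))) := by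
    refine le_trans ?_ ((hsn _ (pg_center_ne_bot hp P.isPGroup' hP0)).trans inf_le_right)
    exact le_normalizer.trans (norm_inf le_rfl (norm_cent le_rfl))
  have h2 : N_((P : Subgroup (G ⧸ N))) ≤ C_((P : Subgroup (G ⧸ N))) := (hsn _ hP0).trans h1
  have h3 := MonoidHom.ker_transferSylow_isComplement' P h2
  set K := (MonoidHom.transferSylow P h2).ker
  have hKt : K.comap (QuotientGroup.mk' N) ≠ ⊤ := by
    intro h
    have : K = ⊤ := by
      rw [← map_comap_eq_self_of_surjective (QuotientGroup.mk'_surjective N) K, h,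
        map_top_of_surjective _ (QuotientGroup.mk'_surjective N)]
    have h4 := h3.disjoint.eq_bot
    rw [this, top_inf_eq] at h4
    exact hP0 h4
  haveI := sol_of_abelian (hab _ inferInstance hKt)
  haveI : Group.IsSolvable (P : Subgroup (G ⧸ N)) := by have := P.isPGroup'.isNilpotent; infer_instance
  exact Group.isSolvable_of_ker_le_range (K.comap (QuotientGroup.mk' N)).subtype
    ((MonoidHom.transferSylow P h2).comp (QuotientGroup.mk' N)) (by rw [range_subtype]; exact fun x hx => hx)

end Cfsg.Agent.S4072
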