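import Mathlib
import Cfsg.Statements.S4074
import Cfsg.Agent.H16.Util

set_option autoImplicit false
open Cfsg

namespace Cfsg.Agent.S4074

open DihedralGroup

/-- For n > 2, every non-abelian subgroup of the dihedral group of order 2n is self-normalizing if and only if n = 4 or n is odd. -/
theorem result (n : ℕ) (hn : 2 < n) :
    (∀ H : Subgroup (DihedralGroup n), ¬ IsMulCommutative H → Subgroup.normalizer (H : Set (DihedralGroup n)) = H) ↔
    (n = 4 ∨ Odd n) := by
  haveI : NeZero n := ⟨by omega⟩
  constructor
  · intro h
    by_contra hc
    push Not at hc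
    obtain ⟨h4, hodd⟩ := hc
    have hd : 2 ∣ n := even_iff_two_dvd.1 (Nat.not_odd_iff_even.1 hodd)
    let c : ZMod n →+* ZMod 2 := ZMod.castHom hd (ZMod 2)
    let φ : DihedralGroup n →* Multiplicative (ZMod 2) :=
      MonoidHom.mk' (fun x => match x with
        | r i => Multiplicative.ofAdd (c i)
        | sr i => Multiplicative.ofAdd (c i)) (by
        rintro (i | i) (j | j) <;> simp [← ofAdd_add, ← ofAdd_sub, CharTwo.sub_eq_add, add_comm])
    have h1 := h φ.ker (by
      intro hc
      have h2 : r 2 ∈ φ.ker := by
        change Multiplicative.ofAdd (c 2) = 1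
        rw [map_ofNat]; rfl
      have h3 : sr 0 ∈ φ.ker := by
        change Multiplicative.ofAdd (c 0) = 1
        rw [map_zero]; rfl
      have := H16.comm_of_mem h2 h3
      simp only [r_mul_sr, sr_mul_r, sr.injEq] at this
      have h5 : ((4 : ℕ) : ZMod n) = 0 := by push_cast; linear_combination -this
      rw [ZMod.natCast_eq_zero_iff] at h5
      have := Nat.le_of_dvd (by norm_num) h5
      interval_cases n <;> simp_all)
    rw [Subgroup.normalizer_eq_top] at h1
    have : r 1 ∈ φ.ker := h1 ▸ Subgroup.mem_top _
    change Multiplicative.ofAdd (c 1) = 1 at this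
    rw [map_one] at this
    exact absurd this (by decide)
  · rintro (rfl | hodd) H hH
    · have h1 : Nat.card H ∣ 2 ^ 3 := by
        have := H.card_subgroup_dvd_card
        rwa [DihedralGroup.nat_card] at this
      obtain ⟨k, hk, hk'⟩ := (Nat.dvd_prime_pow Nat.prime_two).1 h1
      by_cases hk3 : k = 3
      · have : H = ⊤ := Subgroup.eq_top_of_card_eq H (by rw [hk', hk3, DihedralGroup.nat_card]; norm_num)
        subst this
        exact Subgroup.normalizer_eq_top _
      · exfalso
        apply hH
        interval_cases k
        · haveI := (Nat.card_eq_one_iff_unique.1 hk').1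
          exact ⟨⟨fun a b => Subsingleton.elim _ _⟩⟩
        · haveI := isCyclic_of_prime_card (p := 2) hk'
          infer_instance
        · exact ⟨⟨IsPGroup.commutative_of_card_eq_prime_sq (p := 2) hk'⟩⟩
        · exact absurd rfl hk3
    · apply le_antisymm _ Subgroup.le_normalizer
      obtain ⟨i, hi⟩ : ∃ i, sr i ∈ H := by
        by_contra hc
        push Not at hc
        apply hH
        rw [H16.isMulCommutative_iff]
        rintro (a | a) ha (b | b) hb
        · simp [add_comm]
        · exact absurd hb (hc b)
        · exact absurd ha (hc a)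
        · exact absurd ha (hc a)
      have key : ∀ k, r k ∈ Subgroup.normalizer (H : Set (DihedralGroup n)) → r k ∈ H := by
        intro k hk
        have h1 := mul_mem ((Subgroup.mem_normalizer_iff.1 hk _).1 hi) hi
        have h2 : r k * sr i * (r k)⁻¹ * sr i = r k ^ 2 := by
          simp [pow_two]; ring
        rw [h2] at h1
        refine H16.mem_of_pow_mem_of_pow_mem (Nat.coprime_two_left.2 hodd) h1 ?_
        rw [r_pow]; simp
      rintro (k | k) hk
      · exact key k hk
      · have h1 := key _ (mul_mem hk (Subgroup.le_normalizer hi))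
        have := mul_mem h1 (inv_mem hi)
        rwa [← sr_mul_sr, mul_inv_cancel_right] at this

end Cfsg.Agent.S4074
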