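import Mathlib
import Cfsg.Statements.S4075
import Cfsg.Agent.H16.Util
import Cfsg.Agent.H16.Schmidt
import Cfsg.Agent.H04.Basic

set_option autoImplicit false
open Cfsg

namespace Cfsg.Agent.S4075

/-- Let G be a finite nilpotent group. Every non-abelian subgroup of G is self-normalizing if and only if G is abelian or G is a minimal non-abelian p-group for some prime p (non-abelian of prime-power order with every proper subgroup abelian). -/
theorem result {G : Type*} [Group G] [Finite G]
    [Group.IsNilpotent G] :
    (∀ H : Subgroup G, ¬ IsMulCommutative H → Subgroup.normalizer (H : Set G) = H) ↔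
    (IsMulCommutative G ∨ (IsPrimePow (Nat.card G) ∧ ¬ IsMulCommutative G ∧ ∀ H : Subgroup G, H ≠ ⊤ → IsMulCommutative H)) := by
  constructor
  · intro h
    by_cases hc : IsMulCommutative G
    · exact Or.inl hc
    right
    have hp : ∀ H : Subgroup G, H ≠ ⊤ → IsMulCommutative H := by
      intro H hH
      by_contra hn
      exact (H04.lt_normalizer_of_ne_top hH).ne' (h H hn)
    refine ⟨?_, hc, hp⟩
    by_contra hpp
    apply hc
    apply H16.isMulCommutative_of_nilpotent_of_pgroups
    intro p hp' P
    apply hp
    intro ht
    obtain ⟨k, hk⟩ := IsPGroup.iff_card.1 P.isPGroup'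
    rw [ht, Subgroup.card_top] at hk
    cases k with
    | zero =>
      haveI := (Nat.card_eq_one_iff_unique.1 hk).1
      exact hc ⟨⟨fun a b => Subsingleton.elim _ _⟩⟩
    | succ k => exact hpp (hk ▸ hp'.out.isPrimePow.pow (Nat.succ_ne_zero k))
  · rintro (h | ⟨-, -, h⟩) H hH
    · exact absurd ⟨⟨fun a b => Subtype.ext (h.is_comm.comm a b)⟩⟩ hH
    · by_cases ht : H = ⊤
      · subst ht; exact Subgroup.normalizer_eq_top _
      · exact absurd (h H ht) hH

end Cfsg.Agent.S4075
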