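import Mathlib
import Cfsg.Statements.S4078
import Cfsg.Agent.H01.Sol2
import Cfsg.Agent.S0205

set_option autoImplicit false
open Cfsg

namespace Cfsg.Agent.S4078

/-- For an element x of a finite group G let Sol(x) be the set of y ∈ G such that x and y generate a solvable subgroup. Then G is solvable if and only if Sol(x) is (the carrier of) a subgroup of G for every x ∈ G. -/
theorem result {G : Type*} [Group G] [Finite G] :
    Group.IsSolvable G ↔ ∀ x : G, ∃ H : Subgroup G, (H : Set G) = {y : G | Group.IsSolvable ↥(Subgroup.closure ({x, y} : Set G))} := by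
    refine ⟨fun h x => ⟨⊤, (Set.eq_univ_of_forall fun y => (inferInstance : Group.IsSolvable _)).symm⟩, fun h => ?_⟩
    refine H01.min_simple_induction (Pr := fun G _ => ∀ x : G, ∃ H : Subgroup G,
      (H : Set G) = {y : G | Group.IsSolvable ↥(Subgroup.closure ({x, y} : Set G))}) ?_ ?_ ?_ _ G rfl h
    · intro G _ _ K h x
      obtain ⟨H, hH⟩ := h x
      refine ⟨H.subgroupOf K, Set.ext fun y => ?_⟩
      have h1 : (Subgroup.closure ({x, y} : Set K)).map K.subtype = Subgroup.closure ({(x : G), (y : G)} : Set G) := by
        rw [MonoidHom.map_closure, Set.image_pair]; rfl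
      have e := Subgroup.equivMapOfInjective (Subgroup.closure ({x, y} : Set K)) _ K.subtype_injective
      rw [h1] at e
      show (y : G) ∈ (H : Set G) ↔ _
      rw [hH]
      exact ⟨fun h2 => @Group.isSolvable_of_surjective _ _ _ _ e.symm.toMonoidHom e.symm.surjective h2,
        fun h2 => @Group.isSolvable_of_surjective _ _ _ _ e.toMonoidHom e.surjective h2⟩
    · intro G _ _ N _ hN h x
      obtain ⟨x, rfl⟩ := QuotientGroup.mk'_surjective N x
      obtain ⟨H, hH⟩ := h x
      have h1 : ∀ y : G, (Subgroup.closure ({x, y} : Set G)).map (QuotientGroup.mk' N) =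
          Subgroup.closure {QuotientGroup.mk' N x, QuotientGroup.mk' N y} := fun y => by
        rw [MonoidHom.map_closure, Set.image_pair]
      refine ⟨H.map (QuotientGroup.mk' N), Set.ext fun y => ⟨?_, ?_⟩⟩
      · rintro ⟨y, hy, rfl⟩
        have h2 : Group.IsSolvable ↥(Subgroup.closure ({x, y} : Set G)) := hH.le hy
        show Group.IsSolvable _
        rw [← h1]
        exact Group.isSolvable_of_surjective (MonoidHom.subgroupMap_surjective _ _)
      · obtain ⟨y, rfl⟩ := QuotientGroup.mk'_surjective N y
        intro hy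
        have h2 : Group.IsSolvable ↥((Subgroup.closure ({x, y} : Set G)).map (QuotientGroup.mk' N)) := by
          rw [h1]; exact hy
        refine ⟨y, hH.ge ?_, rfl⟩
        have h3 : Group.IsSolvable (N.subgroupOf (Subgroup.closure ({x, y} : Set G))) :=
          H01.isSolvable_subgroupOf N _
        exact Group.isSolvable_of_ker_le_range (N.subgroupOf (Subgroup.closure ({x, y} : Set G))).subtype
          ((QuotientGroup.mk' N).subgroupMap _) (by
            rw [Subgroup.range_subtype, Subgroup.ker_subgroupMap, QuotientGroup.ker_mk'])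
    · intro G _ _ hs _ h
      by_contra e
      have h2 : 2 ∣ Nat.card G := by
        by_contra h2
        exact e (Cfsg.Agent.S0205.result (Nat.odd_iff.2 (by omega)))
      have h3 : Cfsg.omegaOne 2 (⊤ : Subgroup G) = ⊤ := (Subgroup.normalizer_eq_top_iff.1 (top_le_iff.1
        (BG.norm_omega 2 BG.le_norm_top))).eq_bot_or_eq_top.resolve_left
        (BG.omega_ne_bot' Nat.prime_two (by rwa [Subgroup.card_top]))
      have h4 : ∀ x : G, (∀ t : G, t ^ 2 = 1 → Group.IsSolvable ↥(Subgroup.closure ({x, t} : Set G))) →
          ∀ y, Group.IsSolvable ↥(Subgroup.closure ({x, y} : Set G)) := fun x hx y => by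
        obtain ⟨H, hH⟩ := h x
        exact hH.le (h3.ge.trans (BG.omega_le_iff.2 fun t _ ht => hH.ge (hx t ht)) (Subgroup.mem_top y))
      refine e (H01.sol_of_two_gen fun a => h4 a fun t ht => ?_)
      rw [Set.pair_comm]
      refine h4 t (fun s hs => ?_) a
      have h5 : t ∈ Subgroup.normalizer ((Subgroup.zpowers (t * s) : Subgroup G) : Set G) := by
        rw [← BG.cj_eq_self_iff, BG.cj_zpowers, ← Subgroup.zpowers_inv]
        congr 1
        rw [pow_two] at ht hs
        rw [← mul_assoc t t, ht, one_mul, mul_inv_rev, inv_inv, ← eq_inv_of_mul_eq_one_left hs]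
      refine BG.sol_of_le (BG.sol_sup (BG.sol_of_abelian (BG.abelian_of_cyclic (BG.cyclic_zpowers t)))
        (BG.sol_of_abelian (BG.abelian_of_cyclic (BG.cyclic_zpowers (t * s)))) (Subgroup.zpowers_le.2 h5)) ?_
      rw [H01.closure_pair]
      exact H01.two_le (H01.mem_two_right _ _) ((Subgroup.mul_mem_cancel_left _ (H01.mem_two_right _ t)).1
        (H01.mem_two_left _ _))

end Cfsg.Agent.S4078
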