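import Mathlib
import Cfsg.Statements.S4080
import Cfsg.Agent.H04.Aut

set_option autoImplicit false
open Cfsg

namespace Cfsg.Agent.S4080

/-- Let p > 3 be a prime and L the direct product of two cyclic groups of order p². Every automorphism of L of order p fixes every element of order p of L. -/
theorem result {p : ℕ} [Fact p.Prime] (hp : 3 < p)
    (a : MulAut (Multiplicative (ZMod (p ^ 2) × ZMod (p ^ 2)))) (ha : orderOf a = p)
    (x : Multiplicative (ZMod (p ^ 2) × ZMod (p ^ 2))) (hx : orderOf x = p) : a x = x := by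
  have hpp : p.Prime := Fact.out
  haveI : NeZero (p ^ 2) := ⟨pow_ne_zero 2 hpp.ne_zero⟩
  let L := Multiplicative (ZMod (p ^ 2) × ZMod (p ^ 2))
  let G := L ⋊[(Subgroup.zpowers a).subtype] Subgroup.zpowers a
  haveI : Finite G := Finite.of_equiv _ SemidirectProduct.equivProd.symm
  have hG : Nat.card G = p ^ 5 := by
    rw [SemidirectProduct.card, Nat.card_zpowers, ha]
    simp [L]; ring
  have hP : IsPGroup p (⊤ : Subgroup G) := (IsPGroup.of_card hG).to_subgroup _
  have h5 : 5 ≤ p := hpp.five_le_of_ne_two_of_ne_three (by omega) (by omega)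
  have hr := H04.regOn_of_card_le hP (by rw [Subgroup.card_top, hG]; exact Nat.pow_le_pow_right hpp.pos h5)
  obtain ⟨y, rfl⟩ : ∃ y : L, y ^ p = x := by
    have h1 : ∀ u : ZMod (p ^ 2), p • u = 0 → ∃ v : ZMod (p ^ 2), p • v = u := fun u hu => by
      rw [← ZMod.natCast_zmod_val u, nsmul_eq_mul, ← Nat.cast_mul, ZMod.natCast_eq_zero_iff] at hu
      obtain ⟨c, hc⟩ := Nat.dvd_of_mul_dvd_mul_left hpp.pos ((sq p).symm.dvd.trans hu)
      exact ⟨c, by rw [← ZMod.natCast_zmod_val u, hc, nsmul_eq_mul, Nat.cast_mul]⟩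
    have h2 : p • x.toAdd = 0 := by rw [← toAdd_pow, orderOf_dvd_iff_pow_eq_one.mp hx.dvd]; rfl
    obtain ⟨u, hu⟩ := h1 _ (congrArg Prod.fst h2)
    obtain ⟨v, hv⟩ := h1 _ (congrArg Prod.snd h2)
    exact ⟨Multiplicative.ofAdd (u, v), Multiplicative.toAdd.injective (Prod.ext hu hv)⟩
  let b : G := SemidirectProduct.inr ⟨a, Subgroup.mem_zpowers a⟩
  have h1 : b ^ p = 1 := by
    rw [← map_pow, ← map_one SemidirectProduct.inr]
    exact congrArg _ (Subtype.ext (orderOf_dvd_iff_pow_eq_one.mp ha.dvd))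
  have h2 := (hr.pow_commute_iff hP (Subgroup.mem_top b) (Subgroup.mem_top (SemidirectProduct.inl y)) 1).mp
    (by rw [pow_one, h1]; exact Commute.one_left _)
  rw [← commutatorElement_inv, inv_pow, inv_eq_one, ← hr.pow_commute_iff hP (Subgroup.mem_top _)
    (Subgroup.mem_top _), pow_one, ← map_pow] at h2
  refine SemidirectProduct.inl_injective (φ := (Subgroup.zpowers a).subtype)
    ((SemidirectProduct.inl_aut (⟨a, Subgroup.mem_zpowers a⟩ : Subgroup.zpowers a) _).trans ?_)
  rw [← h2.eq, mul_assoc, ← map_mul, mul_inv_cancel, map_one, mul_one]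

end Cfsg.Agent.S4080
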