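import Mathlib
import Cfsg.Statements.S4081
import Cfsg.Agent.H01.ThreeOrb
import Cfsg.Agent.H01.Syl22
import Cfsg.Agent.H05.Burnside
import Cfsg.Agent.H02.FrobCompl

set_option autoImplicit false
open Cfsg

namespace Cfsg.Agent.S4081

theorem exists_char_ab {G : Type*} [Group G] [Nontrivial G] [h : Group.IsSolvable G] :
    ∃ N : Subgroup G, N.Characteristic ∧ IsMulCommutative N ∧ N ≠ ⊥ := by
  classical
  obtain ⟨n, hn⟩ := h
  have hex : ∃ n, derivedSeries G n = ⊥ := ⟨n, hn⟩
  have h0 : Nat.find hex ≠ 0 := fun h0 => by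
    have := Nat.find_spec hex
    rw [h0, derivedSeries_zero] at this
    exact top_ne_bot this
  obtain ⟨m, hm⟩ := Nat.exists_eq_succ_of_ne_zero h0
  refine ⟨derivedSeries G m, inferInstance, ?_, Nat.find_min hex (by omega)⟩
  have := Nat.find_spec hex
  rw [hm, derivedSeries_succ, Subgroup.commutator_eq_bot_iff_le_centralizer] at this
  exact ⟨⟨fun a b => Subtype.ext (this b.2 a a.2)⟩⟩

theorem ext_aut {G : Type*} [Group G] [Finite G] (N : Subgroup G) [N.Normal] {y y' : G}
    (hy : N.IsComplement' (Subgroup.zpowers y)) (hy' : N.IsComplement' (Subgroup.zpowers y'))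
    (ho : orderOf y = orderOf y') (β : MulAut N)
    (hβ : ∀ u, β (MulAut.conjNormal y u) = MulAut.conjNormal y' (β u)) :
    ∃ α : MulAut G, (∀ u : N, α u = β u) ∧ α y = y' := by
  have g1 : ∀ x : Subgroup.zpowers y, x ∈ Subgroup.zpowers (⟨y, Subgroup.mem_zpowers y⟩ : Subgroup.zpowers y) := by
    rintro ⟨_, k, rfl⟩; exact ⟨k, rfl⟩
  have g2 : ∀ x : Subgroup.zpowers y', x ∈ Subgroup.zpowers (⟨y', Subgroup.mem_zpowers y'⟩ : Subgroup.zpowers y') := by
    rintro ⟨_, k, rfl⟩; exact ⟨k, rfl⟩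
  have ho' : orderOf (⟨y, Subgroup.mem_zpowers y⟩ : Subgroup.zpowers y) =
      orderOf (⟨y', Subgroup.mem_zpowers y'⟩ : Subgroup.zpowers y') := by
    rw [← Subgroup.orderOf_coe, ← Subgroup.orderOf_coe]; exact ho
  let fg := mulEquivOfOrderOfEq g1 g2 ho'
  have hk : ∀ (k : ℕ) u, β (MulAut.conjNormal (y ^ k) u) = MulAut.conjNormal (y' ^ k) (β u) := by
    intro k
    induction k with
    | zero => simp
    | succ k ih => intro u; rw [pow_succ, pow_succ, map_mul, map_mul, MulAut.mul_apply,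
        MulAut.mul_apply, ih, hβ]
  let e := SemidirectProduct.congr
    (φ₁ := (N.normalizerMonoidHom).comp (Subgroup.inclusion (N.normalizer_eq_top ▸ le_top)))
    (φ₂ := (N.normalizerMonoidHom).comp (Subgroup.inclusion (N.normalizer_eq_top ▸ le_top)))
    β fg (fun g => by
      obtain ⟨k, rfl⟩ := (mem_powers_iff_mem_zpowers.2 (g1 g))
      have : fg (⟨y, Subgroup.mem_zpowers y⟩ ^ k) = ⟨y', Subgroup.mem_zpowers y'⟩ ^ k := by
        rw [map_pow, mulEquivOfOrderOfEq_apply_gen]
      simp only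
      rw [this]
      ext1 u
      exact hk k u)
  refine ⟨((SemidirectProduct.mulEquivSubgroup hy).symm.trans e).trans
    (SemidirectProduct.mulEquivSubgroup hy'), fun u => ?_, ?_⟩
  · have : (SemidirectProduct.mulEquivSubgroup hy).symm u = ⟨u, 1⟩ := by
      rw [MulEquiv.symm_apply_eq]; simp
    simp [this, e]
  · have : (SemidirectProduct.mulEquivSubgroup hy).symm y = ⟨1, ⟨y, Subgroup.mem_zpowers y⟩⟩ := by
      rw [MulEquiv.symm_apply_eq]; simp
    simp [this, e, fg]

theorem decomp {G : Type*} [Group G] [Finite G] (N : Subgroup G) {y : G}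
    (hy : N.IsComplement' (Subgroup.zpowers y)) (g : G) : ∃ u ∈ N, ∃ k : ℕ, g = u * y ^ k := by
  obtain ⟨⟨⟨u, hu⟩, ⟨z, hz⟩⟩, h⟩ := hy.2 g
  obtain ⟨k, rfl⟩ := mem_powers_iff_mem_zpowers.2 hz
  exact ⟨u, hu, k, h.symm⟩

theorem compl_of {G : Type*} [Group G] [Finite G] {p q n : ℕ} (hp : p.Prime) (hq : q.Prime)
    (hpq : p ≠ q) (N : Subgroup G) (hN : Nat.card N = p ^ n) (hG : Nat.card G = p ^ n * q) {y : G}
    (hy : orderOf y = q) : N.IsComplement' (Subgroup.zpowers y) :=
  Subgroup.isComplement'_of_coprime (by rw [Nat.card_zpowers, hN, hy, hG])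
    (by rw [Nat.card_zpowers, hN, hy]; exact ((Nat.coprime_primes hp hq).2 hpq).pow_left _)

open scoped IsMulCommutative in
theorem fwd {G : Type*} [Group G] [Finite G] {p q : ℕ} (hp : p.Prime) (hq : q.Prime) (hpq : p ≠ q)
    {u w : G} (hu : orderOf u = p) (hw : orderOf w = q)
    (hall : ∀ g : G, g = 1 ∨ (∃ α : MulAut G, α g = u) ∨ (∃ α : MulAut G, α g = w))
    (N : Subgroup G) [hNc : N.Characteristic] [IsMulCommutative N] (huN : u ∈ N) :
    ∃ (p q n : ℕ) (_ : Fact p.Prime) (_ : Fact q.Prime), p ≠ q ∧ 1 ≤ n ∧ Nat.card G = p ^ n * q ∧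
      (∀ P : Sylow p G, (P : Subgroup G).Normal ∧ Cfsg.IsElementaryAbelian p (P : Subgroup G)) ∧
      orderOf (p : ZMod q) = q - 1 ∧
      ∀ x y : G, orderOf x = q → orderOf y = p → x * y * x⁻¹ ≠ y := by
  haveI := Fact.mk hp
  haveI := Fact.mk hq
  have hord : ∀ g : G, orderOf g = 1 ∨ orderOf g = p ∨ orderOf g = q := by
    intro g
    rcases hall g with rfl | ⟨α, h⟩ | ⟨α, h⟩
    · exact Or.inl orderOf_one
    · exact Or.inr (Or.inl (by rw [← hu, ← h, α.orderOf_eq]))
    · exact Or.inr (Or.inr (by rw [← hw, ← h, α.orderOf_eq]))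
  have hfpf : ∀ x y : G, orderOf x = q → orderOf y = p → x * y * x⁻¹ ≠ y := by
    intro x y hx hy h
    have hc : Commute y x := (mul_inv_eq_iff_eq_mul.1 h).symm
    have h1 := hc.orderOf_mul_eq_mul_orderOf_of_coprime
      (by rw [hx, hy]; exact (Nat.coprime_primes hp hq).2 hpq)
    rw [hx, hy] at h1
    have := hp.two_le
    have := hq.two_le
    rcases hord (y * x) with h | h | h <;> rw [h1] at h <;> nlinarith
  have hchar : ∀ (α : MulAut G) g, α g ∈ N ↔ g ∈ N := fun α g => by
    have := Subgroup.characteristic_iff_comap_eq.1 hNc α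
    exact SetLike.ext_iff.1 this g
  have hto_u : ∀ g : G, orderOf g = p → ∃ α : MulAut G, α g = u := by
    intro g hg
    rcases hall g with rfl | h | ⟨α, h⟩
    · exact absurd (orderOf_one.symm.trans hg) hp.one_lt.ne
    · exact h
    · exact absurd (by rw [← hg, ← hw, ← h, α.orderOf_eq]) hpq
  have hto_w : ∀ g : G, orderOf g = q → ∃ α : MulAut G, α g = w := by
    intro g hg
    rcases hall g with rfl | ⟨α, h⟩ | h
    · exact absurd (orderOf_one.symm.trans hg) hq.one_lt.ne
    · exact absurd (by rw [← hg, ← hu, ← h, α.orderOf_eq]) hpq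
    · exact h
  have hqN : ∀ g : G, orderOf g = q → g ∉ N := by
    intro g hg hgN
    refine hfpf g u hg hu ?_
    rw [mul_inv_eq_iff_eq_mul]
    exact congrArg Subtype.val (mul_comm (⟨g, hgN⟩ : N) ⟨u, huN⟩)
  have hNord : ∀ g ∈ N, g ≠ 1 → orderOf g = p := by
    intro g hg h1
    rcases hord g with h | h | h
    · exact absurd (orderOf_eq_one_iff.1 h) h1
    · exact h
    · exact absurd hg (hqN g h)
  have hNexp : ∀ g ∈ N, g ^ p = 1 := by
    intro g hg
    by_cases h1 : g = 1
    · rw [h1, one_pow]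
    · rw [← hNord g hg h1, pow_orderOf_eq_one]
  have hNmem : ∀ g, g ∈ N ↔ g ∈ (⊤ : Subgroup G) ∧ ∃ k, g ^ p ^ k = 1 := by
    intro g
    refine ⟨fun h => ⟨trivial, 1, by rw [pow_one, hNexp g h]⟩, fun ⟨_, k, hk⟩ => ?_⟩
    rcases hord g with h | h | h
    · rw [orderOf_eq_one_iff.1 h]; exact N.one_mem
    · obtain ⟨α, hα⟩ := hto_u g h
      exact (hchar α g).1 (hα ▸ huN)
    · have := orderOf_dvd_of_pow_eq_one hk
      rw [h] at this
      exact absurd ((Nat.prime_dvd_prime_iff_eq hq hp).1 (hq.dvd_of_dvd_pow this)) hpq.symm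
  have hNcard := H01.S22.card_syl ⊤ N hNmem
  rw [Subgroup.card_top] at hNcard
  have hSyl : ∀ P : Sylow p G, (P : Subgroup G) = N := by
    intro P
    refine Subgroup.eq_of_le_of_card_ge (fun g hg => (hNmem g).2 ⟨trivial, ?_⟩) ?_
    · obtain ⟨k, hk⟩ := P.isPGroup' ⟨g, hg⟩
      exact ⟨k, congrArg Subtype.val hk⟩
    · rw [hNcard, P.card_eq_multiplicity]
  have hu1 : u ≠ 1 := fun h => hp.one_lt.ne (by rw [← hu, h, orderOf_one])
  have hN1 : N ≠ ⊥ := fun h => hu1 (Subgroup.mem_bot.1 (h ▸ huN))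
  have hfpf' : ∀ x : G, orderOf x = q → N ⊓ Subgroup.centralizer {x} = ⊥ := by
    intro x hx
    refine H02.fpf_iff.2 fun k hk h => ?_
    by_contra h1
    exact hfpf x k hx (hNord k hk h1) (mul_inv_eq_iff_eq_mul.2 h)
  obtain ⟨Q⟩ : Nonempty (Sylow q G) := inferInstance
  have hQord : ∀ g ∈ (Q : Subgroup G), g ≠ 1 → orderOf g = q := by
    intro g hg h1
    obtain ⟨k, hk⟩ := Q.isPGroup' ⟨g, hg⟩
    have h2 := orderOf_dvd_of_pow_eq_one (show g ^ q ^ k = 1 from congrArg Subtype.val hk)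
    rcases hord g with h | h | h
    · exact absurd (orderOf_eq_one_iff.1 h) h1
    · rw [h] at h2
      exact absurd ((Nat.prime_dvd_prime_iff_eq hp hq).1 (hp.dvd_of_dvd_pow h2)) hpq
    · exact h
  have hQcard : Nat.card (Q : Subgroup G) = q := by
    have hqG : q ∣ Nat.card G := hw ▸ orderOf_dvd_natCard w
    haveI : Nontrivial (Q : Subgroup G) := (Subgroup.nontrivial_iff_ne_bot _).2 (Q.ne_bot_of_dvd_card hqG)
    haveI := Q.isPGroup'.center_nontrivial
    obtain ⟨⟨z, hz⟩, hz1⟩ := exists_ne (1 : Subgroup.center (Q : Subgroup G))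
    have hz1' : (z : G) ≠ 1 := fun h => hz1 (Subtype.ext (Subtype.ext h))
    have hzo := hQord z z.2 hz1'
    have : (Q : Subgroup G) = Subgroup.zpowers (z : G) := by
      refine le_antisymm (fun g hg => ?_) (Subgroup.zpowers_le.2 z.2)
      set A := Subgroup.closure ({(z : G), g} : Set G) with hA
      have hAQ : A ≤ Q := (Subgroup.closure_le _).2 (by
        rintro _ (rfl | rfl)
        exacts [z.2, hg])
      have hcomm : IsMulCommutative A := Subgroup.isMulCommutative_closure (by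
        have := congrArg Subtype.val (Subgroup.mem_center_iff.1 hz ⟨g, hg⟩)
        rintro _ (rfl | rfl) _ (rfl | rfl)
        exacts [rfl, this.symm, this, rfl])
      haveI := H02.isCyclic_of_fpf hN1 (A := A) (by rw [Subgroup.normalizer_eq_top]; exact le_top)
        (fun a ha h1 => hfpf' a (hQord a (hAQ ha) h1)) (Or.inl hcomm)
      obtain ⟨c, hc⟩ := IsCyclic.exists_ofOrder_eq_natCard (α := A)
      have hle : Subgroup.zpowers (z : G) ≤ A :=
        Subgroup.zpowers_le.2 (Subgroup.subset_closure (Or.inl rfl))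
      have : Subgroup.zpowers (z : G) = A := by
        refine Subgroup.eq_of_le_of_card_ge hle ?_
        rw [Nat.card_zpowers, hzo, ← hc, ← Subgroup.orderOf_coe]
        by_cases h1 : (c : G) = 1
        · rw [h1, orderOf_one]; exact hq.one_lt.le
        · exact (hQord c (hAQ c.2) h1).le
      rw [this]
      exact Subgroup.subset_closure (Or.inr rfl)
    rw [this, Nat.card_zpowers, hzo]
  set n := (Nat.card G).factorization p with hn
  have hG : Nat.card G = p ^ n * q := by
    obtain ⟨P⟩ : Nonempty (Sylow p G) := inferInstance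
    have h1 : ¬ p ∣ N.index := hSyl P ▸ P.not_dvd_index
    obtain ⟨b, hb⟩ : ∃ b, N.index = q ^ b := by
      refine ⟨_, Nat.eq_prime_pow_of_unique_prime_dvd N.index_ne_zero_of_finite fun {r} hr h => ?_⟩
      haveI := Fact.mk hr
      obtain ⟨g, hg⟩ := exists_prime_orderOf_dvd_card' (G := G) r (h.trans N.index_dvd_card)
      rcases hord g with h' | h' | h'
      · exact absurd (h'.symm.trans hg) hr.one_lt.ne
      · exact absurd (h'.symm.trans hg ▸ h) h1
      · exact hg.symm.trans h'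
    have h2 : q ^ b ∣ q ^ 1 := by
      rw [pow_one]
      exact (Q.pow_dvd_card_of_pow_dvd_card (hb ▸ N.index_dvd_card)).trans hQcard.dvd
    have h3 := (Nat.pow_dvd_pow_iff_le_right hq.one_lt).1 h2
    have h4 : b ≠ 0 := by
      rintro rfl
      exact hqN w hw (Subgroup.index_eq_one.1 hb ▸ trivial)
    rw [← N.card_mul_index, hNcard, hb, show b = 1 by omega, pow_one]
  have hres : ∀ α : MulAut G, ∃ β : MulAut N, ∀ v : N, (β v : G) = α v := fun α =>
    ⟨⟨⟨fun v => ⟨α v, (hchar α v).2 v.2⟩, fun v => ⟨α.symm v, (hchar α.symm v).2 v.2⟩,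
      fun v => Subtype.ext (by simp), fun v => Subtype.ext (by simp)⟩,
      fun a b => Subtype.ext (by simp)⟩, fun _ => rfl⟩
  have hint : ∀ (α : MulAut G) (β : MulAut N), (∀ v : N, (β v : G) = α v) → ∀ m ∈ N, ∀ k : ℕ,
      α w = m * w ^ k → ∀ v, β (MulAut.conjNormal w v) = (MulAut.conjNormal w ^ k) (β v) := by
    intro α β h m hm k hk v
    rw [← map_pow]
    refine Subtype.ext ?_
    rw [h, MulAut.conjNormal_apply, map_mul, map_mul, map_inv, hk, ← h]
    have := congrArg Subtype.val (mul_comm (⟨m, hm⟩ : N) (MulAut.conjNormal (w ^ k) (β v)))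
    simp only [Subgroup.coe_mul, MulAut.conjNormal_apply] at this ⊢
    rw [mul_inv_rev, ← mul_assoc, mul_inv_eq_iff_eq_mul, ← this]
    simp only [mul_assoc]
  haveI : Nontrivial N := (Subgroup.nontrivial_iff_ne_bot _).2 hN1
  refine ⟨p, q, n, inferInstance, inferInstance, hpq, ?_, hG, fun P => ?_, ?_, hfpf⟩
  · exact (hp.dvd_iff_one_le_factorization Nat.card_pos.ne').1 (hu ▸ orderOf_dvd_natCard u)
  · rw [hSyl]
    exact ⟨inferInstance, inferInstance, hNexp⟩
  · refine H01.TO.grp_ord (N := N) (fun v => Subtype.ext (hNexp v v.2)) hpq (MulAut.conjNormal w)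
      (by rw [← map_pow, ← hw, pow_orderOf_eq_one, map_one]) (fun v hv => ?_) ?_ ?_
    · by_contra h1
      exact hfpf w v hw (hNord v v.2 fun h => h1 (Subtype.ext h)) (congrArg Subtype.val hv)
    · intro v v' hv hv'
      obtain ⟨α, hα⟩ := hto_u v (hNord v v.2 fun h => hv (Subtype.ext h))
      obtain ⟨α', hα'⟩ := hto_u v' (hNord v' v'.2 fun h => hv' (Subtype.ext h))
      obtain ⟨β, hβ⟩ := hres (α.trans α'.symm)
      obtain ⟨m, hm, k, hk⟩ := decomp N (compl_of hp hq hpq N hNcard hG hw) ((α.trans α'.symm) w)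
      refine ⟨β, k, Subtype.ext ?_, hint _ β hβ m hm k hk⟩
      rw [hβ, MulEquiv.trans_apply, hα, ← hα', MulEquiv.symm_apply_apply]
    · intro k hk hk'
      obtain ⟨α, hα⟩ := hto_w (w ^ k) (by
        rw [Nat.Coprime.orderOf_pow (by
          rw [hw]; exact (Nat.coprime_of_lt_prime hk.ne' hk' hq)), hw])
      obtain ⟨β, hβ⟩ := hres α.symm
      exact ⟨β, hint _ β hβ 1 N.one_mem k (by rw [one_mul, MulEquiv.symm_apply_eq, hα])⟩

open scoped IsMulCommutative in
theorem bwd {G : Type*} [Group G] [Finite G] {p q n : ℕ} [hp : Fact p.Prime] [hq : Fact q.Prime]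
    (hpq : p ≠ q) (hG : Nat.card G = p ^ n * q)
    (hP : ∀ P : Sylow p G, (P : Subgroup G).Normal ∧ Cfsg.IsElementaryAbelian p (P : Subgroup G))
    (hord : orderOf (p : ZMod q) = q - 1)
    (hfpf : ∀ x y : G, orderOf x = q → orderOf y = p → x * y * x⁻¹ ≠ y) {u w : G}
    (hu : orderOf u = p) (hw : orderOf w = q) (g : G) :
    g = 1 ∨ (∃ α : MulAut G, α u = g) ∨ (∃ α : MulAut G, α w = g) := by
  obtain ⟨P⟩ : Nonempty (Sylow p G) := inferInstance
  obtain ⟨hn, hc, he⟩ := hP P
  have hcard : Nat.card (P : Subgroup G) = p ^ n := by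
    rw [P.card_eq_multiplicity, hG, Nat.factorization_mul (pow_pos hp.out.pos _).ne' hq.out.ne_zero,
      hp.out.factorization_pow, hq.out.factorization]
    simp [hpq]
  have huP : u ∈ (P : Subgroup G) := by
    have h1 : IsPGroup p (Subgroup.zpowers u) :=
      IsPGroup.of_card (n := 1) (by rw [Nat.card_zpowers, hu, pow_one])
    obtain ⟨R, hR⟩ := h1.exists_le_sylow
    haveI := Sylow.unique_of_normal P hn
    exact Subsingleton.elim R P ▸ hR (Subgroup.mem_zpowers u)
  set N := (P : Subgroup G) with hN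
  have hu1 : (⟨u, huP⟩ : N) ≠ 1 := fun h => hp.out.one_lt.ne (by
    rw [← hu, show u = 1 from congrArg Subtype.val h, orderOf_one])
  have hf : ∀ x : G, orderOf x = q → ∀ v : N, MulAut.conjNormal x v = v → v = 1 := by
    intro x hx v hv
    by_contra h1
    exact hfpf x v hx (orderOf_eq_prime (he v v.2) fun h => h1 (Subtype.ext h))
      (congrArg Subtype.val hv)
  have key : ∀ y : G, orderOf y = q → ∀ v : N, v ≠ 1 → ∃ α : MulAut G, α u = v ∧ α w = y := by
    intro y hy v hv
    obtain ⟨β, h1, h2⟩ := H01.TO.grp_twist (N := N) (fun v => Subtype.ext (he v v.2)) hpq hord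
      (MulAut.conjNormal w) (MulAut.conjNormal y)
      (by rw [← map_pow, ← hw, pow_orderOf_eq_one, map_one])
      (by rw [← map_pow, ← hy, pow_orderOf_eq_one, map_one]) (hf w hw) (hf y hy) hu1 hv
    obtain ⟨α, a1, a2⟩ := ext_aut N (compl_of hp.out hq.out hpq N hcard hG hw)
      (compl_of hp.out hq.out hpq N hcard hG hy) (hw.trans hy.symm) β h2
    exact ⟨α, (a1 ⟨u, huP⟩).trans (congrArg Subtype.val h1), a2⟩
  by_cases h1 : g = 1
  · exact Or.inl h1
  by_cases h2 : g ∈ N
  · obtain ⟨α, h, -⟩ := key w hw ⟨g, h2⟩ (fun h => h1 (congrArg Subtype.val h))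
    exact Or.inr (Or.inl ⟨α, h⟩)
  · obtain ⟨m, hm, k, rfl⟩ := decomp N (compl_of hp.out hq.out hpq N hcard hG hw) g
    have hk : orderOf (w ^ k) = q := orderOf_eq_prime
      (by rw [← pow_mul, mul_comm, pow_mul, ← hw, pow_orderOf_eq_one, one_pow])
      (fun h => h2 (by rw [h, mul_one]; exact hm))
    obtain ⟨z, -, hz⟩ := H02.fpf_exists_conj_eq (K := N) (a := w ^ k)
      (by rw [Subgroup.normalizer_eq_top]; trivial)
      (H02.fpf_iff.2 fun v hv h => congrArg Subtype.val
        (hf _ hk ⟨v, hv⟩ (Subtype.ext (mul_inv_eq_iff_eq_mul.2 h)))) hm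
    obtain ⟨α, -, h⟩ := key (m * w ^ k) (by
      rw [← hz, ← MulAut.conj_apply, MulEquiv.orderOf_eq, hk]) _ hu1
    exact Or.inr (Or.inr ⟨α, h⟩)

theorem three {G : Type*} [Group G] {p q : ℕ} (hp : p.Prime) (hq : q.Prime) (hpq : p ≠ q)
    {u w : G} (hu : orderOf u = p) (hw : orderOf w = q) :
    ({Quotient.mk'' 1, Quotient.mk'' u, Quotient.mk'' w} :
      Set (MulAction.orbitRel.Quotient (MulAut G) G)).ncard = 3 := by
  have key : ∀ a b : G, (Quotient.mk'' a : MulAction.orbitRel.Quotient (MulAut G) G) = Quotient.mk'' b →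
      orderOf a = orderOf b := by
    intro a b h
    obtain ⟨α, rfl⟩ := MulAction.orbitRel_apply.1 (Quotient.exact' h)
    exact α.orderOf_eq b
  refine Set.ncard_eq_three.2 ⟨_, _, _, fun h => ?_, fun h => ?_, fun h => ?_, rfl⟩
  · exact hp.one_lt.ne (by rw [← hu, ← key _ _ h, orderOf_one])
  · exact hq.one_lt.ne (by rw [← hw, ← key _ _ h, orderOf_one])
  · exact hpq (by rw [← hu, ← hw, key _ _ h])

/-- Let G be a finite group whose order is not a prime power. Then the automorphism group of G has exactly three orbits on G if and only if there are distinct primes p, q with #G = pⁿ·q (n ≥ 1) such that G has a normal elementary abelian Sylow p-subgroup P, p is a primitive root modulo q (the multiplicative order of p mod q is q − 1), and every element of order q of G acts on P without non-identity fixed points. -/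
theorem result {G : Type*} [Group G] [Finite G] (hnpp : ¬ IsPrimePow (Nat.card G)) (hnt : Nat.card G ≠ 1) :
    Nat.card (MulAction.orbitRel.Quotient (MulAut G) G) = 3 ↔
    ∃ (p q n : ℕ) (_ : Fact p.Prime) (_ : Fact q.Prime), p ≠ q ∧ 1 ≤ n ∧ Nat.card G = p ^ n * q ∧
      (∀ P : Sylow p G, (P : Subgroup G).Normal ∧ Cfsg.IsElementaryAbelian p (P : Subgroup G)) ∧
      orderOf (p : ZMod q) = q - 1 ∧
      ∀ x y : G, orderOf x = q → orderOf y = p → x * y * x⁻¹ ≠ y := by
    constructor
    · intro h3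
      obtain ⟨p, hp, hpG⟩ := Nat.exists_prime_and_dvd hnt
      obtain ⟨q, hq, hqG, hpq⟩ : ∃ q, q.Prime ∧ q ∣ Nat.card G ∧ p ≠ q := by
        by_contra! h
        exact hnpp (isPrimePow_iff_unique_prime_dvd.2 ⟨p, ⟨hp, hpG⟩, fun q hq => (h q hq.1 hq.2).symm⟩)
      haveI := Fact.mk hp
      haveI := Fact.mk hq
      obtain ⟨u, hu⟩ := exists_prime_orderOf_dvd_card' (G := G) p hpG
      obtain ⟨w, hw⟩ := exists_prime_orderOf_dvd_card' (G := G) q hqG
      have huniv := Set.eq_of_subset_of_ncard_le (Set.subset_univ _)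
        (((Set.ncard_univ _).trans h3).trans (three hp hq hpq hu hw).symm).le
      have hall : ∀ g : G, g = 1 ∨ (∃ α : MulAut G, α g = u) ∨ (∃ α : MulAut G, α g = w) := by
        intro g
        rcases huniv.ge (Set.mem_univ (Quotient.mk'' g)) with h | h | h
        · obtain ⟨α, hα⟩ := MulAction.orbitRel_apply.1 (Quotient.exact' h)
          exact Or.inl (hα.symm.trans (map_one α))
        · exact Or.inr (Or.inl (MulAction.orbitRel_apply.1 (Quotient.exact' h.symm)))
        · exact Or.inr (Or.inr (MulAction.orbitRel_apply.1 (Quotient.exact' (Eq.symm h))))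
      haveI : Group.IsSolvable G := H05.isSolvable_of_prime_dvd G hp hq fun r hr h => by
        haveI := Fact.mk hr
        obtain ⟨g, hg⟩ := exists_prime_orderOf_dvd_card' (G := G) r h
        rcases hall g with rfl | ⟨α, h⟩ | ⟨α, h⟩
        · exact absurd (orderOf_one.symm.trans hg) hr.one_lt.ne
        · exact Or.inl (by rw [← hg, ← hu, ← h, α.orderOf_eq])
        · exact Or.inr (by rw [← hg, ← hw, ← h, α.orderOf_eq])
      haveI : Nontrivial G := Finite.one_lt_card_iff_nontrivial.1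
        (lt_of_le_of_ne Nat.card_pos (Ne.symm hnt))
      obtain ⟨N, hNc, hNa, hN1⟩ := exists_char_ab (G := G)
      obtain ⟨v, hv, hv1⟩ : ∃ v ∈ N, v ≠ 1 := by
        by_contra! h
        exact hN1 ((Subgroup.eq_bot_iff_forall N).2 h)
      have hchar : ∀ (α : MulAut G), α v ∈ N := fun α =>
        (SetLike.ext_iff.1 (Subgroup.characteristic_iff_comap_eq.1 hNc α) v).2 hv
      rcases hall v with h | ⟨α, h⟩ | ⟨α, h⟩
      · exact absurd h hv1
      · exact fwd hp hq hpq hu hw hall N (h ▸ hchar α)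
      · exact fwd hq hp hpq.symm hw hu (fun g => (hall g).imp_right Or.symm) N (h ▸ hchar α)
    · rintro ⟨p, q, n, hp, hq, hpq, hn, hG, hP, hord, hfpf⟩
      obtain ⟨u, hu⟩ := exists_prime_orderOf_dvd_card' (G := G) p
        (hG ▸ (dvd_pow_self p (by omega)).mul_right _)
      obtain ⟨w, hw⟩ := exists_prime_orderOf_dvd_card' (G := G) q (hG ▸ dvd_mul_left _ _)
      rw [← three hp.out hq.out hpq hu hw, ← Set.ncard_univ]
      congr 1
      refine (Set.eq_univ_of_forall fun x => ?_).symm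
      induction x using Quotient.inductionOn' with
      | h g =>
        rcases bwd hpq hG hP hord hfpf hu hw g with rfl | h | h
        · exact Or.inl rfl
        · exact Or.inr (Or.inl (Quotient.sound' (MulAction.orbitRel_apply.2 h)))
        · exact Or.inr (Or.inr (Quotient.sound' (MulAction.orbitRel_apply.2 h)))

end Cfsg.Agent.S4081
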