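import Cfsg.Statements.S4084
import Mathlib
-- import your own Cfsg.Agent.* helpers here

set_option autoImplicit false
open Cfsg

namespace Cfsg.Agent.S4084

theorem aux {G H : Type*} [Group G] [Finite G] [Group H] [Finite H] (e : G ≃ H)
    (he : ∀ x y : G, Commute x y ↔ Commute (e x) (e y))
    {p q : ℕ} (hp : p.Prime) (hq : q.Prime) (hpq : p ≠ q) :
    (∃ g : G, orderOf g = p * q) → (∃ h : H, orderOf h = p * q) := by
  rintro ⟨g, hg⟩
  haveI := Fact.mk hp
  haveI := Fact.mk hq
  let A : Subgroup G := Subgroup.centralizer (Subgroup.centralizer {g} : Subgroup G)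
  let B : Subgroup H := Subgroup.centralizer (Subgroup.centralizer {e g} : Subgroup H)
  have hA : ∀ x, x ∈ A ↔ ∀ y, Commute y g → Commute y x := by
    intro x
    simp only [A, Subgroup.mem_centralizer_iff, SetLike.mem_coe, Set.mem_singleton_iff, forall_eq]
    exact ⟨fun h y hy => h y hy.symm, fun h y hy => h y (Commute.symm hy)⟩
  have hB : ∀ x, x ∈ B ↔ ∀ y, Commute y (e g) → Commute y x := by
    intro x
    simp only [B, Subgroup.mem_centralizer_iff, SetLike.mem_coe, Set.mem_singleton_iff, forall_eq]
    exact ⟨fun h y hy => h y hy.symm, fun h y hy => h y (Commute.symm hy)⟩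
  have hAB : ∀ x, x ∈ A ↔ e x ∈ B := by
    intro x
    rw [hA, hB]
    constructor
    · intro h y hy
      obtain ⟨y, rfl⟩ := e.surjective y
      exact (he _ _).1 (h y ((he _ _).2 hy))
    · intro h y hy
      exact (he _ _).2 (h _ ((he _ _).1 hy))
  have hcard : Nat.card A = Nat.card B := Nat.card_congr (e.subtypeEquiv hAB)
  have hgA : g ∈ A := (hA g).2 fun y hy => hy
  have hd : p * q ∣ Nat.card B := hcard ▸ hg ▸ A.orderOf_dvd_natCard hgA
  obtain ⟨x, hx⟩ := exists_prime_orderOf_dvd_card' (G := B) p ((Dvd.intro _ rfl).trans hd)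
  obtain ⟨y, hy⟩ := exists_prime_orderOf_dvd_card' (G := B) q ((Dvd.intro_left _ rfl).trans hd)
  have hxy : Commute (x : H) (y : H) :=
    (hB y).1 y.2 x ((hB x).1 x.2 (e g) (Commute.refl _)).symm
  refine ⟨x * y, ?_⟩
  rw [hxy.orderOf_mul_eq_mul_orderOf_of_coprime, Subgroup.orderOf_coe, Subgroup.orderOf_coe, hx, hy]
  rw [Subgroup.orderOf_coe, Subgroup.orderOf_coe, hx, hy]
  exact (Nat.coprime_primes hp hq).2 hpq

/-- Let G and H be finite groups whose commuting graphs are isomorphic: there is a bijection e : G → H with x, y commuting exactly when e(x), e(y) commute. Then G and H have the same prime graph: for distinct primes p, q, G has an element of order pq if and only if H does (and #G = #H, so the prime divisors agree). -/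
theorem result {G H : Type*} [Group G] [Finite G] [Group H] [Finite H] (e : G ≃ H)
    (he : ∀ x y : G, Commute x y ↔ Commute (e x) (e y))
    {p q : ℕ} (hp : p.Prime) (hq : q.Prime) (hpq : p ≠ q) :
    (∃ g : G, orderOf g = p * q) ↔ (∃ h : H, orderOf h = p * q) := by
  refine ⟨aux e he hp hq hpq, aux e.symm (fun x y => ?_) hp hq hpq⟩
  rw [he]; simp

end Cfsg.Agent.S4084
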