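import Cfsg.Statements.S4086
import Mathlib
-- import your own Cfsg.Agent.* helpers here

set_option autoImplicit false
open Cfsg

namespace Cfsg.Agent.S4086

theorem mem_zpowers_of_dvd {G : Type*} [Group G] [Finite G] [IsCyclic G] {x y : G}
    (h : orderOf x ∣ orderOf y) : x ∈ Subgroup.zpowers y := by
  classical
  letI := Fintype.ofFinite G
  have hy : 0 < orderOf y := orderOf_pos y
  have h1 := IsCyclic.card_pow_eq_one_le (α := G) hy
  have h2 : (Subgroup.zpowers y : Set G).toFinset ⊆ Finset.univ.filter (fun a : G => a ^ orderOf y = 1) := by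
    intro a ha
    simp only [Set.mem_toFinset, SetLike.mem_coe] at ha
    simp only [Finset.mem_filter, Finset.mem_univ, true_and]
    exact orderOf_dvd_iff_pow_eq_one.1 (orderOf_dvd_of_mem_zpowers ha)
  have h3 : (Subgroup.zpowers y : Set G).toFinset.card = orderOf y := by
    rw [Set.toFinset_card, ← Nat.card_eq_fintype_card]
    exact Nat.card_zpowers y
  have h4 := Finset.eq_of_subset_of_card_le h2 (h3 ▸ h1)
  have : x ∈ (Subgroup.zpowers y : Set G).toFinset := by
    rw [h4]
    simp only [Finset.mem_filter, Finset.mem_univ, true_and]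
    exact orderOf_dvd_iff_pow_eq_one.1 h
  simpa using this

/-- For a finite group G the following are equivalent: every non-identity element has prime-power order; whenever two elements generate a cyclic subgroup, one of them is a power of the other (the enhanced power graph of G coincides with its power graph). -/
theorem result {G : Type*} [Group G] [Finite G] :
    (∀ g : G, g ≠ 1 → IsPrimePow (orderOf g)) ↔
    (∀ x y : G, IsCyclic ↥(Subgroup.closure ({x, y} : Set G)) → (x ∈ Subgroup.zpowers y ∨ y ∈ Subgroup.zpowers x)) := by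
  constructor
  · intro h x y hc
    set K := Subgroup.closure ({x, y} : Set G)
    have hx : x ∈ K := Subgroup.subset_closure (by simp)
    have hy : y ∈ K := Subgroup.subset_closure (by simp)
    obtain ⟨z, hz⟩ := IsCyclic.exists_generator (α := K)
    have key : ∀ a b : K, orderOf a ∣ orderOf b → (a : G) ∈ Subgroup.zpowers (b : G) := by
      intro a b hab
      obtain ⟨k, hk⟩ := mem_zpowers_of_dvd hab
      exact ⟨k, by simp only at hk ⊢; rw [← hk]; simp⟩
    by_cases hz1 : (z : G) = 1
    · left
      obtain ⟨k, hk⟩ := hz ⟨x, hx⟩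
      have := congrArg Subtype.val hk
      simp only [Subgroup.coe_zpow, hz1, one_zpow] at this
      rw [← this]; exact one_mem _
    · obtain ⟨p, k, hp, hk, hpk⟩ := (isPrimePow_nat_iff _).1 (h z hz1)
      rw [Subgroup.orderOf_coe] at hpk
      obtain ⟨i, -, hi⟩ := (Nat.dvd_prime_pow hp).1 (hpk ▸ orderOf_dvd_of_mem_zpowers (hz ⟨x, hx⟩))
      obtain ⟨j, -, hj⟩ := (Nat.dvd_prime_pow hp).1 (hpk ▸ orderOf_dvd_of_mem_zpowers (hz ⟨y, hy⟩))
      rcases le_total i j with hij | hij
      · left; exact key ⟨x, hx⟩ ⟨y, hy⟩ (hi ▸ hj ▸ pow_dvd_pow _ hij)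
      · right; exact key ⟨y, hy⟩ ⟨x, hx⟩ (hi ▸ hj ▸ pow_dvd_pow _ hij)
  · intro h g hg
    have h1 : orderOf g ≠ 1 := by simpa using hg
    have h0 : orderOf g ≠ 0 := (orderOf_pos g).ne'
    rw [isPrimePow_iff_unique_prime_dvd]
    obtain ⟨p, hp, hpg⟩ := Nat.exists_prime_and_dvd h1
    refine ⟨p, ⟨hp, hpg⟩, fun q ⟨hq, hqg⟩ => ?_⟩
    have hx := orderOf_pow_orderOf_div h0 hpg
    have hy := orderOf_pow_orderOf_div h0 hqg
    have hc : IsCyclic (Subgroup.closure ({g ^ (orderOf g / p), g ^ (orderOf g / q)} : Set G)) := by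
      apply Subgroup.isCyclic_of_le (H' := Subgroup.zpowers g)
      rw [Subgroup.closure_le]
      rintro a (rfl | rfl) <;> exact Subgroup.npow_mem_zpowers _ _
    rcases h _ _ hc with h2 | h2
    · have := orderOf_dvd_of_mem_zpowers h2
      rw [hx, hy] at this
      exact ((Nat.prime_dvd_prime_iff_eq hp hq).1 this).symm
    · have := orderOf_dvd_of_mem_zpowers h2
      rw [hx, hy] at this
      exact ((Nat.prime_dvd_prime_iff_eq hq hp).1 this)

end Cfsg.Agent.S4086
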