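import Mathlib
import Cfsg.Statements.S4088
import Cfsg.Agent.H21.Casolo

set_option autoImplicit false
open Cfsg

namespace Cfsg.Agent.S4088
open BG

/-- Let G be a finite group, p a prime dividing the order of G, H a p-subgroup of G and P a Sylow p-subgroup of G. Call the subnormalizer of H the set of elements g of G such that H is subnormal in the subgroup generated by H and g. Then the number of elements of the subnormalizer of H equals the number of Sylow p-subgroups of G containing H times the order of N_G(P), and also equals the number of conjugates of H contained in P times the order of N_G(H). -/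
theorem result {G : Type*} [Group G] [Finite G] (p : ℕ) [Fact p.Prime]
    (hp : p ∣ Nat.card G) (H : Subgroup G) (hH : IsPGroup p H) (P : Sylow p G) :
    Nat.card {g : G // ((H).subgroupOf (H ⊔ Subgroup.zpowers g)).IsSubnormal} =
        Nat.card {Q : Sylow p G // H ≤ (Q : Subgroup G)} * Nat.card (Subgroup.normalizer ((P : Subgroup G) : Set G)) ∧
    Nat.card {g : G // ((H).subgroupOf (H ⊔ Subgroup.zpowers g)).IsSubnormal} =
        Nat.card {K : Subgroup G // K ≤ (P : Subgroup G) ∧ ∃ g : G, K = H.map (MulAut.conj g).toMonoidHom} *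
          Nat.card (Subgroup.normalizer (H : Set G)) := by
  have hp' : p.Prime := Fact.out
  rw [Nat.card_congr (Equiv.subtypeEquivRight fun g => H21.Cas.subn_iff hp' hH),
    H21.Cas.card_subn hp' H (isSylowIn_top hp' P)]
  constructor
  · rw [H21.Cas.card_cj' (P : Subgroup G) fun K => H ≤ K]
    congr 1
    have h0 : ∀ Q : Sylow p G, ∃ k, (Q : Subgroup G) = cj k P := fun Q =>
      let ⟨k, _, hk⟩ := sylow_trans hp' (isSylowIn_top hp' P) (isSylowIn_top hp' Q); ⟨k, hk⟩
    refine (Nat.card_congr (Equiv.ofBijective (fun Q : {Q : Sylow p G // H ≤ (Q : Subgroup G)} =>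
      (⟨Q.1, Q.2, h0 _⟩ : {K : Subgroup G // H ≤ K ∧ ∃ k, K = cj k P}))
      ⟨fun Q R e => Subtype.ext (Sylow.ext (congrArg Subtype.val e)), ?_⟩)).symm
    · rintro ⟨_, h, k, rfl⟩
      obtain ⟨Q, hQ⟩ := IsSylowIn.exists_sylow_top ((isSylowIn_top hp' P).cj_of_mem (Subgroup.mem_top k)) hp'
      exact ⟨⟨Q, hQ ▸ h⟩, Subtype.ext hQ⟩
  · rw [Nat.card_congr ((Equiv.inv G).subtypeEquiv (q := fun x => cj x H ≤ P) fun x => le_cj_iff)]
    exact H21.Cas.card_cj' H fun K => K ≤ P

end Cfsg.Agent.S4088
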