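import Mathlib
import Cfsg.Statements.S4089
import Cfsg.Agent.H21.Casolo

set_option autoImplicit false
open Cfsg

namespace Cfsg.Agent.S4089
open BG

/-- Let G be a finite group, p a prime and H a p-subgroup of G. Then the set of elements g of G such that H is subnormal in the subgroup generated by H and g is the union of the normalizers N_G(R) over the subgroups R of G containing H with R = O_p(N_G(R)); and this set does not change when H is replaced by the intersection of all Sylow p-subgroups of G containing H. -/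
theorem result {G : Type*} [Group G] [Finite G] (p : ℕ) [Fact p.Prime]
    (H : Subgroup G) (hH : IsPGroup p H) :
    {g : G | ((H).subgroupOf (H ⊔ Subgroup.zpowers g)).IsSubnormal} =
      {g : G | ∃ R : Subgroup G, H ≤ R ∧ (Cfsg.pCore p (Subgroup.normalizer (R : Set G))).map (Subgroup.normalizer (R : Set G)).subtype = R ∧ g ∈ Subgroup.normalizer (R : Set G)} ∧
    ∀ g : G, (((H).subgroupOf (H ⊔ Subgroup.zpowers g)).IsSubnormal ↔
      (((sInf {K : Subgroup G | ∃ Q : Sylow p G, H ≤ (Q : Subgroup G) ∧ K = (Q : Subgroup G)})).subgroupOf ((sInf {K : Subgroup G | ∃ Q : Sylow p G, H ≤ (Q : Subgroup G) ∧ K = (Q : Subgroup G)}) ⊔ Subgroup.zpowers g)).IsSubnormal) := by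
  have hp' : p.Prime := Fact.out
  have key : ∀ (R : Subgroup G) (g : G), IsPGroup p R → g ∈ N_(R) →
      ∃ R', R ≤ R' ∧ pCoreOf p N_(R') = R' ∧ g ∈ N_(R') := by
    intro R g h1 h2
    obtain ⟨R', hR, hm⟩ := wellFounded_gt.has_min {R' | R ≤ R' ∧ IsPGroup p R' ∧ g ∈ N_(R')} ⟨R, le_rfl, h1, h2⟩
    have h3 : R' ≤ pCoreOf p N_(R') := H02.le_pCoreOf (le_norm _) le_rfl hR.2.1
    exact ⟨R', hR.1, (eq_of_le_of_not_lt h3 (hm _ ⟨hR.1.trans h3, H02.pCoreOf_isPGroup _,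
      H02.le_normalizer_pCoreOf _ hR.2.2⟩)).symm, hR.2.2⟩
  constructor
  · ext g
    refine (H21.Cas.subn_iff hp' hH).trans ⟨?_, ?_⟩
    · rintro ⟨R, h1, h2, h3⟩
      obtain ⟨R', h4, h5⟩ := key R g h2 h3
      exact ⟨R', h1.trans h4, h5⟩
    · rintro ⟨R, h1, h2, h3⟩
      exact ⟨R, h1, h2 ▸ H02.pCoreOf_isPGroup _, h3⟩
  intro g
  obtain ⟨P, hP⟩ := hH.exists_le_sylow
  rw [H21.Cas.subn_iff hp' hH, H21.Cas.subn_iff hp' (pg_le P.2 (sInf_le (by exact ⟨P, hP, rfl⟩)))]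
  constructor
  · rintro ⟨R, h1, h2, h3⟩
    obtain ⟨R', h4, h5, h6⟩ := key R g h2 h3
    have h7 : IsPGroup p R' := h5 ▸ H02.pCoreOf_isPGroup _
    refine ⟨R', ?_, h7, h6⟩
    obtain ⟨Q, hQ⟩ := h7.exists_le_sylow
    set J := sInf {K : Subgroup G | ∃ Q : Sylow p G, R' ≤ (Q : Subgroup G) ∧ K = (Q : Subgroup G)}
    have hJ : R' ≤ J := le_sInf (by rintro _ ⟨Q, h, rfl⟩; exact h)
    refine (sInf_le_sInf (by rintro _ ⟨Q, h, rfl⟩; exact ⟨Q, (h1.trans h4).trans h, rfl⟩)).trans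
      (nil_eq_of_norm_le (K := J) (pg_nil hp' (pg_le Q.2 (sInf_le (by exact ⟨Q, hQ, rfl⟩)))) hJ fun x hx => ?_).ge
    rw [← h5]
    refine ⟨⟨x, hx.2⟩, ?_, rfl⟩
    rw [H02.pCore_eq_iInf_sylow]
    refine Subgroup.mem_iInf.2 fun T => ?_
    obtain ⟨S, hS⟩ := T.exists_comap_subtype_eq
    have h8 : R' ≤ S := h5.ge.trans ((H02.pCoreOf_le_of_sylow T).trans (by
      rw [← hS]; exact Subgroup.map_comap_le _ _))
    rw [← hS]
    exact (sInf_le (by exact ⟨S, h8, rfl⟩) : J ≤ S) hx.1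
  · rintro ⟨R, h1, h2⟩
    exact ⟨R, (le_sInf (by rintro _ ⟨Q, h, rfl⟩; exact h)).trans h1, h2⟩

end Cfsg.Agent.S4089
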