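import Cfsg.Statements.S4090
import Cfsg.Agent.H24.Gheri
-- import your own Cfsg.Agent.* helpers here

set_option autoImplicit false
open scoped BigOperators
open Cfsg

namespace Cfsg.Agent.S4090

open BG H24 H24.Gh Subgroup

theorem chain {n : ℕ} (f : Fin (n + 1) → ℚ) (t : Fin n → ℚ) (h : ∀ i, f i.castSucc = t i * f i.succ) :
    f 0 = (∏ i, t i) * f (Fin.last n) := by
  induction n with
  | zero => simp
  | succ n ih => rw [Fin.prod_univ_succ, mul_assoc, ← Fin.succ_last, ← ih (fun i => f i.succ) _ fun i => h i.succ, ← h]; rfl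

/-- Let G be a finite p-solvable group, H a p-subgroup of G and P a Sylow p-subgroup, and fix a chain of normal subgroups 1 = M₀ ≤ M₁ ≤ ⋯ ≤ Mₙ = G of G each of whose factors is a p-group or a p'-group. Then the number of elements g of G such that H is subnormal in the subgroup generated by H and g equals the order of P times the product, over the factors Mᵢ₊₁/Mᵢ of order prime to p, of the order of the centralizer of H in Mᵢ₊₁/Mᵢ (counted as the number of u ∈ Mᵢ₊₁ with [h, u] ∈ Mᵢ for all h ∈ H, divided by the order of Mᵢ). -/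
theorem result {G : Type*} [Group G] [Finite G] (p : ℕ) [Fact p.Prime]
    (hG : Cfsg.IsPSolvable p G) (H : Subgroup G) (hH : IsPGroup p H) (P : Sylow p G)
    (n : ℕ) (M : Fin (n + 1) → Subgroup G) (h0 : M 0 = ⊥) (hn : M (Fin.last n) = ⊤) (hmono : Monotone M)
    (hnormal : ∀ i, (M i).Normal)
    (hfac : ∀ i : Fin n, (∃ m : ℕ, (M i.castSucc).relIndex (M i.succ) = p ^ m) ∨ ((M i.castSucc).relIndex (M i.succ)).Coprime p) :
    Nat.card {g : G // ((H).subgroupOf (H ⊔ Subgroup.zpowers g)).IsSubnormal} =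
      Nat.card (P : Subgroup G) *
        ∏ i : Fin n, (if ((M i.castSucc).relIndex (M i.succ)).Coprime p then
          Nat.card {u : G // u ∈ M i.succ ∧ ∀ h ∈ H, h * u * h⁻¹ * u⁻¹ ∈ M i.castSucc} / Nat.card (M i.castSucc)
          else 1) := by
  have hp : p.Prime := Fact.out
  have hP := isSylowIn_top hp P
  rw [Nat.card_congr (Equiv.subtypeEquivRight fun g => H21.Cas.subn_iff hp hH), H21.Cas.card_subn hp H hP]
  have h0' : ∀ A : Subgroup G, (Nat.card A : ℚ) ≠ 0 := fun A => Nat.cast_ne_zero.2 (card_ne_zero A)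
  have := chain (fun i => (T (M i ⊔ P) H : ℚ) / Nat.card ↥(M i ⊔ P)) (fun i => (if ((M i.castSucc).relIndex (M i.succ)).Coprime p then
      Nat.card {u : G // u ∈ M i.succ ∧ ∀ h ∈ H, h * u * h⁻¹ * u⁻¹ ∈ M i.castSucc} / Nat.card (M i.castSucc)
      else 1 : ℕ)) fun i => by
    have hle : M i.castSucc ≤ M i.succ := hmono i.castSucc_le_succ
    split_ifs with hc
    · have h1 := step hp hP hle hc hH
      have h2 := card_sup_mul (H := M i.castSucc ⊔ P) (K := M i.succ) (H01.le_normalizer_of_normal _ _)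
      rw [inf_eq hp P.2 hle hc, ← sup_assoc, sup_eq_left.2 hle] at h2
      rw [← Nat.card_congr (Equiv.subtypeEquivRight fun u => mem_C' (H := H) hle), Nat.cast_div (card_dvd fun x hx =>
        (mem_C' hle).2 ⟨hle hx, fun h _ => mul_mem ((hnormal _).conj_mem _ hx h) (inv_mem hx)⟩) (h0' _)]
      qify at h1 h2
      have := h0' (M i.castSucc); have := h0' (M i.castSucc ⊔ P); have := h0' (M i.succ ⊔ P); have := h0' (M i.succ)
      rw [← eq_div_iff ‹_›] at h1
      rw [← eq_div_iff (h0' _)] at h2
      rw [h1, h2]; field_simp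
    · obtain ⟨m, hm⟩ := (hfac i).resolve_right hc
      rw [sup_eq hp hP hle hm]; simp
  simp only [h0, hn, bot_sup_eq, top_sup_eq] at this
  rw [show T ⊤ H = Nat.card (⊤ : Subgroup G) by simp [T], div_self (h0' _), mul_one, div_eq_iff (h0' _), mul_comm] at this
  exact_mod_cast this

end Cfsg.Agent.S4090
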