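import Cfsg.Statements.S4091
import Cfsg.Agent.H24.Gheri
import Cfsg.Agent.H27.ClassSize
-- import your own Cfsg.Agent.* helpers here

set_option autoImplicit false
open Cfsg

namespace Cfsg.Agent.S4091

open BG H24 H24.Gh Subgroup Finset

theorem amgm {ι : Type*} [Fintype ι] [Nonempty ι] (z : ι → ℝ) (hz : ∀ i, 0 ≤ z i) :
    ∏ i, z i ≤ ((∑ i, z i) / Fintype.card ι) ^ Fintype.card ι := by
  have := Real.geom_mean_le_arith_mean univ (fun _ => 1) z (by simp) (by simp [Fintype.card_pos]) fun i _ => hz i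
  simp only [Real.rpow_one, sum_const, card_univ, nsmul_eq_mul, mul_one, one_mul] at this
  rw [← Real.rpow_inv_natCast_pow (prod_nonneg fun i _ => hz i) (Fintype.card_ne_zero (α := ι))]
  exact pow_le_pow_left₀ (Real.rpow_nonneg (prod_nonneg fun i _ => hz i) _) this _

theorem ineq {G : Type*} [Group G] [Finite G] {p : ℕ} (hp : p.Prime) (hG : IsPSolvable p G) {P : Subgroup G} [Fintype P]
    (hP : IsSylowIn p P ⊤) : (∏ x : P, T P (zpowers (x : G))) ^ p ≤
      Nat.card G ^ Nat.card P * T P P ^ ((p - 1) * Nat.card P) := by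
  obtain ⟨n, M, h0, hn, hmono, hnormal, hfac⟩ := hG
  have e : ∀ a : ℕ, a ^ Nat.card P * a ^ ((p - 1) * Nat.card P) = (∏ _x : P, a) ^ p := fun a => by
    rw [prod_const, card_univ, ← Nat.card_eq_fintype_card, ← pow_add, ← pow_mul, ← one_add_mul, add_tsub_cancel_of_le hp.one_le,
      mul_comm]
  have : ∀ i, (∏ x : P, T (M i ⊔ P) (zpowers (x : G))) ^ p ≤
      Nat.card G ^ Nat.card P * T (M i ⊔ P) P ^ ((p - 1) * Nat.card P) := fun i => by
    induction i using Fin.reverseInduction with
    | last => simp only [hn, top_sup_eq, show ∀ H : Subgroup G, T ⊤ H = Nat.card G from fun H => by simp [T], e, le_refl]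
    | cast i ih =>
      have hle : M i.castSucc ≤ M i.succ := hmono i.castSucc_le_succ
      rcases hfac i with ⟨m, hm⟩ | hc
      · rwa [sup_eq hp hP hle hm]
      let π := QuotientGroup.mk' (M i.castSucc)
      have h1 := Nat.le_of_dvd (Nat.pos_of_ne_zero (mul_ne_zero (pow_ne_zero _ (card_ne_zero _))
        (pow_ne_zero _ (card_ne_zero _)))) (dvd_fix hp (hP.pg hp) (π.comp P.subtype) (H := (M i.succ).map π)
        (by have := (hnormal i.succ).map π (QuotientGroup.mk'_surjective _); exact H01.le_normalizer_of_normal _ _)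
        (by rw [← relIndex_ker, QuotientGroup.ker_mk']; exact hp.coprime_iff_not_dvd.1 hc.symm))
      have h2 := card_map_mul_card_inf_ker π (M i.succ)
      rw [QuotientGroup.ker_mk', inf_eq_right.2 hle] at h2
      refine Nat.le_of_mul_le_mul_right ?_ (pow_pos (prod_pos fun (_ : P) (_ : _ ∈ univ) => card_pos (M i.succ)) p)
      rw [← mul_pow, ← prod_mul_distrib, prod_congr rfl fun (x : P) _ => step hp hP hle hc
        (pg_le (hP.pg hp) ((zpowers_le (G := G)).2 x.2)), prod_mul_distrib, mul_pow, ← e, mul_mul_mul_comm, ← mul_pow (T _ _),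
        step hp hP hle hc (hP.pg hp), mul_pow, mul_mul_mul_comm]
      refine Nat.mul_le_mul ih ?_
      simp only [card_C, MonoidHom.map_zpowers]
      rw [prod_mul_distrib, mul_pow, ← e, ← h2, mul_pow, mul_pow, mul_mul_mul_comm]
      rw [MonoidHom.range_comp, range_subtype] at h1
      exact Nat.mul_le_mul_right _ h1
  simpa [h0] using this 0

/-- Let G be a finite p-solvable group, P a Sylow p-subgroup of G, u the number of p-elements of G (elements of p-power order, the identity included) and n the number of Sylow p-subgroups of G. Then u/#P ≥ n^((p−1)/p), stated as u^p ≥ #P^p · n^(p−1). -/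
theorem result {G : Type*} [Group G] [Finite G] (p : ℕ) [Fact p.Prime]
    (hG : Cfsg.IsPSolvable p G) (P : Sylow p G) :
    Nat.card (P : Subgroup G) ^ p * Nat.card (Sylow p G) ^ (p - 1) ≤ Nat.card {g : G // ∃ k : ℕ, orderOf g = p ^ k} ^ p := by
  classical
  have hp : p.Prime := Fact.out
  have := Fintype.ofFinite G
  have hP := isSylowIn_top hp P
  have h1 := ineq hp hG hP
  have hT : ∀ y : G, T P (zpowers y) = #{g | y ∈ cj g P} := fun y => by
    rw [T, Nat.card_eq_fintype_card, Fintype.card_subtype]; simp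
  have h2 : (Nat.card {g : G // ∃ k : ℕ, orderOf g = p ^ k} : ℝ) =
      Nat.card G * ∑ x : (P : Subgroup G), ((T P (zpowers (x : G)) : ℝ))⁻¹ := by
    rw [Nat.card_eq_fintype_card, Fintype.card_subtype, card_filter, Nat.cast_sum, sum_congr rfl
      (g := fun y => ∑ g, if y ∈ cj g P then (T P (zpowers y) : ℝ)⁻¹ else 0) fun y _ => ?_, sum_comm,
      Nat.card_eq_fintype_card, ← nsmul_eq_mul, ← card_univ, ← sum_const]
    · refine sum_congr rfl fun g _ => ?_
      rw [← sum_filter, eq_comm]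
      refine sum_bij (fun x _ => g * x * g⁻¹) (fun x _ => by simpa using conj_mem_cj g x.2) (fun x _ y _ e => by simpa using e)
        (fun y hy => ⟨⟨_, mem_cj.1 (mem_filter.1 hy).2⟩, mem_univ _, by simp [mul_assoc]⟩) fun x _ => ?_
      rw [hT, hT, card_equiv (Equiv.mulLeft g) fun y => ?_]
      simp [mem_cj, mul_assoc]
    rw [← sum_filter, sum_const, ← hT, nsmul_eq_mul]
    split_ifs with hy
    · obtain ⟨g, -, hg⟩ := sylow_subJ hp hP (H27.isPGroup_zpowers_iff.2 hy) le_top
      rw [mul_inv_cancel₀ (Nat.cast_ne_zero.2 (Nat.card_ne_zero.2 ⟨⟨⟨g, hg⟩⟩, inferInstance⟩)), Nat.cast_one]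
    · rw [hT, filter_eq_empty_iff.2 fun g _ hg => hy (H27.isPGroup_zpowers_iff.1 (pg_le
        (IsSylowIn.pg (hP.cj_of_mem (mem_top g)) hp) ((zpowers_le (G := G)).2 hg)))]
      simp
  have h3 := amgm (fun x : (P : Subgroup G) => ((T P (zpowers (x : G)) : ℝ))⁻¹) fun _ => by positivity
  have h4 : Nat.card (Sylow p G) * T (P : Subgroup G) P = Nat.card G := by
    rw [P.card_eq_index_normalizer, ← index_mul_card N_((P : Subgroup G))]; congr 1
    exact Nat.card_congr (Equiv.subtypeEquivRight fun x => ⟨fun h => cj_eq_self_iff.1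
      (eq_of_le_of_card_eq h (card_cj _ _).symm).symm, fun h => (cj_of_mem_norm h).ge⟩)
  have h5 : (0 : ℝ) < ∏ x : (P : Subgroup G), (T P (zpowers (x : G)) : ℝ) := prod_pos fun x _ =>
    Nat.cast_pos.2 (Nat.card_pos_iff.2 ⟨⟨⟨1, by simp⟩⟩, inferInstance⟩)
  rw [prod_inv_distrib, ← Nat.card_eq_fintype_card, div_pow, inv_le_iff_one_le_mul₀ h5, div_mul_eq_mul_div,
    one_le_div₀ (pow_pos (Nat.cast_pos.2 Nat.card_pos) _)] at h3
  generalize Nat.card {g : G // ∃ k : ℕ, orderOf g = p ^ k} = u at *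
  rify at h1 h4 ⊢
  rw [h2]
  refine le_of_pow_le_pow_left₀ (card_ne_zero (P : Subgroup G)) (by positivity) ?_
  generalize Nat.card (P : Subgroup G) = N at *
  generalize ∑ x : (P : Subgroup G), ((T P (zpowers (x : G)) : ℝ))⁻¹ = S at *
  generalize Nat.card (Sylow p G) = n at *
  generalize T (P : Subgroup G) P = t at *
  generalize ∏ x : (P : Subgroup G), (T P (zpowers (x : G)) : ℝ) = A at *
  obtain ⟨q, rfl⟩ := Nat.exists_eq_add_of_le' hp.one_le
  rw [Nat.add_sub_cancel] at h1 ⊢
  have h6 := (pow_le_pow_left₀ (by positivity) h3 (q + 1)).trans_eq (mul_pow _ _ _)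
  have hS : 0 ≤ S ^ N := nonneg_of_mul_nonneg_left ((by positivity : (0 : ℝ) ≤ N ^ N).trans h3) h5
  have h7 := mul_le_mul_of_nonneg_right (h6.trans (mul_le_mul_of_nonneg_left h1 (pow_nonneg hS _)))
    (by positivity : (0 : ℝ) ≤ (n : ℝ) ^ (q * N))
  calc _ = _ := by ring
    _ ≤ _ := h7
    _ = _ := by rw [← h4]; ring

end Cfsg.Agent.S4091
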