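import Cfsg.Statements.S4092
import Mathlib
import Cfsg.Agent.H27.ClassSize
import Cfsg.Agent.H19.SylowCount
-- import your own Cfsg.Agent.* helpers here

set_option autoImplicit false
open Cfsg

namespace Cfsg.Agent.S4092

open scoped Pointwise commutatorElement

/-- Let G be a finite group, p a prime and P a Sylow p-subgroup of G that is not normal in G. Then G has at least p·#P elements of p-power order (the identity included). -/
theorem result {G : Type*} [Group G] [Finite G] (p : ℕ) [Fact p.Prime]
    (P : Sylow p G) (hP : ¬ (P : Subgroup G).Normal) :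
    p * Nat.card (P : Subgroup G) ≤ Nat.card {g : G // ∃ k : ℕ, orderOf g = p ^ k} := by
  classical
  haveI := Fintype.ofFinite G
  have hp := (Fact.out : p.Prime)
  have hne : ∃ R : Sylow p G × Sylow p G, R.1 ≠ R.2 := by
    by_contra h
    push Not at h
    haveI : Subsingleton (Sylow p G) := ⟨fun a b => h (a, b)⟩
    exact hP P.normal_of_subsingleton
  haveI : Nonempty {R : Sylow p G × Sylow p G // R.1 ≠ R.2} := nonempty_subtype.2 hne
  obtain ⟨⟨⟨A, B⟩, hAB⟩, hmax⟩ := Finite.exists_max (fun R : {R : Sylow p G × Sylow p G // R.1 ≠ R.2} =>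
    Nat.card ((R.1.1 : Subgroup G) ⊓ R.1.2 : Subgroup G))
  simp only at hAB hmax
  set D := (A : Subgroup G) ⊓ B with hD
  have hDp : IsPGroup p D := A.isPGroup'.to_inf_left
  haveI := Fintype.ofFinite (Sylow p G)
  let S : Finset (Sylow p G) := Finset.univ.filter fun R => D ≤ R
  have hS : S.card ≡ 1 [MOD p] := by
    have h1 := hDp.card_modEq_card_fixedPoints (Sylow p G)
    have h2 : Nat.card (MulAction.fixedPoints D (Sylow p G)) = S.card := by
      rw [← Nat.card_eq_finsetCard]
      apply Nat.card_congr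
      apply Equiv.subtypeEquivRight
      intro R
      rw [hDp.sylow_mem_fixedPoints_iff]; simp [S]
    rw [← h2]; exact h1.symm.trans (card_sylow_modEq_one p G)
  have hS2 : p + 1 ≤ S.card := by
    have h1 : 1 < S.card := Finset.one_lt_card.2 ⟨A, by simp [S, hD], B, by simp [S, hD], hAB⟩
    have := Nat.le_of_dvd (by omega) ((Nat.modEq_iff_dvd' h1.le).1 hS.symm)
    omega
  have hint : ∀ R ∈ S, ∀ T ∈ S, R ≠ T → (R : Subgroup G) ⊓ T = D := by
    intro R hR T hT h
    simp only [S, Finset.mem_filter, Finset.mem_univ, true_and] at hR hT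
    exact (Subgroup.eq_of_le_of_card_ge (le_inf hR hT) (hmax ⟨(R, T), h⟩)).symm
  let T : Sylow p G → Finset G := fun R => Finset.univ.filter fun x => x ∈ (R : Subgroup G) ∧ x ∉ D
  let D' : Finset G := Finset.univ.filter fun x => x ∈ D
  have hD' : D'.card = Nat.card D := by
    rw [← Nat.card_eq_finsetCard]; exact Nat.card_congr (Equiv.subtypeEquivRight (by simp [D']))
  have hT : ∀ R ∈ S, (T R).card + Nat.card D = Nat.card (P : Subgroup G) := by
    intro R hR
    simp only [S, Finset.mem_filter, Finset.mem_univ, true_and] at hR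
    rw [← hD', ← Finset.card_union_of_disjoint (by
      rw [Finset.disjoint_left]; intro x hx hx'; simp [T, D'] at hx hx'; exact hx.2 hx'),
      H19.sylow_card_eq P R, ← Nat.card_eq_finsetCard]
    apply Nat.card_congr (Equiv.subtypeEquivRight _)
    intro x
    simp only [T, D', Finset.mem_union, Finset.mem_filter, Finset.mem_univ, true_and]
    constructor
    · rintro (h | h); exacts [h.1, hR h]
    · intro h; by_cases h' : x ∈ D; exacts [Or.inr h', Or.inl ⟨h, h'⟩]
  have hU : (S.biUnion T ∪ D').card = ∑ R ∈ S, (T R).card + Nat.card D := by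
    rw [Finset.card_union_of_disjoint, Finset.card_biUnion, hD']
    · intro R hR Q hQ h
      rw [Function.onFun, Finset.disjoint_left]
      intro x hx hx'
      simp only [T, Finset.mem_filter, Finset.mem_univ, true_and] at hx hx'
      exact hx.2 (hint R hR Q hQ h ▸ ⟨hx.1, hx'.1⟩)
    · rw [Finset.disjoint_left]
      intro x hx hx'
      simp only [T, D', Finset.mem_biUnion, Finset.mem_filter, Finset.mem_univ, true_and] at hx hx'
      obtain ⟨R, -, h⟩ := hx
      exact h.2 hx'
  have hle : (S.biUnion T ∪ D').card ≤ Nat.card {g : G // ∃ k : ℕ, orderOf g = p ^ k} := by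
    rw [← Nat.card_eq_finsetCard]
    refine Nat.card_le_card_of_injective (fun x => ⟨x.1, ?_⟩) (fun a b e => Subtype.ext (by simpa using e))
    have hx := x.2
    simp only [T, D', Finset.mem_union, Finset.mem_biUnion, Finset.mem_filter, Finset.mem_univ, true_and] at hx
    rcases hx with ⟨R, -, h⟩ | h
    exacts [H27.orderOf_of_mem_sylow h.1, H27.orderOf_of_mem_sylow h.1]
  have hpd : p * Nat.card D ≤ Nat.card (P : Subgroup G) := by
    obtain ⟨a, ha⟩ := hDp.exists_card_eq
    obtain ⟨b, hb⟩ := A.isPGroup'.exists_card_eq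
    have h1 : Nat.card D < Nat.card (A : Subgroup G) := by
      apply H02.card_lt_of_lt
      refine lt_of_le_of_ne inf_le_left fun h => hAB (H19.sylow_eq_of_le (inf_eq_left.1 h))
    rw [H19.sylow_card_eq P A, ha, hb, ← pow_succ']
    rw [ha, hb, Nat.pow_lt_pow_iff_right hp.one_lt] at h1
    exact Nat.pow_le_pow_right hp.pos h1
  have hsum : ∑ R ∈ S, (T R).card = S.card * (Nat.card (P : Subgroup G) - Nat.card D) := by
    rw [Finset.sum_congr rfl (fun R hR => (Nat.eq_sub_of_add_eq (hT R hR)))]; simp
  refine le_trans ?_ hle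
  rw [hU, hsum]
  have h1 : Nat.card D ≤ Nat.card (P : Subgroup G) := le_trans (Nat.le_mul_of_pos_left _ hp.pos) hpd
  obtain ⟨t, ht⟩ := Nat.exists_eq_add_of_le h1
  rw [ht] at hpd ⊢
  rw [Nat.add_sub_cancel_left]
  nlinarith [Nat.mul_le_mul_right t hS2]

end Cfsg.Agent.S4092
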