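import Cfsg.Statements.S4093
import Mathlib
import Cfsg.Agent.H27.ClassSize
-- import your own Cfsg.Agent.* helpers here

set_option autoImplicit false
open scoped BigOperators
open Cfsg

namespace Cfsg.Agent.S4093

open scoped Pointwise commutatorElement

/-- Let G be a finite group with a normal subgroup N complementing a Sylow p-subgroup P (a normal p-complement). Then the number of elements of G of p-power order equals the sum over x ∈ P of the index of C_N(x) in N. -/
theorem result {G : Type*} [Group G] [Finite G] (p : ℕ) [Fact p.Prime]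
    (P : Sylow p G) (N : Subgroup G) [N.Normal] (hNP : N.IsComplement' (P : Subgroup G)) :
    Nat.card {g : G // ∃ k : ℕ, orderOf g = p ^ k} =
      ∑ᶠ x : (P : Subgroup G), Nat.card N / Nat.card ↥(N ⊓ Subgroup.centralizer ({(x : G)} : Set G)) := by
  classical
  haveI := Fintype.ofFinite (P : Subgroup G)
  let f : (Σ x : (P : Subgroup G), {y : G // ∃ h ∈ N, h * x * h⁻¹ = y}) → {g : G // ∃ k : ℕ, orderOf g = p ^ k} :=
    fun a => ⟨a.2.1, by
      obtain ⟨h, -, e⟩ := a.2.2
      obtain ⟨k, hk⟩ := H27.orderOf_of_mem_sylow a.1.2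
      exact ⟨k, by rw [← e, ← hk]; exact MulEquiv.orderOf_eq (MulAut.conj h) _⟩⟩
  have hf : Function.Bijective f := by
    constructor
    · rintro ⟨x, y, h, hh, rfl⟩ ⟨x', y', h', hh', rfl⟩ e
      have e1 : h * x * h⁻¹ = h' * x' * h'⁻¹ := congrArg Subtype.val e
      have e2 : x = x' := by
        have h1 : ((x' * x⁻¹ : (P : Subgroup G)) : G) ∈ N := by
          have : ((x' * x⁻¹ : (P : Subgroup G)) : G) = h'⁻¹ * h * (x * (h⁻¹ * h') * (x : G)⁻¹) := by
            have : (x' : G) = h'⁻¹ * (h * x * h⁻¹) * h' := by rw [e1]; group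
            rw [Subgroup.coe_mul, Subgroup.coe_inv, this]; group
          rw [this]
          exact N.mul_mem (N.mul_mem (N.inv_mem hh') hh)
            (Subgroup.Normal.conj_mem inferInstance _ (N.mul_mem (N.inv_mem hh) hh') _)
        have h2 : ((x' * x⁻¹ : (P : Subgroup G)) : G) ∈ N ⊓ (P : Subgroup G) := ⟨h1, (x' * x⁻¹).2⟩
        rw [hNP.disjoint.eq_bot, Subgroup.mem_bot, OneMemClass.coe_eq_one, mul_inv_eq_one] at h2
        exact h2.symm
      subst e2
      congr 1
      exact Subtype.ext e1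
    · rintro ⟨g, hg⟩
      obtain ⟨y, hy⟩ := H27.exists_conj_mem_sylow P hg
      obtain ⟨⟨n, b⟩, e⟩ := hNP.2 y⁻¹
      have e' : y = (b : G)⁻¹ * (n : G)⁻¹ := by rw [← mul_inv_rev]; exact inv_eq_iff_eq_inv.1 e.symm
      refine ⟨⟨⟨b * (y * g * y⁻¹) * (b : G)⁻¹, (P : Subgroup G).mul_mem ((P : Subgroup G).mul_mem b.2 hy) ((P : Subgroup G).inv_mem b.2)⟩, g, n, n.2, ?_⟩, rfl⟩
      change (n : G) * ((b : G) * (y * g * y⁻¹) * (b : G)⁻¹) * (n : G)⁻¹ = g
      rw [e']; simp [mul_assoc]
  rw [← Nat.card_congr (Equiv.ofBijective f hf), Nat.card_sigma, finsum_eq_sum_of_fintype]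
  apply Finset.sum_congr rfl
  intro x _
  rw [H27.card_orbit_eq_relIndex]
  symm
  apply Nat.div_eq_of_eq_mul_left Nat.card_pos
  rw [inf_comm, ← H02.card_subgroupOf, Subgroup.relIndex, Subgroup.index_mul_card]

end Cfsg.Agent.S4093
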