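import Mathlib
import Cfsg.Statements.S4107
import Cfsg.Agent.BG.Api
import Cfsg.Agent.H02.Fitting

set_option autoImplicit false
open Cfsg

namespace Cfsg.Agent.S4107
open BG

/-- Let G be a finite group and N a proper non-trivial normal subgroup such that for every x outside N all elements of the coset xN have the same order as x. Then N ≤ F(G) or F(G) ≤ N, where F(G) is the Fitting subgroup; and if N is properly contained in F(G) then F(G) has prime-power order. -/
theorem result {G : Type*} [Group G] [Finite G] (N : Subgroup G) [N.Normal] (hN1 : N ≠ ⊥) (hN2 : N ≠ ⊤)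
    (heq : ∀ x : G, x ∉ N → ∀ n ∈ N, orderOf (x * n) = orderOf x) :
    (N ≤ Cfsg.fittingSubgroup G ∨ Cfsg.fittingSubgroup G ≤ N) ∧
    (N < Cfsg.fittingSubgroup G → IsPrimePow (Nat.card (Cfsg.fittingSubgroup G))) := by
  have key : ∀ p : ℕ, p.Prime → ¬ pCore p G ≤ N → IsPGroup p N := by
    intro p hp h
    obtain ⟨x, hx, hxN⟩ := SetLike.not_le_iff_exists.1 h
    obtain ⟨k, hk⟩ := H02.pCore_isPGroup p G ⟨x, hx⟩
    have hk' : x ^ p ^ k = 1 := congrArg Subtype.val hk
    intro n
    have h1 : (x * n) ^ p ^ k = 1 := by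
      rw [← orderOf_dvd_iff_pow_eq_one, heq x hxN n n.2, orderOf_dvd_iff_pow_eq_one, hk']
    have h2 : (n : G) ^ p ^ k ∈ pCore p G := by
      rw [← QuotientGroup.eq_one_iff, QuotientGroup.mk_pow]
      have := congrArg (QuotientGroup.mk : G → G ⧸ pCore p G) h1
      rwa [QuotientGroup.mk_pow, QuotientGroup.mk_mul, (QuotientGroup.eq_one_iff x).2 hx, one_mul] at this
    obtain ⟨l, hl⟩ := H02.pCore_isPGroup p G ⟨_, h2⟩
    refine ⟨k + l, Subtype.ext ?_⟩
    have hl' : ((n : G) ^ p ^ k) ^ p ^ l = 1 := congrArg Subtype.val hl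
    rw [pow_add, Subgroup.coe_pow, pow_mul]; exact hl'
  have k2 : ¬ fittingSubgroup G ≤ N → ∃ p : ℕ, p.Prime ∧ ¬ pCore p G ≤ N := fun h => by
    by_contra hc
    push Not at hc
    exact h (by rw [H02.fitting_eq_iSup_pCore]; exact iSup_le fun p => hc p p.2)
  refine ⟨?_, fun h => ?_⟩
  · by_cases h : fittingSubgroup G ≤ N
    · exact Or.inr h
    obtain ⟨p, hp, h1⟩ := k2 h
    exact Or.inl (H02.le_fitting (pg_nil hp (key p hp h1)))
  · obtain ⟨p, hp, h1⟩ := k2 h.not_ge
    have h2 := key p hp h1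
    have h3 : fittingSubgroup G ≤ pCore p G := by
      rw [H02.fitting_eq_iSup_pCore]
      refine iSup_le fun q => ?_
      by_cases hq : pCore q G ≤ N
      · exact hq.trans (H02.le_pCore h2)
      · rw [pg_prime_eq hp h2 q.2 (pg_dvd q.2 (key q q.2 hq) hN1)]
    obtain ⟨k, hk⟩ := pg_card hp (pg_le (H02.pCore_isPGroup p G) h3)
    refine ⟨p, k, hp.prime, Nat.pos_of_ne_zero fun e => ?_, hk.symm⟩
    rw [e, pow_zero, card_eq_one] at hk
    exact not_lt_bot (hk ▸ h)

end Cfsg.Agent.S4107
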