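import Cfsg.Statements.S4108
import Mathlib
import Cfsg.Agent.H02.Frobenius
import Cfsg.Agent.H01.Basic
-- import your own Cfsg.Agent.* helpers here

set_option autoImplicit false
open Cfsg

namespace Cfsg.Agent.S4108

open scoped Pointwise commutatorElement

/-- Let G be a finite group, p a prime and N a proper non-trivial normal p-subgroup such that for every x outside N all elements of the coset xN have the same order as x. Then every non-trivial subgroup H of G of order prime to p acts fixed-point-freely on N: NH is a Frobenius group with complement H and kernel N. -/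
theorem result {G : Type*} [Group G] [Finite G] (N : Subgroup G) [N.Normal] (hN1 : N ≠ ⊥) (hN2 : N ≠ ⊤)
    (heq : ∀ x : G, x ∉ N → ∀ n ∈ N, orderOf (x * n) = orderOf x)
    (p : ℕ) [Fact p.Prime] (hNp : IsPGroup p N) :
    ∀ H : Subgroup G, H ≠ ⊥ → (Nat.card H).Coprime p →
      Cfsg.IsFrobeniusComplement (H.subgroupOf (N ⊔ H)) ∧ Cfsg.frobeniusKernel (H.subgroupOf (N ⊔ H)) = (N.subgroupOf (N ⊔ H) : Set ↥(N ⊔ H)) := by
  intro H hH hcop
  obtain ⟨k, hk⟩ := hNp.exists_card_eq
  have hc : (Nat.card N).Coprime (Nat.card H) := by rw [hk]; exact (hcop.symm).pow_left k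
  have hd : N ⊓ H = ⊥ := (Subgroup.disjoint_of_coprime_natCard hc).eq_bot
  have hfpf : ∀ h ∈ H, h ≠ 1 → ∀ n ∈ N, h * n = n * h → n = 1 := by
    intro h hh h1 n hn e
    have h2 : h ∉ N := fun h' => h1 (Subgroup.mem_bot.1 (hd ▸ ⟨h', hh⟩))
    have h3 := heq h h2 n hn
    rw [Commute.orderOf_mul_eq_mul_orderOf_of_coprime e
      (Nat.Coprime.of_dvd_left (Subgroup.orderOf_dvd_natCard H hh)
        (Nat.Coprime.of_dvd_right (Subgroup.orderOf_dvd_natCard N hn) hc.symm))] at h3
    exact orderOf_eq_one_iff.1 (Nat.eq_of_mul_eq_mul_left (orderOf_pos h) (by rw [h3, mul_one]))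
  have hcomp : (N.subgroupOf (N ⊔ H)).IsComplement' (H.subgroupOf (N ⊔ H)) := by
    apply H01.isComplement'_of_disjoint_of_sup
    · rw [disjoint_iff, Subgroup.subgroupOf, Subgroup.subgroupOf, ← Subgroup.comap_inf, hd]
      exact (N ⊔ H).ker_subtype
    · rw [← Subgroup.subgroupOf_sup le_sup_left le_sup_right, Subgroup.subgroupOf_self]
  have a1 : N.subgroupOf (N ⊔ H) ≠ ⊥ := by
    rw [Ne, Subgroup.subgroupOf_eq_bot, disjoint_iff, inf_eq_left.2 le_sup_left]; exact hN1
  have a2 : H.subgroupOf (N ⊔ H) ≠ ⊥ := by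
    rw [Ne, Subgroup.subgroupOf_eq_bot, disjoint_iff, inf_eq_left.2 le_sup_right]; exact hH
  have a3 : ∀ h ∈ H.subgroupOf (N ⊔ H), h ≠ 1 → N.subgroupOf (N ⊔ H) ⊓ Subgroup.centralizer {h} = ⊥ := by
    intro h hh h1
    rw [H02.fpf_iff]
    intro n hn e
    exact Subtype.ext (hfpf h hh (fun e => h1 (Subtype.ext e)) n hn (congrArg Subtype.val e))
  exact ⟨H02.isFrob_of_fpf hcomp a1 a2 a3, (H02.frobKer_eq_of_fpf hcomp a1 a2 a3).symm⟩

end Cfsg.Agent.S4108
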