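import Cfsg.Statements.S4112
import Mathlib
import Cfsg.Agent.H02.Frattini
import Cfsg.Agent.H04.Basic
import Cfsg.Agent.H21.PPart
-- import your own Cfsg.Agent.* helpers here

set_option autoImplicit false
open Cfsg

namespace Cfsg.Agent.S4112

open scoped Pointwise commutatorElement

/-- Let G be a finite group and M ≤ N non-trivial proper normal subgroups such that for every g outside N the conjugacy class of g is a union of cosets of M (equivalently gm is conjugate to g for every m ∈ M). Then (1) and (2) below are equivalent, and they imply (3): (1) every g outside N acts fixed-point-freely on M, that is C_G(x) ≤ N for every x ∈ M, x ≠ 1; (2) the index of N in G is coprime to the order of M; (3) there is a subgroup H of G with HN = G and H ∩ M = 1. -/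
theorem result {G : Type*} [Group G] [Finite G] (N M : Subgroup G) [N.Normal] [M.Normal] (hMN : M ≤ N) (hM1 : M ≠ ⊥) (hN2 : N ≠ ⊤)
    (hcam : ∀ g : G, g ∉ N → ∀ m ∈ M, ∃ x : G, x * g * x⁻¹ = g * m) :
    ((∀ x ∈ M, x ≠ 1 → Subgroup.centralizer ({x} : Set G) ≤ N) ↔ N.index.Coprime (Nat.card M)) ∧
    ((∀ x ∈ M, x ≠ 1 → Subgroup.centralizer ({x} : Set G) ≤ N) → ∃ H : Subgroup G, H ⊔ N = ⊤ ∧ H ⊓ M = ⊥) := by
  have h12 : (∀ x ∈ M, x ≠ 1 → Subgroup.centralizer ({x} : Set G) ≤ N) → N.index.Coprime (Nat.card M) := by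
    intro h
    apply Nat.coprime_of_dvd
    intro p hp h1 h2
    haveI := Fact.mk hp
    obtain ⟨y, hy⟩ := exists_prime_orderOf_dvd_card' p h2
    have hy' : orderOf (y : G) = p := by rw [Subgroup.orderOf_coe, hy]
    have h3 : IsPGroup p (Subgroup.zpowers (y : G)) :=
      IsPGroup.of_card (n := 1) (by rw [Nat.card_zpowers, hy', pow_one])
    obtain ⟨P, hP⟩ := h3.exists_le_sylow
    haveI := P.isPGroup'.isNilpotent
    obtain ⟨z, hz, hz1, hzc⟩ := H04.exists_mem_center_of_normal (M.subgroupOf (P : Subgroup G)) (by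
      intro hb
      have : (⟨y, hP (Subgroup.mem_zpowers _)⟩ : (P : Subgroup G)) ∈ M.subgroupOf (P : Subgroup G) := y.2
      rw [hb, Subgroup.mem_bot, Subtype.ext_iff] at this
      rw [show (y : G) = 1 from this, orderOf_one] at hy'
      exact hp.one_lt.ne hy')
    have h4 : (P : Subgroup G) ≤ N := by
      refine le_trans ?_ (h z hz (fun e => hz1 (Subtype.ext e)))
      intro a ha
      rw [Subgroup.mem_centralizer_singleton_iff]
      exact congrArg Subtype.val (Subgroup.mem_center_iff.1 hzc ⟨a, ha⟩)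
    exact P.not_dvd_index (h1.trans (Subgroup.index_dvd_of_le h4))
  refine ⟨⟨h12, fun h x hx hx1 g hg => ?_⟩, fun h => ?_⟩
  · by_contra hgN
    rw [Subgroup.mem_centralizer_singleton_iff] at hg
    obtain ⟨p, hp, hpd⟩ := Nat.exists_prime_and_dvd (mt orderOf_eq_one_iff.1 hx1)
    haveI := Fact.mk hp
    have hpM : p ∣ Nat.card M := hpd.trans (Subgroup.orderOf_dvd_natCard M hx)
    have hy : orderOf (x ^ (orderOf x / p)) = p := orderOf_pow_orderOf_div (orderOf_pos x).ne' hpd
    have hyc : Commute g (x ^ (orderOf x / p)) := Commute.pow_right hg _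
    have hyM := M.pow_mem hx (orderOf x / p)
    set y := x ^ (orderOf x / p)
    have h1 : H21.pPart p g ∈ N := by
      obtain ⟨k, hk⟩ := H21.orderOf_pPart (p := p) g
      rw [← QuotientGroup.eq_one_iff, ← orderOf_eq_one_iff]
      apply Nat.eq_one_of_dvd_coprimes (a := p ^ k) (b := N.index)
      · exact Nat.Coprime.pow_left _ (Nat.Coprime.of_dvd_left hpM h.symm)
      · rw [← hk]; exact orderOf_map_dvd (QuotientGroup.mk' N) _
      · exact orderOf_dvd_natCard _
    have h2 : H21.pReg p g ∉ N := fun h2 => hgN (H21.pPart_mul_pReg p g ▸ N.mul_mem h1 h2)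
    obtain ⟨c, hc⟩ := hcam _ h2 y hyM
    have h3 := H21.not_dvd_orderOf_pReg (p := p) g
    have h4 : orderOf (H21.pReg p g * y) = orderOf (H21.pReg p g) * orderOf y :=
      Commute.orderOf_mul_eq_mul_orderOf_of_coprime (H21.commute_pReg p hyc.symm).symm (by
        rw [hy]; exact ((Nat.Prime.coprime_iff_not_dvd hp).2 h3).symm)
    have h5 : orderOf (c * H21.pReg p g * c⁻¹) = orderOf (H21.pReg p g) :=
      MulEquiv.orderOf_eq (MulAut.conj c) _
    rw [← hc, h5, hy] at h4
    exact h3 (h4 ▸ dvd_mul_left _ _)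
  · have hc := h12 h
    obtain ⟨H, hH, hmin⟩ := exists_minimal_of_wellFoundedLT (fun H : Subgroup G => H ⊔ N = ⊤) ⟨⊤, top_sup_eq _⟩
    refine ⟨H, hH, ?_⟩
    have h1 : N.subgroupOf H ≤ frattini H := by
      by_contra h1
      obtain ⟨L, hL, -, hL2⟩ := H02.exists_coatom_sup_eq_top h1
      have h2 := congrArg (Subgroup.map H.subtype) hL2
      rw [Subgroup.map_sup, Subgroup.subgroupOf_map_subtype, ← MonoidHom.range_eq_map,
        Subgroup.range_subtype] at h2
      have h3 : L.map H.subtype ⊔ N = ⊤ := by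
        rw [eq_top_iff, ← hH]
        exact sup_le (h2.ge.trans (sup_le_sup_left inf_le_left _)) le_sup_right
      have h4 := hmin h3 (Subgroup.map_subtype_le L)
      apply hL.1
      rw [eq_top_iff]
      intro a _
      obtain ⟨b, hb, e⟩ := h4 a.2
      rwa [← Subtype.ext e]
    apply (Subgroup.disjoint_of_coprime_natCard _).eq_bot
    apply Nat.coprime_of_dvd
    intro p hp h2 h3
    have h4 := (H02.prime_dvd_index_frattini hp h2).trans (Subgroup.index_dvd_of_le h1)
    have h5 := h4.trans (Subgroup.relIndex_dvd_index_of_normal N H)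
    exact hp.one_lt.ne' (Nat.eq_one_of_dvd_coprimes hc h5 h3)

end Cfsg.Agent.S4112
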