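import Mathlib
import Cfsg.Statements.S4115
import Cfsg.Agent.H16.FrobSec
import Cfsg.Agent.S0877

set_option autoImplicit false
universe u
open Cfsg

namespace Cfsg.Agent.S4115

open scoped Pointwise
open BG

/-- Let G be a finite group and H a subgroup that meets each of its conjugates by elements outside N_G(H) trivially and whose order is coprime to its index in N_G(H). Then H has a normal complement in N_G(H) if and only if H has a normal complement in G. Moreover, if H is not normal in G and has a normal complement in N_G(H), then H is isomorphic to a Frobenius complement of some finite Frobenius group. -/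
theorem result {G : Type u} [Group G] [Finite G] (H : Subgroup G)
    (hTI : Cfsg.IsTISubset (H : Set G)) (hHall : (Nat.card H).Coprime (H.subgroupOf (Subgroup.normalizer (H : Set G))).index) :
    ((∃ K : Subgroup (Subgroup.normalizer (H : Set G)), K.Normal ∧ K.IsComplement' (H.subgroupOf (Subgroup.normalizer (H : Set G)))) ↔
      (∃ N : Subgroup G, N.Normal ∧ N.IsComplement' H)) ∧
    (¬ H.Normal → (∃ K : Subgroup (Subgroup.normalizer (H : Set G)), K.Normal ∧ K.IsComplement' (H.subgroupOf (Subgroup.normalizer (H : Set G)))) →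
      ∃ (F : Type u) (_ : Group F) (_ : Finite F) (C : Subgroup F), Cfsg.IsFrobeniusComplement C ∧ Nonempty (H ≃* C)) := by
  have hH := H16.ti_hall_of_hall_normalizer hTI hHall
  have h1 : (∃ K : Subgroup (Subgroup.normalizer (H : Set G)), K.Normal ∧
      K.IsComplement' (H.subgroupOf (Subgroup.normalizer (H : Set G)))) →
      ∃ N : Subgroup G, N.Normal ∧ N.IsComplement' H := by
    rintro ⟨K, hKn, hK⟩
    suffices hf : ∀ x ∈ H, ∀ y ∈ H, IsConj x y → ∃ h ∈ H, h * x * h⁻¹ = y by
      obtain ⟨N, hN, h2, h3⟩ := Cfsg.Agent.S0877.result H hH hf (fun E p _ _ hd =>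
        H16.ti_hall_le_conj hH hTI fun q _ h => h.trans hd)
      exact ⟨N, hN, H01.isComplement'_of_disjoint_of_sup (disjoint_iff.2 h3) h2⟩
    intro x hx y hy hc
    obtain ⟨g, rfl⟩ := isConj_iff.1 hc
    by_cases hx1 : x = 1
    · exact ⟨1, H.one_mem, by simp [hx1]⟩
    have hg := H16.ti_mem_normalizer hTI hx hx1 hy
    obtain ⟨⟨h, k⟩, e⟩ := hK.symm.2 ⟨g, hg⟩
    have hc := H02.commute_of_normal_of_inf hK.disjoint.eq_bot k.2
      (show (⟨x, Subgroup.le_normalizer hx⟩ : Subgroup.normalizer (H : Set G)) ∈ H.subgroupOf _ from hx)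
    have e1 : g = (h : Subgroup.normalizer (H : Set G)) * (k : Subgroup.normalizer (H : Set G)) :=
      (congrArg Subtype.val e).symm
    have e2 : ((k : Subgroup.normalizer (H : Set G)) : G) * x = x * (k : Subgroup.normalizer (H : Set G)) :=
      congrArg Subtype.val hc.eq
    refine ⟨(h : Subgroup.normalizer (H : Set G)), h.2, ?_⟩
    rw [e1, mul_assoc _ _ x, e2]
    group
  refine ⟨⟨h1, fun ⟨N, hN, h⟩ => ⟨_, inferInstance, H01.isComplement'_subgroupOf h Subgroup.le_normalizer⟩⟩,
    fun hn h => ?_⟩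
  obtain ⟨M, hM, hc⟩ := h1 h
  refine H16.exists_frob_section (M := M) (H01.le_normalizer_of_normal _ _)
    (by rwa [← hc.index_eq_card]) (fun x hx hx1 => le_antisymm (fun y hy => ⟨hy.1, ?_⟩)
      (inf_le_inf_left _ (Subgroup.centralizer_le (by simpa using hx)))) (fun hMC => hn ?_)
  swap
  · have hy' : y ∈ N_(H) := H16.ti_mem_normalizer hTI hx hx1 (by
      rw [mem_cent1.1 hy.2, mul_inv_cancel_right]; exact hx)
    intro h hh
    have h2 : y * h * y⁻¹ * h⁻¹ ∈ M ⊓ H := Subgroup.mem_inf.2 ⟨by
      have := M.mul_mem hy.1 (hM.conj_mem _ (M.inv_mem hy.1) h)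
      simpa only [mul_assoc] using this, H.mul_mem ((hy' h).1 hh) (H.inv_mem hh)⟩
    rw [hc.disjoint.eq_bot, Subgroup.mem_bot] at h2
    calc h * y = (y * h * y⁻¹ * h⁻¹)⁻¹ * (y * h) := by group
      _ = y * h := by rw [h2]; group
  · rw [← Subgroup.normalizer_eq_top_iff, eq_top_iff, ← hc.sup_eq_top]
    exact sup_le (hMC.trans (Subgroup.centralizer_le_normalizer _)) Subgroup.le_normalizer

end Cfsg.Agent.S4115
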