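import Mathlib
import Cfsg.Statements.S4117
import Cfsg.Agent.H16.PiHall
import Cfsg.Agent.H27.Act2
import Cfsg.Agent.BG.Api4

set_option autoImplicit false
open Cfsg

namespace Cfsg.Agent.S4117

open scoped Pointwise commutatorElement
open BG SemidirectProduct

/-- Let A be a finite group acting on the finite group G by automorphisms with the orders of A and G coprime, and suppose every Sylow subgroup of G is cyclic. Then the fixed-point subgroup C_G(A) is a Hall subgroup of G (its order is coprime to its index), the subgroup [G, A] generated by the elements g⁻¹·a(g) is cyclic and normal with [G, A] ∩ C_G(A) = 1 and [G, A]·C_G(A) = G. -/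
theorem result {G A : Type*} [Group G] [Finite G] [Group A] [Finite A]
    [MulDistribMulAction A G] (hcop : (Nat.card A).Coprime (Nat.card G))
    (hcyc : ∀ (p : ℕ) [Fact p.Prime] (P : Sylow p G), IsCyclic (P : Subgroup G)) :
    (Nat.card (MulAction.fixedPoints A G : Set G)).Coprime (Nat.card G / Nat.card (MulAction.fixedPoints A G : Set G)) ∧
    IsCyclic (Subgroup.closure {y : G | ∃ (a : A) (g : G), y = g⁻¹ * a • g}) ∧
    (Subgroup.closure {y : G | ∃ (a : A) (g : G), y = g⁻¹ * a • g}).Normal ∧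
    (Subgroup.closure {y : G | ∃ (a : A) (g : G), y = g⁻¹ * a • g} : Set G) ∩ MulAction.fixedPoints A G = {1} ∧
    Subgroup.closure {y : G | ∃ (a : A) (g : G), y = g⁻¹ * a • g} ⊔ Subgroup.closure (MulAction.fixedPoints A G) = ⊤ := by
  haveI : IsZGroup G := ⟨fun p hp P => @hcyc p ⟨hp⟩ P⟩
  let φ := MulDistribMulAction.toMulAut A G
  set B := Subgroup.closure {y : G | ∃ (a : A) (g : G), y = g⁻¹ * a • g} with hBdef
  have hmem : ∀ (a : A) (g : G), g⁻¹ * a • g ∈ B := fun a g => Subgroup.subset_closure ⟨a, g, rfl⟩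
  have hBn : B.Normal := by
    refine ⟨fun n hn h => ?_⟩
    induction hn using Subgroup.closure_induction with
    | mem x hx =>
      obtain ⟨a, g, rfl⟩ := hx
      have := B.mul_mem (hmem a (g * h⁻¹)) (B.inv_mem (hmem a h⁻¹))
      convert this using 1
      simp only [smul_mul', mul_inv_rev, inv_inv]
      group
    | one => simp
    | mul x y _ _ h1 h2 => convert B.mul_mem h1 h2 using 1; group
    | inv x _ h1 => convert B.inv_mem h1 using 1; group
  let K : Subgroup (G ⋊[φ] A) := (⊤ : Subgroup G).map inl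
  let A' : Subgroup (G ⋊[φ] A) := (inr : A →* G ⋊[φ] A).range
  have hAK : A' ≤ N_(K) := (H27.inv_iff_inr_le ⊤).1 H27.inv_top
  have hc : (Nat.card A').Coprime (Nat.card K) := by
    rw [H27.card_inr_range, H27.card_map_inl, Subgroup.card_top]; exact hcop
  have hcomm : ∀ (g : G) (a : A), ⁅(inl g : G ⋊[φ] A), inr a⁆ = inl (g⁻¹⁻¹ * a • g⁻¹) := fun g a => by
    rw [inv_inv, map_mul, show a • g⁻¹ = φ a g⁻¹ from rfl, inl_aut, commutatorElement_def, map_inv, map_inv]
    group
  have hB : B.map inl = ⁅K, A'⁆ := by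
    apply le_antisymm
    · rw [Subgroup.map_le_iff_le_comap, hBdef, Subgroup.closure_le]
      rintro _ ⟨a, g, rfl⟩
      have := Subgroup.commutator_mem_commutator (H₁ := K) (H₂ := A') ⟨g⁻¹, trivial, rfl⟩ ⟨a, rfl⟩
      rw [hcomm] at this
      simp only [inv_inv] at this
      exact this
    · rw [Subgroup.commutator_le]
      rintro _ ⟨g, -, rfl⟩ _ ⟨a, rfl⟩
      rw [hcomm]
      exact ⟨_, hmem a _, rfl⟩
  have hD := IsZGroup.isCyclic_commutator G
  have hBD : B ≤ C_(commutator G) := by
    rw [hBdef, Subgroup.closure_le]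
    rintro _ ⟨a, g, rfl⟩ d hd
    obtain ⟨l, hl⟩ := MonoidHom.map_cyclic (MulAut.conjNormal (H := commutator G) g).toMonoidHom
    have hl' : ∀ y ∈ commutator G, g * y * g⁻¹ = y ^ l := fun y hy => congrArg Subtype.val (hl ⟨y, hy⟩)
    have h1 : a⁻¹ • d ∈ commutator G := H27.inv_of_characteristic (φ := φ) (commutator G) a⁻¹ d hd
    have h2 := congrArg (a • ·) (hl' _ h1)
    simp only [smul_mul', smul_inv', smul_inv_smul, smul_zpow'] at h2
    rw [← hl' d hd] at h2
    calc d * (g⁻¹ * a • g) = g⁻¹ * (g * d * g⁻¹) * a • g := by group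
      _ = g⁻¹ * (a • g * d * (a • g)⁻¹) * a • g := by rw [h2]
      _ = _ := by group
  have hBab : IsMulCommutative B :=
    MonoidHom.isMulCommutative_of_isCyclic_of_ker_le_center (Abelianization.of.comp B.subtype) (fun z hz => by
      rw [MonoidHom.mem_ker, MonoidHom.comp_apply, ← MonoidHom.mem_ker, Abelianization.ker_of] at hz
      exact Subgroup.mem_center_iff.2 fun w => Subtype.ext (hBD w.2 z hz).symm)
  have hBc : IsCyclic B := by
    haveI : Group.IsNilpotent B := nil_of_abelian hBab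
    infer_instance
  have hdisj : B ⊓ H27.fix φ = ⊥ := by
    have hR : A' ≤ N_(⁅K, A'⁆) := H01.right_le_normalizer_commutator _ _
    have hle : ⁅K, A'⁆ ≤ K := H01.commutator_le_left_of_le_normalizer hAK
    have h1 := (coprime_abelian_dprod hR (coprime_mono hc le_rfl hle) (by rw [← hB]; infer_instance)).disj
    rw [coprime_comm_comm hAK hc (H16.sol_or_of_coprime hc), inf_eq_left.2 inf_le_left, ← hB] at h1
    rw [eq_bot_iff]
    intro x hx
    have : (inl x : G ⋊[φ] A) ∈ B.map inl ⊓ C_(A') := ⟨⟨x, hx.1, rfl⟩, H27.mem_centralizer_inr_iff.2 hx.2⟩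
    rw [h1, Subgroup.mem_bot] at this
    exact inl_injective (this.trans (map_one _).symm)
  have hsup : B ⊔ H27.fix φ = ⊤ := by
    rw [eq_top_iff]
    intro g _
    obtain ⟨n, hn, h⟩ := H27.exists_fix_of_coset (φ := φ) (N := B)
      (hcop.coprime_dvd_right (Subgroup.card_subgroup_dvd_card B)) (Or.inr inferInstance)
      (fun a x hx => by
        have := B.mul_mem hx (hmem a x)
        rwa [mul_inv_cancel_left] at this) (hmem · g)
    have := Subgroup.mul_mem _ (Subgroup.mem_sup_right (S := B) h) (Subgroup.mem_sup_left (B.inv_mem hn))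
    rwa [mul_inv_cancel_right] at this
  have hF : MulAction.fixedPoints A G = (H27.fix φ : Set G) := rfl
  have hcompl := H01.isComplement'_of_disjoint_of_sup (disjoint_iff.2 hdisj) hsup
  refine ⟨?_, hBc, hBn, ?_, ?_⟩
  · rw [hF]
    show (Nat.card (H27.fix φ)).Coprime (Nat.card G / Nat.card (H27.fix φ))
    rw [← hcompl.card_mul_card, Nat.mul_div_cancel _ Nat.card_pos]
    refine Nat.coprime_of_dvd fun p hp h1 h2 => ?_
    haveI := Fact.mk hp
    obtain ⟨x, hx⟩ := exists_prime_orderOf_dvd_card' p h1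
    have hxp : Nat.card (Subgroup.zpowers (x : G)) = p := by rw [Nat.card_zpowers, Subgroup.orderOf_coe, hx]
    obtain ⟨P, hP, hxP⟩ := sylow_superset hp (IsPGroup.of_card (n := 1) (by rw [hxp, pow_one])) le_top
    have h3 : p ∣ Nat.card (P ⊓ B : Subgroup G) :=
      IsSylowIn.dvd_card' (H01.isPiHallOf_inf_normal hP le_top (H01.le_normalizer_of_normal _ _)) hp h2
    obtain ⟨y, hy⟩ := exists_prime_orderOf_dvd_card' p h3
    have hyp : Nat.card (Subgroup.zpowers (y : G)) = p := by rw [Nat.card_zpowers, Subgroup.orderOf_coe, hy]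
    haveI : IsCyclic P := (hP.pg hp).isCyclic_of_isZGroup
    have h4 := H02.eq_of_card_eq_of_isCyclic (A := (Subgroup.zpowers (x : G)).subgroupOf P)
      (B := (Subgroup.zpowers (y : G)).subgroupOf P) (by
        rw [H01.card_subgroupOf_of_le hxP, H01.card_subgroupOf_of_le (Subgroup.zpowers_le.2 y.2.1), hxp, hyp])
    have h5 : (⟨x, hxP (Subgroup.mem_zpowers _)⟩ : P) ∈ (Subgroup.zpowers (y : G)).subgroupOf P :=
      h4 ▸ Subgroup.mem_zpowers (x : G)
    have h6 : (x : G) ∈ B ⊓ H27.fix φ := ⟨Subgroup.zpowers_le.2 y.2.2 h5, x.2⟩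
    rw [hdisj, Subgroup.mem_bot] at h6
    rw [show x = 1 from Subtype.ext h6, orderOf_one] at hx
    exact hp.one_lt.ne hx
  · rw [hF, ← Subgroup.coe_inf, hdisj, Subgroup.coe_bot]
  · rw [hF, Subgroup.closure_eq, hsup]

end Cfsg.Agent.S4117
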