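import Mathlib
import Cfsg.Statements.S4118
import Cfsg.Agent.H18.TIH
import Cfsg.Agent.H18.FC9
import Cfsg.Agent.S0205
import Cfsg.Agent.H24.PSolv

set_option autoImplicit false
open scoped Pointwise
open Cfsg

namespace Cfsg.Agent.S4118

open Subgroup

theorem aux {G : Type*} [Group G] [Finite G] {π : Set ℕ} (h0 : piCore πᶜ G = ⊥) (H : Subgroup G) [H.Normal]
    (hH : IsPiHall π H) [Group.IsSolvable H] (hz : Odd (Nat.card H) → IsZGroup H) :
    Group.IsSolvable G := by
  rcases Nat.even_or_odd (Nat.card H) with e | e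
  · haveI := S0205.result (G := G ⧸ H) (Nat.not_even_iff_odd.1 fun h =>
      hH.2 2 Nat.prime_two (hH.1 2 Nat.prime_two e.two_dvd) h.two_dvd)
    exact solvable_of_ker_le_range H.subtype (QuotientGroup.mk' H) (by simp)
  haveI := hz e
  let F := (fittingSubgroup H).map H.subtype
  haveI : IsCyclic F := (H02.isCyclic_map_subtype_iff _).2 inferInstance
  have h1 : H ⊓ centralizer (F : Set G) ≤ F := fun x hx =>
    ⟨⟨x, hx.1⟩, H02.centralizer_fitting_le H fun y hy => Subtype.ext (hx.2 y ⟨y, hy, rfl⟩), rfl⟩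
  have h3 : H01.PiNum πᶜ ((H ⊓ centralizer (F : Set G)).relIndex (centralizer (F : Set G))) := by
    rw [inf_relIndex_right]
    exact (H01.isPiHall_iff.1 hH).2.of_dvd (H01.relIndex_dvd_index_of_normal_right _ _)
  obtain ⟨D, _, -, d1, d2⟩ := H24.exists_normal_compl_of_central (Z := H ⊓ centralizer (F : Set G))
    (M := centralizer (F : Set G)) inf_le_right (h1.trans (le_centralizer_iff.1 le_rfl))
    (((H01.isPiHall_iff.1 hH).1.of_dvd (card_dvd_of_le inf_le_left)).coprime h3)
  rw [le_bot_iff.1 ((H02.le_piCore (d1 ▸ h3 : H01.PiNum πᶜ (Nat.card D))).trans h0.le), sup_bot_eq] at d2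
  haveI : Group.IsSolvable (MulAut F) := by
    letI := IsCyclic.commGroup (α := F)
    exact solvable_of_solvable_injective (f := (IsCyclic.mulAutMulEquiv F).toMonoidHom) (MulEquiv.injective _)
  refine solvable_of_ker_le_range H.subtype (MulAut.conjNormal : G →* MulAut F) fun g hg => ?_
  rw [range_subtype]
  refine (d2.ge fun x hx => ?_).1
  have : g * x * g⁻¹ = x := congrArg Subtype.val (MulEquiv.congr_fun hg ⟨x, hx⟩)
  exact (mul_inv_eq_iff_eq_mul.1 this).symm

/-- Let G be a finite group and H a non-normal subgroup meeting each of its conjugates by elements outside N_G(H) trivially, with the order of H coprime to its index in N_G(H); let π be the set of primes dividing the order of H and suppose G is π-separable (it has a chain of normal subgroups from 1 to G each of whose factors has order divisible only by primes in π or coprime to the order of H). Let O be the largest normal subgroup of G of order coprime to the order of H. Then G = O·N_G(H), O·H is normal in G, and G is solvable if and only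 if O is solvable and H has no subgroup isomorphic to SL₂(5). -/
theorem result {G : Type*} [Group G] [Finite G] (H : Subgroup G)
    (hTI : Cfsg.IsTISubset (H : Set G)) (hnn : ¬ H.Normal)
    (hHall : (Nat.card H).Coprime (H.subgroupOf (Subgroup.normalizer (H : Set G))).index)
    (hsep : ∃ (n : ℕ) (M : Fin (n + 1) → Subgroup G), M 0 = ⊥ ∧ M (Fin.last n) = ⊤ ∧ Monotone M ∧ (∀ i, (M i).Normal) ∧
      ∀ i : Fin n, (∀ q : ℕ, q.Prime → q ∣ (M i.castSucc).relIndex (M i.succ) → q ∣ Nat.card H) ∨
        ((M i.castSucc).relIndex (M i.succ)).Coprime (Nat.card H))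
    (O : Subgroup G) (hO : O = sSup {K : Subgroup G | K.Normal ∧ (Nat.card K).Coprime (Nat.card H)}) :
    O ⊔ Subgroup.normalizer (H : Set G) = ⊤ ∧ (O ⊔ H).Normal ∧
    (Group.IsSolvable G ↔ Group.IsSolvable O ∧
      ∀ K : Subgroup G, K ≤ H → ¬ Nonempty (K ≃* Matrix.SpecialLinearGroup (Fin 2) (ZMod 5))) := by
  obtain ⟨h1, h2, hF⟩ := H18.tih_main hTI hnn hHall hsep
  have h3 := H01.isPiHall_of_coprime h1
  obtain rfl : O = piCore {p | p ∣ Nat.card H}ᶜ G := by
    rw [hO, piCore]
    congr 1
    ext K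
    exact and_congr_right fun _ => ⟨fun h q hq hd hd' => hq.one_lt.ne' (Nat.eq_one_of_dvd_coprimes h hd hd'),
      fun h => (H01.PiNum.coprime h3.1 h).symm⟩
  have h4 : (piCore {p | p ∣ Nat.card H}ᶜ G ⊔ H).Normal := normalizer_eq_top_iff.1 (eq_top_iff.2 (h2.ge.trans
    (sup_le (le_sup_left.trans le_normalizer) (H01.le_normalizer_sup (H01.le_normalizer_of_normal _ _) le_rfl))))
  refine ⟨h2, h4, fun _ => ⟨inferInstance, fun K _ ⟨e⟩ => ?_⟩, fun ⟨_, h5⟩ => ?_⟩
  · haveI := solvable_of_surjective (f := e.toMonoidHom) e.surjective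
    haveI : Nontrivial (Matrix.SpecialLinearGroup (Fin 2) (ZMod 5)) := ⟨1, -1, by decide⟩
    exact Group.IsPerfect.not_isSolvable (Matrix.SpecialLinearGroup (Fin 2) (ZMod 5)) inferInstance
  haveI : Group.IsSolvable H := by
    by_contra hc
    obtain ⟨θ, a, -⟩ := hF.sl25_of_not_solvable hc
    exact h5 (H.subtype.comp θ).range (by rintro _ ⟨x, rfl⟩; exact (θ x).2)
      ⟨(MonoidHom.ofInjective (f := H.subtype.comp θ) (H.subtype_injective.comp a)).symm⟩
  let f := QuotientGroup.mk' (piCore {p | p ∣ Nat.card H}ᶜ G)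
  have hf : Function.Surjective f := QuotientGroup.mk'_surjective _
  haveI : (H.map f).Normal := by
    have := h4.map f hf
    rwa [Subgroup.map_sup, (Subgroup.map_eq_bot_iff _).2 (QuotientGroup.ker_mk' _).ge, bot_sup_eq] at this
  have hi : Function.Injective (f.subgroupMap H) := (injective_iff_map_eq_one _).2 fun x hx => Subtype.ext (mem_bot.1 (by
    rw [← inf_eq_bot_of_coprime (H01.PiNum.coprime h3.1 (H02.piCore_isPi _ G))]
    exact ⟨x.2, (QuotientGroup.eq_one_iff _).1 (congrArg Subtype.val hx)⟩))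
  let e := MulEquiv.ofBijective _ ⟨hi, f.subgroupMap_surjective H⟩
  haveI := solvable_of_surjective (f.subgroupMap_surjective H)
  haveI := aux (H02.piCore_quotient_piCore _ G) (H.map f) (H01.isPiHall_map h3 f hf)
    (fun h => (hF.of_equiv e.symm).zgroup_odd h.not_two_dvd_nat)
  exact solvable_of_ker_le_range (piCore {p | p ∣ Nat.card H}ᶜ G).subtype f (by simp [f])

end Cfsg.Agent.S4118
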