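import Mathlib
import Cfsg.Statements.S4126
import Cfsg.Agent.H03.NPC3

set_option autoImplicit false
open Cfsg

namespace Cfsg.Agent.S4126

/-- Let G be a finite group and p a prime. Suppose every element of order p, and when p = 2 also every element of order 4, has a conjugacy class of p-power size. Then G has a normal p-complement. -/
theorem result {G : Type*} [Group G] [Finite G] (p : ℕ) [Fact p.Prime]
    (h : ∀ x : G, (orderOf x = p ∨ (p = 2 ∧ orderOf x = 4)) → ∃ a : ℕ, (Subgroup.centralizer ({x} : Set G)).index = p ^ a) :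
    Cfsg.HasNormalPComplement p G := by
  obtain ⟨P⟩ : Nonempty (Sylow p G) := inferInstance
  refine H03.hasNPC_of_small_fusion P fun a ha hs g _ => ?_
  by_cases h1 : a = 1
  · exact ⟨1, one_mem _, by simp [h1]⟩
  have h2 : orderOf a = p ∨ (p = 2 ∧ orderOf a = 4) := by
    rcases hs with hs | ⟨rfl, hs⟩
    · exact Or.inl (orderOf_eq_prime hs h1)
    · by_cases h3 : a ^ 2 = 1
      · exact Or.inl (orderOf_eq_prime h3 h1)
      · exact Or.inr ⟨rfl, orderOf_eq_prime_pow (p := 2) (n := 1) h3 hs⟩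
  obtain ⟨k, hk⟩ := h a h2
  obtain ⟨u, hu, c, hc, rfl⟩ := H27.exists_mul_of_coprime_index (H := (P : Subgroup G)) (K := H27.cent a)
    (hk ▸ (H03.coprime_iff_not_dvd.mpr P.not_dvd_index).pow_right k) g
  refine ⟨u, hu, ?_⟩
  rw [show u * c * a * (u * c)⁻¹ = u * (c * a * c⁻¹) * u⁻¹ by group, H27.mem_cent_iff_conj.mp hc]

end Cfsg.Agent.S4126
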