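import Mathlib
import Cfsg.Statements.S4135
import Cfsg.Agent.S0205
import Cfsg.Agent.BG.Api4
import Cfsg.Agent.H27.ClassSize
import Cfsg.Agent.H02.MinNormal

set_option autoImplicit false
open Cfsg

namespace Cfsg.Agent.S4135

section
open BG Subgroup
variable {G : Type*} [Group G] [Finite G] {N : Subgroup G} {m : ℕ}

/-- noncentral elements of `N` have centralizer index `m` -/
def Two (N : Subgroup G) (m : ℕ) : Prop := ∀ x ∈ N, x ∉ center G → C_[x].index = m

omit [Finite G] in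
theorem cen {x : G} (h : x ∈ center G) (A : Subgroup G) : A ≤ C_[x] := fun a _ => mem_cent1.2 (mem_center_iff.1 h a)

omit [Finite G] in
theorem cen' {D : Subgroup G} (h : D ≤ center G) (A : Subgroup G) : A ≤ C_(D) :=
  le_cent_of_forall fun _ hx => cen (h hx) A

theorem Two.eq (h : Two N m) {x y : G} (hx : x ∈ N) (hy : y ∈ N) (hy' : y ∉ center G) (e : C_[x] ≤ C_[y]) :
    C_[x] = C_[y] := by
  have h1 := relIndex_mul_index e
  rw [h y hy hy', h x hx fun hc => hy' (mem_center_iff.2 fun g => mem_cent1.1 (e (cen hc ⊤ (mem_top g))))] at h1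
  refine le_antisymm e (relIndex_eq_one.1 (Nat.eq_of_mul_eq_mul_right (Nat.pos_of_ne_zero ?_) (h1.trans (one_mul m).symm)))
  exact h y hy hy' ▸ index_ne_zero_of_finite

theorem Two.key (h : Two N m) {p q : ℕ} (hp : p.Prime) (hq : q.Prime) (hpq : p ≠ q) {x y : G} (hx : x ∈ N) (hy : y ∈ N)
    (hx' : x ∉ center G) (hy' : y ∉ center G) (h1 : IsPGroup p (zpowers x)) (h2 : IsPGroup q (zpowers y))
    (e : x ∈ C_[y]) : C_[x] = C_[y] := by
  have hc := pg_coprime_ne hp hq h1 h2 hpq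
  rw [BG.card_zpowers, BG.card_zpowers] at hc
  exact (h.eq (mul_mem hx hy) hx hx' (cent1_le_of_mem_zpowers (H27.mem_zpowers_mul_of_coprime (mem_cent1.1 e) hc))).symm.trans
    (h.eq (mul_mem hx hy) hy hy' (cent1_le_of_mem_zpowers (H27.mem_zpowers_mul_of_coprime' (mem_cent1.1 e) hc)))

theorem part {K : Subgroup G} (hK : ¬ K ≤ center G) :
    ∃ s : ℕ, s.Prime ∧ ∃ w ∈ K, w ∉ center G ∧ IsPGroup s (zpowers w) := by
  by_contra hh
  push Not at hh
  refine hK (le_of_sylows fun s hs _ => (sylow_exists hs K).imp fun P hP => ⟨hP, fun w hw => by_contra fun e => ?_⟩)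
  exact hh s hs w (hP.le hw) e (pg_le (hP.pg hs) (zpowers_le.2 hw))

theorem Two.cover [N.Normal] (h : Two N m) {t : ℕ} (ht : t.Prime) (hm : ¬ t ∣ m) {b : G} (hb : b ∈ N)
    (hb' : IsPGroup t (zpowers b)) : N ≤ C_[b] := by
  obtain ⟨T, hT, hbT⟩ := sylow_superset ht hb' (zpowers_le.2 hb)
  refine le_trans ?_ (cent_le_cent1 (hbT (mem_zpowers b)))
  refine subgroupOf_eq_top.1 (H27.eq_top_of_forall_conj_mem fun x => ?_)
  obtain ⟨S, hS⟩ := sylow_exists ht (N ⊓ C_[(x : G)])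
  have h1 : IsSylowIn t S N := hS.trans_idx inf_le_left fun e => by
    by_cases hx : (x : G) ∈ center G
    · rw [inf_eq_left.2 (cen hx N), relIndex_self] at e
      exact ht.not_dvd_one e
    · have h2 := relIndex_dvd_of_norm' (H := C_[(x : G)]) (K := N) (X := ⊤) le_top le_top le_normalizer_of_normal
      rw [relIndex_top_right, h x x.2 hx] at h2
      rw [inf_relIndex_left] at e
      exact hm (e.trans h2)
  obtain ⟨g, hg, rfl⟩ := sylow_trans ht h1 hT
  refine ⟨⟨g, hg⟩, mem_subgroupOf.2 ?_⟩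
  rw [← cj_cent]
  exact conj_mem_cj g (le_cent1_iff.1 (hS.le.trans inf_le_right))

theorem Two.main [N.Normal] (h : Two N m) {q r : ℕ} (hq : q.Prime) (hr : r.Prime) (hqr : q ≠ r) {y a : G}
    (hy : y ∈ N) (ha : a ∈ N) (hy' : y ∉ center G) (ha' : a ∉ center G) (hyq : IsPGroup q (zpowers y))
    (har : IsPGroup r (zpowers a)) (hay : a ∈ C_[y]) : IsMulCommutative N := by
  have nt : ∀ A : Subgroup G, A ≤ N_(N) := fun A => le_normalizer_of_normal
  have e0 := h.key hr hq hqr.symm ha hy ha' hy' har hyq hay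
  set C := C_[y] with hC
  have hA : ∀ w ∈ N ⊓ C, w ∉ center G → C_[w] = C := fun w hw hw' => by
    obtain ⟨s, hs, v, hv, h1, h2⟩ := part (mt zpowers_le.1 hw')
    have h3 := zpowers_le.2 hw hv
    refine (h.eq hw.1 h3.1 h1 (cent1_le_of_mem_zpowers hv)).trans ?_
    by_cases e : s = q
    · exact (h.key hs hr (e ▸ hqr) h3.1 ha h1 ha' h2 har (e0 ▸ h3.2)).trans e0
    · exact h.key hs hq e h3.1 hy h1 hy' h2 hyq h3.2
  have hCA : C ≤ C_(N ⊓ C) := le_cent_of_forall fun w hw => by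
    by_cases e : w ∈ center G
    · exact cen e C
    · exact (hA w hw e).ge
  have hab : IsMulCommutative ↥(N ⊓ C) := abelian_iff.2 (inf_le_right.trans hCA)
  by_contra hN
  have hu : ∀ t : ℕ, t.Prime → ∀ b ∈ N ⊓ C, b ∉ center G → IsPGroup t (zpowers b) →
      ∃ u ∈ N_(C), u ∉ C ∧ IsPGroup t (zpowers u) := fun t ht b hb hb' hbt => by
    have h1 : t ∣ C.index := by_contra fun e => hN (inf_eq_left.2 (hA b hb hb' ▸
      h.cover ht (h y hy hy' ▸ e) hb.1 hbt) ▸ hab)
    obtain ⟨D, hD, hbD⟩ := sylow_superset ht hbt (zpowers_le.2 hb.2)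
    obtain ⟨E, hE, hDE⟩ := sylow_superset ht (hD.pg ht) (le_inf le_top (le_norm D))
    obtain ⟨u, huE, huC⟩ : ∃ u ∈ E, u ∉ C := by
      by_contra hh
      push Not at hh
      rw [hD.eq_of_pg ht (hE.pg ht) hDE hh] at hE
      exact (IsSylowIn.of_norm ht le_top hE).not_dvd' ht
        (h1.trans (by rw [relIndex_top_right]; exact index_dvd_of_le hD.le))
    have h2 : C_(N ⊓ D) = C := le_antisymm
      (hA b hb hb' ▸ cent_le_cent1 ⟨hb.1, hbD (mem_zpowers b)⟩) (hCA.trans (cent_anti (inf_le_inf_left _ hD.le)))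
    exact ⟨u, h2 ▸ norm_cent (norm_inf (nt E) (hE.le.trans inf_le_right)) huE, huC, pg_le (hE.pg ht) (zpowers_le.2 huE)⟩
  have hya : y ∈ N ⊓ C := ⟨hy, mem_cent1_self y⟩
  have haa : a ∈ N ⊓ C := ⟨ha, hay⟩
  set L := N_(C) with hL
  have hLA : L ≤ N_(N ⊓ C) := norm_inf (nt L) le_rfl
  haveI : (C.subgroupOf L).Normal := normal_subgroupOf_of_le_normalizer le_rfl
  let π := QuotientGroup.mk' (C.subgroupOf L)
  have hπ : ∀ g : L, π g = 1 ↔ (g : G) ∈ C := fun g => QuotientGroup.eq_one_iff g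
  obtain ⟨s, hs, V, hVn, hV0, hV⟩ : ∃ s : ℕ, s.Prime ∧ ∃ V : Subgroup (L ⧸ C.subgroupOf L), V.Normal ∧ V ≠ ⊥ ∧ IsPGroup s V := by
    rcases Nat.even_or_odd (Nat.card (L ⧸ C.subgroupOf L)) with h2 | h2
    swap
    · haveI := S0205.result h2
      obtain ⟨u, h3, h4, -⟩ := hu q hq y hya hy' hyq
      haveI : Nontrivial (L ⧸ C.subgroupOf L) := ⟨π ⟨u, h3⟩, 1, fun e => h4 ((hπ _).1 e)⟩
      obtain ⟨V, h5, h6, -, -, s, hs, h7⟩ := H02.exists_minimal_normal_elementary (G := L ⧸ C.subgroupOf L)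
      exact ⟨s, hs, V, h5, h6, pg_of_pow h7⟩
    haveI := Fact.mk Nat.prime_two
    obtain ⟨g, hg⟩ := exists_prime_orderOf_dvd_card' 2 h2.two_dvd
    obtain ⟨g, rfl⟩ := QuotientGroup.mk'_surjective _ g
    have g1 : (g : G) ∉ C := fun e => by rw [(hπ g).2 e] at hg; simp at hg
    have g2 : (g : G) * g ∈ C := (hπ (g * g)).1 (by rw [map_mul, ← sq, ← hg, pow_orderOf_eq_one])
    have g3 : ∀ w ∈ N ⊓ C, w * (g * w * (g : G)⁻¹) ∈ center G := fun w hw => by
      have h3 := conj_mem_of_norm (hLA g.2) hw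
      by_contra e
      refine g1 (hA _ (mul_mem hw h3) e ▸ mem_cent1.2 ?_)
      have h4 := mem_cent.1 (hCA g2) w hw
      have h5 := mul_comm_of_abelian hab hw h3
      calc g * (w * (g * w * (g : G)⁻¹)) = g * (g * w * (g : G)⁻¹ * w) := by rw [h5]
        _ = (g * g * w) * (g : G)⁻¹ * w := by group
        _ = w * g * w := by rw [← h4]; group
        _ = w * (g * w * (g : G)⁻¹) * g := by group
    have g4 : ∀ (t : ℕ) (b k : G), b ∈ N ⊓ C → b ∉ center G → IsPGroup t (zpowers b) → k * b * k⁻¹ * b⁻¹ ∈ center G →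
        ∃ j, k ^ t ^ j ∈ C := fun t b k h3 h4 h5 h6 => by
      obtain ⟨j, hj⟩ := h5 ⟨b, mem_zpowers b⟩
      have hj : b ^ t ^ j = 1 := congrArg Subtype.val hj
      refine ⟨j, hA b h3 h4 ▸ mem_cent1.2 ?_⟩
      set z := k * b * k⁻¹ * b⁻¹ with hz
      have h7 : ∀ n : ℕ, k ^ n * b = z ^ n * b * k ^ n := fun n => by
        induction n with
        | zero => simp
        | succ n ih =>
          calc k ^ (n + 1) * b = k * (z ^ n * b * k ^ n) := by rw [← ih]; group
            _ = z ^ n * (z * b * k) * k ^ n := by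
              rw [← mul_assoc, ← mul_assoc, mem_center_iff.1 (pow_mem h6 n) k, hz]; group
            _ = _ := by group
      have h8 : Commute z b := (mem_center_iff.1 h6 b).symm
      have h9 := h8.mul_pow (t ^ j)
      rw [hj, mul_one, hz, inv_mul_cancel_right, conj_pow, hj] at h9
      rw [h7, ← h9]; group
    refine ⟨2, Nat.prime_two, zpowers (π g), normalizer_eq_top_iff.1 (top_le_iff.1 (le_norm_of_cent
      (cen' (zpowers_le.2 (mem_center_iff.2 fun x => ?_)) ⊤))),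
      zpowers_ne_bot fun e => g1 ((hπ g).1 e), pg_of_card_eq ((Nat.card_zpowers _).trans hg)⟩
    obtain ⟨x, rfl⟩ := QuotientGroup.mk'_surjective _ x
    have g5 : ∀ b ∈ N ⊓ C, ((x * g * x⁻¹ * g⁻¹ : L) : G) * b * ((x * g * x⁻¹ * g⁻¹ : L) : G)⁻¹ * b⁻¹ ∈ center G := fun b hb => by
      have b1 := conj_mem_of_norm' (hLA g.2) hb
      have b2 := g3 _ b1
      have b3 := g3 _ (conj_mem_of_norm' (hLA x.2) b1)
      have b4 := (inferInstance : (center G).Normal).conj_mem _ b3 x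
      have b5 := (inferInstance : (center G).Normal).conj_mem _ (mul_mem (inv_mem b2) b4) b
      convert b5 using 1
      push_cast
      group
    obtain ⟨i, hi⟩ := g4 q y _ hya hy' hyq (g5 y hya)
    obtain ⟨j, hj⟩ := g4 r a _ haa ha' har (g5 a haa)
    have g6 : π (x * g * x⁻¹ * g⁻¹) = 1 := orderOf_eq_one_iff.1 (Nat.eq_one_of_dvd_coprimes
      (((Nat.coprime_primes hq hr).2 hqr).pow i j) (orderOf_dvd_of_pow_eq_one (by rw [← map_pow]; exact (hπ _).2 hi))
      (orderOf_dvd_of_pow_eq_one (by rw [← map_pow]; exact (hπ _).2 hj)))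
    rw [map_mul, map_mul, map_mul, map_inv, map_inv, mul_inv_eq_one, mul_inv_eq_iff_eq_mul] at g6
    exact g6
  set U := (V.comap π).map L.subtype with hU
  have hUL : U ≤ L := map_subtype_le _
  have hLU : L ≤ N_(U) := le_norm_iff.2 fun g hg _ ⟨x, hx, e⟩ => ⟨_, (hVn.comap π).conj_mem x hx ⟨g, hg⟩, e ▸ rfl⟩
  obtain ⟨S, hS⟩ := sylow_exists hs U
  have hUS : U ≤ S ⊔ C := by
    refine relIndex_eq_one.1 (by_contra fun e => ?_)
    obtain ⟨p, hp, h1⟩ := Nat.exists_prime_and_dvd e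
    have h2 : C.relIndex U = Nat.card V := by
      have h3 := relIndex_ker (V.comap π) π
      rw [map_comap_eq_self_of_surjective (QuotientGroup.mk'_surjective _), QuotientGroup.ker_mk'] at h3
      rw [hU, ← relIndex_comap]
      exact h3
    obtain rfl := pg_prime_eq hs hV hp (h2 ▸ h1.trans (relIndex_dvd_left U le_sup_right))
    exact hS.not_dvd' hp (h1.trans (relIndex_dvd_left U le_sup_left))
  have hSC : ¬ S ≤ C := fun e => hV0 (eq_bot_iff.2 fun x hx => by
    obtain ⟨x, rfl⟩ := QuotientGroup.mk'_surjective _ x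
    exact (hπ x).2 (sup_eq_right.2 e ▸ hUS ⟨x, hx, rfl⟩))
  obtain ⟨t, ht, hts, b, hb, hb', hbt⟩ : ∃ t : ℕ, t.Prime ∧ s ≠ t ∧ ∃ b ∈ N ⊓ C, b ∉ center G ∧ IsPGroup t (zpowers b) := by
    by_cases e : s = q
    · exact ⟨r, hr, e ▸ hqr, a, haa, ha', har⟩
    · exact ⟨q, hq, e, y, hya, hy', hyq⟩
  obtain ⟨u, h1, h2, h3⟩ := hu t ht b hb hb' hbt
  set K := piCoreOf {t} (N ⊓ C) with hK
  have k1 : K ≤ N ⊓ C := pcore_le _ _
  have k2 : L ≤ N_(K) := norm_pcore _ hLA
  have k3 := (hS.le.trans hUL).trans k2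
  have k4 := coprime_abelian_dprod k3 (pg_coprime_ne hs ht (hS.pg hs) (pcore_pg ht _) hts) (abelian_of_le hab k1)
  have k5 : K ⊓ C_(S) ≤ center G := fun w hw => by_contra fun e => hSC (hA w (k1 hw.1) e ▸ le_cent1_iff.2 hw.2)
  have k6 : ⁅K, U⁆ = ⁅K, S⁆ := by
    refine le_antisymm ((comm_mono le_rfl hUS).trans ?_) (comm_mono le_rfl hS.le)
    rw [comm_comm, comm_sup_cent (hCA.trans (cent_anti k1))
      (le_norm_of_cent (hCA.trans (cent_anti ((comm_le_right k3).trans k1)))), comm_comm]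
  have k7 : ⁅K, S⁆ ≠ ⊥ := fun e => hb' (k5 (by
    rw [← k4.sup, e, sup_bot_eq] at hK
    exact hK ▸ zpowers_le.1 (nil_le_pcore (nil_of_abelian hab) ((isPi_singleton ht).2 hbt) (zpowers_le.2 hb))))
  obtain ⟨w, hw, hw1⟩ := exists_mem_ne_one (pg_fix_ne_bot ht h3 (pg_le (pcore_pg ht _) (comm_le_left k3))
    (k6 ▸ (zpowers_le.2 h1).trans (norm_comm k2 hLU)) k7)
  have k8 := comm_le_left k3 hw.1
  refine h2 (hA w (k1 k8) (fun e => hw1 (eq_one_of_mem_of_disj k4.disj ⟨k8, le_cent1_iff.1 (cen e S)⟩ hw.1)) ▸ ?_)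
  exact mem_cent1_comm.1 (cent_zpowers u ▸ hw.2)

end

/-- Let G be a finite group, r a prime and R a Sylow r-subgroup of G that is not central, N a normal subgroup of G containing R, and m a natural number such that every element of N has a conjugacy class in G of size 1 or m. Then N is nilpotent. -/
theorem result {G : Type*} [Group G] [Finite G] (r : ℕ) [Fact r.Prime]
    (R : Sylow r G) (hR : ¬ (R : Subgroup G) ≤ Subgroup.center G) (N : Subgroup G) [N.Normal] (hRN : (R : Subgroup G) ≤ N)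
    (m : ℕ) (h : ∀ x ∈ N, (Subgroup.centralizer ({x} : Set G)).index = 1 ∨ (Subgroup.centralizer ({x} : Set G)).index = m) : Group.IsNilpotent N := by
  open BG Subgroup in
  have hr : r.Prime := Fact.out
  have hT : Two N m := fun x hx e => (h x hx).resolve_left fun e' =>
    e (mem_center_iff.2 fun g => mem_cent1.1 (index_eq_one.1 e' ▸ mem_top g))
  have hRs := isSylowIn_top hr R
  by_contra hN
  obtain ⟨q, hq, hqr, y, hy, hy', hyq⟩ : ∃ q : ℕ, q.Prime ∧ q ≠ r ∧ ∃ y ∈ N, y ∉ center G ∧ IsPGroup q (zpowers y) := by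
    by_contra hh
    push Not at hh
    have h1 : ∀ q : ℕ, q.Prime → q ≠ r → ∀ P, IsSylowIn q P N → P ≤ center G := fun q hq e P hP w hw =>
      by_contra fun e' => hh q hq e w (hP.le hw) e' (pg_le (hP.pg hq) (zpowers_le.2 hw))
    refine hN (nil_of_sylow_normal fun q hq _ => ?_)
    by_cases e : q = r
    · subst e
      refine ⟨R, hRs.sub hRN le_top, le_of_sylows fun s hs _ => ?_⟩
      by_cases e : s = q
      · exact ⟨R, e ▸ hRs.sub hRN le_top, le_norm _⟩
      · exact (sylow_exists hs N).imp fun P hP => ⟨hP, le_norm_of_cent (cent_symm (cen' (h1 s hs e P hP) _))⟩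
    · exact (sylow_exists hq N).imp fun P hP => ⟨hP, le_norm_of_cent (cen' (h1 q hq e P hP) _)⟩
  obtain ⟨D, hD⟩ := sylow_exists hr C_[y]
  obtain ⟨x, hx, hx'⟩ := SetLike.not_le_iff_exists.1 hR
  obtain ⟨a, ha, ha'⟩ : ∃ a ∈ D, a ∉ center G := by
    by_contra hh
    push Not at hh
    have h1 : IsPGroup r ↥(D ⊔ zpowers x) := pg_sup (hD.pg hr) (pg_le R.2 (zpowers_le.2 hx)) (le_norm_of_cent (cen' hh _))
    obtain ⟨k, hk⟩ := pg_card hr h1
    have h2 : Nat.card C_[x] = Nat.card C_[y] := Nat.eq_of_mul_eq_mul_right (Nat.pos_of_ne_zero index_ne_zero_of_finite)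
      ((card_mul_index _).trans (by rw [hT x (hRN hx) hx', ← hT y hy hy', card_mul_index]))
    have h4 : D ⊔ zpowers x ≤ C_[x] := sup_le (fun d hd => mem_cent1.2 (mem_center_iff.1 (hh d hd) x).symm)
      (zpowers_le_cent1 x)
    have h5 := BG.card_dvd h4
    rw [hk, h2] at h5
    have h3 := Nat.le_of_dvd (BG.card_pos D) (hD.pow_dvd hr h5)
    rw [← hk] at h3
    exact hx' (hh x ((BG.eq_of_le_of_card_le (le_sup_left : D ≤ D ⊔ zpowers x) h3).ge (mem_sup_right (mem_zpowers x))))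
  obtain ⟨g, -, hg⟩ := sylow_subJ hr hRs (hD.pg hr) le_top
  exact hN (nil_of_abelian (hT.main hq hr hqr hy (cj_le_of_mem_norm hRN (le_normalizer_of_normal (mem_top g)) (hg ha))
    hy' ha' hyq (pg_le (hD.pg hr) (zpowers_le.2 ha)) (hD.le ha)))

end Cfsg.Agent.S4135
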