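import Cfsg.Statements.S4139
import Mathlib
import Cfsg.Agent.H27.ClassGraph
import Cfsg.Agent.H27.PPrimeElt
-- import your own Cfsg.Agent.* helpers here

set_option autoImplicit false
open Cfsg

namespace Cfsg.Agent.S4139

open scoped Pointwise commutatorElement

theorem card_carrier {G : Type*} [Group G] (x : G) : Nat.card (ConjClasses.mk x).carrier = H27.cs x := by
  rw [← H27.card_isConj]
  exact Nat.card_congr (Equiv.subtypeEquivRight fun y => by
    rw [ConjClasses.mem_carrier_iff_mk_eq, ConjClasses.mk_eq_mk_iff_isConj, isConj_comm])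

theorem count_eq {G : Type*} [Group G] [Fintype G] (k : ℕ) :
    (Finset.univ.filter fun x : G => H27.cs x = k).card =
      k * Nat.card {C : ConjClasses G // Nat.card C.carrier = k} := by
  classical
  have h := H27.sum_card_cent (G := G) fun C => Nat.card C.carrier = k
  simp only [card_carrier] at h
  apply Nat.eq_of_mul_eq_mul_right (Nat.card_pos (α := G))
  rw [mul_assoc, ← h, Finset.mul_sum, ← smul_eq_mul, ← Finset.sum_const]
  refine Finset.sum_congr (by convert rfl) fun x hx => ?_
  rw [← (Finset.mem_filter.1 hx).2, H27.cs_mul_card_cent]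

open Classical in
theorem ncard_aux (Q : ℕ → Prop) (X : Type*) [Group X] [Finite X] (B : ℕ) (hB : Nat.card X < B) :
    Set.ncard {x : X | Q (H27.cs x)} = ∑ k ∈ (Finset.range B).filter Q,
      k * Nat.card {C : ConjClasses X // Nat.card C.carrier = k} := by
  letI := Fintype.ofFinite X
  rw [Set.ncard_eq_toFinset_card', Set.toFinset_ofPred, Finset.card_eq_sum_card_fiberwise
    (f := H27.cs) (t := (Finset.range B).filter Q) (fun x hx => by
      simpa using ⟨(Nat.le_of_dvd Nat.card_pos (H27.cs_dvd_card x)).trans_lt hB, by simpa using hx⟩)]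
  refine Finset.sum_congr rfl fun k hk => ?_
  rw [← count_eq, Finset.filter_filter]
  congr 1
  exact Finset.filter_congr fun x _ => ⟨fun h => h.2, fun h => ⟨h ▸ (Finset.mem_filter.1 hk).2, h⟩⟩

theorem ncard_eq {G H : Type*} [Group G] [Finite G] [Group H] [Finite H]
    (h : ∀ k : ℕ, Nat.card {C : ConjClasses G // Nat.card C.carrier = k} = Nat.card {C : ConjClasses H // Nat.card C.carrier = k})
    (Q : ℕ → Prop) : Set.ncard {x : G | Q (H27.cs x)} = Set.ncard {x : H | Q (H27.cs x)} := by
  rw [ncard_aux Q G (Nat.card G + Nat.card H + 1) (by omega),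
    ncard_aux Q H (Nat.card G + Nat.card H + 1) (by omega)]
  simp only [h]

theorem claim {G : Type*} [Group G] [Finite G] {p : ℕ} [hp : Fact p.Prime] (P : Sylow p G) :
    ∃ s f : ℕ, Set.ncard {x : G | ¬ p ∣ H27.cs x} =
      p ^ (Nat.card (Subgroup.center G)).factorization p * s ∧
      Nat.card (Subgroup.centralizer (P : Set G)) =
        p ^ (Nat.card (Subgroup.center G)).factorization p * f ∧ s ≡ f [MOD p] := by
  set Z := (P : Subgroup G) ⊓ Subgroup.center G with hZ
  haveI : Z.Normal := ⟨fun n hn g => by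
    rwa [Subgroup.mem_center_iff.1 hn.2 g, mul_inv_cancel_right]⟩
  have hZc : Nat.card Z = p ^ (Nat.card (Subgroup.center G)).factorization p := by
    obtain ⟨S, -, e⟩ := ((H26.isSyl_top P).inf_of_le (N := Subgroup.center G) le_top
      (H01.le_normalizer_of_normal _ _)).exists_sylow
    rw [hZ, ← e, H26.card_map_subtype, S.card_eq_multiplicity]
  letI : MulAction P (G ⧸ Z) := MulAction.compHom _
    ((MulAut.conj (G := G ⧸ Z)).comp ((QuotientGroup.mk' Z).comp (P : Subgroup G).subtype))
  have hsm : ∀ (a : P) (x : G), a • (x : G ⧸ Z) = ((a * x * (a : G)⁻¹ : G) : G ⧸ Z) := fun _ _ => rfl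
  let T : SubMulAction P (G ⧸ Z) :=
    { carrier := QuotientGroup.mk '' {x : G | ¬ p ∣ H27.cs x}
      smul_mem' := by
        rintro a _ ⟨x, hx, rfl⟩
        exact ⟨_, by rwa [Set.mem_ofPred_eq, H27.cs_conj], (hsm a x).symm⟩ }
  have hC : ∀ x ∈ Subgroup.centralizer (P : Set G), ¬ p ∣ H27.cs x := fun x hx =>
    H27.exists_sylow_le_iff.1 ⟨P, fun y hy => H27.mem_cent.2 (hx y hy)⟩
  refine ⟨Nat.card T, Nat.card (QuotientGroup.mk '' (Subgroup.centralizer (P : Set G) : Set G) :
    Set (G ⧸ Z)), ?_, ?_, ?_⟩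
  · rw [← hZc, ← Nat.card_coe_set_eq]
    refine Eq.trans ?_ (QuotientGroup.card_preimage_mk Z T)
    congr 2
    refine Set.Subset.antisymm (fun x hx => ⟨x, hx, rfl⟩) ?_
    rintro x ⟨y, hy, e⟩
    have := H27.cs_mul_center (x := y) (QuotientGroup.eq.1 e).2
    rw [mul_inv_cancel_left] at this
    rwa [Set.mem_ofPred_eq, this]
  · rw [← hZc, ← QuotientGroup.card_preimage_mk, QuotientGroup.preimage_image_mk_eq_mul,
      ← Subgroup.mul_normal, sup_eq_left.2 (inf_le_right.trans (Subgroup.center_le_centralizer _))]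
    rfl
  refine (P.isPGroup'.card_modEq_card_fixedPoints T).trans ?_
  rw [← Nat.card_image_of_injective Subtype.val_injective]
  congr! 3
  ext y
  constructor
  · rintro ⟨⟨_, x, hx, rfl⟩, h, rfl⟩
    refine ⟨x, fun a ha => ?_, rfl⟩
    set L := (H27.cent (x : G ⧸ Z)).comap (QuotientGroup.mk' Z) with hL
    have h1 : ∀ a ∈ L, ⁅a, x⁆ ∈ Z := fun a ha => by
      rw [← QuotientGroup.eq_one_iff, ← QuotientGroup.mk'_apply, map_commutatorElement,
        commutatorElement_eq_one_iff_mul_comm]
      exact H27.mem_cent.1 ha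
    let φ : L →* Z := MonoidHom.mk' (fun a => ⟨⁅(a : G), x⁆, h1 a a.2⟩) fun a b => Subtype.ext (by
      have : ⁅(a : G) * b, x⁆ = a * ⁅(b : G), x⁆ * (a : G)⁻¹ * ⁅(a : G), x⁆ := by
        simp only [commutatorElement_def]; group
      change ⁅(a : G) * b, x⁆ = ⁅(a : G), x⁆ * ⁅(b : G), x⁆
      rw [this, Subgroup.mem_center_iff.1 (h1 b b.2).2 a, mul_inv_cancel_right,
        Subgroup.mem_center_iff.1 (h1 b b.2).2])
    have h2 : φ.ker = (H27.cent x).subgroupOf L := by
      ext a
      rw [MonoidHom.mem_ker, Subgroup.mem_subgroupOf, H27.mem_cent, Subtype.ext_iff,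
        ← commutatorElement_eq_one_iff_mul_comm]
      rfl
    have h3 : (H27.cent x).relIndex L ∣ Nat.card Z := by
      rw [Subgroup.relIndex, ← h2, Subgroup.index_ker]; exact Subgroup.card_subgroup_dvd_card _
    have h4 := Nat.eq_one_of_dvd_coprimes ((hp.out.coprime_iff_not_dvd.2 hx).pow_left _) (hZc ▸ h3)
      (Subgroup.relIndex_dvd_index_of_le (Subgroup.map_le_iff_le_comap.1 (H27.map_cent_le _ x)))
    exact H27.mem_cent.1 (Subgroup.relIndex_eq_one.1 h4 (H27.mem_cent_iff_conj.2
      (congrArg Subtype.val (h ⟨a, ha⟩))))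
  · rintro ⟨x, hx, rfl⟩
    refine ⟨⟨x, x, hC x hx, rfl⟩, fun a => Subtype.ext ?_, rfl⟩
    change a • (x : G ⧸ Z) = x
    rw [hsm, hx a a.2, mul_inv_cancel_right]

/-- Let G and H be finite groups such that for every natural number k, G and H have the same number of conjugacy classes of size k. If H is nilpotent then G is nilpotent. -/
theorem result {G H : Type*} [Group G] [Finite G] [Group H] [Finite H]
    (hH : Group.IsNilpotent H)
    (h : ∀ k : ℕ, Nat.card {C : ConjClasses G // Nat.card C.carrier = k} = Nat.card {C : ConjClasses H // Nat.card C.carrier = k}) :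
    Group.IsNilpotent G := by
  have h1 : Nat.card G = Nat.card H := by simpa using ncard_eq h fun _ => True
  have h2 : Nat.card (Subgroup.center G) = Nat.card (Subgroup.center H) := by
    have := ncard_eq h fun k => k = 1
    simp only [H27.cs_eq_one_iff] at this
    exact this
  suffices key : ∀ (p : ℕ) (_ : Fact p.Prime) (P : Sylow p G), (P : Subgroup G).Normal from
    ((Group.isNilpotent_of_finite_tfae (G := G)).out 0 3).2 key
  intro p hp P
  obtain ⟨Q⟩ : Nonempty (Sylow p H) := inferInstance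
  have h3 : P.index = (Q : Subgroup H).index := by
    apply Nat.eq_of_mul_eq_mul_left (Nat.card_pos (α := (P : Subgroup G)))
    rw [Subgroup.card_mul_index, P.card_eq_multiplicity, h1, ← Q.card_eq_multiplicity,
      Subgroup.card_mul_index]
  have h4 : Set.ncard {x : H | ¬ p ∣ H27.cs x} =
      p ^ (Nat.card (Subgroup.center H)).factorization p * (Q : Subgroup H).index := by
    haveI : (Q : Subgroup H).Normal := inferInstance
    have h4 : {x : H | ¬ p ∣ H27.cs x} = Subgroup.centralizer ((Q : Subgroup H) : Set H) := by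
      ext x
      refine ⟨fun hx => ?_, fun hx => H27.exists_sylow_le_iff.1 ⟨Q, fun y hy => H27.mem_cent.2 (hx y hy)⟩⟩
      obtain ⟨g, hg⟩ := H27.exists_conj_mem_centralizer_sylow Q hx
      simpa [mul_assoc] using (inferInstance : (Subgroup.centralizer
        ((Q : Subgroup H) : Set H)).Normal).conj_mem _ hg g
    have h5 : Subgroup.centralizer ((Q : Subgroup H) : Set H) ⊔ Q = ⊤ := by
      refine top_le_iff.1 (H27.le_of_sylow_le_of_coprime Q le_top le_sup_right fun g _ hg => ?_)
      haveI : Group.IsNilpotent (⊤ : Subgroup H) := inferInstance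
      exact Subgroup.mem_sup_left (H27.centralizer_of_coprime_of_nilpotent (M := ⊤) Q.isPGroup'
        le_top (Subgroup.mem_top g) hg)
    have h6 : Subgroup.centralizer ((Q : Subgroup H) : Set H) ⊓ Q = (Q : Subgroup H) ⊓ Subgroup.center H := by
      refine le_antisymm (fun x hx => ⟨hx.2, H27.cent_eq_top_iff.1 ?_⟩)
        fun x hx => ⟨Subgroup.center_le_centralizer _ hx.2, hx.1⟩
      exact top_le_iff.1 (h5 ▸ sup_le (fun y hy => H27.mem_cent.2 (hy x hx.2).symm)
        fun y hy => H27.mem_cent.2 (hx.1 y hy))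
    have h7 := H01.card_sup_mul_card_inf (Subgroup.centralizer ((Q : Subgroup H) : Set H)) Q
    obtain ⟨S, -, e⟩ := ((H26.isSyl_top Q).inf_of_le (N := Subgroup.center H) le_top
      (H01.le_normalizer_of_normal _ _)).exists_sylow
    rw [h5, h6, ← e, H26.card_map_subtype, S.card_eq_multiplicity, Subgroup.card_top,
      ← (Q : Subgroup H).index_mul_card, mul_right_comm] at h7
    rw [h4, ← Nat.card_coe_set_eq, mul_comm]
    exact (Nat.eq_of_mul_eq_mul_right Nat.card_pos h7).symm
  obtain ⟨s, f, h5, h6, h7⟩ := claim P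
  have h8 := ncard_eq h fun k => ¬ p ∣ k
  rw [h4, ← h2, ← h3, h5] at h8
  obtain rfl := Nat.eq_of_mul_eq_mul_left (pow_pos hp.out.pos _) h8
  have h9 : ¬ p ∣ f := fun hd => P.not_dvd_index ((h7.dvd_iff dvd_rfl).2 hd)
  have h10 : Nat.card (P : Subgroup G) * f ∣ Nat.card (Subgroup.normalizer (P : Set G)) := by
    refine Nat.Coprime.mul_dvd_of_dvd_of_dvd ?_ (Subgroup.card_dvd_of_le Subgroup.le_normalizer)
      ((Dvd.intro_left _ h6.symm).trans (Subgroup.card_dvd_of_le (Subgroup.centralizer_le_normalizer _)))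
    rw [P.card_eq_multiplicity]
    exact (hp.out.coprime_iff_not_dvd.2 h9).pow_left _
  have h11 : (Subgroup.normalizer (P : Set G)).index * f ≤ P.index := by
    apply Nat.le_of_mul_le_mul_left _ (Nat.card_pos (α := (P : Subgroup G)))
    rw [Subgroup.card_mul_index, ← (Subgroup.normalizer (P : Set G)).index_mul_card, mul_left_comm]
    exact Nat.mul_le_mul_left _ (Nat.le_of_dvd Nat.card_pos h10)
  have h12 := H27.ncard_conj_union_le (C := Subgroup.centralizer (P : Set G))
    (N := Subgroup.normalizer (P : Set G)) (H01.le_normalizer_centralizer (X := (P : Subgroup G)) le_rfl)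
  have h13 : Set.ncard {x : G | ¬ p ∣ H27.cs x} ≤
      Set.ncard {x : G | ∃ g : G, g⁻¹ * x * g ∈ Subgroup.centralizer (P : Set G)} :=
    Set.ncard_le_ncard fun x hx => H27.exists_conj_mem_centralizer_sylow P hx
  rw [h6, mul_left_comm] at h12
  have h14 := Nat.mul_le_mul_left (p ^ (Nat.card (Subgroup.center G)).factorization p) h11
  have h15 : (Subgroup.normalizer (P : Set G)).index ≠ 0 := Subgroup.index_ne_zero_of_finite
  exact Subgroup.normalizer_eq_top_iff.1 (Subgroup.index_eq_one.1 (by
    change (Subgroup.normalizer (P : Set G)).index = 1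
    omega))

end Cfsg.Agent.S4139
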