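import Cfsg.Statements.S4142
import Mathlib
import Cfsg.Agent.H27.ClassSize
-- import your own Cfsg.Agent.* helpers here

set_option autoImplicit false
open Cfsg

namespace Cfsg.Agent.S4142

open scoped Pointwise commutatorElement

theorem key {G : Type*} [Group G] [Finite G] (N : Subgroup G) [N.Normal] (g : G) :
    (∀ n ∈ N, ∃ x : G, x * g * x⁻¹ = g * n) ↔ Nat.card (Subgroup.centralizer ({g} : Set G)) =
        Nat.card (Subgroup.centralizer ({(QuotientGroup.mk g : G ⧸ N)} : Set (G ⧸ N))) := by
  set D := (H27.cent (g : G ⧸ N)).comap (QuotientGroup.mk' N) with hD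
  have hDm : ∀ x, x ∈ D ↔ g⁻¹ * (x * g * x⁻¹) ∈ N := by
    intro x
    rw [hD, Subgroup.mem_comap, H27.mem_cent_iff_conj, ← QuotientGroup.eq, eq_comm]
    rfl
  have hle : H27.cent g ≤ D := by
    intro x hx
    rw [hDm, H27.mem_cent_iff_conj.1 hx]; simp
  have h1 : Nat.card D = Nat.card (H27.cent (g : G ⧸ N)) * Nat.card N := by
    rw [hD, H02.card_comap_mk']
  have h2 : (H27.cent g).relIndex D * Nat.card (H27.cent g) = Nat.card D := by
    rw [Subgroup.relIndex, ← H02.card_subgroupOf_of_le hle, Subgroup.index_mul_card]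
  rw [← H27.card_orbit_eq_relIndex] at h2
  let f : {y : G // ∃ h ∈ D, h * g * h⁻¹ = y} → N := fun y => ⟨g⁻¹ * y, by
    obtain ⟨h, hh, e⟩ := y.2
    rw [← e]; exact (hDm h).1 hh⟩
  have hf : Function.Injective f := by
    intro a b hab
    have : g⁻¹ * a.1 = g⁻¹ * b.1 := Subtype.ext_iff.1 hab
    exact Subtype.ext (mul_left_cancel this)
  constructor
  · intro h
    have hs : Function.Surjective f := by
      intro n
      obtain ⟨x, hx⟩ := h n n.2
      refine ⟨⟨g * n, x, (hDm x).2 (by rw [hx]; simp), hx⟩, Subtype.ext ?_⟩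
      simp [f]
    rw [Nat.card_congr (Equiv.ofBijective f ⟨hf, hs⟩), h1, mul_comm] at h2
    exact Nat.eq_of_mul_eq_mul_right Nat.card_pos h2
  · intro h n hn
    rw [h1, ← h, mul_comm] at h2
    have h3 := Nat.eq_of_mul_eq_mul_left Nat.card_pos h2
    obtain ⟨⟨y, x, hx, e⟩, hy⟩ := ((Nat.bijective_iff_injective_and_card f).2 ⟨hf, h3⟩).2 ⟨n, hn⟩
    refine ⟨x, ?_⟩
    have : g⁻¹ * y = n := Subtype.ext_iff.1 hy
    rw [e, ← this]; simp

/-- Let G be a finite group and N a normal subgroup. Then the conjugacy class of every element g outside N is a union of cosets of N (gn is conjugate to g for all n ∈ N) if and only if for every g outside N the centralizer of g in G has the same order as the centralizer of gN in G/N. -/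
theorem result {G : Type*} [Group G] [Finite G] (N : Subgroup G) [N.Normal] :
    (∀ g : G, g ∉ N → ∀ n ∈ N, ∃ x : G, x * g * x⁻¹ = g * n) ↔
      ∀ g : G, g ∉ N → Nat.card (Subgroup.centralizer ({g} : Set G)) =
        Nat.card (Subgroup.centralizer ({(QuotientGroup.mk g : G ⧸ N)} : Set (G ⧸ N))) := by
  exact forall_congr' fun g => forall_congr' fun _ => key N g

end Cfsg.Agent.S4142
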