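import Mathlib
import Cfsg.Statements.S4145
import Cfsg.Agent.H03.NPC3

set_option autoImplicit false
open Cfsg

namespace Cfsg.Agent.S4145

/-- Let G be a finite group with a cyclic Sylow p-subgroup and H a normal subgroup such that p divides both the order of H and the index of H. Then H has a normal p-complement and G is p-solvable. -/
theorem result {G : Type*} [Group G] [Finite G] (p : ℕ) [Fact p.Prime]
    (P : Sylow p G) (hP : IsCyclic (P : Subgroup G)) (H : Subgroup G) [H.Normal] (h1 : p ∣ Nat.card H) (h2 : p ∣ H.index) :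
    Cfsg.HasNormalPComplement p H ∧ Cfsg.IsPSolvable p G := by
  have hp : p.Prime := Fact.out
  have hN : Cfsg.HasNormalPComplement p H := by
    refine H03.hasNPC_of_inf_le_frattini P H ?_
    have hne : ¬ (P : Subgroup G) ≤ H := fun h => H03.not_dvd_index_of_le P h h2
    rcases H03.le_or_le_of_cyclic P.2 hP (inf_le_right : H ⊓ (P : Subgroup G) ≤ P)
      (Subgroup.map_subtype_le (frattini (P : Subgroup G))) with h | h
    · exact h
    obtain ⟨y, hy⟩ := hP.exists_generator
    rintro x ⟨hxH, hxP⟩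
    obtain ⟨k, hk⟩ := (mem_powers_iff_mem_zpowers.mpr (hy ⟨x, hxP⟩))
    have hk' : (y : G) ^ k = x := congrArg Subtype.val hk
    by_cases hd : p ∣ k
    · obtain ⟨j, rfl⟩ := hd
      rw [← hk', mul_comm, pow_mul]
      exact H04.pow_mem_map_frattini P.2 (pow_mem y.2 j)
    · refine absurd (fun z hz => ?_) hne
      obtain ⟨n, hn⟩ := H27.orderOf_of_mem_pGroup P.2 y.2
      have : (y : G) ∈ H := H03.mem_of_pow_mem_of_coprime (hk' ▸ hxH)
        (hn ▸ ((Nat.Prime.coprime_iff_not_dvd hp).mpr hd).pow_left n)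
      obtain ⟨i, hi⟩ := hy ⟨z, hz⟩
      rw [← show (y : G) ^ i = z from congrArg Subtype.val hi]
      exact zpow_mem this i
  refine ⟨hN, ?_⟩
  set K : Subgroup G := (Cfsg.pResidual p H).map H.subtype
  have hK : (Nat.card K).Coprime p := by
    rw [Subgroup.card_subtype]; exact H03.hasNPC_iff_coprime.mp hN
  refine H24.PS.ext K (H24.PS.of_coprime hK) ?_
  have hs := QuotientGroup.mk'_surjective K
  have := Subgroup.Normal.map ‹H.Normal› _ hs
  refine H03.pSolvable_of_cyclic_sylow (P.mapSurjective hs) ?_ (H.map (QuotientGroup.mk' K)) ?_ ?_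
  · exact isCyclic_of_surjective _ ((QuotientGroup.mk' K).subgroupMap_surjective P)
  · rintro ⟨_, x, hx, rfl⟩
    obtain ⟨k, hk⟩ := H03.isPGroup_quotient_pResidual (p := p) (G := H) (QuotientGroup.mk ⟨x, hx⟩)
    refine ⟨k, Subtype.ext ?_⟩
    rw [← QuotientGroup.mk_pow, QuotientGroup.eq_one_iff] at hk
    exact (QuotientGroup.eq_one_iff _).mpr ⟨_, hk, rfl⟩
  · intro h
    rw [Subgroup.map_eq_bot_iff, QuotientGroup.ker_mk'] at h
    exact H03.coprime_iff_not_dvd.mp hK (h1.trans (Subgroup.card_dvd_of_le h))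

end Cfsg.Agent.S4145
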