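import Mathlib
import Cfsg.Statements.S4150
import Cfsg.Agent.H16.TwinCyc
import Cfsg.Agent.H16.Bertrand3

set_option autoImplicit false
open Cfsg

namespace Cfsg.Agent.S4150

open Equiv Equiv.Perm MulAction H16.Twin

theorem core {β : Type*} [Fintype β] [DecidableEq β] {x y : Perm β} {p q : ℕ} (hp : p.Prime)
    (hq : q.Prime) (hx : orderOf x = p) (hy : orderOf y = q) (hxa : x ∈ alternatingGroup β)
    (hya : y ∈ alternatingGroup β) (hcov : ∀ i, x i ≠ i ∨ y i ≠ i) (hpq : p < q)
    (hd : Fintype.card β < p + q) (h5 : 5 ≤ q)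
    (hcase : q ≤ Fintype.card β → q + 3 ≤ Fintype.card β ∨
      (Fintype.card β < 2 * p ∧ p + 3 ≤ Fintype.card β) ∨ (p = 3 ∧ Fintype.card β < 6) ∨
      (q = 5 ∧ Fintype.card β = 6) ∨ (p = 5 ∧ Fintype.card β = 7) ∨
      (p = 11 ∧ Fintype.card β = 13)) :
    ∃ d : ℕ, 5 ≤ d ∧
      Nonempty (Subgroup.closure ({x, y} : Set (Perm β)) ≃* alternatingGroup (Fin d)) := by
  set G := Subgroup.closure ({x, y} : Set (Perm β)) with hG
  have hxG : x ∈ G := Subgroup.subset_closure (by simp)
  have hyG : y ∈ G := Subgroup.subset_closure (by simp)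
  have hA : G ≤ alternatingGroup β := by
    rw [hG, Subgroup.closure_le]
    rintro _ (rfl | rfl) <;> assumption
  have hyc : y.IsCycle := isCycle_of_prime_order' (hy ▸ hq) (by omega)
  have hys : y.support.card = q := by rw [← hyc.orderOf, hy]
  have hqd : q ≤ Fintype.card β := hys ▸ y.support.card_le_univ
  have h1 : ∀ i, ∃ g : G, y (g • i) ≠ g • i := by
    intro i
    by_contra h
    push Not at h
    have hxi : x i ≠ i := (hcov i).resolve_right (by simpa using h 1)
    let Z := Subgroup.zpowers x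
    have h2 : (stabilizer Z i).index ∣ p := by
      rw [← hx, ← Nat.card_zpowers]; exact Subgroup.index_dvd_card _
    have h3 : (stabilizer Z i).index = p := by
      refine ((Nat.dvd_prime hp).1 h2).resolve_left fun e => ?_
      rw [Subgroup.index_eq_one] at e
      have : (⟨x, Subgroup.mem_zpowers x⟩ : Z) ∈ stabilizer Z i := e ▸ Subgroup.mem_top _
      exact hxi this
    have h4 : orbit Z i ⊆ ((y.supportᶜ : Finset β) : Set β) := by
      rintro _ ⟨a, rfl⟩
      have := h ⟨a.1, (Subgroup.zpowers_le.2 hxG) a.2⟩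
      rw [Finset.mem_coe, Finset.mem_compl, notMem_support]
      exact this
    have h6 := Set.ncard_le_ncard h4
    rw [← index_stabilizer, h3, Set.ncard_coe_finset, Finset.card_compl] at h6
    omega
  haveI : IsPretransitive G β := ⟨fun i j => by
    obtain ⟨g, hg⟩ := h1 i
    obtain ⟨h, hh⟩ := h1 j
    obtain ⟨k, hk⟩ := hyc.exists_zpow_eq hg hh
    refine ⟨h⁻¹ * ⟨y ^ k, G.zpow_mem hyG k⟩ * g, ?_⟩
    rw [mul_smul, mul_smul, inv_smul_eq_iff]
    exact hk⟩
  have hprim : IsPreprimitive G β := prim_of_cycle hyc (hys ▸ hq) hyG (by omega)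
  have fin : alternatingGroup β ≤ G → ∃ d : ℕ, 5 ≤ d ∧ Nonempty (G ≃* alternatingGroup (Fin d)) :=
    fun h => ⟨Fintype.card β, by omega, ⟨(MulEquiv.subgroupCongr (le_antisymm hA h)).trans
      (Fintype.equivFin β).altCongrHom⟩⟩
  have hxc : Fintype.card β < 2 * p → x.IsCycle ∧ x.support.card = p := fun h => by
    have := isCycle_of_prime_order' (hx ▸ hp) (by omega : Fintype.card β < 2 * orderOf x)
    exact ⟨this, by rw [← this.orderOf, hx]⟩
  rcases hcase hqd with h | ⟨h, h'⟩ | ⟨h, h'⟩ | ⟨h, h'⟩ | ⟨h, h'⟩ | ⟨h, h'⟩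
  · exact fin (S0713.result G hprim hq (by omega) h hyc hys hyG)
  · exact fin (S0713.result G hprim hp (by omega) h' (hxc h).1 (hxc h).2 hxG)
  · exact fin (alternatingGroup_le_of_isPreprimitive_of_isThreeCycle_mem hprim
      (card_support_eq_three_iff.1 ((hxc (by omega)).2.trans h)) hxG)
  · rcases deg6 h' hA hprim hyc (hys.trans h) hyG with h | h
    · exact fin h
    · exact ⟨5, le_rfl, h⟩
  · exact fin (deg7 h' hA hprim (hxc (by omega)).1 ((hxc (by omega)).2.trans h) hxG)
  · exact fin (deg13 h' hA hprim (hxc (by omega)).1 ((hxc (by omega)).2.trans h) hxG)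

theorem main {m p q : ℕ} (hp : p.Prime) (hq : q.Prime) (hpq : p < q) (hd : m < p + q) (h5 : 5 ≤ q)
    (hcase : ∀ d, d ≤ m → q ≤ d → q + 3 ≤ d ∨ (d < 2 * p ∧ p + 3 ≤ d) ∨ (p = 3 ∧ d < 6) ∨
      (q = 5 ∧ d = 6) ∨ (p = 5 ∧ d = 7) ∨ (p = 11 ∧ d = 13))
    (x y : alternatingGroup (Fin m)) (hx : orderOf x = p) (hy : orderOf y = q) :
    ∃ d : ℕ, 5 ≤ d ∧ Nonempty (Subgroup.closure ({x, y} : Set (alternatingGroup (Fin m))) ≃*
      alternatingGroup (Fin d)) := by
  classical
  let P : Fin m → Prop := fun i => x.1 i ≠ i ∨ y.1 i ≠ i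
  have key : ∀ σ : Perm (Fin m), (∀ i, σ i ≠ i → P i) → ∀ i, P (σ i) ↔ P i := by
    intro σ hσ i
    by_cases h : σ i = i
    · rw [h]
    · exact iff_of_true (hσ _ fun e => h (σ.injective e)) (hσ _ h)
  have hx1 : ∀ i, x.1 i ≠ i → P i := fun i h => Or.inl h
  have hy1 : ∀ i, y.1 i ≠ i → P i := fun i h => Or.inr h
  let x' : Perm (Subtype P) := x.1.subtypePerm (key _ hx1)
  let y' : Perm (Subtype P) := y.1.subtypePerm (key _ hy1)
  have ex : ofSubtype x' = x.1 := ofSubtype_subtypePerm _ hx1
  have ey : ofSubtype y' = y.1 := ofSubtype_subtypePerm _ hy1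
  have hinj : Function.Injective (ofSubtype : Perm (Subtype P) →* Perm (Fin m)) :=
    ofSubtype_injective
  have hc : Fintype.card (Subtype P) ≤ m := by
    simpa using Fintype.card_subtype_le P
  obtain ⟨d, hd5, ⟨e⟩⟩ := core (x := x') (y := y') hp hq
    (by rw [← orderOf_injective _ hinj, ex, Subgroup.orderOf_coe, hx])
    (by rw [← orderOf_injective _ hinj, ey, Subgroup.orderOf_coe, hy])
    (by rw [mem_alternatingGroup, ← sign_ofSubtype, ex]; exact x.2)
    (by rw [mem_alternatingGroup, ← sign_ofSubtype, ey]; exact y.2)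
    (fun i => i.2.imp (fun h e => h (congrArg Subtype.val e)) (fun h e => h (congrArg Subtype.val e)))
    hpq (by omega) h5 (hcase _ hc)
  refine ⟨d, hd5, ⟨MulEquiv.trans ?_ e⟩⟩
  refine ((Subgroup.closure _).equivMapOfInjective _ (alternatingGroup (Fin m)).subtype_injective).trans
    (MulEquiv.trans (MulEquiv.subgroupCongr ?_) ((Subgroup.closure _).equivMapOfInjective _ hinj).symm)
  rw [MonoidHom.map_closure, MonoidHom.map_closure, Set.image_pair, Set.image_pair, ex, ey]
  rfl

/-- Let m ≥ 5. Then there are primes p < q with m/2 ≤ p and q ≤ m such that any two elements x, y of the alternating group of degree m with x of order p and y of order q generate a subgroup isomorphic to an alternating group of some degree d ≥ 5. -/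
theorem result (m : ℕ) (hm : 5 ≤ m) :
    ∃ p q : ℕ, p.Prime ∧ q.Prime ∧ m ≤ 2 * p ∧ p < q ∧ q ≤ m ∧
      ∀ x y : alternatingGroup (Fin m), orderOf x = p → orderOf y = q →
        ∃ d : ℕ, 5 ≤ d ∧ Nonempty (Subgroup.closure ({x, y} : Set (alternatingGroup (Fin m))) ≃* alternatingGroup (Fin d)) := by
  by_cases h : m ≤ 6
  · exact ⟨3, 5, by norm_num, by norm_num, by omega, by omega, by omega,
      main (by norm_num) (by norm_num) (by omega) (by omega) (by omega) (by omega)⟩
  by_cases h : m ≤ 10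
  · exact ⟨5, 7, by norm_num, by norm_num, by omega, by omega, by omega,
      main (by norm_num) (by norm_num) (by omega) (by omega) (by omega) (by omega)⟩
  by_cases h : m ≤ 13
  · exact ⟨7, 11, by norm_num, by norm_num, by omega, by omega, by omega,
      main (by norm_num) (by norm_num) (by omega) (by omega) (by omega) (by omega)⟩
  by_cases h : m ≤ 16
  · exact ⟨11, 13, by norm_num, by norm_num, by omega, by omega, by omega,
      main (by norm_num) (by norm_num) (by omega) (by omega) (by omega) (by omega)⟩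
  obtain ⟨p, q, hp, hq, h1, h2, h3⟩ := H16.exists_two_primes (m := m) (by omega)
  exact ⟨p, q, hp, hq, by omega, by omega, h3,
    main hp hq (by omega) (by omega) (by omega) (by omega)⟩

end Cfsg.Agent.S4150
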