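import Mathlib
import Cfsg.Statements.S4151
import Cfsg.Agent.H18.TIH
import Cfsg.Agent.S4117

set_option autoImplicit false
open scoped Pointwise
open Cfsg

namespace Cfsg.Agent.S4151

open Subgroup

/-- Let G be a finite group and H a non-normal subgroup meeting each of its conjugates by elements outside N_G(H) trivially, with the order of H coprime to its index in N_G(H), such that G is π-separable for π the set of primes dividing the order of H (G has a chain of normal subgroups from 1 to G each of whose factors has order divisible only by primes dividing the order of H or coprime to it). Suppose a Sylow 2-subgroup of H is abelian and Q is a complement of H in N_G(H). Then C_H(Q), the subgroup of elements of H commuting with Q, has order coprime to its index in G and has a normal complement in G. -/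
theorem result {G : Type*} [Group G] [Finite G] (H : Subgroup G)
    (hTI : Cfsg.IsTISubset (H : Set G)) (hnn : ¬ H.Normal)
    (hHall : (Nat.card H).Coprime (H.subgroupOf (Subgroup.normalizer (H : Set G))).index)
    (hsep : ∃ (n : ℕ) (M : Fin (n + 1) → Subgroup G), M 0 = ⊥ ∧ M (Fin.last n) = ⊤ ∧ Monotone M ∧ (∀ i, (M i).Normal) ∧
      ∀ i : Fin n, (∀ q : ℕ, q.Prime → q ∣ (M i.castSucc).relIndex (M i.succ) → q ∣ Nat.card H) ∨
        ((M i.castSucc).relIndex (M i.succ)).Coprime (Nat.card H))
    (h2 : ∀ P : Sylow 2 H, IsMulCommutative (P : Subgroup H))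
    (Q : Subgroup G) (hQ : Q ≤ Subgroup.normalizer (H : Set G)) (hQH : Q ⊓ H = ⊥) (hQH' : Q ⊔ H = Subgroup.normalizer (H : Set G)) :
    (Nat.card ↥(H ⊓ Subgroup.centralizer (Q : Set G))).Coprime (H ⊓ Subgroup.centralizer (Q : Set G)).index ∧
    ∃ N : Subgroup G, N.Normal ∧ N.IsComplement' (H ⊓ Subgroup.centralizer (Q : Set G)) := by
  obtain ⟨h1, h3, hF⟩ := H18.tih_main hTI hnn hHall hsep
  have h4 := H01.isPiHall_of_coprime h1
  obtain ⟨O, hO⟩ : ∃ O, O = piCore {p | p ∣ Nat.card H}ᶜ G := ⟨_, rfl⟩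
  haveI : O.Normal := hO ▸ inferInstance
  have hc : (Nat.card H).Coprime (Nat.card O) := H01.PiNum.coprime h4.1 (hO ▸ H02.piCore_isPi _ G)
  rw [← hO, ← hQH'] at h3
  haveI := hF.zgroup fun P hP => by
    obtain ⟨S, hS⟩ := hP.exists_le_sylow
    exact hF.isCyclic_of_comm P fun a ha b hb => congrArg Subtype.val ((h2 S).is_comm.comm ⟨a, hS ha⟩ ⟨b, hS hb⟩)
  have hQc : (Nat.card Q).Coprime (Nat.card H) := by
    have := (H01.isComplement'_subgroupOf_sup hQ (disjoint_iff.2 ((inf_comm _ _).trans hQH))).symm.index_eq_card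
    rw [H01.card_subgroupOf_of_le le_sup_left, hQH'] at this
    exact this ▸ hHall.symm
  letI : MulDistribMulAction Q H := MulDistribMulAction.compHom H (H.normalizerMonoidHom.comp (inclusion hQ))
  have hs : ∀ (a : Q) (x : H), ((a • x : H) : G) = a * x * (a : G)⁻¹ := fun _ _ => rfl
  obtain ⟨k1, -, k2, k3, k4⟩ := S4117.result (G := H) (A := Q) hQc fun _ _ _ => inferInstance
  obtain ⟨B, hB⟩ : ∃ B, B = closure {y : H | ∃ (a : Q) (g : H), y = g⁻¹ * a • g} := ⟨_, rfl⟩
  have hB' : ∀ (a : Q) (g : H), g⁻¹ * a • g ∈ B := fun a g => hB ▸ subset_closure ⟨a, g, rfl⟩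
  obtain ⟨C, hC⟩ : ∃ C, C = H ⊓ centralizer (Q : Set G) := ⟨_, rfl⟩
  have hCH : C ≤ H := hC.le.trans inf_le_left
  have hCQ : C ≤ centralizer (Q : Set G) := hC.le.trans inf_le_right
  have hf : MulAction.fixedPoints Q H = C.subgroupOf H := by
    ext x
    simp only [hC, MulAction.mem_fixedPoints, SetLike.mem_coe, mem_subgroupOf, mem_inf, x.2, true_and,
      mem_centralizer_iff, Subtype.ext_iff, hs, mul_inv_eq_iff_eq_mul, Subtype.forall]
  rw [← hB, hf] at k3 k4
  rw [← hB] at k2
  rw [hf] at k1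
  rw [← hC]
  have k5 : B.IsComplement' (C.subgroupOf H) :=
    H01.isComplement'_of_disjoint_of_sup (disjoint_iff.2 (SetLike.coe_injective k3)) (by rwa [closure_eq] at k4)
  replace k1 : (Nat.card C).Coprime (Nat.card B) := by
    change (Nat.card (C.subgroupOf H)).Coprime (_ / Nat.card (C.subgroupOf H)) at k1
    rwa [← k5.card_mul_card, Nat.mul_div_cancel _ Nat.card_pos, H01.card_subgroupOf_of_le hCH] at k1
  have k6 : B.map H.subtype ⊔ C = H := by
    have := congrArg (map H.subtype) k5.sup_eq_top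
    rwa [Subgroup.map_sup, subgroupOf_map_subtype, inf_eq_left.2 hCH, ← MonoidHom.range_eq_map, range_subtype] at this
  have k7 : Q ≤ normalizer (B.map H.subtype : Set G) := H01.le_normalizer_of_conj_mem (by
    rintro a ha _ ⟨x, hx, rfl⟩
    exact ⟨_, mul_mem hx (hB' ⟨a, ha⟩ x), by simp [hs]⟩)
  have k8 : Q ⊔ B.map H.subtype ⊔ O ⊔ C = ⊤ := eq_top_iff.2 (h3.ge.trans (sup_le (le_sup_right.trans le_sup_left)
    (sup_le (le_sup_left.trans (le_sup_left.trans le_sup_left))
      (k6.ge.trans (sup_le_sup_right (le_sup_right.trans le_sup_left) _)))))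
  have hd := card_dvd_of_le hCH
  have k9 : (Q ⊔ B.map H.subtype ⊔ O).Normal := normalizer_eq_top_iff.1 (eq_top_iff.2 (k8.ge.trans (sup_le le_normalizer
    (H01.le_normalizer_sup (H01.le_normalizer_sup (hCQ.trans (centralizer_le_normalizer _))
      (hCH.trans (H01.le_normalizer_of_conj_mem (by
        rintro a ha _ ⟨x, hx, rfl⟩
        exact ⟨_, k2.conj_mem x hx ⟨a, ha⟩, rfl⟩)))) (H01.le_normalizer_of_normal _ _)))))
  refine ⟨?_, Q ⊔ B.map H.subtype ⊔ O, k9, ?_⟩
  · rw [← relIndex_mul_index hCH, relIndex, k5.index_eq_card]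
    exact k1.mul_right (h1.coprime_dvd_left hd)
  · refine H01.isComplement'_of_disjoint_of_sup (disjoint_of_coprime_natCard (Nat.Coprime.coprime_dvd_left
      ((H01.card_sup_dvd_of_le_normalizer (H01.le_normalizer_of_normal _ _)).trans
        (Nat.mul_dvd_mul_right (H01.card_sup_dvd_of_le_normalizer k7) _)) ?_)) k8
    rw [card_subtype]
    exact ((hQc.coprime_dvd_right hd).mul_left k1.symm).mul_left (hc.coprime_dvd_left hd).symm

end Cfsg.Agent.S4151
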