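import Cfsg.Statements.S4153
import Mathlib
import Cfsg.Agent.H27.ClassSize
import Cfsg.Agent.H21.PPart
import Cfsg.Agent.H19.SylowCount
-- import your own Cfsg.Agent.* helpers here

set_option autoImplicit false
open Cfsg

namespace Cfsg.Agent.S4153

open scoped Pointwise commutatorElement

/-- Let G be a finite group, p a prime, N a normal subgroup, P a Sylow p-subgroup of G and P̄ a Sylow p-subgroup of G/N. Count the elements of p-power order, the identity included. Then (number of such elements of G/N)/#P̄ ≤ (number of such elements of G)/#P, stated as a cross-multiplied inequality, with equality when N is central. -/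
theorem result {G : Type*} [Group G] [Finite G] (p : ℕ) [Fact p.Prime] (N : Subgroup G) [N.Normal]
    (P : Sylow p G) (Pbar : Sylow p (G ⧸ N)) :
    Nat.card {g : (G ⧸ N) // ∃ k : ℕ, orderOf g = p ^ k} * Nat.card (P : Subgroup G) ≤ Nat.card {g : G // ∃ k : ℕ, orderOf g = p ^ k} * Nat.card (Pbar : Subgroup (G ⧸ N)) ∧
    (N ≤ Subgroup.center G → Nat.card {g : (G ⧸ N) // ∃ k : ℕ, orderOf g = p ^ k} * Nat.card (P : Subgroup G) = Nat.card {g : G // ∃ k : ℕ, orderOf g = p ^ k} * Nat.card (Pbar : Subgroup (G ⧸ N))) := by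
  classical
  let π := QuotientGroup.mk' N
  let f : {g : G // ∃ k : ℕ, orderOf g = p ^ k} → {g : (G ⧸ N) // ∃ k : ℕ, orderOf g = p ^ k} :=
    fun g => ⟨π g, by
      obtain ⟨k, hk⟩ := g.2
      obtain ⟨j, -, hj⟩ := (Nat.dvd_prime_pow Fact.out).1 (hk ▸ orderOf_map_dvd π g)
      exact ⟨j, hj⟩⟩
  haveI := Fintype.ofFinite {g : (G ⧸ N) // ∃ k : ℕ, orderOf g = p ^ k}
  have hsum : Nat.card {g : G // ∃ k : ℕ, orderOf g = p ^ k} = ∑ q, Nat.card {g // f g = q} := by
    rw [← Nat.card_sigma, Nat.card_congr (Equiv.sigmaFiberEquiv f)]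
  set m := Nat.card ((P : Subgroup G) ⊓ N : Subgroup G) with hm
  have hP : Nat.card (P : Subgroup G) = Nat.card (Pbar : Subgroup (G ⧸ N)) * m := by
    rw [H19.sylow_card_eq Pbar (P.mapSurjective (QuotientGroup.mk'_surjective N)),
      Sylow.coe_mapSurjective, hm, H02.card_map_mk'_mul]
  have hQ : ∀ Q : Sylow p G, Nat.card ((Q : Subgroup G) ⊓ N : Subgroup G) = m := by
    intro Q
    obtain ⟨g, rfl⟩ := MulAction.exists_smul_eq G P Q
    have : MulAut.conj g • N = N := Subgroup.Normal.conj_smul_eq_self g N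
    rw [Sylow.coe_subgroup_smul, hm, ← H02.card_smul ((P : Subgroup G) ⊓ N) g, Subgroup.smul_inf, this]
  have key : ∀ q, m ≤ Nat.card {g // f g = q} ∧ (N ≤ Subgroup.center G → Nat.card {g // f g = q} = m) := by
    rintro ⟨q, hq⟩
    obtain ⟨x, rfl⟩ := QuotientGroup.mk'_surjective N q
    have h1 : π (H21.pPart p x) = π x := by
      have h2 : π (H21.pReg p x) = 1 := by
        rw [← orderOf_eq_one_iff]
        obtain ⟨k, hk⟩ := hq
        apply Nat.eq_one_of_dvd_coprimes (a := p ^ k) (b := orderOf (H21.pReg p x))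
        · exact Nat.Coprime.pow_left _ ((Nat.Prime.coprime_iff_not_dvd Fact.out).2 (H21.not_dvd_orderOf_pReg p x))
        · rw [← hk]
          obtain ⟨j, hj⟩ := H21.pReg_mem_zpowers p x
          rw [← hj]; simp only [map_zpow]
          exact orderOf_dvd_of_mem_zpowers ⟨j, rfl⟩
        · exact orderOf_map_dvd _ _
      conv_rhs => rw [← H21.pPart_mul_pReg p x, map_mul, h2, mul_one]
    have h3 := H21.orderOf_pPart p x
    set y := H21.pPart p x
    obtain ⟨Q, hyQ⟩ := H27.exists_sylow_mem h3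
    let j : ((Q : Subgroup G) ⊓ N : Subgroup G) → {g // f g = ⟨π x, hq⟩} := fun n =>
      ⟨⟨y * n, H27.orderOf_of_mem_sylow ((Q : Subgroup G).mul_mem hyQ n.2.1)⟩, Subtype.ext (by
        change π (y * n) = π x
        rw [map_mul, h1, show π n = 1 from (QuotientGroup.eq_one_iff _).2 n.2.2, mul_one])⟩
    have hj : Function.Injective j := by
      intro a b e
      have : y * a = y * b := congrArg (fun t => t.1.1) e
      exact Subtype.ext (mul_left_cancel this)
    rw [← hQ Q]
    refine ⟨Nat.card_le_card_of_injective j hj, fun hz => ?_⟩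
    symm
    refine Nat.card_congr (Equiv.ofBijective j ⟨hj, ?_⟩)
    rintro ⟨⟨g, hg⟩, e⟩
    have e1 : π g = π x := congrArg Subtype.val e
    have h4 : y⁻¹ * g ∈ N := by
      rw [← QuotientGroup.eq_one_iff]
      change π _ = 1
      rw [map_mul, map_inv, h1, e1, inv_mul_cancel]
    have h5 : Commute y⁻¹ g := by
      have := Subgroup.mem_center_iff.1 (hz h4) g
      rw [← mul_assoc] at this
      exact (mul_right_cancel this).symm
    have h6 : IsPGroup p (Subgroup.zpowers (y⁻¹ * g)) := by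
      rw [H27.isPGroup_zpowers_iff]
      obtain ⟨a, ha⟩ := h3
      obtain ⟨b, hb⟩ := hg
      have : orderOf (y⁻¹ * g) ∣ p ^ (a + b) := by
        refine h5.orderOf_mul_dvd_mul_orderOf.trans ?_
        rw [orderOf_inv, ha, hb, pow_add]
      obtain ⟨c, -, hc⟩ := (Nat.dvd_prime_pow Fact.out).1 this
      exact ⟨c, hc⟩
    haveI : (Subgroup.zpowers (y⁻¹ * g)).Normal :=
      ⟨fun a ha b => by
        rw [Subgroup.mem_center_iff.1 (Subgroup.zpowers_le.2 (hz h4) ha) b, mul_inv_cancel_right]
        exact ha⟩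
    refine ⟨⟨y⁻¹ * g, h6.le_sylow_of_normal Q (Subgroup.mem_zpowers _), h4⟩, ?_⟩
    apply Subtype.ext; apply Subtype.ext
    change y * (y⁻¹ * g) = g
    group
  rw [hP, hsum, mul_comm _ m, ← mul_assoc, Nat.card_eq_fintype_card]
  refine ⟨Nat.mul_le_mul_right _ ?_, fun hz => ?_⟩
  · rw [← smul_eq_mul, ← Finset.card_univ, ← Finset.sum_const]
    exact Finset.sum_le_sum fun q _ => (key q).1
  · rw [Finset.sum_congr rfl fun q _ => (key q).2 hz]; simp

end Cfsg.Agent.S4153
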