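import Cfsg.Statements.S4154
import Mathlib
-- import your own Cfsg.Agent.* helpers here

set_option autoImplicit false
open Cfsg

namespace Cfsg.Agent.S4154

open scoped Pointwise commutatorElement

theorem aux {Q : Type*} [Group Q] [Finite Q] (β : Q →* Q)
    (h : ∀ x : Q, ∃ c g : Q, β c = c ∧ x = c * (g⁻¹ * β g)) (g : Q)
    (hg : β (g⁻¹ * β g) = g⁻¹ * β g) : g⁻¹ * β g = 1 := by
  let D : Subgroup Q := β.eqLocus (MonoidHom.id Q)
  have hD : ∀ x, x ∈ D ↔ β x = x := fun x => Iff.rfl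
  let F : Q ⧸ D → Q ⧸ D := fun q => Quotient.liftOn' q (fun g => ((β g * g⁻¹ : Q) : Q ⧸ D)) (by
    intro a b hab
    rw [QuotientGroup.leftRel_apply, hD] at hab
    have : β b * b⁻¹ = β a * a⁻¹ := by
      calc β b * b⁻¹ = β a * β (a⁻¹ * b) * b⁻¹ := by simp
        _ = _ := by rw [hab]; group
    simp only [this])
  have hF : Function.Surjective F := by
    intro q
    obtain ⟨x, rfl⟩ := QuotientGroup.mk_surjective q
    obtain ⟨c, k, hc, e⟩ := h x⁻¹
    refine ⟨(k⁻¹ : Q), ?_⟩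
    show ((β k⁻¹ * k⁻¹⁻¹ : Q) : Q ⧸ D) = x
    rw [QuotientGroup.eq, ← inv_inv x, e]
    have : (β k⁻¹ * k⁻¹⁻¹)⁻¹ * (c * (k⁻¹ * β k))⁻¹ = c⁻¹ := by simp [mul_assoc]
    rw [this]
    exact D.inv_mem hc
  have hinj := Finite.injective_iff_surjective.2 hF
  have : F (g⁻¹ : Q) = F (1 : Q) := by
    show ((β g⁻¹ * g⁻¹⁻¹ : Q) : Q ⧸ D) = ((β 1 * 1⁻¹ : Q) : Q ⧸ D)
    rw [QuotientGroup.eq]
    simpa [hD] using hg
  have h2 := QuotientGroup.eq.1 (hinj this)
  simp only [inv_inv, mul_one, hD] at h2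
  rw [h2]; simp

/-- Let G be a finite group and α an automorphism of G such that every element of G is the product of an element fixed by α and an element of the form g⁻¹α(g). If N is a normal α-invariant subgroup, then the automorphism ᾱ induced on G/N has the same property, and every coset fixed by ᾱ contains an element fixed by α (so the fixed points of ᾱ are the images of the fixed points of α). -/
theorem result {G : Type*} [Group G] [Finite G] (α : MulAut G)
    (hccp : ∀ x : G, ∃ c g : G, α c = c ∧ x = c * (g⁻¹ * α g))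
    (N : Subgroup G) [N.Normal] (hN : ∀ n ∈ N, α n ∈ N) :
    (∀ x : G, ∃ c g : G, c⁻¹ * α c ∈ N ∧ x⁻¹ * (c * (g⁻¹ * α g)) ∈ N) ∧
    (∀ x : G, x⁻¹ * α x ∈ N → ∃ c : G, α c = c ∧ c⁻¹ * x ∈ N) := by
  refine ⟨fun x => ?_, fun x hx => ?_⟩
  · obtain ⟨c, g, hc, e⟩ := hccp x
    exact ⟨c, g, by rw [hc]; simp, by rw [← e]; simp⟩
  · let β : G ⧸ N →* G ⧸ N := QuotientGroup.map N N α.toMonoidHom hN
    have hβ : ∀ g : G, β g = (α g : G) := fun g => rfl
    obtain ⟨c, g, hc, e⟩ := hccp x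
    refine ⟨c, hc, ?_⟩
    have h1 := aux β (fun q => by
      obtain ⟨y, rfl⟩ := QuotientGroup.mk_surjective q
      obtain ⟨c, g, hc, e⟩ := hccp y
      exact ⟨c, g, by rw [hβ, hc], by rw [e, hβ]; rfl⟩) g (by
      have h2 : ((g : G ⧸ N))⁻¹ * β g = ((c⁻¹ * x : G) : G ⧸ N) := by
        rw [hβ, e]; simp
      rw [h2, hβ, eq_comm, QuotientGroup.eq]
      simpa [hc, mul_assoc] using hx)
    rw [hβ, ← QuotientGroup.mk_inv, ← QuotientGroup.mk_mul, QuotientGroup.eq_one_iff] at h1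
    rw [e]; simpa using h1

end Cfsg.Agent.S4154
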