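import Cfsg.Statements.S4155
import Mathlib
import Cfsg.Agent.H02.FrobCompl
import Cfsg.Agent.H17.Lift
import Cfsg.Agent.H27.NilpMax
import Cfsg.Agent.H27.ClassSize
-- import your own Cfsg.Agent.* helpers here

set_option autoImplicit false
open Cfsg

namespace Cfsg.Agent.S4155

open scoped Pointwise commutatorElement

/-- Let G be a finite group and N a proper non-trivial normal nilpotent subgroup whose order is not a prime power, such that for every x outside N all elements of the coset xN have the same order as x. Then N is the Fitting subgroup of G, and for every prime q every Sylow q-subgroup of G/N is cyclic or generalized quaternion. -/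
theorem result {G : Type*} [Group G] [Finite G] (N : Subgroup G) [N.Normal] (hN1 : N ≠ ⊥) (hN2 : N ≠ ⊤)
    (heq : ∀ x : G, x ∉ N → ∀ n ∈ N, orderOf (x * n) = orderOf x)
    (hnil : Group.IsNilpotent N) (hnpp : ¬ IsPrimePow (Nat.card N)) :
    N = Cfsg.fittingSubgroup G ∧
    ∀ (q : ℕ) [Fact q.Prime] (Q : Sylow q (G ⧸ N)), IsCyclic (Q : Subgroup (G ⧸ N)) ∨ ∃ n : ℕ, Nonempty ((Q : Subgroup (G ⧸ N)) ≃* QuaternionGroup (2 ^ n)) := by
  have hA : ∀ q : ℕ, q.Prime → ∃ p : ℕ, p.Prime ∧ p ≠ q ∧ p ∣ Nat.card N := by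
    intro q hq
    by_contra h
    push Not at h
    have h1 := Nat.eq_prime_pow_of_unique_prime_dvd (n := Nat.card N) (p := q) Nat.card_pos.ne'
      fun {d} hd hd' => by by_contra e; exact h d hd e hd'
    refine hnpp ⟨q, _, hq.prime, Nat.pos_of_ne_zero fun e => hN1 ?_, h1.symm⟩
    rwa [e, pow_zero, Subgroup.card_eq_one] at h1
  have hB : ∀ x, x ∉ N → ∀ n ∈ N, Commute x n → (orderOf x).Coprime (orderOf n) → n = 1 := by
    intro x hx n hn h1 h2
    have := heq x hx n hn
    rwa [h1.orderOf_mul_eq_mul_orderOf_of_coprime h2, mul_eq_left₀ (orderOf_pos x).ne',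
      orderOf_eq_one_iff] at this
  constructor
  · refine le_antisymm (H02.le_fitting hnil) fun g hg => H03.mem_of_forall_prime_pow ?_
    rintro q hq - u hu ⟨k, hk⟩
    by_contra h
    obtain ⟨p, hp, hpq, hd⟩ := hA q hq
    haveI := Fact.mk hp
    obtain ⟨n, hn, hn'⟩ := H26.exists_mem_orderOf_eq hd
    have h1 : (orderOf u).Coprime (orderOf n) := by
      rw [hk, hn']; exact ((Nat.coprime_primes hq hp).2 hpq.symm).pow_left k
    rw [hB u h n hn (H27.commute_of_mem_nilpotent (M := fittingSubgroup G) (Subgroup.zpowers_le.2 hg hu)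
      (H02.le_fitting hnil hn) h1) h1, orderOf_one] at hn'
    exact hp.one_lt.ne hn'
  intro q hq Q
  obtain ⟨p, hp, hpq, hd⟩ := hA q hq.out
  haveI := Fact.mk hp
  have hn : ∀ (r : ℕ) [Fact r.Prime], ∃ T : Subgroup G, H26.IsSyl r T N ∧ T.Normal := by
    intro r _
    obtain ⟨S⟩ : Nonempty (Sylow r N) := inferInstance
    haveI : (S : Subgroup N).Characteristic := Sylow.characteristic_of_normal S inferInstance
    exact ⟨_, H26.isSyl_map_subtype S, ConjAct.normal_of_characteristic_of_normal⟩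
  obtain ⟨P, hP, hPn⟩ := hn p
  obtain ⟨M, hM, hMn⟩ := hn q
  obtain ⟨R, hR1, hR2, -⟩ := H17.exists_lift_pSubgroup (QuotientGroup.mk'_surjective N) Q.isPGroup'
  have hs := QuotientGroup.mk'_surjective M
  haveI : (P.map (QuotientGroup.mk' M)).Normal := Subgroup.Normal.map hPn _ hs
  have hPM := IsPGroup.disjoint_of_ne p q hpq P M hP.pg hM.pg
  have hRM : R ⊓ N ≤ M :=
    hM.le_of_le_normalizer' hR1.to_inf_left inf_le_right (H01.le_normalizer_of_normal _ M)
  have h1 := H02.isCyclic_or_quaternion_of_fpf (hR1.map (QuotientGroup.mk' M))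
    (K := P.map (QuotientGroup.mk' M)) (by
      rw [Ne, Subgroup.map_eq_bot_iff, QuotientGroup.ker_mk']
      exact fun e => hP.ne_bot hd (hPM.eq_bot_of_le e)) (H01.le_normalizer_of_normal _ _) (by
      rintro _ ⟨a, ha, rfl⟩ ha1
      rw [eq_bot_iff]
      rintro _ ⟨⟨n, hn, rfl⟩, e⟩
      have h1 : ⁅a, n⁆ ∈ M := by
        rw [← QuotientGroup.eq_one_iff, ← QuotientGroup.mk'_apply, map_commutatorElement,
          commutatorElement_eq_one_iff_mul_comm]
        exact (H27.mem_cent.1 e).symm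
      obtain ⟨k, hk⟩ := H27.orderOf_of_mem_pGroup hR1 ha
      obtain ⟨l, hl⟩ := H27.orderOf_of_mem_pGroup hP.pg hn
      rw [hB a (fun e => ha1 ((QuotientGroup.eq_one_iff a).2 (hRM ⟨ha, e⟩))) n (hP.le hn)
        (commutatorElement_eq_one_iff_commute.1 (Subgroup.disjoint_def.1 hPM
          (mul_mem (hPn.conj_mem n hn a) (inv_mem hn)) h1))
        (by rw [hk, hl]; exact Nat.coprime_pow_primes _ _ hq.out hp hpq.symm), map_one]
      exact one_mem _)
  let f : G ⧸ M →* G ⧸ N := QuotientGroup.map M N (MonoidHom.id G) hM.le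
  have h2 : Function.Injective (f.comp (R.map (QuotientGroup.mk' M)).subtype) := by
    rw [injective_iff_map_eq_one]
    rintro ⟨_, a, ha, rfl⟩ e
    exact Subtype.ext ((QuotientGroup.eq_one_iff a).2 (hRM ⟨ha, (QuotientGroup.eq_one_iff a).1 e⟩))
  have h3 : (f.comp (R.map (QuotientGroup.mk' M)).subtype).range = Q := by
    rw [MonoidHom.range_comp, Subgroup.range_subtype, Subgroup.map_map, ← hR2]; rfl
  have e := (MonoidHom.ofInjective h2).trans (MulEquiv.subgroupCongr h3)
  rcases h1 with h1 | ⟨-, n, ⟨h1⟩⟩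
  · exact Or.inl (e.isCyclic.1 h1)
  · exact Or.inr ⟨n, ⟨e.symm.trans h1⟩⟩

end Cfsg.Agent.S4155
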