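import Cfsg.Statements.S4156
import Mathlib
import Cfsg.Agent.H19.Basic
-- import your own Cfsg.Agent.* helpers here

set_option autoImplicit false
open Cfsg

namespace Cfsg.Agent.S4156

open scoped Pointwise commutatorElement

/-- Let n ≥ 5 and F a finite field. Then the projective special linear group PSL_n(F) contains a subgroup isomorphic to the alternating group of degree n + 1. -/
theorem result (n : ℕ) (hn : 5 ≤ n) (F : Type*) [Field F] [Finite F] :
    ∃ f : alternatingGroup (Fin (n + 1)) →* Matrix.ProjectiveSpecialLinearGroup (Fin n) F, Function.Injective f := by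
  classical
  let δ : Fin (n + 1) → Fin n → F := fun a i => if a = i.succ then 1 else 0
  let M : Equiv.Perm (Fin (n + 1)) → Matrix (Fin n) (Fin n) F :=
    fun σ => Matrix.of fun i j => δ (σ j.succ) i - δ (σ 0) i
  have hM : ∀ σ a i, ∑ k, M σ i k * δ a k = δ (σ a) i - δ (σ 0) i := by
    intro σ a i
    refine Fin.cases ?_ (fun b => ?_) a
    · simp [δ, (Fin.succ_ne_zero _).symm]
    · simp [δ, M]
  let φ : Equiv.Perm (Fin (n + 1)) →* Matrix (Fin n) (Fin n) F :=
    { toFun := M
      map_one' := by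
        ext i j
        simp [M, δ, Matrix.one_apply, (Fin.succ_ne_zero _).symm, eq_comm]
      map_mul' := fun σ τ => by
        ext i j
        rw [Matrix.mul_apply]
        have : ∀ k, M τ k j = δ (τ j.succ) k - δ (τ 0) k := fun k => rfl
        simp only [this, mul_sub, Finset.sum_sub_distrib, hM]
        simp [M] }
  haveI := alternatingGroup.isSimpleGroup (α := Fin (n + 1)) (by simp; omega)
  have hc : ¬ IsMulCommutative (alternatingGroup (Fin (n + 1))) := by
    rw [alternatingGroup.isMulCommutative_iff_card_le_three]; simp; omega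
  have hdet : ∀ g : alternatingGroup (Fin (n + 1)), (M g).det = 1 := fun g =>
    congrArg Units.val (H19.hom_comm_eq_one_of_simple hc
      ((Matrix.detMonoidHom.comp (φ.comp (alternatingGroup _).subtype)).toHomUnits) g)
  let ψ : alternatingGroup (Fin (n + 1)) →* Matrix.SpecialLinearGroup (Fin n) F :=
    { toFun := fun g => ⟨M g, hdet g⟩
      map_one' := Subtype.ext φ.map_one
      map_mul' := fun a b => Subtype.ext (φ.map_mul a b) }
  refine ⟨(QuotientGroup.mk' _).comp ψ, H19.injective_of_simple _ ?_⟩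
  obtain ⟨m, rfl⟩ : ∃ m, n = m + 5 := ⟨n - 5, by omega⟩
  refine ⟨⟨Equiv.swap 1 2 * Equiv.swap 3 4, ?_⟩, fun h => ?_⟩
  · rw [Equiv.Perm.mem_alternatingGroup, map_mul, Equiv.Perm.sign_swap, Equiv.Perm.sign_swap]
    · simp
    · simp [Fin.ext_iff, Fin.ofNat, Nat.mod_eq_of_lt]
    · simp [Fin.ext_iff, Fin.ofNat, Nat.mod_eq_of_lt]
  · rw [MonoidHom.comp_apply, QuotientGroup.mk'_apply, QuotientGroup.eq_one_iff,
      Matrix.SpecialLinearGroup.mem_center_iff] at h
    obtain ⟨r, -, hr⟩ := h
    have h1 := congrFun (congrFun hr 1) 0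
    change _ = M (Equiv.swap 1 2 * Equiv.swap 3 4) 1 0 at h1
    have e1 : (Equiv.swap 1 2 * Equiv.swap 3 4 : Equiv.Perm (Fin (m + 5 + 1))) (Fin.succ 0) = Fin.succ 1 := by
      rw [Equiv.Perm.mul_apply, Equiv.swap_apply_of_ne_of_ne (a := 3)]
      · exact Equiv.swap_apply_left _ _
      · simp [Fin.ext_iff, Fin.ofNat, Nat.mod_eq_of_lt]
      · simp [Fin.ext_iff, Fin.ofNat, Nat.mod_eq_of_lt]
    have e2 : (Equiv.swap 1 2 * Equiv.swap 3 4 : Equiv.Perm (Fin (m + 5 + 1))) 0 = 0 := by
      rw [Equiv.Perm.mul_apply, Equiv.swap_apply_of_ne_of_ne (a := 3), Equiv.swap_apply_of_ne_of_ne]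
      all_goals simp [Fin.ext_iff, Fin.ofNat, Nat.mod_eq_of_lt]
    simp only [M, δ, Matrix.of_apply, e1, e2] at h1
    rw [if_neg (Fin.succ_ne_zero _).symm] at h1
    simp at h1

end Cfsg.Agent.S4156
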