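import Mathlib
import Cfsg.Statements.S4157
import Cfsg.Agent.H21.Kul

set_option autoImplicit false
open Cfsg

namespace Cfsg.Agent.S4157

/-- Let G be a finite p-group of order p^m that is not cyclic and, when p = 2, not of maximal class (nilpotency class m − 1). Then for every 1 ≤ k < m the number of subgroups of G of order p^k is congruent to 1 + p modulo p². -/
theorem result {G : Type*} [Group G] [Finite G] {p : ℕ} [Fact p.Prime] (m : ℕ)
    (hG : Nat.card G = p ^ m) (hnc : ¬ IsCyclic G) (h2 : p = 2 → Group.nilpotencyClass G ≠ m - 1)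
    (k : ℕ) (hk1 : 1 ≤ k) (hk2 : k < m) :
    Nat.card {H : Subgroup G // Nat.card H = p ^ k} ≡ 1 + p [MOD p ^ 2] := by
  have hp : p.Prime := Fact.out
  refine H21.Kul.kul (IsPGroup.of_card hG) hnc (fun e => ⟨?_, ?_⟩) (by omega) (hG ▸ pow_dvd_pow p hk2)
  · rintro ⟨n, a, b, h⟩
    have := h.card
    rw [hG, e, Nat.pow_right_inj one_lt_two] at this
    exact h2 e (by rw [h.nilpotencyClass, this]; rfl)
  · by_contra! h
    subst e
    rw [hG, show 4 = 2 ^ 2 from rfl, Nat.pow_le_pow_iff_right one_lt_two] at h
    obtain rfl : m = 2 := by omega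
    haveI := (IsPGroup.of_card hG).isNilpotent
    haveI : Nontrivial G := Finite.one_lt_card_iff_nontrivial.1 (by rw [hG]; norm_num)
    have := (H04.class_eq_iff (p := 2) (n := 0) hG).2 (by simp)
    exact h2 rfl this

end Cfsg.Agent.S4157
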