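import Cfsg.Statements.S4159
import Cfsg.Agent.H24.Real
import Cfsg.Agent.S0205
-- import your own Cfsg.Agent.* helpers here

set_option autoImplicit false
open Cfsg

namespace Cfsg.Agent.S4159

/-- Let G be a finite group such that in every subgroup H of G, any two conjugacy classes of H of size greater than 1 have non-coprime sizes. Then G is solvable. -/
theorem result {G : Type*} [Group G] [Finite G]
    (h : ∀ (H : Subgroup G) (x y : H), 1 < (Subgroup.centralizer ({x} : Set H)).index → 1 < (Subgroup.centralizer ({y} : Set H)).index →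
      ¬ ((Subgroup.centralizer ({x} : Set H)).index).Coprime (Subgroup.centralizer ({y} : Set H)).index) : Group.IsSolvable G := by
  have key : ∀ x g : G, (orderOf x).Prime → orderOf x ≠ 2 → g * x * g⁻¹ ≠ x⁻¹ := by
    intro x g hx h2 e
    obtain ⟨s, -, ⟨k, hs⟩, hsx⟩ := H24.exists_two_elt_inverts e
    have hne : ¬ s * x = x * s := fun hc => by
      rw [hc, mul_inv_cancel_right, ← mul_eq_one_iff_eq_inv, ← sq] at hsx
      exact h2 ((Nat.prime_dvd_prime_iff_eq hx Nat.prime_two).1 (orderOf_dvd_of_pow_eq_one hsx))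
    let H := Subgroup.zpowers x ⊔ Subgroup.zpowers s
    have hxH : x ∈ H := Subgroup.mem_sup_left (Subgroup.mem_zpowers x)
    have hsH : s ∈ H := Subgroup.mem_sup_right (Subgroup.mem_zpowers s)
    have hn : Subgroup.zpowers s ≤ Subgroup.normalizer (Subgroup.zpowers x : Set G) :=
      Subgroup.zpowers_le.2 (BG.mem_norm_of_cj_le (by rw [BG.cj_zpowers, hsx, Subgroup.zpowers_inv]))
    have hc : Nat.card H ∣ orderOf x * 2 ^ k := by
      rw [← hs, ← BG.card_zpowers, ← BG.card_zpowers]; exact BG.card_sup_dvd hn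
    have hlt : ∀ a b : H, ¬ (a : G) * b = b * a → 1 < (Subgroup.centralizer ({b} : Set H)).index := fun a b hab => by
      refine Subgroup.one_lt_index_of_ne_top fun ht => hab ?_
      have : a ∈ Subgroup.centralizer ({b} : Set H) := ht ▸ trivial
      exact congrArg Subtype.val (BG.mem_cent1.1 this)
    have hdv : ∀ (b : H) (m : ℕ), Nat.card H ∣ orderOf (b : G) * m → (Subgroup.centralizer ({b} : Set H)).index ∣ m := by
      intro b m hm
      have h1 := Subgroup.index_dvd_of_le (BG.zpowers_le_cent1 b)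
      have h2 := (Subgroup.zpowers b).card_mul_index
      rw [BG.card_zpowers, ← Subgroup.orderOf_coe] at h2
      rw [← h2] at hm
      exact h1.trans (Nat.dvd_of_mul_dvd_mul_left (orderOf_pos _) hm)
    refine h H ⟨x, hxH⟩ ⟨s, hsH⟩ (hlt ⟨s, hsH⟩ _ hne) (hlt ⟨x, hxH⟩ _ fun h => hne h.symm) ?_
    refine Nat.Coprime.coprime_dvd_left (hdv _ _ hc) (Nat.Coprime.coprime_dvd_right (hdv _ (orderOf x) (by
      rw [mul_comm]; exact hs ▸ hc)) ?_)
    exact Nat.Coprime.pow_left _ ((Nat.coprime_primes Nat.prime_two hx).2 h2.symm)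
  haveI := Cfsg.Agent.S0205.result (G := G ⧸ pCore 2 G) (H24.odd_index_pCore_of_no_real key)
  haveI := BG.pg_sol Nat.prime_two (H02.pCore_isPGroup 2 G)
  exact Group.isSolvable_of_ker_le_range (pCore 2 G).subtype (QuotientGroup.mk' (pCore 2 G)) (by simp)

end Cfsg.Agent.S4159
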