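import Cfsg.Statements.S4163
import Mathlib
import Cfsg.Agent.H27.ClassSize
import Cfsg.Agent.H01.Coprime
-- import your own Cfsg.Agent.* helpers here

set_option autoImplicit false
open Cfsg

namespace Cfsg.Agent.S4163

open scoped Pointwise commutatorElement

theorem key {G : Type*} [Group G] [Finite G] (A : Subgroup G) [A.Normal] (hA : IsMulCommutative A)
    {x a : G} (ha : a ∈ A) (hx : ⁅x, a⁆ ≠ 1) : H27.cs ⁅x, a⁆ < H27.cs x := by
  have hc : ∀ u ∈ A, ∀ v ∈ A, u * v = v * u := fun u hu v hv =>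
    congrArg Subtype.val (hA.1.1 (⟨u, hu⟩ : A) ⟨v, hv⟩)
  have hcv : ∀ u ∈ A, ⁅x, u⁆ ∈ A := fun u hu =>
    mul_mem (Subgroup.Normal.conj_mem inferInstance u hu x) (inv_mem hu)
  set H := A ⊔ H27.cent x with hH
  have h1 : {y : G | ∃ h ∈ H, h * ⁅x, a⁆ * h⁻¹ = y} ⊂ (fun y => x * y⁻¹) '' {y : G | ∃ h ∈ H, h * x * h⁻¹ = y} := by
    constructor
    · rintro _ ⟨h, hh, rfl⟩
      obtain ⟨u, hu, c, hc1, rfl⟩ := (H01.mem_sup_of_le_normalizer'
        (H01.le_normalizer_of_normal _ A)).1 hh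
      refine ⟨_, ⟨c * a * c⁻¹, Subgroup.mem_sup_left (Subgroup.Normal.conj_mem inferInstance a ha c), rfl⟩, ?_⟩
      have e1 : c * ⁅x, a⁆ * c⁻¹ = ⁅x, c * a * c⁻¹⁆ := by
        conv_rhs => rw [← H27.mem_cent_iff_conj.1 hc1]
        simp only [commutatorElement_def]; group
      calc x * (c * a * c⁻¹ * x * (c * a * c⁻¹)⁻¹)⁻¹ = ⁅x, c * a * c⁻¹⁆ := by
            simp only [commutatorElement_def]; group
        _ = u * ⁅x, c * a * c⁻¹⁆ * u⁻¹ := by
            rw [hc u hu _ (hcv _ (Subgroup.Normal.conj_mem inferInstance a ha c)), mul_inv_cancel_right]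
        _ = _ := by rw [← e1]; group
    · intro h
      obtain ⟨h, -, e⟩ := h ⟨x, ⟨1, one_mem _, by simp⟩, rfl⟩
      exact hx (conj_eq_one_iff.1 (e.trans (mul_inv_cancel x)))
  have h2 := Set.ncard_lt_ncard h1
  rw [Set.ncard_image_of_injective _ (fun a b h => by simpa using h), ← Nat.card_coe_set_eq,
    ← Nat.card_coe_set_eq] at h2
  have h3 := H27.card_orbit_eq_relIndex H ⁅x, a⁆
  have h4 := H27.card_orbit_eq_relIndex H x
  have h5 : (H27.cent ⁅x, a⁆).relIndex H < (H27.cent x).relIndex H := h3 ▸ h4 ▸ h2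
  calc H27.cs ⁅x, a⁆ ≤ (H27.cent ⁅x, a⁆ ⊓ H).index :=
        Nat.le_of_dvd (Nat.pos_of_ne_zero Subgroup.index_ne_zero_of_finite)
          (Subgroup.index_dvd_of_le inf_le_left)
    _ = (H27.cent ⁅x, a⁆).relIndex H * H.index := by
        rw [← Subgroup.relIndex_mul_index inf_le_right, Subgroup.inf_relIndex_right]
    _ < (H27.cent x).relIndex H * H.index :=
        Nat.mul_lt_mul_of_pos_right h5 (Nat.pos_of_ne_zero Subgroup.index_ne_zero_of_finite)
    _ = _ := Subgroup.relIndex_mul_index le_sup_right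

/-- Let G be a finite group with a normal abelian subgroup A satisfying C_G(A) = A. Suppose some conjugacy class of G has size greater than 1, let m be the smallest such size, and let M be the subgroup generated by the elements whose class has size 1 or m. Then M is nilpotent of class at most 3. -/
theorem result {G : Type*} [Group G] [Finite G]
    (A : Subgroup G) [A.Normal] (hA : IsMulCommutative A) (hCA : Subgroup.centralizer (A : Set G) = A)
    (m : ℕ) (hm1 : 1 < m) (hm : ∃ x : G, (Subgroup.centralizer ({x} : Set G)).index = m) (hmin : ∀ x : G, 1 < (Subgroup.centralizer ({x} : Set G)).index → m ≤ (Subgroup.centralizer ({x} : Set G)).index) :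
    Subgroup.upperCentralSeries ↥(Subgroup.closure {x : G | (Subgroup.centralizer ({x} : Set G)).index = 1 ∨ (Subgroup.centralizer ({x} : Set G)).index = m}) 3 = ⊤ := by
  set M := Subgroup.closure {x : G | (Subgroup.centralizer ({x} : Set G)).index = 1 ∨ (Subgroup.centralizer ({x} : Set G)).index = m} with hM
  have h1 : ∀ x ∈ M, ∀ a ∈ A, ⁅x, a⁆ ∈ Subgroup.center G := by
    intro x hx
    induction hx using Subgroup.closure_induction with
    | mem x hx =>
      intro a ha
      by_contra h1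
      have h2 := key A hA ha (x := x) fun e => h1 (e ▸ one_mem _)
      have h3 : 1 < H27.cs ⁅x, a⁆ := lt_of_le_of_ne (H27.cs_pos _) fun e => h1 (H27.cs_eq_one_iff.1 e.symm)
      have h4 := hmin _ h3
      rcases hx with e | e <;> simp only [H27.cs] at h2 h3 <;> omega
    | one => intro a _; simp
    | mul x y _ _ hx hy =>
      intro a ha
      have : ⁅x * y, a⁆ = x * ⁅y, a⁆ * x⁻¹ * ⁅x, a⁆ := by simp only [commutatorElement_def]; group
      rw [this]
      exact mul_mem (Subgroup.Normal.conj_mem inferInstance _ (hy a ha) x) (hx a ha)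
    | inv x _ hx =>
      intro a ha
      have : ⁅x⁻¹, a⁆ = x⁻¹ * ⁅x, a⁆⁻¹ * x⁻¹⁻¹ := by simp only [commutatorElement_def]; group
      rw [this]
      exact Subgroup.Normal.conj_mem inferInstance _ (inv_mem (hx a ha)) _
  have h2 : ∀ x ∈ M, ∀ y ∈ M, ⁅x, y⁆ ∈ A := by
    intro x hx y hy
    rw [← hCA]
    intro a ha
    have e1 : ∀ u ∈ M, ∀ v ∈ M, ⁅u * v, a⁆ = ⁅u, a⁆ * ⁅v, a⁆ := fun u hu v hv => by
      have : ⁅u * v, a⁆ = u * ⁅v, a⁆ * u⁻¹ * ⁅u, a⁆ := by simp only [commutatorElement_def]; group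
      rw [this, Subgroup.mem_center_iff.1 (h1 v hv a ha) u, mul_inv_cancel_right,
        Subgroup.mem_center_iff.1 (h1 v hv a ha)]
    have e2 : ⁅⁅x, y⁆ * (y * x), a⁆ = ⁅y * x, a⁆ := by
      rw [show ⁅x, y⁆ * (y * x) = x * y by simp [commutatorElement_def, mul_assoc], e1 x hx y hy,
        e1 y hy x hx, Subgroup.mem_center_iff.1 (h1 y hy a ha)]
    rw [e1 ⁅x, y⁆ (mul_mem (mul_mem (mul_mem hx hy) (inv_mem hx)) (inv_mem hy)) _ (mul_mem hy hx),
      mul_eq_right] at e2
    exact (commutatorElement_eq_one_iff_mul_comm.1 e2).symm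
  rw [eq_top_iff]
  intro x _
  simp only [Subgroup.mem_upperCentralSeries_succ_iff, Subgroup.upperCentralSeries_zero,
    Subgroup.mem_bot]
  intro y z w
  apply Subtype.ext
  have h3 := h1 z z.2 _ (h2 x x.2 y y.2)
  rw [← commutatorElement_inv, Subgroup.inv_mem_iff] at h3
  exact commutatorElement_eq_one_iff_mul_comm.2 (Subgroup.mem_center_iff.1 h3 w).symm

end Cfsg.Agent.S4163
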