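import Cfsg.Statements.S4168
import Mathlib
-- import your own Cfsg.Agent.* helpers here

set_option autoImplicit false
open Cfsg

namespace Cfsg.Agent.S4168

open scoped Pointwise commutatorElement

/-- Let L be a finite quasisimple group (perfect with L/Z(L) simple). Then every prime dividing the order of the centre Z(L) also divides the order of L/Z(L). -/
theorem result {L : Type*} [Group L] [Finite L] (hL : Cfsg.IsQuasisimple L)
    (p : ℕ) (hp : p.Prime) (hdiv : p ∣ Nat.card (Subgroup.center L)) : p ∣ (Subgroup.center L).index := by
  haveI := Fact.mk hp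
  by_contra hc
  obtain ⟨z, hz⟩ := exists_prime_orderOf_dvd_card' p hdiv
  have h1 := MonoidHom.transferCenterPow_apply (G := L) (z : L)
  haveI := hL.1
  have h2 : MonoidHom.transferCenterPow L = 1 := by
    have h3 : commutator L ≤ (MonoidHom.transferCenterPow L).ker := by
      rw [commutator_def, Subgroup.commutator_le]
      intro a _ b _
      rw [MonoidHom.mem_ker, map_commutatorElement, commutatorElement_eq_one_iff_mul_comm]
      exact Subtype.ext (Subgroup.mem_center_iff.1 (MonoidHom.transferCenterPow L b).2 _)
    rw [Group.IsPerfect.commutator_eq_top] at h3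
    ext x
    have := h3 (Subgroup.mem_top x)
    rw [MonoidHom.mem_ker] at this
    simp [this]
  rw [h2] at h1
  apply hc
  rw [← hz, ← Subgroup.orderOf_coe, orderOf_dvd_iff_pow_eq_one, ← h1]
  simp

end Cfsg.Agent.S4168
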