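import Mathlib
import Cfsg.Statements.S4169
import Cfsg.Agent.H04.Breadth

set_option autoImplicit false
open Cfsg

open scoped commutatorElement

namespace Cfsg.Agent.S4169

/-- Let P be a finite p-group whose conjugacy classes have exactly two sizes (1 and one other value). Then P has nilpotency class at most 3. -/
theorem result {P : Type*} [Group P] [Finite P] {p : ℕ} [Fact p.Prime] (hP : IsPGroup p P)
    (m : ℕ) (hm : 1 < m) (h : ∀ x : P, (Subgroup.centralizer ({x} : Set P)).index = 1 ∨ (Subgroup.centralizer ({x} : Set P)).index = m) :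
    upperCentralSeries P 3 = ⊤ := by
  haveI := hP.isNilpotent
  obtain ⟨K, -, hn, hK, hC⟩ := H04.exists_scn (⊥ : Subgroup P) inferInstance inferInstance
  have h1 : ⁅⁅K, ⊤⁆, (⊤ : Subgroup P)⁆ = ⊥ := BG.comm_eq_bot.mpr ((Subgroup.commutator_le.mpr
    fun t ht x _ => H04.commutator_mem_center_of_two_sizes h hK ht x).trans
      (Subgroup.center_le_centralizer _))
  have h2 := BG.comm_eq_bot.mp (BG.three_subgroup (BG.comm_comm K ⊤ ▸ h1) h1)
  refine Subgroup.lowerCentralSeries_eq_bot_iff_upperCentralSeries_eq_top.mp ?_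
  rw [H04.lcs_succ_eq,
    H04.lcs_succ_eq, eq_bot_iff, ← h1]
  exact BG.comm_mono (BG.comm_mono (h2.trans hC.le) le_rfl) le_rfl

end Cfsg.Agent.S4169
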