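import Mathlib
import Cfsg.Statements.S4172
import Cfsg.Agent.H17.TwoGen

set_option autoImplicit false
open Cfsg

namespace Cfsg.Agent.S4172

/-- Let p be a prime and G a finite group with a non-commutative Sylow p-subgroup P whose Frattini subgroup has index p² in P (P is generated by two elements). Suppose G has no nontrivial normal subgroup of order prime to p and the Frattini subgroup of P contains no nontrivial normal subgroup of G. Then the generalized Fitting subgroup F*(G) is the unique minimal normal subgroup of G, the image of P in G/F*(G) is cyclic, and if F*(G) is not commutative then P permutes the components of G transitively by conjugation. -/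
theorem result {G : Type*} [Group G] [Finite G] (p : ℕ) [Fact p.Prime] (P : Sylow p G) (hna : ¬ IsMulCommutative (P : Subgroup G)) (hgen : (frattini ↥(P : Subgroup G)).index = p ^ 2) (hcore : Cfsg.pPrimeCore p G = ⊥) (hfrat : ((frattini ↥(P : Subgroup G)).map (P : Subgroup G).subtype).normalCore = ⊥) [hFn : (Cfsg.generalizedFittingSubgroup G).Normal] :
    (Cfsg.generalizedFittingSubgroup G ≠ ⊥ ∧ ∀ K : Subgroup G, K.Normal → K ≠ ⊥ → Cfsg.generalizedFittingSubgroup G ≤ K) ∧
      IsCyclic ↥((P : Subgroup G).map (QuotientGroup.mk' (Cfsg.generalizedFittingSubgroup G))) ∧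
      (¬ IsMulCommutative (Cfsg.generalizedFittingSubgroup G) → ∀ K L : Subgroup G, Cfsg.IsComponent K → Cfsg.IsComponent L → ∃ x ∈ (P : Subgroup G), L = K.map (MulAut.conj x).toMonoidHom) := by
  have hD : ⁅(P : Subgroup G), (P : Subgroup G)⁆ ≠ ⊥ := fun h => hna (Subgroup.commutator_self_eq_bot_iff.1 h)
  set N := Subgroup.normalClosure ((⁅(P : Subgroup G), (P : Subgroup G)⁆ : Subgroup G) : Set G) with hN
  have h0 : N ≠ ⊥ := fun h => hD (le_bot_iff.1 (h ▸ Subgroup.le_normalClosure))
  have hmin : ∀ K : Subgroup G, K.Normal → K ≠ ⊥ → N ≤ K := fun K _ hK =>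
    Subgroup.normalClosure_le_normal (H17.TG.der_le_normal P hgen hcore hfrat hK)
  have h1 := H17.TG.fstar_le P hgen hcore hfrat hna h0 hmin
  have h2 : generalizedFittingSubgroup G ≠ ⊥ := fun h => by
    haveI := H22.fstar_eq_bot_iff.1 h
    exact h0 (Subsingleton.elim _ _)
  refine ⟨⟨h2, fun K hK hK0 => h1.trans (hmin K hK hK0)⟩, ?_, fun hc K L hK hL => ?_⟩
  · obtain ⟨x, -, hx⟩ := H17.TG.gen P hgen hcore hfrat h2
    rw [hx, Subgroup.map_sup, (Subgroup.map_eq_bot_iff _).2 (by rw [QuotientGroup.ker_mk']; exact inf_le_left),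
      bot_sup_eq, MonoidHom.map_zpowers]
    infer_instance
  · refine H17.TG.trans P hgen hcore hfrat hna ?_ hK hL
    by_contra hF
    rw [H02.fitting_eq_pCore Fact.out hcore] at hF
    have h3 := h1.trans (hmin (pCore p G ⊓ Subgroup.centralizer (pCore p G : Set G)) inferInstance
      (BG.pg_fix_ne_bot Fact.out (H02.pCore_isPGroup p G) (H02.pCore_isPGroup p G) Subgroup.le_normalizer hF))
    exact hc (BG.abelian_iff.2 ((h3.trans inf_le_right).trans (Subgroup.centralizer_le (h3.trans inf_le_left))))

end Cfsg.Agent.S4172
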