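import Cfsg.Statements.S4176
import Cfsg.Agent.H24.PSolv2
import Cfsg.Agent.H27.ClassSize
-- import your own Cfsg.Agent.* helpers here

set_option autoImplicit false
open Cfsg

namespace Cfsg.Agent.S4176

open Subgroup Module

section
variable {k V G : Type*} [Field k] [AddCommGroup V] [Module k V] [Group G] (ρ : Representation k G V)

def St (v : V) : Subgroup G := @MulAction.stabilizer G V _ (MulAction.compHom V ρ) v

theorem St_index (v : V) : (St ρ v).index = Nat.card {u : V | ∃ h : G, ρ h v = u} :=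
  @MulAction.index_stabilizer G V _ (MulAction.compHom V ρ) v

theorem St_conj (g : G) (v : V) : (St ρ (ρ g v)).index = (St ρ v).index := by
  rw [St_index, St_index]; congr 2; ext u
  exact ⟨fun ⟨h, e⟩ => ⟨h * g, by rw [map_mul]; exact e⟩, fun ⟨h, e⟩ => ⟨h * g⁻¹, by
    rw [← End.mul_apply, ← map_mul, inv_mul_cancel_right, e]⟩⟩

noncomputable def av (L : Subgroup G) [Fintype L] : End k V := (Nat.card L : k)⁻¹ • ∑ x : L, ρ x

theorem av_mul (L : Subgroup G) [Fintype L] {x : G} (hx : x ∈ L) : av ρ L * ρ x = av ρ L := by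
  rw [av, smul_mul_assoc, Finset.sum_mul]; congr 1
  exact Fintype.sum_equiv (Equiv.mulRight ⟨x, hx⟩) _ _ fun y => (map_mul ρ _ _).symm

theorem mul_av (L : Subgroup G) [Fintype L] {x : G} (hx : x ∈ L) : ρ x * av ρ L = av ρ L := by
  rw [av, mul_smul_comm, Finset.mul_sum]; congr 1
  exact Fintype.sum_equiv (Equiv.mulLeft ⟨x, hx⟩) _ _ fun y => (map_mul ρ _ _).symm

theorem av_comm (L : Subgroup G) [Fintype L] [hL : L.Normal] (x : G) : ρ x * av ρ L = av ρ L * ρ x := by
  rw [av, mul_smul_comm, smul_mul_assoc, Finset.mul_sum, Finset.sum_mul]; congr 1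
  refine Fintype.sum_equiv (MulAut.conjNormal x).toEquiv _ _ fun y => ?_
  rw [← map_mul, ← map_mul]; congr 1; simp

theorem mul_av' (L : Subgroup G) [Fintype L] (hL : (Nat.card L : k) ≠ 0) {f : End k V} (h : ∀ x ∈ L, f * ρ x = f) :
    f * av ρ L = f := by
  rw [av, mul_smul_comm, Finset.mul_sum, Finset.sum_congr rfl fun (x : L) _ => h x x.2, Finset.sum_const, Finset.card_univ,
    ← Nat.card_eq_fintype_card, ← Nat.cast_smul_eq_nsmul k, smul_smul, inv_mul_cancel₀ hL, one_smul]

theorem av_apply (L : Subgroup G) [Fintype L] (hL : (Nat.card L : k) ≠ 0) {v : V} (h : ∀ x ∈ L, ρ x v = v) :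
    av ρ L v = v := by
  rw [av, LinearMap.smul_apply, LinearMap.sum_apply, Finset.sum_congr rfl fun (x : L) _ => h x x.2, Finset.sum_const,
    Finset.card_univ, ← Nat.card_eq_fintype_card, ← Nat.cast_smul_eq_nsmul k, smul_smul, inv_mul_cancel₀ hL, one_smul]
end

universe u v w

def Mot (k : Type u) [Field k] (p : ℕ) (G : Type w) [Group G] : Prop :=
  ∀ (V : Type v) [AddCommGroup V] [Module k V] (ρ : Representation k G V) (a : V), ¬ p ∣ (St ρ a).index →
    Submodule.span k {u : V | ∃ h : G, ρ h a = u} = ⊤ →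
    (∃ w : V, ∀ v, (∀ g, ρ g v = v) → ∃ c : k, c • w = v) ∧
      ∀ b : V, (St ρ a).index.Coprime (St ρ b).index → ∀ h : G, ρ h b = b

theorem step {k : Type u} [Field k] {p : ℕ} {G : Type w} [Group G] (N : Subgroup G) [N.Normal] (ih : Mot.{u, v} k p (G ⧸ N))
    (h : ∀ (V : Type v) [AddCommGroup V] [Module k V] (ρ : Representation k G V) (a : V), ¬ p ∣ (St ρ a).index →
      Submodule.span k {u : V | ∃ h : G, ρ h a = u} = ⊤ → ∃ e : End k V, (∀ x ∈ N, ρ x * e = e) ∧
      (∀ v, (∀ x ∈ N, ρ x v = v) → e v = v) ∧ (∀ g, ρ g * e = e * ρ g) ∧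
      ∀ b, (St ρ a).index.Coprime (St ρ b).index → e b = b) : Mot.{u, v} k p G := by
  intro V _ _ ρ a ha hs
  obtain ⟨e, h1, h2, h3, h4⟩ := h V ρ a ha hs
  let σ := ρ.quotientToInvariants N
  let e' : V →ₗ[k] Representation.invariants (ρ.comp N.subtype) :=
    e.codRestrict _ fun v x => LinearMap.congr_fun (h1 x x.2) v
  have h5 : ∀ v, (St σ v).index = (St ρ v.1).index := fun v => by
    rw [← index_comap_of_surjective _ (QuotientGroup.mk'_surjective N)]; congr 1; ext g
    exact Subtype.ext_iff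
  have h6 : (St σ (e' a)).index ∣ (St ρ a).index := by
    rw [h5]
    refine index_dvd_of_le fun g hg => ?_
    change ρ g (e a) = e a
    rw [← End.mul_apply, h3, End.mul_apply, show ρ g a = a from hg]
  obtain ⟨⟨w, hw⟩, h7⟩ := ih _ σ (e' a) (fun h => ha (h.trans h6)) (by
    rw [eq_top_iff, ← (LinearMap.range_eq_top (f := e')).2 fun v => ⟨v, Subtype.ext (h2 _ fun x hx => v.2 ⟨x, hx⟩)⟩,
      ← Submodule.map_top, ← hs, Submodule.map_span]
    refine Submodule.span_mono ?_
    rintro _ ⟨_, ⟨g, rfl⟩, rfl⟩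
    exact ⟨g, Subtype.ext (LinearMap.congr_fun (h3 g) a)⟩)
  refine ⟨⟨w, fun v hv => ?_⟩, fun b hb g => ?_⟩
  · obtain ⟨c, hc⟩ := hw ⟨v, fun x => hv x⟩ fun g => by
      obtain ⟨g, rfl⟩ := QuotientGroup.mk_surjective g
      exact Subtype.ext (hv g)
    exact ⟨c, congrArg Subtype.val hc⟩
  · have := congrArg Subtype.val (h7 (e' b) (by
      rw [h5 (e' b), show (e' b).1 = b from h4 b hb]; exact hb.coprime_dvd_left h6) g)
    rwa [show (σ g (e' b)).1 = ρ g (e b) from rfl, show (e' b).1 = e b from rfl, h4 b hb] at this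

theorem mot {k : Type u} [Field k] {p : ℕ} [hp : Fact p.Prime] [CharP k p] (G : Type w) [Group G] [Finite G]
    (h : IsPSolvable p G) : Mot.{u, v} k p G := by
  classical
  refine H24.PS.induction (motive := fun G _ _ => Mot.{u, v} k p G) (fun G _ _ _ V _ _ ρ a _ hs => ?_)
    (fun G _ _ N _ _ _ hN ih => step N ih fun V _ _ ρ a ha hs => ?_)
    (fun G _ _ N _ _ _ hN ih => step N ih fun V _ _ ρ a ha hs => ?_) G h
  · refine ⟨⟨a, fun v _ => Submodule.mem_span_singleton.1 (Submodule.span_mono ?_ (hs.ge trivial))⟩,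
      fun b _ g => by rw [Subsingleton.elim g 1, map_one]; rfl⟩
    rintro _ ⟨g, rfl⟩
    rw [Subsingleton.elim g 1, map_one]; rfl
  · refine ⟨1, fun x hx => LinearMap.ext_on hs ?_, fun _ _ => rfl, fun _ => by rw [mul_one, one_mul], fun _ _ => rfl⟩
    rintro _ ⟨g, rfl⟩
    obtain ⟨n, hn⟩ := hN.index ((St ρ (ρ g a)).subgroupOf N)
    have h1 : (St ρ (ρ g a)).relIndex N ∣ _ := H27.relIndex_dvd_index_of_normal_right _ N
    rw [St_conj, relIndex, hn] at h1
    obtain rfl : n = 0 := by_contra fun h => ha ((dvd_pow_self p h).trans h1)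
    exact relIndex_eq_one.1 hn hx
  · have := Fintype.ofFinite G
    have hc : ∀ L ≤ N, (Nat.card L : k) ≠ 0 := fun L hL h => hp.out.coprime_iff_not_dvd.1 hN.symm
      (((CharP.cast_eq_zero_iff k p _).1 h).trans (card_dvd_of_le hL))
    refine ⟨av ρ N, fun x => mul_av ρ N, fun v => av_apply ρ N (hc _ le_rfl), av_comm ρ N, fun b hb => ?_⟩
    have h1 : av ρ (N ⊓ St ρ b) * av ρ N = av ρ (N ⊓ St ρ b) := mul_av' ρ N (hc _ le_rfl) fun x hx =>
      LinearMap.ext_on hs (by
        rintro _ ⟨g, rfl⟩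
        obtain ⟨y, hy, z, hz, e⟩ := H27.exists_mul_of_coprime_index (H := (St ρ b).subgroupOf N)
          (K := (St ρ (ρ g a)).subgroupOf N) ((hb.symm.coprime_dvd_left
            (H27.relIndex_dvd_index_of_normal_right _ N)).coprime_dvd_right
            ((H27.relIndex_dvd_index_of_normal_right _ N).trans (St_conj ρ g a).dvd)) ⟨x, hx⟩
        rw [show x = y * z from congrArg Subtype.val e, map_mul, ← mul_assoc, av_mul ρ _ (mem_inf.2 ⟨y.2, hy⟩),
          End.mul_apply, show ρ z (ρ g a) = _ from hz])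
    have h2 : av ρ (N ⊓ St ρ b) * av ρ N = av ρ N := LinearMap.ext fun v =>
      av_apply ρ _ (hc _ inf_le_left) fun x hx => LinearMap.congr_fun (mul_av ρ N hx.1) v
    rw [← h2, h1]
    exact av_apply ρ _ (hc _ inf_le_left) fun x hx => hx.2

/-- Let k be a field of prime characteristic p, H a finite p-soluble group and ρ a k-linear representation of H on V. Let a be a vector that is fixed by some Sylow p-subgroup of H and whose H-orbit spans V. Then the space of H-fixed vectors has dimension at most 1, and every vector b whose H-orbit has size coprime to the size of the orbit of a is fixed by H. -/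
theorem result {k V H : Type*} [Field k] (p : ℕ) [Fact p.Prime] [CharP k p] [AddCommGroup V] [Module k V]
    [Group H] [Finite H] (hsol : Cfsg.IsPSolvable p H) (ρ : Representation k H V) (a : V)
    (hfix : ∃ P : Sylow p H, ∀ x : H, x ∈ (P : Subgroup H) → ρ x a = a)
    (hspan : Submodule.span k {u : V | ∃ h : H, ρ h a = u} = ⊤) :
    Module.finrank k ρ.invariants ≤ 1 ∧
    ∀ b : V, (Nat.card {u : V | ∃ h : H, ρ h a = u}).Coprime (Nat.card {u : V | ∃ h : H, ρ h b = u}) → ∀ h : H, ρ h b = b := by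
  obtain ⟨P, hP⟩ := hfix
  obtain ⟨⟨w, hw⟩, h⟩ := mot H hsol V ρ a (fun h => P.not_dvd_index (h.trans (Subgroup.index_dvd_of_le hP))) hspan
  refine ⟨?_, fun b hb => h b (by rwa [St_index, St_index])⟩
  refine (Submodule.finrank_mono (s := ρ.invariants) (t := Submodule.span k {w}) fun v hv => Submodule.mem_span_singleton.2 (hw v hv)).trans
    ((finrank_span_le_card _).trans (by simp))

end Cfsg.Agent.S4176
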