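import Cfsg.Statements.S4177
import Mathlib
import Cfsg.Agent.H27.ClassSize
-- import your own Cfsg.Agent.* helpers here

set_option autoImplicit false
open Cfsg

namespace Cfsg.Agent.S4177

open scoped Pointwise commutatorElement

/-- Let k be a field whose characteristic does not divide the order of the finite group H (for instance a field of characteristic zero), and ρ a k-linear representation of H on V. Let a be a vector whose H-orbit spans V. Then the space of H-fixed vectors has dimension at most 1, and every vector b whose H-orbit has size coprime to the size of the orbit of a is fixed by H. -/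
theorem result {k V H : Type*} [Field k] [AddCommGroup V] [Module k V] [Group H] [Finite H]
    (hchar : ¬ ringChar k ∣ Nat.card H) (ρ : Representation k H V) (a : V)
    (hspan : Submodule.span k {u : V | ∃ h : H, ρ h a = u} = ⊤) :
    Module.finrank k ρ.invariants ≤ 1 ∧
    ∀ b : V, (Nat.card {u : V | ∃ h : H, ρ h a = u}).Coprime (Nat.card {u : V | ∃ h : H, ρ h b = u}) → ∀ h : H, ρ h b = b := by
  classical
  haveI := Fintype.ofFinite H
  letI : MulAction H V := MulAction.compHom V ρ
  have hsm : ∀ (h : H) (v : V), h • v = ρ h v := fun _ _ => rfl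
  have hcard : ∀ B : Subgroup H, ((Nat.card B : ℕ) : k) ≠ 0 := by
    intro B h
    rw [ringChar.spec] at h
    exact hchar (h.trans B.card_subgroup_dvd_card)
  -- the sum over a subgroup
  let e : Subgroup H → V →ₗ[k] V := fun B => ∑ h ∈ Finset.univ.filter (· ∈ B), ρ h
  have he : ∀ B v, e B v = ∑ h ∈ Finset.univ.filter (· ∈ B), ρ h v := fun B v => by
    simp [e, LinearMap.sum_apply]
  have hfix : ∀ (B : Subgroup H) (v : V), (∀ h ∈ B, ρ h v = v) → e B v = (Nat.card B : k) • v := by
    intro B v hv
    rw [he, Finset.sum_congr rfl (fun h hh => hv h (by simpa using hh)), Finset.sum_const,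
      ← Nat.cast_smul_eq_nsmul k]
    congr 2
    rw [← Nat.card_eq_finsetCard]
    exact Nat.card_congr (Equiv.subtypeEquivRight (by simp))
  have hr : ∀ (B : Subgroup H), ∀ g ∈ B, ∀ v, e B (ρ g v) = e B v := by
    intro B g hg v
    rw [he, he]
    refine Finset.sum_bij' (fun h _ => h * g) (fun h _ => h * g⁻¹) ?_ ?_ ?_ ?_ ?_
    · intro h hh; simpa using B.mul_mem (by simpa using hh) hg
    · intro h hh; simpa using B.mul_mem (by simpa using hh) (B.inv_mem hg)
    · intro h _; simp
    · intro h _; simp
    · intro h _; simp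
  have hline : ∀ B : Subgroup H, (∀ g : H, ∃ x ∈ B, ∃ y ∈ MulAction.stabilizer H a, g = x * y) →
      ∀ v, e B v ∈ Submodule.span k {e B a} := by
    intro B hB v
    have hv : v ∈ Submodule.span k {u : V | ∃ h : H, ρ h a = u} := hspan ▸ Submodule.mem_top
    induction hv using Submodule.span_induction with
    | mem u hu =>
      obtain ⟨g, rfl⟩ := hu
      obtain ⟨x, hx, y, hy, rfl⟩ := hB g
      have : ρ y a = a := hy
      rw [map_mul, Module.End.mul_apply, this, hr B x hx]
      exact Submodule.mem_span_singleton_self _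
    | zero => simp
    | add u w _ _ h1 h2 => rw [map_add]; exact add_mem h1 h2
    | smul c u _ h1 => rw [map_smul]; exact Submodule.smul_mem _ _ h1
  have hfixline : ∀ B : Subgroup H, (∀ g : H, ∃ x ∈ B, ∃ y ∈ MulAction.stabilizer H a, g = x * y) →
      ∀ v, (∀ h ∈ B, ρ h v = v) → v ∈ Submodule.span k {e B a} := by
    intro B hB v hv
    have := Submodule.smul_mem _ ((Nat.card B : k)⁻¹) (hline B hB v)
    rwa [hfix B v hv, smul_smul, inv_mul_cancel₀ (hcard B), one_smul] at this
  have htop : ∀ g : H, ∃ x ∈ (⊤ : Subgroup H), ∃ y ∈ MulAction.stabilizer H a, g = x * y :=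
    fun g => ⟨g, trivial, 1, one_mem _, (mul_one g).symm⟩
  constructor
  · have h1 : ρ.invariants ≤ Submodule.span k {e ⊤ a} := fun v hv =>
      hfixline ⊤ htop v fun h _ => hv h
    refine (Submodule.finrank_mono h1).trans ?_
    simpa using finrank_span_le_card ({e ⊤ a} : Set V)
  · intro b hb
    have hidx : ∀ v : V, Nat.card {u : V | ∃ h : H, ρ h v = u} = (MulAction.stabilizer H v).index := by
      intro v
      rw [MulAction.index_stabilizer, ← Nat.card_coe_set_eq]; rfl
    rw [hidx, hidx] at hb
    have hB := H27.exists_mul_of_coprime_index hb.symm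
    set B := MulAction.stabilizer H b
    have h1 := hfixline B hB b (fun h hh => hh)
    have h2 : ∀ g, ρ g (e ⊤ a) = e ⊤ a := by
      intro g
      rw [he, map_sum]
      refine Finset.sum_bij' (fun h _ => g * h) (fun h _ => g⁻¹ * h) ?_ ?_ ?_ ?_ ?_ <;> simp
    obtain ⟨c, hc⟩ := Submodule.mem_span_singleton.1 h1
    have h3 : ∀ C : Subgroup H, e C a = (Nat.card (C ⊓ MulAction.stabilizer H a : Subgroup H) : k) •
        ∑ u ∈ (Finset.univ.filter (· ∈ C)).image (fun h => ρ h a), u := by
      intro C
      rw [he, Finset.sum_comp (fun u => u) (fun h => ρ h a), Finset.smul_sum]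
      apply Finset.sum_congr rfl
      intro u hu
      obtain ⟨x, hx, rfl⟩ := Finset.mem_image.1 hu
      have hx' : x ∈ C := by simpa using hx
      rw [← Nat.cast_smul_eq_nsmul k]
      congr 2
      rw [← Nat.card_eq_finsetCard]
      refine Nat.card_congr ⟨fun y => ⟨x⁻¹ * y, ?_, ?_⟩, fun y => ⟨x * y, ?_⟩, fun y => by simp, fun y => by simp⟩
      · have := y.2
        simp only [Finset.mem_filter, Finset.mem_univ, true_and] at this
        exact C.mul_mem (C.inv_mem hx') this.1
      · have := y.2
        simp only [Finset.mem_filter, Finset.mem_univ, true_and] at this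
        change (x⁻¹ * y) • a = a
        rw [mul_smul, inv_smul_eq_iff]; exact this.2
      · simp only [Finset.mem_filter, Finset.mem_univ, true_and]
        refine ⟨C.mul_mem hx' y.2.1, ?_⟩
        have : ρ y a = a := y.2.2
        rw [map_mul, Module.End.mul_apply, this]
    have h4 : ∀ C : Subgroup H, (∀ g : H, ∃ x ∈ C, ∃ y ∈ MulAction.stabilizer H a, g = x * y) →
        e C a = (Nat.card (C ⊓ MulAction.stabilizer H a : Subgroup H) : k) •
        ∑ u ∈ Finset.univ.image (fun h => ρ h a), u := by
      intro C hC
      rw [h3]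
      congr 2
      ext u
      simp only [Finset.mem_image, Finset.mem_filter, Finset.mem_univ, true_and]
      constructor
      · rintro ⟨g, -, rfl⟩; exact ⟨g, rfl⟩
      · rintro ⟨g, rfl⟩
        obtain ⟨x, hx, y, hy, rfl⟩ := hC g
        have : ρ y a = a := hy
        exact ⟨x, hx, by rw [map_mul, Module.End.mul_apply, this]⟩
    intro h
    have h6 := (inv_smul_eq_iff₀ (hcard _)).2 (h4 ⊤ htop)
    rw [← hc, h4 B hB, ← h6, map_smul, map_smul, map_smul, h2]

end Cfsg.Agent.S4177
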