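import Cfsg.Statements.S4178
import Mathlib
-- import your own Cfsg.Agent.* helpers here

set_option autoImplicit false
open Cfsg

namespace Cfsg.Agent.S4178

open scoped Pointwise commutatorElement

/-- Let F be a finite field with q elements, V a non-zero finite-dimensional F-space of dimension d, H a group of invertible linear maps of V, and R the subgroup of H generated by the elements of H that fix some non-zero vector (have eigenvalue 1). Then the index of R in H is at most q^d − 1; and if H leaves invariant some proper non-zero subspace, the index is at most q^(d/2) − 1. -/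
theorem result {F V : Type*} [Field F] [Fintype F] [AddCommGroup V] [Module F V] [FiniteDimensional F V] [Nontrivial V]
    (H : Subgroup (V ≃ₗ[F] V)) :
    (Subgroup.closure {h : ↥H | ∃ v : V, v ≠ 0 ∧ (h : V ≃ₗ[F] V) v = v}).index ≤ Fintype.card F ^ Module.finrank F V - 1 ∧
    ((∃ W : Submodule F V, W ≠ ⊥ ∧ W ≠ ⊤ ∧ ∀ h ∈ H, ∀ w ∈ W, h w ∈ W) →
      ((Subgroup.closure {h : ↥H | ∃ v : V, v ≠ 0 ∧ (h : V ≃ₗ[F] V) v = v}).index : ℝ) ≤ Real.sqrt ((Fintype.card F : ℝ) ^ Module.finrank F V) - 1) := by
  classical
  set R := Subgroup.closure {h : ↥H | ∃ v : V, v ≠ 0 ∧ (h : V ≃ₗ[F] V) v = v} with hR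
  haveI : Finite V := Module.finite_of_finite F
  have key : ∀ (X : Type _) [Finite X] (x0 : X) (f : H → X) (x : X), (∀ h, f h ≠ x0) →
      (∀ a b : H, f a = f b → a⁻¹ * b ∈ R) → R.index ≤ Nat.card X - 1 := by
    intro X _ x0 f x h0 hf
    haveI := Fintype.ofFinite X
    have : Nat.card (H ⧸ R) ≤ Nat.card {y : X // y ≠ x0} := by
      refine Nat.card_le_card_of_injective (fun q => ⟨f q.out, h0 _⟩) fun a b hab => ?_
      rw [← a.out_eq, ← b.out_eq]
      exact QuotientGroup.eq.2 (hf _ _ (congrArg Subtype.val hab))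
    rw [Nat.card_eq_fintype_card (α := {y : X // y ≠ x0}), Fintype.card_subtype_compl,
      Fintype.card_subtype_eq, ← Nat.card_eq_fintype_card] at this
    exact this
  have hsub : ∀ W : Submodule F V, W ≠ ⊥ → (∀ h ∈ H, ∀ w ∈ W, h w ∈ W) →
      R.index ≤ Fintype.card F ^ Module.finrank F W - 1 := by
    intro W h0 hW
    obtain ⟨w, hw, hw0⟩ := Submodule.exists_mem_ne_zero_of_ne_bot h0
    have := key W 0 (fun h => ⟨h.1 w, hW _ h.2 w hw⟩) 0 (fun h e => hw0 (by simpa using e)) fun a b hab =>
      Subgroup.subset_closure ⟨w, hw0, by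
        have : a.1 w = b.1 w := congrArg Subtype.val hab
        change a.1.symm (b.1 w) = w
        rw [← this, LinearEquiv.symm_apply_apply]⟩
    rwa [Module.natCard_eq_pow_finrank (K := F), Nat.card_eq_fintype_card] at this
  refine ⟨by simpa using hsub ⊤ top_ne_bot fun _ _ _ _ => trivial, ?_⟩
  rintro ⟨W, h0, h1, hW⟩
  have hquot : R.index ≤ Fintype.card F ^ Module.finrank F (V ⧸ W) - 1 := by
    obtain ⟨v, hv⟩ : ∃ v, v ∉ W := by
      by_contra h; push Not at h; exact h1 (eq_top_iff.2 fun v _ => h v)
    haveI : Finite (V ⧸ W) := Module.finite_of_finite F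
    have := key (V ⧸ W) 0 (fun h => W.mkQ (h.1 v)) 0 (fun h e => hv (by
      simpa using hW _ (inv_mem h.2) _ ((Submodule.Quotient.mk_eq_zero W).1 e))) fun a b hab => by
        apply Subgroup.subset_closure
        by_contra hc
        simp only [Set.mem_setOf_eq, not_exists, not_and] at hc
        let f : V →ₗ[F] V := ((a⁻¹ * b : H) : V ≃ₗ[F] V).toLinearMap - 1
        have hf : Function.Injective f := by
          rw [← LinearMap.ker_eq_bot, eq_bot_iff]
          intro u hu
          by_contra h2
          exact hc u h2 (sub_eq_zero.1 hu)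
        have hfW : ∀ w ∈ W, f w ∈ W := fun w hw => W.sub_mem (hW _ (a⁻¹ * b).2 w hw) hw
        have hs : Function.Surjective (f.restrict hfW) :=
          LinearMap.injective_iff_surjective.1 fun x y hxy => Subtype.ext (hf (congrArg Subtype.val hxy))
        have h3 : f v ∈ W := by
          have h4 : b.1 v - a.1 v ∈ W := (Submodule.Quotient.eq W).1 hab.symm
          have h5 := hW _ (inv_mem a.2) _ h4
          rw [map_sub] at h5
          change a.1.symm (b.1 v) - a.1.symm (a.1 v) ∈ W at h5
          rw [LinearEquiv.symm_apply_apply] at h5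
          exact h5
        obtain ⟨w, hw⟩ := hs ⟨_, h3⟩
        exact hv (hf (congrArg Subtype.val hw) ▸ w.2)
    rwa [Module.natCard_eq_pow_finrank (K := F), Nat.card_eq_fintype_card] at this
  have h2 := W.finrank_quotient_add_finrank
  have hfin : ∀ m : ℕ, 2 * m ≤ Module.finrank F V → R.index ≤ Fintype.card F ^ m - 1 →
      (R.index : ℝ) ≤ Real.sqrt ((Fintype.card F : ℝ) ^ Module.finrank F V) - 1 := by
    intro m hm h
    have h3 : 1 ≤ Fintype.card F ^ m := Nat.one_le_pow _ _ Fintype.card_pos
    have h4 : (R.index : ℝ) ≤ (Fintype.card F : ℝ) ^ m - 1 := by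
      have := (Nat.cast_le (α := ℝ)).2 h
      rwa [Nat.cast_sub h3, Nat.cast_pow, Nat.cast_one] at this
    refine h4.trans (sub_le_sub_right (Real.le_sqrt_of_sq_le ?_) _)
    rw [← pow_mul]
    exact pow_le_pow_right₀ (by exact_mod_cast Fintype.card_pos) (by omega)
  rcases le_total (Module.finrank F W) (Module.finrank F (V ⧸ W)) with h | h
  · exact hfin _ (by omega) (hsub W h0 hW)
  · exact hfin _ (by omega) hquot

end Cfsg.Agent.S4178
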