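import Cfsg.Statements.S4182
import Cfsg.Agent.H22.Cov

set_option autoImplicit false
open Cfsg

namespace Cfsg.Agent.S4182

/-- Let p be a prime and G a finite group generated by its p-elements. If a finite family of proper subgroups of G covers the set of p-elements of G (every element of p-power order lies in one of them), then the family has at least p + 1 members. -/
theorem result {G : Type*} [Group G] [Finite G] (p : ℕ) [Fact p.Prime] (hgen : Subgroup.closure {g : G | ∃ k : ℕ, orderOf g = p ^ k} = ⊤)
    {ι : Type*} [Fintype ι] (K : ι → Subgroup G) (hK : ∀ i, K i ≠ ⊤)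
    (hcov : ∀ g : G, (∃ k : ℕ, orderOf g = p ^ k) → ∃ i, g ∈ K i) :
    p + 1 ≤ Fintype.card ι := by
  by_contra h
  obtain ⟨i, hi⟩ := H22.Cov.main p K (by omega) hcov ⊤ (by
    rw [← hgen, H22.Cov.L, hgen]
    simpa using hgen)
  exact hK i (top_le_iff.1 hi)

end Cfsg.Agent.S4182
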