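import Cfsg.Statements.S4186
import Mathlib
-- import your own Cfsg.Agent.* helpers here

set_option autoImplicit false
open Cfsg

namespace Cfsg.Agent.S4186

/-- Let T and X be subgroups of a group with T a finite 2-group normalizing X but not centralizing it. Then some element of T inverts some non-identity element of X under conjugation. -/
theorem result {G : Type*} [Group G] (T X : Subgroup G) [Finite ↥T] (hT : IsPGroup 2 ↥T) (hTN : T ≤ Subgroup.normalizer (X : Set G)) (hTC : ¬ T ≤ Subgroup.centralizer (X : Set G)) : ∃ t ∈ T, ∃ x ∈ X, x ≠ 1 ∧ t * x * t⁻¹ = x⁻¹ := by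
  haveI : Fact (Nat.Prime 2) := ⟨Nat.prime_two⟩
  -- choose `t ∈ T` outside `C(X)` with `t ^ 2 ∈ C(X)`
  have key : ∀ k : ℕ, ∀ t ∈ T, t ∉ Subgroup.centralizer (X : Set G) → t ^ 2 ^ k = 1 →
      ∃ t ∈ T, t ∉ Subgroup.centralizer (X : Set G) ∧ t ^ 2 ∈ Subgroup.centralizer (X : Set G) := by
    intro k
    induction k with
    | zero => intro t _ h1 h2; simp at h2; exact absurd (h2 ▸ one_mem _) h1
    | succ k ih =>
      intro t ht h1 h2
      by_cases h3 : t ^ 2 ∈ Subgroup.centralizer (X : Set G)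
      · exact ⟨t, ht, h1, h3⟩
      · exact ih (t ^ 2) (T.pow_mem ht 2) h3 (by rw [← pow_mul, ← pow_succ', h2])
  obtain ⟨t, ht, h1⟩ := SetLike.not_le_iff_exists.1 hTC
  obtain ⟨k, hk⟩ := hT ⟨t, ht⟩
  obtain ⟨s, hs, h2, h3⟩ := key k t ht h1 (Subtype.ext_iff.1 hk)
  rw [Subgroup.mem_centralizer_iff] at h2 h3
  push Not at h2
  obtain ⟨y, hy, h4⟩ := h2
  have h5 : s * y * s⁻¹ ∈ X := (Subgroup.mem_normalizer_iff.1 (hTN hs) y).1 hy
  refine ⟨s, hs, y⁻¹ * (s * y * s⁻¹), X.mul_mem (X.inv_mem hy) h5, ?_, ?_⟩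
  · intro h
    apply h4
    rw [inv_mul_eq_one, eq_mul_inv_iff_mul_eq] at h
    exact h
  · have h6 := h3 y hy
    calc s * (y⁻¹ * (s * y * s⁻¹)) * s⁻¹ = s * y⁻¹ * s⁻¹ * ((s ^ 2 * y) * (s ^ 2)⁻¹) := by
          rw [pow_two]; group
      _ = _ := by rw [← h6]; group

end Cfsg.Agent.S4186
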