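import Mathlib
import Cfsg.Statements.S4188
import Cfsg.Agent.H21.Kul

set_option autoImplicit false
open Cfsg

namespace Cfsg.Agent.S4188
open Subgroup H04 BG
open scoped commutatorElement

universe u

theorem phi1 {P Y : Type*} [Group P] [Finite P] [Group Y] (hP : IsPGroup 2 P) (f : P →* Y) :
    (frattini P).index ≤ (frattini f.ker).index * (frattini f.range).index := by
  rw [← relIndex_mul_index (le_sup_left : frattini P ≤ frattini P ⊔ f.ker), relIndex_sup_left,
    ← frattini_map hP _ f.rangeRestrict_surjective, ← index_comap_of_surjective _ f.rangeRestrict_surjective,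
    comap_map_eq, MonoidHom.ker_rangeRestrict]
  exact Nat.mul_le_mul_right _ (Nat.le_of_dvd (Nat.pos_of_ne_zero index_ne_zero_of_finite) (index_dvd_of_le
    (map_le_iff_le_comap.1 (map_subtype_frattini_le_frattini hP _))))

theorem phi2 {P : Type*} [Group P] [Finite P] (hP : IsPGroup 2 P) (H : Subgroup P) :
    (frattini P).index ≤ (frattini H).index * H.index := by
  rw [← index_map_subtype]
  exact Nat.le_of_dvd (Nat.pos_of_ne_zero index_ne_zero_of_finite) (index_dvd_of_le (map_subtype_frattini_le_frattini hP _))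

def B (n : ℕ) (P : Type*) [Group P] : Prop := (n ≠ 3 → 2 * (frattini P).index ≤ n) ∧ (n = 3 → Nat.card P ≤ 2)

section
variable {N : Type u} [CommGroup N]

def N1 (a : MulAut N) : Subgroup N := a.toMonoidHom.eqLocus (MonoidHom.id N)
def N2 (a : MulAut N) : Subgroup N := a.toMonoidHom.eqLocus invMonoidHom

def res {Q : Type*} [Group Q] (f : Q →* MulAut N) (U : Subgroup N) (h : ∀ q, ∀ u ∈ U, f q u ∈ U) : Q →* MulAut U where
  toFun q := { toFun u := ⟨f q u, h q u u.2⟩, invFun u := ⟨f q⁻¹ u, h _ u u.2⟩, left_inv u := by simp,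
               right_inv u := by simp, map_mul' := by simp }
  map_one' := by ext; simp
  map_mul' := by intros; ext; simp

theorem compl [Finite N] (ho : Odd (Nat.card N)) {a : MulAut N} (ha : a * a = 1) : (N1 a).IsComplement' (N2 a) := by
  have hb := (Nat.Coprime.pow_left_bijective (G := N) (n := 2) (Nat.coprime_two_right.2 ho))
  have h2 : ∀ n, a (a n) = n := fun n => by rw [← MulAut.mul_apply, ha]; rfl
  refine isComplement'_of_disjoint_and_mul_eq_univ (disjoint_def.2 fun {x} h1 h2 => hb.1 ?_) (Set.eq_univ_of_forall fun n => ?_)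
  · have : x = x⁻¹ := (show a x = x from h1).symm.trans h2
    simp only [sq, mul_one]; exact mul_eq_one_iff_eq_inv.2 this
  · obtain ⟨m, rfl⟩ := hb.2 n
    exact ⟨m * a m, show a _ = _ by simp [h2, mul_comm], m * (a m)⁻¹, show a _ = _ by simp [h2], by
      simp [sq, mul_mul_mul_comm]⟩

end

theorem main (n : ℕ) : ∀ (N P : Type u) [CommGroup N] [Finite N] [Nontrivial N] [Group P] (f : P →* MulAut N),
    Nat.card N ≤ n → Odd (Nat.card N) → IsPGroup 2 P → Function.Injective f → B (Nat.card N) P := by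
  induction n with
  | zero => intro N P _ _ _ _ f h; have := Nat.card_pos (α := N); omega
  | succ n ih =>
  intro N P _ _ _ _ f hn ho hP hf
  haveI := Finite.of_injective f hf
  have h1 : 1 < Nat.card N := Finite.one_lt_card
  refine ⟨fun h3 => ?_, fun h3 => ?_⟩
  swap
  · haveI : Fact (Nat.Prime 3) := ⟨by norm_num⟩
    haveI := isCyclic_of_prime_card h3
    have := Nat.card_le_card_of_injective f hf
    rwa [IsCyclic.card_mulAut, h3] at this
  have three : ∀ U : Subgroup N, U ≠ ⊥ → 3 ≤ Nat.card U := fun U hU => by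
    have := (one_lt_card_iff_ne_bot U).2 hU
    obtain ⟨k, hk⟩ := ho.of_dvd_nat (card_subgroup_dvd_card U); omega
  have split : ∀ (T : Subgroup P) (a : P), a * a = 1 → (∀ t ∈ T, a * t = t * a) → N1 (f a) ≠ ⊥ → N2 (f a) ≠ ⊥ →
      ∃ (P1 P2 : Type u) (_ : Group P1) (_ : Group P2) (_ : Finite P1) (_ : Finite P2), B (Nat.card (N1 (f a))) P1 ∧
        B (Nat.card (N2 (f a))) P2 ∧ (frattini T).index ≤ (frattini P2).index * (frattini P1).index ∧
        Nat.card T = Nat.card P2 * Nat.card P1 := by
    intro T a ha hT a1 a2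
    have hc := compl ho (a := f a) (by rw [← map_mul, ha, map_one])
    have e : ∀ (t : T) x, f a (f t x) = f t (f a x) := fun t x => by
      rw [← MulAut.mul_apply, ← map_mul, hT t t.2, map_mul, MulAut.mul_apply]
    let r1 := res (f.comp T.subtype) (N1 (f a)) fun t u hu => (e t u).trans (congrArg (f t) hu)
    let r2 := res (f.comp T.subtype) (N2 (f a)) fun t u hu => (e t u).trans ((congrArg (f t) hu).trans (map_inv _ _))
    haveI := (nontrivial_iff_ne_bot _).2 a1
    haveI := (nontrivial_iff_ne_bot _).2 a2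
    have := hc.card_mul
    have b1 := three _ a1
    have b2 := three _ a2
    refine ⟨r1.range, r1.ker, inferInstance, inferInstance, inferInstance, inferInstance,
      ih _ _ r1.range.subtype (by nlinarith) (ho.of_dvd_nat (card_subgroup_dvd_card _))
        ((hP.to_subgroup T).of_surjective _ r1.rangeRestrict_surjective) (subtype_injective _),
      ih _ _ (r2.comp r1.ker.subtype) (by nlinarith) (ho.of_dvd_nat (card_subgroup_dvd_card _))
        ((hP.to_subgroup T).to_subgroup _) ?_, phi1 (hP.to_subgroup T) r1, by rw [← index_ker, card_mul_index]⟩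
    rw [injective_iff_map_eq_one]
    refine fun t ht => Subtype.ext (Subtype.ext (hf (MulEquiv.ext fun x => ?_)))
    obtain ⟨⟨u, w⟩, rfl⟩ := hc.2 x
    rw [map_mul, show f t u = u from congrArg Subtype.val (MulEquiv.congr_fun t.2 u),
      show f t w = w from congrArg Subtype.val (MulEquiv.congr_fun ht w)]; simp
  have le : ∀ (X : Type u) [Group X] [Finite X], (frattini X).index ≤ Nat.card X := fun X _ _ =>
    Nat.le_of_dvd Nat.card_pos (index_dvd_card _)
  have n2 : ∀ a : P, a * a = 1 → a ≠ 1 → N2 (f a) ≠ ⊥ := fun a ha h e => h (hf (MulEquiv.ext fun x => by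
    have hc := compl ho (a := f a) (by rw [← map_mul, ha, map_one])
    rw [e, isComplement'_bot_right] at hc
    rw [map_one]; exact (hc ▸ mem_top x : x ∈ N1 (f a))))
  have n1 : ∀ a : P, a * a = 1 → N1 (f a) = ⊥ → ∀ x, f a x = x⁻¹ := fun a ha e x => by
    have hc := compl ho (a := f a) (by rw [← map_mul, ha, map_one])
    rw [e, isComplement'_bot_left] at hc
    exact (hc ▸ mem_top x : x ∈ N2 (f a))
  by_cases hA : ∃ a ∈ center P, a * a = 1 ∧ a ≠ 1 ∧ N1 (f a) ≠ ⊥
  · obtain ⟨a, hz, ha, ha1, a1⟩ := hA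
    obtain ⟨P1, P2, _, _, _, _, ⟨b1, c1⟩, ⟨b2, c2⟩, d, -⟩ :=
      split ⊤ a ha (fun t _ => (mem_center_iff.1 hz t).symm) a1 (n2 a ha ha1)
    have := phi2 hP ⊤
    have := (compl ho (a := f a) (by rw [← map_mul, ha, map_one])).card_mul
    have := le P1; have := le P2; have := three _ a1; have := three _ (n2 a ha ha1)
    simp only [index_top, mul_one] at *
    by_cases e1 : Nat.card (N1 (f a)) = 3 <;> by_cases e2 : Nat.card (N2 (f a)) = 3
    · have := c1 e1; have := c2 e2; nlinarith
    · have := c1 e1; have := b2 e2; nlinarith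
    · have := b1 e1; have := c2 e2; nlinarith
    · have := b1 e1; have := b2 e2; nlinarith
  push Not at hA
  by_cases hB : ∃ A : Subgroup P, A.Normal ∧ IsMulCommutative A ∧ ¬ IsCyclic A
  · obtain ⟨A, _, hAc, hAn⟩ := hB
    obtain ⟨V, -, _, hV, hc⟩ := exists_normal_elemAb_sq_of_comm hP hAc hAn
    obtain ⟨Z, _, hZV, hZ, hZc, hz⟩ := H21.Kul.cen hP V hc
    obtain ⟨v, hv, hvZ⟩ := SetLike.exists_of_lt (lt_of_le_of_ne hZV fun e => by rw [e, hc] at hZ; omega)
    obtain ⟨⟨z, hz0⟩, hz1⟩ := ne_bot_iff_exists_ne_one.1 (show Z ≠ ⊥ from fun e => by simp [e] at hZ)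
    have sq' : ∀ x ∈ V, x * x = 1 := fun x hx => by rw [← sq]; exact hV.2 x hx
    have inv : ∀ x ∈ V, x ∈ center P → x ≠ 1 → ∀ y, f x y = y⁻¹ := fun x hx h1 h2 => n1 x (sq' x hx) (hA x h1 (sq' x hx) h2)
    have hv1 : v ≠ 1 := fun e => hvZ (e ▸ one_mem _)
    have a1 : N1 (f v) ≠ ⊥ := fun e => hvZ (hf (MulEquiv.ext fun y => (n1 v (sq' v hv) e y).trans
      (inv z (hZV hz0) (hZc hz0) (by simpa using hz1) y).symm) ▸ hz0)
    obtain ⟨t, ht⟩ : ∃ t : P, ⁅v, t⁆ ≠ 1 := by
      by_contra! h
      exact a1 (hA v (mem_center_iff.2 fun g => (commutatorElement_eq_one_iff_mul_comm.1 (h g)).symm) (sq' v hv) hv1)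
    have e : ∀ x, f v (f t x) = (f t (f v x))⁻¹ := fun x => by
      rw [← inv _ (hZV (hz v hv t)) (hZc (hz v hv t)) ht, ← MulAut.mul_apply, ← MulAut.mul_apply, ← MulAut.mul_apply,
        ← map_mul, ← map_mul, ← map_mul]
      congr 2; simp [commutatorElement_def]
    have e1 : Nat.card (N1 (f v)) = Nat.card (N2 (f v)) := le_antisymm
      (Nat.card_le_card_of_injective (fun x => ⟨f t x, (e x).trans (congrArg (fun y => (f t y)⁻¹) x.2)⟩)
        fun a b h => Subtype.ext ((f t).injective (congrArg Subtype.val h)))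
      (Nat.card_le_card_of_injective (fun x => ⟨f t x, (e x).trans ((congrArg (fun y => (f t y)⁻¹) x.2).trans (by simp))⟩)
        fun a b h => Subtype.ext ((f t).injective (congrArg Subtype.val h)))
    obtain ⟨P1, P2, _, _, _, _, ⟨b1, c1⟩, ⟨b2, c2⟩, d, d'⟩ := split C_(V) v (sq' v hv) (fun t ht => ht v hv) a1 (n2 v (sq' v hv) hv1)
    have i2 : (C_(V)).index ≤ 2 := index_centralizer_le hP 2 V hc
    have := phi2 hP C_(V)
    have := (compl ho (a := f v) (by rw [← map_mul, sq' v hv, map_one])).card_mul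
    rw [← e1] at this b2 c2
    by_cases e2 : Nat.card (N1 (f v)) = 3
    · have := c1 e2; have := c2 e2
      have := card_mul_index C_(V)
      have := card_mul_index (frattini P)
      have := (one_lt_card_iff_ne_bot (frattini P)).2 fun e => ht (mem_bot.1 (e ▸ commutatorElement_mem_frattini hP v t))
      have : Nat.card P ≤ 2 * 2 * 2 := by
        rw [← card_mul_index C_(V), d']; exact Nat.mul_le_mul (Nat.mul_le_mul (c2 e2) (c1 e2)) i2
      nlinarith
    · have := Nat.mul_le_mul (b1 e2) (b2 e2)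
      have := (phi2 hP C_(V)).trans (Nat.mul_le_mul d i2)
      nlinarith
  push Not at hB
  obtain ⟨k, hk⟩ := ho
  rcases isCyclic_or_isDSQ_of_normal hP hB with h | ⟨-, m, a, b, h⟩
  · have := H21.Kul.idx_cyc hP h; omega
  rw [h.frattini_eq, h.index_commutator]
  by_contra h4
  haveI : Fact (Nat.card N).Prime := ⟨by
    have : Nat.card N = 5 ∨ Nat.card N = 7 := by omega
    rcases this with e | e <;> rw [e] <;> norm_num⟩
  have := isMulCommutative_mulAut_of_isCyclic (isCyclic_of_prime_card (p := Nat.card N) rfl)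
  exact h.not_comm ⟨⟨fun x y => hf (by rw [map_mul, map_mul, this.is_comm.comm])⟩⟩


/-- Let G be a finite group that is the semidirect product of a normal abelian subgroup N of odd order by a 2-subgroup P, and suppose N is the unique minimal normal subgroup of G. Then the index of the Frattini subgroup of P in P is at most #N − 1. -/
theorem result {G : Type*} [Group G] [Finite G] (N P : Subgroup G) (hN : N.Normal) (hNab : IsMulCommutative ↥N) (hNodd : Odd (Nat.card ↥N)) (hP : IsPGroup 2 ↥P) (hdisj : N ⊓ P = ⊥) (hprod : N ⊔ P = ⊤) (hmin : N ≠ ⊥ ∧ ∀ M : Subgroup G, M.Normal → M ≠ ⊥ → N ≤ M) : (frattini ↥P).index ≤ Nat.card ↥N - 1 := by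
  letI : CommGroup N := { (inferInstance : Group N) with mul_comm := hNab.is_comm.comm }
  haveI := (nontrivial_iff_ne_bot N).2 hmin.1
  have h1 : 1 < Nat.card N := Finite.one_lt_card
  obtain ⟨a, b⟩ := main _ N P ((MulAut.conjNormal : G →* MulAut N).comp P.subtype) le_rfl hNodd hP (by
    rw [injective_iff_map_eq_one]
    intro x hx
    have h2 : (P ⊓ C_(N)).Normal := normalizer_eq_top_iff.1 (eq_top_iff.2 (hprod ▸ sup_le
      ((le_centralizer_iff.1 inf_le_right).trans (centralizer_le_normalizer _))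
      (le_trans (le_inf le_normalizer (by rw [normalizer_eq_top]; exact le_top)) inf_normalizer_le_normalizer_inf)))
    by_contra h3
    refine hmin.1 (eq_bot_iff.2 (hdisj ▸ le_inf le_rfl ((hmin.2 _ h2 fun e => h3 (Subtype.ext (mem_bot.1
      (e ▸ ⟨x.2, fun n hn => ?_⟩)))).trans inf_le_left)))
    have := congrArg Subtype.val (MulEquiv.congr_fun hx ⟨n, hn⟩)
    exact (mul_inv_eq_iff_eq_mul.1 this).symm)
  by_cases e : Nat.card N = 3
  · have := b e
    have := Nat.le_of_dvd Nat.card_pos (index_dvd_card (frattini P)); omega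
  · have := a e; omega

end Cfsg.Agent.S4188
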