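import Cfsg.Statements.S4195
import Mathlib
import Cfsg.Agent.H27.ClassSize
import Cfsg.Agent.H04.Basic
-- import your own Cfsg.Agent.* helpers here

set_option autoImplicit false
open Cfsg

namespace Cfsg.Agent.S4195

/-- Let x be a non-identity element of a finite group G whose centralizer contains a Sylow 2-subgroup of G. If x is conjugate to its inverse, then x has order 2. -/
theorem result {G : Type*} [Group G] [Finite G] (x : G) (hx : x ≠ 1) (P : Sylow 2 G) (hP : (P : Subgroup G) ≤ Subgroup.centralizer ({x} : Set G)) (hreal : IsConj x x⁻¹) : orderOf x = 2 := by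
  haveI : Fact (Nat.Prime 2) := ⟨Nat.prime_two⟩
  obtain ⟨g, hg⟩ := isConj_iff.1 hreal
  by_contra hne
  have hx2 : x⁻¹ ≠ x := by
    intro h
    apply hne
    apply orderOf_eq_prime _ hx
    rw [pow_two]; nth_rewrite 1 [← h]; simp
  have hodd : ¬ 2 ∣ (H27.cent x).index := H27.exists_sylow_le_iff.1 ⟨P, hP⟩
  apply hodd
  have h1 : g ∈ Subgroup.normalizer (H27.cent x : Set G) := by
    rw [H02.mem_normalizer_iff_smul_eq, ← H27.cent_conj, hg, H27.cent_inv]
  have h2 : g ∉ H27.cent x := by
    rw [H27.mem_cent_iff_conj, hg]; exact hx2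
  have h3 : g ^ 2 ∈ H27.cent x := by
    rw [H27.mem_cent_iff_conj]
    calc g ^ 2 * x * (g ^ 2)⁻¹ = g * (g * x * g⁻¹) * g⁻¹ := by rw [pow_two]; group
      _ = g * x⁻¹ * g⁻¹ := by rw [hg]
      _ = (g * x * g⁻¹)⁻¹ := by group
      _ = x := by rw [hg, inv_inv]
  rw [← H04.relIndex_sup_zpowers _ h1 h2 h3]
  exact Subgroup.relIndex_dvd_index_of_le le_sup_left

end Cfsg.Agent.S4195
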