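import Cfsg.Statements.S4196
import Mathlib
import Cfsg.Agent.H27.ClassSize
import Cfsg.Agent.S4195
-- import your own Cfsg.Agent.* helpers here

set_option autoImplicit false
open Cfsg

namespace Cfsg.Agent.S4196

/-- A finite group G has elementary abelian Sylow 2-subgroups (commutative with every element squaring to the identity) if and only if every 2-element of G has a Sylow 2-subgroup in its centralizer and is conjugate to its inverse. -/
theorem result {G : Type*} [Group G] [Finite G] (P : Sylow 2 G) :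
    (IsMulCommutative (P : Subgroup G) ∧ ∀ x ∈ (P : Subgroup G), x ^ 2 = 1) ↔
      ∀ x : G, (∃ k : ℕ, orderOf x = 2 ^ k) → (∃ Q : Sylow 2 G, (Q : Subgroup G) ≤ Subgroup.centralizer ({x} : Set G)) ∧ IsConj x x⁻¹ := by
  haveI : Fact (Nat.Prime 2) := ⟨Nat.prime_two⟩
  constructor
  · rintro ⟨h1, h2⟩ x hx
    obtain ⟨g, hg⟩ := H27.exists_conj_mem_sylow P hx
    have h3 : ¬ 2 ∣ H27.cs (g * x * g⁻¹) := H27.exists_sylow_le_iff.1 ⟨P, fun a ha =>
      H27.mem_cent.2 (Subtype.ext_iff.1 (h1.is_comm.comm (⟨a, ha⟩ : (P : Subgroup G)) ⟨_, hg⟩))⟩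
    rw [H27.cs_conj] at h3
    refine ⟨H27.exists_sylow_le_iff.2 h3, ?_⟩
    have h4 := h2 _ hg
    rw [conj_pow, conj_eq_one_iff, pow_two, mul_eq_one_iff_eq_inv] at h4
    rw [← h4]
  · intro h
    have h2 : ∀ x ∈ (P : Subgroup G), x ^ 2 = 1 := by
      intro x hx
      by_cases hx1 : x = 1
      · simp [hx1]
      obtain ⟨⟨Q, hQ⟩, hr⟩ := h x (H27.orderOf_of_mem_sylow hx)
      rw [← Cfsg.Agent.S4195.result x hx1 Q hQ hr, pow_orderOf_eq_one]
    refine ⟨⟨⟨fun a b => Subtype.ext ?_⟩⟩, h2⟩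
    have ha := h2 a a.2
    have hb := h2 b b.2
    have hab := h2 (a * b) (mul_mem a.2 b.2)
    rw [pow_two, mul_eq_one_iff_eq_inv] at ha hb hab
    show (a : G) * b = b * a
    rw [hab, mul_inv_rev, ← ha, ← hb]

end Cfsg.Agent.S4196
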