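import Mathlib
import Cfsg.Statements.S4250
import Cfsg.Agent.H03.Alperin
import Cfsg.Agent.H03.Focal
import Cfsg.Agent.H26.CharP
import Cfsg.Agent.H27.ClassSize

set_option autoImplicit false
open Cfsg

namespace Cfsg.Agent.S4250

open H03 Subgroup in
theorem aux {G : Type*} [Group G] [Finite G] {p : ℕ} [Fact p.Prime] (P : Sylow p G) (K : Subgroup G)
    (top : ∀ y ∈ normalizer (P : Set G), ∀ a ∈ P, a⁻¹ * (y * a * y⁻¹) ∈ K)
    (base : ∀ Q : Sylow p G,
      ¬ p ∣ (P : Subgroup G).relIndex (normalizer (((P : Subgroup G) ⊓ Q : Subgroup G) : Set G)) →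
      ¬ p ∣ (Q : Subgroup G).relIndex (normalizer (((P : Subgroup G) ⊓ Q : Subgroup G) : Set G)) →
      ∀ x ∈ normalizer (((P : Subgroup G) ⊓ Q : Subgroup G) : Set G), x ∈ Q →
        ∀ a ∈ (P : Subgroup G) ⊓ Q, a⁻¹ * (x * a * x⁻¹) ∈ K) :
    (P : Subgroup G) ⊓ commutator G ≤ K := by
  rw [inf_comm]
  refine commutator_inf_sylow_le P fun x hx g hg => ?_
  refine alperin_tame P (fun A g => ∀ a ∈ A, a⁻¹ * (g * a * g⁻¹) ∈ K)
    (fun A B g h hB a ha => hB a (h ha)) (fun A g h h1 h2 a ha => ?_) top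
    (fun Q _ => base Q) (zpowers x) g (zpowers_le.mpr hx) ?_ x (mem_zpowers x)
  · have := K.mul_mem (h1 a ha) (h2 _ (conj_mem_map_conj g ha))
    convert this using 1
    group
  · rintro _ ⟨k, rfl⟩
    rw [← conj_zpow]; exact zpow_mem hg k

/-- Let P be a Sylow p-subgroup of a finite group G. Call an intersection H = P ∩ Q with a Sylow p-subgroup Q tame when N_P(H) and N_Q(H) are Sylow p-subgroups of N_G(H). Then P ∩ G′ is generated by [P, N_G(P)] together with the commutator subgroups [P ∩ Q, ⟨x⟩] for all tame intersections P ∩ Q and all p-elements x of N_G(P ∩ Q). -/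
theorem result {G : Type*} [Group G] [Finite G] (p : ℕ) [Fact p.Prime] (P : Sylow p G) :
    (P : Subgroup G) ⊓ commutator G =
      ⁅(P : Subgroup G), Subgroup.normalizer ((P : Subgroup G) : Set G)⁆ ⊔
        ⨆ (Q : Sylow p G) (_ : (¬ p ∣ ((P : Subgroup G) ⊓ Subgroup.normalizer (((P : Subgroup G) ⊓ (Q : Subgroup G) : Subgroup G) : Set G)).relIndex (Subgroup.normalizer (((P : Subgroup G) ⊓ (Q : Subgroup G) : Subgroup G) : Set G)) ∧ ¬ p ∣ ((Q : Subgroup G) ⊓ Subgroup.normalizer (((P : Subgroup G) ⊓ (Q : Subgroup G) : Subgroup G) : Set G)).relIndex (Subgroup.normalizer (((P : Subgroup G) ⊓ (Q : Subgroup G) : Subgroup G) : Set G))))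
          (x : G) (_ : x ∈ Subgroup.normalizer (((P : Subgroup G) ⊓ (Q : Subgroup G) : Subgroup G) : Set G) ∧ ∃ k : ℕ, orderOf x = p ^ k),
          ⁅(P : Subgroup G) ⊓ (Q : Subgroup G), Subgroup.zpowers x⁆ := by
  refine le_antisymm (aux P _ (fun y hy a ha => Subgroup.mem_sup_left
    (H03.inv_mul_conj_mem_commutator ha hy)) fun Q h1 h2 x hx hxQ a ha => Subgroup.mem_sup_right ?_) ?_
  · refine Subgroup.mem_iSup_of_mem Q (Subgroup.mem_iSup_of_mem
      ⟨by rwa [Subgroup.inf_relIndex_right], by rwa [Subgroup.inf_relIndex_right]⟩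
      (Subgroup.mem_iSup_of_mem x (Subgroup.mem_iSup_of_mem ⟨hx, H27.orderOf_of_mem_sylow hxQ⟩ ?_)))
    exact H03.inv_mul_conj_mem_commutator ha (Subgroup.mem_zpowers x)
  · refine sup_le (le_inf (H26.commutator_le_of_le_normalizer le_rfl) (H03.commutator_le_commutator' _ _))
      (iSup_le fun Q => iSup_le fun _ => iSup_le fun x => iSup_le fun hx => le_inf ?_
        (H03.commutator_le_commutator' _ _))
    exact (H26.commutator_le_of_le_normalizer (Subgroup.zpowers_le.mpr hx.1)).trans inf_le_left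

end Cfsg.Agent.S4250
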