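import Mathlib
import Cfsg.Statements.S4216
import Cfsg.Agent.S4250

set_option autoImplicit false
open Cfsg

namespace Cfsg.Agent.S4216

/-- Grün's first Theorem: if `P` is a Sylow `p`-subgroup of the finite group `G`, then `P ∩ G'` is the subgroup generated by `P ∩ N_G(P)'` together with the subgroups `P ∩ z P' z⁻¹` for all `z ∈ G`, where `'` denotes the derived subgroup and `N_G(P)` the normalizer of `P`. -/
theorem result {G : Type*} [Group G] [Finite G] {p : ℕ} [Fact p.Prime] (P : Sylow p G) : (P : Subgroup G) ⊓ commutator G = ((P : Subgroup G) ⊓ ⁅Subgroup.normalizer ((P : Subgroup G) : Set G), Subgroup.normalizer ((P : Subgroup G) : Set G)⁆) ⊔ ⨆ z : G, (P : Subgroup G) ⊓ (⁅(P : Subgroup G), (P : Subgroup G)⁆).map (MulAut.conj z).toMonoidHom := by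
  refine le_antisymm (Cfsg.Agent.S4250.aux P _ (fun y hy a ha => Subgroup.mem_sup_left
    ⟨(P : Subgroup G).mul_mem ((P : Subgroup G).inv_mem ha) (H03.conj_mem_of_mem_normalizer hy ha),
      H03.inv_mul_conj_mem_commutator (Subgroup.le_normalizer ha) hy⟩)
    fun Q h1 h2 x hx hxQ a ha => Subgroup.mem_sup_right ?_) ?_
  · obtain ⟨z, rfl⟩ := MulAction.exists_smul_eq G P Q
    refine Subgroup.mem_iSup_of_mem z ⟨(P : Subgroup G).mul_mem ((P : Subgroup G).inv_mem ha.1) (H03.conj_mem_of_mem_normalizer hx ha).1, ?_⟩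
    rw [Subgroup.map_commutator, ← H03.coe_smul_sylow]
    exact H03.inv_mul_conj_mem_commutator ha.2 hxQ
  · refine sup_le (inf_le_inf_left _ (H03.commutator_le_commutator' _ _))
      (iSup_le fun z => inf_le_inf_left _ ?_)
    rw [Subgroup.map_commutator]
    exact H03.commutator_le_commutator' _ _

end Cfsg.Agent.S4216
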