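import Cfsg.Statements.S4230
import Cfsg.Agent.H27.Zsigmondy
-- import your own Cfsg.Agent.* helpers here

set_option autoImplicit false
open Cfsg

namespace Cfsg.Agent.S4230

/-- Let p be an odd prime, q a natural number not divisible by p, and e the multiplicative order of q modulo p. For a natural number f, p divides the value at q of the f-th cyclotomic polynomial if and only if f = e·p^j for some j ≥ 0. -/
theorem result (p q f : ℕ) (hp : p.Prime) (hp2 : p ≠ 2) (hpq : ¬ p ∣ q) :
    ((p : ℤ) ∣ (Polynomial.cyclotomic f ℤ).eval (q : ℤ)) ↔ ∃ j : ℕ, f = orderOf (q : ZMod p) * p ^ j := by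
  rcases Nat.eq_zero_or_pos f with rfl | hf
  · haveI := Fact.mk hp
    simp only [Polynomial.cyclotomic_zero, Polynomial.eval_one]
    constructor
    · intro h
      exact absurd h (Nat.prime_iff_prime_int.1 hp).not_dvd_one
    · rintro ⟨j, hj⟩
      exfalso
      have h1 := H27.not_dvd_orderOf hp hpq
      rcases Nat.mul_eq_zero.1 hj.symm with h | h
      · exact h1 (h ▸ dvd_zero p)
      · exact (pow_pos hp.pos j).ne' h
  · rw [H27.prime_dvd_cyclotomic_eval_iff hp hf]
    exact ⟨fun ⟨j, _, h⟩ => ⟨j, h⟩, fun ⟨j, h⟩ => ⟨j, H27.not_dvd_orderOf hp hpq, h⟩⟩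

end Cfsg.Agent.S4230
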