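import Mathlib
import Cfsg.Statements.S4231
import Cfsg.Agent.H03.SymD

set_option autoImplicit false
open Cfsg

namespace Cfsg.Agent.S4231

/-- Let n ≥ 5 and let G be a group of automorphisms of the alternating group of degree n containing all inner automorphisms. If p ≠ q are primes and G has no element of order pq, then every Sylow p-subgroup of G is abelian or every Sylow q-subgroup of G is abelian. -/
theorem result (n : ℕ) (hn : 5 ≤ n) (G : Subgroup (MulAut (alternatingGroup (Fin n))))
    (hG : (MulAut.conj : alternatingGroup (Fin n) →* MulAut (alternatingGroup (Fin n))).range ≤ G)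
    (p q : ℕ) [Fact p.Prime] [Fact q.Prime] (hpq : p ≠ q) (h : ∀ g : G, orderOf g ≠ p * q) :
    (∀ P : Sylow p G, IsMulCommutative (P : Subgroup G)) ∨ (∀ Q : Sylow q G, IsMulCommutative (Q : Subgroup G)) := by
  open Equiv.Perm Subgroup H03.Sym in
  have hi : Function.Injective (MulAut.conj : alternatingGroup (Fin n) →* _) :=
    (injective_iff_map_eq_one _).2 fun x hx => mem_bot.1 (alternatingGroup.center_eq_bot (α := Fin n)
      (by simp; omega) ▸ mem_center_iff.2 fun g => (mul_inv_eq_iff_eq_mul.1 (DFunLike.congr_fun hx g)).symm)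
  have key : ∀ (r : ℕ) [Fact r.Prime], r ≠ 2 → n < r ^ 2 → ∀ R : Sylow r G, IsMulCommutative (R : Subgroup G) := by
    intro r hr h2 h3 R
    have h4 : ∀ x : R, (x : G).1 ∈ (MulAut.conj : alternatingGroup (Fin n) →* _).range := fun x =>
      let ⟨k, hk⟩ := R.isPGroup' x
      mem_of_pow_four (hr.out.odd_of_ne_two h2) (congrArg (fun y : R => (y : G).1) hk) (aut_pow_four hn _)
    exact comm_of_lt_sq R.isPGroup' ((alternatingGroup _).subtype.comp ((MonoidHom.ofInjective hi).symm.toMonoidHom.comp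
      ((G.subtype.comp R.1.subtype).codRestrict _ h4))) ((subtype_injective _).comp
      ((MonoidHom.ofInjective hi).symm.injective.comp fun x y e => Subtype.ext (Subtype.ext
        (congrArg (fun z : (MulAut.conj : alternatingGroup (Fin n) →* _).range => z.1) e)))) (by simpa)
  have no : ∀ m : Multiset ℕ, m.sum ≤ n → (∀ a ∈ m, 2 ≤ a) → Even (m.sum + m.card) → m.lcm ≠ p * q := by
    intro m h1 h2 h3 h4
    obtain ⟨g, rfl⟩ := (exists_with_cycleType_iff (Fin n)).2 ⟨by simpa, h2⟩
    refine h ⟨_, hG ⟨⟨g, by rw [mem_alternatingGroup, sign_of_cycleType, h3.neg_one_pow]⟩, rfl⟩⟩ ?_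
    rw [← orderOf_coe, orderOf_injective _ hi, ← orderOf_coe, ← h4, lcm_cycleType]
  have hp : p.Prime := Fact.out
  have hq : q.Prime := Fact.out
  have two : ∀ r, r.Prime → r ≠ 2 → p * q = 2 * r → n < r ^ 2 := fun r hr h2 h3 => by
    by_contra h4
    have h5 := hr.two_le.lt_of_ne' h2
    obtain ⟨k, hk⟩ := hr.odd_of_ne_two h2
    refine no {r, 2, 2} (by simp; nlinarith) (by simp; omega) ⟨k + 4, by simp; omega⟩ ?_
    simp [h3, lcm_eq_nat_lcm, ((Nat.coprime_primes hr Nat.prime_two).2 h2).lcm_eq_mul, mul_comm]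
  by_cases h1 : p = 2
  · exact .inr (key q (by omega) (two q hq (by omega) (by rw [h1])))
  by_cases h2 : q = 2
  · exact .inl (key p h1 (two p hp h1 (by rw [h2, mul_comm])))
  by_cases h3 : n < p ^ 2
  · exact .inl (key p h1 h3)
  refine .inr (key q h2 (by_contra fun h4 => ?_))
  obtain ⟨k, hk⟩ := hp.odd_of_ne_two h1
  obtain ⟨l, hl⟩ := hq.odd_of_ne_two h2
  refine no {p, q} (by simp; nlinarith [hp.two_le, hq.two_le]) (by simp [hp.two_le, hq.two_le])
    ⟨k + l + 2, by simp; omega⟩ ?_
  simp [lcm_eq_nat_lcm, ((Nat.coprime_primes hp hq).2 hpq).lcm_eq_mul]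

end Cfsg.Agent.S4231
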