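import Cfsg.Statements.S4236
import Mathlib
import Cfsg.Agent.H27.SylowSmall
-- import your own Cfsg.Agent.* helpers here

set_option autoImplicit false
open Cfsg

namespace Cfsg.Agent.S4236

open scoped Pointwise commutatorElement

/-- No finite group has exactly 35 Sylow 17-subgroups. -/
theorem result {G : Type*} [Group G] [Finite G] : Nat.card (Sylow 17 G) ≠ 35 := by
  intro h
  haveI : Fact (Nat.Prime 17) := ⟨by norm_num⟩
  obtain ⟨S, _, _, hS, hc, hd, hn⟩ := H27.exists_simple_card_sylow h (by norm_num) (by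
    intro hp
    obtain ⟨q, -, hq⟩ := isPrimePow_iff_unique_prime_dvd.1 hp
    have h3 := hq 7 ⟨by norm_num, by norm_num⟩
    have h5 := hq 5 ⟨by norm_num, by norm_num⟩
    omega) (by
    intro d hd h1
    have := Nat.le_of_dvd (by norm_num) hd
    interval_cases d <;> omega)
  obtain ⟨P⟩ : Nonempty (Sylow 17 S) := inferInstance
  obtain ⟨h1, h2⟩ := H27.centralizer_eq_of_card_sylow hc (by norm_num) hn hd P
  have h3 := H27.card_eq_index_mul (P : Subgroup S)
  have h4 := H27.relIndex_centralizer_dvd_pred h1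
  have h5 := H27.relIndex_centralizer_ne_one hc hd P
  obtain ⟨g, -, hg⟩ := H27.exists_relIndex_dvd_orderOf h1
  have h6 := P.card_eq_index_normalizer
  rw [hn] at h6
  change Nat.card S = (Subgroup.normalizer (P : Set S)).index *
      (Subgroup.centralizer (P : Set S)).relIndex (Subgroup.normalizer (P : Set S)) *
        Nat.card (Subgroup.centralizer (P : Set S)) at h3
  change (Subgroup.centralizer (P : Set S)).relIndex (Subgroup.normalizer (P : Set S)) ∣ _ at h4 hg
  generalize (Subgroup.centralizer (P : Set S)).relIndex (Subgroup.normalizer (P : Set S)) = e at *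
  rw [← h6, h2, h1] at h3
  obtain ⟨k, -, hk⟩ := (Nat.dvd_prime_pow Nat.prime_two).1 (show e ∣ 2 ^ 4 from h4)
  have hk0 : k ≠ 0 := by rintro rfl; exact h5 hk
  obtain ⟨T⟩ : Nonempty (Sylow 2 S) := inferInstance
  have hT : Nat.card (T : Subgroup S) = e := by
    rw [T.card_eq_multiplicity, h3, hk, show 35 * 2 ^ k * 17 = 2 ^ k * 595 by ring,
      Nat.factorization_mul (by positivity) (by norm_num), Finsupp.add_apply,
      Nat.factorization_eq_zero_of_not_dvd (by norm_num : ¬ 2 ∣ 595),
      Nat.Prime.factorization_pow Nat.prime_two]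
    simp
  refine H27.not_isCyclic_sylow_minFac hc ?_ T (H27.isCyclic_sylow_of_card_dvd_orderOf T (hT ▸ hg))
  rw [Nat.minFac_eq_two_iff, h3, hk]
  exact ((dvd_pow_self 2 hk0).mul_left _).mul_right _

end Cfsg.Agent.S4236
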