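import Mathlib
import Cfsg.Statements.S4237
import Cfsg.Agent.H21.Kul
import Cfsg.Agent.H06.Degree

set_option autoImplicit false
open Cfsg

namespace Cfsg.Agent.S4237

/-- Let G be a finite group, p a prime and a a natural number such that p^(a+1) divides the order of G. Then the number of subgroups of G of order p^a is congruent to 1 or to 1 + p modulo p². -/
theorem result {G : Type*} [Group G] [Finite G] (p a : ℕ) (hp : p.Prime) (hdvd : p ^ (a + 1) ∣ Nat.card G) :
    Nat.card {H : Subgroup G // Nat.card H = p ^ a} ≡ 1 [MOD p ^ 2] ∨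
      Nat.card {H : Subgroup G // Nat.card H = p ^ a} ≡ 1 + p [MOD p ^ 2] := by
  haveI := Fact.mk hp
  change {H : Subgroup G | Nat.card H = p ^ a}.ncard ≡ 1 [MOD p ^ 2] ∨ {H : Subgroup G | Nat.card H = p ^ a}.ncard ≡ 1 + p [MOD p ^ 2]
  rcases eq_or_ne p 2 with rfl | h2
  · have := H04.ncard_card_modEq_one (G := G) (p := 2) ((pow_dvd_pow 2 a.le_succ).trans hdvd)
    unfold Nat.ModEq at this ⊢; omega
  obtain ⟨P, hP⟩ := BG.sylow_exists hp (⊤ : Subgroup G)
  have h1 := hP.pow_dvd hp (by rwa [Subgroup.card_top])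
  have h3 := H21.Kul.red hP h1
  rw [← H04.ncard_map_subtype] at h3
  simp only [Subgroup.card_map_of_injective P.subtype_injective] at h3
  rcases eq_or_ne a 0 with rfl | ha
  · left
    rw [show {H : Subgroup G | Nat.card H = p ^ 0} = {⊥} from Set.ext fun H => by simp, Set.ncard_singleton]
  by_cases hc : IsCyclic P
  · have := H21.Kul.T a P (hP.pg hp) h1
    obtain ⟨K, hK⟩ := Sylow.exists_subgroup_card_pow_prime p h1
    rw [show {H : Subgroup P | IsCyclic H ∧ Nat.card H = p ^ (a + 1)} = {K} from Set.ext fun H =>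
      ⟨fun h => BG.eq_of_le_of_card_eq (fun x hx => H06.mem_of_pow_card_eq_one_of_isCyclic K (by
        rw [hK, ← h.2]; exact congrArg Subtype.val (pow_card_eq_one' (x := (⟨x, hx⟩ : H))))) (h.2.trans hK.symm),
        fun h => h ▸ ⟨inferInstance, hK⟩⟩, Set.ncard_singleton, mul_one] at this
    exact Or.inl (h3.trans (Nat.ModEq.add_right_cancel' p this))
  · exact Or.inr (h3.trans (H21.Kul.kul (hP.pg hp) hc (fun e => absurd e h2) ha h1))

end Cfsg.Agent.S4237
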