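import Mathlib
import Cfsg.Statements.S4238
import Cfsg.Agent.H16.PhiAct
import Cfsg.Agent.H02.PPrimeCore

set_option autoImplicit false
open Cfsg

namespace Cfsg.Agent.S4238

open BG Subgroup

theorem aux_bad {X : Type*} [Group X] [Finite X] {p q : ℕ} (hp : p.Prime) (hq : q.Prime) (hqp : q ≠ p)
    {W : Subgroup X} {z : X} (hW : IsElementaryAbelian p W) (hz : orderOf z = q)
    (hF : Frob (W ⊔ zpowers z) W (zpowers z)) :
    pPrimeCore p ↥(W ⊔ zpowers z) = ⊥ ∧
      ∀ k : ↥(W ⊔ zpowers z), orderOf k ≠ Monoid.exponent ↥(W ⊔ zpowers z) := by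
  haveI : Fact p.Prime := ⟨hp⟩
  have hWp : IsPGroup p W := fun v => ⟨1, Subtype.ext (by simpa using hW.2 v v.2)⟩
  obtain ⟨⟨w0, hw0⟩, hw1⟩ := ne_bot_iff_exists_ne_one.1 hF.ker_ne
  have hw1 : w0 ≠ 1 := fun h => hw1 (Subtype.ext h)
  have hWab := abelian_iff.1 hW.1
  constructor
  · rw [eq_bot_iff]
    intro x hx
    haveI : (pPrimeCore p ↥(W ⊔ zpowers z)).Normal := inferInstance
    have hcop : ∀ y ∈ pPrimeCore p ↥(W ⊔ zpowers z), (y : X) ∈ W → y = 1 := by
      intro y hy hyW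
      have h1 : orderOf y ∣ p := orderOf_dvd_of_pow_eq_one (Subtype.ext (hW.2 y hyW))
      exact orderOf_eq_one_iff.1 (Nat.eq_one_of_dvd_coprimes (H02.pPrimeCore_coprime p _)
        (orderOf_dvd_natCard _ hy) h1)
    obtain ⟨w, hw, a, ha, hx'⟩ := hF.sd.mem.1 x.2
    have hxN : (x : X) ∈ N_(W) := (sup_le le_normalizer hF.sd.norm : _ ≤ N_(W)) x.2
    have h1 := hcop (x * (⟨w0, mem_sup_left hw0⟩ * x⁻¹ * (⟨w0, mem_sup_left hw0⟩)⁻¹))
      (mul_mem hx (Normal.conj_mem inferInstance _ (inv_mem hx) _)) (by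
        have := W.mul_mem ((mem_normalizer_iff.1 hxN _).1 hw0) (W.inv_mem hw0)
        simpa [mul_assoc] using this)
    have h2 : (x : X) * w0 = w0 * x := by
      have := congrArg Subtype.val h1
      simp only [coe_mul, coe_inv, coe_one] at this
      calc (x : X) * w0 = (x * (w0 * (x : X)⁻¹ * w0⁻¹)) * (w0 * x) := by group
        _ = _ := by rw [this, one_mul]
    have ha1 : a = 1 := by
      by_contra hne
      have h3 : w0 ∈ W ⊓ C_[a] := by
        refine mem_inf.2 ⟨hw0, mem_cent1.2 ?_⟩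
        rw [← hx', mul_assoc, ← mul_assoc w0, hWab hw w0 hw0, mul_assoc] at h2
        exact (mul_left_cancel h2).symm
      rw [hF.reg a ha hne, mem_bot] at h3
      exact hw1 h3
    rw [ha1, mul_one] at hx'
    exact hcop x hx (hx' ▸ hw)
  · intro k hk
    have h1 : p ∣ orderOf k := by
      rw [hk, ← orderOf_eq_prime (x := (⟨w0, mem_sup_left hw0⟩ : ↥(W ⊔ zpowers z)))
        (Subtype.ext (hW.2 w0 hw0)) (fun h => hw1 (congrArg Subtype.val h))]
      exact Monoid.order_dvd_exponent _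
    have h2 : q ∣ orderOf k := by
      rw [hk, ← hz, ← orderOf_mk z (mem_sup_right (mem_zpowers z) : z ∈ W ⊔ zpowers z)]
      exact Monoid.order_dvd_exponent _
    rw [← orderOf_coe] at h1 h2
    obtain ⟨w, hw, a, ha, hk'⟩ := hF.sd.mem.1 k.2
    by_cases ha1 : a = 1
    · rw [ha1, mul_one] at hk'
      have : orderOf (k : X) ∣ p := orderOf_dvd_of_pow_eq_one (hW.2 _ (hk' ▸ hw))
      exact hqp ((Nat.prime_dvd_prime_iff_eq hq hp).1 (h2.trans this))
    · have h3 := H16.mul_pow_mul_inv_mem hw (hF.sd.norm ha) q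
      have h4 : a ^ q = 1 := orderOf_dvd_iff_pow_eq_one.1 (hz ▸ orderOf_dvd_of_mem_zpowers ha)
      rw [h4, inv_one, mul_one] at h3
      have h5 : (w * a) ^ q ∈ W ⊓ C_[a] := by
        refine mem_inf.2 ⟨h3, mem_cent1.2 ?_⟩
        have h6 : (w * a) ^ q * (w * a) = (w * a) * (w * a) ^ q := (Commute.pow_self _ q).eq
        rw [← mul_assoc, ← hWab h3 w hw, mul_assoc, mul_assoc] at h6
        exact mul_left_cancel h6
      rw [hF.reg a ha ha1, mem_bot, hk'] at h5
      exact hqp ((Nat.prime_dvd_prime_iff_eq hp hq).1 (h1.trans (orderOf_dvd_of_pow_eq_one h5))).symm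

/-- Let G be a finite group and p a prime. Then G has a normal p-complement if and only if every section K = H/N of G (N a normal subgroup of a subgroup H) whose largest normal subgroup of order prime to p is trivial contains an element whose order equals the exponent of K. -/
theorem result {G : Type*} [Group G] [Finite G] (p : ℕ) [Fact p.Prime] :
    Cfsg.HasNormalPComplement p G ↔
      ∀ (H : Subgroup G) (N : Subgroup H) [N.Normal], Cfsg.pPrimeCore p (H ⧸ N) = ⊥ →
        ∃ k : H ⧸ N, orderOf k = Monoid.exponent (H ⧸ N) := by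
  have hp : p.Prime := Fact.out
  constructor
  · intro h H N _ hO
    obtain ⟨K, _, hK, hq⟩ := H03.hasNPC_iff_exists.1 (H03.HasNPC.quotient (H03.HasNPC.subgroup h H) N)
    have hK0 : K = ⊥ := eq_bot_iff.2 (hO ▸ H02.le_pPrimeCore hK)
    subst hK0
    have hP : IsPGroup p (H ⧸ N) := hq.of_equiv QuotientGroup.quotientBot
    obtain ⟨n, hn⟩ := IsPGroup.iff_card.1 hP
    obtain ⟨g, hg⟩ := hp.exists_orderOf_eq_pow_factorization_exponent (H ⧸ N)
    refine ⟨g, ?_⟩
    obtain ⟨m, -, hm⟩ := (Nat.dvd_prime_pow hp).1 (hn ▸ Group.exponent_dvd_nat_card (G := H ⧸ N))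
    rw [hg, hm, hp.factorization_pow]; simp
  · intro h
    by_contra hn
    obtain ⟨q, hq, hqp, X, _, _, hX, W, z, hW, hz, hF⟩ := H16.exists_frob_sec_of_not_hasNPC hn
    obtain ⟨H, φ, hφ⟩ := (H17.Sec.of_subgroup (H16.sec_refl ↥(W ⊔ zpowers z))).trans hX
    obtain ⟨h1, h2⟩ := aux_bad hp hq hqp hW hz hF
    let e := QuotientGroup.quotientKerEquivOfSurjective φ hφ
    obtain ⟨k, hk⟩ := h H φ.ker (by rw [← H02.pPrimeCore_comap_equiv e, h1, MonoidHom.comap_bot]; exact (MonoidHom.ker_eq_bot_iff _).2 e.injective)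
    exact h2 (e k) (by rw [e.orderOf_eq, hk, Monoid.exponent_eq_of_mulEquiv e])

end Cfsg.Agent.S4238
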