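import Cfsg.Statements.S4240
import Mathlib
import Cfsg.Agent.H27.NilpMax2
import Cfsg.Agent.S0205
-- import your own Cfsg.Agent.* helpers here

set_option autoImplicit false
open Cfsg

namespace Cfsg.Agent.S4240

open scoped Pointwise commutatorElement

universe v in
theorem solv {A : Type*} [Group A] [Finite A] [Group.IsSolvable A] (n : ℕ) :
    ∀ (G : Type v) [Group G] [Finite G] (φ : A →* MulAut G), Nat.card G = n →
      (Nat.card A).Coprime (Nat.card G) →
      (∀ H : Subgroup G, H ≠ ⊤ → H27.Inv φ H → Group.IsNilpotent H) → Group.IsSolvable G := by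
  induction n using Nat.strong_induction_on with
  | _ n ih =>
  intro G _ _ φ hn hc h
  by_cases h1 : ∃ N : Subgroup G, N.Normal ∧ H27.Inv φ N ∧ N ≠ ⊥ ∧ N ≠ ⊤
  · obtain ⟨N, hN, h1, h2, h3⟩ := h1
    haveI := h N h3 h1
    haveI := ih _ (hn ▸ H01.card_quotient_lt N h2) (G ⧸ N) (H27.quotAct φ N h1) rfl
      (hc.coprime_dvd_right (Subgroup.card_quotient_dvd_card N)) fun H h4 h5 => by
        have hs := QuotientGroup.mk'_surjective N
        haveI := h (H.comap (QuotientGroup.mk' N)) (fun e => h4 (by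
          rw [← Subgroup.map_comap_eq_self_of_surjective hs H, e, Subgroup.map_top_of_surjective _ hs]))
          (h1.comap_quot h5)
        rw [← Subgroup.map_comap_eq_self_of_surjective hs H]
        exact H27.isNilpotent_map _ _
    exact H02.isSolvable_of_normal_of_quotient N
  push Not at h1
  by_contra hs
  have hpg : ∀ (q : ℕ) [Fact q.Prime], ¬ IsPGroup q G := fun q _ h => hs (by
    have := h.isNilpotent
    infer_instance)
  obtain ⟨q, hq, hd, hq2⟩ : ∃ q : ℕ, q.Prime ∧ q ∣ Nat.card G ∧ q ≠ 2 := by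
    by_contra h
    push Not at h
    exact hpg 2 (IsPGroup.of_card (Nat.eq_prime_pow_of_unique_prime_dvd Nat.card_pos.ne'
      fun hd hd' => h _ hd hd'))
  haveI : Fact q.Prime := ⟨hq⟩
  obtain ⟨Q, hQ, h2, -⟩ := H27.exists_inv_isSyl (φ := φ) (K := ⊤) (by rwa [Subgroup.card_top])
    (Or.inl inferInstance) H27.inv_top H27.inv_bot (IsPGroup.of_bot (p := q)) bot_le
  obtain ⟨M, hQM, hM⟩ := Finite.exists_le_maximal (p := fun M : Subgroup G => M ≠ ⊤ ∧ H27.Inv φ M)
    (a := Q) ⟨fun e => hpg q ((e ▸ hQ.pg).of_equiv Subgroup.topEquiv), h2⟩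
  have h3 : H27.MaxInv φ M := ⟨hM.1.1, hM.1.2, fun H a b c => le_antisymm (hM.2 ⟨b, c⟩ a) a⟩
  haveI := h M h3.ne h3.inv
  have h4 : M.normalCore = ⊥ := by
    by_contra h4
    exact h3.ne (eq_top_iff.2 ((h1 _ inferInstance h3.inv.normalCore h4).ge.trans M.normalCore_le))
  have hN := h3.hasNPC_odd h4 hq2
    (H26.dvd_card_of_isPGroup hQ.pg (hQ.ne_bot (by rwa [Subgroup.card_top])) hQM)
  by_cases h5 : pResidual q G = ⊥
  · exact hpg q (H03.pResidual_eq_bot_iff.1 h5)
  · rw [H03.hasNPC_iff_not_dvd_card_pResidual, h1 _ inferInstance (H27.inv_of_characteristic _) h5,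
      Subgroup.card_top] at hN
    exact hN hd

/-- Let a finite group A act by automorphisms on a finite group G of order coprime to that of A. Suppose every maximal A-invariant proper subgroup of G is nilpotent while G is not. Then G is solvable, the order of G has the form p^a·q^b for two distinct primes p and q, and G has a normal A-invariant Sylow subgroup for some prime dividing its order. -/
theorem result {A G : Type*} [Group A] [Group G] [Finite A] [Finite G] [MulDistribMulAction A G]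
    (hcop : (Nat.card A).Coprime (Nat.card G))
    (hmax : ∀ H : Subgroup G, H ≠ ⊤ → (∀ a : A, ∀ x ∈ H, a • x ∈ H) →
      (∀ K : Subgroup G, H < K → (∀ a : A, ∀ x ∈ K, a • x ∈ K) → K = ⊤) → Group.IsNilpotent H)
    (hG : ¬ Group.IsNilpotent G) :
    Group.IsSolvable G ∧
      (∃ p q a b : ℕ, p.Prime ∧ q.Prime ∧ p ≠ q ∧ Nat.card G = p ^ a * q ^ b) ∧
      ∃ (p : ℕ) (P : Sylow p G), p.Prime ∧ p ∣ Nat.card G ∧ (P : Subgroup G).Normal ∧ (∀ a : A, ∀ x ∈ (P : Subgroup G), a • x ∈ (P : Subgroup G)) := by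
  let φ := MulDistribMulAction.toMulAut A G
  have h : ∀ H : Subgroup G, H ≠ ⊤ → H27.Inv φ H → Group.IsNilpotent H := by
    intro H h1 h2
    obtain ⟨M, hHM, hM⟩ := Finite.exists_le_maximal (p := fun M : Subgroup G => M ≠ ⊤ ∧ H27.Inv φ M)
      (a := H) ⟨h1, h2⟩
    haveI := hmax M hM.1.1 hM.1.2 fun K h3 h4 => by
      by_contra h5
      exact h3.not_ge (hM.2 ⟨h5, h4⟩ h3.le)
    exact Group.nilpotent_of_mulEquiv (Subgroup.subgroupOfEquivOfLe hHM)
  have hs : Group.IsSolvable G := by
    rcases Nat.even_or_odd (Nat.card G) with h1 | h1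
    · haveI := Cfsg.Agent.S0205.result (G := A)
        (Nat.coprime_two_right.1 (hcop.coprime_dvd_right h1.two_dvd))
      exact solv _ G φ rfl hcop h
    · exact Cfsg.Agent.S0205.result h1
  haveI : Nontrivial G := by
    by_contra h1
    rw [not_nontrivial_iff_subsingleton] at h1
    exact hG inferInstance
  obtain ⟨q, hq, hd⟩ := Nat.exists_prime_and_dvd (n := (commutator G).index) fun e =>
    (Group.IsSolvable.commutator_lt_top_of_nontrivial G).ne (Subgroup.index_eq_one.1 e)
  haveI := Fact.mk hq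
  haveI := h (pResidual q G) (fun e => H03.pResidual_eq_top_iff.1 e hd) (H27.inv_of_characteristic _)
  obtain ⟨Q, hQ, h2, -⟩ := H27.exists_inv_isSyl (φ := φ) (K := ⊤) (by rwa [Subgroup.card_top])
    (Or.inr (Group.isSolvable_of_isSolvable_injective (⊤ : Subgroup G).subtype_injective))
    H27.inv_top H27.inv_bot (IsPGroup.of_bot (p := q)) bot_le
  obtain ⟨Q, rfl⟩ := hQ.exists_sylow_top
  have h3 : ∀ (r : ℕ) [Fact r.Prime], r ≠ q → ∀ R : Sylow r G, (R : Subgroup G).Normal := by
    intro r hr hrq R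
    have h4 : (R : Subgroup G) ≤ pResidual q G := H03.le_pResidual_of_coprime (by
      obtain ⟨k, hk⟩ := R.isPGroup'.exists_card_eq
      rw [hk]; exact ((Nat.coprime_primes hr.out hq).2 hrq).pow_left k)
    have h5 := H27.le_normalizer_of_isSyl_nilpotent (H26.isSyl_of_le R h4)
    rw [← Subgroup.normalizer_eq_top_iff, eq_top_iff,
      ← (H26.isSyl_of_le R h4).frattini_sup le_top (H01.le_normalizer_of_normal _ _)]
    exact sup_le h5 inf_le_right
  obtain ⟨r, hr, hrq, R, hR⟩ : ∃ (r : ℕ) (_ : Fact r.Prime), r ≠ q ∧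
      ∃ R : Sylow r G, (R : Subgroup G) ⊔ Q = ⊤ := by
    by_contra h4
    push Not at h4
    have h5 : (Q : Subgroup G).Normal := by
      rw [← Subgroup.normalizer_eq_top_iff, ← Subgroup.index_eq_one]
      by_contra h5
      obtain ⟨r, hr, hd⟩ := Nat.exists_prime_and_dvd h5
      haveI := Fact.mk hr
      by_cases hrq : r = q
      · subst hrq
        exact Q.not_dvd_index (hd.trans (Subgroup.index_dvd_of_le Subgroup.le_normalizer))
      obtain ⟨R⟩ : Nonempty (Sylow r G) := inferInstance
      haveI := h3 r hrq R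
      haveI : (R : Subgroup G).Characteristic := Sylow.characteristic_of_normal R inferInstance
      haveI := h _ (h4 r inferInstance hrq R) ((H27.inv_of_characteristic _).sup h2)
      exact R.not_dvd_index (hd.trans (Subgroup.index_dvd_of_le (le_sup_left.trans
        (H27.le_normalizer_of_isSyl_nilpotent (H26.isSyl_of_le Q le_sup_right)))))
    refine hG (((Group.isNilpotent_of_finite_tfae (G := G)).out 0 3).2 ?_)
    intro r hr R
    by_cases hrq : r = q
    · subst hrq
      haveI := Sylow.unique_of_normal Q h5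
      rwa [Subsingleton.elim R Q]
    · exact h3 r hrq R
  haveI := h3 r hrq R
  haveI : (R : Subgroup G).Characteristic := Sylow.characteristic_of_normal R inferInstance
  obtain ⟨a, ha⟩ := R.isPGroup'.exists_card_eq
  obtain ⟨b, hb⟩ := Q.isPGroup'.exists_card_eq
  have h4 := H01.card_sup_mul_card_inf (Q : Subgroup G) R
  rw [sup_comm, hR, (IsPGroup.disjoint_of_ne q r hrq.symm _ _ Q.isPGroup' R.isPGroup').eq_bot,
    Subgroup.card_top, Subgroup.card_bot, mul_one, ha, hb] at h4
  refine ⟨hs, ⟨q, r, b, a, hq, hr.out, hrq.symm, h4⟩, r, R, hr.out, ?_, inferInstance,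
    H27.inv_of_characteristic (φ := φ) _⟩
  by_contra h5
  have h6 : a = 0 := by
    by_contra h6
    exact h5 (h4 ▸ Dvd.dvd.mul_left (dvd_pow_self r h6) _)
  rw [h6, pow_zero, mul_one] at h4
  exact hG (IsPGroup.of_card h4).isNilpotent

end Cfsg.Agent.S4240
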