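import Cfsg.Statements.S4242
import Mathlib
import Cfsg.Agent.H16.Schmidt
import Cfsg.Agent.H01.Coprime2
import Cfsg.Agent.H03.Frobenius
import Cfsg.Agent.H26.Syl
-- import your own Cfsg.Agent.* helpers here

set_option autoImplicit false
open Cfsg

namespace Cfsg.Agent.S4242

open scoped Pointwise commutatorElement

/-- Let G be a finite group and p a prime dividing its order. Every maximal subgroup of G of order divisible by p is nilpotent if and only if G is nilpotent, or G is a minimal non-nilpotent group, or G is the internal direct product of a normal subgroup of order p and a normal minimal non-nilpotent subgroup of order prime to p. -/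
theorem result {G : Type*} [Group G] [Finite G] (p : ℕ) (hp : p.Prime) (hpG : p ∣ Nat.card G) :
    (∀ M : Subgroup G, IsCoatom M → p ∣ Nat.card M → Group.IsNilpotent M) ↔
      (Group.IsNilpotent G ∨ Cfsg.IsMinimalNonNilpotent G ∨
        ∃ Z K : Subgroup G, Z.Normal ∧ K.Normal ∧ Z ⊓ K = ⊥ ∧ Z ⊔ K = ⊤ ∧ Nat.card Z = p ∧
          Cfsg.IsMinimalNonNilpotent K ∧ ¬ p ∣ Nat.card K) := by
  haveI := Fact.mk hp
  constructor
  · intro h
    have h1 : ∀ H : Subgroup G, H ≠ ⊤ → p ∣ Nat.card H → Group.IsNilpotent H := fun H hH hd => by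
      obtain ⟨M, hM, hle⟩ := (eq_top_or_exists_le_coatom H).resolve_left hH
      haveI := h M hM (hd.trans (Subgroup.card_dvd_of_le hle))
      exact H02.isNilpotent_of_le hle
    by_cases hG : Group.IsNilpotent G
    · exact Or.inl hG
    by_cases hG' : ∀ H : Subgroup G, H ≠ ⊤ → Group.IsNilpotent H
    · exact Or.inr (Or.inl ⟨hG, hG'⟩)
    right; right
    push Not at hG'
    obtain ⟨H, hH, hH'⟩ := hG'
    obtain ⟨M, hM, hle⟩ := (eq_top_or_exists_le_coatom H).resolve_left hH
    have h2 : ¬ Group.IsNilpotent M := fun _ => hH' (H02.isNilpotent_of_le hle)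
    have h3 : ¬ p ∣ Nat.card M := fun hd => h2 (h M hM hd)
    have h3' : (Nat.card M).Coprime p := H03.coprime_iff_not_dvd.2 h3
    have h4 : ∀ D Q : Subgroup G, IsPGroup p D → D ≠ ⊥ → Q < M →
        D ≤ Subgroup.normalizer (Q : Set G) ∨ Q ≤ Subgroup.normalizer (D : Set G) →
        Group.IsNilpotent (D ⊔ Q : Subgroup G) := by
      intro D Q hD hD1 hQ hn
      refine h1 _ (fun e => ?_) (H26.dvd_card_of_isPGroup hD hD1 le_sup_left)
      obtain ⟨k, hk⟩ := hD.exists_card_eq
      have h5 : Nat.card G ∣ Nat.card D * Nat.card Q := by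
        rw [← Subgroup.card_top, ← e]
        rcases hn with hn | hn
        · exact ⟨_, (H01.card_sup_mul_card_inf' hn).symm⟩
        · rw [sup_comm, mul_comm]; exact ⟨_, (H01.card_sup_mul_card_inf' hn).symm⟩
      rw [hk] at h5
      exact (H01.card_lt_of_lt hQ).not_ge (Nat.le_of_dvd Nat.card_pos
        ((h3'.pow_right k).dvd_of_dvd_mul_left ((Subgroup.card_subgroup_dvd_card M).trans h5)))
    have h5 : ∀ D : Subgroup G, IsPGroup p D → D ≠ ⊥ →
        D ≤ Subgroup.normalizer (M : Set G) ∨ D.Normal → M ≤ Subgroup.centralizer (D : Set G) := by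
      intro D hD hD1 hn
      obtain ⟨k, hk⟩ := hD.exists_card_eq
      apply H01.le_of_sylow_le
      intro q hq
      haveI := Fact.mk hq
      obtain ⟨Q, hQ1, hQ2, hQ3, hQ4⟩ : ∃ Q : Subgroup G, Q ≤ M ∧ IsPGroup q Q ∧ ¬ q ∣ Q.relIndex M ∧
          (D ≤ Subgroup.normalizer (Q : Set G) ∨ Q ≤ Subgroup.normalizer (D : Set G)) := by
        rcases hn with hn | hn
        · haveI := hD.isNilpotent
          obtain ⟨Q, a, b, c, d⟩ := H01.exists_invariant_sylow hn
            (by rw [hk]; exact h3'.symm.pow_left k) (Or.inl inferInstance) q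
          exact ⟨Q, a, b, c, Or.inl d⟩
        · obtain ⟨Q, hQ⟩ := H26.exists_isSyl q M
          exact ⟨Q, hQ.le, hQ.pg, hQ.not_dvd, Or.inr (H01.le_normalizer_of_normal Q D)⟩
      haveI := h4 D Q hD hD1 (lt_of_le_of_ne hQ1 fun e => h2 (e ▸ hQ2.isNilpotent)) hQ4
      exact ⟨Q, H16.le_centralizer_of_nilpotent_coprime (H := D ⊔ Q) le_sup_right le_sup_left
        (by rw [hk]; exact (h3'.coprime_dvd_left (Subgroup.card_dvd_of_le hQ1)).pow_right k), hQ3⟩
    haveI h6 : M.Normal := by
      by_cases h6 : HasNormalPComplement p G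
      · rw [← (hM.le_iff_eq (fun e => ?_)).1 (H03.le_pResidual_of_coprime h3')]
        · infer_instance
        rw [H03.hasNPC_iff_not_dvd_card_pResidual, e, Subgroup.card_top] at h6
        exact h6 hpG
      obtain ⟨P⟩ : Nonempty (Sylow p G) := inferInstance
      by_contra h7
      refine h6 (H03.hasNPC_of_normalizers P fun D hD hD1 => ?_)
      have hD2 := P.isPGroup'.to_le hD
      refine H03.hasNPC_of_isNilpotent (hG := h1 _ (fun e => ?_)
        (H26.dvd_card_of_isPGroup hD2 hD1 Subgroup.le_normalizer))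
      have h8 := (Subgroup.le_centralizer_iff.1 (h5 D hD2 hD1
        (Or.inr (Subgroup.normalizer_eq_top_iff.1 e)))).trans (Subgroup.centralizer_le_normalizer _)
      rw [(hM.le_iff_eq (fun e => h7 (Subgroup.normalizer_eq_top_iff.1 e))).1
        Subgroup.le_normalizer] at h8
      exact h3 (H26.dvd_card_of_isPGroup hD2 hD1 h8)
    obtain ⟨x, hx⟩ := exists_prime_orderOf_dvd_card' p hpG
    have hZ : Nat.card (Subgroup.zpowers x) = p := by rw [Nat.card_zpowers, hx]
    have hZ1 : IsPGroup p (Subgroup.zpowers x) := IsPGroup.of_card (hZ.trans (pow_one p).symm)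
    have hZ2 : Subgroup.zpowers x ≠ ⊥ := fun e => hp.one_lt.ne' (by rw [← hZ, e, Subgroup.card_bot])
    have h7 : Subgroup.zpowers x ⊔ M = ⊤ := hM.2 _ (right_lt_sup.2 fun e =>
      h3 (H26.dvd_card_of_isPGroup hZ1 hZ2 e))
    have h8 := h5 _ hZ1 hZ2 (Or.inl (H01.le_normalizer_of_normal _ M))
    haveI h9 : (Subgroup.zpowers x).Normal := Subgroup.normalizer_eq_top_iff.1 (top_le_iff.1
      (h7 ▸ sup_le Subgroup.le_normalizer (h8.trans (Subgroup.centralizer_le_normalizer _))))
    refine ⟨_, M, h9, h6, (H03.disjoint_of_isPGroup_of_coprime hZ1 h3').symm.eq_bot, h7, hZ,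
      ⟨h2, fun L hL => ?_⟩, h3⟩
    haveI := h4 _ (L.map M.subtype) hZ1 hZ2 (lt_of_le_of_ne (Subgroup.map_subtype_le L) fun e => hL (by
      rw [← H26.map_subtype_subgroupOf L, e, Subgroup.subgroupOf_self]))
      (Or.inr (H01.le_normalizer_of_normal _ _))
    exact (H02.isNilpotent_map_subtype_iff L).1
      (H02.isNilpotent_of_le (le_sup_right : _ ≤ Subgroup.zpowers x ⊔ _))
  rintro (h | h | ⟨Z, K, hZ, hK, h1, h2, h3, h4, h5⟩) M hM hd
  · infer_instance
  · exact h.2 M hM.1
  have hZ1 : IsPGroup p Z := IsPGroup.of_card (h3.trans (pow_one p).symm)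
  have h6 : Z ≤ M := by
    obtain ⟨T, hT⟩ := H26.exists_isSyl p M
    have h7 := H01.card_sup_mul_card_inf K Z
    rw [sup_comm, h2, inf_comm, h1, Subgroup.card_bot, mul_one, Subgroup.card_top, mul_comm,
      ← Z.card_mul_index] at h7
    have h8 : H26.IsSyl p Z ⊤ := H26.isSyl_of_not_dvd le_top hZ1 (by
      rwa [Subgroup.relIndex_top_right, Nat.eq_of_mul_eq_mul_left Nat.card_pos h7])
    have h9 := h8.le_of_le_normalizer' hT.pg le_top (H01.le_normalizer_of_normal T Z)
    rw [← Subgroup.eq_of_le_of_card_ge h9 (h3 ▸ Nat.le_of_dvd Nat.card_pos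
      (H26.dvd_card_of_isPGroup hT.pg (hT.ne_bot hd) le_rfl))]
    exact hT.le
  have h7 := H26.inf_sup_eq_of_le_normalizer (H01.le_normalizer_of_normal Z K) h6
  rw [h2, inf_top_eq] at h7
  have h8 : ¬ K ≤ M := fun e => hM.1 (top_le_iff.1 (h2 ▸ sup_le h6 e))
  haveI := h4.2 (M.subgroupOf K) (fun e => h8 (Subgroup.subgroupOf_eq_top.1 e))
  haveI : Group.IsNilpotent (K.subgroupOf M) := by
    rw [← Subgroup.inf_subgroupOf_right, H02.isNilpotent_subgroupOf_iff inf_le_right,
      ← H02.isNilpotent_subgroupOf_iff inf_le_left, Subgroup.inf_subgroupOf_left]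
    infer_instance
  haveI : Group.IsNilpotent (Z.subgroupOf M) := (hZ1.comap_subtype (K := M)).isNilpotent
  haveI := H02.isNilpotent_sup_of_normal (Z.subgroupOf M) (K.subgroupOf M)
  rw [← Subgroup.inf_subgroupOf_left K, ← Subgroup.subgroupOf_sup h6 inf_le_left, ← h7,
    Subgroup.subgroupOf_self] at this
  exact Group.nilpotent_of_mulEquiv Subgroup.topEquiv

end Cfsg.Agent.S4242
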