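import Mathlib
import Cfsg.Agent.H20.Sx
import Cfsg.Agent.S0143
import Cfsg.Agent.S0204
-- Template for statement S4245 (row 4245; see /opt/grader/pristine/manifest.json for weights).
-- Copy to Cfsg/Agent/S4245.lean and replace the sorry. The statement below is byte-identical to the frozen
-- statement Cfsg.CfsgFrozen.S4245 (Cfsg/Statements/S4245.lean; the theorem Cfsg.fg13_cyclic_by_two_power_cyclic_subgroup_of_prime_power_index_forces_solvable);
-- the grader kernel-checks Cfsg.Agent.S4245.result against that frozen type. Keep the theorem IN THIS FILE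
-- (a `result` declared elsewhere and merely imported here is not credited); helpers may live anywhere
-- under Cfsg/Agent/.
import Cfsg.Statements.S4245
-- import your own Cfsg.Agent.* helpers here

set_option autoImplicit false
open Cfsg

open Subgroup

namespace Cfsg.Agent.S4245

universe u

def Pr (p r : ℕ) (G : Type u) [Group G] : Prop :=
  ∃ A B : Subgroup G, B ≤ A ∧ IsCyclic B ∧ (∃ s, A.index ∣ p ^ s) ∧ (∀ a ∈ A, ∀ b ∈ B, a * b * a⁻¹ ∈ B) ∧
    (∀ a ∈ A, a ^ 2 ^ r ∈ B) ∧ ∀ x ∈ A, ∀ y ∈ A, (∃ k : ℤ, x * y ^ k ∈ B) ∨ ∃ k : ℤ, y * x ^ k ∈ B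

theorem mem_zp {C : Type*} [Group C] [Finite C] [IsCyclic C] {x y : C} (h : orderOf x ∣ orderOf y) : x ∈ zpowers y := by
  classical
  have := Fintype.ofFinite C
  have h1 : (zpowers y : Set C).toFinset = Finset.univ.filter fun b => b ^ orderOf y = 1 :=
    Finset.eq_of_subset_of_card_le (fun b hb => by
      simpa using orderOf_dvd_iff_pow_eq_one.1 (orderOf_dvd_of_mem_zpowers (by simpa using hb)))
      ((IsCyclic.card_pow_eq_one_le (orderOf_pos y)).trans (by rw [Set.toFinset_card, ← Fintype.card_zpowers]; rfl))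
  have : x ∈ (zpowers y : Set C).toFinset := by rw [h1]; simpa using orderOf_dvd_iff_pow_eq_one.1 h
  simpa using this

theorem sub {p r : ℕ} (G : Type u) [Group G] [Finite G] (H : Subgroup G) (hH : H.Normal) (h : Pr p r G) : Pr p r H := by
  obtain ⟨A, B, h1, h2, ⟨s, h3⟩, h4, h5, h6⟩ := h
  refine ⟨A.subgroupOf H, B.subgroupOf H, subgroupOf_mono _ h1, ?_, ⟨s, ?_⟩, fun a ha b hb => h4 a ha b hb,
    fun a ha => h5 a ha, fun x hx y hy => h6 x hx y hy⟩
  · exact isCyclic_of_injective (G := B.subgroupOf H) (G' := B)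
      (((H.subtype.comp (B.subgroupOf H).subtype).codRestrict B fun x => x.2))
      fun x y e => Subtype.ext (Subtype.ext (congrArg (Subtype.val : B → G) e))
  · refine Dvd.dvd.trans ?_ h3
    have e1 := relIndex_mul_index (le_sup_left : A ≤ A ⊔ H)
    have e2 : A.relIndex (A ⊔ H) = A.relIndex H := by
      have a1 := relIndex_mul_relIndex (A ⊓ H) A (A ⊔ H) inf_le_left le_sup_left
      have a2 := relIndex_mul_relIndex (A ⊓ H) H (A ⊔ H) inf_le_right le_sup_right
      rw [inf_relIndex_right, relIndex_sup_right] at a2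
      rw [inf_relIndex_left, ← a2, mul_comm] at a1
      exact Nat.eq_of_mul_eq_mul_right (Nat.pos_of_ne_zero (index_ne_zero_of_finite)) a1
    exact ⟨_, by rw [← e1, e2]; rfl⟩

theorem quo {p r : ℕ} (G : Type u) [Group G] [Finite G] (N : Subgroup G) [N.Normal] (h : Pr p r G) : Pr p r (G ⧸ N) := by
  obtain ⟨A, B, h1, h2, ⟨s, h3⟩, h4, h5, h6⟩ := h
  let f := QuotientGroup.mk' N
  refine ⟨A.map f, B.map f, map_mono h1, isCyclic_of_surjective _ (f.subgroupMap_surjective B),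
    ⟨s, (index_map_dvd A (QuotientGroup.mk'_surjective N)).trans h3⟩, ?_, ?_, ?_⟩
  · rintro _ ⟨a, ha, rfl⟩ _ ⟨b, hb, rfl⟩
    exact ⟨_, h4 a ha b hb, by simp⟩
  · rintro _ ⟨a, ha, rfl⟩
    exact ⟨_, h5 a ha, by simp⟩
  · rintro _ ⟨a, ha, rfl⟩ _ ⟨b, hb, rfl⟩
    exact (h6 a ha b hb).imp (fun ⟨k, h⟩ => ⟨k, _, h, by simp⟩) fun ⟨k, h⟩ => ⟨k, _, h, by simp⟩

theorem simple {p r : ℕ} (hp : p.Prime) (G : Type u) [Group G] [Finite G] [IsSimpleGroup G] (hna : ¬ IsMulCommutative G) :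
    ¬ Pr p r G := by
  rintro ⟨A, B, h1, h2, ⟨s, h3⟩, h4, h5, h6⟩
  have nc : ¬ IsCyclic G := fun h => hna inferInstance
  have key : ∀ (K : Subgroup G) (g : G) (k : ℕ), K.index ∣ p ^ k → K ≤ centralizer {g} → g = 1 := by
    intro K g k a1 a2
    by_contra hg
    obtain ⟨j, -, hj⟩ := (Nat.dvd_prime_pow hp).1 ((index_dvd_of_le a2).trans a1)
    have := Fact.mk (S0143.result p j hp g hg hj)
    exact nc (isCyclic_of_prime_card rfl)
  have := Fact.mk Nat.prime_two
  have odd : ∀ z ∈ B, z ^ 2 = 1 → z = 1 := by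
    intro z hz z2
    refine key A z s h3 fun a ha => mem_centralizer_singleton_iff.2 ?_
    by_contra hc
    have z1 : z ≠ 1 := by rintro rfl; simp at hc
    have o1 : orderOf (⟨z, hz⟩ : B) = 2 := orderOf_eq_prime (Subtype.ext z2) fun h => z1 (congrArg Subtype.val h)
    have o2 : orderOf (⟨_, h4 a ha z hz⟩ : B) = 2 :=
      orderOf_eq_prime (Subtype.ext (by simp [conj_pow, z2])) fun h => z1 (by simpa using congrArg Subtype.val h)
    classical
    have := Fintype.ofFinite B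
    have c := IsCyclic.card_orderOf_eq_totient (α := B) (d := 2) (o1 ▸ orderOf_dvd_card)
    rw [Nat.totient_two, Finset.card_eq_one] at c
    obtain ⟨w, hw⟩ := c
    have m1 : (⟨z, hz⟩ : B) ∈ ({w} : Finset B) := hw ▸ by simpa using o1
    have m2 : (⟨_, h4 a ha z hz⟩ : B) ∈ ({w} : Finset B) := hw ▸ by simpa using o2
    have := congrArg Subtype.val ((Finset.mem_singleton.1 m2).trans (Finset.mem_singleton.1 m1).symm)
    exact hc (mul_inv_eq_iff_eq_mul.1 this)
  obtain ⟨E, hE⟩ := S0204.result nc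
  by_cases p2 : p = 2
  · subst p2
    have hn : (B.subgroupOf A).Normal := ⟨fun b hb a => h4 a a.2 b hb⟩
    obtain ⟨j, hj⟩ := IsPGroup.iff_card.1 (show IsPGroup 2 (A ⧸ B.subgroupOf A) from fun x => by
      obtain ⟨a, rfl⟩ := QuotientGroup.mk_surjective x
      exact ⟨r, by rw [← QuotientGroup.mk_pow, QuotientGroup.eq_one_iff]; exact h5 a a.2⟩)
    have a2 : B.index ∣ 2 ^ (j + s) := by
      rw [← relIndex_mul_index h1, pow_add, ← hj]
      exact Nat.mul_dvd_mul_left _ h3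
    have a3 : B = ⊥ := eq_bot_iff.2 fun g hg => key B g _ a2 fun b hb =>
      mem_centralizer_singleton_iff.2 (congrArg Subtype.val (IsCyclic.isMulCommutative.1.1 (⟨b, hb⟩ : B) ⟨g, hg⟩))
    rw [a3, index_bot] at a2
    obtain ⟨k, -, hk⟩ := (Nat.dvd_prime_pow hp).1 a2
    have := (IsPGroup.of_card hk).isNilpotent
    exact hna ⟨⟨(IsSimpleGroup.comm_iff_isSolvable (G := G)).2 inferInstance⟩⟩
  · have a1 : IsPGroup 2 E := IsPGroup.of_card (n := 2) hE.card_four
    obtain ⟨x, hx⟩ := a1.nonempty_fixed_point_of_prime_not_dvd_card (G ⧸ A) fun hd =>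
      p2 ((Nat.prime_dvd_prime_iff_eq Nat.prime_two hp).1 (Nat.prime_two.dvd_of_dvd_pow (hd.trans h3))).symm
    obtain ⟨g, rfl⟩ := QuotientGroup.mk_surjective x
    have a2 : ∀ e : E, g⁻¹ * e * g ∈ A := fun e => by
      have : ((((e⁻¹ : E) : G) * g : G) : G ⧸ A) = g := hx e⁻¹
      simpa [mul_assoc] using QuotientGroup.eq.1 this
    have a3 : ∀ x y : E, (∃ k : ℤ, g⁻¹ * x * g * (g⁻¹ * y * g) ^ k ∈ B) → x ∈ zpowers y := by
      rintro x y ⟨k, hk⟩
      have e : g⁻¹ * x * g * (g⁻¹ * y * g) ^ k = g⁻¹ * (x * y ^ k : E) * g := by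
        have := conj_zpow (a := g⁻¹) (b := (y : G)) (i := k)
        rw [inv_inv] at this
        rw [this]
        simp [mul_assoc]
      have := odd _ hk (by
        have := conj_pow (a := g⁻¹) (b := ((x * y ^ k : E) : G)) (i := 2)
        rw [inv_inv] at this
        rw [e, this, ← Subgroup.coe_pow, sq, IsKleinFour.mul_self]
        simp)
      rw [e] at this
      have h : x * y ^ k = 1 := Subtype.ext (by
        have := congrArg (fun t => g * t * g⁻¹) this
        simpa [mul_assoc] using this)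
      rw [mul_eq_one_iff_eq_inv.1 h]
      exact inv_mem (zpow_mem (mem_zpowers y) k)
    have a4 : ∀ x : E, x ≠ 1 → ∃ y, y ∉ zpowers x := fun x hx => by
      by_contra hc
      push Not at hc
      exact IsKleinFour.not_isCyclic (G := E) ⟨x, hc⟩
    have : Nontrivial E := Finite.one_lt_card_iff_nontrivial.1 (by rw [hE.card_four]; norm_num)
    obtain ⟨x, hx⟩ := exists_ne (1 : E)
    obtain ⟨y, hy⟩ := a4 x hx
    rcases h6 _ (a2 x) _ (a2 y) with h | h
    · have o : ∀ z : E, z ≠ 1 → Nat.card (zpowers z) = 2 := fun z hz => by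
        rw [Nat.card_zpowers]
        exact orderOf_eq_prime (by rw [sq, IsKleinFour.mul_self]) hz
      have y1 : y ≠ 1 := by rintro rfl; exact hy (one_mem _)
      exact hy (eq_of_le_of_card_ge (zpowers_le.2 (a3 x y h)) (by rw [o x hx, o y y1]) ▸ mem_zpowers y)
    · exact hy (a3 y x h)

/-- Let G be a finite group with a subgroup A of prime-power index. Suppose A has a normal cyclic subgroup B such that A/B is cyclic of order a power of 2. Then G is solvable. -/
theorem result {G : Type*} [Group G] [Finite G] (A : Subgroup G) (p s : ℕ) (hp : p.Prime) (hA : A.index = p ^ s)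
    (B : Subgroup A) [B.Normal] (hB : IsCyclic B) (hAB : IsCyclic (A ⧸ B)) (r : ℕ) (hr : Nat.card (A ⧸ B) = 2 ^ r) :
    Group.IsSolvable G := by
  have := Fact.mk Nat.prime_two
  refine H20.Sx.solv_ind (Pr := Pr p r) sub (fun G _ _ N _ _ => quo G N) (simple hp) _ G rfl
    ⟨A, B.map A.subtype, map_subtype_le _, isCyclic_of_surjective _ (A.subtype.subgroupMap_surjective B), ⟨s, hA ▸ dvd_rfl⟩,
      ?_, fun a ha => ?_, fun x hx y hy => ?_⟩
  · rintro a ha _ ⟨b, hb, rfl⟩
    exact ⟨_, ‹B.Normal›.conj_mem b hb ⟨a, ha⟩, rfl⟩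
  · refine ⟨⟨a, ha⟩ ^ 2 ^ r, (QuotientGroup.eq_one_iff _).1 ?_, rfl⟩
    rw [QuotientGroup.mk_pow, ← hr, pow_card_eq_one']
  · have key : ∀ x y : A, (x : A ⧸ B) ∈ zpowers (y : A ⧸ B) → ∃ k : ℤ, (x : G) * (y : G) ^ k ∈ B.map A.subtype := by
      rintro x y ⟨k, hk⟩
      refine ⟨-k, x * y ^ (-k), (QuotientGroup.eq_one_iff _).1 ?_, rfl⟩
      rw [QuotientGroup.mk_mul, QuotientGroup.mk_zpow, ← hk]
      simp
    have o : ∀ x : A ⧸ B, ∃ i, orderOf x = 2 ^ i := fun x =>
      ((Nat.dvd_prime_pow Nat.prime_two).1 (hr ▸ orderOf_dvd_natCard x)).imp fun _ h => h.2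
    obtain ⟨i, hi⟩ := o (⟨x, hx⟩ : A)
    obtain ⟨j, hj⟩ := o (⟨y, hy⟩ : A)
    exact (le_total i j).imp (fun h => key ⟨x, hx⟩ ⟨y, hy⟩ (mem_zp (hi ▸ hj ▸ pow_dvd_pow 2 h)))
      fun h => key ⟨y, hy⟩ ⟨x, hx⟩ (mem_zp (hi ▸ hj ▸ pow_dvd_pow 2 h))

end Cfsg.Agent.S4245
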