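import Cfsg.Statements.S4252
import Mathlib
import Cfsg.Agent.H02.Basic
-- import your own Cfsg.Agent.* helpers here

set_option autoImplicit false
open Cfsg

namespace Cfsg.Agent.S4252

open scoped Pointwise

/-- Let a finite group G act on a finite set Ω with more than one point, transitively but not regularly, so that no non-identity element of G fixes two distinct points. Then the stabilizer H of any point is a Frobenius complement in G (nontrivial, proper, meeting its other conjugates trivially), and the Frobenius kernel of G with respect to H (the identity together with the elements lying in no conjugate of H) is exactly the set consisting of the identity and the elements fixing no point. -/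
theorem result {G Ω : Type*} [Group G] [Finite G] [Fintype Ω] [MulAction G Ω] (hΩ : 1 < Fintype.card Ω)
    (htrans : ∀ α β : Ω, ∃ g : G, g • α = β) (hnreg : ∃ g : G, g ≠ 1 ∧ ∃ α : Ω, g • α = α)
    (hfix : ∀ g : G, g ≠ 1 → ∀ α β : Ω, g • α = α → g • β = β → α = β) (α : Ω) :
    Cfsg.IsFrobeniusComplement (MulAction.stabilizer G α) ∧
      Cfsg.frobeniusKernel (MulAction.stabilizer G α) = {g : G | g = 1 ∨ ∀ ω : Ω, g • ω ≠ ω} := by
  have key : ∀ g x : G, x ∈ MulAut.conj g • MulAction.stabilizer G α ↔ x • g • α = g • α := by
    intro g x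
    rw [H02.mem_conj_smul_iff, MulAction.mem_stabilizer_iff, mul_smul, mul_smul, inv_smul_eq_iff]
  refine ⟨⟨?_, ?_, ?_⟩, ?_⟩
  · obtain ⟨g, hg, β, hβ⟩ := hnreg
    obtain ⟨h, rfl⟩ := htrans α β
    intro hb
    have := (key h g).2 hβ
    rw [hb, Subgroup.smul_bot] at this
    exact hg (Subgroup.mem_bot.1 this)
  · intro ht
    obtain ⟨β, hβ⟩ := Fintype.exists_ne_of_one_lt_card hΩ α
    obtain ⟨g, rfl⟩ := htrans α β
    exact hβ (show g ∈ MulAction.stabilizer G α from ht ▸ Subgroup.mem_top g)
  · intro g hg
    rw [eq_bot_iff]
    rintro x ⟨h1, h2⟩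
    by_contra hx
    exact hg (hfix x hx _ _ ((key g x).1 h2) h1)
  · ext x
    simp only [Cfsg.frobeniusKernel, Set.mem_setOf_eq, key]
    refine or_congr_right ⟨fun h ω => ?_, fun h g => h _⟩
    obtain ⟨g, rfl⟩ := htrans α ω
    exact h g

end Cfsg.Agent.S4252
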