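import Cfsg.Statements.S4253
import Mathlib
import Cfsg.Agent.H02.Basic
-- import your own Cfsg.Agent.* helpers here

set_option autoImplicit false
open Cfsg

namespace Cfsg.Agent.S4253

open scoped Pointwise

/-- Let H be a Frobenius complement in a finite group G (a nontrivial proper subgroup meeting each conjugate gHg⁻¹ with g outside H trivially). Then in the action of G on the left cosets of H by left multiplication, no non-identity element of G fixes two distinct cosets. -/
theorem result {G : Type*} [Group G] [Finite G] (H : Subgroup G) (hH : Cfsg.IsFrobeniusComplement H)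
    (g : G) (hg : g ≠ 1) (a b : G ⧸ H) (ha : g • a = a) (hb : g • b = b) : a = b := by
  obtain ⟨a, rfl⟩ := QuotientGroup.mk_surjective a
  obtain ⟨b, rfl⟩ := QuotientGroup.mk_surjective b
  rw [MulAction.Quotient.smul_mk, QuotientGroup.eq] at ha hb
  rw [QuotientGroup.eq]
  by_contra hab
  have h1 := hH.2.2 _ hab
  have : a⁻¹ * g⁻¹ * a ∈ H ⊓ MulAut.conj (a⁻¹ * b) • H := by
    refine Subgroup.mem_inf.2 ⟨by simpa [mul_assoc] using ha, ?_⟩
    rw [H02.mem_conj_smul_iff]
    simpa [mul_assoc] using hb
  rw [h1, Subgroup.mem_bot] at this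
  apply hg
  have h2 : g⁻¹ = a * (a⁻¹ * g⁻¹ * a) * a⁻¹ := by group
  rw [this] at h2
  simpa using h2

end Cfsg.Agent.S4253
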