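import Cfsg.Statements.S4260
import Mathlib
import Cfsg.Agent.H02.Basic
-- import your own Cfsg.Agent.* helpers here

set_option autoImplicit false
open Cfsg

namespace Cfsg.Agent.S4260

/-- Let H be a Hall subgroup of a finite group G (the order of H is coprime to its index) such that x^[G : H] lies in H for every x in G. Then H is normal in G. -/
theorem result {G : Type*} [Group G] [Finite G] (H : Subgroup G) (hHall : (Nat.card H).Coprime H.index)
    (hexp : ∀ x : G, x ^ H.index ∈ H) : H.Normal := by
  refine ⟨fun x hx g => ?_⟩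
  have h1 : (orderOf (g * x * g⁻¹)).Coprime H.index := by
    have : orderOf (g * x * g⁻¹) = orderOf x := (MulAut.conj g).orderOf_eq x
    rw [this]
    exact hHall.coprime_dvd_left (H.orderOf_dvd_natCard hx)
  have h2 : g * x * g⁻¹ ∈ Subgroup.zpowers ((g * x * g⁻¹) ^ H.index) :=
    mem_zpowers_pow_iff.2 (by rw [Nat.gcd_comm]; exact h1)
  exact (Subgroup.zpowers_le.2 (hexp _)) h2

end Cfsg.Agent.S4260
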