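import Cfsg.Statements.S4261
import Mathlib
import Cfsg.Agent.H02.MinNormal
-- import your own Cfsg.Agent.* helpers here

set_option autoImplicit false
open Cfsg

namespace Cfsg.Agent.S4261

open scoped Pointwise commutatorElement

/-- Let M be a maximal subgroup of a finite solvable group G such that x^[G : M] lies in M for every x in G. Then M is normal in G. -/
theorem result {G : Type*} [Group G] [Finite G] (hG : Group.IsSolvable G) (M : Subgroup G) (hM : IsCoatom M)
    (hexp : ∀ x : G, x ^ M.index ∈ M) : M.Normal := by
  obtain ⟨p, k, hp, hk, he⟩ := (isPrimePow_nat_iff _).1 (H02.isPrimePow_index_of_coatom hM)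
  haveI := Fact.mk hp
  have h1 : IsPGroup p (G ⧸ M.normalCore) := by
    intro q
    obtain ⟨x, rfl⟩ := QuotientGroup.mk_surjective q
    refine ⟨k, ?_⟩
    rw [← QuotientGroup.mk_pow, QuotientGroup.eq_one_iff, he]
    intro b
    rw [← conj_pow]; exact hexp _
  haveI := h1.isNilpotent
  have h2 : (M.map (QuotientGroup.mk' M.normalCore)).comap (QuotientGroup.mk' M.normalCore) = M := by
    rw [Subgroup.comap_map_eq, QuotientGroup.ker_mk', sup_eq_left.2 M.normalCore_le]
  have h3 : M.map (QuotientGroup.mk' M.normalCore) < ⊤ := by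
    rw [lt_top_iff_ne_top]
    intro h; rw [h, Subgroup.comap_top] at h2; exact hM.1 h2.symm
  have h4 := Group.normalizerCondition_of_isNilpotent _ h3
  have h5 := (Subgroup.comap_lt_comap_of_surjective (QuotientGroup.mk'_surjective M.normalCore)).2 h4
  rw [Subgroup.comap_normalizer_eq_of_surjective _ (QuotientGroup.mk'_surjective _), h2] at h5
  exact Subgroup.normalizer_eq_top_iff.1 (hM.2 _ h5)

end Cfsg.Agent.S4261
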