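import Cfsg.Statements.S4262
import Mathlib
import Cfsg.Agent.H27.NilpMax2
-- import your own Cfsg.Agent.* helpers here

set_option autoImplicit false
open Cfsg

namespace Cfsg.Agent.S4262

open scoped Pointwise commutatorElement

theorem nilp_of {G : Type*} [Group G] [Finite G] {q : ℕ} [Fact q.Prime]
    (h : ∀ y : G, (orderOf y).Coprime q → y ∈ Subgroup.center G) : Group.IsNilpotent G := by
  have h1 : IsPGroup q (G ⧸ Subgroup.center G) :=
    (H03.pResidual_le_iff _).1 (by rw [pResidual, Subgroup.closure_le]; exact h)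
  exact Group.of_quotient_center_nilpotent h1.isNilpotent

/-- Let G be a finite group in which the centralizer of every non-central element is a maximal subgroup of G. Then G is solvable. -/
theorem result {G : Type*} [Group G] [Finite G]
    (h : ∀ g : G, g ∉ Subgroup.center G → IsCoatom (Subgroup.centralizer ({g} : Set G))) :
    Group.IsSolvable G := by
  by_cases h1 : ∀ y : G, (orderOf y).Coprime 2 → y ∈ Subgroup.center G
  · haveI := nilp_of h1
    infer_instance
  obtain ⟨q, x, hq, hq2, ⟨k, hk⟩, hx⟩ : ∃ (q : ℕ) (x : G), q.Prime ∧ q ≠ 2 ∧ (∃ k, orderOf x = q ^ k) ∧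
      x ∉ Subgroup.center G := by
    by_contra h2
    push Not at h2
    apply h1
    intro y
    induction hn : orderOf y using Nat.strong_induction_on generalizing y with
    | _ n ih =>
    intro hy
    by_cases h3 : n = 1
    · rw [orderOf_eq_one_iff.1 (hn.trans h3)]; exact one_mem _
    obtain ⟨q, hq, hd⟩ := Nat.exists_prime_and_dvd h3
    haveI := Fact.mk hq
    obtain ⟨u, s, hu, hs, h4, h5, e⟩ := H03.exists_pPart_mul (p := q) y
    have h6 : orderOf s ∣ n := hn ▸ orderOf_dvd_of_mem_zpowers hs
    rw [e]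
    refine mul_mem (h2 q u hq ?_ h4) (ih _ (lt_of_le_of_ne (Nat.le_of_dvd (hn ▸ orderOf_pos y) h6) ?_)
      s rfl (hy.coprime_dvd_left h6))
    · rintro rfl
      exact (Nat.coprime_two_right.1 hy).not_two_dvd_nat hd
    · intro e'
      exact H03.coprime_iff_not_dvd.1 h5 (e' ▸ hd)
  haveI := Fact.mk hq
  set M := Subgroup.centralizer ({x} : Set G) with hM
  have key : ∀ y ∈ M, (orderOf y).Coprime q → ∀ c ∈ M, c * y = y * c := by
    intro y hy hc c hcM
    have h2 : Commute x y := (Subgroup.mem_centralizer_singleton_iff.1 hy).symm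
    have h3 : (orderOf x).Coprime (orderOf y) := by rw [hk]; exact hc.symm.pow_left k
    have h4 : ∀ {x y : G}, Commute x y → (orderOf x).Coprime (orderOf y) →
        x ∈ Subgroup.zpowers (x * y) := by
      intro x y h2 h3
      have h5 := Subgroup.pow_mem _ (Subgroup.mem_zpowers (x * y)) (orderOf y)
      rw [h2.mul_pow, pow_orderOf_eq_one, mul_one] at h5
      exact Subgroup.zpowers_le.2 h5 (mem_zpowers_pow_iff.2 h3.symm)
    have h5 := h4 h2 h3
    have h6 := h4 h2.symm h3.symm
    rw [← h2.eq] at h6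
    have h7 : ∀ w ∈ Subgroup.zpowers (x * y),
        Subgroup.centralizer ({x * y} : Set G) ≤ Subgroup.centralizer ({w} : Set G) := by
      rintro _ ⟨m, rfl⟩ g hg
      rw [Subgroup.mem_centralizer_singleton_iff] at hg ⊢
      exact (Commute.zpow_right hg m).eq
    have h8 := h (x * y) (fun e => hx (Subgroup.zpowers_le.2 e h5))
    have h9 : Subgroup.centralizer ({x * y} : Set G) = M := by
      by_contra h9
      exact (h x hx).1 (h8.2 _ (lt_of_le_of_ne (h7 x h5) h9))
    exact Subgroup.mem_centralizer_singleton_iff.1 (h7 y h6 (h9.ge hcM))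
  haveI : Group.IsNilpotent M := nilp_of (q := q) fun y hy => Subgroup.mem_center_iff.2 fun c =>
    Subtype.ext (key y y.2 (by rwa [Subgroup.orderOf_coe]) c c.2)
  obtain ⟨S, hS⟩ := H26.exists_isSyl 2 M
  refine H27.isSolvable_of_coatom_nilpotent (h x hx) hS fun a ha b hb c hc => ?_
  exact key c (hS.le hc) (H27.ClassTwo.coprime_of_mem hS.pg (g := x)
    (by rw [hk]; exact ((Nat.coprime_primes hq Nat.prime_two).2 hq2).pow_left k) hc |> fun _ => by
      obtain ⟨j, hj⟩ := (IsPGroup.iff_orderOf.1 hS.pg) ⟨c, hc⟩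
      rw [← Subgroup.orderOf_coe] at hj
      rw [show orderOf c = 2 ^ j from hj]
      exact ((Nat.coprime_primes Nat.prime_two hq).2 hq2.symm).pow_left j) _
    (hS.le (mul_mem (mul_mem (mul_mem ha hb) (inv_mem ha)) (inv_mem hb)))

end Cfsg.Agent.S4262
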