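import Cfsg.Statements.S4263
import Mathlib
import Cfsg.Agent.H27.ClassSize
import Cfsg.Agent.H02.Fitting
-- import your own Cfsg.Agent.* helpers here

set_option autoImplicit false
open Cfsg

namespace Cfsg.Agent.S4263

open scoped Pointwise commutatorElement

theorem pow_index_mem_of_isSubnormal {G : Type*} [Group G] {K : Subgroup G} (h : K.IsSubnormal) (y : G) :
    y ^ K.index ∈ K := by
  induction h with
  | top => trivial
  | step H K hle _ hN ih =>
    have := (H.subgroupOf K).pow_index_mem ⟨_, ih⟩
    rw [← Subgroup.relIndex_mul_index hle, mul_comm, pow_mul]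
    exact this

/-- Let G be a finite group. An element x lies in the Fitting subgroup F(G) if and only if, for every subgroup H of G, the power x^[G : H] lies in H. -/
theorem result {G : Type*} [Group G] [Finite G] (x : G) :
    x ∈ Cfsg.fittingSubgroup G ↔ ∀ H : Subgroup G, x ^ H.index ∈ H := by
  constructor
  · intro hx H
    obtain ⟨k, hk⟩ := H27.relIndex_dvd_index_of_normal_right H (Cfsg.fittingSubgroup G)
    have := pow_index_mem_of_isSubnormal
      (H02.isSubnormal_of_isNilpotent (H.subgroupOf (Cfsg.fittingSubgroup G))) ⟨x, hx⟩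
    rw [hk, pow_mul]
    exact H.pow_mem this k
  · intro h
    have : (Cfsg.fittingSubgroup G).subgroupOf (Subgroup.zpowers x) = ⊤ := by
      apply H27.eq_top_of_forall_primePow_mem
      rintro p k ⟨_, j, rfl⟩ hp hk
      haveI := Fact.mk hp
      apply H02.pCore_le_fitting (p := p)
      rw [H02.pCore_eq_iInf_sylow, Subgroup.mem_iInf]
      intro P
      have h1 : (x ^ j) ^ (P : Subgroup G).index ∈ (P : Subgroup G) := by
        rw [← zpow_natCast, ← zpow_mul, mul_comm, zpow_mul, zpow_natCast]
        exact (P : Subgroup G).zpow_mem (h _) j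
      rw [← Subgroup.orderOf_coe] at hk
      refine Subgroup.zpowers_le.2 h1 (mem_zpowers_pow_iff.2 ?_)
      change (P : Subgroup G).index.gcd (orderOf (x ^ j)) = 1
      rw [show orderOf (x ^ j) = p ^ k from hk]
      exact Nat.Coprime.pow_right _ ((Nat.Prime.coprime_iff_not_dvd hp).2 P.not_dvd_index).symm
    rw [Subgroup.subgroupOf_eq_top] at this
    exact this (Subgroup.mem_zpowers x)

end Cfsg.Agent.S4263
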