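import Mathlib
import Cfsg.Agent.H10.Kc
import Cfsg.Statements.S4264

set_option autoImplicit false
open Cfsg

namespace Cfsg.Agent.S4264

/-- Let G be a subgroup of the symmetric group of degree d ≥ 1. Then G has at most 5^{d−1} conjugacy classes. -/
theorem result (d : ℕ) (hd : 1 ≤ d) (G : Subgroup (Equiv.Perm (Fin d))) : Nat.card (ConjClasses ↥G) ≤ 5 ^ (d - 1) := by
  rcases le_or_gt d 9 with h | h
  · refine (Nat.card_le_card_of_surjective _ ConjClasses.mk_surjective).trans ((Subgroup.card_le_card_group G).trans ?_)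
    rw [Nat.card_perm, Nat.card_eq_fintype_card, Fintype.card_fin]
    interval_cases d <;> decide
  obtain ⟨k, rfl⟩ := Nat.exists_eq_add_of_le' (show 10 ≤ d by omega)
  have := H10.Kc.card_le _ G
  rw [← Nat.cast_le (α := ℝ), show k + 10 - 1 = k + 9 from rfl]
  refine this.trans ?_
  push_cast
  rw [pow_add, pow_add]
  gcongr <;> norm_num

end Cfsg.Agent.S4264
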