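import Cfsg.Statements.S4269
import Mathlib
import Cfsg.Agent.H01.Coprime
import Cfsg.Agent.H27.PPrimeElt
-- import your own Cfsg.Agent.* helpers here

set_option autoImplicit false
open Cfsg

namespace Cfsg.Agent.S4269

open scoped Pointwise commutatorElement

/-- Let G be a finite group, V an abelian normal subgroup and H a subgroup with HV = G. Then H is pronormal in G (H and gHg⁻¹ are conjugate inside the subgroup they generate, for every g) if and only if every H-invariant subgroup U of V satisfies U = N_U(H)·[H, U], that is, U is the join of U ∩ N_G(H) and the commutator subgroup [H, U]. -/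
theorem result {G : Type*} [Group G] [Finite G]
    (V : Subgroup G) [V.Normal] (hV : IsMulCommutative ↥V) (H : Subgroup G) (hHV : H ⊔ V = ⊤) :
    Cfsg.IsPronormal H ↔
      ∀ U : Subgroup G, U ≤ V → (∀ h ∈ H, U.map (MulAut.conj h).toMonoidHom = U) →
        U = (U ⊓ Subgroup.normalizer (H : Set G)) ⊔ ⁅H, U⁆ := by
  have hc : ∀ u ∈ V, ∀ v ∈ V, u * v = v * u := fun u hu v hv =>
    congrArg Subtype.val (hV.1.1 (⟨u, hu⟩ : V) ⟨v, hv⟩)
  constructor
  · intro h U hU hUH
    have h1 : H ≤ Subgroup.normalizer (U : Set G) := fun x hx =>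
      Subgroup.mem_normalizer_iff_map_conj_eq.2 (hUH x hx)
    refine le_antisymm (fun u hu => ?_) (sup_le inf_le_left (by
      rw [Subgroup.commutator_comm]; exact H01.commutator_le_left_of_le_normalizer h1))
    obtain ⟨w, hw, e⟩ := h u
    have h2 : H ⊔ H.map (MulAut.conj u).toMonoidHom ≤ ⁅H, U⁆ ⊔ H := by
      refine sup_le le_sup_right ?_
      rintro _ ⟨x, hx, rfl⟩
      have : (MulAut.conj u).toMonoidHom x = ⁅x, u⁆⁻¹ * x := by
        simp [commutatorElement_def, mul_assoc]
      rw [this]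
      exact Subgroup.mul_mem_sup (inv_mem (Subgroup.commutator_mem_commutator hx hu)) hx
    obtain ⟨c, hc1, x, hx, rfl⟩ :=
      (H01.mem_sup_of_le_normalizer' (H01.left_le_normalizer_commutator H U)).1 (h2 hw)
    have h3 : c ∈ U := by
      rw [Subgroup.commutator_comm] at hc1; exact H01.commutator_le_left_of_le_normalizer h1 hc1
    have h4 : c⁻¹ * u ∈ Subgroup.normalizer (H : Set G) := by
      have e' : MulAut.conj (c * x) • H = MulAut.conj u • H := e.symm
      rw [← H01.conj_smul_eq_iff_mem_normalizer, ← H01.conj_smul_conj_smul, ← e',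
        H01.conj_smul_conj_smul, inv_mul_cancel_left, H01.conj_smul_eq_of_mem hx]
    have := Subgroup.mul_mem _ (Subgroup.mem_sup_right hc1)
      (Subgroup.mem_sup_left (S := U ⊓ Subgroup.normalizer (H : Set G)) ⟨U.mul_mem (U.inv_mem h3) hu, h4⟩)
    rwa [mul_inv_cancel_left] at this
  · intro h g
    obtain ⟨v, hv, x, hx, rfl⟩ := (H01.mem_sup_of_le_normalizer' (H01.le_normalizer_of_normal H V)).1
      ((sup_comm H V ▸ hHV).ge (Subgroup.mem_top g))
    have h1 : H.map (MulAut.conj (v * x)).toMonoidHom = MulAut.conj v • H := by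
      change MulAut.conj (v * x) • H = _
      rw [← H01.conj_smul_conj_smul, H01.conj_smul_eq_of_mem hx]
    rw [h1]
    have hcv : ∀ y : G, ∀ u ∈ V, ⁅y, u⁆ ∈ V := fun y u hu =>
      mul_mem (Subgroup.Normal.conj_mem inferInstance u hu y) (inv_mem hu)
    let U : Subgroup G :=
      { carrier := {u | u ∈ V ∧ ∀ y ∈ H, ⁅y, u⁆ ∈ H ⊔ MulAut.conj v • H}
        one_mem' := ⟨one_mem _, fun y _ => by simp⟩
        mul_mem' := by
          rintro a b ⟨ha, ha'⟩ ⟨hb, hb'⟩
          refine ⟨mul_mem ha hb, fun y hy => ?_⟩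
          have : ⁅y, a * b⁆ = ⁅y, a⁆ * (a * ⁅y, b⁆ * a⁻¹) := by
            simp only [commutatorElement_def]; group
          rw [this, hc a ha _ (hcv y b hb), mul_inv_cancel_right]
          exact mul_mem (ha' y hy) (hb' y hy)
        inv_mem' := by
          rintro a ⟨ha, ha'⟩
          refine ⟨inv_mem ha, fun y hy => ?_⟩
          have : ⁅y, a⁻¹⁆ = a⁻¹ * (⁅y, a⁆⁻¹ * a) := by
            simp only [commutatorElement_def]; group
          rw [this, ← hc a ha _ (inv_mem (hcv y a ha)), inv_mul_cancel_left]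
          exact inv_mem (ha' y hy) }
    have h2 : H ≤ Subgroup.normalizer (U : Set G) := by
      apply H01.le_normalizer_of_conj_mem
      rintro a ha u ⟨hu, hu'⟩
      refine ⟨Subgroup.Normal.conj_mem inferInstance u hu a, fun y hy => ?_⟩
      have : ⁅y, a * u * a⁻¹⁆ = a * ⁅a⁻¹ * y * a, u⁆ * a⁻¹ := by
        simp only [commutatorElement_def]; group
      rw [this]
      exact mul_mem (mul_mem (Subgroup.mem_sup_left ha) (hu' _ (mul_mem (mul_mem (inv_mem ha) hy) ha)))
        (inv_mem (Subgroup.mem_sup_left ha))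
    have h3 : v ∈ U := ⟨hv, fun y hy => by
      have : ⁅y, v⁆ = y * (v * y⁻¹ * v⁻¹) := by simp only [commutatorElement_def]; group
      rw [this]
      exact Subgroup.mul_mem_sup hy (H02.conj_mem_conj_smul v (inv_mem hy))⟩
    have h4 := h U (fun _ h => h.1) fun y hy => Subgroup.mem_normalizer_iff_map_conj_eq.1 (h2 hy)
    rw [h4, sup_comm, H01.mem_sup_of_le_normalizer'
      (inf_le_left.trans (H01.right_le_normalizer_commutator H U))] at h3
    obtain ⟨c, hc1, n, hn, rfl⟩ := h3
    refine ⟨c, Subgroup.commutator_le.2 (fun y hy u (hu : u ∈ U) => hu.2 y hy) hc1, ?_⟩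
    change _ = MulAut.conj c • H
    rw [← H01.conj_smul_conj_smul, H01.conj_smul_eq_iff_mem_normalizer.2 hn.2]

end Cfsg.Agent.S4269
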