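import Mathlib
import Cfsg.Statements.S4271
import Cfsg.Agent.S4270

set_option autoImplicit false
open Cfsg

namespace Cfsg.Agent.S4271

open BG Subgroup

theorem aux {G : Type*} [Group G] [Finite G] {p : ℕ} [Fact p.Prime]
    (hQ : ∀ P : Sylow p G, normalizer ((P : Subgroup G) : Set G) = P) (K : Subgroup G) (P : Sylow p G)
    (hP : (P : Subgroup G) ≤ K) : IsPronormal K ∧ N_(K) = K := by
  have hp : p.Prime := Fact.out
  have hP' := isSylowIn_top hp P
  constructor
  · intro g
    obtain ⟨x, hx, e⟩ := sylow_trans hp (hP'.sub (hP.trans le_sup_left) (le_top (a := K ⊔ cj g K)))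
      ((hP'.cj_of_mem (mem_top g)).sub ((cj_mono g hP).trans le_sup_right) le_top)
    have h1 := cj_eq_cj_iff.1 e
    rw [hQ] at h1
    exact ⟨x, hx, cj_eq_cj_iff.2 (le_normalizer (hP h1))⟩
  · have hfr := sylow_frattini hp (hP'.sub hP le_top) le_normalizer le_rfl
    rw [hQ] at hfr
    rw [← hfr]
    exact sup_eq_left.2 (inf_le_right.trans hP)

/-- Let p be a prime and G a finite group with a normal subgroup A such that every subgroup of A containing a Sylow p-subgroup of A is pronormal in A, and the Sylow p-subgroups of G/A are self-normalizing. Let T be a Sylow p-subgroup of A. Then every subgroup of G containing a Sylow p-subgroup of G is pronormal in G if and only if every subgroup of N_G(T)/T containing a Sylow p-subgroup of N_G(T)/T is pronormal in N_G(T)/T. (Pronormal: H and gHg⁻¹ are conjugate inside the subgroup they generate, for every g.) -/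
theorem result {G : Type*} [Group G] [Finite G] {p : ℕ} [Fact p.Prime]
    (A : Subgroup G) [A.Normal] (hA : (∀ K : Subgroup ↥A, (∃ P : Sylow p ↥A, (P : Subgroup ↥A) ≤ K) → Cfsg.IsPronormal K))
    (hQ : ∀ P : Sylow p (G ⧸ A), Subgroup.normalizer ((P : Subgroup (G ⧸ A)) : Set (G ⧸ A)) = P)
    (T : Subgroup G) (hT : ∃ P : Sylow p ↥A, (P : Subgroup ↥A).map A.subtype = T) [(T.subgroupOf (Subgroup.normalizer (T : Set G))).Normal] :
    (∀ K : Subgroup G, (∃ P : Sylow p G, (P : Subgroup G) ≤ K) → Cfsg.IsPronormal K) ↔ (∀ K : Subgroup (↥(Subgroup.normalizer (T : Set G)) ⧸ T.subgroupOf (Subgroup.normalizer (T : Set G))), (∃ P : Sylow p (↥(Subgroup.normalizer (T : Set G)) ⧸ T.subgroupOf (Subgroup.normalizer (T : Set G))), (P : Subgroup (↥(Subgroup.normalizer (T : Set G)) ⧸ T.subgroupOf (Subgroup.normalizer (T : Set G)))) ≤ K) → Cfsg.IsPronormal K) := by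
  refine (S4270.result A hA (fun K ⟨P, hP⟩ => (aux hQ K P hP).1) T hT).trans (and_iff_left ?_)
  rintro K ⟨P, hP⟩
  refine le_antisymm (le_normalizer_map _) ?_
  rw [(aux hQ _ (P.mapSurjective (QuotientGroup.mk'_surjective A)) (map_mono hP)).2]
  exact map_mono le_normalizer

end Cfsg.Agent.S4271
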