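import Mathlib
import Cfsg.Statements.S4330
import Cfsg.Agent.H05.Cov

set_option autoImplicit false
open Pointwise
open Cfsg

namespace Cfsg.Agent.S4330

/-- Let G be a finite solvable group, p an odd prime and A a p-subgroup of G such that every conjugacy class of G contains an element g for which A is subnormal in the subgroup generated by A and its conjugate by g. Then A is contained in O_p(G). (The hypothesis that p is odd is needed.) -/
theorem result {G : Type*} [Group G] [Finite G]
    (hG : Group.IsSolvable G) (p : ℕ) [Fact p.Prime] (hp : p ≠ 2) (A : Subgroup G) (hA : IsPGroup p A)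
    (h : ∀ c : G, ∃ g : G, IsConj c g ∧ (A.subgroupOf (A ⊔ MulAut.conj g • A)).IsSubnormal) :
    A ≤ Cfsg.pCore p G := by
  intro a ha
  refine H05.Cov.mem_pCore hp _ G a rfl fun c => (h c).imp fun g ⟨hg, hs⟩ => ⟨hg, ?_⟩
  have h1 : A ≤ Cfsg.pCoreOf p (A ⊔ MulAut.conj g • A) := by
    intro x hx
    exact ⟨⟨x, Subgroup.mem_sup_left hx⟩, H02.le_pCore_of_subnormal hs hA.comap_subtype hx, rfl⟩
  have h2 : MulAut.conj g • A ≤ Subgroup.normalizer (Cfsg.pCoreOf p (A ⊔ MulAut.conj g • A) : Set G) :=
    le_sup_right.trans (H02.le_normalizer_pCoreOf _)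
  refine (IsPGroup.to_sup_of_normal_left' (H02.pCoreOf_isPGroup _) (hA.map (MulAut.conj g).toMonoidHom) h2).to_le (sup_le_sup ?_ ?_)
  · exact (Subgroup.zpowers_le.2 ha).trans h1
  · exact Subgroup.zpowers_le.2 ⟨a, ha, rfl⟩

end Cfsg.Agent.S4330
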