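import Cfsg.Statements.S4331
import Mathlib
import Cfsg.Agent.H02.PCore
import Cfsg.Agent.H02.Zipper
import Cfsg.Agent.S0144
-- import your own Cfsg.Agent.* helpers here

set_option autoImplicit false
open Cfsg

namespace Cfsg.Agent.S4331

open scoped Pointwise commutatorElement

/-- the semilinear affine group of the field with nine elements -/
@[ext] structure T where
  x : ZMod 3
  y : ZMod 3
  a : ZMod 3
  b : ZMod 3
  e : ZMod 3
  deriving DecidableEq, Fintype

def T.mul (p q : T) : T :=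
  ⟨p.x + p.a * q.x - p.b * p.e * q.y, p.y + p.b * q.x + p.a * p.e * q.y,
    p.a * q.a - p.b * p.e * q.b, p.b * q.a + p.a * p.e * q.b, p.e * q.e⟩

def T.inv (p : T) : T :=
  ⟨-(p.a * p.x + p.b * p.y) * (p.a ^ 2 + p.b ^ 2), -p.e * (p.a * p.y - p.b * p.x) * (p.a ^ 2 + p.b ^ 2),
    p.a * (p.a ^ 2 + p.b ^ 2), -p.e * p.b * (p.a ^ 2 + p.b ^ 2), p.e⟩

def T.ok (p : T) : Prop := (p.a ^ 2 + p.b ^ 2) ^ 2 = 1 ∧ p.e ^ 2 = 1

instance : DecidablePred T.ok := fun p => by unfold T.ok; infer_instance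

def Γ : Type := {p : T // p.ok}

instance : DecidableEq Γ := by unfold Γ; infer_instance
instance : Fintype Γ := by unfold Γ; infer_instance

instance : Mul Γ := ⟨fun p q => ⟨p.1.mul q.1, by
  obtain ⟨⟨x, y, a, b, e⟩, h1, h2⟩ := p
  obtain ⟨⟨x', y', a', b', e'⟩, h1', h2'⟩ := q
  simp only [T.ok, T.mul] at *
  refine ⟨?_, by rw [mul_pow, h2, h2', one_mul]⟩
  have : (a * a' - b * e * b') ^ 2 + (b * a' + a * e * b') ^ 2 = (a ^ 2 + b ^ 2) * (a' ^ 2 + b' ^ 2) := by
    linear_combination (a ^ 2 + b ^ 2) * b' ^ 2 * h2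
  rw [this, mul_pow, h1, h1', one_mul]⟩⟩

instance : One Γ := ⟨⟨⟨0, 0, 1, 0, 1⟩, by decide⟩⟩

instance : Inv Γ := ⟨fun p => ⟨p.1.inv, (by decide +kernel : ∀ p : T, p.ok → p.inv.ok) p.1 p.2⟩⟩

instance : Group Γ := Group.ofLeftAxioms
  (by
    rintro ⟨⟨x, y, a, b, e⟩, h⟩ ⟨⟨x', y', a', b', e'⟩, h'⟩ ⟨⟨x'', y'', a'', b'', e''⟩, h''⟩
    apply Subtype.ext
    change T.mul (T.mul _ _) _ = T.mul _ (T.mul _ _)
    have h2 : e ^ 2 = 1 := h.2
    simp only [T.mul, T.mk.injEq]
    refine ⟨?_, ?_, ?_, ?_, by ring⟩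
    · linear_combination -(a * b' * e' * y'') * h2
    · linear_combination -(b * b' * e' * y'') * h2
    · linear_combination -(a * b' * e' * b'') * h2
    · linear_combination -(b * b' * e' * b'') * h2)
  (by decide +kernel) (by decide +kernel)

def t : Γ := ⟨⟨0, 0, 1, 0, -1⟩, by decide⟩

theorem key : ∀ c : Γ, ∃ h : Γ, h * c * h⁻¹ * t = t * (h * c * h⁻¹) ∨
    ((h * c * h⁻¹).1.x = 0 ∧ (h * c * h⁻¹).1.y = 0) := by decide +kernel

/-- There is a finite solvable group G with a subgroup A of order 2 such that every conjugacy class of G contains an element g for which A is subnormal in the subgroup generated by A and g, and yet A is not contained in O_2(G). (So the corresponding criteria for odd primes fail at the prime 2, even for solvable groups.) -/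
theorem result :
    ∃ (G : Type) (_ : Group G) (_ : Finite G) (A : Subgroup G), Group.IsSolvable G ∧ Nat.card A = 2 ∧
      (∀ c : G, ∃ g : G, IsConj c g ∧ (A.subgroupOf (A ⊔ Subgroup.zpowers g)).IsSubnormal) ∧
      ¬ A ≤ Cfsg.pCore 2 G := by
  have h1 : orderOf t = 2 := orderOf_eq_prime (by decide +kernel) (by decide +kernel)
  refine ⟨Γ, inferInstance, inferInstance, Subgroup.zpowers t, ?_, by rw [Nat.card_zpowers, h1],
    fun c => ?_, fun h => ?_⟩
  · exact Cfsg.Agent.S0144.result 2 3 4 2 Nat.prime_two Nat.prime_three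
      (by rw [Nat.card_eq_fintype_card]; decide +kernel)
  · obtain ⟨h, h2⟩ := key c
    refine ⟨_, isConj_iff.2 ⟨h, rfl⟩, ?_⟩
    rcases h2 with h2 | h2
    · apply Subgroup.Normal.isSubnormal
      rw [Subgroup.normal_subgroupOf_iff_le_normalizer le_sup_left]
      refine sup_le Subgroup.le_normalizer (le_trans ?_ (Subgroup.centralizer_le_normalizer _))
      rintro _ ⟨m, rfl⟩ _ ⟨k, rfl⟩
      exact (Commute.zpow_zpow h2.symm k m).eq
    · let H : Subgroup Γ :=
        { carrier := {p | p.1.x = 0 ∧ p.1.y = 0}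
          one_mem' := ⟨rfl, rfl⟩
          mul_mem' := by
            rintro p q ⟨h1, h2⟩ ⟨h3, h4⟩
            change (T.mul _ _).x = 0 ∧ (T.mul _ _).y = 0
            simp [T.mul, h1, h2, h3, h4]
          inv_mem' := by
            rintro p ⟨h1, h2⟩
            change (T.inv _).x = 0 ∧ (T.inv _).y = 0
            simp [T.inv, h1, h2] }
      have h3 : IsPGroup 2 H := fun p => ⟨3, Subtype.ext
        ((by decide +kernel : ∀ p : Γ, p.1.x = 0 ∧ p.1.y = 0 → p ^ 8 = 1) p.1 p.2)⟩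
      haveI := (h3.to_le (sup_le (Subgroup.zpowers_le.2 ⟨rfl, rfl⟩) (Subgroup.zpowers_le.2 h2) :
        Subgroup.zpowers t ⊔ Subgroup.zpowers (h * c * h⁻¹) ≤ H)).isNilpotent
      exact H16.isSubnormal_of_isNilpotent _
  · have h2 := h (Subgroup.mem_zpowers t)
    let v : Γ := ⟨⟨0, 1, 1, 0, 1⟩, by decide⟩
    obtain ⟨k, hk⟩ := (H02.pCore_isPGroup (p := 2) (G := Γ)) ⟨t * (v * t * v⁻¹), mul_mem h2
      ((inferInstance : (pCore 2 Γ).Normal).conj_mem t h2 v)⟩
    have h3 : (t * (v * t * v⁻¹)) ^ 2 ^ k = 1 := congrArg Subtype.val hk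
    have h4 : (t * (v * t * v⁻¹)) ^ 3 = 1 := by decide +kernel
    have h5 := pow_gcd_eq_one.2 ⟨h3, h4⟩
    rw [(Nat.Coprime.pow_left k (by norm_num : Nat.Coprime 2 3)).gcd_eq_one, pow_one] at h5
    exact absurd h5 (by decide +kernel)

end Cfsg.Agent.S4331
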