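import Cfsg.Statements.S4332
import Mathlib
import Cfsg.Agent.H02.PCore
import Cfsg.Agent.H01.Coprime
-- import your own Cfsg.Agent.* helpers here

set_option autoImplicit false
open Pointwise
open Cfsg

namespace Cfsg.Agent.S4332

open scoped Pointwise commutatorElement

open Equiv Equiv.Perm in
theorem key (c : Perm (Fin 8)) : ∃ ρ : Perm (Fin 8), ρ.IsThreeCycle ∧ Commute ρ (c * ρ * c⁻¹) := by
  have hc : ∀ a b d : Fin 8, c * (swap a b * swap a d) * c⁻¹ = swap (c a) (c b) * swap (c a) (c d) := by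
    intro a b d
    rw [swap_apply_apply, swap_apply_apply]; group
  have h1 : ∀ a b d : Fin 8, a ≠ b → a ≠ d → b ≠ d → c a ∉ ({a, b, d} : Finset (Fin 8)) →
      c b ∉ ({a, b, d} : Finset (Fin 8)) → c d ∉ ({a, b, d} : Finset (Fin 8)) →
      ∃ ρ : Perm (Fin 8), ρ.IsThreeCycle ∧ Commute ρ (c * ρ * c⁻¹) := by
    intro a b d h1 h2 h3 h4 h5 h6
    refine ⟨_, isThreeCycle_swap_mul_swap_same h1 h2 h3, Equiv.Perm.Disjoint.commute fun x => ?_⟩
    rw [hc]
    by_cases hx : x ∈ ({a, b, d} : Finset (Fin 8))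
    · right
      have e1 : x ≠ c a := fun e => h4 (e ▸ hx)
      have e2 : x ≠ c b := fun e => h5 (e ▸ hx)
      have e3 : x ≠ c d := fun e => h6 (e ▸ hx)
      rw [mul_apply, swap_apply_of_ne_of_ne e1 e3, swap_apply_of_ne_of_ne e1 e2]
    · left
      simp only [Finset.mem_insert, Finset.mem_singleton, not_or] at hx
      rw [mul_apply, swap_apply_of_ne_of_ne hx.1 hx.2.2, swap_apply_of_ne_of_ne hx.1 hx.2.1]
  by_cases h2 : 2 < c.supportᶜ.card
  · obtain ⟨a, b, d, ha, hb, hd, h3, h4, h5⟩ := Finset.two_lt_card_iff.1 h2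
    rw [Finset.mem_compl, notMem_support] at ha hb hd
    exact ⟨_, isThreeCycle_swap_mul_swap_same h3 h4 h5, by rw [hc, ha, hb, hd]⟩
  rw [Finset.card_compl, Fintype.card_fin] at h2
  have h3 : ∀ x1 x2 x3 x4 x5 : Fin 8, ∃ y, c y ≠ y ∧ y ≠ x1 ∧ y ≠ x2 ∧ y ≠ x3 ∧ y ≠ x4 ∧ y ≠ x5 := by
    intro x1 x2 x3 x4 x5
    obtain ⟨y, hy, hy'⟩ := Finset.exists_mem_notMem_of_card_lt_card
      (s := {x1, x2, x3, x4, x5}) (t := c.support) (Finset.card_le_five.trans_lt (by omega))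
    exact ⟨y, mem_support.1 hy, by simpa [not_or] using hy'⟩
  by_cases h4 : ∃ a, c (c a) ≠ a
  · obtain ⟨a, ha⟩ := h4
    have h5 : c a ≠ a := fun e => ha (by rw [e, e])
    have h6 : c (c a) ≠ c a := fun e => h5 (c.injective e)
    by_cases h7 : c (c (c a)) = a
    · refine ⟨_, isThreeCycle_swap_mul_swap_same h5.symm ha.symm h6.symm, ?_⟩
      rw [hc, h7]
      have : swap (c a) (c (c a)) * swap (c a) a = swap a (c a) * swap a (c (c a)) := by
        generalize c (c a) = d at ha h6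
        generalize c a = b at h5 h6
        ext x
        simp only [mul_apply, swap_apply_def]
        split_ifs <;> simp_all
      rw [this]
    obtain ⟨d, h8, h9, h10, h11, h12, h13⟩ := h3 (c⁻¹ a) a (c a) (c (c a)) (c (c (c a)))
    refine h1 a (c (c a)) d ha.symm h10.symm h12.symm ?_ ?_ ?_
    · simp [h5, h6.symm, h11.symm]
    · simp [h7, h5, h13.symm]
    · have : c d ≠ a := fun e => h9 (by rw [← e]; simp)
      simp [this, h11, h8]
  push Not at h4
  obtain ⟨a, ha, -⟩ := h3 0 0 0 0 0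
  obtain ⟨b, hb, h5, h6, -⟩ := h3 a (c a) 0 0 0
  obtain ⟨d, hd, h7, h8, h9, h10, -⟩ := h3 a (c a) b (c b) 0
  have h11 : ∀ x y, y ≠ c x → c y ≠ x := fun x y h e => h (by rw [← e, h4])
  refine h1 a b d h5.symm h7.symm h9.symm ?_ ?_ ?_
  · simp [ha, h6.symm, h8.symm]
  · simp [hb, h11 _ _ h6, h10.symm]
  · simp [hd, h11 _ _ h8, h11 _ _ h10]

/-- In the symmetric group of degree 8, let A be the subgroup generated by a 3-cycle. Then every conjugacy class contains an element g for which A is subnormal in the subgroup generated by A and its conjugate by g, although O_3 of the symmetric group of degree 8 is trivial. -/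
theorem result
    (σ : Equiv.Perm (Fin 8)) (hσ : σ.IsThreeCycle) :
    (∀ c : Equiv.Perm (Fin 8), ∃ g : Equiv.Perm (Fin 8), IsConj c g ∧
      ((Subgroup.zpowers σ).subgroupOf (Subgroup.zpowers σ ⊔ MulAut.conj g • Subgroup.zpowers σ)).IsSubnormal) ∧
    Cfsg.pCore 3 (Equiv.Perm (Fin 8)) = ⊥ := by
  constructor
  · intro c
    obtain ⟨ρ, h1, h2⟩ := key c
    obtain ⟨h, rfl⟩ := isConj_iff.1 (Equiv.Perm.isConj_iff_cycleType_eq.2 (h1.cycleType.trans hσ.cycleType.symm))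
    refine ⟨h * c * h⁻¹, isConj_iff.2 ⟨h, rfl⟩, Subgroup.Normal.isSubnormal ?_⟩
    rw [Subgroup.normal_subgroupOf_iff_le_normalizer le_sup_left]
    refine sup_le Subgroup.le_normalizer (le_trans ?_ (Subgroup.centralizer_le_normalizer _))
    rintro _ ⟨_, ⟨m, rfl⟩, rfl⟩ _ ⟨k, rfl⟩
    have h3 : Commute (h * ρ * h⁻¹) (MulAut.conj (h * c * h⁻¹) (h * ρ * h⁻¹)) := by
      have := h2.map (MulAut.conj h)
      simp only [MulAut.conj_apply] at this ⊢
      rwa [show h * c * h⁻¹ * (h * ρ * h⁻¹) * (h * c * h⁻¹)⁻¹ = h * (c * ρ * c⁻¹) * h⁻¹ by group]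
    have := h3.zpow_zpow k m
    rw [← map_zpow] at this
    exact this
  · by_contra h
    have h1 := Equiv.Perm.alternatingGroup_le_of_normal (α := Fin 8) (by simp)
      ((Subgroup.nontrivial_iff_ne_bot _).2 h)
    obtain ⟨k, hk⟩ := (H02.pCore_isPGroup (p := 3) (G := Equiv.Perm (Fin 8)))
      ⟨Equiv.swap 0 1 * Equiv.swap 2 3, h1 (by rw [Equiv.Perm.mem_alternatingGroup]; decide)⟩
    have h2 : (Equiv.swap 0 1 * Equiv.swap 2 3 : Equiv.Perm (Fin 8)) ^ 3 ^ k = 1 := congrArg Subtype.val hk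
    have h3 : (Equiv.swap 0 1 * Equiv.swap 2 3 : Equiv.Perm (Fin 8)) ^ 2 = 1 := by decide
    have h4 := pow_gcd_eq_one.2 ⟨h2, h3⟩
    rw [(Nat.Coprime.pow_left k (by norm_num : Nat.Coprime 3 2)).gcd_eq_one, pow_one] at h4
    exact absurd h4 (by decide)

end Cfsg.Agent.S4332
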