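import Cfsg.Statements.S4333
import Mathlib
import Cfsg.Agent.H02.Zipper
import Cfsg.Agent.H02.Schmidt
import Cfsg.Agent.H01.Basic
-- import your own Cfsg.Agent.* helpers here

set_option autoImplicit false
open Pointwise
open Cfsg

namespace Cfsg.Agent.S4333

open scoped Pointwise commutatorElement

universe v in
theorem aux (n : ℕ) : ∀ (G : Type v) [Group G] [Finite G] (A : Subgroup G), Nat.card G = n →
    (∀ a ∈ A, ∀ g : G, (A.subgroupOf (A ⊔ MulAut.conj (g⁻¹ * a * g) • A)).IsSubnormal) →
    A.IsSubnormal := by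
  induction n using Nat.strong_induction_on with
  | _ n ih =>
  intro G _ _ A hn h
  have h1 : ∀ H : Subgroup G, A ≤ H → H ≠ ⊤ → (A.subgroupOf H).IsSubnormal := by
    intro H hAH hH
    refine ih _ (hn ▸ H02.card_subgroup_lt hH) H _ rfl fun a ha g => ?_
    have h2 := (h a ha g).comap
      (H.subtype.subgroupComap (A ⊔ MulAut.conj ((g : G)⁻¹ * a * g) • A))
    have h3 : A.subgroupOf H ⊔ MulAut.conj (g⁻¹ * a * g) • A.subgroupOf H ≤
        (A ⊔ MulAut.conj ((g : G)⁻¹ * a * g) • A).comap H.subtype := by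
      refine sup_le (Subgroup.comap_mono le_sup_left) ?_
      rintro _ ⟨b, hb, rfl⟩
      exact Subgroup.mem_sup_right (H02.conj_mem_conj_smul ((g : G)⁻¹ * a * g) hb)
    exact h2.comap (Subgroup.inclusion h3)
  by_contra hA
  obtain ⟨M, ⟨hM, hAM⟩, huniq⟩ := H02.zipper A h1 hA
  by_cases hN : Subgroup.normalizer (M : Set G) = ⊤
  · exact hA (Subgroup.IsSubnormal.trans hAM (h1 _ hAM hM.1)
      (Subgroup.normalizer_eq_top_iff.1 hN).isSubnormal)
  have h2 : Subgroup.normalClosure (A : Set G) ≤ M := by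
    rw [Subgroup.normalClosure, Subgroup.closure_le]
    intro x hx
    obtain ⟨a, ha, hc⟩ := Group.mem_conjugatesOfSet_iff.1 hx
    obtain ⟨g, rfl⟩ := isConj_iff.1 hc
    have h5 := h a ha g⁻¹
    rw [inv_inv] at h5
    have h3 : A ⊔ MulAut.conj (g * a * g⁻¹) • A ≠ ⊤ := by
      intro h4
      rw [h4] at h5
      exact hA (H16.isSubnormal_subgroupOf_top_iff.1 h5)
    obtain ⟨K, hK, hle⟩ := H02.exists_coatom_ge h3
    obtain rfl := huniq K ⟨hK, le_sup_left.trans hle⟩
    have h6 := huniq _ ⟨H02.isCoatom_smul hK (g * a * g⁻¹)⁻¹, by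
      rw [map_inv, ← Subgroup.pointwise_smul_subset_iff]
      exact le_sup_right.trans hle⟩
    have h7 := inv_mem (H01.conj_smul_eq_iff_mem_normalizer.1 h6)
    rwa [inv_inv, (hK.le_iff_eq hN).1 Subgroup.le_normalizer] at h7
  have h3 : Subgroup.normalClosure (A : Set G) ≠ ⊤ := fun h4 => hM.1 (eq_top_iff.2 (h4 ▸ h2))
  exact hA (Subgroup.IsSubnormal.trans Subgroup.le_normalClosure
    (h1 _ Subgroup.le_normalClosure h3) (Subgroup.Normal.isSubnormal inferInstance))

/-- Let A be a subgroup of a finite group G. If A is subnormal in the subgroup generated by A and its conjugate by g⁻¹ a g, for every a ∈ A and every g ∈ G, then A is subnormal in G. (A sharpening of Wielandt's subnormality criterion: only conjugates of A by conjugates of elements of A are needed.) -/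
theorem result {G : Type*} [Group G] [Finite G]
    (A : Subgroup G)
    (h : ∀ a ∈ A, ∀ g : G, (A.subgroupOf (A ⊔ MulAut.conj (g⁻¹ * a * g) • A)).IsSubnormal) :
    A.IsSubnormal := by
  exact aux _ G A rfl h

end Cfsg.Agent.S4333
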