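import Mathlib
import Cfsg.Statements.S4334
import Cfsg.Agent.H16.PiHall
import Cfsg.Agent.H16.Schmidt
import Cfsg.Agent.BG.Api4

set_option autoImplicit false
open Cfsg

namespace Cfsg.Agent.S4334

open scoped Pointwise
open BG

/-- Let σ and τ be disjoint sets of primes with union π. Suppose a finite group G has a Hall π-subgroup H which is the direct product of a nilpotent σ-subgroup and a τ-subgroup (two elementwise-commuting subgroups generating H), and that the maximal τ-subgroups of G are pairwise conjugate. Then the maximal π-subgroups of G are pairwise conjugate. -/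
theorem result {G : Type*} [Group G] [Finite G]
    (σ τ π : Set ℕ) (hπ : π = σ ∪ τ) (hd : Disjoint σ τ) (H Hs Ht : Subgroup G) (hH : Cfsg.IsPiHall π H)
    (hs : Cfsg.IsPiSubgroup σ Hs) (ht : Cfsg.IsPiSubgroup τ Ht) (hsn : Group.IsNilpotent Hs)
    (hjoin : Hs ⊔ Ht = H) (hcomm : ∀ a ∈ Hs, ∀ b ∈ Ht, a * b = b * a) (hD : Cfsg.IsDPiGroup τ G) :
    Cfsg.IsDPiGroup π G := by
  have hd' := hd
  have hHs : Hs ≤ H := hjoin ▸ le_sup_left
  have hHt : Ht ≤ H := hjoin ▸ le_sup_right
  have hn : Hs ≤ Subgroup.normalizer (Ht : Set G) := H01.le_normalizer_of_conj_mem fun a ha b hb => by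
    rw [hcomm a ha b hb, mul_inv_cancel_right]; exact hb
  have hcard : Nat.card H ∣ Nat.card Hs * Nat.card Ht := hjoin ▸ H01.card_sup_dvd_of_le_normalizer hn
  -- for `p ∈ σ` a Sylow `p`-subgroup of `G` centralised by the `p'`-elements of `H`
  have hP : ∀ p : ℕ, p.Prime → p ∈ σ → ∃ P : Subgroup G, P ≤ H ∧ IsPGroup p P ∧ ¬ p ∣ P.index ∧
      ∀ y ∈ H, (orderOf y).Coprime p → y ∈ Subgroup.centralizer (P : Set G) := by
    intro p hp hσ
    haveI := Fact.mk hp
    let S : Sylow p Hs := default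
    obtain ⟨a, b, c⟩ := H01.sylow_map_subtype_spec S
    have hSn : (S : Subgroup Hs).Normal := inferInstance
    have h1 : Hs ≤ Subgroup.normalizer (((S : Subgroup Hs).map Hs.subtype : Subgroup G) : Set G) :=
      H01.le_normalizer_map_subtype _
    set P := (S : Subgroup Hs).map Hs.subtype
    have h2 : Ht ≤ Subgroup.centralizer (P : Set G) := fun t ht u hu => hcomm u (a hu) t ht
    refine ⟨P, a.trans hHs, b, ?_, fun y hy hyo => ?_⟩
    · rw [← Subgroup.relIndex_mul_index (a.trans hHs), ← Subgroup.relIndex_mul_relIndex P Hs H a hHs]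
      intro hd
      rcases (Nat.Prime.dvd_mul hp).1 hd with h | h
      · rcases (Nat.Prime.dvd_mul hp).1 h with h | h
        · exact c h
        · have h3 : Hs.relIndex H ∣ Nat.card Ht := by
            rw [← H01.card_mul_relIndex hHs] at hcard
            exact Nat.dvd_of_mul_dvd_mul_left Nat.card_pos hcard
          exact Set.disjoint_left.1 hd' hσ (ht p hp (h.trans h3))
      · exact hH.2 p hp (hπ ▸ Or.inl hσ) h
    · obtain ⟨u, hu, t, ht', rfl⟩ := (H01.mem_sup_of_le_normalizer hn).1 (hjoin ▸ hy)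
      refine Subgroup.mul_mem _ ?_ (h2 ht')
      have hc : Commute u t := hcomm u hu t ht'
      have huo : (orderOf u).Coprime p := by
        have h4 : (orderOf u).Coprime (orderOf t) := H01.PiNum.coprime (π := σ)
          (fun r hr h => hs r hr (h.trans (Subgroup.orderOf_dvd_natCard _ hu)))
          (fun r hr h hσ => Set.disjoint_left.1 hd' hσ (ht r hr (h.trans (Subgroup.orderOf_dvd_natCard _ ht'))))
        rw [hc.orderOf_mul_eq_mul_orderOf_of_coprime h4] at hyo
        exact hyo.coprime_mul_right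
      intro v hv
      obtain ⟨k, hk⟩ := b.exists_card_eq
      exact (H16.commute_of_mem_nilpotent (a hv) hu (Nat.Coprime.coprime_dvd_left
        (hk ▸ Subgroup.orderOf_dvd_natCard _ hv) (huo.symm.pow_left k))).eq
  have hcen : ∀ p : ℕ, p.Prime → p ∈ σ → ∀ U : Subgroup G, IsPGroup p U → ∀ y ∈ N_(U),
      H01.PiNum (π \ {p}) (orderOf y) → y ∈ C_(U) := by
    intro p hp hσ U hU y hy ho
    obtain ⟨P, h1, h2, h3, h4⟩ := hP p hp hσ
    obtain ⟨g, -, hg⟩ := sylow_subJ hp (isSylowIn_mk hp le_top h2 (by rwa [Subgroup.relIndex_top_right]))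
      hU le_top
    refine H16.automizer_of_relIndex (fun r hr hd hrπ => ?_) hy ho
    obtain ⟨Q, hQ⟩ := sylow_exists hr H
    have hQC : Q ≤ C_(P) := fun y hy => h4 y (hQ.1 hy) (by
      haveI := Fact.mk hr
      obtain ⟨k, hk⟩ := (hQ.pg hr).exists_card_eq
      exact Nat.Coprime.coprime_dvd_left (hk ▸ Subgroup.orderOf_dvd_natCard _ hy)
        (((Nat.coprime_primes hr hp).2 hrπ.2).pow_left k))
    have h5 : cj g Q ≤ C_(U) := (cj_mono g hQC).trans
      ((cj_cent g P).le.trans (Subgroup.centralizer_le hg))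
    have h6 : r ∣ (cj g Q).index := by
      refine dvd_trans ?_ (Subgroup.index_dvd_of_le h5)
      exact hd.trans (Subgroup.relIndex_dvd_index_of_le (Subgroup.centralizer_le_normalizer _))
    rw [index_cj, ← Subgroup.relIndex_mul_index hQ.1] at h6
    rcases (Nat.Prime.dvd_mul hr).1 h6 with h | h
    · exact hQ.not_dvd' hr h
    · exact hH.2 r hr hrπ.1 h
  have hHtH : Cfsg.IsPiHall τ Ht := by
    refine ⟨ht, fun r hr hτ h => ?_⟩
    rw [← Subgroup.relIndex_mul_index hHt] at h
    rcases (Nat.Prime.dvd_mul hr).1 h with h | h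
    · have h3 : Ht.relIndex H ∣ Nat.card Hs := by
        rw [← H01.card_mul_relIndex hHt, mul_comm (Nat.card Hs)] at hcard
        exact Nat.dvd_of_mul_dvd_mul_left Nat.card_pos hcard
      exact Set.disjoint_left.1 hd' (hs r hr (h.trans h3)) hτ
    · exact hH.2 r hr (hπ ▸ Or.inr hτ) h
  have main : ∀ (n : ℕ) (K : Subgroup G), Nat.card K = n → Cfsg.IsPiSubgroup π K → ∃ g, cj g K ≤ H := by
    intro n
    induction n using Nat.strong_induction_on with
    | _ n ih =>
    intro K hn hK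
    by_cases hτ : Cfsg.IsPiSubgroup τ K
    · obtain ⟨K', h1, h2⟩ := exists_maximal_ge_of_wellFoundedGT (Cfsg.IsPiSubgroup τ) K hτ
      obtain ⟨g, hg⟩ := hD K' Ht h2 ⟨ht, fun X hX hle => (H01.eq_of_isPiHall_of_le hHtH hX hle).ge⟩
      exact ⟨g, ((cj_mono g h1).trans hg.ge).trans hHt⟩
    obtain ⟨p, hp, hpK, hpτ⟩ : ∃ p : ℕ, p.Prime ∧ p ∣ Nat.card K ∧ p ∉ τ := by
      by_contra h
      push Not at h
      exact hτ h
    have hσ : p ∈ σ := ((hπ ▸ hK p hp hpK : p ∈ σ ∪ τ)).resolve_right hpτ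
    haveI := Fact.mk hp
    let S : Sylow p K := default
    have hnpc : Cfsg.HasNormalPComplement p K := by
      refine H03.hasNPC_of_local S fun D hD _ g hg hgo d hd => Subtype.ext ?_
      refine hcen p hp hσ (D.map K.subtype) ((S.isPGroup'.to_le hD).map _) g
        (Subgroup.le_normalizer_map _ ⟨g, hg, rfl⟩) (fun r hr h => ⟨hK r hr
          (h.trans (Subgroup.orderOf_dvd_natCard _ g.2)), fun e => ?_⟩) d ⟨d, hd, rfl⟩
      rw [Subgroup.orderOf_coe, show r = p from e] at h
      exact (Nat.Prime.coprime_iff_not_dvd hp).1 hgo.symm h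
    obtain ⟨L, hLn, hL⟩ := (H03.hasNPC_iff_sylow S).1 hnpc
    have hLc : ¬ p ∣ Nat.card L := by
      rw [← hL.index_eq_card]; exact S.not_dvd_index
    have hLlt : Nat.card (L.map K.subtype) < n := by
      rw [Subgroup.card_subtype, ← hn]
      refine H01.card_lt_of_ne_top ?_
      rintro rfl
      rw [Subgroup.card_top] at hLc
      exact hLc hpK
    obtain ⟨g, hg⟩ := ih _ hLlt (L.map K.subtype) rfl fun r hr h =>
      hK r hr (h.trans (Subgroup.card_dvd_of_le (Subgroup.map_subtype_le _)))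
    have hKe : L.map K.subtype ⊔ (S : Subgroup K).map K.subtype = K := by
      rw [← Subgroup.map_sup, hL.sup_eq_top, ← MonoidHom.range_eq_map, Subgroup.range_subtype]
    obtain ⟨P, h1, h2, h3, h4⟩ := hP p hp hσ
    have hPN : P ≤ N_(cj g (L.map K.subtype)) := by
      refine le_trans (Subgroup.le_centralizer_iff.1 fun y hy => h4 y (hg hy) ?_)
        (Subgroup.centralizer_le_normalizer _)
      refine Nat.Coprime.coprime_dvd_left (Subgroup.orderOf_dvd_natCard _ hy) ?_
      rw [card_cj, Subgroup.card_subtype]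
      exact ((Nat.Prime.coprime_iff_not_dvd hp).2 hLc).symm
    have hSN : cj g ((S : Subgroup K).map K.subtype) ≤ N_(cj g (L.map K.subtype)) := by
      rw [← cj_norm]
      exact cj_mono g ((Subgroup.map_subtype_le _).trans (H01.le_normalizer_map_subtype L))
    obtain ⟨x, hx, hxS⟩ := sylow_Jsub hp (isSylowIn_mk hp hPN h2 fun h =>
      h3 (h.trans (Subgroup.relIndex_dvd_index_of_le hPN))) (isPGroup_cj.2 (S.isPGroup'.map _)) hSN
    refine ⟨x * g, ?_⟩
    rw [← cj_cj, ← hKe, cj_sup, cj_sup, cj_of_mem_norm hx]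
    exact sup_le hg (hxS.trans h1)
  have hmax : ∀ K : Subgroup G, Maximal (Cfsg.IsPiSubgroup π) K → ∃ g, K = cj g H := fun K hK => by
    obtain ⟨g, hg⟩ := main _ K rfl hK.1
    rw [cj_le_iff] at hg
    exact ⟨g⁻¹, le_antisymm hg (hK.2 (fun r hr h => hH.1 r hr (by rwa [card_cj] at h)) hg)⟩
  intro K₁ K₂ h₁ h₂
  obtain ⟨a, rfl⟩ := hmax K₁ h₁
  obtain ⟨b, rfl⟩ := hmax K₂ h₂
  refine ⟨b * a⁻¹, ?_⟩
  rw [← cj_eq_map, cj_cj, inv_mul_cancel_right]

end Cfsg.Agent.S4334
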