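import Mathlib
import Cfsg.Statements.S4337
import Cfsg.Agent.H29.Plane

set_option autoImplicit false
open Cfsg

namespace Cfsg.Agent.S4337

open Equiv Equiv.Perm in
theorem tt_swaps {α : Type*} [DecidableEq α] : H29.TT {σ : Perm α | σ.IsSwap} := by
  refine H29.TT.of_conj (H29.tts_of ?_ ?_ ?_) ?_
  · rintro _ ⟨x, y, -, rfl⟩; exact swap_mul_self x y
  · rintro _ ⟨x, y, h, rfl⟩ e
    exact h (by simpa using (congrArg (fun σ : Perm α => σ x) e).symm)
  · have key : ∀ x y z : α, x ≠ y → x ≠ z →
        Commute (swap x y) (swap x z) ∨ swap x y * swap x z * swap x y = swap x z * swap x y * swap x z := by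
      intro x y z h1 h2
      by_cases h : y = z
      · left; rw [h]
      · right
        have e1 := (swap_apply_apply (swap x y) x z).symm
        have e2 := (swap_apply_apply (swap x z) x y).symm
        rw [swap_inv] at e1 e2
        rw [e1, e2, swap_apply_left, swap_apply_left, swap_apply_of_ne_of_ne h2.symm (Ne.symm h),
          swap_apply_of_ne_of_ne h1.symm h, swap_comm]
    rintro _ ⟨x, y, h, rfl⟩ _ ⟨z, w, h', rfl⟩
    by_cases h1 : x = z
    · subst h1; exact key x y w h h'
    by_cases h2 : x = w
    · subst h2; rw [swap_comm z]; exact key x y z h h'.symm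
    by_cases h3 : y = z
    · subst h3; rw [swap_comm x]; exact key y x w h.symm h'
    by_cases h4 : y = w
    · subst h4; rw [swap_comm x, swap_comm z]; exact key y x z h.symm h'.symm
    left
    have e1 := (swap_apply_apply (swap x y) z w).symm
    rw [swap_apply_of_ne_of_ne (Ne.symm h1) (Ne.symm h3), swap_apply_of_ne_of_ne (Ne.symm h2) (Ne.symm h4),
      mul_inv_eq_iff_eq_mul] at e1
    exact e1
  · rintro g _ ⟨x, y, h, rfl⟩
    exact ⟨g x, g y, g.injective.ne h, (swap_apply_apply g x y).symm⟩

/-- In a finite symmetric group, any three transpositions generate a solvable subgroup. -/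
theorem result (n : ℕ) (a b c : Equiv.Perm (Fin n))
    (ha : a.IsSwap) (hb : b.IsSwap) (hc : c.IsSwap) :
    Group.IsSolvable (Subgroup.closure ({a, b, c} : Set (Equiv.Perm (Fin n)))) := by
  exact H29.solvable_closure_three tt_swaps ha hb hc

end Cfsg.Agent.S4337
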