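import Cfsg.Statements.S4342
import Mathlib
import Cfsg.Agent.H27.SylowNum
-- import your own Cfsg.Agent.* helpers here

set_option autoImplicit false
open Cfsg

namespace Cfsg.Agent.S4342

open scoped Pointwise commutatorElement

/-- Let H be a normal subgroup of a finite group G and p a prime not dividing the index of H. Then the number of Sylow p-subgroups of H/Z(H) equals the number of Sylow p-subgroups of G. -/
theorem result {G : Type*} [Group G] [Finite G]
    (p : ℕ) [Fact p.Prime] (H : Subgroup G) [H.Normal] (hp : ¬ p ∣ H.index) :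
    Nat.card (Sylow p (H ⧸ Subgroup.center H)) = Nat.card (Sylow p G) := by
  rw [H27.card_sylow_quotient_of_le_center _ le_rfl]
  obtain ⟨P⟩ : Nonempty (Sylow p G) := inferInstance
  apply H27.card_sylow_normal_of_le P H
  have h1 : IsPGroup p ((P : Subgroup G).map (QuotientGroup.mk' H)) := P.isPGroup'.map _
  obtain ⟨k, hk⟩ := h1.exists_card_eq
  have h2 : Nat.card ((P : Subgroup G).map (QuotientGroup.mk' H)) ∣ H.index :=
    Subgroup.card_subgroup_dvd_card _
  rw [hk] at h2
  have h3 : k = 0 := by
    by_contra h
    exact hp ((dvd_pow_self p h).trans h2)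
  rw [h3, pow_zero, Subgroup.card_eq_one, Subgroup.map_eq_bot_iff, QuotientGroup.ker_mk'] at hk
  exact hk

end Cfsg.Agent.S4342
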