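import Cfsg.Statements.S4344
import Mathlib
import Cfsg.Agent.H27.ClassSize
-- import your own Cfsg.Agent.* helpers here

set_option autoImplicit false
open Cfsg

namespace Cfsg.Agent.S4344

open scoped Pointwise commutatorElement

/-- Let S be a finite non-abelian simple group, M a maximal subgroup of S and C a cyclic normal subgroup of M. If a Sylow p-subgroup P of S (for a prime p dividing the order of S) is contained in C, then the number of Sylow p-subgroups of S equals the index of M. -/
theorem result {S : Type*} [Group S] [Finite S]
    [IsSimpleGroup S] (hS : ¬ IsMulCommutative S) (p : ℕ) [Fact p.Prime] (hp : p ∣ Nat.card S)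
    (M : Subgroup S) (hM : IsCoatom M) (C : Subgroup S) (hCM : C ≤ M) (hCn : (C.subgroupOf M).Normal)
    (hC : IsCyclic C) (P : Sylow p S) (hP : (P : Subgroup S) ≤ C) :
    Nat.card (Sylow p S) = M.index := by
  rw [P.card_eq_index_normalizer]
  congr 1
  have h1 : M ≤ Subgroup.normalizer ((P : Subgroup S) : Set S) := by
    have hch : ((P : Subgroup S).subgroupOf C).Characteristic := by
      letI : CommGroup C := IsCyclic.commGroup
      exact Sylow.characteristic_of_normal (P.subtype hP) inferInstance
    have := H02.normalizer_le_normalizer_map_subtype ((P : Subgroup S).subgroupOf C)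
    rw [Subgroup.map_subgroupOf_eq_of_le hP] at this
    exact ((Subgroup.normal_subgroupOf_iff_le_normalizer hCM).1 hCn).trans this
  symm
  apply (hM.le_iff.1 h1).resolve_left _ |>.symm
  intro ht
  have hn : (P : Subgroup S).Normal := Subgroup.normalizer_eq_top_iff.1 ht
  rcases hn.eq_bot_or_eq_top with h | h
  · exact P.ne_bot_of_dvd_card hp h
  · exact hM.1 (eq_top_iff.2 (h ▸ hP.trans hCM))

end Cfsg.Agent.S4344
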