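import Cfsg.Statements.S4345
import Mathlib
import Cfsg.Agent.H27.SylowNum
-- import your own Cfsg.Agent.* helpers here

set_option autoImplicit false
open Cfsg

namespace Cfsg.Agent.S4345

open scoped Pointwise commutatorElement

/-- Let G be a finite solvable group and p, ℓ primes. Then the largest power of ℓ dividing the number of Sylow p-subgroups of G is congruent to 1 modulo p. -/
theorem result {G : Type*} [Group G] [Finite G]
    (hG : Group.IsSolvable G) (p ℓ : ℕ) [Fact p.Prime] (hℓ : ℓ.Prime) :
    ℓ ^ (Nat.card (Sylow p G)).factorization ℓ ≡ 1 [MOD p] := by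
  induction hn : Nat.card G using Nat.strong_induction_on generalizing G with
  | _ n ih =>
    subst hn
    rcases subsingleton_or_nontrivial G with h | h
    · rw [H27.card_sylow_eq_one_of_comm inferInstance]; simp [Nat.ModEq]
    by_cases hs : IsSimpleGroup G
    · have hc : IsMulCommutative G := ⟨⟨fun a b => IsSimpleGroup.comm_iff_isSolvable.2 hG a b⟩⟩
      rw [H27.card_sylow_eq_one_of_comm hc]; simp [Nat.ModEq]
    obtain ⟨K, hK, h1, h2⟩ := H27.exists_normal_of_not_simple hs
    rcases H27.card_sylow_reduction (p := p) K with h3 | ⟨N, D, hD, hlt, he⟩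
    · exact h3 ℓ hℓ
    · have a1 := ih _ (H01.card_quotient_lt K h1) inferInstance rfl
      have a2 := ih _ (H01.card_lt_of_ne_top h2) inferInstance rfl
      have a3 := ih _ hlt inferInstance rfl
      rw [he, Nat.factorization_mul (mul_ne_zero Nat.card_pos.ne' Nat.card_pos.ne') Nat.card_pos.ne',
        Nat.factorization_mul Nat.card_pos.ne' Nat.card_pos.ne']
      simp only [Finsupp.add_apply, pow_add]
      simpa using (a1.mul a2).mul a3

end Cfsg.Agent.S4345
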