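import Mathlib
import Cfsg.Statements.S4346
import Cfsg.Agent.H01.Syl22
import Cfsg.Agent.S0720

set_option autoImplicit false
open Cfsg

namespace Cfsg.Agent.S4346

/-- No finite group has exactly 22 Sylow 3-subgroups. -/
theorem result {G : Type*} [Group G] [Finite G] : Nat.card (Sylow 3 G) ≠ 22 := by
    intro h22
    classical
    haveI : Fact (Nat.Prime 3) := ⟨Nat.prime_three⟩
    haveI : Fintype (Sylow 3 G) := Fintype.ofFinite _
    have hΩ : Fintype.card (Sylow 3 G) = 22 := by rw [← Nat.card_eq_fintype_card, h22]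
    set φ := MulAction.toPermHom G (Sylow 3 G) with hφ
    have hs := φ.rangeRestrict_surjective
    set P : Sylow 3 G → Subgroup φ.range := fun a => (a : Subgroup G).map φ.rangeRestrict with hPd
    have hsm : ∀ (x : G) (a : Sylow 3 G), φ.rangeRestrict x • a = x • a := fun _ _ => rfl
    have hP : ∀ a g, g ∈ P a ↔ g • a = a ∧ ∃ k, g ^ 3 ^ k = 1 := by
      intro a g
      constructor
      · rintro ⟨x, hx, rfl⟩
        refine ⟨?_, ?_⟩
        · rw [hsm, Sylow.smul_eq_iff_mem_normalizer]
          exact Subgroup.le_normalizer hx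
        · obtain ⟨k, hk⟩ := a.isPGroup' ⟨x, hx⟩
          refine ⟨k, ?_⟩
          rw [← map_pow, show x ^ 3 ^ k = 1 from congrArg Subtype.val hk, map_one]
      · rintro ⟨h1, k, hk⟩
        obtain ⟨x, rfl⟩ := hs g
        rw [hsm, Sylow.smul_eq_iff_mem_normalizer] at h1
        have h2 : φ.rangeRestrict x ∈ Subgroup.normalizer ((a.mapSurjective hs : Subgroup φ.range) : Set φ.range) :=
          Subgroup.le_normalizer_map φ.rangeRestrict ⟨x, h1, rfl⟩
        have h3 : IsPGroup 3 (Subgroup.zpowers (φ.rangeRestrict x)) := by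
          obtain ⟨j, -, hj⟩ := (Nat.dvd_prime_pow Nat.prime_three).1 (orderOf_dvd_of_pow_eq_one hk)
          exact IsPGroup.of_card (by rw [Nat.card_zpowers, hj])
        have h4 := h3.inf_normalizer_sylow (a.mapSurjective hs)
        exact (h4.le ⟨Subgroup.mem_zpowers _, h2⟩).2
    have hfix : ∀ a b, (∀ g ∈ P a, g • b = b) → b = a := by
      intro a b h
      have h1 : b ∈ MulAction.fixedPoints (a : Subgroup G) (Sylow 3 G) := fun x => h _ ⟨x, x.2, rfl⟩
      rw [a.isPGroup'.sylow_mem_fixedPoints_iff] at h1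
      exact Sylow.ext (a.is_maximal' b.isPGroup' h1)
    haveI htr : MulAction.IsPretransitive φ.range (Sylow 3 G) := ⟨fun a b => by
      obtain ⟨x, hx⟩ := MulAction.exists_smul_eq G a b
      exact ⟨φ.rangeRestrict x, hx⟩⟩
    have hprim : MulAction.IsPreprimitive φ.range (Sylow 3 G) := by
      refine ⟨fun {B} hB => ?_⟩
      rcases B.eq_empty_or_nonempty with rfl | ⟨a, ha⟩
      · exact Or.inl Set.subsingleton_empty
      have hd := hB.ncard_dvd_card ⟨a, ha⟩
      have hp : IsPGroup 3 (P a) := a.isPGroup'.map _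
      have hm := H18.ncard_modEq_fixed (P a) hp B (Set.toFinite _) (fun g hg x hx => by
        have := hB.smul_eq_of_mem ha (show g • a ∈ B by rw [((hP a g).1 hg).1]; exact ha)
        rw [← this]; exact Set.smul_mem_smul_set hx)
      have h1 : B ∩ MulAction.fixedPoints (P a) (Sylow 3 G) = {a} := by
        ext c
        constructor
        · rintro ⟨-, hc⟩
          exact hfix a c fun g hg => hc ⟨g, hg⟩
        · rintro rfl
          exact ⟨ha, fun g => ((hP _ g).1 g.2).1⟩
      rw [h1, Set.ncard_singleton] at hm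
      rw [h22] at hd
      have h2 : B.ncard = 1 ∨ B.ncard = 22 := by
        have := Nat.le_of_dvd (by norm_num) hd
        generalize B.ncard = k at hd hm this
        revert hd hm
        interval_cases k <;> decide
      rcases h2 with h | h
      · obtain ⟨c, rfl⟩ := Set.ncard_eq_one.1 h
        exact Or.inl Set.subsingleton_singleton
      · refine Or.inr (Set.eq_of_subset_of_ncard_le (Set.subset_univ _) ?_)
        rw [h, Set.ncard_univ, h22]
    obtain ⟨a₀⟩ : Nonempty (Sylow 3 G) := inferInstance
    rcases Cfsg.Agent.S0720.result (p := 11) (by norm_num) hΩ φ.range hprim a₀ with h | ⟨-, a, -, ha, -⟩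
    · exact H01.S22.core (H18.mt_two_iff.1 h) hΩ hP hfix
    · have : a ≤ 2 := by nlinarith
      interval_cases a <;> omega

end Cfsg.Agent.S4346
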