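import Mathlib
import Cfsg.Statements.S4359
import Cfsg.Agent.H05.Sims2

set_option autoImplicit false
open Pointwise
open Cfsg

namespace Cfsg.Agent.S4359

/-- Let P be a subgroup of a finite group G and g an element such that P ∩ g⁻¹Pg is a normal subgroup of prime index p in g⁻¹Pg. Let n ≥ 1 and let K be the subgroup generated by P and its conjugates g⁻ⁱPgⁱ for i ≤ n. Suppose that g normalizes no non-identity normal subgroup of P and that P meets the center of K trivially. Then the order of P is pᵗ for some t with 1 ≤ t ≤ 3n and t ≠ 3n - 1. -/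
theorem result {G : Type*} [Group G] [Finite G]
    (P : Subgroup G) (g : G) (p : ℕ) (hp : p.Prime)
    (hN : ((P ⊓ MulAut.conj g⁻¹ • P).subgroupOf (MulAut.conj g⁻¹ • P)).Normal)
    (hidx : (P ⊓ MulAut.conj g⁻¹ • P).relIndex (MulAut.conj g⁻¹ • P) = p)
    (n : ℕ) (hn : 1 ≤ n) (K : Subgroup G) (hK : K = ⨆ i ∈ Finset.range (n + 1), MulAut.conj (g ^ i)⁻¹ • P)
    (h1 : ∀ Q : Subgroup G, Q ≤ P → (Q.subgroupOf P).Normal → MulAut.conj g • Q = Q → Q = ⊥)
    (h2 : P ⊓ (Subgroup.center K).map K.subtype = ⊥) :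
    ∃ t : ℕ, Nat.card P = p ^ t ∧ 1 ≤ t ∧ t ≤ 3 * n ∧ t ≠ 3 * n - 1 := by
  obtain ⟨t, y, h⟩ := H05.Sims.exists_ch hp (H05.Sims.pg_of hN hidx hp h1) hidx h1
  refine ⟨t, h.cardP, h.one, h.len_le hn fun x hx hc => ?_⟩
  have hP : P ≤ K := hK ▸ le_iSup₂_of_le 0 (by simp) (by simp)
  refine Subgroup.mem_bot.1 (h2 ▸ Subgroup.mem_inf.2 ⟨hx, ⟨x, hP hx⟩, Subgroup.mem_center_iff.2 fun z => Subtype.ext ?_, rfl⟩)
  have : K ≤ Subgroup.centralizer {x} := hK ▸ iSup₂_le fun i hi z hz => Subgroup.mem_centralizer_singleton_iff.2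
    (h.comm_Pz hc (i := i) (by omega) (by have := Finset.mem_range.1 hi; omega) (by
      rw [H05.Sims.Pz, zpow_natCast]; exact hz)).symm
  exact Subgroup.mem_centralizer_singleton_iff.1 (this z.2)

end Cfsg.Agent.S4359
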