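import Mathlib
import Cfsg.Statements.S4370
import Cfsg.Agent.BG.Api
import Cfsg.Agent.H04.Quat2
import Cfsg.Agent.H02.FrobCompl

set_option autoImplicit false
open Cfsg

namespace Cfsg.Agent.S4370
open BG

theorem dprodEquiv {G : Type*} [Group G] {K H : Subgroup G} (h : Dprod K H ⊤) : Nonempty (G ≃* K × H) := by
  refine ⟨(MulEquiv.ofBijective (K.subtype.noncommCoprod H.subtype fun a b =>
    (le_cent_iff.1 h.cent' a a.2 b b.2)) ⟨?_, fun g => ?_⟩).symm⟩
  · rw [injective_iff_map_eq_one]
    rintro ⟨a, b⟩ e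
    have e1 : (a : G) * b = 1 := e
    have e2 : (a : G) = 1 := eq_one_of_mem_of_disj h.disj a.2 (by rw [eq_inv_of_mul_eq_one_left e1]; exact inv_mem b.2)
    rw [e2, one_mul] at e1
    exact Prod.ext (Subtype.ext e2) (Subtype.ext e1)
  · obtain ⟨a, ha, b, hb, rfl⟩ := h.mem.1 (Subgroup.mem_top g)
    exact ⟨⟨⟨a, ha⟩, ⟨b, hb⟩⟩, rfl⟩

theorem quat_cent {n : ℕ} [NeZero n] (q : QuaternionGroup n) (hq : q ∉ Subgroup.center (QuaternionGroup n)) :
    ∃ r, C_[q] ≤ Subgroup.zpowers r := by
  have ha : ∀ i : ZMod (2 * n), (QuaternionGroup.a i : QuaternionGroup n) ∈ Subgroup.zpowers (QuaternionGroup.a 1) :=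
    fun i => ⟨i.val, by simp only [zpow_natCast, QuaternionGroup.a_one_pow, ZMod.natCast_zmod_val]⟩
  have h2 : ∀ j : ZMod (2 * n), j + j = 0 → j = 0 ∨ j = n := fun j hj => by
    have h1 : 2 * n ∣ 2 * j.val := by
      rw [← ZMod.natCast_eq_zero_iff]; push_cast; rw [ZMod.natCast_zmod_val]; linear_combination hj
    obtain ⟨c, hc⟩ := Nat.dvd_of_mul_dvd_mul_left two_pos h1
    have h3 := j.val_lt
    have : c = 0 ∨ c = 1 := by
      have : c < 2 := by by_contra h; rw [hc] at h3; nlinarith
      omega
    rw [← ZMod.natCast_zmod_val j, hc]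
    rcases this with rfl | rfl <;> simp
  rcases q with i | i
  · refine ⟨QuaternionGroup.a 1, fun x hx => ?_⟩
    rcases x with j | j
    · exact ha j
    · have h1 := mem_cent1.1 hx
      simp only [QuaternionGroup.xa_mul_a, QuaternionGroup.a_mul_xa, QuaternionGroup.xa.injEq] at h1
      refine absurd (Subgroup.mem_center_iff.2 fun g => ?_) hq
      rcases g with k | k
      · simp [add_comm]
      · simp only [QuaternionGroup.xa_mul_a, QuaternionGroup.a_mul_xa, QuaternionGroup.xa.injEq]
        linear_combination h1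
  · refine ⟨QuaternionGroup.xa i, fun x hx => ?_⟩
    have h1 := mem_cent1.1 hx
    have m1 := Subgroup.mem_zpowers (QuaternionGroup.xa i : QuaternionGroup n)
    have m2 : (QuaternionGroup.a n : QuaternionGroup n) ∈ Subgroup.zpowers (QuaternionGroup.xa i) :=
      QuaternionGroup.xa_sq i ▸ pow_mem m1 2
    rcases x with j | j
    · simp only [QuaternionGroup.xa_mul_a, QuaternionGroup.a_mul_xa, QuaternionGroup.xa.injEq] at h1
      rcases h2 j (by linear_combination -h1) with rfl | rfl
      · exact one_mem _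
      · exact m2
    · simp only [QuaternionGroup.xa_mul_xa, QuaternionGroup.a.injEq] at h1
      rcases h2 (j - i) (by linear_combination -h1) with e | e
      · rw [sub_eq_zero.1 e]; exact m1
      · rw [sub_eq_iff_eq_add'.1 e]; exact mul_mem m1 m2


/-- Let G be a finite non-abelian nilpotent group. Then the centralizer of every non-central element of G is cyclic if and only if G is isomorphic to the direct product of a generalized quaternion group and a cyclic group of odd order. -/
theorem result {G : Type*} [Group G] [Finite G] (hG : Group.IsNilpotent G)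
    (hna : ¬ IsMulCommutative G) :
    (∀ x : G, x ∉ Subgroup.center G → IsCyclic (Subgroup.centralizer ({x} : Set G))) ↔
      ∃ (k m : ℕ), 1 ≤ k ∧ Odd m ∧ Nonempty (G ≃* QuaternionGroup (2 ^ k) × Multiplicative (ZMod m)) := by
  have p2 := Nat.prime_two
  constructor
  · intro h
    have hab : ∀ A : Subgroup G, IsMulCommutative A → IsCyclic A := fun A hA => by
      by_cases h1 : A ≤ Subgroup.center G
      · obtain ⟨x, hx⟩ : ∃ x, x ∉ Subgroup.center G := by
          by_contra hc
          push Not at hc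
          exact hna ⟨⟨fun a b => (Subgroup.mem_center_iff.1 (hc b) a)⟩⟩
        exact cyclic_of_le (h x hx) (h1.trans (Subgroup.center_le_centralizer _))
      · obtain ⟨x, hx, hx'⟩ := SetLike.not_le_iff_exists.1 h1
        exact cyclic_of_le (h x hx') ((abelian_iff.1 hA).trans (cent_le_cent1 hx))
    have key : ∀ (p : ℕ) [Fact p.Prime] (P : Subgroup G), IsPGroup p P →
        IsCyclic P ∨ (p = 2 ∧ ∃ n : ℕ, Nonempty (P ≃* QuaternionGroup (2 ^ (n + 1)))) := fun p _ P hP =>
      H04.isCyclic_or_quaternion_of_unique hP (H02.eq_of_card_eq_prime_of_abelian_cyclic hP fun B hB =>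
        (H02.isCyclic_map_subtype_iff B).1 (hab _ inferInstance))
    have hT : Group.IsNilpotent (⊤ : Subgroup G) := inferInstance
    have hD := nil_dprod {2} hT
    have hodd := pcore_not_dvd p2 (⊤ : Subgroup G)
    haveI : IsZGroup (piCoreOf {2}ᶜ (⊤ : Subgroup G)) := ⟨fun p hp P => by
      haveI := Fact.mk hp
      refine (H02.isCyclic_map_subtype_iff _).1 ((key p _ (P.2.map _)).resolve_right ?_)
      rintro ⟨rfl, n, ⟨e⟩⟩
      refine not_dvd_of_le hodd (Subgroup.map_subtype_le (P : Subgroup _)) ?_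
      rw [Nat.card_congr e.toEquiv, Nat.card_eq_fintype_card, QuaternionGroup.card]
      exact Dvd.dvd.mul_right (by norm_num) _⟩
    have hc : IsCyclic (piCoreOf {2}ᶜ (⊤ : Subgroup G)) := inferInstance
    obtain ⟨e⟩ := dprodEquiv hD
    obtain ⟨-, n, ⟨f⟩⟩ := (key 2 _ (pcore_pg p2 ⊤)).resolve_left fun h1 => by
      have := hD.abelian (abelian_of_cyclic h1) (abelian_of_cyclic hc)
      exact hna ⟨⟨fun a b => mul_comm_of_abelian this trivial trivial⟩⟩
    exact ⟨n + 1, _, by omega, Nat.odd_iff.2 (Nat.two_dvd_ne_zero.1 hodd),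
      ⟨e.trans (MulEquiv.prodCongr f (zmodCyclicMulEquiv hc).symm)⟩⟩
  · rintro ⟨k, m, -, hm, ⟨e⟩⟩ x hx
    obtain ⟨r, hr⟩ := quat_cent (e x).1 fun h => hx (Subgroup.mem_center_iff.2 fun g => e.injective (by
      rw [map_mul, map_mul]
      exact Prod.ext (Subgroup.mem_center_iff.1 h _) (mul_comm _ _)))
    haveI : IsCyclic (Subgroup.zpowers r × Multiplicative (ZMod m)) :=
      Group.isCyclic_prod_iff.2 ⟨inferInstance, inferInstance, by
        rw [Nat.card_congr Multiplicative.toAdd, Nat.card_zmod]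
        refine Nat.Coprime.of_dvd_left (card_dvd_top _) ?_
        rw [Nat.card_eq_fintype_card, QuaternionGroup.card]
        exact Nat.Coprime.mul_left ((Nat.coprime_two_left.2 hm).pow_left 2) ((Nat.coprime_two_left.2 hm).pow_left k)⟩
    let f : C_[x] →* Subgroup.zpowers r × Multiplicative (ZMod m) :=
      (((MonoidHom.fst _ _).comp (e.toMonoidHom.comp C_[x].subtype)).codRestrict _ fun y => hr (mem_cent1.2
        (congrArg Prod.fst (show e y * e x = e x * e y by rw [← map_mul, ← map_mul, mem_cent1.1 y.2])))).prod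
        ((MonoidHom.snd _ _).comp (e.toMonoidHom.comp C_[x].subtype))
    exact isCyclic_of_injective f fun a b hab => Subtype.ext (e.injective
      (Prod.ext (congrArg (fun t => (t.1 : QuaternionGroup (2 ^ k))) hab) (congrArg (fun t => t.2) hab :)))

end Cfsg.Agent.S4370
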