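import Mathlib
import Cfsg.Agent.H20.SL6
-- Template for statement S4374 (row 4374; see /opt/grader/pristine/manifest.json for weights).
-- Copy to Cfsg/Agent/S4374.lean and replace the sorry. The statement below is byte-identical to the frozen
-- statement Cfsg.CfsgFrozen.S4374 (Cfsg/Statements/S4374.lean; the theorem Cfsg.fg11_solvable_completely_reducible_module_three_vectors_with_trivial_common_stabilizer);
-- the grader kernel-checks Cfsg.Agent.S4374.result against that frozen type. Keep the theorem IN THIS FILE
-- (a `result` declared elsewhere and merely imported here is not credited); helpers may live anywhere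
-- under Cfsg/Agent/.
import Cfsg.Statements.S4374
-- import your own Cfsg.Agent.* helpers here

set_option autoImplicit false
open Cfsg

open H20.SL

namespace Cfsg.Agent.S4374

/-- Let the finite solvable group A act faithfully on the finite additive group V by group automorphisms, completely reducibly (every A-invariant subgroup has an A-invariant complement). Then there are v₁, v₂, v₃ ∈ V such that only the identity of A fixes all three. -/
theorem result {A V : Type*} [Group A] [Finite A]
    [AddCommGroup V] [Finite V] [DistribMulAction A V] [FaithfulSMul A V] (hA : Group.IsSolvable A)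
    (hcr : (∀ U : AddSubgroup V, (∀ a : A, ∀ v ∈ U, a • v ∈ U) → ∃ W : AddSubgroup V, (∀ a : A, ∀ w ∈ W, a • w ∈ W) ∧ U ⊓ W = ⊥ ∧ U ⊔ W = ⊤)) :
    ∃ v₁ v₂ v₃ : V, ∀ a : A, a • v₁ = v₁ → a • v₂ = v₂ → a • v₃ = v₃ → a = 1 := by
  obtain ⟨v, -, h⟩ := bs3 (ρ := Representation.ofDistribMulAction ℤ A V) fun U hU => by
    obtain ⟨W, a, b, c⟩ := hcr U.toAddSubgroup hU
    exact ⟨AddSubgroup.toIntSubmodule W, a, AddSubgroup.toIntSubmodule.symm.injective (by simpa using b),
      AddSubgroup.toIntSubmodule.symm.injective (by simpa using c)⟩
  exact ⟨v 0, v 1, v 2, fun a h1 h2 h3 => eq_of_smul_eq_smul fun u : V =>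
    (h a (fun i => by fin_cases i <;> assumption) u trivial).trans (one_smul _ _).symm⟩

end Cfsg.Agent.S4374
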