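import Mathlib
import Cfsg.Agent.H20.SL4
import Cfsg.Agent.S0205
-- Template for statement S4375 (row 4375; see /opt/grader/pristine/manifest.json for weights).
-- Copy to Cfsg/Agent/S4375.lean and replace the sorry. The statement below is byte-identical to the frozen
-- statement Cfsg.CfsgFrozen.S4375 (Cfsg/Statements/S4375.lean; the theorem Cfsg.fg11_odd_order_completely_reducible_module_two_vectors_with_trivial_common_stabilizer);
-- the grader kernel-checks Cfsg.Agent.S4375.result against that frozen type. Keep the theorem IN THIS FILE
-- (a `result` declared elsewhere and merely imported here is not credited); helpers may live anywhere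
-- under Cfsg/Agent/.
import Cfsg.Statements.S4375
-- import your own Cfsg.Agent.* helpers here

set_option autoImplicit false
open Cfsg

open H20.SL

namespace Cfsg.Agent.S4375

/-- Let the finite group A of odd order act faithfully on the finite additive group V by group automorphisms, completely reducibly (every A-invariant subgroup has an A-invariant complement). Then there are v, w ∈ V such that only the identity of A fixes both. -/
theorem result {A V : Type*} [Group A] [Finite A]
    [AddCommGroup V] [Finite V] [DistribMulAction A V] [FaithfulSMul A V] (hA : Odd (Nat.card A))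
    (hcr : (∀ U : AddSubgroup V, (∀ a : A, ∀ v ∈ U, a • v ∈ U) → ∃ W : AddSubgroup V, (∀ a : A, ∀ w ∈ W, a • w ∈ W) ∧ U ⊓ W = ⊥ ∧ U ⊔ W = ⊤)) :
    ∃ v w : V, ∀ a : A, a • v = v → a • w = w → a = 1 := by
  have := Cfsg.Agent.S0205.result hA
  obtain ⟨v, -, w, -, h⟩ := b2_of_odd (ρ := Representation.ofDistribMulAction ℤ A V) hA fun U hU => by
    obtain ⟨W, a, b, c⟩ := hcr U.toAddSubgroup hU
    exact ⟨AddSubgroup.toIntSubmodule W, a, AddSubgroup.toIntSubmodule.symm.injective (by simpa using b),
      AddSubgroup.toIntSubmodule.symm.injective (by simpa using c)⟩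
  exact ⟨v, w, fun a h1 h2 => eq_of_smul_eq_smul fun u : V => (h a h1 h2 u trivial).trans (one_smul _ _).symm⟩

end Cfsg.Agent.S4375
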