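import Cfsg.Statements.S4377
import Mathlib
-- import your own Cfsg.Agent.* helpers here

set_option autoImplicit false
open Cfsg

namespace Cfsg.Agent.S4377

open scoped Pointwise commutatorElement

theorem card_pow_eq {G : Type*} [Group G] [Finite G] (n : ℕ) (hn : 0 < n) :
    Nat.card {g : G // g ^ n = 1} = ∑ d ∈ n.divisors, Nat.card {g : G // orderOf g = d} := by
  classical
  letI := Fintype.ofFinite G
  simp only [Nat.card_eq_fintype_card, Fintype.card_subtype]
  have := sum_card_orderOf_eq_card_pow_eq_one (G := G) hn.ne'
  convert this.symm
theorem card_zero {G : Type*} [Group G] [Finite G] : Nat.card {g : G // orderOf g = 0} = 0 := by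
  haveI : IsEmpty {g : G // orderOf g = 0} := ⟨fun g => (orderOf_pos g.1).ne' g.2⟩
  exact Nat.card_of_isEmpty
theorem card_pow_big {G : Type*} [Group G] [Finite G] (n : ℕ) (hn : Nat.card G ∣ n) :
    Nat.card {g : G // g ^ n = 1} = Nat.card {g : G // g ^ 0 = 1} := by
  apply Nat.card_congr
  apply Equiv.subtypeEquivRight
  intro g
  simp only [pow_zero, iff_true]
  exact orderOf_dvd_iff_pow_eq_one.1 ((orderOf_dvd_natCard g).trans hn)

/-- Two finite groups have the same number of elements of each order if and only if, for every n, they have the same number of elements g with gⁿ = 1. -/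
theorem result {G H : Type*} [Group G] [Finite G] [Group H] [Finite H] :
    (∀ n : ℕ, Nat.card {g : G // orderOf g = n} = Nat.card {h : H // orderOf h = n}) ↔
      ∀ n : ℕ, Nat.card {g : G // g ^ n = 1} = Nat.card {h : H // h ^ n = 1} := by
  constructor
  · intro h n
    rcases Nat.eq_zero_or_pos n with rfl | hn
    · have hp : 0 < Nat.card G * Nat.card H := Nat.mul_pos Nat.card_pos Nat.card_pos
      rw [← card_pow_big (Nat.card G * Nat.card H) (Dvd.intro _ rfl),
        ← card_pow_big (G := H) (Nat.card G * Nat.card H) (Dvd.intro_left _ rfl),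
        card_pow_eq _ hp, card_pow_eq _ hp]
      exact Finset.sum_congr rfl fun d _ => h d
    · rw [card_pow_eq _ hn, card_pow_eq _ hn]
      exact Finset.sum_congr rfl fun d _ => h d
  · intro h n
    induction n using Nat.strong_induction_on with
    | _ n ih =>
      rcases Nat.eq_zero_or_pos n with rfl | hn
      · rw [card_zero, card_zero]
      · have := h n
        rw [card_pow_eq _ hn, card_pow_eq _ hn, ← Nat.cons_self_properDivisors hn.ne',
          Finset.sum_cons, Finset.sum_cons,
          Finset.sum_congr rfl fun d hd => ih d (Nat.mem_properDivisors.1 hd).2] at this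
        omega

end Cfsg.Agent.S4377
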