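import Cfsg.Statements.S4381
import Mathlib
import Cfsg.Agent.H27.Act2
import Cfsg.Agent.H04.Frattini
import Cfsg.Agent.H01.Hall
-- import your own Cfsg.Agent.* helpers here

set_option autoImplicit false
open Pointwise
open Cfsg

namespace Cfsg.Agent.S4381

open scoped Pointwise commutatorElement

/-- Let the finite group A act by automorphisms on the finite group G with the orders of A and G coprime, and assume that A or G is solvable. Call a proper A-invariant subgroup of G maximal A-invariant when no A-invariant subgroup lies strictly between it and G. Then all maximal A-invariant subgroups of G are conjugate under elements of the fixed-point subgroup C_G(A) if and only if G is a p-group for some prime p and A leaves invariant no subgroup strictly between the Frattini subgroup of G and G. In that case, if G is nontrivial, the Frattini subgroup is the only maximal A-invariant subgroup (a trivial G has none). -/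
theorem result {A G : Type*} [Group A] [Finite A]
    [Group G] [Finite G] [MulDistribMulAction A G] (hcop : (Nat.card A).Coprime (Nat.card G)) (hsol : Group.IsSolvable A ∨ Group.IsSolvable G) :
    ((∀ M N : Subgroup G, (M ≠ ⊤ ∧ (∀ a : A, ∀ x ∈ M, a • x ∈ M) ∧ ∀ L : Subgroup G, M < L → (∀ a : A, ∀ x ∈ L, a • x ∈ L) → L = ⊤) → (N ≠ ⊤ ∧ (∀ a : A, ∀ x ∈ N, a • x ∈ N) ∧ ∀ L : Subgroup G, N < L → (∀ a : A, ∀ x ∈ L, a • x ∈ L) → L = ⊤) →
        ∃ c : G, (∀ a : A, a • c = c) ∧ N = MulAut.conj c • M) ↔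
      ((∃ p : ℕ, p.Prime ∧ IsPGroup p G) ∧ ∀ L : Subgroup G, frattini G < L → (∀ a : A, ∀ x ∈ L, a • x ∈ L) → L = ⊤)) ∧
    (((∃ p : ℕ, p.Prime ∧ IsPGroup p G) ∧ ∀ L : Subgroup G, frattini G < L → (∀ a : A, ∀ x ∈ L, a • x ∈ L) → L = ⊤) →
      ∀ M : Subgroup G, (M ≠ ⊤ ∧ (∀ a : A, ∀ x ∈ M, a • x ∈ M) ∧ ∀ L : Subgroup G, M < L → (∀ a : A, ∀ x ∈ L, a • x ∈ L) → L = ⊤) ↔ (M = frattini G ∧ M ≠ ⊤)) := by
  let φ := MulDistribMulAction.toMulAut A G
  have hex : ∀ H : Subgroup G, H ≠ ⊤ → H27.Inv φ H → ∃ M : Subgroup G, H ≤ M ∧ M ≠ ⊤ ∧ H27.Inv φ M ∧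
      ∀ L : Subgroup G, M < L → H27.Inv φ L → L = ⊤ := by
    intro H h1 h2
    obtain ⟨M, hHM, hM⟩ := Finite.exists_le_maximal (p := fun M : Subgroup G => M ≠ ⊤ ∧ H27.Inv φ M)
      (a := H) ⟨h1, h2⟩
    refine ⟨M, hHM, hM.1.1, hM.1.2, fun K h3 h4 => ?_⟩
    by_contra h5
    exact h3.not_ge (hM.2 ⟨h5, h4⟩ h3.le)
  have hΦ : H27.Inv φ (frattini G) := H27.inv_of_characteristic _
  have hle : ∀ M : Subgroup G, M ≠ ⊤ → H27.Inv φ M →
      (∀ L : Subgroup G, M < L → H27.Inv φ L → L = ⊤) → frattini G ≤ M := by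
    intro M h1 h2 h3
    by_contra h4
    exact h1 (frattini_nongenerating (h3 _ (left_lt_sup.2 h4) (h2.sup hΦ)))
  have h2 : ((∃ p : ℕ, p.Prime ∧ IsPGroup p G) ∧ ∀ L : Subgroup G, frattini G < L → (∀ a : A, ∀ x ∈ L, a • x ∈ L) → L = ⊤) →
      ∀ M : Subgroup G, (M ≠ ⊤ ∧ (∀ a : A, ∀ x ∈ M, a • x ∈ M) ∧ ∀ L : Subgroup G, M < L → (∀ a : A, ∀ x ∈ L, a • x ∈ L) → L = ⊤) ↔ (M = frattini G ∧ M ≠ ⊤) := by
    rintro ⟨-, h⟩ M
    constructor
    · rintro ⟨h1, h2, h3⟩
      refine ⟨?_, h1⟩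
      by_contra h4
      exact h1 (h M (lt_of_le_of_ne (hle M h1 h2 h3) (Ne.symm h4)) h2)
    · rintro ⟨rfl, h1⟩
      exact ⟨h1, hΦ, h⟩
  refine ⟨⟨fun h => ?_, fun h M N hM hN => ⟨1, fun a => smul_one a, ?_⟩⟩, h2⟩
  swap
  · rw [((h2 h M).1 hM).1, ((h2 h N).1 hN).1, map_one, one_smul]
  rcases subsingleton_or_nontrivial G with hs | hs
  · exact ⟨⟨2, Nat.prime_two, IsPGroup.of_subsingleton _ _⟩, fun L _ _ => Subsingleton.elim _ _⟩
  obtain ⟨M, -, hM⟩ := hex ⊥ bot_ne_top H27.inv_bot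
  obtain ⟨p, hp, hd⟩ := Nat.exists_prime_and_dvd (fun e => hM.1 (Subgroup.index_eq_one.1 e))
  haveI := Fact.mk hp
  have hG : IsPGroup p G := by
    obtain ⟨P, hP, h3, -⟩ := H27.exists_inv_isSyl (φ := φ) (K := ⊤) (by rwa [Subgroup.card_top])
      (hsol.elim Or.inl fun _ => by right; infer_instance)
      H27.inv_top H27.inv_bot (IsPGroup.of_bot (p := p)) bot_le
    by_cases h4 : P = ⊤
    · exact (h4 ▸ hP.pg).of_equiv Subgroup.topEquiv
    obtain ⟨N, h5, hN⟩ := hex P h4 h3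
    obtain ⟨c, -, rfl⟩ := h M N hM hN
    rw [← H01.index_eq_of_card_eq (H01.card_conj_smul c M)] at hd
    exact absurd ((hd.trans (Subgroup.index_dvd_of_le h5)).trans
      (Subgroup.relIndex_top_right P).symm.dvd) hP.not_dvd
  refine ⟨⟨p, hp, hG⟩, fun L h3 h4 => ?_⟩
  by_contra h5
  have hs := QuotientGroup.mk'_surjective (frattini G)
  obtain ⟨h6, h7⟩ := (H04.frattini_eq_bot_iff (hG.to_quotient (frattini G))).1 (by
    rw [← H04.frattini_map hG _ hs, Subgroup.map_eq_bot_iff, QuotientGroup.ker_mk'])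
  obtain ⟨W, -, h8, h9, h10⟩ := H27.exists_inv_complement (φ := H27.quotAct φ _ hΦ) hp (V := ⊤)
    (fun v _ => h7 v) H27.inv_top le_top (hΦ.quot h4) (hcop.coprime_dvd_right
      ((Subgroup.card_map_dvd _ _).trans (Subgroup.card_subgroup_dvd_card L)))
  have hu : ∀ N : Subgroup G, N ≠ ⊤ → H27.Inv φ N → N ≤ M := by
    intro N h1 h2
    obtain ⟨N', h5, hN⟩ := hex N h1 h2
    obtain ⟨c, -, rfl⟩ := h M N' hM hN
    haveI : M.Normal := ⟨fun n hn g => by
      have := M.mul_mem (hle M hM.1 hM.2.1 hM.2.2 (H04.commutatorElement_mem_frattini hG g n)) hn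
      rwa [commutatorElement_def, inv_mul_cancel_right] at this⟩
    rwa [H01.conj_smul_eq_of_normal] at h5
  have h11 := hu L h5 h4
  have h12 := hu _ (fun e => by
    have h13 : W = ⊤ := by
      rw [← Subgroup.map_comap_eq_self_of_surjective hs W, e, Subgroup.map_top_of_surjective _ hs]
    rw [h13, inf_top_eq, Subgroup.map_eq_bot_iff, QuotientGroup.ker_mk'] at h9
    exact h3.not_ge h9) (hΦ.comap_quot h8)
  apply hM.1
  rw [eq_top_iff, ← Subgroup.comap_top (QuotientGroup.mk' (frattini G)), ← h10,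
    ← Subgroup.comap_sup_eq _ _ _ hs, Subgroup.comap_map_eq, QuotientGroup.ker_mk']
  exact sup_le (sup_le h11 (h3.le.trans h11)) h12

end Cfsg.Agent.S4381
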