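import Mathlib
import Cfsg.Statements.S4385
import Cfsg.Agent.H05.Sims5

set_option autoImplicit false
open Pointwise
open Cfsg

namespace Cfsg.Agent.S4385

open Subgroup DihedralGroup in
theorem dih {G : Type*} [Group G] [Finite G] {n : ℕ} (hn : 2 ≤ n) (φ : G →* DihedralGroup n) (hφ : Function.Surjective φ)
    (hk : φ.ker = pCore 2 G) {P : Subgroup G} (hP : IsPGroup 2 P) (hs : ¬ 2 ∣ P.index) :
    φ.ker ≤ P ∧ φ.ker.relIndex P = 2 ∧ P ≠ ⊤ ∧ ∃ k : G, ∀ S, P ≤ S → (∀ u ∈ P, k⁻¹ * u * k ∈ S) → S = ⊤ := by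
  have : NeZero n := ⟨by omega⟩
  have h1 : φ.ker ≤ P := hk ▸ H02.pCore_le_sylow (hP.toSylow hs)
  have ho : Odd n := by
    rw [← Nat.not_even_iff_odd]
    rintro ⟨m, rfl⟩
    have c : ∀ g : DihedralGroup (m + m), g * r m * g⁻¹ = r m := fun g => by
      have : (m : ZMod (m + m)) + m = 0 := by rw [← Nat.cast_add, ZMod.natCast_self]
      rcases g with i | i <;> simp
      linear_combination -this
    have hN : (zpowers (r m : DihedralGroup (m + m))).Normal :=
      ⟨by rintro _ ⟨k, rfl⟩ g; simpa only [← conj_zpow, c] using zpow_mem_zpowers _ k⟩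
    have h2 : IsPGroup 2 (zpowers (r m : DihedralGroup (m + m))) := IsPGroup.of_card_dvd_pow (n := 1) (by
      rw [Nat.card_zpowers, orderOf_dvd_iff_pow_eq_one, pow_one, sq, r_mul_r, ← Nat.cast_add, ZMod.natCast_self]; rfl)
    obtain ⟨g, hg⟩ := hφ (r m)
    have h3 : g ∈ φ.ker := hk ▸ H02.le_pCore (h2.comap_of_ker_isPGroup φ (hk ▸ H02.pCore_isPGroup 2 G))
      (show φ g ∈ zpowers _ from hg ▸ mem_zpowers _)
    rw [MonoidHom.mem_ker, hg, ← r_zero, r.injEq, ZMod.natCast_eq_zero_iff] at h3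
    have := Nat.le_of_dvd (by omega) h3
    omega
  have h2 : ∀ u ∈ P, ∀ i, φ u = r i → φ u = 1 := fun u hu i e => by
    obtain ⟨k, hk⟩ := hP ⟨u, hu⟩
    have a1 : φ u ^ 2 ^ k = 1 := by rw [← map_pow, show u ^ 2 ^ k = 1 from congrArg Subtype.val hk, map_one]
    have a2 : φ u ^ n = 1 := by rw [e, r_pow, ZMod.natCast_self, mul_zero, r_zero]
    exact orderOf_eq_one_iff.1 (Nat.eq_one_of_dvd_coprimes ((Nat.coprime_two_left.2 ho).pow_left k)
      (orderOf_dvd_of_pow_eq_one a1) (orderOf_dvd_of_pow_eq_one a2))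
  obtain ⟨a, ha, i, hi⟩ : ∃ a ∈ P, ∃ i, φ a = sr i := by
    by_contra e
    push Not at e
    have : P = φ.ker := le_antisymm (fun u hu => by
      rcases e' : φ u with j | j
      exacts [h2 u hu j e', absurd e' (e u hu j)]) h1
    rw [this, index_ker, MonoidHom.range_eq_top.2 hφ, card_top, nat_card] at hs
    exact hs (Dvd.intro _ rfl)
  have h3 : P.map φ = zpowers (sr i) := le_antisymm (by
    rintro _ ⟨u, hu, rfl⟩
    rcases e' : φ u with j | j
    · rw [← e', h2 u hu j e']; exact one_mem _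
    · have := h2 _ (mul_mem ha hu) _ (by rw [map_mul, hi, e', sr_mul_sr])
      rw [map_mul, hi, e', mul_eq_one_iff_inv_eq] at this
      exact this ▸ inv_mem (mem_zpowers _)) (zpowers_le.2 ⟨a, ha, hi⟩)
  have h4 : φ.ker.relIndex P = 2 := by rw [relIndex_ker, h3, Nat.card_zpowers, orderOf_sr]
  refine ⟨h1, h4, fun e => ?_, ?_⟩
  · rw [e, relIndex_top_right, index_ker, MonoidHom.range_eq_top.2 hφ, card_top, nat_card] at h4
    omega
  obtain ⟨m, hm⟩ := ho
  obtain ⟨k, hk⟩ := hφ (r (m + 1))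
  refine ⟨k, fun S s1 s2 => ?_⟩
  have a1 : sr i ∈ S.map φ := ⟨a, s1 ha, hi⟩
  have a2 : r 1 ∈ S.map φ := by
    have : (2 * m + 1 : ZMod n) = 0 := by
      exact_mod_cast (ZMod.natCast_eq_zero_iff (2 * m + 1) n).2 hm.dvd
    refine ⟨_, mul_mem (s1 ha) (s2 a ha), ?_⟩
    simp only [map_mul, map_inv, hi, hk, inv_r, r_mul_sr, sr_mul_r, sr_mul_sr, r.injEq]
    linear_combination this
  have a3 : ∀ j, r j ∈ S.map φ := fun j => by
    simpa using pow_mem a2 j.val
  rw [← comap_map_eq_self (h1.trans s1), show S.map φ = ⊤ from top_le_iff.1 fun d _ => by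
    rcases d with j | j
    exacts [a3 j, by simpa using mul_mem a1 (a3 (j - i))], comap_top]

/-- Let H be a subgroup of a finite group G whose largest normal 2-subgroup O_2(H) is nontrivial and such that H/O_2(H) is a dihedral group of order at least 4. Let P be a Sylow 2-subgroup of H and S a Sylow 2-subgroup of G containing P. Suppose y ∈ S lies outside P, normalizes P, has y² in the product of P with the centralizer of P in G, and normalizes no non-identity normal subgroup of H contained in P. Then P has order 4, 8 or 16, and H modulo its largest normal subgroup of odd order is isomorphic to the four-group, to the symmetric group of degree 4, or to the direct product of the symmetric group of degree 4 with a group of order 2. -/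
theorem result {G : Type*} [Group G] [Finite G]
    (H : Subgroup G) (hO : Cfsg.pCore 2 ↥H ≠ ⊥) (n : ℕ) (hn : 2 ≤ n) (hdih : Nonempty (↥H ⧸ Cfsg.pCore 2 ↥H ≃* DihedralGroup n))
    (P : Subgroup G) (hPH : P ≤ H) (hP : IsPGroup 2 P) (hPsyl : ¬ 2 ∣ P.relIndex H)
    (S : Sylow 2 G) (hPS : P ≤ (S : Subgroup G)) (y : G) (hyS : y ∈ (S : Subgroup G)) (hyP : y ∉ P)
    (hy2 : y ^ 2 ∈ P ⊔ Subgroup.centralizer (P : Set G)) (hyN : MulAut.conj y • P = P)
    (hyQ : ∀ Q : Subgroup G, Q ≤ P → (Q.subgroupOf H).Normal → MulAut.conj y • Q = Q → Q = ⊥) :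
    (Nat.card P = 4 ∨ Nat.card P = 8 ∨ Nat.card P = 16) ∧
    (Nonempty (↥H ⧸ Cfsg.oddCore ↥H ≃* Multiplicative (ZMod 2) × Multiplicative (ZMod 2)) ∨
     Nonempty (↥H ⧸ Cfsg.oddCore ↥H ≃* Equiv.Perm (Fin 4)) ∨
     Nonempty (↥H ⧸ Cfsg.oddCore ↥H ≃* Equiv.Perm (Fin 4) × Multiplicative (ZMod 2))) := by
  obtain ⟨ψ⟩ := hdih
  have hk : (ψ.toMonoidHom.comp (QuotientGroup.mk' _)).ker = pCore 2 H := by
    rw [MonoidHom.ker_comp_of_injective _ _ ψ.injective, QuotientGroup.ker_mk']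
  obtain ⟨h1, h2, h3, k, h4⟩ := dih hn _ (ψ.surjective.comp (QuotientGroup.mk'_surjective _)) hk
    (P := P.subgroupOf H) (hP.of_equiv (Subgroup.subgroupOfEquivOfLe hPH).symm) hPsyl
  rw [hk] at h1 h2
  have hy := H05.Sims.cj_eq_iff.1 hyN
  obtain ⟨u, hu, c, hc, e⟩ : ∃ u ∈ P, ∃ c ∈ Subgroup.centralizer (P : Set G), y * y = u * c := by
    rw [← SetLike.mem_coe, Subgroup.coe_mul_of_right_le_normalizer_left _ _ (Subgroup.centralizer_le_normalizer _)] at hy2
    obtain ⟨u, hu, c, hc, e⟩ := hy2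
    exact ⟨u, hu, c, hc, by rw [← sq, ← e]⟩
  have e1 : ∀ v ∈ P, (y * y)⁻¹ * v * (y * y) = u⁻¹ * v * u := fun v hv => by
    rw [e, show (u * c)⁻¹ * v * (u * c) = c⁻¹ * (u⁻¹ * v * u * c) by group,
      hc _ (mul_mem (mul_mem (inv_mem hu) hv) hu), inv_mul_cancel_left]
  have e2 : ((pCore 2 H).map H.subtype).subgroupOf H = pCore 2 H :=
    Subgroup.comap_map_eq_self_of_injective H.subtype_injective _
  have hQ : ∀ Q ≤ P, H ≤ Subgroup.normalizer (Q : Set G) → y ∈ Subgroup.normalizer (Q : Set G) → Q = ⊥ := fun Q a b c =>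
    hyQ Q a ((Subgroup.normal_subgroupOf_iff_le_normalizer (a.trans hPH)).2 b) (H05.Sims.cj_eq_iff.2 c)
  have o1 : (pCore 2 H).map H.subtype ≤ P := Subgroup.map_le_iff_le_comap.2 h1
  have o2 : ((pCore 2 H).map H.subtype).relIndex P = 2 := by rw [← Subgroup.relIndex_subgroupOf hPH, e2, h2]
  obtain ⟨t, t1, t2, o⟩ := H05.Sims.core hP hPH hPsyl o1
    ((Subgroup.normal_subgroupOf_iff_le_normalizer (Subgroup.map_subtype_le _)).1 (by rw [e2]; infer_instance)) o2 k.2
    (fun S a b => Subgroup.subgroupOf_eq_top.1 (h4 _ (Subgroup.comap_mono a) fun u hu => b u hu))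
    (fun e => h3 (Subgroup.subgroupOf_eq_top.2 e)) hy hQ (fun z a b d => by
      have k1 : ∀ {w : G}, w ∈ Subgroup.centralizer (H : Set G) ↔ ∀ u ∈ H, Commute w u :=
        ⟨fun h u hu => (h u hu).symm, fun h u hu => (h u hu).symm⟩
      refine Subgroup.mem_bot.1 (hQ (P ⊓ Subgroup.centralizer (H : Set G) ⊓
        (Subgroup.centralizer (H : Set G)).comap (MulAut.conj y).toMonoidHom) (inf_le_left.trans inf_le_left)
        (fun h hh => Subgroup.mem_normalizer_fintype fun w hw => by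
          rwa [(k1.1 hw.1.2 h hh).symm.mul_inv_cancel]) (Subgroup.mem_normalizer_fintype fun w hw =>
        ⟨⟨(Subgroup.mem_normalizer_iff.1 hy w).1 hw.1.1, hw.2⟩, ?_⟩) ▸ (⟨⟨a, k1.2 b⟩, k1.2 fun u hu => ?_⟩ :
          z ∈ P ⊓ Subgroup.centralizer (H : Set G) ⊓ (Subgroup.centralizer (H : Set G)).comap (MulAut.conj y).toMonoidHom))
      · change y * (y * w * y⁻¹) * y⁻¹ ∈ Subgroup.centralizer (H : Set G)
        have := e1 w hw.1.1
        rw [mul_assoc u⁻¹, (k1.1 hw.1.2 u (hPH hu)).eq, inv_mul_cancel_left] at this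
        rw [← this, show y * (y * ((y * y)⁻¹ * w * (y * y)) * y⁻¹) * y⁻¹ = w by group]
        exact hw.1.2
      · simpa [mul_assoc] using (d u hu).conj y) fun z _ _ _ _ => ⟨u, hu, e1⟩
  have c1 : Nat.card ((pCore 2 H).map H.subtype) * 2 = 2 ^ t := by
    rw [← t1, ← Nat.card_congr (Subgroup.subgroupOfEquivOfLe o1).toEquiv, ← Subgroup.card_mul_index
      (((pCore 2 H).map H.subtype).subgroupOf P)]
    exact congrArg _ o2.symm
  have t3 : t ≠ 1 := fun e => hO (by
    rw [e, Subgroup.card_map_of_injective H.subtype_injective] at c1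
    exact Subgroup.card_eq_one.1 (by omega))
  rcases o with ⟨e, a, ma, b, mb, x, mx, a2, b2, x2, d1, d2, ho, -, hg⟩ | ⟨rfl, h⟩ | ⟨rfl, h⟩
  · obtain rfl : t = 2 := by omega
    exact ⟨Or.inl t1, Or.inl (H05.Sims.v4quotH ma mb mx a2 b2 x2 d1 d2 ho hg (t1 ▸ Subgroup.card_dvd_of_le hPH))⟩
  · exact ⟨Or.inr (Or.inl t1), Or.inr (Or.inl h)⟩
  · exact ⟨Or.inr (Or.inr t1), Or.inr (Or.inr h)⟩

end Cfsg.Agent.S4385
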