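import Cfsg.Statements.S4387
import Mathlib
import Cfsg.Agent.H27.ClassSize
import Cfsg.Agent.H04.Basic
-- import your own Cfsg.Agent.* helpers here

set_option autoImplicit false
open Pointwise
open Cfsg

namespace Cfsg.Agent.S4387

open scoped Pointwise commutatorElement

/-- Let G be a non-trivial finite group in which any two maximal subgroups are conjugate. Then G is cyclic of prime-power order. -/
theorem result {G : Type*} [Group G] [Finite G] [Nontrivial G]
    (h : ∀ M N : Subgroup G, IsCoatom M → IsCoatom N → ∃ g : G, N = MulAut.conj g • M) :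
    IsCyclic G ∧ IsPrimePow (Nat.card G) := by
  obtain ⟨M, hM, -⟩ := H02.exists_coatom_ge (H := (⊥ : Subgroup G)) bot_ne_top
  obtain ⟨x, hx⟩ := H27.exists_notMem_conj hM.1
  have hx' : Subgroup.zpowers x = ⊤ := by
    by_contra hc
    obtain ⟨N, hN, hxN⟩ := H02.exists_coatom_ge hc
    obtain ⟨g, rfl⟩ := h M N hM hN
    have := H02.mem_conj_smul_iff.1 (hxN (Subgroup.mem_zpowers x))
    exact hx g⁻¹ (by simpa using this)
  haveI hc : IsCyclic G := isCyclic_iff_exists_zpowers_eq_top.2 ⟨x, hx'⟩
  refine ⟨hc, ?_⟩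
  rw [isPrimePow_iff_unique_prime_dvd]
  have key : ∀ p : ℕ, p.Prime → p ∣ Nat.card G → M.index = p := by
    intro p hp hd
    letI : CommGroup G := IsCyclic.commGroup
    have h1 : (powMonoidHom p : G →* G).range.index = p := by
      rw [IsCyclic.index_powMonoidHom_range, Nat.gcd_eq_right hd]
    have h2 : IsCoatom (powMonoidHom p : G →* G).range := H04.isCoatom_of_index_prime (by rw [h1]; exact hp)
    obtain ⟨g, hg⟩ := h M _ hM h2
    rw [← h1, hg, H02.index_smul]
  obtain ⟨p, hp, hd⟩ := Nat.exists_prime_and_dvd (Finite.one_lt_card (α := G)).ne'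
  exact ⟨p, ⟨hp, hd⟩, fun q hq => (key q hq.1 hq.2).symm.trans (key p hp hd)⟩

end Cfsg.Agent.S4387
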