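import Mathlib
import Cfsg.Statements.S4398
import Cfsg.Agent.H04.MaxClass

set_option autoImplicit false
open Cfsg

namespace Cfsg.Agent.S4398

/-- Let S be a finite 2-group of sectional 2-rank at most 2 that contains a subgroup isomorphic to the dihedral group of order 8 or to the quaternion group of order 8. Then S is dihedral of order at least 8, semidihedral of order at least 16 (order 2^(k+4) with an element a of order 2^(k+3) and an involution b with b a b⁻¹ = a^(2^(k+2)−1)), or generalized quaternion of order at least 8. -/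
theorem result {S : Type*} [Group S] [Finite S] (h2 : IsPGroup 2 S) (hr : Cfsg.SectionalPRankLE 2 2 S)
    (hsub : ∃ H : Subgroup S, Nonempty (↥H ≃* DihedralGroup 4) ∨ Nonempty (↥H ≃* QuaternionGroup 2)) :
    ((∃ k : ℕ, Nonempty (S ≃* DihedralGroup (2 ^ (k + 2)))) ∨
      (∃ k : ℕ, Nat.card S = 2 ^ (k + 4) ∧ ∃ a b : S, orderOf a = 2 ^ (k + 3) ∧ orderOf b = 2 ∧ b * a * b⁻¹ = a ^ (2 ^ (k + 2) - 1)) ∨
      (∃ k : ℕ, Nonempty (S ≃* QuaternionGroup (2 ^ (k + 1))))) := by
  obtain ⟨B, hB⟩ := hsub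
  have hB8 : Nat.card B = 2 ^ 3 := by
    rcases hB with ⟨⟨e⟩⟩ | ⟨⟨e⟩⟩
    · rw [Nat.card_congr e.toEquiv, DihedralGroup.nat_card]; rfl
    · rw [Nat.card_congr e.toEquiv, Nat.card_eq_fintype_card, QuaternionGroup.card]; rfl
  have hna : ¬ IsMulCommutative B := by
    rcases hB with ⟨⟨e⟩⟩ | ⟨⟨e⟩⟩
    · exact ((H04.dsq_dihedral 0).map e.symm).not_comm
    · exact ((H04.dsq_quaternion 0).map e.symm).not_comm
  have hC : Subgroup.centralizer (B : Set S) ≤ B := by
    by_contra h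
    obtain ⟨x, hx, hxB⟩ := SetLike.not_le_iff_exists.mp h
    obtain ⟨k, h1, h3⟩ := H04.exists_pow_notMem_pow_mem h2 B hxB
    have h4 := pow_mem hx (2 ^ k)
    set y := x ^ 2 ^ k
    have h5 := H04.card_sup_zpowers B (BG.cent_le_norm B h4) h1 h3
    obtain ⟨h6, h7⟩ := H04.center_of_card_cube hB8 hna
    set H := B ⊔ Subgroup.zpowers y
    have hH := h2.to_subgroup H
    have h8 : (frattini H).map H.subtype ≤ B ⊓ Subgroup.centralizer (B : Set S) := by
      have h9 : ∀ u ∈ H, ∃ b ∈ B, ∃ i : ℤ, u = b * y ^ i := fun u hu =>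
        (H04.mem_sup_zpowers_iff (BG.cent_le_norm B h4)).mp hu
      have h10 : ∀ u ∈ H, u ^ 2 ∈ B ⊓ Subgroup.centralizer (B : Set S) := fun u hu => by
        obtain ⟨b, hb, i, rfl⟩ := h9 u hu
        rw [(show Commute b (y ^ i) from zpow_mem h4 i b hb).mul_pow, ← zpow_natCast (y ^ i), ← zpow_mul,
          mul_comm i, zpow_mul, zpow_natCast]
        exact mul_mem (H04.frattini_of_card_cube hB8 hna ▸ H04.pow_mem_map_frattini (h2.to_subgroup B) hb)
          (zpow_mem (show y ^ 2 ∈ B ⊓ _ from ⟨h3, pow_mem h4 2⟩) i)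
      rw [H04.frattini_two hH, MonoidHom.map_closure, Subgroup.closure_le]
      rintro _ ⟨_, ⟨u, rfl⟩, rfl⟩
      exact h10 u u.2
    have h9 := hr H (frattini H) ⊤ ⟨⟨fun a b => Subtype.ext ?_⟩⟩ fun a _ => ?_
    · have h10 := BG.card_le h8
      have h11 := (frattini H).card_mul_index
      rw [H04.card_map_subtype, h7] at h10
      rw [Subgroup.card_top, ← Subgroup.index] at h9
      nlinarith
    · obtain ⟨a, -⟩ := a
      obtain ⟨b, -⟩ := b
      obtain ⟨a, rfl⟩ := QuotientGroup.mk_surjective a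
      obtain ⟨b, rfl⟩ := QuotientGroup.mk_surjective b
      exact commutatorElement_eq_one_iff_mul_comm.mp ((QuotientGroup.eq_one_iff _).mpr
        (H04.commutatorElement_mem_frattini hH a b))
    · obtain ⟨a, rfl⟩ := QuotientGroup.mk_surjective a
      exact (QuotientGroup.eq_one_iff _).mpr (H04.pow_mem_frattini hH a)
  obtain ⟨n, hn⟩ := IsPGroup.iff_card.mp h2
  have h : 3 ≤ n := (Nat.pow_dvd_pow_iff_le_right one_lt_two).mp (hB8 ▸ hn ▸ B.card_subgroup_dvd_card)
  obtain ⟨m, rfl⟩ : ∃ m, n = m + 3 := ⟨n - 3, by omega⟩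
  obtain ⟨a, b, h⟩ := H04.dsq_of_maxClass hn (H04.maxClass_of_centralizer_le_cube hn hB8 hna hC)
  exact h.iso_list

end Cfsg.Agent.S4398
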