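import Mathlib
import Cfsg.Statements.S4400
import Cfsg.Agent.H04.Breadth

set_option autoImplicit false
open Cfsg

open scoped commutatorElement

namespace Cfsg.Agent.S4400

open Subgroup BG H04 in
theorem four_mul_card_frattini_le {S : Type*} [Group S] [Finite S] {P : Subgroup S} (h2 : IsPGroup 2 P)
    (hP : ¬ IsMulCommutative P) : 4 * Nat.card ((frattini P).map P.subtype) ≤ Nat.card P := by
  rw [card_map_subtype, ← (frattini P).index_mul_card]
  exact Nat.mul_le_mul_right _ (Nat.le_of_dvd (Nat.pos_of_ne_zero index_ne_zero_of_finite)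
    (sq_dvd_index_frattini h2 fun h => hP (abelian_of_cyclic h)))

open Subgroup BG H04 in
theorem center_le_frattini {S : Type*} [Group S] [Finite S] {P : Subgroup S} (h2 : IsPGroup 2 P)
    (hP : ¬ IsMulCommutative P) (hZ : Nat.card ↥(P ⊓ C_(P)) = 2) :
    P ⊓ C_(P) ≤ (frattini P).map P.subtype := by
  obtain ⟨z, h3, h4, h5⟩ := exists_fixed_of_normalizes h2 (h2.to_le (der_le P)) (le_norm_der P)
    (abelian_iff_der.not.mp hP)
  exact (le_of_prime_of_inf_ne (hZ ▸ Nat.prime_two) (ne_bot_of_mem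
    (mem_inf.mpr ⟨mem_inf.mpr ⟨der_le P h3, h5⟩, h3⟩) h4)).trans
    (commutator_le_map_frattini h2)

open Subgroup BG H04 in
theorem center_sup {S : Type*} [Group S] {P Q : Subgroup S} (h : P ≤ C_(Q)) :
    (P ⊔ Q) ⊓ C_(P ⊔ Q) = (P ⊓ C_(P)) ⊔ (Q ⊓ C_(Q)) := by
  refine le_antisymm (fun x hx => ?_) (sup_le (le_inf (inf_le_left.trans le_sup_left) (le_cent_sup
    inf_le_right (inf_le_left.trans h))) (le_inf (inf_le_left.trans le_sup_right) (le_cent_sup
    (inf_le_left.trans (cent_symm h)) inf_le_right)))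
  obtain ⟨a, ha, b, hb, rfl⟩ := (mem_sup_norm (le_norm_of_cent (cent_symm h))).mp hx.1
  exact mul_mem_sup ⟨ha, (mul_mem_cancel_right (cent_symm h hb)).mp (cent_anti le_sup_left hx.2)⟩
    ⟨hb, (mul_mem_cancel_left (h ha)).mp (cent_anti le_sup_right hx.2)⟩

open Subgroup BG H04 in
theorem main {S : Type*} [Group S] [Finite S] (h2 : IsPGroup 2 S) (hr : Cfsg.SectionalPRankLE 2 4 S)
    {T P Q : Subgroup S} (hPT : P ≤ T) (hQT : Q ≤ T) (hTP : T ≤ N_(P)) (hTQ : T ≤ N_(Q))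
    (hP : ¬ IsMulCommutative P) (hQ : ¬ IsMulCommutative Q) (hZP : Nat.card ↥(P ⊓ C_(P)) = 2)
    (hZQ : Nat.card ↥(Q ⊓ C_(Q)) = 2) (hne : P ⊓ C_(P) ≠ Q ⊓ C_(Q)) :
    P ≤ C_(Q) ∧ P ⊓ Q = ⊥ ∧ T ⊓ C_(P ⊔ Q) ≤ P ⊔ Q := by
  have h1 : P ⊓ Q = ⊥ := by
    by_contra h1
    obtain ⟨z, h3, h4, h5⟩ := exists_fixed_of_normalizes (h2.to_subgroup T) (h2.to_subgroup _)
      (norm_inf hTP hTQ) h1
    exact hne ((zpowers_eq_of_prime (hZP ▸ Nat.prime_two) (mem_inf.mpr ⟨h3.1, cent_anti hPT h5⟩)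
      h4).symm.trans (zpowers_eq_of_prime (hZQ ▸ Nat.prime_two) ⟨h3.2, cent_anti hQT h5⟩ h4))
  have h3 : P ≤ C_(Q) := le_cent_of_disj (hPT.trans hTQ) (hQT.trans hTP) h1
  refine ⟨h3, h1, fun y hy => by_contra fun h4 => ?_⟩
  obtain ⟨k, h5, h6⟩ := exists_pow_notMem_pow_mem h2 _ h4
  have h7 := pow_mem (mem_inf.mp hy).2 (2 ^ k)
  set x := y ^ 2 ^ k
  let N := (frattini P).map P.subtype ⊔ (frattini Q).map Q.subtype
  have hP2 := h2.to_subgroup P
  have hQ2 := h2.to_subgroup Q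
  have hN : N ≤ P ⊔ Q := sup_le_sup (map_subtype_le _) (map_subtype_le _)
  have h8 : ∀ g ∈ P ⊔ Q ⊔ zpowers x, g ^ 2 ∈ N := fun g hg => by
    obtain ⟨w, hw, _, ⟨j, rfl⟩, rfl⟩ := (mem_sup_norm (zpowers_le.mpr (cent_le_norm _ h7))).mp hg
    obtain ⟨a, ha, b, hb, rfl⟩ := (mem_sup_norm (hQT.trans hTP)).mp hw
    rw [Commute.mul_pow (zpow_mem h7 j _ hw), Commute.mul_pow (h3 ha b hb).symm, ← zpow_natCast (x ^ j),
      ← zpow_mul, mul_comm, zpow_mul, zpow_natCast]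
    exact mul_mem (mul_mem_sup (pow_mem_map_frattini hP2 ha) (pow_mem_map_frattini hQ2 hb)) (zpow_mem
      (sup_le_sup (center_le_frattini hP2 hP hZP) (center_le_frattini hQ2 hQ hZQ)
        ((center_sup h3).le ⟨h6, pow_mem h7 2⟩)) j)
  have h9 := sectional_iff.mp hr (P ⊔ Q ⊔ zpowers x) N (hN.trans le_sup_left) (commutator_le.mpr
    fun a ha b hb => by
      rw [show ⁅a, b⁆ = a ^ 2 * (a⁻¹ * b) ^ 2 * b⁻¹ ^ 2 by simp [commutatorElement_def, sq, mul_assoc]]
      exact mul_mem (mul_mem (h8 a ha) (h8 _ (mul_mem (inv_mem ha) hb))) (h8 _ (inv_mem hb))) h8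
  have h10 := H04.card_mul_relIndex (hN.trans (le_sup_left (b := zpowers x)))
  rw [card_sup_zpowers _ (cent_le_norm _ h7) h5 h6, card_sup_of_disj (hQT.trans hTP) h1] at h10
  have h11 := Nat.le_of_dvd (Nat.mul_pos Nat.card_pos Nat.card_pos) (card_sup_dvd (le_norm_of_cent
    (le_cent_mono (cent_symm h3) (map_subtype_le (frattini Q)) (map_subtype_le (frattini P)))))
  have h12 := Nat.mul_le_mul (four_mul_card_frattini_le hP2 hP) (four_mul_card_frattini_le hQ2 hQ)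
  have h13 : 0 < Nat.card N := Nat.card_pos
  nlinarith


/-- Let S be a finite 2-group of sectional 2-rank at most 4, and let P and Q be normal non-abelian subgroups of S whose centres have order 2 and are different. Then P and Q commute elementwise and intersect trivially, and PQ contains its own centralizer in S. -/
theorem result {S : Type*} [Group S] [Finite S] (h2 : IsPGroup 2 S) (hr : Cfsg.SectionalPRankLE 2 4 S)
    (P Q : Subgroup S) [P.Normal] [Q.Normal] (hP : ¬ IsMulCommutative ↥P) (hQ : ¬ IsMulCommutative ↥Q)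
    (hZP : Nat.card ↥(Subgroup.center ↥P) = 2) (hZQ : Nat.card ↥(Subgroup.center ↥Q) = 2)
    (hne : (Subgroup.center ↥P).map P.subtype ≠ (Subgroup.center ↥Q).map Q.subtype) :
    ⁅P, Q⁆ = ⊥ ∧ P ⊓ Q = ⊥ ∧ Subgroup.centralizer ((P ⊔ Q : Subgroup S) : Set S) ≤ P ⊔ Q := by
  rw [← H04.card_map_subtype, H04.map_subtype_center] at hZP hZQ
  rw [H04.map_subtype_center, H04.map_subtype_center] at hne
  obtain ⟨h3, h4, h5⟩ := main h2 hr le_top le_top Subgroup.le_normalizer_of_normal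
    Subgroup.le_normalizer_of_normal hP hQ hZP hZQ hne
  exact ⟨BG.comm_eq_bot.mpr h3, h4, (le_inf le_top le_rfl).trans h5⟩

end Cfsg.Agent.S4400
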