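import Mathlib
import Cfsg.Statements.S4401
import Cfsg.Agent.H04.Breadth
import Cfsg.Agent.S4400

set_option autoImplicit false
open Cfsg

open scoped commutatorElement

namespace Cfsg.Agent.S4401

/-- Let S be a finite 2-group of sectional 2-rank at most 4 and P a proper non-abelian subgroup whose centre has order 2. Let S₀ be the centralizer in S of Z(P) and suppose P is normal in S₀. Then either S₀ = S, or P has sectional 2-rank at most 2 and S₀ has index 2 in S. -/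
theorem result {S : Type*} [Group S] [Finite S] (h2 : IsPGroup 2 S) (hr : Cfsg.SectionalPRankLE 2 4 S)
    (P : Subgroup S) (hPlt : P ≠ ⊤) (hP : ¬ IsMulCommutative ↥P) (hZP : Nat.card ↥(Subgroup.center ↥P) = 2)
    (S₀ : Subgroup S) (hS₀ : S₀ = Subgroup.centralizer (((Subgroup.center ↥P).map P.subtype : Subgroup S) : Set S))
    (hPn : ∀ s ∈ S₀, ∀ x ∈ P, s * x * s⁻¹ ∈ P) :
    S₀ = ⊤ ∨ (Cfsg.SectionalPRankLE 2 2 ↥P ∧ S₀.index = 2) := by
  open Subgroup BG H04 in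
  rw [← H04.card_map_subtype, H04.map_subtype_center] at hZP
  rw [H04.map_subtype_center] at hS₀
  refine or_iff_not_imp_left.mpr fun h0 => ?_
  haveI := h2.isNilpotent
  have h1 : S₀ ≤ N_(P) := le_norm_iff.mpr hPn
  have h3 : P ≤ S₀ := hS₀ ▸ cent_symm inf_le_right
  have hc : ∀ g, ¬ IsMulCommutative (cj g P) := fun g h => hP (abelian_iff.mpr (by
    simpa [cj_cj, cj_cent] using cj_mono g⁻¹ (abelian_iff.mp h)))
  have hz : ∀ g, cj g P ⊓ C_(cj g P) = cj g (P ⊓ C_(P)) := fun g => by rw [cj_inf, cj_cent]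
  have hz' : ∀ g, Nat.card ↥(cj g P ⊓ C_(cj g P)) = 2 := fun g =>
    hz g ▸ (conjg_cj g _).card_eq.trans hZP
  have h4 : ∀ g ∈ N_(S₀), cj g P ≤ S₀ ∧ S₀ ≤ N_(cj g P) := fun g hg =>
    ⟨cj_le_of_mem_norm h3 hg, by rw [← cj_norm, ← cj_of_mem_norm hg]; exact cj_mono g h1⟩
  have key : ∀ g ∈ N_(S₀), g ∉ S₀ → _ := fun g hg hg' => S4400.main h2 hr h3 (h4 g hg).1 h1 (h4 g hg).2
    hP (hc g) hZP (hz' g) fun h => hg' (hS₀ ▸ cent_symm (le_centralizer_of_card_eq (h2.to_subgroup _)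
      (zpowers_le.mpr (cj_eq_self_iff.mp ((hz g).symm.trans h.symm))) hZP) (mem_zpowers g))
  obtain ⟨g, hg, hg'⟩ := SetLike.exists_of_lt (lt_normalizer_of_ne_top h0)
  obtain ⟨h5, h6, h7⟩ := key g hg hg'
  have h8 : S₀ ⊓ C_(P ⊔ cj g P) ≤ (P ⊔ cj g P) ⊓ C_(P ⊔ cj g P) := le_inf h7 inf_le_right
  have h9 : P ⊓ C_(P) ≤ S₀ ⊓ C_(S₀) := le_inf (inf_le_left.trans h3) (cent_symm hS₀.le)
  have h10 : N_(S₀) ≤ N_(S₀ ⊓ C_(S₀)) := norm_inf le_rfl (norm_cent le_rfl)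
  have h11 : S₀ ⊓ C_(S₀) = P ⊓ C_(P) ⊔ cj g (P ⊓ C_(P)) := le_antisymm
    (((inf_le_inf_left _ (cent_anti (sup_le h3 (h4 g hg).1))).trans h8).trans
      ((S4400.center_sup h5).le.trans (hz g ▸ le_rfl))) (sup_le h9 (cj_le_of_mem_norm h9 (h10 hg)))
  have h12 : Nat.card ↥(S₀ ⊓ C_(S₀)) ≤ 4 := by
    rw [h11]
    refine (Nat.le_of_dvd (Nat.mul_pos Nat.card_pos Nat.card_pos) (card_sup_dvd (le_norm_of_cent
      (le_cent_mono (cent_symm h5) (hz g ▸ inf_le_left) inf_le_left)))).trans ?_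
    rw [(conjg_cj g _).card_eq, hZP]
  have h13 : N_(S₀) = ⊤ := by
    by_contra h13
    obtain ⟨h, hh, hh'⟩ := SetLike.exists_of_lt (lt_normalizer_of_ne_top h13)
    have h14 : N_(S₀) ≤ N_(cj h (S₀ ⊓ C_(S₀))) := by
      rw [← cj_norm, ← cj_of_mem_norm hh]; exact cj_mono h h10
    have h15 := cj_mono h h9
    have h16 : cj h (P ⊓ C_(P)) ≤ S₀ := fun u hu => by_contra fun hu' => by
      have h16 := relIndex_centralizer_le (x := u) (D := P) fun y hy => comm_le_left h14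
        (commutator_mem_commutator (h15 hu) (le_norm _ (h3 hy)))
      have h17 := H04.card_inf_mul_relIndex C_[u] P
      rw [eq_bot_mono (key u (cj_le_of_mem_norm (inf_le_left.trans (h3.trans (le_norm _))) hh hu)
        hu').2.1 (le_inf inf_le_right fun y hy => mem_cj.mpr (by
          rw [mul_assoc, mem_cent1.mp hy.1, inv_mul_cancel_left]; exact hy.2)), card_bot, one_mul] at h17
      exact hP (isMulCommutative_of_card_le_sq (h2.to_subgroup P)
        (h17 ▸ h16.trans ((conjg_cj h _).card_eq.trans_le h12)))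
    have h17 : ∀ Q ≤ S₀, S₀ ≤ N_(Q) → Nat.card ↥(Q ⊓ C_(Q)) = 2 → ¬ Q ⊓ C_(Q) ≤ cj h (S₀ ⊓ C_(S₀)) →
        cj h (P ⊓ C_(P)) ≤ C_(Q) := fun Q hQ hQ' hQZ hQ'' => by
      refine comm_eq_bot.mp (eq_bot_mono (by_contra fun h17 => ?_) (le_inf (comm_le_right (h16.trans hQ'))
        ((comm_mono h15 le_rfl).trans (comm_le_left (hQ.trans ((le_norm _).trans h14))))))
      obtain ⟨z, h18, h19, h20⟩ := exists_fixed_of_normalizes (h2.to_subgroup Q) (h2.to_subgroup _)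
        (norm_inf (le_norm Q) (hQ.trans ((le_norm _).trans h14))) h17
      exact hQ'' (le_of_prime_of_inf_ne (hQZ ▸ Nat.prime_two) (ne_bot_of_mem
        (mem_inf.mpr ⟨mem_inf.mpr ⟨h18.1, h20⟩, h18.2⟩) h19))
    refine hh' (mem_norm_of_le_cj (le_trans (cent_symm (le_trans ?_ (inf_le_right (a := S₀))))
      (by rw [← cj_cent, ← hS₀])))
    by_cases h18 : P ⊓ C_(P) ≤ cj h (S₀ ⊓ C_(S₀))
    · exact h15.trans (BG.eq_of_le_of_card_eq (h11.le.trans (sup_le h18 (cj_le_of_mem_norm h18 (h14 hg))))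
        (conjg_cj h _).card_eq.symm).ge
    · refine (le_inf h16 (le_cent_sup (h17 P h3 h1 hZP h18) (h17 _ (h4 g hg).1 (h4 g hg).2 (hz' g)
        fun h19 => h18 ((cj_le_iff_of_mem_norm (h14 hg)).mp (hz g ▸ h19))))).trans (h8.trans ?_)
      rw [S4400.center_sup h5, hz, h11]
  refine ⟨sectional_iff'.mpr fun H N hH hN _ hsq => ?_, index_eq_two_iff.mpr ⟨g, fun b => ?_⟩⟩
  · have h14 : ∀ K ≤ P, K ≤ C_(cj g K) := fun K hK => le_cent_mono h5 hK (cj_mono g hK)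
    have h15 : ∀ K ≤ P, Nat.card ↥(K ⊔ cj g K) = Nat.card K ^ 2 := fun K hK => by
      rw [card_sup_of_disj (le_norm_of_cent (cent_symm (h14 K hK))) (eq_bot_mono h6
        (inf_le_inf hK (cj_mono g hK))), (conjg_cj g _).card_eq, sq]
    have h16 : ∀ x ∈ H ⊔ cj g H, x ^ 2 ∈ N ⊔ cj g N := fun x hx => by
      obtain ⟨a, ha, b, hb, rfl⟩ := (mem_sup_norm (le_norm_of_cent (cent_symm (h14 H hH)))).mp hx
      obtain ⟨b, hb', rfl⟩ := mem_cj'.mp hb
      rw [Commute.mul_pow (h14 H hH ha _ hb).symm, conj_pow]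
      exact mul_mem_sup (hsq a ha) (conj_mem_cj g (hsq b hb'))
    have h17 := sectional_iff.mp hr _ _ (sup_le_sup hN (cj_mono g hN)) (commutator_le.mpr
      fun a ha b hb => by
        rw [show ⁅a, b⁆ = a ^ 2 * (a⁻¹ * b) ^ 2 * b⁻¹ ^ 2 by simp [commutatorElement_def, sq, mul_assoc]]
        exact mul_mem (mul_mem (h16 a ha) (h16 _ (mul_mem (inv_mem ha) hb))) (h16 _ (inv_mem hb))) h16
    have h18 := H04.card_mul_relIndex (sup_le_sup hN (cj_mono g hN))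
    rw [h15 H hH, h15 N (hN.trans hH), ← H04.card_mul_relIndex hN, mul_pow] at h18
    rw [Nat.eq_of_mul_eq_mul_left (pow_pos Nat.card_pos 2) h18] at h17
    exact (Nat.pow_le_pow_iff_left two_ne_zero).mp h17
  by_cases hb : b ∈ S₀
  · exact Or.inr ⟨hb, fun h => hg' ((mul_mem_cancel_left hb).mp h)⟩
  refine Or.inl ⟨by_contra fun h => hc b⁻¹ (abelian_of_le (abelian_center _) (le_trans (le_inf
    (h4 _ (h13 ▸ mem_top _)).1 (le_cent_sup (cent_symm (key _ (h13 ▸ mem_top _)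
      (inv_mem_iff.not.mpr hb)).1) ?_)) h8)), hb⟩
  simpa [cj_cj, cj_cent] using cj_mono b⁻¹ (key _ (h13 ▸ mem_top _) h).1

end Cfsg.Agent.S4401
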