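import Mathlib
import Cfsg.Statements.S4402
import Cfsg.Agent.H04.DW2

set_option autoImplicit false
open Cfsg

namespace Cfsg.Agent.S4402

/-- Let S be a finite 2-group of sectional 2-rank at most 4 and P a proper subgroup isomorphic to the wreath product of the dihedral group of order 8 by a group of order 2 (equivalently, to a Sylow 2-subgroup of the symmetric group of degree 8; order 128). Then Z(S) = Z(P) has order 2, P has index 2 in its normalizer N_S(P), N_S(P)/Z(S) is again isomorphic to that wreath product, and every elementary abelian subgroup V of order 16 that is normal in P satisfies N_S(V) = P. -/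
theorem result {S : Type*} [Group S] [Finite S] (h2 : IsPGroup 2 S) (hr : Cfsg.SectionalPRankLE 2 4 S)
    (P : Subgroup S) (hPlt : P ≠ ⊤) (hP : ∃ T : Sylow 2 (Equiv.Perm (Fin 8)), Nonempty (↥P ≃* ↥(T : Subgroup (Equiv.Perm (Fin 8))))) :
    Subgroup.center S = (Subgroup.center ↥P).map P.subtype ∧ Nat.card ↥(Subgroup.center S) = 2 ∧
    P.relIndex (Subgroup.normalizer (P : Set S)) = 2 ∧
    (∃ (_ : ((Subgroup.center S).subgroupOf (Subgroup.normalizer (P : Set S))).Normal) (T : Sylow 2 (Equiv.Perm (Fin 8))),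
      Nonempty (↥(Subgroup.normalizer (P : Set S)) ⧸ (Subgroup.center S).subgroupOf (Subgroup.normalizer (P : Set S)) ≃*
        ↥(T : Subgroup (Equiv.Perm (Fin 8))))) ∧
    ∀ V : Subgroup S, V ≤ P → (∀ g ∈ P, ∀ v ∈ V, g * v * g⁻¹ ∈ V) → Cfsg.IsElementaryAbelian 2 V → Nat.card ↥V = 16 →
      Subgroup.normalizer (V : Set S) = P := by
  open Subgroup H04.DW in
  obtain ⟨φ, hφ, rfl⟩ : ∃ φ : M →* S, Function.Injective φ ∧ φ.range = P := by
    obtain ⟨T, ⟨e⟩⟩ := hP
    obtain ⟨e'⟩ := model T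
    exact ⟨P.subtype.comp (e'.trans e.symm).toMonoidHom, P.subtype_injective.comp (e'.trans e.symm).injective, by
      rw [MonoidHom.range_comp, MonoidHom.range_eq_top.2 (e'.trans e.symm).surjective, H04.map_subtype_top]⟩
  obtain ⟨c1, c2⟩ := cen hφ hr h2
  refine ⟨le_antisymm (fun x hx => ?_) ?_, c2, idx2 hφ hr h2 hPlt, ⟨inferInstance, quo hφ hr h2 hPlt⟩, fun U u1 u2 u3 u4 => ?_⟩
  · exact ⟨⟨x, (NP hφ hr h2 false).le (center_le_normalizer _ hx)⟩,
      mem_center_iff.2 fun g => Subtype.ext (mem_center_iff.1 hx g), rfl⟩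
  · rintro _ ⟨⟨_, m, rfl⟩, hm, rfl⟩
    have c : ∀ g, m * g = g * m := fun g => hφ (by
      rw [map_mul, map_mul]; exact (congrArg Subtype.val (mem_center_iff.1 hm ⟨_, g, rfl⟩)).symm)
    exact (c1 _).2 ((f1 m (c _) (c _) (c _)).imp (fun h => (congrArg φ h).trans (map_one φ)) (congrArg φ))
  · have e := map_comap_eq_self u1
    obtain ⟨i, hi⟩ := cls (U := U.comap φ) ⟨fun x hx g => by simpa using u2 _ ⟨g, rfl⟩ _ hx⟩
      ⟨isMulCommutative_iff.2 fun x y => Subtype.ext (hφ (by
        simpa using BG.mul_comm_of_abelian u3.1 x.2 y.2)), fun x hx => hφ (by simpa using u3.2 _ hx)⟩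
      (by rw [← card_map_of_injective hφ, e, u4])
    rw [← e, hi, NP hφ hr h2]

end Cfsg.Agent.S4402
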