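import Mathlib
import Cfsg.Statements.S4404
import Cfsg.Agent.H17.FG1

set_option autoImplicit false
open Cfsg BG

namespace Cfsg.Agent.S4404

/-- Let S be a finite solvable group and M a normal elementary abelian 2-subgroup of S. Suppose S contains an elementary abelian subgroup of order p³ for some odd prime p, and a cyclic 3-subgroup Q such that the cubes of the elements of Q centralize M and the commutator subgroup [Q, M] has order 4 (a four-group inside M). Then S contains an elementary abelian subgroup F of order r³, for some odd prime r, whose centralizer of [Q, M] in F — the subgroup C_F([Q, M]) — is not cyclic. -/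
theorem result {S : Type*} [Group S] [Finite S]
    [Group.IsSolvable S] (M : Subgroup S) [M.Normal] (hM : Cfsg.IsElementaryAbelian 2 M)
    (p : ℕ) (hp : p.Prime) (hp2 : p ≠ 2) (E : Subgroup S) (hE : Cfsg.IsElementaryAbelian p E) (hE3 : Nat.card ↥E = p ^ 3)
    (Q : Subgroup S) (hQc : IsCyclic ↥Q) (hQ3 : IsPGroup 3 ↥Q)
    (hQ1 : ∀ x ∈ Q, x ^ 3 ∈ Subgroup.centralizer (M : Set S)) (hQM : Nat.card ↥⁅Q, M⁆ = 4) :
    ∃ (r : ℕ) (F : Subgroup S), r.Prime ∧ r ≠ 2 ∧ Cfsg.IsElementaryAbelian r F ∧ Nat.card ↥F = r ^ 3 ∧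
      ¬ IsCyclic ↥(F ⊓ Subgroup.centralizer ((⁅Q, M⁆ : Subgroup S) : Set S)) := by
  have hs : Group.IsSolvable (⊤ : Subgroup S) := inferInstance
  have h2 := Nat.prime_two
  obtain ⟨H, hH, hQH⟩ := BG.hall_superset (π := {2}ᶜ) hs (BG.isPi_of_pg Nat.prime_three hQ3 (by simp)) le_top
  have hE' : BG.IsElem p 3 E ⊤ := ⟨le_top, hE, hE3⟩
  obtain ⟨g, -, hg⟩ := BG.hall_Jsub hs hH (hE'.isPi hp hp2) le_top
  have ho : Odd (Nat.card H) := Nat.odd_iff.2 (Nat.two_dvd_ne_zero.1 ((BG.isPi_compl h2).1 hH.isPi))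
  obtain ⟨r, F, a, b, c, d⟩ := H17.FG.main hM.abelian hM.pg (BG.sol_of_le hs le_top) ho hp ((hE'.cj g).sub hg) hQ3 hQH hQM
  exact ⟨r, F, a, b, c.elemAb, c.card, d⟩

end Cfsg.Agent.S4404
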