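import Mathlib
import Cfsg.Statements.S4405
import Cfsg.Agent.H04.Extraspecial
import Cfsg.Agent.H02.Suz6
import Cfsg.Agent.H26.CharP
import Cfsg.Agent.H05.Burnside
import Cfsg.Agent.H08.BaerSuzuki
import Cfsg.Agent.H02.MinNormal

set_option autoImplicit false
open Cfsg

namespace Cfsg.Agent.S4405

open Subgroup H26
open scoped commutatorElement

/-- Let G be a finite group of order 320 = 64·5 whose largest normal 2-subgroup H = O₂(G) equals the Fitting subgroup F(G) and is extraspecial of order 32 containing no elementary abelian subgroup of order 8 (so H is the central product of a quaternion group and a dihedral group of order 8). If T is an involution of G outside H whose centralizer in H contains an elementary abelian subgroup of order 4, then C_H(T) itself is elementary abelian of order 4. -/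
theorem result {G : Type*} [Group G] [Finite G]
    (hG : Nat.card G = 320) (hHF : Cfsg.pCore 2 G = Cfsg.fittingSubgroup G)
    (hex : Cfsg.IsExtraspecial 2 ↥(Cfsg.pCore 2 G)) (h32 : Nat.card ↥(Cfsg.pCore 2 G) = 32)
    (hminus : ∀ A : Subgroup G, A ≤ Cfsg.pCore 2 G → Cfsg.IsElementaryAbelian 2 A → Nat.card ↥A ≤ 4)
    (T : G) (hT : orderOf T = 2) (hTH : T ∉ Cfsg.pCore 2 G)
    (V : Subgroup G) (hV : V ≤ Cfsg.pCore 2 G ⊓ Subgroup.centralizer ({T} : Set G)) (hV4 : Nat.card ↥V = 4) (hVe : Cfsg.IsElementaryAbelian 2 V) :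
    Nat.card ↥(Cfsg.pCore 2 G ⊓ Subgroup.centralizer ({T} : Set G)) = 4 ∧
      Cfsg.IsElementaryAbelian 2 (Cfsg.pCore 2 G ⊓ Subgroup.centralizer ({T} : Set G)) := by
  have hs : Group.IsSolvable G := H05.burnside_paqb G (p := 2) (q := 5) (a := 6) (b := 1) Nat.prime_two
    (by norm_num) (by rw [hG]; norm_num)
  have hC := H02.centralizer_fitting_le G
  rw [← hHF] at hC
  have hHn : (pCore 2 G).Normal := inferInstance
  have hH2 := H02.pCore_isPGroup 2 G
  have hTT : T * T = 1 := by rw [← sq, ← hT, pow_orderOf_eq_one]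
  obtain ⟨r, hr, hr2, x, hx, hTx, -⟩ := H08.exists_inverted_odd_prime_of_notMem_pCore hTT hTH
  generalize pCore 2 G = H at *
  obtain ⟨z, h, hc, -⟩ := H04.exists_aes_of_isExtraspecial' hex
  have hr5 : r = 5 := by
    have h1 : r ∣ 2 ^ 6 * 5 := by have := orderOf_dvd_natCard x; rwa [hG, hx] at this
    rcases (Nat.Prime.dvd_mul hr).1 h1 with h2 | h2
    · exact absurd ((Nat.prime_dvd_prime_iff_eq hr Nat.prime_two).1 (hr.dvd_of_dvd_pow h2)) hr2
    · exact (Nat.prime_dvd_prime_iff_eq hr (by norm_num)).1 h2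
  subst hr5
  have hZn : (zpowers z).Normal := hc ▸ inferInstance
  have hZc : Nat.card (zpowers z) = 2 := by rw [Nat.card_zpowers, h.ord]
  have hZ2 : IsPGroup 2 (zpowers z) := hH2.to_le (zpowers_le.2 h.mem)
  have hzc : ∀ g : G, Commute g z := fun g => by
    rcases h.eq_or (hZn.conj_mem z (mem_zpowers z) g) with e | e
    · exact absurd (by simpa using e) h.ne_one
    · exact mul_inv_eq_iff_eq_mul.1 e
  have hy5 : orderOf (x * x) = 5 := by rw [← sq, orderOf_pow' _ (by norm_num), hx]; norm_num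
  have hy : Nat.card (H ⊓ centralizer {x * x} : Subgroup G) ≤ 2 := by
    have h1 := H02.Suz.card_modEq_fix hr (x := x * x) (hy5 ▸ pow_orderOf_eq_one _) (T := (H : Set G))
      (fun y hy => hHn.conj_mem y hy _)
    have h2 : Nat.card {y | y ∈ (H : Set G) ∧ y * (x * x) = x * x * y} =
        Nat.card (H ⊓ centralizer {x * x} : Subgroup G) :=
      Nat.card_congr (Equiv.subtypeEquivRight fun y => by
        rw [mem_inf, mem_centralizer_singleton_iff]; rfl)
    rw [h2, SetLike.coe_sort_coe, h32] at h1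
    have h3 : Nat.card (H ⊓ centralizer {x * x} : Subgroup G) ∣ 2 ^ 5 :=
      (card_dvd_of_le inf_le_left).trans (by rw [h32]; norm_num)
    have h4 : Nat.card (H ⊓ centralizer {x * x} : Subgroup G) ≠ 32 := fun e => by
      have h5 : H ≤ centralizer {x * x} := inf_eq_left.1 (eq_of_le_of_card_ge inf_le_left (by rw [e, h32]))
      have h6 := H03.eq_one_of_mem_isPGroup_of_coprime hH2 (hC (mem_centralizer_iff_le.2 h5))
        (by rw [hy5]; norm_num)
      rw [h6, orderOf_one] at hy5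
      omega
    obtain ⟨i, hi, e⟩ := (Nat.dvd_prime_pow Nat.prime_two).1 h3
    rw [e] at h1 h4 ⊢
    interval_cases i <;> simp_all [Nat.ModEq]
  obtain ⟨π, hπ⟩ : ∃ π : G →* G ⧸ zpowers z, π = QuotientGroup.mk' _ := ⟨_, rfl⟩
  have hπ1 : ∀ g, π g = 1 ↔ g ∈ zpowers z := fun g => by rw [hπ]; exact QuotientGroup.eq_one_iff g
  have hπc : ∀ a b, Commute (π a) (π b) ↔ ⁅a, b⁆ ∈ zpowers z := fun a b => by
    rw [← hπ1, map_commutatorElement, commutatorElement_eq_one_iff_commute]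
  obtain ⟨D, hD⟩ : ∃ D : G → Subgroup G, ∀ t g, g ∈ D t ↔ g ∈ H ∧ Commute (π g) (π t) :=
    ⟨fun t => H ⊓ (centralizer {π t}).comap π, fun t g => by
      rw [mem_inf, mem_comap, mem_centralizer_singleton_iff]; rfl⟩
  have hDH : ∀ t, D t ≤ H := fun t g hg => ((hD t g).1 hg).1
  have hzD : ∀ t, z ∈ D t := fun t => (hD t z).2 ⟨h.mem, (hzc t).symm.map π⟩
  have hD8 : Nat.card (D T) ≤ 8 := by
    have h1 : Nat.card (D T) ≤ Nat.card (D (x * T * x⁻¹)) := by
      rw [← card_cj x (D T)]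
      refine card_le_of_le ?_
      rintro _ ⟨g, hg, rfl⟩
      refine (hD _ _).2 ⟨hHn.conj_mem g (hDH T hg) x, ?_⟩
      simpa [map_mul] using (((hD T g).1 hg).2.map (MulAut.conj (π x)))
    have h2 : D T ⊓ D (x * T * x⁻¹) ≤ H ⊓ centralizer {x * x} := by
      refine le_inf (inf_le_left.trans (hDH T)) (mem_centralizer_iff_le.1 (mem_centralizer_of_two_step hZ2
        (by rw [hy5]; norm_num) (fun v hv => (hπc _ _).1 ?_) ?_))
      · have h3 := ((hD _ v).1 hv.2).2.mul_right ((hD _ v).1 hv.1).2.inv_right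
        rw [← map_inv, ← map_mul, show x * T * x⁻¹ * T⁻¹ = x * (T * x * T⁻¹)⁻¹ by group, hTx, inv_inv] at h3
        exact h3.symm
      · rw [centralizer_zpowers]; exact mem_centralizer_singleton_iff.2 (hzc _)
    have h3 := H02.card_sup_mul_card_inf ((hDH T).trans (h.le_norm (hDH (x * T * x⁻¹)) (hzD _)))
    have h4 := card_le_of_le (sup_le (hDH T) (hDH (x * T * x⁻¹)))
    have h5 := (card_le_of_le h2).trans hy
    rw [h32] at h4
    have h6 := Nat.mul_le_mul h4 h5
    nlinarith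
  have hCD : H ⊓ centralizer {T} ≤ D T := fun g hg =>
    (hD T g).2 ⟨hg.1, Commute.map (mem_centralizer_singleton_iff.1 hg.2) π⟩
  suffices h4 : Nat.card (H ⊓ centralizer {T} : Subgroup G) ≤ 4 by
    have := eq_of_le_of_card_ge hV (by omega)
    exact this ▸ ⟨hV4, hVe⟩
  by_contra h4
  have h8 : 8 ≤ Nat.card (H ⊓ centralizer {T} : Subgroup G) := by
    obtain ⟨i, hi⟩ := IsPGroup.iff_card.1 (hH2.to_inf_left (K := centralizer {T}))
    rw [hi] at h4 ⊢
    refine Nat.pow_le_pow_right (by norm_num : 0 < 2) (show 3 ≤ i from ?_)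
    by_contra h5
    exact h4 (Nat.pow_le_pow_right (by norm_num : 0 < 2) (show i ≤ 2 by omega))
  have hCD' := eq_of_le_of_card_ge hCD (by omega)
  have hcm : ∀ k ∈ H, ⁅T, k⁆ ∈ H := fun k hk => mul_mem (hHn.conj_mem k hk T) (inv_mem hk)
  obtain ⟨f, hf⟩ : ∃ f : H →* G ⧸ zpowers z, ∀ k, f k = π ⁅T, (k : G)⁆ :=
    ⟨MonoidHom.mk' (fun k => π ⁅T, (k : G)⁆) fun a b => by
      have h1 := ((hπc _ _).2 (h.comm a a.2 _ (hcm b b.2))).eq
      rw [coe_mul, show ⁅T, (a : G) * b⁆ = ⁅T, (a : G)⁆ * (a * ⁅T, (b : G)⁆ * (a : G)⁻¹) by group, map_mul,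
        map_mul π _ (a : G)⁻¹, map_mul π (a : G), h1, map_inv, mul_inv_cancel_right], fun k => rfl⟩
  have hk : f.ker = (D T).subgroupOf H := by
    ext k
    rw [MonoidHom.mem_ker, hf, hπ1, ← hπc, mem_subgroupOf, hD]
    exact ⟨fun e => ⟨k.2, e.symm⟩, fun e => e.2.symm⟩
  have h9 := card_mul_index f.ker
  rw [index_ker, hk, card_subgroupOf (hDH T), h32] at h9
  have hW : ∀ w ∈ f.range.comap π, w ∈ H ∧ w ^ 2 = 1 := by
    rintro w ⟨k, hk⟩
    have h1 : ⁅T, (k : G)⁆⁻¹ * w ∈ zpowers z := by rw [← hπ1, map_mul, map_inv, ← hf, hk, inv_mul_cancel]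
    have h2 : T * ⁅T, (k : G)⁆ * T⁻¹ = ⁅T, (k : G)⁆⁻¹ := by
      rw [commutatorElement_def, ← mul_assoc, ← mul_assoc, ← mul_assoc, hTT, inv_eq_of_mul_eq_one_left hTT]
      simp [mul_assoc, inv_eq_of_mul_eq_one_left hTT]
    have h3 : ⁅T, (k : G)⁆ ∈ D T := (hD _ _).2 ⟨hcm k k.2, ((hπc _ _).2 (by
      rw [commutatorElement_def T, h2, ← sq, inv_pow]
      exact inv_mem (h.pow _ (hcm k k.2)))).symm⟩
    rw [← hCD'] at h3
    have h5 : ⁅T, (k : G)⁆ ^ 2 = 1 := by
      rw [← mem_centralizer_singleton_iff.1 h3.2, mul_inv_cancel_right] at h2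
      rw [sq, ← eq_inv_iff_mul_eq_one]; exact h2
    rw [show w = ⁅T, (k : G)⁆ * (⁅T, (k : G)⁆⁻¹ * w) by group]
    refine ⟨mul_mem h3.1 (zpowers_le.2 h.mem h1), ?_⟩
    rw [(h.commute h1 h3.1).mul_pow, h5, h.pow_eq_one h1, mul_one]
  have h10 := hminus _ (fun w hw => (hW w hw).1) ⟨⟨⟨fun a b => Subtype.ext (by
    have h1 := (hW _ (a * b).2).2
    have h2 := (hW _ a.2).2
    have h3 := (hW _ b.2).2
    rw [sq, ← eq_inv_iff_mul_eq_one] at h1 h2 h3
    rw [coe_mul, coe_mul, ← coe_mul, h1, coe_mul, mul_inv_rev, ← h2, ← h3])⟩⟩, fun w hw => (hW w hw).2⟩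
  have h11 := card_mul_index (f.range.comap π)
  rw [index_comap_of_surjective _ (hπ ▸ QuotientGroup.mk'_surjective _), hG] at h11
  have h12 := card_mul_index f.range
  have h13 := card_mul_index (zpowers z)
  rw [hZc, hG, index] at h13
  have h14 : Nat.card (D T) = 8 := by rw [hCD'] at h8; omega
  rw [h14] at h9
  have h15 : Nat.card f.range = 4 := by omega
  rw [h15] at h12
  have h16 : f.range.index = 40 := by omega
  rw [h16] at h11
  omega

end Cfsg.Agent.S4405
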