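import Cfsg.Statements.S4406
import Mathlib
import Cfsg.Agent.H27.SylowNum
-- import your own Cfsg.Agent.* helpers here

set_option autoImplicit false
open Cfsg

namespace Cfsg.Agent.S4406

open scoped Pointwise commutatorElement

theorem t1 : ∀ u : alternatingGroup (Fin 4), u ^ 2 = 1 ∨ u ^ 3 = 1 := by decide +kernel

set_option synthInstance.maxSize 2000 in
theorem t2 : ∀ a : alternatingGroup (Fin 4), a ^ 3 = 1 → a ≠ 1 → ∀ u : alternatingGroup (Fin 4),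
    u ^ 2 = 1 → u ≠ 1 →
    a * (a * u * a⁻¹) * a⁻¹ = u * (a * u * a⁻¹) ∧ a * (u * (a * u * a⁻¹)) * a⁻¹ = u ∧
    a * u * a⁻¹ ≠ u ∧ a * u * a⁻¹ ≠ 1 ∧ (a * u * a⁻¹) ^ 2 = 1 ∧
    ∀ v : alternatingGroup (Fin 4), v ^ 2 = 1 →
      (v = 1 ∨ v = u ∨ v = a * u * a⁻¹ ∨ v = u * (a * u * a⁻¹)) ∧
      (v = 1 ∨ v = u ∨ v = a * u * a⁻¹ ∨ v = a⁻¹ * u * a⁻¹⁻¹) := by decide +kernel

theorem t3 : Fintype.card {u : alternatingGroup (Fin 4) // u ^ 2 = 1} = 4 := by decide +kernel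

theorem t4 : Nat.card (alternatingGroup (Fin 4)) = 12 := by
  rw [Nat.card_eq_fintype_card]; decide +kernel

theorem t5 {u : alternatingGroup (Fin 4)} {k : ℕ} (h : u ^ 2 ^ k = 1) : u ^ 2 = 1 := by
  rcases t1 u with h1 | h1
  · exact h1
  · rw [(pow_eq_one_iff_of_coprime (Nat.Coprime.pow_left k (by norm_num : Nat.Coprime 2 3))).1 ⟨h, h1⟩, one_pow]

theorem t6 {u : alternatingGroup (Fin 4)} {k : ℕ} (h : u ^ 3 ^ k = 1) : u ^ 3 = 1 := by
  rcases t1 u with h1 | h1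
  · rw [(pow_eq_one_iff_of_coprime (Nat.Coprime.pow_left k (by norm_num : Nat.Coprime 3 2))).1 ⟨h, h1⟩, one_pow]
  · exact h1

/-- In the direct product P = A₄ × A₄, let X be the Sylow 2-subgroup, X₁ and X₂ its intersections with the two direct factors, Q a Sylow 3-subgroup and Q₁, Q₂ its intersections with the two factors. Then every subgroup B of X of order 4 either meets X₁ or X₂ nontrivially, or is normalized by one of the two subgroups of Q of order 3 other than Q₁ and Q₂. -/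
theorem result
    (X : Sylow 2 (↥(alternatingGroup (Fin 4)) × ↥(alternatingGroup (Fin 4))))
    (Q : Sylow 3 (↥(alternatingGroup (Fin 4)) × ↥(alternatingGroup (Fin 4))))
    (B : Subgroup (↥(alternatingGroup (Fin 4)) × ↥(alternatingGroup (Fin 4)))) (hBX : B ≤ (X : Subgroup _)) (hB4 : Nat.card ↥B = 4) :
    B ⊓ ((X : Subgroup _) ⊓ Subgroup.prod ⊤ ⊥) ≠ ⊥ ∨ B ⊓ ((X : Subgroup _) ⊓ Subgroup.prod ⊥ ⊤) ≠ ⊥ ∨
      ∃ R : Subgroup (↥(alternatingGroup (Fin 4)) × ↥(alternatingGroup (Fin 4))), R ≤ (Q : Subgroup _) ∧ Nat.card ↥R = 3 ∧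
        R ≠ (Q : Subgroup _) ⊓ Subgroup.prod ⊤ ⊥ ∧ R ≠ (Q : Subgroup _) ⊓ Subgroup.prod ⊥ ⊤ ∧ R ≤ Subgroup.normalizer (B : Set _) := by
  haveI : Fact (Nat.Prime 3) := ⟨by norm_num⟩
  by_contra hc
  push Not at hc
  obtain ⟨h1, h2, h3⟩ := hc
  rw [← inf_assoc, inf_eq_left.2 hBX] at h1 h2
  have i1 : ∀ w ∈ B, ∀ w' ∈ B, w.1 = w'.1 → w = w' := by
    intro w hw w' hw' e
    have : w⁻¹ * w' ∈ B ⊓ Subgroup.prod ⊥ ⊤ := ⟨B.mul_mem (B.inv_mem hw) hw', by simp [e], trivial⟩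
    rw [h2, Subgroup.mem_bot] at this
    exact inv_mul_eq_one.1 this
  have i2 : ∀ w ∈ B, ∀ w' ∈ B, w.2 = w'.2 → w = w' := by
    intro w hw w' hw' e
    have : w⁻¹ * w' ∈ B ⊓ Subgroup.prod ⊤ ⊥ := ⟨B.mul_mem (B.inv_mem hw) hw', trivial, by simp [e]⟩
    rw [h1, Subgroup.mem_bot] at this
    exact inv_mul_eq_one.1 this
  have sq : ∀ w ∈ B, w.1 ^ 2 = 1 ∧ w.2 ^ 2 = 1 := by
    intro w hw
    obtain ⟨k, hk⟩ := X.isPGroup' ⟨w, hBX hw⟩
    have := congrArg Subtype.val hk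
    exact ⟨t5 (congrArg Prod.fst this), t5 (congrArg Prod.snd this)⟩
  have cu : ∀ w ∈ (Q : Subgroup (alternatingGroup (Fin 4) × alternatingGroup (Fin 4))), w.1 ^ 3 = 1 ∧ w.2 ^ 3 = 1 := by
    intro w hw
    obtain ⟨k, hk⟩ := Q.isPGroup' ⟨w, hw⟩
    have := congrArg Subtype.val hk
    exact ⟨t6 (congrArg Prod.fst this), t6 (congrArg Prod.snd this)⟩
  have surj : ∀ u : alternatingGroup (Fin 4), u ^ 2 = 1 → ∃ v, (u, v) ∈ B := by
    let f : B → {u : alternatingGroup (Fin 4) // u ^ 2 = 1} := fun w => ⟨w.1.1, (sq w w.2).1⟩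
    have hf : Function.Bijective f := (Nat.bijective_iff_injective_and_card f).2
      ⟨fun a b e => Subtype.ext (i1 _ a.2 _ b.2 (congrArg Subtype.val e)), by
        rw [hB4, Nat.card_eq_fintype_card, t3]⟩
    intro u hu
    obtain ⟨w, hw⟩ := hf.2 ⟨u, hu⟩
    refine ⟨w.1.2, ?_⟩
    rw [show u = w.1.1 from (congrArg Subtype.val hw).symm]; exact w.2
  have ex : ∀ K : Subgroup (alternatingGroup (Fin 4) × alternatingGroup (Fin 4)), K.Normal →
      Nat.card K = 12 → ∃ w ∈ (Q : Subgroup _), w ∈ K ∧ w ≠ 1 := by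
    intro K _ hK
    have := H27.not_dvd_relIndex_inf_of_normal Q K
    by_contra hc
    push Not at hc
    rw [(Subgroup.eq_bot_iff_forall ((Q : Subgroup _) ⊓ K)).2 fun w hw => hc w hw.1 hw.2, Subgroup.relIndex_bot_left, hK] at this
    exact this (by norm_num)
  obtain ⟨⟨a, a'⟩, haQ, ⟨-, ha'⟩, ha⟩ := ex (Subgroup.prod ⊤ ⊥) inferInstance (by
    rw [Nat.card_congr (Subgroup.prodEquiv _ _).toEquiv, Nat.card_prod, Subgroup.card_top, t4]; simp)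
  obtain ⟨⟨b', b⟩, hbQ, ⟨hb', -⟩, hb⟩ := ex (Subgroup.prod ⊥ ⊤) inferInstance (by
    rw [Nat.card_congr (Subgroup.prodEquiv _ _).toEquiv, Nat.card_prod, Subgroup.card_top, t4]; simp)
  obtain rfl : a' = 1 := ha'
  obtain rfl : b' = 1 := hb'
  have ha1 : a ≠ 1 := by rintro rfl; exact ha rfl
  have hb1 : b ≠ 1 := by rintro rfl; exact hb rfl
  have ha3 := (cu _ haQ).1
  have hb3 := (cu _ hbQ).2
  obtain ⟨⟨⟨u, v⟩, hw⟩, hw1⟩ := Subgroup.ne_bot_iff_exists_ne_one.1 (show B ≠ ⊥ by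
    rintro rfl; simp at hB4)
  have hu1 : u ≠ 1 := fun e => hw1 (Subtype.ext (i1 _ hw _ B.one_mem e))
  have hv1 : v ≠ 1 := fun e => hw1 (Subtype.ext (i2 _ hw _ B.one_mem e))
  obtain ⟨p1, p2, p3, p4, p5, p6⟩ := t2 a ha3 ha1 u (sq _ hw).1 hu1
  obtain ⟨v', hw'⟩ := surj _ p5
  have key : ∀ c : alternatingGroup (Fin 4), c ^ 3 = 1 → c ≠ 1 → ((1, c) : alternatingGroup (Fin 4) × _) ∈ (Q : Subgroup _) →
      v' ≠ c * v * c⁻¹ := by
    intro c hc3 hc1 hcQ e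
    subst e
    obtain ⟨q1, q2, -⟩ := t2 c hc3 hc1 v (sq _ hw).2 hv1
    refine h3 (Subgroup.zpowers (a, c)) ?_ ?_ ?_ ?_ ?_
    · rw [Subgroup.zpowers_le]
      simpa using Subgroup.mul_mem _ haQ hcQ
    · rw [Nat.card_zpowers]
      exact orderOf_eq_prime (Prod.ext ha3 hc3) fun e => ha1 (congrArg Prod.fst e)
    · intro e
      exact hc1 (e.le (Subgroup.mem_zpowers _)).2.2
    · intro e
      exact ha1 (e.le (Subgroup.mem_zpowers _)).2.1
    · rw [Subgroup.zpowers_le]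
      apply Subgroup.mem_normalizer_fintype
      intro w hwB
      rcases (p6 w.1 (sq w hwB).1).1 with e | e | e | e
      · rw [i1 _ hwB _ B.one_mem e, mul_one, mul_inv_cancel]; exact B.one_mem
      · rw [i1 _ hwB _ hw e]; exact hw'
      · rw [i1 _ hwB _ hw' e]
        exact (show _ = _ from Prod.ext p1 q1 : (a, c) * (a * u * a⁻¹, c * v * c⁻¹) * (a, c)⁻¹ =
          (u, v) * (a * u * a⁻¹, c * v * c⁻¹)) ▸ B.mul_mem hw hw'
      · rw [i1 _ hwB _ (B.mul_mem hw hw') e]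
        rw [(Prod.ext p2 q2 : (a, c) * ((u, v) * (a * u * a⁻¹, c * v * c⁻¹)) *
          (a, c)⁻¹ = (u, v))]
        exact hw
  rcases ((t2 b hb3 hb1 v (sq _ hw).2 hv1).2.2.2.2.2 v' (sq _ hw').2).2 with e | e | e | e
  · exact p4 (congrArg Prod.fst (i2 _ hw' _ B.one_mem e))
  · exact p3 (congrArg Prod.fst (i2 _ hw' _ hw e))
  · exact key b hb3 hb1 hbQ e
  · exact key b⁻¹ (by rw [inv_pow, hb3, inv_one]) (inv_ne_one.2 hb1)
      (by simpa using Subgroup.inv_mem _ hbQ) e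

end Cfsg.Agent.S4406
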