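import Mathlib
import Cfsg.Statements.S4407
import Cfsg.Agent.H02.PCore

set_option autoImplicit false
open Cfsg

namespace Cfsg.Agent.S4407

open Subgroup

theorem add_self {V : Type*} [AddCommGroup V] [Module (ZMod 2) V] (v : V) : v + v = 0 := by
  rw [← two_smul (ZMod 2) v]
  have : (2 : ZMod 2) = 0 := rfl
  rw [this, zero_smul]

theorem eq_of_add {V : Type*} [AddCommGroup V] [Module (ZMod 2) V] {a b : V} (h : a + b = 0) :
    a = b := by
  calc a = a + (b + b) := by rw [add_self, add_zero]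
    _ = b := by rw [← add_assoc, h, zero_add]

theorem exfix {V : Type*} [AddCommGroup V] [Module (ZMod 2) V] (σ : V →ₗ[ZMod 2] V) (P : V → Prop)
    (hadd : ∀ a b, P a → P b → P (a + b)) (hσ : ∀ a, P a → P (σ a)) (h2 : ∀ a, σ (σ a) = a)
    {m : V} (hm : m ≠ 0) (hP : P m) : ∃ m', m' ≠ 0 ∧ P m' ∧ σ m' = m' := by
  by_cases h : m + σ m = 0
  · exact ⟨m, hm, hP, (eq_of_add h).symm⟩
  · exact ⟨m + σ m, h, hadd _ _ hP (hσ _ hP), by rw [map_add, h2, add_comm]⟩

theorem two_indep {V : Type*} [AddCommGroup V] [Module (ZMod 2) V] {a b : V} (ha : a ≠ 0) (hb : b ≠ 0)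
    (hab : a + b ≠ 0) {c d : ZMod 2} (h : c • a + d • b = 0) : c = 0 ∧ d = 0 := by
  have h01 : ∀ x : ZMod 2, x = 0 ∨ x = 1 := by decide
  rcases h01 c with rfl | rfl <;> rcases h01 d with rfl | rfl <;> simp_all

theorem core {V : Type*} [AddCommGroup V] [Module (ZMod 2) V] (α β R σ : V →ₗ[ZMod 2] V)
    (hα : ∀ v, α (α (α v)) = v) (hβ : ∀ v, β (β (β v)) = v) (hαβ : ∀ v, α (β v) = β (α v))
    (hRα : ∀ v, R (α v) = β (R v)) (hRβ : ∀ v, α (R (β v)) = R v)
    (hσα : ∀ v, σ (α v) = α (σ v)) (hσβ : ∀ v, β (σ (β v)) = σ v)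
    (hR : ∀ v, R (R (R (R v))) = v) (hσ : ∀ v, σ (σ v) = v) (hσR : ∀ v, R (σ (R v)) = σ v)
    (hirr : ∀ N : Submodule (ZMod 2) V, (∀ v ∈ N, α v ∈ N) → (∀ v ∈ N, β v ∈ N) →
      (∀ v ∈ N, R v ∈ N) → (∀ v ∈ N, σ v ∈ N) → N = ⊥ ∨ N = ⊤)
    (hfix : ∀ v, α v = v → β v = v → v = 0) {m0 : V} (hm0 : m0 ≠ 0) (ham0 : α m0 = m0) :
    Nat.card V = 16 ∧ Nat.card {v : V // R (R v) = v ∧ σ v = v} = 4 ∧
      Nat.card {v : V // R (R v) = v ∧ R (σ v) = v} = 2 := by
  have αi : Function.Injective α := fun a b h => by rw [← hα a, h, hα]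
  have βi : Function.Injective β := fun a b h => by rw [← hβ a, h, hβ]
  have Ri : Function.Injective R := fun a b h => by rw [← hR a, h, hR]
  obtain ⟨m1, hm1, ham1, hz1⟩ := exfix (R ∘ₗ R) (fun v => α v = v)
    (fun a b ha hb => by rw [map_add, ha, hb])
    (fun a ha => by
      show α (R (R a)) = R (R a)
      conv_lhs => rw [← ha, hRα, hRβ])
    (fun a => hR a) hm0 ham0
  have hzσ : ∀ v, R (R (σ v)) = σ (R (R v)) := fun v => by
    apply Ri; apply Ri
    rw [hR]
    conv_rhs => rw [hσR (R v), hσR v]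
  obtain ⟨m, hm, ⟨ham, hz⟩, hs⟩ := exfix σ (fun v => α v = v ∧ R (R v) = v)
    (fun a b ha hb => ⟨by rw [map_add, ha.1, hb.1], by rw [map_add, map_add, ha.2, hb.2]⟩)
    (fun a ha => ⟨by rw [← hσα, ha.1], by rw [hzσ, ha.2]⟩) hσ hm1 ⟨ham1, hz1⟩
  have h2 : ∀ v : V, v + v = 0 := add_self
  obtain ⟨u1, hu1⟩ : ∃ u, u = β m := ⟨_, rfl⟩
  obtain ⟨w0, hw0⟩ : ∃ u, u = R m := ⟨_, rfl⟩
  obtain ⟨w1, hw1⟩ : ∃ u, u = α w0 := ⟨_, rfl⟩
  have a1 : α u1 = u1 := by rw [hu1, hαβ, ham]
  have b1 : β u1 = m + u1 := by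
    have := hfix (m + u1 + β u1) (by rw [map_add, map_add, ham, a1, hαβ, a1])
      (by rw [map_add, map_add, ← hu1]; conv_lhs => rw [hu1, hβ, ← hu1]
          abel)
    exact (eq_of_add this).symm
  have b2 : β w0 = w0 := by rw [hw0, ← hRα, ham]
  have b3 : β w1 = w1 := by rw [hw1, ← hαβ, b2]
  have a3 : α w1 = w0 + w1 := by
    have := hfix (w0 + w1 + α w1)
      (by rw [map_add, map_add, ← hw1]; conv_lhs => rw [hw1, hα, ← hw1]
          abel)
      (by rw [map_add, map_add, b2, b3, ← hαβ, b3])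
    exact (eq_of_add this).symm
  have r1 : R u1 = w0 + w1 := by
    apply αi
    rw [hu1, hRβ, ← hw0, map_add, ← hw1, a3, add_comm w0, ← add_assoc, h2, zero_add]
  have r2 : R w0 = m := by rw [hw0, hz]
  have r3 : R w1 = u1 := by rw [hw1, hRα, r2, hu1]
  have s1 : σ u1 = m + u1 := by
    apply βi
    rw [hu1, hσβ, hs, ← hu1, map_add, ← hu1, b1, add_comm m, ← add_assoc, h2, zero_add]
  have s2 : σ w0 = w0 := by
    apply Ri
    rw [hw0, hσR, hs, hz]
  have s3 : σ w1 = w1 := by rw [hw1, hσα, s2]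
  let f : ZMod 2 × ZMod 2 × ZMod 2 × ZMod 2 →ₗ[ZMod 2] V :=
    { toFun := fun c => c.1 • m + c.2.1 • u1 + (c.2.2.1 • w0 + c.2.2.2 • w1)
      map_add' := fun a b => by simp only [Prod.fst_add, Prod.snd_add, add_smul]; abel
      map_smul' := fun a b => by
        simp only [Prod.smul_fst, Prod.smul_snd, smul_eq_mul, mul_smul, RingHom.id_apply, smul_add] }
  have hf : ∀ c, f c = c.1 • m + c.2.1 • u1 + (c.2.2.1 • w0 + c.2.2.2 • w1) := fun c => rfl
  have ne0 : ∀ (g : V →ₗ[ZMod 2] V), Function.Injective g → ∀ v, v ≠ 0 → g v ≠ 0 :=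
    fun g hg v hv h => hv (hg (by rw [h, map_zero]))
  have hu10 : u1 ≠ 0 := hu1 ▸ ne0 β βi m hm
  have hw00 : w0 ≠ 0 := hw0 ▸ ne0 R Ri m hm
  have hw10 : w1 ≠ 0 := hw1 ▸ ne0 α αi w0 hw00
  have finj : Function.Injective f := by
    rw [injective_iff_map_eq_zero]
    rintro ⟨c0, c1, d0, d1⟩ h
    rw [hf] at h
    have e := eq_of_add h
    simp only at e
    have e1 : c0 • m + c1 • u1 = 0 := by
      apply hfix
      · rw [map_add, map_smul, map_smul, ham, a1]
      · rw [e, map_add, map_smul, map_smul, b2, b3]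
    obtain ⟨rfl, rfl⟩ := two_indep hm hu10 (b1 ▸ ne0 β βi u1 hu10) e1
    obtain ⟨rfl, rfl⟩ := two_indep hw00 hw10 (a3 ▸ ne0 α αi w1 hw10) (e.symm.trans e1)
    rfl
  have eα : ∀ c, α (f c) = f (c.1, c.2.1, c.2.2.2, c.2.2.1 + c.2.2.2) := fun c => by
    simp only [hf, map_add, map_smul, ham, a1, ← hw1, a3, add_smul, smul_add]; abel
  have eβ : ∀ c, β (f c) = f (c.2.1, c.1 + c.2.1, c.2.2.1, c.2.2.2) := fun c => by
    simp only [hf, map_add, map_smul, ← hu1, b1, b2, b3, add_smul, smul_add]; abel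
  have eR : ∀ c, R (f c) = f (c.2.2.1, c.2.2.2, c.1 + c.2.1, c.2.1) := fun c => by
    simp only [hf, map_add, map_smul, ← hw0, r1, r2, r3, add_smul, smul_add]; abel
  have eσ : ∀ c, σ (f c) = f (c.1 + c.2.1, c.2.1, c.2.2.1, c.2.2.2) := fun c => by
    simp only [hf, map_add, map_smul, hs, s1, s2, s3, add_smul, smul_add]; abel
  have fsurj : Function.Surjective f := by
    rcases hirr (LinearMap.range f) (by rintro _ ⟨c, rfl⟩; exact ⟨_, (eα c).symm⟩)
      (by rintro _ ⟨c, rfl⟩; exact ⟨_, (eβ c).symm⟩) (by rintro _ ⟨c, rfl⟩; exact ⟨_, (eR c).symm⟩)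
      (by rintro _ ⟨c, rfl⟩; exact ⟨_, (eσ c).symm⟩) with h | h
    · exfalso
      have : m ∈ LinearMap.range f := ⟨(1, 0, 0, 0), by simp [hf]⟩
      rw [h] at this
      exact hm ((Submodule.mem_bot _).1 this)
    · exact LinearMap.range_eq_top.1 h
  let e := Equiv.ofBijective f ⟨finj, fsurj⟩
  refine ⟨?_, ?_, ?_⟩
  · rw [← Nat.card_congr e]; simp
  · rw [← Nat.card_congr (e.subtypeEquiv (p := fun c => c.2.1 = 0 ∧ c.2.2.2 = 0) (fun c => ?_))]
    · rw [Nat.card_eq_fintype_card]; decide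
    · show _ ↔ R (R (f c)) = f c ∧ σ (f c) = f c
      rw [eR, eR, eσ, finj.eq_iff, finj.eq_iff]
      revert c; decide
  · rw [← Nat.card_congr (e.subtypeEquiv (p := fun c => c.2.1 = 0 ∧ c.2.2.2 = 0 ∧ c.1 = c.2.2.1)
      (fun c => ?_))]
    · rw [Nat.card_eq_fintype_card]; decide
    · show _ ↔ R (R (f c)) = f c ∧ R (σ (f c)) = f c
      rw [eR, eR, eσ, eR, finj.eq_iff, finj.eq_iff]
      revert c; decide

theorem exm {V : Type*} [AddCommGroup V] [Module (ZMod 2) V] (α β : V →ₗ[ZMod 2] V)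
    (hα : ∀ v, α (α (α v)) = v) (hβ : ∀ v, β (β (β v)) = v) (hαβ : ∀ v, α (β v) = β (α v))
    (hfix : ∀ v, α v = v → β v = v → v = 0) {m : V} (hm : m ≠ 0) :
    (∃ v, v ≠ 0 ∧ α v = v) ∨ (∃ v, v ≠ 0 ∧ β v = v) ∨ (∃ v, v ≠ 0 ∧ α (β v) = v) ∨
      (∃ v, v ≠ 0 ∧ α v = β v) := by
  by_contra hc
  push Not at hc
  obtain ⟨h1, h2, h3, h4⟩ := hc
  have k1 : ∀ v, α (α v) = v + α v := fun v => by
    by_contra h
    exact h1 (v + α v + α (α v)) (fun h' => h (eq_of_add h').symm)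
      (by rw [map_add, map_add, hα]; abel)
  have k2 : ∀ v, β (β v) = v + β v := fun v => by
    by_contra h
    exact h2 (v + β v + β (β v)) (fun h' => h (eq_of_add h').symm)
      (by rw [map_add, map_add, hβ]; abel)
  by_cases h : α m + β m = 0
  · exact h4 m hm (eq_of_add h)
  · apply h3 _ h
    rw [map_add, map_add, k2, map_add, hαβ, k1, map_add, hαβ]
    have := add_self (β (α m))
    calc β m + β (α m) + (α m + β (α m)) = α m + β m + (β (α m) + β (α m)) := by abel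
      _ = _ := by rw [this, add_zero]

theorem d8 : ∀ F : Finset (DihedralGroup 4), F.card = 4 → (∀ x ∈ F, ∀ y ∈ F, x * y ∈ F) →
    (∀ x ∈ F, x * x = 1) →
    F = {1, .r 2, .sr 0, .sr 2} ∨ F = {1, .r 2, .sr 3, .sr 1} := by
  decide +kernel

/-- First four-group of `D8`. -/
def B1 : Subgroup (DihedralGroup 4) where
  carrier := {x | x ∈ ({1, .r 2, .sr 0, .sr 2} : Finset (DihedralGroup 4))}
  mul_mem' := by
    intro a b; simp only [Set.mem_setOf_eq]; revert a b; decide
  one_mem' := by simp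
  inv_mem' := by
    intro a; simp only [Set.mem_setOf_eq]; revert a; decide

/-- Second four-group of `D8`. -/
def B2 : Subgroup (DihedralGroup 4) where
  carrier := {x | x ∈ ({1, .r 2, .sr 3, .sr 1} : Finset (DihedralGroup 4))}
  mul_mem' := by
    intro a b; simp only [Set.mem_setOf_eq]; revert a b; decide
  one_mem' := by simp
  inv_mem' := by
    intro a; simp only [Set.mem_setOf_eq]; revert a; decide

theorem memB1 (x : DihedralGroup 4) : x ∈ B1 ↔ x ∈ ({1, .r 2, .sr 0, .sr 2} : Finset (DihedralGroup 4)) :=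
  Iff.rfl

theorem memB2 (x : DihedralGroup 4) : x ∈ B2 ↔ x ∈ ({1, .r 2, .sr 3, .sr 1} : Finset (DihedralGroup 4)) :=
  Iff.rfl

theorem cardB1 : Nat.card B1 = 4 := by
  rw [Nat.card_congr (Equiv.subtypeEquivRight memB1), Nat.card_eq_fintype_card, Fintype.card_coe]
  decide

theorem cardB2 : Nat.card B2 = 4 := by
  rw [Nat.card_congr (Equiv.subtypeEquivRight memB2), Nat.card_eq_fintype_card, Fintype.card_coe]
  decide

theorem classB (B : Subgroup (DihedralGroup 4)) (h4 : Nat.card B = 4) (h2 : ∀ x ∈ B, x * x = 1) :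
    B = B1 ∨ B = B2 := by
  classical
  have := d8 (Finset.univ.filter (· ∈ B)) (by
    rw [Nat.card_eq_fintype_card, Fintype.card_subtype] at h4; exact h4)
    (by simpa using fun x hx y hy => B.mul_mem hx hy) (by simpa using h2)
  rcases this with h | h
  · left; ext x; rw [memB1, ← h]; simp
  · right; ext x; rw [memB2, ← h]; simp

theorem grp {S : Type*} [Group S] [Finite S] {M : Type*} [AddCommGroup M] [Module (ZMod 2) M]
    (ρ : Representation (ZMod 2) S M)
    (hirr : ∀ N : Submodule (ZMod 2) M, (∀ s : S, ∀ m ∈ N, ρ s m ∈ N) → N = ⊥ ∨ N = ⊤)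
    (a b r s : S) (ha3 : a * a * a = 1) (hab : a * b = b * a) (hra : r * a * r⁻¹ = b)
    (hrb : r * b * r⁻¹ = a⁻¹) (hsa : s * a * s⁻¹ = a) (hr4 : r * r * r * r = 1) (hs2 : s * s = 1)
    (hsr : r * s * r = s) (hgen : ∀ H : Subgroup S, a ∈ H → r ∈ H → s ∈ H → H = ⊤)
    (hfix : ∀ v, ρ a v = v → ρ b v = v → v = 0)
    (hex : (∃ v, v ≠ 0 ∧ ρ a v = v) ∨ (∃ v, v ≠ 0 ∧ ρ b v = v)) :
    Nat.card M = 16 ∧ Nat.card {v : M // ρ (r * r) v = v ∧ ρ s v = v} = 4 ∧
      Nat.card {v : M // ρ (r * r) v = v ∧ ρ (r * s) v = v} = 2 := by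
  have mul : ∀ g h v, ρ (g * h) v = ρ g (ρ h v) := fun g h v => by rw [map_mul]; rfl
  have one : ∀ v, ρ 1 v = v := fun v => by rw [map_one]; rfl
  have hR : ∀ v, ρ r (ρ r (ρ r (ρ r v))) = v := fun v => by
    rw [← mul, ← mul, ← mul, hr4, one]
  have hRα : ∀ v, ρ r (ρ a v) = ρ b (ρ r v) := fun v => by
    rw [← mul, ← mul, ← hra]; congr 2; group
  obtain ⟨m, hm, ham⟩ : ∃ v, v ≠ 0 ∧ ρ a v = v := by
    rcases hex with h | ⟨v, hv, hbv⟩
    · exact h
    · refine ⟨ρ r (ρ r (ρ r v)), fun h => hv (by rw [← hR v, h, map_zero]), ?_⟩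
      conv_lhs => rw [← hR (ρ a _), hRα, hR, hbv]
  have hsb : b * s * b = s := by
    have h1 : b = r⁻¹ * a⁻¹ * r := by rw [← hrb]; group
    have h2 : s * r⁻¹ = r * s := by
      calc s * r⁻¹ = r * s * r * r⁻¹ := by rw [hsr]
        _ = _ := by group
    have h3 : s * a⁻¹ = a⁻¹ * s := by
      calc s * a⁻¹ = a⁻¹ * (a * s) * a⁻¹ := by group
        _ = a⁻¹ * (s * a * s⁻¹ * s) * a⁻¹ := by rw [hsa]
        _ = _ := by group
    calc b * s * b = b * (s * r⁻¹) * a⁻¹ * r := by nth_rewrite 2 [h1]; group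
      _ = b * r * (s * a⁻¹) * r := by rw [h2]; group
      _ = r * a * r⁻¹ * r * (a⁻¹ * s) * r := by rw [h3, hra]
      _ = r * s * r := by group
      _ = s := hsr
  simp only [mul]
  refine core (ρ a) (ρ b) (ρ r) (ρ s) (fun v => by rw [← mul, ← mul, ha3, one])
    (fun v => by
      rw [← mul, ← mul, ← hra]
      have : r * a * r⁻¹ * (r * a * r⁻¹) * (r * a * r⁻¹) = r * (a * a * a) * r⁻¹ := by group
      rw [this, ha3, mul_one, mul_inv_cancel, one])
    (fun v => by rw [← mul, ← mul, hab]) hRα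
    (fun v => by
      rw [← mul, ← mul]; congr 2
      calc a * r * b = a * (r * b * r⁻¹) * r := by group
        _ = r := by rw [hrb]; group)
    (fun v => by
      rw [← mul, ← mul]; congr 2
      calc s * a = s * a * s⁻¹ * s := by group
        _ = _ := by rw [hsa])
    (fun v => by rw [← mul, ← mul, hsb]) hR (fun v => by rw [← mul, hs2, one])
    (fun v => by rw [← mul, ← mul, hsr]) ?_ hfix hm ham
  intro N h1 _ h3 h4
  apply hirr
  have hpow : ∀ g : S, (∀ v ∈ N, ρ g v ∈ N) → ∀ n : ℕ, ∀ v ∈ N, ρ (g ^ n) v ∈ N := by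
    intro g hg n
    induction n with
    | zero => intro v hv; rwa [pow_zero, one]
    | succ n ih => intro v hv; rw [pow_succ, mul]; exact ih _ (hg v hv)
  let H : Subgroup S :=
    { carrier := {g | ∀ v ∈ N, ρ g v ∈ N}
      mul_mem' := fun {g h} hg hh v hv => by rw [mul]; exact hg _ (hh v hv)
      one_mem' := fun v hv => by rwa [one]
      inv_mem' := fun {g} hg => by
        have : g⁻¹ = g ^ (orderOf g - 1) := by
          rw [inv_eq_iff_mul_eq_one, ← pow_succ', Nat.sub_add_cancel (orderOf_pos g),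
            pow_orderOf_eq_one]
        rw [this]; exact hpow g hg _ }
  have := hgen H h1 h3 h4
  intro g
  have hg : g ∈ H := this ▸ mem_top g
  exact hg

/-- Let S be a finite group with a normal elementary abelian subgroup A of order 9 that is self-centralizing (C_S(A) = A), and a dihedral subgroup X of order 8 with S = AX. Let M be a finite-dimensional module for S over the field with two elements that is faithful and irreducible. Then M has 16 elements, and X contains exactly one subgroup B of order 4 and exponent 2 whose fixed points on M form a subspace with exactly 2 elements (equivalently, M is free of rank one over the group algebra of B). -/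
theorem result {S : Type*} [Group S] [Finite S]
    (A : Subgroup S) [A.Normal] (hA : Cfsg.IsElementaryAbelian 3 A) (hA9 : Nat.card ↥A = 9)
    (hAC : Subgroup.centralizer (A : Set S) = A) (X : Subgroup S) (hX : Nonempty (↥X ≃* DihedralGroup 4)) (hAX : A ⊔ X = ⊤)
    {M : Type*} [AddCommGroup M] [Module (ZMod 2) M] [Finite M] (ρ : Representation (ZMod 2) S M)
    (hfaith : Function.Injective ρ)
    (hirr : ∀ N : Submodule (ZMod 2) M, (∀ s : S, ∀ m ∈ N, ρ s m ∈ N) → N = ⊥ ∨ N = ⊤) (hM : Nontrivial M) :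
    Nat.card M = 16 ∧
      ∃! B : Subgroup S, B ≤ X ∧ Nat.card ↥B = 4 ∧ (∀ b ∈ B, b ^ 2 = 1) ∧
        Nat.card {m : M // ∀ b ∈ B, ρ b m = m} = 2 := by
  classical
  obtain ⟨e⟩ := hX
  have hAn : A.Normal := inferInstance
  let ι : DihedralGroup 4 →* S := X.subtype.comp e.symm.toMonoidHom
  have ιinj : Function.Injective ι := X.subtype_injective.comp e.symm.injective
  have ιX : ∀ d, ι d ∈ X := fun d => (e.symm d).2
  have Xι : ∀ x ∈ X, ∃ d, ι d = x := fun x hx => ⟨e ⟨x, hx⟩, by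
    show ((e.symm (e ⟨x, hx⟩) : X) : S) = x
    rw [e.symm_apply_apply]⟩
  have mul : ∀ g h v, ρ (g * h) v = ρ g (ρ h v) := fun g h v => by rw [map_mul]; rfl
  have one : ∀ v, ρ 1 v = v := fun v => by rw [map_one]; rfl
  have comm : ∀ a ∈ A, ∀ b ∈ A, a * b = b * a := fun a ha b hb =>
    congrArg Subtype.val (hA.1.is_comm.comm (⟨a, ha⟩ : A) ⟨b, hb⟩)
  have cube : ∀ a ∈ A, a * a * a = 1 := fun a ha => by
    rw [← hA.2 a ha]; simp only [pow_succ, pow_zero, one_mul]
  have sq1 : ∀ a ∈ A, a⁻¹ = a → a = 1 := fun a ha h => by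
    have h1 := cube a ha
    have h2 : a * a = 1 := by nth_rewrite 1 [← h]; exact inv_mul_cancel a
    rwa [h2, one_mul] at h1
  have hfaithX : ∀ d, (∀ a ∈ A, ι d * a * (ι d)⁻¹ = a) → d = 1 := by
    intro d hd
    have h1 : ι d ∈ A := by
      rw [← hAC]
      intro a ha
      calc a * ι d = ι d * a * (ι d)⁻¹ * ι d := by rw [hd a ha]
        _ = _ := by group
    have h2 := cube _ h1
    rw [← map_mul, ← map_mul, ← map_one ι] at h2
    have h3 := ιinj h2
    have : ∀ d : DihedralGroup 4, d * d * d = 1 → d = 1 := by decide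
    exact this d h3
  obtain ⟨r, hr⟩ : ∃ r, r = ι (.r 1) := ⟨_, rfl⟩
  obtain ⟨s, hs⟩ : ∃ s, s = ι (.sr 0) := ⟨_, rfl⟩
  have hr4 : r * r * r * r = 1 := by
    rw [hr, ← map_mul, ← map_mul, ← map_mul, ← map_one ι]; congr 1
  have hs2 : s * s = 1 := by rw [hs, ← map_mul, ← map_one ι]; congr 1
  have hsr : r * s * r = s := by rw [hr, hs, ← map_mul, ← map_mul]; congr 1
  have hz : r * r = ι (.r 2) := by rw [hr, ← map_mul]; congr 1
  have hrs : r * s = ι (.sr 3) := by rw [hr, hs, ← map_mul]; congr 1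
  -- order three subgroups
  have ord3 : ∀ a ∈ A, a ≠ 1 → ∀ D : Subgroup S, D ≤ A → a ∈ D → D = A ∨ ∀ x ∈ D, x = 1 ∨ x = a ∨ x = a⁻¹ := by
    intro a ha ha1 D hDA haD
    have ho : orderOf a = 3 := orderOf_eq_prime (hA.2 a ha) ha1
    have h1 : Nat.card D ∣ 3 ^ 2 := by
      have := card_dvd_of_le hDA
      rwa [hA9] at this
    have h2 : 3 ∣ Nat.card D := by
      have := card_dvd_of_le (zpowers_le.2 haD)
      rwa [Nat.card_zpowers, ho] at this
    obtain ⟨i, hi, hi2⟩ := (Nat.dvd_prime_pow Nat.prime_three).1 h1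
    interval_cases i
    · rw [hi2] at h2; norm_num at h2
    · right
      have : zpowers a = D := eq_of_le_of_card_ge (zpowers_le.2 haD) (by
        rw [Nat.card_zpowers, ho, hi2]; rfl)
      intro x hx
      rw [← this, mem_zpowers_iff_mem_range_orderOf, ho] at hx
      simp only [Finset.mem_image, Finset.mem_range] at hx
      obtain ⟨k, hk, rfl⟩ := hx
      interval_cases k
      · left; simp
      · right; left; simp
      · right; right
        rw [eq_inv_iff_mul_eq_one, pow_two]; exact cube a ha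
    · left; exact eq_of_le_of_card_ge hDA (by rw [hA9, hi2]; rfl)
  obtain ⟨z, hzr⟩ : ∃ z, r * r = z := ⟨_, rfl⟩
  have hzz : z * z = 1 := by rw [← hr4, ← hzr]; simp only [mul_assoc]
  have hzc : ∀ d, z * d * z⁻¹ = r * (r * d * r⁻¹) * r⁻¹ := fun d => by
    rw [← hzr]; simp only [mul_assoc, mul_inv_rev]
  have hzinv : ∀ a ∈ A, z * a * z⁻¹ = a⁻¹ := by
    let D : Subgroup S :=
      { carrier := {x | x ∈ A ∧ z * x * z⁻¹ = x⁻¹}
        mul_mem' := fun {x y} hx hy => ⟨A.mul_mem hx.1 hy.1, by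
          calc z * (x * y) * z⁻¹ = (z * x * z⁻¹) * (z * y * z⁻¹) := by group
            _ = (y * x)⁻¹ := by rw [hx.2, hy.2]; group
            _ = _ := by rw [comm x hx.1 y hy.1]⟩
        one_mem' := ⟨A.one_mem, by group⟩
        inv_mem' := fun {x} hx => ⟨A.inv_mem hx.1, by
          calc z * x⁻¹ * z⁻¹ = (z * x * z⁻¹)⁻¹ := by group
            _ = _ := by rw [hx.2]⟩ }
    obtain ⟨c, hc, hc1⟩ : ∃ c ∈ A, z * c * z⁻¹ ≠ c := by
      by_contra h
      push Not at h
      rw [← hzr, hz] at h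
      exact absurd (hfaithX _ h) (by decide)
    have hc' := hAn.conj_mem c hc z
    have hdA : c⁻¹ * (z * c * z⁻¹) ∈ A := A.mul_mem (A.inv_mem hc) hc'
    have hd1 : c⁻¹ * (z * c * z⁻¹) ≠ 1 := fun h => hc1 (inv_mul_eq_one.1 h).symm
    have hdD : c⁻¹ * (z * c * z⁻¹) ∈ D := ⟨hdA, by
      calc z * (c⁻¹ * (z * c * z⁻¹)) * z⁻¹
          = (z * c * z⁻¹)⁻¹ * ((z * z) * c * (z * z)⁻¹) := by
            simp only [mul_assoc, mul_inv_rev, inv_inv, inv_mul_cancel_left]
        _ = _ := by rw [hzz]; group⟩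
    generalize c⁻¹ * (z * c * z⁻¹) = d at hdA hd1 hdD
    rcases ord3 d hdA hd1 D (fun x hx => hx.1) hdD with h | h
    · intro a ha
      have : a ∈ D := h ▸ ha
      exact this.2
    · exfalso
      have h1 : r * d * r⁻¹ ∈ D := ⟨hAn.conj_mem d hdA r, by
        calc z * (r * d * r⁻¹) * z⁻¹ = r * (z * d * z⁻¹) * r⁻¹ := by rw [hzc, hzc]
          _ = _ := by rw [hdD.2]; group⟩
      have h2 := hzc d
      apply hd1
      rcases h _ h1 with h | h | h
      · calc d = r⁻¹ * (r * d * r⁻¹) * r := by group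
          _ = 1 := by rw [h]; group
      · apply sq1 d hdA
        rw [← hdD.2, h2, h, h]
      · apply sq1 d hdA
        rw [← hdD.2, h2, h]
        calc r * d⁻¹ * r⁻¹ = (r * d * r⁻¹)⁻¹ := by group
          _ = d := by rw [h, inv_inv]
  obtain ⟨a, ha, ha1, hsa⟩ : ∃ a ∈ A, a ≠ 1 ∧ s * a * s⁻¹ = a := by
    by_contra h
    push Not at h
    have h1 : ∀ c ∈ A, s * c * s⁻¹ = c⁻¹ := by
      intro c hc
      have hc' := hAn.conj_mem c hc s
      by_contra h2
      refine h (c * (s * c * s⁻¹)) (A.mul_mem hc hc') (fun h3 => h2 (eq_inv_of_mul_eq_one_right h3)) ?_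
      calc s * (c * (s * c * s⁻¹)) * s⁻¹ = (s * c * s⁻¹) * ((s * s) * c * (s * s)⁻¹) := by group
        _ = (s * c * s⁻¹) * c := by rw [hs2]; group
        _ = _ := comm _ hc' _ hc
    have h2 : z * s = ι (.sr 2) := by rw [← hzr, hz, hs, ← map_mul]; congr 1
    refine absurd (hfaithX (.sr 2) fun c hc => ?_) (by decide)
    rw [← h2]
    calc z * s * c * (z * s)⁻¹ = z * (s * c * s⁻¹) * z⁻¹ := by group
      _ = c := by rw [h1 c hc, hzinv _ (A.inv_mem hc), inv_inv]
  obtain ⟨b, hb⟩ : ∃ b, r * a * r⁻¹ = b := ⟨_, rfl⟩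
  have hbA : b ∈ A := hb ▸ hAn.conj_mem a ha r
  have hrb : r * b * r⁻¹ = a⁻¹ := by rw [← hb, ← hzinv a ha, hzc]
  have hAle : ∀ H : Subgroup S, a ∈ H → b ∈ H → A ≤ H := by
    intro H haH hbH
    rcases ord3 a ha ha1 (A ⊓ H) inf_le_left ⟨ha, haH⟩ with h | h
    · rw [← h]; exact inf_le_right
    · exfalso
      apply ha1
      rcases h b ⟨hbA, hbH⟩ with h | h | h
      · calc a = r⁻¹ * (r * a * r⁻¹) * r := by group
          _ = 1 := by rw [hb, h]; group
      · apply sq1 a ha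
        rw [← hrb, h, hb, h]
      · apply sq1 a ha
        rw [← hrb, h]
        calc r * a⁻¹ * r⁻¹ = (r * a * r⁻¹)⁻¹ := by group
          _ = a := by rw [hb, h, inv_inv]
  have hXle : ∀ H : Subgroup S, r ∈ H → s ∈ H → X ≤ H := by
    intro H hrH hsH x hx
    obtain ⟨d, rfl⟩ := Xι x hx
    have : ∀ d : DihedralGroup 4, ∃ i : Fin 4, d = (.r 1) ^ (i : ℕ) ∨ d = (.sr 0) * (.r 1) ^ (i : ℕ) := by
      decide
    obtain ⟨i, h | h⟩ := this d
    · rw [h, map_pow, ← hr]; exact H.pow_mem hrH _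
    · rw [h, map_mul, map_pow, ← hr, ← hs]; exact H.mul_mem hsH (H.pow_mem hrH _)
  have hgen : ∀ H : Subgroup S, a ∈ H → r ∈ H → s ∈ H → H = ⊤ := by
    intro H haH hrH hsH
    rw [eq_top_iff, ← hAX]
    exact sup_le (hAle H haH (hb ▸ H.mul_mem (H.mul_mem hrH haH) (H.inv_mem hrH))) (hXle H hrH hsH)
  have hfixA : ∀ v, (∀ c ∈ A, ρ c v = v) → v = 0 := by
    let N : Submodule (ZMod 2) M :=
      { carrier := {v | ∀ c ∈ A, ρ c v = v}
        add_mem' := fun {x y} hx hy c hc => by rw [map_add, hx c hc, hy c hc]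
        zero_mem' := fun c _ => map_zero _
        smul_mem' := fun t x hx c hc => by rw [map_smul, hx c hc] }
    rcases hirr N (fun g m hm c hc => by
      have := hm _ (hAn.conj_mem c hc g⁻¹)
      conv_rhs => rw [← this]
      rw [← mul, ← mul]; congr 2; group) with h | h
    · intro v hv
      have : v ∈ N := hv
      rwa [h] at this
    · exfalso
      apply ha1
      apply hfaith
      ext v
      have : v ∈ N := h ▸ Submodule.mem_top
      rw [this a ha, one]
  have stab : ∀ v : M, ∃ H : Subgroup S, ∀ g, g ∈ H ↔ ρ g v = v := fun v =>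
    ⟨{ carrier := {g | ρ g v = v}
       mul_mem' := fun {g h} hg hh => by
         show ρ (g * h) v = v
         rw [mul, hh, hg]
       one_mem' := one v
       inv_mem' := fun {g} hg => by
         show ρ g⁻¹ v = v
         conv_lhs => rw [← hg, ← mul, inv_mul_cancel, one] }, fun g => Iff.rfl⟩
  have hfix : ∀ v, ρ a v = v → ρ b v = v → v = 0 := by
    intro v h1 h2
    obtain ⟨H, hH⟩ := stab v
    exact hfixA v fun c hc => (hH c).1 (hAle H ((hH a).2 h1) ((hH b).2 h2) hc)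
  obtain ⟨m, hm⟩ := exists_ne (0 : M)
  have hsb : s * b * s⁻¹ = b⁻¹ := by
    have h1 : b = r⁻¹ * a⁻¹ * r := by rw [← hrb]; group
    have h2 : s * r = r⁻¹ * s := by
      calc s * r = r⁻¹ * (r * s * r) := by group
        _ = _ := by rw [hsr]
    calc s * b * s⁻¹ = (s * r) * a * (s * r)⁻¹ := by rw [← hb]; group
      _ = r⁻¹ * (s * a * s⁻¹) * r := by rw [h2]; group
      _ = _ := by rw [hsa, h1]; group
  have main : Nat.card M = 16 ∧
      ((Nat.card {v : M // ρ (r * r) v = v ∧ ρ s v = v} = 4 ∧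
        Nat.card {v : M // ρ (r * r) v = v ∧ ρ (r * s) v = v} = 2) ∨
      (Nat.card {v : M // ρ (r * r) v = v ∧ ρ s v = v} = 2 ∧
        Nat.card {v : M // ρ (r * r) v = v ∧ ρ (r * s) v = v} = 4)) := by
    have hab := comm a ha b hbA
    have hcase := exm (ρ a) (ρ b) (fun v => by rw [← mul, ← mul, cube a ha, one])
      (fun v => by rw [← mul, ← mul, cube b hbA, one]) (fun v => by rw [← mul, ← mul, hab]) hfix hm
    rw [← or_assoc] at hcase
    rcases hcase with h | h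
    · obtain ⟨h1, h2, h3⟩ := grp ρ hirr a b r s (cube a ha) hab hb hrb hsa hr4 hs2 hsr hgen hfix h
      exact ⟨h1, Or.inl ⟨h2, h3⟩⟩
    · have hA1 : a * b ∈ A := A.mul_mem ha hbA
      have hA2 : b * a⁻¹ ∈ A := A.mul_mem hbA (A.inv_mem ha)
      have hle : ∀ H : Subgroup S, a * b ∈ H → b * a⁻¹ ∈ H → A ≤ H := by
        intro H h1 h2
        have h3 : b⁻¹ ∈ H := by
          have : b⁻¹ = a * b * (b * a⁻¹) := by
            calc b⁻¹ = b * b := by rw [inv_eq_iff_mul_eq_one, ← mul_assoc, cube b hbA]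
              _ = a * (b * b) * a⁻¹ := by rw [comm a ha _ (A.mul_mem hbA hbA)]; group
              _ = _ := by group
          rw [this]; exact H.mul_mem h1 h2
        have h4 : b ∈ H := by simpa using H.inv_mem h3
        exact hAle H (by simpa using H.mul_mem h1 h3) h4
      have hr' : r * (a * b) * r⁻¹ = b * a⁻¹ := by rw [← hrb]; nth_rewrite 2 [← hb]; group
      obtain ⟨h1, h2, h3⟩ := grp ρ hirr (a * b) (b * a⁻¹) r (r * s) (cube _ hA1) (comm _ hA1 _ hA2) hr'
        (by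
          calc r * (b * a⁻¹) * r⁻¹ = (r * b * r⁻¹) * (r * a * r⁻¹)⁻¹ := by group
            _ = (b * a)⁻¹ := by rw [hrb, hb]; group
            _ = _ := by rw [hab])
        (by
          calc r * s * (a * b) * (r * s)⁻¹ = r * ((s * a * s⁻¹) * (s * b * s⁻¹)) * r⁻¹ := by group
            _ = (r * a * r⁻¹) * (r * b * r⁻¹)⁻¹ := by rw [hsa, hsb]; group
            _ = _ := by rw [hb, hrb, inv_inv, hab])
        hr4 (by rw [← mul_assoc, hsr, hs2])
        (by
          calc r * (r * s) * r = r * (r * s * r) := by group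
            _ = _ := by rw [hsr])
        (fun H h1 h2 h3 => by
          rw [eq_top_iff, ← hAX]
          exact sup_le (hle H h1 (hr' ▸ H.mul_mem (H.mul_mem h2 h1) (H.inv_mem h2)))
            (hXle H h2 (by simpa using H.mul_mem (H.inv_mem h2) h3)))
        (fun v h1 h2 => by
          obtain ⟨H, hH⟩ := stab v
          exact hfixA v fun c hc => (hH c).1 (hle H ((hH _).2 h1) ((hH _).2 h2) hc))
        (by
          rcases h with ⟨v, hv, h⟩ | ⟨v, hv, h⟩
          · exact Or.inl ⟨v, hv, by rw [mul, h]⟩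
          · refine Or.inr ⟨ρ a v, fun h' => hv ?_, ?_⟩
            · rw [← one v, ← inv_mul_cancel a, mul, h', map_zero]
            · rw [← mul, inv_mul_cancel_right, h])
      refine ⟨h1, Or.inr ⟨?_, h2⟩⟩
      refine (Nat.card_congr (Equiv.subtypeEquivRight fun v => ?_)).trans h3
      refine and_congr_right fun hv => ?_
      obtain ⟨H, hH⟩ := stab v
      rw [← hH] at hv
      rw [← hH, ← hH, ← mul_assoc, H.mul_mem_cancel_left hv]
  refine ⟨main.1, ?_⟩
  have c1 : Nat.card {m : M // ∀ b ∈ B1.map ι, ρ b m = m} =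
      Nat.card {v : M // ρ (r * r) v = v ∧ ρ s v = v} := by
    refine Nat.card_congr (Equiv.subtypeEquivRight fun v => ?_)
    obtain ⟨H, hH⟩ := stab v
    simp only [← hH]
    constructor
    · intro h
      exact ⟨h _ ⟨.r 2, by rw [SetLike.mem_coe, memB1]; decide, hz.symm⟩,
        h _ ⟨.sr 0, by rw [SetLike.mem_coe, memB1]; decide, hs.symm⟩⟩
    · rintro ⟨h1, h2⟩ _ ⟨d, hd, rfl⟩
      rw [SetLike.mem_coe, memB1] at hd
      simp only [Finset.mem_insert, Finset.mem_singleton] at hd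
      rcases hd with rfl | rfl | rfl | rfl
      · rw [map_one]; exact H.one_mem
      · rwa [← hz]
      · rwa [← hs]
      · have := H.mul_mem h1 h2
        rwa [hz, hs, ← map_mul] at this
  have c2 : Nat.card {m : M // ∀ b ∈ B2.map ι, ρ b m = m} =
      Nat.card {v : M // ρ (r * r) v = v ∧ ρ (r * s) v = v} := by
    refine Nat.card_congr (Equiv.subtypeEquivRight fun v => ?_)
    obtain ⟨H, hH⟩ := stab v
    simp only [← hH]
    constructor
    · intro h
      exact ⟨h _ ⟨.r 2, by rw [SetLike.mem_coe, memB2]; decide, hz.symm⟩,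
        h _ ⟨.sr 3, by rw [SetLike.mem_coe, memB2]; decide, hrs.symm⟩⟩
    · rintro ⟨h1, h2⟩ _ ⟨d, hd, rfl⟩
      rw [SetLike.mem_coe, memB2] at hd
      simp only [Finset.mem_insert, Finset.mem_singleton] at hd
      rcases hd with rfl | rfl | rfl | rfl
      · rw [map_one]; exact H.one_mem
      · rwa [← hz]
      · rwa [← hrs]
      · have := H.mul_mem h1 h2
        rwa [hz, hrs, ← map_mul] at this
  have cls : ∀ B : Subgroup S, B ≤ X → Nat.card B = 4 → (∀ b ∈ B, b ^ 2 = 1) →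
      B = B1.map ι ∨ B = B2.map ι := by
    intro B hBX h4 h2
    have hB : (B.comap ι).map ι = B := by
      rw [map_comap_eq, inf_eq_right]
      exact fun x hx => Xι x (hBX hx)
    rcases classB (B.comap ι) (by rw [← card_map_of_injective ιinj, hB, h4])
      (fun x hx => ιinj (by rw [map_mul, map_one, ← pow_two]; exact h2 _ hx)) with h | h
    · left; rw [← h, hB]
    · right; rw [← h, hB]
  have p1 : B1.map ι ≤ X ∧ Nat.card (B1.map ι) = 4 ∧ ∀ b ∈ B1.map ι, b ^ 2 = 1 := by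
    refine ⟨by rintro _ ⟨d, -, rfl⟩; exact ιX d, by rw [card_map_of_injective ιinj, cardB1], ?_⟩
    rintro _ ⟨d, hd, rfl⟩
    rw [SetLike.mem_coe, memB1] at hd
    rw [← map_pow, ← map_one ι]; congr 1
    revert d; decide
  have p2 : B2.map ι ≤ X ∧ Nat.card (B2.map ι) = 4 ∧ ∀ b ∈ B2.map ι, b ^ 2 = 1 := by
    refine ⟨by rintro _ ⟨d, -, rfl⟩; exact ιX d, by rw [card_map_of_injective ιinj, cardB2], ?_⟩
    rintro _ ⟨d, hd, rfl⟩
    rw [SetLike.mem_coe, memB2] at hd
    rw [← map_pow, ← map_one ι]; congr 1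
    revert d; decide
  rcases main.2 with ⟨h1, h2⟩ | ⟨h1, h2⟩
  · refine ⟨B2.map ι, ⟨p2.1, p2.2.1, p2.2.2, c2.trans h2⟩, ?_⟩
    rintro B ⟨q1, q2, q3, q4⟩
    rcases cls B q1 q2 q3 with rfl | rfl
    · rw [c1, h1] at q4; omega
    · rfl
  · refine ⟨B1.map ι, ⟨p1.1, p1.2.1, p1.2.2, c1.trans h1⟩, ?_⟩
    rintro B ⟨q1, q2, q3, q4⟩
    rcases cls B q1 q2 q3 with rfl | rfl
    · rfl
    · rw [c2, h2] at q4; omega

end Cfsg.Agent.S4407
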