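import Mathlib
import Cfsg.Statements.S4408
import Cfsg.Agent.BG.Api
import Cfsg.Agent.H04.Basic
import Cfsg.Agent.H04.Amb
import Cfsg.Agent.H01.Generation

set_option autoImplicit false
open Cfsg

namespace Cfsg.Agent.S4408
open Subgroup BG
open scoped commutatorElement

section
variable {G : Type*} [Group G] [Finite G]

theorem eig {F I W : Subgroup G} (hF : Group.IsNilpotent F) (hW : W ≤ F) (h1 : W ≠ ⊥) (hFW : F ≤ N_(W))
    (hIW : I ≤ N_(W)) (hIF : I ≤ N_(F)) (hI : IsElementaryAbelian 2 I) :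
    ∃ u ∈ W, (orderOf u).Prime ∧ u ∈ C_(F) ∧ ∀ t ∈ I, t * u * t⁻¹ = u ∨ t * u * t⁻¹ = u⁻¹ := by
  obtain ⟨U, hU, hU1, hIU, hmin⟩ := H01.exists_minimal_invariant (nil_meet_center hF hW hFW h1)
    (H01.le_normalizer_inf hIW (H01.le_normalizer_centralizer hIF))
  obtain ⟨p, hp, hd⟩ := Nat.exists_prime_and_dvd (fun e => hU1 (Subgroup.card_eq_one.1 e))
  haveI := Fact.mk hp
  obtain ⟨⟨u, hu⟩, ho⟩ := exists_prime_orderOf_dvd_card' p hd
  refine ⟨u, (hU hu).1, by rw [orderOf_mk] at ho; rwa [ho], (hU hu).2, fun t ht => ?_⟩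
  have hc : I ≤ C_[t] := fun s hs => mem_centralizer_singleton_iff.2
    (congrArg Subtype.val (hI.1.is_comm.comm (⟨s, hs⟩ : I) ⟨t, ht⟩))
  rcases hmin (U ⊓ C_[t]) inf_le_left (H01.le_normalizer_inf hIU (hc.trans le_normalizer)) with e | e
  · have h2 := H01.conj_mem_of_le_normalizer hIU ht hu
    have h3 : u * (t * u * t⁻¹) ∈ U ⊓ C_[t] := ⟨mul_mem hu h2, mem_centralizer_singleton_iff.2 (by
      have := (hU hu).2 _ (hW (hU h2).1)
      have h4 : t⁻¹ = t := inv_eq_of_mul_eq_one_left (by rw [← sq]; exact hI.2 t ht)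
      calc u * (t * u * t⁻¹) * t = u * t * u := by group
        _ = t * (t * u * t⁻¹ * u) := by rw [h4, ← mul_assoc, ← mul_assoc, ← mul_assoc, ← sq, hI.2 t ht, one_mul]
        _ = _ := by rw [this])⟩
    rw [e, mem_bot] at h3
    exact Or.inr (eq_inv_of_mul_eq_one_right h3)
  · exact Or.inl (mul_inv_eq_iff_eq_mul.2 (mem_centralizer_singleton_iff.1 (e.ge hu).2).symm)

theorem norm_zp {I : Subgroup G} {u : G} (h : ∀ t ∈ I, t * u * t⁻¹ = u ∨ t * u * t⁻¹ = u⁻¹) : I ≤ N_(zpowers u) :=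
  H01.le_normalizer_of_conj_mem fun t ht k hk => by
    obtain ⟨i, rfl⟩ := mem_zpowers_iff.1 hk
    rw [← conj_zpow]
    rcases h t ht with e | e <;> rw [e]
    exacts [hk, zpow_mem (inv_mem (mem_zpowers u)) i]

theorem step1 {F I : Subgroup G} [F.Normal] (hF : Group.IsNilpotent F) (ho : Odd (Nat.card F)) (h : F ⊔ I = ⊤)
    (hI : IsElementaryAbelian 2 I) : ∃ A ≤ F, A.Normal ∧ IsMulCommutative A ∧ I ⊓ C_(A) ≤ C_(F) := by
  obtain ⟨A, -, ⟨hA, hn, hc⟩, hmax⟩ := Finite.exists_le_maximal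
    (p := fun A : Subgroup G => A ≤ F ∧ A.Normal ∧ IsMulCommutative A) (a := ⊥) ⟨bot_le, inferInstance, inferInstance⟩
  have h1 : F ⊓ C_(A) ≤ A := by
    by_contra h1
    let π := QuotientGroup.mk' A
    have hs := QuotientGroup.mk'_surjective A
    haveI : (F.map π).Normal := Normal.map inferInstance _ hs
    haveI : ((F ⊓ C_(A)).map π).Normal := Normal.map inferInstance _ hs
    obtain ⟨_, ⟨u, hu, rfl⟩, h2, h3, h4⟩ := eig (F := F.map π) (I := I.map π) (W := (F ⊓ C_(A)).map π)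
      (H02.isNilpotent_map π F) (map_mono inf_le_left) (by rwa [Ne, Subgroup.map_eq_bot_iff, QuotientGroup.ker_mk'])
      le_normalizer_of_normal le_normalizer_of_normal le_normalizer_of_normal (H04.IsElementaryAbelian.map hI π)
    have h5 : (zpowers (π u)).Normal := normalizer_eq_top_iff.1 (eq_top_iff.2 (by
      rw [← map_top_of_surjective π hs, ← h, Subgroup.map_sup]
      exact sup_le ((le_centralizer_iff.1 (zpowers_le.2 h3)).trans (centralizer_le_normalizer _)) (norm_zp h4)))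
    have h6 := h5.comap π
    rw [← MonoidHom.map_zpowers, comap_map_eq, QuotientGroup.ker_mk', sup_comm] at h6
    have := hmax ⟨sup_le hA (zpowers_le.2 hu.1), h6, H04.isMulCommutative_sup_zpowers hc hu.2⟩ le_sup_left
      (mem_sup_right (mem_zpowers u))
    rw [show π u = 1 from (QuotientGroup.eq_one_iff u).2 this, orderOf_one] at h2
    exact Nat.not_prime_one h2
  refine ⟨A, hA, hn, hc, fun t ht f hf => ?_⟩
  have h2 : ⁅f, t⁆ ∈ A := h1 ⟨commutator_le_left F ⊤ (commutator_mem_commutator hf (mem_top t)),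
    commutator_le_right ⊤ C_(A) (commutator_mem_commutator (mem_top f) ht.2)⟩
  have h3 : ⁅f, t⁆ ^ 2 = 1 := by
    have e : (⁅f, t⁆ * t) ^ 2 = 1 := by simp [commutatorElement_def, hI.2 t ht.1]
    rwa [Commute.mul_pow (ht.2 _ h2), hI.2 t ht.1, mul_one] at e
  exact commutatorElement_eq_one_iff_mul_comm.1 (orderOf_eq_one_iff.1 (Nat.eq_one_of_dvd_coprimes
    (Nat.coprime_two_left.2 ho) (orderOf_dvd_of_pow_eq_one h3) (F.orderOf_dvd_natCard (hA h2))))

theorem step2 {I : Subgroup G} (hI : IsElementaryAbelian 2 I) (n : ℕ) : ∀ A J : Subgroup G, IsMulCommutative A →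
    Odd (Nat.card A) → I ≤ N_(A) → J ≤ I → Nat.card J = 2 ^ n → J ⊓ C_(A) = ⊥ →
    ∃ f : Fin n → Subgroup G, (∀ i, (Nat.card (f i)).Prime) ∧ (∀ i, f i ≤ A) ∧ (∀ i, I ≤ N_(f i)) ∧
      Nat.card ↥(⨆ i, f i) = ∏ i, Nat.card (f i) ∧ J ⊓ C_((⨆ i, f i : Subgroup G)) = ⊥ := by
  induction n with
  | zero => exact fun A J _ _ _ _ h _ => ⟨Fin.elim0, by simp, by simp, by simp, by simp, by
      rw [Subgroup.card_eq_one.1 h, bot_inf_eq]⟩
  | succ n ih =>
  intro A J hA ho hIA hJ hc h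
  have cop : ∀ K ≤ I, (Nat.card K).Coprime (Nat.card A) := fun K hK =>
    pg_coprime Nat.prime_two (pg_of_pow fun x hx => hI.2 x (hK hx)) ho.not_two_dvd_nat
  have nm : ∀ K ≤ I, I ≤ N_(K) := fun K hK => le_trans (b := C_(K)) (fun s hs t ht =>
    congrArg Subtype.val (hI.1.is_comm.comm (⟨t, hK ht⟩ : I) ⟨s, hs⟩)) (centralizer_le_normalizer _)
  obtain ⟨⟨j, hj⟩, hj1⟩ := ne_bot_iff_exists_ne_one.1 (show J ≠ ⊥ from fun e => by
    rw [e, card_bot] at hc; exact absurd hc.symm (by simp))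
  have hz : zpowers j ≤ I := zpowers_le.2 (hJ hj)
  have d1 := coprime_abelian_dprod (hz.trans hIA) (cop _ hz) hA
  obtain ⟨u, hu, h2, -, h4⟩ := eig (F := A) (W := ⁅A, zpowers j⁆) (nil_of_abelian hA) d1.le_right (fun e => hj1
    (Subtype.ext (mem_bot.1 (h ▸ ⟨hj, le_centralizer_iff.1 (commutator_eq_bot_iff_le_centralizer.1 e) (mem_zpowers j)⟩))))
    (H01.left_le_normalizer_commutator _ _) (H01.le_normalizer_commutator hIA (nm _ hz)) hIA hI
  have huA := d1.le_right hu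
  have hu1 : u ≠ 1 := fun e => Nat.not_prime_one (by rwa [e, orderOf_one] at h2)
  have hu2 : u⁻¹ ≠ u := fun e => hu1 (orderOf_eq_one_iff.1 (Nat.eq_one_of_dvd_coprimes (Nat.coprime_two_left.2 ho)
    (orderOf_dvd_of_pow_eq_one (by rw [sq]; nth_rw 1 [← e]; simp)) (A.orderOf_dvd_natCard huA)))
  have hju : j * u * j⁻¹ = u⁻¹ := (h4 j (hJ hj)).resolve_left fun e => hu1 (mem_bot.1 (d1.disj ▸ ⟨⟨huA,
    le_centralizer_iff.1 (zpowers_le.2 (mem_centralizer_iff.2 fun x hx => by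
      obtain ⟨i, rfl⟩ := mem_zpowers_iff.1 hx
      exact (Commute.zpow_left (mul_inv_eq_iff_eq_mul.1 e).symm i))) (mem_zpowers u)⟩, hu⟩))
  have hi : (C_[u]).relIndex J = 2 := index_eq_two_iff.2 ⟨⟨j, hj⟩, fun b => by
    simp only [mem_subgroupOf, mem_centralizer_singleton_iff, ← mul_inv_eq_iff_eq_mul, coe_mul]
    have e1 : b * j * u * ((b : G) * j)⁻¹ = (b * u * (b : G)⁻¹)⁻¹ := by
      rw [show b * j * u * ((b : G) * j)⁻¹ = b * (j * u * j⁻¹) * (b : G)⁻¹ by group, hju]; group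
    rw [e1]
    rcases h4 b (hJ b.2) with e | e <;> rw [e] <;> simp [hu2]⟩
  have hJ1 : C_[u] ⊓ J ≤ I := inf_le_right.trans hJ
  have d2 := coprime_abelian_dprod (hJ1.trans hIA) (cop _ hJ1) hA
  obtain ⟨f, f1, f2, f3, f4, f5⟩ := ih ⁅A, C_[u] ⊓ J⁆ (C_[u] ⊓ J) (abelian_of_le hA d2.le_right)
    (ho.of_dvd_nat (card_dvd_of_le d2.le_right)) (H01.le_normalizer_commutator hIA (nm _ hJ1)) hJ1 (by
      have := card_inf_mul_relIndex C_[u] J
      rw [hi, hc, pow_succ] at this; omega)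
    (eq_bot_iff.2 fun t ht => h ▸ ⟨ht.1.2, le_centralizer_iff.1 (d2.sup.ge.trans (sup_le
      (fun a ha => mem_centralizer_iff.2 fun s hs => by
        obtain ⟨i, rfl⟩ := mem_zpowers_iff.1 hs
        exact Commute.zpow_left (ha.2 t ht.1) i) (le_centralizer_iff.1 (zpowers_le.2 ht.2)))) (mem_zpowers t)⟩)
  have e : (⨆ i, (Fin.cons (zpowers u) f : Fin (n + 1) → Subgroup G) i) = zpowers u ⊔ ⨆ i, f i := le_antisymm
    (iSup_le (Fin.cases le_sup_left fun i => le_sup_of_le_right (le_iSup f i)))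
    (sup_le (le_iSup_of_le 0 le_rfl) (iSup_le fun i => le_iSup_of_le i.succ le_rfl))
  refine ⟨Fin.cons (zpowers u) f, Fin.cases (by simpa) f1, Fin.cases (zpowers_le.2 huA) fun i => (f2 i).trans d2.le_right,
    Fin.cases (norm_zp h4) f3, ?_, eq_bot_iff.2 fun t ht => f5 ▸ ?_⟩
  · rw [e, Fin.prod_univ_succ]
    simp only [Fin.cons_zero, Fin.cons_succ]
    rw [← f4]
    refine (dprod_sup ?_ (eq_bot_iff.2 (d2.disj ▸ inf_le_inf (zpowers_le.2 ⟨huA, fun s hs =>
      mem_centralizer_singleton_iff.1 hs.1⟩) (iSup_le f2)))).card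
    exact ((iSup_le f2).trans d2.le_right).trans ((haveI := hA; le_centralizer A).trans
      (centralizer_le (zpowers_le.2 huA)))
  · rw [e] at ht
    exact ⟨⟨mem_centralizer_singleton_iff.2 (ht.2 u (mem_sup_left (mem_zpowers u))).symm, ht.1⟩,
      fun x hx => ht.2 x (mem_sup_right hx)⟩

end


/-- Let S be a finite solvable group whose Fitting subgroup F(S) has odd order, and let I be an elementary abelian 2-subgroup of S of order 2ⁿ with n ≥ 1. Then F(S) contains subgroups A₁, …, Aₙ of prime order, each normalized by I, pairwise commuting and generating a subgroup A of order |A₁|⋯|Aₙ| (their internal direct product), such that no non-identity element of I centralizes A. -/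
theorem result {S : Type*} [Group S] [Finite S]
    [Group.IsSolvable S] (hF : Odd (Nat.card ↥(Cfsg.fittingSubgroup S)))
    (I : Subgroup S) (hI : Cfsg.IsElementaryAbelian 2 I) (n : ℕ) (hn : 1 ≤ n) (hIn : Nat.card ↥I = 2 ^ n) :
    ∃ f : Fin n → Subgroup S, (∀ i, (Nat.card ↥(f i)).Prime) ∧ (∀ i, f i ≤ Cfsg.fittingSubgroup S) ∧
      (∀ i, I ≤ Subgroup.normalizer ((f i) : Set S)) ∧ (∀ i j, i ≠ j → ∀ a ∈ f i, ∀ b ∈ f j, a * b = b * a) ∧
      Nat.card ↥(⨆ i, f i) = ∏ i, Nat.card ↥(f i) ∧ I ⊓ Subgroup.centralizer ((⨆ i, f i : Subgroup S) : Set S) = ⊥ := by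
  let F := fittingSubgroup S
  let H := F ⊔ I
  obtain ⟨A, h1, _, h2, h3⟩ := step1 (G := H) (F := F.subgroupOf H) (I := I.subgroupOf H) (H02.isNilpotent_subgroupOf _ _)
    (by rwa [H02.card_subgroupOf_of_le le_sup_left]) (by rw [← subgroupOf_sup le_sup_left le_sup_right, subgroupOf_self])
    (H04.IsElementaryAbelian.subgroupOf hI H)
  have h4 : A.map H.subtype ≤ F := map_le_iff_le_comap.2 h1
  obtain ⟨f, f1, f2, f3, f4, f5⟩ := step2 hI n (A.map H.subtype) I inferInstance (hF.of_dvd_nat (card_dvd_of_le h4))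
    (le_sup_right.trans (H01.le_normalizer_map_subtype A)) le_rfl hIn (eq_bot_iff.2 fun t ht => by
      refine pg_inf_eq_bot Nat.prime_two (pg_of_pow hI.2) hF.not_two_dvd_nat ▸ ⟨ht.1, H02.centralizer_fitting_le S
        fun x hx => ?_⟩
      exact congrArg Subtype.val (h3 (x := ⟨t, mem_sup_right ht.1⟩) ⟨ht.1, fun a ha => Subtype.ext
        (ht.2 a (mem_map_of_mem _ ha))⟩ ⟨x, mem_sup_left hx⟩ hx))
  exact ⟨f, f1, fun i => (f2 i).trans h4, f3, fun i j _ a ha b hb => congrArg Subtype.val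
    ((inferInstance : IsMulCommutative (A.map H.subtype)).is_comm.comm ⟨a, f2 i ha⟩ ⟨b, f2 j hb⟩), f4, f5⟩

end Cfsg.Agent.S4408
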