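import Mathlib
import Cfsg.Statements.S4410
import Cfsg.Agent.H02.Fitting
import Cfsg.Agent.H02.MinNormal
import Cfsg.Agent.H02.PPrimeCore

set_option autoImplicit false
open Cfsg

namespace Cfsg.Agent.S4410

/-- `s` is a transvection with direction `u`. -/
def Tr {V : Type*} [AddCommGroup V] [Module (ZMod 2) V] (s : V ≃ₗ[ZMod 2] V) (u : V) : Prop :=
  s u = u ∧ ∀ v, s v = v ∨ s v = v + u

theorem add_self {V : Type*} [AddCommGroup V] [Module (ZMod 2) V] (v : V) : v + v = 0 := by
  rw [← two_smul (ZMod 2) v]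
  have : (2 : ZMod 2) = 0 := rfl
  rw [this, zero_smul]

theorem tr_conj {V : Type*} [AddCommGroup V] [Module (ZMod 2) V] {s : V ≃ₗ[ZMod 2] V} {u : V}
    (h : Tr s u) (g : V ≃ₗ[ZMod 2] V) : Tr (g * s * g⁻¹) (g u) := by
  refine ⟨?_, fun v => ?_⟩
  · show g (s (g.symm (g u))) = g u
    rw [g.symm_apply_apply, h.1]
  · rcases h.2 (g.symm v) with h1 | h1
    · left
      show g (s (g.symm v)) = v
      rw [h1, g.apply_symm_apply]
    · right
      show g (s (g.symm v)) = v + g u
      rw [h1, map_add, g.apply_symm_apply]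

theorem tr_four {V : Type*} [AddCommGroup V] [Module (ZMod 2) V] {s s' : V ≃ₗ[ZMod 2] V} {u u' : V}
    (h : Tr s u) (h' : Tr s' u') (hf : s u' = u') : (s * s') ^ 4 = 1 := by
  have hu' : (s * s') u' = u' := by
    show s (s' u') = u'
    rw [h'.1, hf]
  have hu : (s * s') u = u ∨ (s * s') u = u + u' := by
    rcases h'.2 u with h1 | h1
    · left
      show s (s' u) = u
      rw [h1, h.1]
    · right
      show s (s' u) = u + u'
      rw [h1, map_add, h.1, hf]
  have key : ∀ v, (s * s') ((s * s') v) = v ∨ (s * s') ((s * s') v) = v + u' := by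
    intro v
    have h2 : ∀ w : V, w + w = 0 := add_self
    have hv : (s * s') v = v ∨ (s * s') v = v + u ∨ (s * s') v = v + u' ∨
        (s * s') v = v + u + u' := by
      show s (s' v) = v ∨ s (s' v) = v + u ∨ s (s' v) = v + u' ∨ s (s' v) = v + u + u'
      rcases h'.2 v with h1 | h1 <;> rcases h.2 v with h3 | h3 <;> rw [h1] <;>
        simp only [map_add, hf, h3] <;> simp
    rcases hv with hv | hv | hv | hv
    · left; rw [hv, hv]
    · rcases hu with hu | hu
      · left; rw [hv, map_add, hv, hu, add_assoc, h2, add_zero]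
      · right; rw [hv, map_add, hv, hu, add_assoc, ← add_assoc u, h2, zero_add]
    · left; rw [hv, map_add, hv, hu', add_assoc, h2, add_zero]
    · rcases hu with hu | hu
      · left; rw [hv, map_add, map_add, hv, hu, hu']
        have : v + u + u' + u + u' = v + (u + u) + (u' + u') := by abel
        rw [this, h2, h2, add_zero, add_zero]
      · right; rw [hv, map_add, map_add, hv, hu, hu']
        have : v + u + u' + (u + u') + u' = v + (u + u) + (u' + u') + u' := by abel
        rw [this, h2, h2, add_zero, add_zero]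
  ext v
  have e : ((s * s') ^ 4) v = (s * s') ((s * s') ((s * s') ((s * s') v))) := by
    simp only [pow_succ, pow_zero, one_mul, LinearEquiv.mul_apply]
  rw [e]
  rcases key v with h1 | h1
  · rw [h1, h1]; rfl
  · rw [h1, map_add, map_add, h1, hu', hu', add_assoc, add_self, add_zero]; rfl

/-- Let V be a finite-dimensional vector space over the field with two elements and S a solvable group of linear automorphisms of V with O₂(S) = 1. If P ∈ S has order 4 and (P − 1)³ = 0 on V, then the image of (P − 1)² has at least 4 elements; equivalently, in the decomposition of V into indecomposable modules for the cyclic group generated by P, at least two summands have dimension 3. -/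
theorem result
    {V : Type*} [AddCommGroup V] [Module (ZMod 2) V] [Finite V]
    (S : Subgroup (V ≃ₗ[ZMod 2] V)) (hS : Group.IsSolvable ↥S) (hO2 : Cfsg.pCore 2 ↥S = ⊥)
    (P : V ≃ₗ[ZMod 2] V) (hPS : P ∈ S) (hP4 : orderOf P = 4)
    (hcub : ((P : V →ₗ[ZMod 2] V) - LinearMap.id) ^ 3 = 0) :
    4 ≤ Nat.card ↥(LinearMap.range (((P : V →ₗ[ZMod 2] V) - LinearMap.id) ^ 2)) := by
  by_contra hlt
  push Not at hlt
  haveI := hS
  haveI : Finite (V ≃ₗ[ZMod 2] V) :=
    Finite.of_injective (fun f : V ≃ₗ[ZMod 2] V => (f : V → V)) (fun f g h => DFunLike.coe_injective h)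
  have hap : ∀ v, (((P : V →ₗ[ZMod 2] V) - LinearMap.id) ^ 2 : V →ₗ[ZMod 2] V) v = P (P v) + v := by
    intro v
    rw [pow_two]
    simp only [Module.End.mul_apply, LinearMap.sub_apply, LinearMap.id_apply, map_sub,
      LinearEquiv.coe_coe]
    have h2 := add_self (P v)
    calc P (P v) - P v - (P v - v) = P (P v) + v - (P v + P v) := by abel
      _ = _ := by rw [h2, sub_zero]
  set t : V ≃ₗ[ZMod 2] V := P * P with ht
  have htt : t * t = 1 := by
    have := pow_orderOf_eq_one P
    rw [hP4] at this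
    rw [ht, ← this]; simp only [pow_succ, pow_zero, one_mul, mul_assoc]
  have ht1 : t ≠ 1 := by
    intro h
    have : orderOf P ∣ 2 := orderOf_dvd_of_pow_eq_one (by rw [pow_two]; exact h)
    rw [hP4] at this; omega
  have htv : ∀ v, t (t v) = v := fun v => by
    have := congrArg (fun f : V ≃ₗ[ZMod 2] V => f v) htt
    exact this
  obtain ⟨w, hw⟩ : ∃ w, t w ≠ w := by
    by_contra hc
    push Not at hc
    exact ht1 (LinearEquiv.ext hc)
  have hmem : ∀ v, t v + v ∈ LinearMap.range (((P : V →ₗ[ZMod 2] V) - LinearMap.id) ^ 2) :=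
    fun v => ⟨v, hap v⟩
  have hne : ∀ a b : V, a + b = 0 → a = b := fun a b h => by
    have := add_self b
    calc a = a + (b + b) := by rw [this, add_zero]
      _ = b := by rw [← add_assoc, h, zero_add]
  have htr : Tr t (t w + w) := by
    refine ⟨by rw [map_add, htv, add_comm], fun v => ?_⟩
    by_contra hc
    push Not at hc
    obtain ⟨h1, h2⟩ := hc
    set R := LinearMap.range (((P : V →ₗ[ZMod 2] V) - LinearMap.id) ^ 2)
    have ha : t v + v ≠ 0 := fun h => h1 (hne _ _ h)
    have hb : t w + w ≠ 0 := fun h => hw (hne _ _ h)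
    have hab : t v + v ≠ t w + w := fun h => h2 (by
      rw [← h, add_comm (t v), ← add_assoc, add_self, zero_add])
    have hinj : Function.Injective (![⟨0, R.zero_mem⟩, ⟨_, hmem v⟩, ⟨_, hmem w⟩,
        ⟨_, R.add_mem (hmem v) (hmem w)⟩] : Fin 4 → R) := by
      have h5 : t v + v + (t w + w) ≠ 0 := fun h => hab (hne _ _ h)
      have h6 : t v + v + (t w + w) ≠ t v + v := fun h => hb (by simpa using h)
      have h7 : t v + v + (t w + w) ≠ t w + w := fun h => ha (by simpa using h)
      intro i j hij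
      have hij' := congrArg Subtype.val hij
      fin_cases i <;> fin_cases j <;> first | rfl | (exfalso; simp only [Fin.zero_eta, Fin.mk_one, Fin.reduceFinMk, Matrix.cons_val_zero, Matrix.cons_val_one, Matrix.cons_val] at hij'; first | exact ha hij' | exact ha hij'.symm | exact hb hij' | exact hb hij'.symm | exact hab hij' | exact hab hij'.symm | exact h5 hij' | exact h5 hij'.symm | exact h6 hij' | exact h6 hij'.symm | exact h7 hij' | exact h7 hij'.symm)
    have := Nat.card_le_card_of_injective _ hinj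
    simp at this
    omega
  generalize t w + w = u at htr
  -- odd normal subgroup
  have hF : fittingSubgroup S ≤ pPrimeCore 2 S := by
    have := H02.fitting_le_pCore_sup_pPrimeCore (G := S) Nat.prime_two
    rwa [hO2, bot_sup_eq] at this
  have hodd : ∀ x ∈ fittingSubgroup S, x ^ 4 = 1 → x = 1 := by
    intro x hx h4
    have h1 := H02.orderOf_coprime_of_mem_pPrimeCore (hF hx)
    have h2 : orderOf x ∣ 2 ^ 2 := orderOf_dvd_of_pow_eq_one h4
    rw [← orderOf_eq_one_iff]
    exact Nat.eq_one_of_dvd_coprimes (Nat.Coprime.pow_right 2 h1) dvd_rfl h2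
  set T : S := ⟨t, S.mul_mem hPS hPS⟩ with hT
  set Q : S := ⟨P, hPS⟩ with hQ
  have hTQ : T = Q * Q := rfl
  have hTT : T * T = 1 := Subtype.ext htt
  have hT1 : T ≠ 1 := fun h => ht1 (congrArg Subtype.val h)
  obtain ⟨k, hk, hkT⟩ : ∃ k ∈ fittingSubgroup S, k * T ≠ T * k := by
    by_contra hc
    push Not at hc
    have : T ∈ fittingSubgroup S := H02.centralizer_fitting_le S fun x hx => hc x hx
    apply hT1
    apply hodd T this
    rw [show (4 : ℕ) = 2 + 2 from rfl, pow_add, pow_two, hTT, one_mul]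
  have hN : (fittingSubgroup S).Normal := inferInstance
  -- the key lemma
  have key : ∀ g h : S, (g * T * g⁻¹) * (h * T * h⁻¹) ∈ fittingSubgroup S →
      g * T * g⁻¹ = h * T * h⁻¹ ∨
      ((g * T * g⁻¹ : S) : V ≃ₗ[ZMod 2] V) ((h : V ≃ₗ[ZMod 2] V) u) =
        (h : V ≃ₗ[ZMod 2] V) u + (g : V ≃ₗ[ZMod 2] V) u := by
    intro g h hm
    have h1 := tr_conj htr (g : V ≃ₗ[ZMod 2] V)
    have h2 := tr_conj htr (h : V ≃ₗ[ZMod 2] V)
    rcases h1.2 ((h : V ≃ₗ[ZMod 2] V) u) with h3 | h3
    · left
      have h4 := hodd _ hm (Subtype.ext (tr_four h1 h2 h3))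
      have h5 : (h * T * h⁻¹) * (h * T * h⁻¹) = 1 := by
        calc _ = h * (T * T) * h⁻¹ := by group
          _ = 1 := by rw [hTT]; group
      exact mul_right_cancel (h4.trans h5.symm)
    · right; exact h3
  have hTi : T⁻¹ = T := inv_eq_of_mul_eq_one_right hTT
  have hx : ∀ k ∈ fittingSubgroup S, T * (k * T * k⁻¹) ∈ fittingSubgroup S := by
    intro k hk
    have := (fittingSubgroup S).mul_mem (hN.conj_mem k hk T) ((fittingSubgroup S).inv_mem hk)
    rw [hTi] at this
    simpa only [mul_assoc] using this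
  have hinv : ∀ g : S, (g * T * g⁻¹)⁻¹ = g * T * g⁻¹ := fun g => by
    calc _ = g * T⁻¹ * g⁻¹ := by group
      _ = _ := by rw [hTi]
  set l : S := Q * k * Q⁻¹ with hl
  have hlF : l ∈ fittingSubgroup S := hN.conj_mem k hk Q
  have hQT : Q * T * Q⁻¹ = T := by rw [hTQ]; group
  have hls : l * T * l⁻¹ = Q * (k * T * k⁻¹) * Q⁻¹ := by
    have : Q⁻¹ * T * Q = T := by rw [hTQ]; group
    calc _ = Q * (k * (Q⁻¹ * T * Q) * k⁻¹) * Q⁻¹ := by rw [hl]; group
      _ = _ := by rw [this]
  have hk1 : k * T * k⁻¹ ≠ T := fun h => hkT (by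
    calc k * T = (k * T * k⁻¹) * k := by group
      _ = _ := by rw [h])
  have hl1 : l * T * l⁻¹ ≠ T := fun h => hk1 (by
    rw [hls] at h
    calc k * T * k⁻¹ = Q⁻¹ * (Q * (k * T * k⁻¹) * Q⁻¹) * Q := by group
      _ = Q⁻¹ * T * Q := by rw [h]
      _ = T := by rw [hTQ]; group)
  -- final contradiction from either alternative
  have fin : T * (k * T * k⁻¹) * T = k * T * k⁻¹ → False := by
    intro h
    apply hk1
    have h4 : (T * (k * T * k⁻¹)) ^ 4 = 1 := by
      have h2 : (T * (k * T * k⁻¹)) ^ 2 = 1 := by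
        rw [pow_two, ← mul_assoc, h, ← hinv k]
        nth_rewrite 2 [hinv k]
        exact inv_mul_cancel _
      rw [show (4 : ℕ) = 2 * 2 from rfl, pow_mul, h2, one_pow]
    have := hodd _ (hx k hk) h4
    calc k * T * k⁻¹ = T⁻¹ * (T * (k * T * k⁻¹)) := by group
      _ = T := by rw [this, hTi, mul_one]
  have hQQ : ∀ y : S, Q * (Q * y * Q⁻¹) * Q⁻¹ = T * y * T := fun y => by
    calc _ = (Q * Q) * y * (Q * Q)⁻¹ := by group
      _ = _ := by rw [← hTQ, hTi]
  have hmm : ∀ a b : S, T * a ∈ fittingSubgroup S → T * b ∈ fittingSubgroup S → a⁻¹ = a →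
      a * b ∈ fittingSubgroup S := by
    intro a b ha hb hai
    have := (fittingSubgroup S).mul_mem ((fittingSubgroup S).inv_mem ha) hb
    rwa [mul_inv_rev, hai, mul_assoc, inv_mul_cancel_left] at this
  by_cases e1 : l * T * l⁻¹ = k * T * k⁻¹
  · apply fin
    rw [← hQQ, ← hls, e1, ← hls, e1]
  have hxk := hx k hk
  have hxl := hx l hlF
  have h1 : T * (k * T * k⁻¹) ∈ fittingSubgroup S := hxk
  have hTk : T * ((T * k) * T * (T * k)⁻¹) ∈ fittingSubgroup S := by
    have := (fittingSubgroup S).inv_mem hxk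
    have e : T * ((T * k) * T * (T * k)⁻¹) = (T * (k * T * k⁻¹))⁻¹ := by
      rw [mul_inv_rev T (k * T * k⁻¹), hinv]
      calc _ = (T * T) * (k * T * k⁻¹) * T⁻¹ := by group
        _ = _ := by rw [hTT, one_mul]
    rwa [e]
  have e2 : l * T * l⁻¹ = (T * k) * T * (T * k)⁻¹ := by
    rcases key l (T * k) (hmm _ _ hxl hTk (hinv l)) with h | h
    · exact h
    exfalso
    have a1 := key 1 k (by simpa using hxk)
    have a2 := key l 1 (by
      have := (fittingSubgroup S).inv_mem hxl
      rw [mul_inv_rev, hinv, hTi] at this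
      simpa using this)
    have a3 := key l k (hmm _ _ hxl hxk (hinv l))
    rcases a1 with a1 | a1
    · exact hk1 (by simpa using a1.symm)
    rcases a2 with a2 | a2
    · exact hl1 (by simpa using a2)
    rcases a3 with a3 | a3
    · exact e1 a3
    have b1 : ((T * k : S) : V ≃ₗ[ZMod 2] V) u = (k : V ≃ₗ[ZMod 2] V) u + u := by
      simpa using a1
    have b2 : ((l * T * l⁻¹ : S) : V ≃ₗ[ZMod 2] V) u = u + (l : V ≃ₗ[ZMod 2] V) u := by
      simpa using a2
    rw [b1, map_add, a3, b2] at h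
    have b3 : (l : V ≃ₗ[ZMod 2] V) u = 0 := by
      have h2 := add_self ((l : V ≃ₗ[ZMod 2] V) u)
      have : (l : V ≃ₗ[ZMod 2] V) u = ((k : V ≃ₗ[ZMod 2] V) u + u + (l : V ≃ₗ[ZMod 2] V) u) -
        ((k : V ≃ₗ[ZMod 2] V) u + (l : V ≃ₗ[ZMod 2] V) u + (u + (l : V ≃ₗ[ZMod 2] V) u)) +
        ((l : V ≃ₗ[ZMod 2] V) u + (l : V ≃ₗ[ZMod 2] V) u) := by abel
      rw [this, h, sub_self, h2, add_zero]
    have b4 : u = 0 := by simpa using b3
    apply ht1
    ext v
    rcases htr.2 v with h | h
    · exact h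
    · rw [h, b4, add_zero]; rfl
  apply fin
  have e3 : Q * (k * T * k⁻¹) * Q⁻¹ = T * (k * T * k⁻¹) * T := by
    rw [← hls, e2]
    calc _ = T * (k * T * k⁻¹) * T⁻¹ := by group
      _ = _ := by rw [hTi]
  rw [← hQQ, e3]
  calc Q * (T * (k * T * k⁻¹) * T) * Q⁻¹
      = (Q * T * Q⁻¹) * (Q * (k * T * k⁻¹) * Q⁻¹) * (Q * T * Q⁻¹) := by group
    _ = T * (T * (k * T * k⁻¹) * T) * T := by rw [hQT, e3]
    _ = (T * T) * (k * T * k⁻¹) * (T * T) := by group
    _ = _ := by rw [hTT]; group

end Cfsg.Agent.S4410
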