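import Mathlib
import Cfsg.Statements.S4412
import Cfsg.Agent.H17.AutGen
import Cfsg.Agent.H04.Critical
import Cfsg.Agent.H04.Frattini
import Cfsg.Agent.H17.Thompson
import Cfsg.Agent.H04.Class2
import Cfsg.Agent.H26.SPE
import Cfsg.Agent.H04.MaxClass

set_option autoImplicit false
open Cfsg

namespace Cfsg.Agent.S4412

open Subgroup

theorem rank3 {P : Type*} [Group P] [Finite P] {p : ℕ} [hp : Fact p.Prime] (hc : IsMulCommutative P)
    {E : Subgroup P} (hE : ∀ x ∈ E, x ^ p = 1) (a b : P) (h : closure {a, b} = ⊤) : Nat.card E ≤ p ^ 2 := by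
  classical
  letI : CommGroup P := { (inferInstance : Group P) with mul_comm := hc.is_comm.comm }
  have h1 := H04.card_sup_closure_le (p := p) (powMonoidHom p : P →* P).range
    (((commutator_eq_bot_iff P).2 hc).le.trans bot_le) (fun x => ⟨x, rfl⟩) {a, b}
  rw [Finset.coe_insert, Finset.coe_singleton, h, sup_top_eq, card_top,
    ← card_mul_index (powMonoidHom p : P →* P).ker, index_ker] at h1
  have h2 := Nat.le_of_mul_le_mul_right h1 Nat.card_pos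
  exact (card_le_of_le (fun x hx => hE x hx)).trans (h2.trans (Nat.pow_le_pow_right hp.out.pos Finset.card_le_two))

/-- Let p be an odd prime, P a finite p-group and I an elementary abelian subgroup of order 8 of Aut(P). Call T ∈ I, T ≠ 1, broad when its fixed-point subgroup C_P(T) is not cyclic. Suppose I has a proper subgroup I₀ containing no broad element such that the product of any two broad elements lies in I₀. Then P is abelian of rank exactly 3 (generated by three elements but not by two), there are exactly three broad elements and they generate I, and I₀ is exactly the set of products of two broad elements. -/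
theorem result
    {P : Type*} [Group P] [Finite P] (p : ℕ) (hp : p.Prime) (hp2 : p ≠ 2) (hP : IsPGroup p P)
    (I : Subgroup (MulAut P)) (hI : Cfsg.IsElementaryAbelian 2 I) (hI8 : Nat.card ↥I = 8)
    (I₀ : Subgroup (MulAut P)) (hI₀ : I₀ < I)
    (hdisj : ∀ T ∈ I₀, T ≠ 1 → ∃ g : P, ∀ x : P, (T x = x ↔ x ∈ Subgroup.zpowers g))
    (hprod : ∀ T ∈ I, ∀ T' ∈ I, T ≠ 1 → T' ≠ 1 → (¬ ∃ g : P, ∀ x : P, (T x = x ↔ x ∈ Subgroup.zpowers g)) →
      (¬ ∃ g : P, ∀ x : P, (T' x = x ↔ x ∈ Subgroup.zpowers g)) → T * T' ∈ I₀) :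
    IsMulCommutative P ∧ (∃ a b c : P, Subgroup.closure {a, b, c} = ⊤) ∧ (¬ ∃ a b : P, Subgroup.closure {a, b} = ⊤) ∧
      Nat.card {T : MulAut P // T ∈ I ∧ T ≠ 1 ∧ ¬ ∃ g : P, ∀ x : P, (T x = x ↔ x ∈ Subgroup.zpowers g)} = 3 ∧
      Subgroup.closure {T : MulAut P | T ∈ I ∧ T ≠ 1 ∧ ¬ ∃ g : P, ∀ x : P, (T x = x ↔ x ∈ Subgroup.zpowers g)} = I ∧
      (I₀ : Set (MulAut P)) = {S : MulAut P | ∃ T T' : MulAut P, T ∈ I ∧ T' ∈ I ∧ T ≠ 1 ∧ T' ≠ 1 ∧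
        (¬ ∃ g : P, ∀ x : P, (T x = x ↔ x ∈ Subgroup.zpowers g)) ∧ (¬ ∃ g : P, ∀ x : P, (T' x = x ↔ x ∈ Subgroup.zpowers g)) ∧ S = T * T'} := by
  classical
  have := Fact.mk hp
  obtain ⟨B, hB⟩ : ∃ B : MulAut P → Prop, ∀ T, B T ↔ ¬ ∃ g : P, ∀ x : P, (T x = x ↔ x ∈ zpowers g) :=
    ⟨_, fun _ => Iff.rfl⟩
  simp only [← hB] at hprod ⊢
  have hsq : ∀ T ∈ I, T * T = 1 := fun T hT => by rw [← sq, hI.2 T hT]
  have hcm : ∀ T ∈ I, ∀ T' ∈ I, T * T' = T' * T := fun T hT T' hT' =>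
    congrArg Subtype.val (hI.1.is_comm.comm ⟨T, hT⟩ ⟨T', hT'⟩)
  obtain ⟨b, hb, hb0, hbB⟩ : ∃ b ∈ I, b ∉ I₀ ∧ ∀ T ∈ I, T ≠ 1 → B T → T * b ∈ I₀ := by
    by_cases h : ∃ b ∈ I, b ≠ 1 ∧ B b
    · obtain ⟨b, hb, h1, h2⟩ := h
      exact ⟨b, hb, fun e => (hB b).1 h2 (hdisj b e h1), fun T hT h3 h4 => hprod T hT b hb h3 h1 h4 h2⟩
    · obtain ⟨b, hb, h1⟩ := SetLike.exists_of_lt hI₀
      exact ⟨b, hb, h1, fun T hT h3 h4 => absurd ⟨T, hT, h3, h4⟩ h⟩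
  obtain ⟨M, hM1, hM2, hM3⟩ := H04.exists_index_eq_notMem (p := 2) (I₀.subgroupOf I)
    (((commutator_eq_bot_iff I).2 hI.1).le.trans bot_le)
    (fun x => by rw [show x ^ 2 = 1 from Subtype.ext (hI.2 x x.2)]; exact one_mem _) (x := ⟨b, hb⟩) hb0
  obtain ⟨J, hJ⟩ : ∃ J, J = M.map I.subtype := ⟨_, rfl⟩
  have hJI : J ≤ I := hJ ▸ map_subtype_le M
  have hJ0 : I₀ ≤ J := fun x hx => hJ ▸ ⟨⟨x, hI₀.le hx⟩, hM1 hx, rfl⟩
  have hJb : b ∉ J := fun h => hM2 (by rw [hJ] at h; exact (mem_map_iff_mem I.subtype_injective).1 h)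
  have hJ4 : Nat.card J = 4 := by
    have := card_mul_index M
    rw [hM3, hI8] at this
    rw [hJ, card_map_of_injective I.subtype_injective]
    omega
  have hJB : ∀ T ∈ J, T ≠ 1 → ∃ g : P, ∀ x : P, (T x = x ↔ x ∈ zpowers g) := fun T hT h1 => by
    by_contra h
    exact hJb ((mul_mem_cancel_left hT).1 (hJ0 (hbB T (hJI hT) h1 ((hB T).2 h))))
  obtain ⟨u, hu, hu1⟩ := (bot_or_exists_ne_one J).resolve_left fun e => by simp [e] at hJ4
  have huo : orderOf u = 2 := orderOf_eq_prime (hI.2 u (hJI hu)) hu1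
  obtain ⟨v, hv, hvu⟩ : ∃ v ∈ J, v ∉ zpowers u := by
    by_contra h
    push Not at h
    have := card_le_of_le (show J ≤ zpowers u from h)
    rw [Nat.card_zpowers, huo] at this
    omega
  have hv1 : v ≠ 1 := fun e => hvu (e ▸ one_mem _)
  have huv1 : u * v ≠ 1 := fun e => hvu (eq_inv_of_mul_eq_one_right e ▸ inv_mem (mem_zpowers u))
  have hJe : ∀ t ∈ J, t = 1 ∨ t = u ∨ t = v ∨ t = u * v := by
    intro t ht
    by_contra h
    push Not at h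
    have h1 : ({1, u, v, u * v, t} : Finset (MulAut P)).card ≤ Nat.card J := by
      rw [← Set.ncard_coe_finset]
      refine Set.ncard_le_ncard (t := (J : Set (MulAut P))) ?_
      simp only [Finset.coe_insert, Finset.coe_singleton, Set.insert_subset_iff, Set.singleton_subset_iff]
      exact ⟨one_mem J, hu, hv, mul_mem hu hv, ht⟩
    have h2 : u ≠ v := fun e => hvu (e ▸ mem_zpowers u)
    rw [Finset.card_insert_of_notMem (by simp [hu1.symm, hv1.symm, huv1.symm, h.1.symm]),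
      Finset.card_insert_of_notMem (by simp [h2, hv1, h.2.1.symm]),
      Finset.card_insert_of_notMem (by simp [hu1, h.2.2.1.symm]),
      Finset.card_insert_of_notMem (by simp [h.2.2.2.symm])] at h1
    simp at h1
    omega
  obtain ⟨g₁, hg₁⟩ := hJB u hu hu1
  obtain ⟨g₂, hg₂⟩ := hJB v hv hv1
  obtain ⟨g₃, hg₃⟩ := hJB _ (mul_mem hu hv) huv1
  have hJc := H04.isMulCommutative_of_le hI.1 hJI
  have hJn : ¬ IsCyclic J := H04.not_isCyclic_of_elemAb Nat.prime_two ⟨hJc, fun a ha => hI.2 a (hJI ha)⟩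
    (by omega)
  have hgen : ∀ K L : Subgroup P, (∀ a ∈ J, ∀ x ∈ K, a x ∈ K) → K ⊓ zpowers g₁ ≤ L → K ⊓ zpowers g₂ ≤ L →
      K ⊓ zpowers g₃ ≤ L → K ≤ L := fun K L hK h1 h2 h3 => by
    obtain ⟨k, hk⟩ := IsPGroup.iff_card.1 (hP.to_subgroup K)
    refine H17.aut_le_of_fix_le hJc hJn hK (by
      rw [hJ4, hk]
      exact (((Nat.coprime_primes Nat.prime_two hp).2 hp2.symm).pow_left 2).pow_right k)
      fun a ha ha1 x hx h => ?_
    rcases hJe a ha with rfl | rfl | rfl | rfl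
    exacts [absurd rfl ha1, h1 ⟨hx, (hg₁ x).1 h⟩, h2 ⟨hx, (hg₂ x).1 h⟩, h3 ⟨hx, (hg₃ x).1 h⟩]
  have htop : closure {g₁, g₂, g₃} = ⊤ := eq_top_iff.2 (hgen _ _ (fun _ _ _ _ => trivial)
    (inf_le_right.trans (zpowers_le.2 (subset_closure (by simp))))
    (inf_le_right.trans (zpowers_le.2 (subset_closure (by simp))))
    (inf_le_right.trans (zpowers_le.2 (subset_closure (by simp)))))
  have hext : ∀ T T' : MulAut P, T g₁ = T' g₁ → T g₂ = T' g₂ → T g₃ = T' g₃ → T = T' :=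
    fun T T' h1 h2 h3 => MulEquiv.toMonoidHom_injective (MonoidHom.eq_of_eqOn_dense htop (by
      rintro x (rfl | rfl | rfl) <;> assumption))
  have hsgn : ∀ t ∈ I, ∀ g : P, (∀ x : P, (t x = x ↔ x ∈ zpowers g)) → ∀ T ∈ I, T g = g ∨ T g = g⁻¹ :=
    fun t ht g hg T hT => by
      obtain ⟨n, hn⟩ := hP g
      refine H17.aut_eq_or_inv hp hp2 hn (hsq T hT) ((hg _).1 ?_)
      rw [← MulAut.mul_apply, hcm t ht T hT, MulAut.mul_apply, (hg g).2 (mem_zpowers g)]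
  have s₁ := hsgn u (hJI hu) g₁ hg₁
  have s₂ := hsgn v (hJI hv) g₂ hg₂
  have s₃ := hsgn _ (hJI (mul_mem hu hv)) g₃ hg₃
  have hpat : ∀ e : Bool × Bool × Bool, ∃ T ∈ I, (T g₁ = g₁ ↔ e.1) ∧ (T g₂ = g₂ ↔ e.2.1) ∧
      (T g₃ = g₃ ↔ e.2.2) := by
    have hf : Function.Bijective (fun T : I => (decide (T.1 g₁ = g₁), decide (T.1 g₂ = g₂), decide (T.1 g₃ = g₃))) := by
      refine (Nat.bijective_iff_injective_and_card _).2 ⟨fun T T' h => ?_, by simp [hI8]⟩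
      simp only [Prod.mk.injEq, decide_eq_decide] at h
      have key : ∀ g : P, (∀ T ∈ I, T g = g ∨ T g = g⁻¹) → (T.1 g = g ↔ T'.1 g = g) → T.1 g = T'.1 g :=
        fun g hs h => by
          by_cases e : T.1 g = g
          · rw [e, h.1 e]
          · rw [(hs _ T.2).resolve_left e, (hs _ T'.2).resolve_left fun e' => e (h.2 e')]
      exact Subtype.ext (hext _ _ (key _ s₁ h.1) (key _ s₂ h.2.1) (key _ s₃ h.2.2))
    intro e
    obtain ⟨T, rfl⟩ := hf.2 e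
    exact ⟨T, T.2, by simp⟩
  obtain ⟨T₁, hT₁, a₁, a₂, a₃⟩ := hpat (false, true, true)
  obtain ⟨T₂, hT₂, b₁, b₂, b₃⟩ := hpat (true, false, true)
  obtain ⟨T₃, hT₃, c₁, c₂, c₃⟩ := hpat (true, true, false)
  simp only [Bool.false_eq_true, iff_false, iff_true] at a₁ a₂ a₃ b₁ b₂ b₃ c₁ c₂ c₃
  have a₁' := (s₁ _ hT₁).resolve_left a₁
  have b₂' := (s₂ _ hT₂).resolve_left b₂
  have c₃' := (s₃ _ hT₃).resolve_left c₃
  have n₁ : g₁⁻¹ ≠ g₁ := a₁' ▸ a₁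
  have n₂ : g₂⁻¹ ≠ g₂ := b₂' ▸ b₂
  have n₃ : g₃⁻¹ ≠ g₃ := c₃' ▸ c₃
  have hfix : ∀ (T : MulAut P) (g x : P), T g = g → x ∈ zpowers g → T x = x := by
    rintro T g _ h ⟨k, rfl⟩; simp [h]
  have hinv : ∀ (T : MulAut P) (g x : P), T g = g⁻¹ → x ∈ zpowers g → T x = x⁻¹ := by
    rintro T g _ h ⟨k, rfl⟩; simp [h]
  have hall : ∀ T ∈ I, T = 1 ∨ T = T₁ ∨ T = T₂ ∨ T = T₃ ∨ T = T₁ * T₂ ∨ T = T₁ * T₃ ∨ T = T₂ * T₃ ∨
      T = T₁ * T₂ * T₃ := fun T hT => by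
    rcases s₁ T hT with h1 | h1 <;> rcases s₂ T hT with h2 | h2 <;> rcases s₃ T hT with h3 | h3
    · exact .inl (hext _ _ h1 h2 h3)
    · exact .inr <| .inr <| .inr <| .inl (hext _ _ (by simp [*]) (by simp [*]) (by simp [*]))
    · exact .inr <| .inr <| .inl (hext _ _ (by simp [*]) (by simp [*]) (by simp [*]))
    · exact .inr <| .inr <| .inr <| .inr <| .inr <| .inr <| .inl
        (hext _ _ (by simp [*]) (by simp [*]) (by simp [*]))
    · exact .inr <| .inl (hext _ _ (by simp [*]) (by simp [*]) (by simp [*]))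
    · exact .inr <| .inr <| .inr <| .inr <| .inr <| .inl (hext _ _ (by simp [*]) (by simp [*]) (by simp [*]))
    · exact .inr <| .inr <| .inr <| .inr <| .inl (hext _ _ (by simp [*]) (by simp [*]) (by simp [*]))
    · exact .inr <| .inr <| .inr <| .inr <| .inr <| .inr <| .inr
        (hext _ _ (by simp [*]) (by simp [*]) (by simp [*]))
  have hu' : u = T₂ * T₃ := hext _ _ (by simp [b₁, c₁, (hg₁ _).2 (mem_zpowers g₁)])
    (by rw [(s₂ u (hJI hu)).resolve_left fun e => b₂ (hfix _ _ _ b₁ ((hg₁ _).1 e))]; simp [b₂', c₂])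
    (by rw [(s₃ u (hJI hu)).resolve_left fun e => c₃ (hfix _ _ _ c₁ ((hg₁ _).1 e))]; simp [b₃, c₃'])
  have hv' : v = T₁ * T₃ := hext _ _
    (by rw [(s₁ v (hJI hv)).resolve_left fun e => a₁ (hfix _ _ _ a₂ ((hg₂ _).1 e))]; simp [a₁', c₁])
    (by simp [a₂, c₂, (hg₂ _).2 (mem_zpowers g₂)])
    (by rw [(s₃ v (hJI hv)).resolve_left fun e => c₃ (hfix _ _ _ c₂ ((hg₂ _).1 e))]; simp [a₃, c₃'])
  have huv' : u * v = T₁ * T₂ := by
    rw [hu', hv']; exact hext _ _ (by simp [*]) (by simp [*]) (by simp [*])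
  have hodd : ∀ x : P, x = x⁻¹ → x = 1 := fun x hx => by
    obtain ⟨n, hn⟩ := hP x
    exact H26.eq_one_of_coprime (by rw [sq, ← eq_inv_iff_mul_eq_one]; exact hx : x ^ 2 = 1)
      ((((Nat.coprime_primes hp Nat.prime_two).2 hp2).pow_left n).coprime_dvd_left
        (orderOf_dvd_of_pow_eq_one hn))
  have hT₀ : T₁ * T₂ * T₃ ∈ I := mul_mem (mul_mem hT₁ hT₂) hT₃
  have hfpf : ∀ x, (T₁ * T₂ * T₃) x = x → x = 1 := fun x hx => by
    have key : ∀ g : P, (T₁ * T₂ * T₃) g = g⁻¹ → H04.fixSub (T₁ * T₂ * T₃) ⊓ zpowers g ≤ ⊥ :=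
      fun g hg y hy => hodd y ((H04.mem_fixSub.1 hy.1).symm.trans (hinv _ g y hg hy.2))
    refine hgen (H04.fixSub (T₁ * T₂ * T₃)) ⊥ (fun a ha y hy => ?_) (key _ (by simp [*])) (key _ (by simp [*]))
      (key _ (by simp [*])) hx
    rw [H04.mem_fixSub] at hy ⊢
    rw [← MulAut.mul_apply, hcm _ hT₀ a (hJI ha), MulAut.mul_apply, hy]
  have hab : IsMulCommutative P := ⟨⟨fun x y => MonoidHom.FixedPointFree.commute_all_of_involutive
    (φ := T₁ * T₂ * T₃) hfpf (fun x => by rw [← MulAut.mul_apply, hsq _ hT₀, MulAut.one_apply]) x y⟩⟩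
  have hbr : ∀ T ∈ I, ∀ T' ∈ I, ∀ x y : P, T x = x → T y = y → T' x = x⁻¹ → T' y = y → x⁻¹ ≠ x → y⁻¹ ≠ y →
      B T := fun T hT T' hT' x y h1 h2 h3 h4 h5 h6 => (hB T).2 fun ⟨g, hg⟩ => by
    rcases hsgn T hT g hg T' hT' with h | h
    · exact h5 (h3.symm.trans (hfix _ _ _ h ((hg x).1 h1)))
    · exact h6 ((hinv _ _ _ h ((hg y).1 h2)).symm.trans h4)
  have B₁ := hbr _ hT₁ _ hT₂ _ _ a₂ a₃ b₂' b₃ n₂ n₃
  have B₂ := hbr _ hT₂ _ hT₁ _ _ b₁ b₃ a₁' a₃ n₁ n₃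
  have B₃ := hbr _ hT₃ _ hT₁ _ _ c₁ c₂ a₁' a₂ n₁ n₂
  have t₁ : T₁ ≠ 1 := fun e => a₁ (by simp [e])
  have t₂ : T₂ ≠ 1 := fun e => b₂ (by simp [e])
  have t₃ : T₃ ≠ 1 := fun e => c₃ (by simp [e])
  have hset : {T | T ∈ I ∧ T ≠ 1 ∧ B T} = {T₁, T₂, T₃} := by
    ext T
    refine ⟨fun ⟨h1, h2, h3⟩ => ?_, ?_⟩
    · rcases hall T h1 with h | h | h | h | h | h | h | h
      · exact absurd h h2
      · simp [h]
      · simp [h]
      · simp [h]
      · exact absurd ⟨g₃, by rw [h, ← huv']; exact hg₃⟩ ((hB T).1 h3)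
      · exact absurd ⟨g₂, by rw [h, ← hv']; exact hg₂⟩ ((hB T).1 h3)
      · exact absurd ⟨g₁, by rw [h, ← hu']; exact hg₁⟩ ((hB T).1 h3)
      · exact absurd ⟨1, fun x => ⟨fun e => by rw [hfpf x (h ▸ e)]; exact one_mem _,
          fun e => hfix _ _ _ (map_one T) e⟩⟩ ((hB T).1 h3)
    · rintro (rfl | rfl | rfl)
      exacts [⟨hT₁, t₁, B₁⟩, ⟨hT₂, t₂, B₂⟩, ⟨hT₃, t₃, B₃⟩]
  refine ⟨hab, ⟨g₁, g₂, g₃, htop⟩, fun ⟨a, c, h⟩ => ?_, ?_, ?_, ?_⟩
  · have key : ∀ g : P, g⁻¹ ≠ g → ∃ x ∈ zpowers g, orderOf x = p := fun g hg =>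
      H26.exists_mem_orderOf_eq (H26.dvd_card_of_isPGroup (hP.to_subgroup _)
        (fun e => hg (by rw [zpowers_eq_bot.1 e, inv_one])) le_rfl)
    obtain ⟨x₁, h₁, o₁⟩ := key g₁ n₁
    obtain ⟨x₂, h₂, o₂⟩ := key g₂ n₂
    obtain ⟨x₃, h₃, o₃⟩ := key g₃ n₃
    have hn : ∀ (K : Subgroup P) (x : P), x ∈ centralizer (K : Set P) := fun K x y _ => hab.is_comm.comm y x
    have hx : ∀ x : P, orderOf x = p → x ^ p = 1 ∧ x ≠ x⁻¹ := fun x o =>
      ⟨o ▸ pow_orderOf_eq_one x, fun e => by rw [hodd x e, orderOf_one] at o; exact hp.one_lt.ne o⟩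
    have h1 := rank3 hab (H04.IsElementaryAbelian.sup_zpowers (H04.IsElementaryAbelian.sup_zpowers
      (H17.elemAb_zpowers (hx _ o₁).1) (hx _ o₂).1 (hn _ _)) (hx _ o₃).1 (hn _ _)).2 a c h
    rw [H04.card_sup_zpowers (p := p) _ (centralizer_le_normalizer _ (hn _ _)) (fun e => (hx _ o₃).2
      ((H04.mem_fixSub.1 (sup_le (zpowers_le.2 (H04.mem_fixSub.2 (hfix _ _ _ c₁ h₁)))
        (zpowers_le.2 (H04.mem_fixSub.2 (hfix _ _ _ c₂ h₂))) e)).symm.trans (hinv _ _ _ c₃' h₃)))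
      ((hx _ o₃).1 ▸ one_mem _), H04.card_sup_zpowers (p := p) _ (centralizer_le_normalizer _ (hn _ _))
      (fun e => (hx _ o₂).2 ((hfix _ _ _ (hfix _ _ _ b₁ h₁) e).symm.trans (hinv _ _ _ b₂' h₂)))
      ((hx _ o₂).1 ▸ one_mem _), Nat.card_zpowers, o₁] at h1
    have := hp.one_lt
    nlinarith [mul_pos (by omega : 0 < p) (by omega : 0 < p)]
  · change Set.ncard {T | T ∈ I ∧ T ≠ 1 ∧ B T} = 3
    rw [hset]
    exact Set.ncard_eq_three.2 ⟨T₁, T₂, T₃, fun e => a₁ (e ▸ b₁), fun e => a₁ (e ▸ c₁), fun e => b₂ (e ▸ c₂), rfl⟩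
  · refine le_antisymm ((closure_le _).2 fun T hT => hT.1) fun T hT => ?_
    rw [hset]
    have m₁ : T₁ ∈ closure {T₁, T₂, T₃} := subset_closure (by simp)
    have m₂ : T₂ ∈ closure {T₁, T₂, T₃} := subset_closure (by simp)
    have m₃ : T₃ ∈ closure {T₁, T₂, T₃} := subset_closure (by simp)
    rcases hall T hT with h | h | h | h | h | h | h | h <;> rw [h]
    exacts [one_mem _, m₁, m₂, m₃, mul_mem m₁ m₂, mul_mem m₁ m₃, mul_mem m₂ m₃, mul_mem (mul_mem m₁ m₂) m₃]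
  · ext S
    refine ⟨fun hS => ?_, ?_⟩
    · rcases hJe S (hJ0 hS) with h | h | h | h
      · exact ⟨T₁, T₁, hT₁, hT₁, t₁, t₁, B₁, B₁, h.trans (hsq _ hT₁).symm⟩
      · exact ⟨T₂, T₃, hT₂, hT₃, t₂, t₃, B₂, B₃, h.trans hu'⟩
      · exact ⟨T₁, T₃, hT₁, hT₃, t₁, t₃, B₁, B₃, h.trans hv'⟩
      · exact ⟨T₁, T₂, hT₁, hT₂, t₁, t₂, B₁, B₂, h.trans huv'⟩
    · rintro ⟨T, T', h1, h2, h3, h4, h5, h6, rfl⟩
      exact hprod T h1 T' h2 h3 h4 h5 h6

end Cfsg.Agent.S4412
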