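import Mathlib
import Cfsg.Statements.S4413
import Cfsg.Agent.H03.XG2

set_option autoImplicit false
open Cfsg

namespace Cfsg.Agent.S4413

open Matrix H03 Equiv

/-- the Clifford cocycle -/
def B : Matrix (Fin 4) (Fin 4) (ZMod 2) := !![0, 0, 0, 0; 1, 0, 0, 0; 1, 1, 0, 0; 1, 1, 1, 0]

/-- the five singular vectors -/
def e : Fin 5 → Fin 4 → ZMod 2 := ![![1, 0, 0, 0], ![0, 1, 0, 0], ![0, 0, 1, 0], ![0, 0, 0, 1], ![1, 1, 1, 1]]

/-- permutation matrices -/
def M (σ : Perm (Fin 5)) : Matrix (Fin 4) (Fin 4) (ZMod 2) := of fun i j => e (σ j.castSucc) i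

theorem nd : ∀ v, (B + Bᵀ) *ᵥ v = 0 → v = 0 := by decide +kernel

theorem M_e : ∀ σ k, M σ *ᵥ e k = e (σ k) := by decide +kernel

theorem M_Q : ∀ σ v, (M σ *ᵥ v) ⬝ᵥ B *ᵥ (M σ *ᵥ v) = v ⬝ᵥ B *ᵥ v := by decide +kernel

theorem sing : ∀ v : Fin 4 → ZMod 2, v ⬝ᵥ B *ᵥ v = 0 ↔ v = 0 ∨ ∃ k, v = e k := by decide +kernel

theorem e_inj : Function.Injective e := by decide +kernel

theorem e_ne : ∀ k, e k ≠ 0 := by decide +kernel

theorem ext_e {X Y : Matrix (Fin 4) (Fin 4) (ZMod 2)} (h : ∀ k, X *ᵥ e k = Y *ᵥ e k) : X = Y := by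
  have a : ∀ j : Fin 4, e j.castSucc = Pi.single j 1 := by decide +kernel
  ext i j
  simpa [a] using congrFun (h j.castSucc) i

/-- the representation of the symmetric group -/
def ψ : Perm (Fin 5) →* GL (Fin 4) (ZMod 2) :=
  MonoidHom.toHomUnits
    { toFun := M
      map_one' := ext_e fun k => by rw [M_e]; simp
      map_mul' := fun σ τ => ext_e fun k => by rw [← mulVec_mulVec, M_e, M_e, M_e]; rfl }

theorem iso : Nonempty (isometryGroup (ZMod 2) (fun v => v ⬝ᵥ B *ᵥ v) ≃* Perm (Fin 5)) := by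
  have inj : Function.Injective ψ := fun σ τ h => Equiv.ext fun k => e_inj (by
    rw [← M_e, ← M_e]; exact congrArg (fun g : GL (Fin 4) (ZMod 2) => g.1 *ᵥ e k) h)
  have r : ψ.range = isometryGroup (ZMod 2) fun v => v ⬝ᵥ B *ᵥ v := by
    refine le_antisymm ?_ fun g hg => ?_
    · rintro _ ⟨σ, rfl⟩ v -
      exact M_Q σ v
    have gi : Function.Injective fun v => g.1 *ᵥ v := fun v w h => by
      simpa using congrArg (fun v => g⁻¹.1 *ᵥ v) h
    have a : ∀ k, ∃ k', g.1 *ᵥ e k = e k' := fun k =>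
      ((sing _).1 ((hg (e k) 0).trans ((sing _).2 (.inr ⟨k, rfl⟩)))).resolve_left fun h =>
        e_ne k (gi (h.trans (mulVec_zero _).symm))
    choose f hf using a
    have fi : Function.Injective f := fun k l h => e_inj (gi (by simp only [hf, h]))
    refine ⟨.ofBijective f (Finite.injective_iff_bijective.1 fi), Units.ext (ext_e fun k => ?_)⟩
    rw [hf]
    exact M_e _ k
  exact ⟨((MonoidHom.ofInjective inj).trans (MulEquiv.subgroupCongr r)).symm⟩

theorem sq : Nat.card {x : XG B // x ^ 2 = 1} + 2 ^ 2 = 2 ^ (2 * 2) := by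
  have : Nat.card {x : XG B // x ^ 2 = 1} = Nat.card {x : (Fin 4 → ZMod 2) × ZMod 2 // x.1 ⬝ᵥ B *ᵥ x.1 = 0} :=
    Nat.card_congr (XG.equivProd.subtypeEquiv fun x => by
      simp [XG.ext_iff, pow_two, z2_add, XG.equivProd])
  rw [this, Nat.card_eq_fintype_card]
  decide +kernel

/-- Let P be an extraspecial 2-group of order 32 with no elementary abelian subgroup of order 8 (the central product of a dihedral and a quaternion group of order 8). Then the inner automorphism group of P has order 16 and the outer automorphism group Aut(P)/Inn(P) is isomorphic to the symmetric group of degree 5; in particular Aut(P) has order 1920. -/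
theorem result {P : Type*} [Group P] [Finite P]
    (hex : Cfsg.IsExtraspecial 2 P) (h32 : Nat.card P = 32)
    (hminus : ∀ A : Subgroup P, Cfsg.IsElementaryAbelian 2 A → Nat.card ↥A ≤ 4)
    [(MulAut.conj : P →* MulAut P).range.Normal] :
    Nat.card ↥(MulAut.conj : P →* MulAut P).range = 16 ∧ Nat.card (MulAut P) = 1920 ∧
      Nonempty ((MulAut P ⧸ (MulAut.conj : P →* MulAut P).range) ≃* Equiv.Perm (Fin 5)) := by
  have h1 := (H04.card_sq_eq_one_of_isExtraspecial hex (n := 2) h32).resolve_left fun h => by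
    have := ((H04.pRankLE_iff_of_isExtraspecial hex (n := 2) h32 2).1 h).1 fun A a b => hminus A ⟨a, b⟩
    omega
  obtain ⟨φ⟩ := H04.nonempty_equiv_of_sqCount hex (XG.extraspecial nd) (by rw [h32, XG.card]; rfl)
    (Nat.add_right_cancel (h1.trans sq.symm))
  obtain ⟨a⟩ := outCongr φ
  obtain ⟨b⟩ := XG.out_equiv nd
  obtain ⟨c⟩ := iso
  have f : (MulAut P ⧸ (MulAut.conj : P →* MulAut P).range) ≃* Perm (Fin 5) := (a.trans b).trans c
  have h2 : Nat.card ↥(MulAut.conj : P →* MulAut P).range = 16 := by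
    have k := Subgroup.card_eq_card_quotient_mul_card_subgroup (MulAut.conj : P →* MulAut P).ker
    rw [Nat.card_congr (QuotientGroup.quotientKerEquivRange _).toEquiv, h32,
      show (MulAut.conj : P →* MulAut P).ker = Subgroup.center P by
        ext x; simp [Subgroup.mem_center_iff, MulEquiv.ext_iff, mul_inv_eq_iff_eq_mul, eq_comm (a := x * _)], hex.2] at k
    omega
  refine ⟨h2, ?_, ⟨f⟩⟩
  rw [Subgroup.card_eq_card_quotient_mul_card_subgroup (MulAut.conj : P →* MulAut P).range, h2,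
    Nat.card_congr f.toEquiv, Nat.card_perm, Nat.card_fin]
  rfl

end Cfsg.Agent.S4413
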