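import Mathlib
import Cfsg.Statements.S4414
import Cfsg.Agent.H22.Wt2

set_option autoImplicit false
open Cfsg

namespace Cfsg.Agent.S4414

/-- Let S be a finite solvable group whose order is divisible only by the primes 2, p, q (p, q distinct odd primes), with a Sylow system S₂, S_p, S_q (pairwise permutable Sylow subgroups) such that: S_p is a minimal normal subgroup of S of order p or p²; S_q has order q and [S_p, S_q] = S_p; and O₂(S) = 1. Let E be an irreducible module for S over the field with two elements on which S_p acts faithfully, and E₀ the subspace of fixed points of S₂. Then either E₀ has at least 8 elements, or E₀ has exactly 4 elements and S_q does not leave E₀ invariant. -/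
theorem result {S : Type*} [Group S] [Finite S]
    [Group.IsSolvable S] (p q : ℕ) (hp : p.Prime) (hq : q.Prime) (hp2 : p ≠ 2) (hq2 : q ≠ 2) (hpq : p ≠ q)
    (hπ : ∀ r : ℕ, r.Prime → r ∣ Nat.card S → r = 2 ∨ r = p ∨ r = q)
    (S₂ : Sylow 2 S) (Sp : Sylow p S) (Sq : Sylow q S)
    (h2q : Nat.card ↥((S₂ : Subgroup S) ⊔ (Sq : Subgroup S)) = Nat.card ↥S₂ * Nat.card ↥Sq)
    (h2p : Nat.card ↥((S₂ : Subgroup S) ⊔ (Sp : Subgroup S)) = Nat.card ↥S₂ * Nat.card ↥Sp)
    (hpq' : Nat.card ↥((Sp : Subgroup S) ⊔ (Sq : Subgroup S)) = Nat.card ↥Sp * Nat.card ↥Sq)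
    (hSpN : (Sp : Subgroup S).Normal) (hSpmin : ∀ N : Subgroup S, N.Normal → N ≤ (Sp : Subgroup S) → N = ⊥ ∨ N = (Sp : Subgroup S))
    (hSpcard : Nat.card ↥Sp = p ∨ Nat.card ↥Sp = p ^ 2)
    (hSq : Nat.card ↥Sq = q) (hcomm : ⁅(Sp : Subgroup S), (Sq : Subgroup S)⁆ = (Sp : Subgroup S))
    (hO2 : Cfsg.pCore 2 S = ⊥)
    {E : Type*} [AddCommGroup E] [Module (ZMod 2) E] [Finite E] (ρ : Representation (ZMod 2) S E) (hE : Nontrivial E)
    (hirr : ∀ N : Submodule (ZMod 2) E, (∀ s : S, ∀ m ∈ N, ρ s m ∈ N) → N = ⊥ ∨ N = ⊤)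
    (hfaith : ∀ x ∈ (Sp : Subgroup S), ρ x = 1 → x = 1) :
    8 ≤ Nat.card {v : E // ∀ s ∈ (S₂ : Subgroup S), ρ s v = v} ∨
      (Nat.card {v : E // ∀ s ∈ (S₂ : Subgroup S), ρ s v = v} = 4 ∧
        ∃ x ∈ (Sq : Subgroup S), ∃ v : E, (∀ s ∈ (S₂ : Subgroup S), ρ s v = v) ∧ ¬ ∀ s ∈ (S₂ : Subgroup S), ρ s (ρ x v) = ρ x v) := by
  classical
  have := Fact.mk hp
  replace hSpcard : Nat.card (Sp : Subgroup S) = p ∨ Nat.card (Sp : Subgroup S) = p ^ 2 := hSpcard
  replace hSq : Nat.card (Sq : Subgroup S) = q := hSq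
  have := Fintype.ofFinite (Sp : Subgroup S)
  let K := AlgebraicClosure (ZMod 2)
  have ab : ∀ a ∈ (Sp : Subgroup S), ∀ b ∈ (Sp : Subgroup S), a * b = b * a := fun a ha b hb => by
    have : IsMulCommutative (Sp : Subgroup S) := by
      rcases hSpcard with h | h
      · have := isCyclic_of_prime_card h
        infer_instance
      · exact IsPGroup.isMulCommutative_of_card_eq_prime_sq h
    exact congrArg Subtype.val (mul_comm' (⟨a, ha⟩ : (Sp : Subgroup S)) ⟨b, hb⟩)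
  have hA : (Fintype.card (Sp : Subgroup S) : K) ≠ 0 := by
    rw [Ne, CharP.cast_eq_zero_iff K 2, ← Nat.card_eq_fintype_card]
    intro h
    rcases hSpcard with e | e <;> rw [e] at h
    exacts [hp2 ((Nat.prime_dvd_prime_iff_eq Nat.prime_two hp).1 h).symm,
      hp2 ((Nat.prime_dvd_prime_iff_eq Nat.prime_two hp).1 (Nat.prime_two.dvd_of_dvd_pow h)).symm]
  have h0 : H22.Wt.fx ρ (Sp : Subgroup S) = ⊥ := by
    refine (hirr (H22.Wt.fx ρ (Sp : Subgroup S)) fun s m hm a ha => ?_).resolve_right fun e => ?_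
    · have := hm _ (hSpN.conj_mem a ha s⁻¹)
      rw [← Module.End.mul_apply, ← map_mul, show a * s = s * (s⁻¹ * a * s⁻¹⁻¹) by group, map_mul, Module.End.mul_apply, this]
    · have : (Sp : Subgroup S) = ⊥ := eq_bot_iff.2 fun x hx => hfaith x hx (LinearMap.ext fun v =>
        (e ▸ Submodule.mem_top : v ∈ H22.Wt.fx ρ (Sp : Subgroup S)) x hx)
      rw [this, Subgroup.card_bot] at hSpcard
      rcases hSpcard with h | h
      exacts [hp.one_lt.ne h, (Nat.one_lt_pow two_ne_zero hp.one_lt).ne h]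
  have h0' : H22.Wt.fx (H22.Wt.bc K ρ) (Sp : Subgroup S) = ⊥ := by rw [H22.Wt.fx_bc, h0, Submodule.baseChange_bot]
  have : Nontrivial (TensorProduct (ZMod 2) K E) := Module.nontrivial_of_finrank_pos (R := K) (by
    rw [Module.finrank_baseChange]; exact Module.finrank_pos)
  have hc : Nat.card {v : E // ∀ s ∈ (S₂ : Subgroup S), ρ s v = v} = 2 ^ Module.finrank (ZMod 2) (H22.Wt.fx ρ (S₂ : Subgroup S)) := by
    have := Module.natCard_eq_pow_finrank (K := ZMod 2) (V := H22.Wt.fx ρ (S₂ : Subgroup S))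
    rwa [Nat.card_zmod] at this
  have := Fact.mk hq
  obtain ⟨g, hg⟩ := (isCyclic_of_prime_card hSq).exists_generator
  have z : Subgroup.zpowers (g : S) = Sq := le_antisymm (Subgroup.zpowers_le.2 g.2) fun x hx => by
    obtain ⟨n, e⟩ := hg ⟨x, hx⟩
    exact ⟨n, congrArg Subtype.val e⟩
  have h2 := (H22.Wt.two_le (A := (Sp : Subgroup S)) (T := (S₂ : Subgroup S)) (r := 2) (ρ := H22.Wt.bc K ρ) S₂.2 hA ab h0' hq hq2 (g := g) (by rw [← Nat.card_zpowers, z, hSq]) (by rw [z, hcomm])).trans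
    (H22.Wt.finrank_bc K ρ _)
  rw [hc]
  rcases h2.eq_or_lt with h | h
  · refine .inr ⟨by rw [← h]; rfl, ?_⟩
    by_contra! k
    have := (H22.Wt.three_le (A := (Sp : Subgroup S)) (T := (S₂ : Subgroup S)) (r := 2) (ρ := H22.Wt.bc K ρ) S₂.2 hA ab h0' hq hq2 hq2 hSq hcomm fun g hg => H22.Wt.bc_inv K ρ (k g hg)).trans
      (H22.Wt.finrank_bc K ρ _)
    omega
  · exact .inl (Nat.pow_le_pow_right two_pos h)

end Cfsg.Agent.S4414
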