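import Mathlib
import Cfsg.Statements.S4415
import Cfsg.Agent.H04.TLc

set_option autoImplicit false
open Cfsg

namespace Cfsg.Agent.S4415

/-- Let S be a finite solvable group acting faithfully on a finite-dimensional space E over the field with three elements, with O₃(S) = 1. Let B ≤ S have order 3 and suppose: E = E₀ ⊕ E₁ with B fixing E₁ pointwise, E₀ B-invariant of order 27 and indecomposable under B (a generator of B has a single Jordan block on E₀); B normalizes but does not centralize some subgroup Q of S that is elementary abelian of order 4; and B is the centre of a Sylow 3-subgroup of S. Put R = [O_{3'}(S), B]. Then R is elementary abelian of order 4 or extraspecial of order 32 containing an elementary abelian subgroup of order 8 (a central product of two quaternion groups), and E is the direct sum of a subspace fixed pointwise by R and an RB-invariant subspace on which the subgroup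 RB acts faithfully and irreducibly. -/
theorem result {S : Type*} [Group S] [Finite S]
    [Group.IsSolvable S] {E : Type*} [AddCommGroup E] [Module (ZMod 3) E] [Finite E] (ρ : Representation (ZMod 3) S E)
    (hfaith : Function.Injective ρ) (hO3 : Cfsg.pCore 3 S = ⊥)
    (B : Subgroup S) (hB : Nat.card ↥B = 3) (b : S) (hb : Subgroup.zpowers b = B)
    (E₀ E₁ : Submodule (ZMod 3) E) (hE01 : E₀ ⊓ E₁ = ⊥) (hE01' : E₀ ⊔ E₁ = ⊤)
    (hE1 : ∀ v ∈ E₁, ρ b v = v) (hE0inv : ∀ v ∈ E₀, ρ b v ∈ E₀) (hE0 : Nat.card ↥E₀ = 27)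
    (hind : ∃ v ∈ E₀, ρ b (ρ b v - v) - (ρ b v - v) ≠ 0)
    (Q : Subgroup S) (hQ : Cfsg.IsElementaryAbelian 2 Q) (hQ4 : Nat.card ↥Q = 4)
    (hBQ : B ≤ Subgroup.normalizer (Q : Set S)) (hBQ' : ¬ B ≤ Subgroup.centralizer (Q : Set S))
    (P : Sylow 3 S) (hBZ : (Subgroup.center ↥(P : Subgroup S)).map (P : Subgroup S).subtype = B) :
    ((Cfsg.IsElementaryAbelian 2 ⁅Cfsg.pPrimeCore 3 S, B⁆ ∧ Nat.card ↥⁅Cfsg.pPrimeCore 3 S, B⁆ = 4) ∨
      (Cfsg.IsExtraspecial 2 ↥⁅Cfsg.pPrimeCore 3 S, B⁆ ∧ Nat.card ↥⁅Cfsg.pPrimeCore 3 S, B⁆ = 32 ∧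
        ∃ A : Subgroup S, A ≤ ⁅Cfsg.pPrimeCore 3 S, B⁆ ∧ Cfsg.IsElementaryAbelian 2 A ∧ Nat.card ↥A = 8)) ∧
    ∃ F₀ F₁ : Submodule (ZMod 3) E, F₀ ⊓ F₁ = ⊥ ∧ F₀ ⊔ F₁ = ⊤ ∧
      (∀ r ∈ ⁅Cfsg.pPrimeCore 3 S, B⁆, ∀ v ∈ F₁, ρ r v = v) ∧ (∀ r ∈ ⁅Cfsg.pPrimeCore 3 S, B⁆ ⊔ B, ∀ v ∈ F₀, ρ r v ∈ F₀) ∧
      (∀ r ∈ ⁅Cfsg.pPrimeCore 3 S, B⁆ ⊔ B, (∀ v ∈ F₀, ρ r v = v) → r = 1) ∧
      (∀ N : Submodule (ZMod 3) E, N ≤ F₀ → (∀ r ∈ ⁅Cfsg.pPrimeCore 3 S, B⁆ ⊔ B, ∀ v ∈ N, ρ r v ∈ N) → N = ⊥ ∨ N = F₀) := by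
  subst hb
  have hb3 : b ^ 3 = 1 := by rw [← hB, Nat.card_zpowers, pow_orderOf_eq_one]
  have h : H04.TL.Hyp ρ b := by
    refine ⟨hfaith, hb3, ?_⟩
    let f : E₀ →ₗ[ZMod 3] E := (ρ b - 1).comp E₀.subtype
    have h1 : LinearMap.range (ρ b - 1) = LinearMap.range f := by
      refine le_antisymm ?_ ?_
      · rintro _ ⟨v, rfl⟩
        obtain ⟨x, hx, y, hy, rfl⟩ := Submodule.mem_sup.mp (hE01'.ge (Submodule.mem_top (x := v)))
        exact ⟨⟨x, hx⟩, by simp [f, hE1 y hy]⟩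
      · rintro _ ⟨v, rfl⟩
        exact ⟨v, rfl⟩
    have h2 := Submodule.card_eq_card_quotient_mul_card (LinearMap.ker f)
    rw [Nat.card_congr f.quotKerEquivRange.toEquiv, hE0] at h2
    obtain ⟨v, hv, hne⟩ := hind
    have m1 := E₀.sub_mem (hE0inv v hv) hv
    have m2 := E₀.sub_mem (hE0inv _ m1) m1
    have h3 : Nontrivial (LinearMap.ker f) := by
      refine ⟨⟨⟨⟨_, m2⟩, ?_⟩, 0, fun h0 => hne (congrArg Subtype.val (congrArg Subtype.val h0))⟩⟩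
      have h4 : ρ b (ρ b (ρ b v)) = v := by
        rw [← H04.TL.mul_ap, ← H04.TL.mul_ap, ← pow_three', hb3, H04.TL.one_ap]
      simp only [f, LinearMap.mem_ker, LinearMap.comp_apply, Submodule.subtype_apply, LinearMap.sub_apply,
        Module.End.one_apply, map_sub, h4]
      have a := H04.TL.three (ρ b v)
      have c := H04.TL.three (ρ b (ρ b v))
      calc _ = (ρ b v + ρ b v + ρ b v) - (ρ b (ρ b v) + ρ b (ρ b v) + ρ b (ρ b v)) := by abel
        _ = 0 := by rw [a, c, sub_zero]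
    have h5 := Finite.one_lt_card (α := LinearMap.ker f)
    rw [h1]
    have h6 : Nat.card (LinearMap.range f) ∣ 3 ^ 3 := Dvd.intro_left _ h2.symm
    obtain ⟨i, hi, h7⟩ := (Nat.dvd_prime_pow Nat.prime_three).mp h6
    rw [h7] at h2 ⊢
    interval_cases i <;> omega
  have hP : ∀ x ∈ (P : Subgroup S), x * b = b * x := fun x hx => by
    obtain ⟨y, hy, rfl⟩ := hBZ.ge (Subgroup.mem_zpowers b)
    exact congrArg Subtype.val (Subgroup.mem_center_iff.mp hy ⟨x, hx⟩)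
  obtain ⟨w, hw, hwQ, hw1, hwR⟩ := H04.TL.exists_v4 hb3 hQ hBQ hBQ' P hP
  have hR := H04.TL.rh_comm hb3
  have h2 : IsPGroup 2 ↥⁅Cfsg.pPrimeCore 3 S, Subgroup.zpowers b⁆ := (H02.pCore_isPGroup 2 S).to_le
    (H04.TL.two_core h hw (fun u hu => by rw [← pow_two]; exact hQ.2 u hu) hwQ hw1)
  generalize ⁅Cfsg.pPrimeCore 3 S, Subgroup.zpowers b⁆ = R at hwR hR h2 ⊢
  have hinv : R ⊔ Subgroup.zpowers b ≤ (H04.TL.trivQ ρ (H04.TL.F0 ρ R)) := by
    obtain ⟨e, f⟩ := hw.frame h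
    exact sup_le (fun r hr => H04.TL.mem_F0 hr)
      (Subgroup.zpowers_le.mpr (f.D_le (fun v => hR.F0_b) (f.mem0 hR hwR)))
  refine ⟨(hR.cases h h2 hw hwR).imp id fun hc => ?_, H04.TL.F0 ρ R, H04.TL.F1 ρ R,
    eq_bot_iff.mpr fun v hv => H04.TL.F_disj hR.cop hv.1 hv.2, eq_top_iff.mpr fun v _ => ?_,
    fun r hr v hv => hv r hr, fun r hr v hv => ?_, fun r hr hv => ?_, fun N hN hN' => ?_⟩
  · obtain ⟨z, c⟩ := hc
    obtain ⟨w', a1, a2, a3⟩ := c.existsW hR h h2 hw hwR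
    exact c.final hR h a1 a2 a3
  · obtain ⟨x, hx, u, hu, rfl⟩ := H04.TL.F_dec (ρ := ρ) hR.cop v
    exact Submodule.add_mem_sup hx hu
  · have := (H04.TL.F0 ρ R).add_mem (hinv hr v) hv
    rwa [sub_add_cancel] at this
  · have hn : Subgroup.zpowers b ≤ Subgroup.normalizer (R : Set S) :=
      Subgroup.zpowers_le.mpr (Subgroup.mem_normalizer_fintype fun x hx => hR.nb x hx)
    have h3 : r ∈ ((R ⊔ Subgroup.zpowers b : Subgroup S) : Set S) := hr
    rw [Subgroup.coe_mul_of_right_le_normalizer_left R _ hn] at h3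
    obtain ⟨x, hx, β, hβ, rfl⟩ := h3
    exact hR.faith h hw hwR hx hβ hv
  · exact hR.irr h hw hwR hN (fun r hr => hN' r (Subgroup.mem_sup_left hr))
      (hN' b (Subgroup.mem_sup_right (Subgroup.mem_zpowers b)))

end Cfsg.Agent.S4415
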