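import Cfsg.Statements.S4420
import Mathlib
import Cfsg.Agent.H02.Basic
-- import your own Cfsg.Agent.* helpers here

set_option autoImplicit false
open Cfsg

namespace Cfsg.Agent.S4420

open scoped Pointwise commutatorElement

/-- Structure of groups in which every element outside some proper subgroup has square 1. Let H be a finite group with a proper subgroup A such that every element outside A has square 1. Then H has an abelian normal subgroup B of index 2 such that every element outside B is an involution inverting every element of B; and if H is not an elementary abelian 2-group, B is the only abelian normal subgroup of index 2 with this property. -/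
theorem result {H : Type*} [Group H] [Finite H] (A : Subgroup H) (hA : A ≠ ⊤) (hD : ∀ x : H, x ∉ A → x ^ 2 = 1) :
    ∃ B : Subgroup H, B.Normal ∧ IsMulCommutative ↥B ∧ B.index = 2 ∧
      (∀ x : H, x ∉ B → x ^ 2 = 1 ∧ ∀ b ∈ B, x * b * x⁻¹ = b⁻¹) ∧
      (¬ (IsMulCommutative H ∧ ∀ x : H, x ^ 2 = 1) →
        ∀ B' : Subgroup H, B'.Normal → IsMulCommutative ↥B' → B'.index = 2 →
          (∀ x : H, x ∉ B' → x ^ 2 = 1 ∧ ∀ b ∈ B', x * b * x⁻¹ = b⁻¹) → B' = B) := by
  obtain ⟨M, hM, hAM⟩ := H02.exists_coatom_ge hA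
  have hD' : ∀ x, x ∉ M → x ^ 2 = 1 := fun x hx => hD x fun h => hx (hAM h)
  have hinv : ∀ x, x ∉ M → ∀ b ∈ M, x * b * x⁻¹ = b⁻¹ := by
    intro x hx b hb
    have h1 := hD' (x * b) fun h => hx (by simpa using M.mul_mem h (M.inv_mem hb))
    have h2 := hD' x hx
    rw [pow_two] at h1 h2
    rw [← eq_inv_of_mul_eq_one_left h2]
    apply eq_inv_of_mul_eq_one_left
    rw [← h1]; group
  obtain ⟨x, -, hx⟩ := SetLike.exists_of_lt hM.lt_top
  haveI hn : M.Normal := ⟨fun b hb g => by
    by_cases hg : g ∈ M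
    · exact M.mul_mem (M.mul_mem hg hb) (M.inv_mem hg)
    · rw [hinv g hg b hb]; exact M.inv_mem hb⟩
  have hc : IsMulCommutative M := ⟨⟨fun a b => Subtype.ext (by
    have h1 := hinv x hx _ (M.mul_mem a.2 b.2)
    rw [← conj_mul, hinv x hx a a.2, hinv x hx b b.2, ← mul_inv_rev, inv_inj] at h1
    exact h1.symm)⟩⟩
  have hi : M.index = 2 := by
    rw [Subgroup.index_eq_two_iff]
    refine ⟨x, fun b => ?_⟩
    by_cases hb : b ∈ M
    · exact Or.inr ⟨hb, fun h => hx (by simpa using M.mul_mem (M.inv_mem hb) h)⟩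
    · refine Or.inl ⟨?_, hb⟩
      have h1 : M ⊔ Subgroup.zpowers x = ⊤ := hM.2 _ (left_lt_sup.2 fun h => hx (h (Subgroup.mem_zpowers x)))
      have h2 : b ∈ M ⊔ Subgroup.zpowers x := h1 ▸ Subgroup.mem_top b
      rw [← SetLike.mem_coe, Subgroup.normal_mul] at h2
      obtain ⟨m, hm, _, ⟨k, rfl⟩, rfl⟩ := h2
      have h3 : x ^ (2 : ℤ) = 1 := by exact_mod_cast hD' x hx
      obtain ⟨j, rfl | rfl⟩ := Int.even_or_odd' k
      · exact absurd (by simpa [zpow_mul, h3] using hm) hb
      · have : m * x ^ (2 * j + 1) * x = m * x ^ (2 * (j + 1)) := by group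
        simp only
        rw [this, zpow_mul, h3]; simpa using hm
  refine ⟨M, hn, hc, hi, fun y hy => ⟨hD' y hy, hinv y hy⟩, fun hne B _ hBc hBi hB => ?_⟩
  by_contra h
  apply hne
  have h1 : ¬ B ≤ M := fun hle => h (Subgroup.eq_of_le_of_card_ge hle (le_of_eq (by
    apply Nat.eq_of_mul_eq_mul_right two_pos
    nth_rewrite 1 [← hi]
    rw [← hBi, Subgroup.card_mul_index, Subgroup.card_mul_index])))
  obtain ⟨y, hy, hyM⟩ := SetLike.not_le_iff_exists.1 h1
  have h2 : ∀ z : H, z ^ 2 = 1 := by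
    intro z
    by_cases a1 : z ∈ M
    · by_cases a2 : z ∈ B
      · have a3 := hinv y hyM z a1
        have a4 : y * z = z * y := congrArg Subtype.val (hBc.is_comm.comm (⟨y, hy⟩ : B) ⟨z, a2⟩)
        rw [a4, mul_inv_cancel_right] at a3
        rw [pow_two]; nth_rewrite 1 [a3]; exact inv_mul_cancel z
      · exact (hB z a2).1
    · exact hD' z a1
  exact ⟨⟨⟨fun a b => (Commute.of_orderOf_dvd_two (fun z => orderOf_dvd_of_pow_eq_one (h2 z)) a b)⟩⟩, h2⟩

end Cfsg.Agent.S4420
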