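import Mathlib
import Cfsg.Agent.H20.PowFix
import Cfsg.Agent.S0205
-- Template for statement S4520 (row 4520; see /opt/grader/pristine/manifest.json for weights).
-- Copy to Cfsg/Agent/S4520.lean and replace the sorry. The statement below is byte-identical to the frozen
-- statement Cfsg.CfsgFrozen.S4520 (Cfsg/Statements/S4520.lean; the theorem Cfsg.blk4_galois_fixed_character_over_fixed_principal_block_iff_odd_index);
-- the grader kernel-checks Cfsg.Agent.S4520.result against that frozen type. Keep the theorem IN THIS FILE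
-- (a `result` declared elsewhere and merely imported here is not credited); helpers may live anywhere
-- under Cfsg/Agent/.
import Cfsg.Statements.S4520
-- import your own Cfsg.Agent.* helpers here

set_option autoImplicit false
open Cfsg

open H20 H05 H21 MonoidAlgebra Cfsg

namespace Cfsg.Agent.S4520

/-- Let N be a normal subgroup of odd index in the finite group G, M a maximal ideal of the algebraic integers containing 2, and k coprime to the order of G with k ^ (2 ^ e) ≡ 1 modulo the order of G for some e and g ^ k = g⁻¹ for every element g of odd order. Let θ be an irreducible character of N and χ an irreducible character of G over θ, both unchanged by composing with g ↦ g ^ k. Then χ lies in the principal 2-block of G if and only if θ lies in the principal 2-block of N. -/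
theorem result {G : Type*} [Group G] [Fintype G] (M : Ideal Cfsg.AlgInt) (hM : Cfsg.IsPModular 2 M) (N : Subgroup G) [N.Normal] [Fintype N] (hidx : Odd N.index) (k e : ℕ) (hk : Nat.Coprime k (Nat.card G)) (hke : k ^ (2 ^ e) ≡ 1 [MOD Nat.card G]) (hk₂ : ∀ g : G, Odd (orderOf g) → g ^ k = g⁻¹) (θ : Cfsg.IrrCharacter N) (hθ : ∀ n : N, (θ : N → ℂ) (n ^ k) = (θ : N → ℂ) n) (χ : Cfsg.IrrCharacter G) (hχ : ∀ g : G, (χ : G → ℂ) (g ^ k) = (χ : G → ℂ) g) (hover : Cfsg.classInner (fun n : N => (χ : G → ℂ) n) (θ : N → ℂ) ≠ 0) : χ ∈ Cfsg.principalBlock M G ↔ θ ∈ Cfsg.principalBlock M N := by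
  have := hM.2.1
  have : Fact (Nat.Prime 2) := ⟨Nat.prime_two⟩
  refine ⟨fun h => mem_principal_of_over h (over_iff.2 hover), fun h0 => ?_⟩
  obtain ⟨σ, h⟩ := PowG.exists_of_coprime hk
  obtain ⟨P, hP⟩ := exists_sylIn 2 N
  have := hP.normal_sup_centralizer
  have hdc := dc_sup hP
  have hC : Subgroup.centralizer (P : Set G) ≤ N ⊔ Subgroup.centralizer (P : Set G) := le_sup_right
  have hNL : N ≤ N ⊔ Subgroup.centralizer (P : Set G) := le_sup_left
  generalize N ⊔ Subgroup.centralizer (P : Set G) = L at *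
  have h3 : Odd (N.relIndex L) ∧ Odd L.index := Nat.odd_mul.1 (Subgroup.relIndex_mul_index hNL ▸ hidx)
  let e := Subgroup.subgroupOfEquivOfLe hNL
  have h4 : galIrr σ (irrComap e θ) = irrComap e θ :=
    galIrr_eq_iff.2 fun g => galIrr_eq_iff.1 ((h.sub N).fix_iff.2 hθ) _
  obtain ⟨η, h5, h6, h7⟩ := hdc.alperin_dade hM (Nat.two_dvd_ne_zero.2 (Nat.odd_iff.1 h3.1))
    (θ := irrComap e θ) (by rw [← bmap_principal e]; exact irrComap_mem_bmap.2 h0)
  obtain ⟨ξ, -, h8⟩ := PowG.exists_uFix (fun H _ _ => S0205.result) hke (h.sub L)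
    (fun g hg => Subtype.ext (hk₂ g (by rwa [Subgroup.orderOf_coe]))) h3.1 h4
  obtain ⟨ψ, h9, h10⟩ := (over_iff.2 hover).exists_between hNL χ.2.isClassFunction
  obtain rfl : ψ = η := (h8 ψ h10 (h.fix_of_over Nat.prime_two (Nat.two_dvd_ne_zero.2 (Nat.odd_iff.1 h3.2))
    hke (h.fix_iff.2 hχ) h9)).trans (h8 η (over_of_res h6) (h7 _ ((galIrr_mem_principal hM σ).2 h5)
      (h4 ▸ (over_gal_iff σ).2 (over_of_res h6)))).symm
  have h11 : SylIn 2 P L := sylIn_of_not_dvd hP.isPGroup (hP.le.trans hNL) (by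
    rw [← Subgroup.relIndex_mul_relIndex P N L hP.le hNL]
    exact Nat.prime_two.not_dvd_mul hP.not_dvd_relIndex (Nat.two_dvd_ne_zero.2 (Nat.odd_iff.1 h3.1)))
  rw [← Covers.eq_principal_of_centralizer_le hM h11 hC (H20.isPBlock_blockOf χ)
    ⟨χ, H20.mem_blockOf_self χ, ψ, h5, h9⟩]
  exact H20.mem_blockOf_self χ

end Cfsg.Agent.S4520
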