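import Mathlib
import Cfsg.Agent.H20.PowFix
-- Template for statement S4521 (row 4521; see /opt/grader/pristine/manifest.json for weights).
-- Copy to Cfsg/Agent/S4521.lean and replace the sorry. The statement below is byte-identical to the frozen
-- statement Cfsg.CfsgFrozen.S4521 (Cfsg/Statements/S4521.lean; the theorem Cfsg.blk4_principal_block_of_central_product_over_p_group);
-- the grader kernel-checks Cfsg.Agent.S4521.result against that frozen type. Keep the theorem IN THIS FILE
-- (a `result` declared elsewhere and merely imported here is not credited); helpers may live anywhere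
-- under Cfsg/Agent/.
import Cfsg.Statements.S4521
-- import your own Cfsg.Agent.* helpers here

set_option autoImplicit false
open Cfsg

open H20 H05 H21 MonoidAlgebra Cfsg

namespace Cfsg.Agent.S4521

theorem reg_mul {G : Type*} [Group G] {p : ℕ} (hp : p.Prime) {x y : G} (h : Commute x y)
    (hx : ¬ p ∣ orderOf x) (hy : ¬ p ∣ orderOf y) : ¬ p ∣ orderOf (x * y) := fun h1 =>
  hp.not_dvd_mul hx hy (h1.trans h.orderOf_mul_dvd_mul_orderOf)

theorem inc_zReg {G : Type*} [Group G] [Finite G] (p : ℕ) (U : Subgroup G) :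
    inc U (zReg p fun _ => (1 : ℂ)) = setSum ℂ {g | g ∈ U ∧ ¬ p ∣ orderOf g} := ext_coeff fun g => by
  by_cases h : g ∈ U
  · rw [coeff_inc_of_mem _ _ h, coeff_zReg, coeff_setSum, Subgroup.orderOf_mk]
    simp [h]
  · rw [coeff_inc_of_notMem _ _ h, coeff_setSum_of_notMem fun h' => h h'.1]

/-- Let the finite group G be generated by subgroups U₁ and U₂ that commute elementwise and whose intersection is a p-group, and let M be a maximal ideal of the algebraic integers containing the prime p. If the irreducible character χ of G has the irreducible constituents ψ₁ on U₁ and ψ₂ on U₂, then χ lies in the principal block of G if and only if ψ₁ and ψ₂ lie in the principal blocks of U₁ and U₂. -/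
theorem result {G : Type*} [Group G] [Fintype G] (p : ℕ) [Fact p.Prime] (M : Ideal Cfsg.AlgInt) (hM : Cfsg.IsPModular p M) (U₁ U₂ : Subgroup G) [Fintype U₁] [Fintype U₂] (hcomm : ∀ u ∈ U₁, ∀ v ∈ U₂, u * v = v * u) (hgen : U₁ ⊔ U₂ = ⊤) (hZ : IsPGroup p ↥(U₁ ⊓ U₂)) (χ : Cfsg.IrrCharacter G) (ψ₁ : Cfsg.IrrCharacter U₁) (ψ₂ : Cfsg.IrrCharacter U₂) (h₁ : Cfsg.classInner (fun u : U₁ => (χ : G → ℂ) u) (ψ₁ : U₁ → ℂ) ≠ 0) (h₂ : Cfsg.classInner (fun u : U₂ => (χ : G → ℂ) u) (ψ₂ : U₂ → ℂ) ≠ 0) : χ ∈ Cfsg.principalBlock M G ↔ (ψ₁ ∈ Cfsg.principalBlock M U₁ ∧ ψ₂ ∈ Cfsg.principalBlock M U₂) := by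
  classical
  have := hM.2.1
  have hm : ∀ g : G, ∃ u ∈ U₁, ∃ v ∈ U₂, u * v = g := fun g => by
    have : g ∈ ((U₁ ⊔ U₂ : Subgroup G) : Set G) := hgen ▸ Subgroup.mem_top g
    rwa [Subgroup.coe_mul_of_left_le_normalizer_right _ _ fun u hu =>
      Subgroup.centralizer_le_normalizer _ fun v hv => (hcomm u hu v hv).symm] at this
  have hn : ∀ {U V : Subgroup G}, (∀ u ∈ U, ∀ v ∈ V, u * v = v * u) → (∀ g : G, ∃ u ∈ U, ∃ v ∈ V, u * v = g) →
      U.Normal := fun {U V} h1 h2 => ⟨fun x hx g => by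
    obtain ⟨u, hu, v, hv, rfl⟩ := h2 g
    rw [mul_inv_rev, mul_assoc u, ← h1 x hx v hv, ← mul_assoc, ← mul_assoc, mul_assoc _ v, mul_inv_cancel,
      mul_one]
    exact mul_mem (mul_mem hu hx) (inv_mem hu)⟩
  have n1 := hn hcomm hm
  have n2 := hn (fun v hv u hu => (hcomm u hu v hv).symm) fun g => by
    obtain ⟨u, hu, v, hv, rfl⟩ := hm g
    exact ⟨v, hv, u, hu, (hcomm u hu v hv).symm⟩
  refine ⟨fun h => ⟨mem_principal_of_over h (over_iff.2 h₁), mem_principal_of_over h (over_iff.2 h₂)⟩,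
    fun h => ?_⟩
  have hc : ∀ (U : Subgroup G) [U.Normal], IsCen (inc U (zReg p fun _ => (1 : ℂ))) := fun U hU => by
    rw [inc_zReg]
    exact isCen_setSum fun u g hg => ⟨hU.conj_mem g hg.1 u, by
      rw [← (SemiconjBy.orderOf_eq u (by simp [SemiconjBy]) : orderOf g = _)]; exact hg.2⟩
  have h3 : inc U₁ (zReg p fun _ => (1 : ℂ)) * inc U₂ (zReg p fun _ => (1 : ℂ)) = zReg p fun _ => (1 : ℂ) :=
    ext_coeff fun g => by
      rw [inc_zReg, inc_zReg, coeff_mul_left, coeff_zReg]
      split_ifs with hg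
      · refine Finset.sum_eq_zero fun x _ => ?_
        simp only [coeff_setSum, Set.mem_ofPred_eq, ite_mul, one_mul, zero_mul, ite_eq_right_iff, one_ne_zero]
        exact fun h1 h2 => reg_mul hM.1 (hcomm _ h1.1 _ h2.1) h1.2 h2.2 (by simpa using hg)
      · obtain ⟨u, hu, v, hv, rfl⟩ := hm g
        have c1 : Commute u v := hcomm u hu v hv
        have c2 := commute_pReg (p := p) (commute_pReg (p := p) c1).symm
        have c3 := commute_pPart (p := p) (commute_pPart (p := p) c1).symm
        have c4 := commute_pPart (p := p) (commute_pReg (p := p) c1.symm).symm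
        have h4 : u * v = pReg p u * pReg p v := by
          obtain ⟨a, ha⟩ := orderOf_pPart p u
          obtain ⟨b, hb⟩ := orderOf_pPart p v
          obtain ⟨c, -, hc⟩ := (Nat.dvd_prime_pow hM.1).1
            (by simpa [ha, hb, ← pow_add] using c3.symm.orderOf_mul_dvd_mul_orderOf)
          rw [← pReg_eq_self_iff.2 hg, ← pReg_mul_of_commute ⟨c, hc⟩
            (reg_mul hM.1 c2.symm (not_dvd_orderOf_pReg p u) (not_dvd_orderOf_pReg p v))
            (((commute_pPart_pReg p u).mul_right (commute_pPart p (commute_pReg p c1).symm).symm).mul_left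
              (c4.symm.mul_right (commute_pPart_pReg p v)))]
          congr 1
          rw [mul_assoc, ← mul_assoc (pPart p v), ← c4.eq, mul_assoc, pPart_mul_pReg, ← mul_assoc,
            pPart_mul_pReg]
        rw [Finset.sum_eq_single (pReg p u), h4, inv_mul_cancel_left,
          coeff_setSum_of_mem (by exact ⟨pReg_mem p hu, not_dvd_orderOf_pReg p u⟩),
          coeff_setSum_of_mem (by exact ⟨pReg_mem p hv, not_dvd_orderOf_pReg p v⟩), one_mul]
        · intro x _ hx
          simp only [coeff_setSum, Set.mem_ofPred_eq, ite_mul, one_mul, zero_mul, ite_eq_right_iff, one_ne_zero]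
          intro h5 h6
          have h7 : x⁻¹ * pReg p u ∈ U₂ := by
            simpa [h4, mul_assoc] using mul_mem h6.1 (inv_mem (pReg_mem (p := p) hv))
          obtain ⟨k, hk⟩ := IsPGroup.iff_orderOf.1 hZ 
            ⟨_, Subgroup.mem_inf.2 ⟨mul_mem (inv_mem h5.1) (pReg_mem p hu), h7⟩⟩
          have h8 := pPart_mul_of_commute ⟨k, by rw [← hk, Subgroup.orderOf_mk]⟩ h5.2
            (show Commute (x⁻¹ * pReg p u) x from (hcomm _ h5.1 _ h7).symm)
          rw [← hcomm _ h5.1 _ h7, mul_inv_cancel_left, pPart_pReg] at h8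
          exact hx (inv_mul_eq_one.1 h8.symm)
        · simp
  have h4 : ∀ {K : Type _} [Group K] [Finite K] (ξ : IrrCharacter K), ξ ∈ principalBlock M K ↔
      omega (ξ : K → ℂ) (zReg p fun _ => (1 : ℂ)) ≠ 0 := fun ξ => by
    rw [mem_principal_iff_ev hM, omega, div_ne_zero_iff, and_iff_left ξ.2.apply_one_ne_zero]
  have z1 : ∀ {K : Type _} [Group K] [Finite K], IsCen (zReg p fun _ : K => (1 : ℂ)) :=
    isCen_zReg fun _ _ => rfl
  rw [h4, ← h3, omega_mul χ.2 (hc _), omega_inc_of_over χ.2 (over_iff.2 h₁) z1 (hc _),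
    omega_inc_of_over χ.2 (over_iff.2 h₂) z1 (hc _)]
  exact mul_ne_zero ((h4 _).1 h.1) ((h4 _).1 h.2)

end Cfsg.Agent.S4521
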