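import Mathlib
import Cfsg.Statements.S4528
import Cfsg.Agent.H21.Tame5

set_option autoImplicit false
open Cfsg

namespace Cfsg.Agent.S4528
open H05 Cfsg H20 H21

/-- Let B be a 2-block of the finite group G (relative to a maximal ideal M of the algebraic integers containing 2) whose defect group D is dihedral of order 2 ^ n with n ≥ 3. Then B contains exactly 2 ^ (n - 2) + 3 irreducible characters, its 2-regular rank (the number of irreducible Brauer characters) is between 1 and 3, exactly four of its members have height zero, and every member has height at most one. -/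
theorem result {G : Type*} [Group G] [Finite G] (M : Ideal Cfsg.AlgInt) (hM : Cfsg.IsPModular 2 M) (B : Set (Cfsg.IrrCharacter G)) (hB : Cfsg.IsPBlock M B) (D : Subgroup G) (hD : Cfsg.IsDefectGroup 2 M B D) (n : ℕ) (hn : 3 ≤ n) (hdih : Nonempty (D ≃* DihedralGroup (2 ^ (n - 1)))) : Nat.card B = 2 ^ (n - 2) + 3 ∧ 1 ≤ Cfsg.blockRank 2 B ∧ Cfsg.blockRank 2 B ≤ 3 ∧ Nat.card {χ : Cfsg.IrrCharacter G // χ ∈ B ∧ Cfsg.blockHeight 2 B (χ : G → ℂ) = 0} = 4 ∧ ∀ χ ∈ B, Cfsg.blockHeight 2 B (χ : G → ℂ) ≤ 1 := by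
  haveI := hM.2.1
  haveI := Fintype.ofFinite G
  obtain ⟨k, rfl⟩ : ∃ k, n = k + 3 := ⟨n - 3, by omega⟩
  obtain ⟨e⟩ : Nonempty (D ≃* DihedralGroup (2 ^ (k + 2))) := hdih
  obtain ⟨f, h⟩ := exists_mx hM hB hD
  have h0 : ∀ i, DihedralGroup.r i ∈ Subgroup.zpowers (DihedralGroup.r 1 : DihedralGroup (2 ^ (k + 2))) :=
    fun i => ⟨i.val, by simp⟩
  obtain ⟨hm, h1⟩ := MC.of_equiv e (s := DihedralGroup.r 1) (t := DihedralGroup.sr 0) (k := k) (δ := 0)
    DihedralGroup.orderOf_r_one (by rintro ⟨i, hi⟩; simp [DihedralGroup.r_zpow] at hi)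
    (by rw [DihedralGroup.nat_card]; ring) (by simp) (Or.inl rfl)
  obtain ⟨h2, h3, h4, h5⟩ := dihedral_main h hm fun x hx h2 => by
    obtain ⟨y, rfl⟩ : ∃ y, x = (e.symm y : G) := ⟨e ⟨x, hx⟩, by simp⟩
    rcases y with i | i
    · exact absurd ((h1 _).2 (h0 i)) h2
    · rw [← Subgroup.coe_mul, ← map_mul]; simp
  exact ⟨h2, one_le_blockRank hM.1 (block_nonempty hB), h3, h4, h5⟩

end Cfsg.Agent.S4528
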