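import Mathlib
import Cfsg.Statements.S4529
import Cfsg.Agent.H21.Tame9

set_option autoImplicit false
open Cfsg

namespace Cfsg.Agent.S4529
open H05 Cfsg H20 H21

/-- Let B be a 2-block of the finite group G (relative to a maximal ideal M of the algebraic integers containing 2) whose defect group D is semidihedral (quasi-dihedral) of order 2 ^ n, n ≥ 4. Then the number of irreducible characters in B is 2 ^ (n - 2) + 3 or 2 ^ (n - 2) + 4, its 2-regular rank l is between 1 and 3, with l = 3 forcing 2 ^ (n - 2) + 4 characters and l = 1 forcing 2 ^ (n - 2) + 3; exactly four members have height zero, exactly 2 ^ (n - 2) - 1 have height one, and every other member has height n - 2. -/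
theorem result {G : Type*} [Group G] [Finite G] (M : Ideal Cfsg.AlgInt) (hM : Cfsg.IsPModular 2 M) (B : Set (Cfsg.IrrCharacter G)) (hB : Cfsg.IsPBlock M B) (D : Subgroup G) (hD : Cfsg.IsDefectGroup 2 M B D) (n : ℕ) (hn : 4 ≤ n) (hcard : Nat.card D = 2 ^ n) (hsd : Cfsg.IsQuasiDihedral D) : (Nat.card B = 2 ^ (n - 2) + 3 ∨ Nat.card B = 2 ^ (n - 2) + 4) ∧ 1 ≤ Cfsg.blockRank 2 B ∧ Cfsg.blockRank 2 B ≤ 3 ∧ (Cfsg.blockRank 2 B = 3 → Nat.card B = 2 ^ (n - 2) + 4) ∧ (Cfsg.blockRank 2 B = 1 → Nat.card B = 2 ^ (n - 2) + 3) ∧ Nat.card {χ : Cfsg.IrrCharacter G // χ ∈ B ∧ Cfsg.blockHeight 2 B (χ : G → ℂ) = 0} = 4 ∧ Nat.card {χ : Cfsg.IrrCharacter G // χ ∈ B ∧ Cfsg.blockHeight 2 B (χ : G → ℂ) = 1} = 2 ^ (n - 2) - 1 ∧ ∀ χ ∈ B, Cfsg.blockHeight 2 B (χ : G → ℂ) = 0 ∨ Cfsg.blockHeight 2 B (χ : G → ℂ) = 1 ∨ Cfsg.blockHeight 2 B (χ : G → ℂ) = n - 2 := by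
  haveI := hM.2.1
  haveI := Fintype.ofFinite G
  obtain ⟨m, h1, h2, x, y, h3, h4, h5⟩ := hsd
  obtain ⟨k, rfl⟩ : ∃ k, m = k + 2 := ⟨m - 2, by omega⟩
  obtain rfl : n = k + 3 := Nat.pow_right_injective le_rfl (hcard.symm.trans h2)
  obtain ⟨f, h⟩ := exists_mx hM hB hD
  have h6 : y * x * y⁻¹ = x⁻¹ * (x ^ 2 ^ (k + 1)) ^ 1 := by
    rw [h5, pow_one, eq_inv_mul_iff_mul_eq, ← pow_succ', Nat.sub_add_cancel Nat.one_le_two_pow]; rfl
  obtain ⟨hm, -⟩ := MC.of_equiv (MulEquiv.refl D) (s := x) (t := y) (k := k) (δ := 1) h3 (by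
    rintro ⟨i, rfl⟩
    rw [(Commute.refl x).zpow_left i |>.eq, mul_inv_cancel_right, pow_one, eq_inv_mul_iff_mul_eq,
      ← sq, pow_eq_pow_iff_modEq, h3] at h6
    have h7 : 2 < 2 ^ (k + 1) := by
      calc 2 = 2 ^ 1 := rfl
        _ < _ := Nat.pow_lt_pow_right one_lt_two (by omega)
    have := Nat.ModEq.eq_of_lt_of_lt h6 (by rw [pow_succ]; omega) (by rw [pow_succ 2 (k + 1)]; omega)
    omega) h2 h6 (Or.inr ⟨rfl, by omega⟩)
  obtain ⟨h7, h8, h9⟩ := semidihedral_main h hm (by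
    rw [← Subgroup.coe_mul, ← map_mul, ← sq, ← h4, pow_orderOf_eq_one]; rfl)
  exact ⟨h7, one_le_blockRank hM.1 (block_nonempty hB), h8, h9⟩

end Cfsg.Agent.S4529
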