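import Mathlib
import Cfsg.Statements.S4530
import Cfsg.Agent.H21.Tame9

set_option autoImplicit false
open Cfsg

namespace Cfsg.Agent.S4530
open H05 Cfsg H20 H21

/-- Let B be a 2-block of the finite group G (relative to a maximal ideal M of the algebraic integers containing 2) whose defect group D is generalized quaternion of order 2 ^ n, n ≥ 3. Then its 2-regular rank l is between 1 and 3, the number of irreducible characters in B is l + 2 ^ (n - 2) + 2, exactly four members have height zero, and every other member has height one or height n - 2; when n ≥ 4 exactly 2 ^ (n - 2) - 1 members have height one. -/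
theorem result {G : Type*} [Group G] [Finite G] (M : Ideal Cfsg.AlgInt) (hM : Cfsg.IsPModular 2 M) (B : Set (Cfsg.IrrCharacter G)) (hB : Cfsg.IsPBlock M B) (D : Subgroup G) (hD : Cfsg.IsDefectGroup 2 M B D) (n : ℕ) (hn : 3 ≤ n) (hq : Nonempty (D ≃* QuaternionGroup (2 ^ (n - 2)))) : 1 ≤ Cfsg.blockRank 2 B ∧ Cfsg.blockRank 2 B ≤ 3 ∧ Nat.card B = Cfsg.blockRank 2 B + 2 ^ (n - 2) + 2 ∧ Nat.card {χ : Cfsg.IrrCharacter G // χ ∈ B ∧ Cfsg.blockHeight 2 B (χ : G → ℂ) = 0} = 4 ∧ (∀ χ ∈ B, Cfsg.blockHeight 2 B (χ : G → ℂ) = 0 ∨ Cfsg.blockHeight 2 B (χ : G → ℂ) = 1 ∨ Cfsg.blockHeight 2 B (χ : G → ℂ) = n - 2) ∧ (4 ≤ n → Nat.card {χ : Cfsg.IrrCharacter G // χ ∈ B ∧ Cfsg.blockHeight 2 B (χ : G → ℂ) = 1} = 2 ^ (n - 2) - 1) := by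
  haveI := hM.2.1
  haveI := Fintype.ofFinite G
  obtain ⟨k, rfl⟩ : ∃ k, n = k + 3 := ⟨n - 3, by omega⟩
  obtain ⟨e⟩ : Nonempty (D ≃* QuaternionGroup (2 ^ (k + 1))) := hq
  obtain ⟨f, h⟩ := exists_mx hM hB hD
  obtain ⟨hm, -⟩ := MC.of_equiv e (s := QuaternionGroup.a 1) (t := QuaternionGroup.xa 0) (k := k)
    (δ := 0) (by rw [QuaternionGroup.orderOf_a_one]; ring) (by
      rintro ⟨i, hi⟩
      obtain ⟨j, hj⟩ := mem_powers_iff_mem_zpowers.2 (⟨i, hi⟩ : _ ∈ Subgroup.zpowers _)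
      simp [QuaternionGroup.a_one_pow] at hj)
    (by rw [Nat.card_eq_fintype_card, QuaternionGroup.card]; ring)
    (by rw [pow_zero, mul_one, mul_inv_eq_iff_eq_mul, eq_inv_mul_iff_mul_eq]; simp) (Or.inl rfl)
  obtain ⟨h2, h3, h4, h5, h6⟩ := quaternion_main h hm (by
    rw [← Subgroup.coe_mul, ← map_mul, ← sq, Ne, OneMemClass.coe_eq_one, map_eq_one_iff _ e.symm.injective,
      ← orderOf_dvd_iff_pow_eq_one, QuaternionGroup.orderOf_xa]
    decide)
  exact ⟨one_le_blockRank hM.1 (block_nonempty hB), h2, h3, h4, h5, fun hk => h6 (by omega)⟩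

end Cfsg.Agent.S4530
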