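import Mathlib
import Cfsg.Statements.S4531
import Cfsg.Agent.H21.Tame10

set_option autoImplicit false
open Cfsg

namespace Cfsg.Agent.S4531
open H05 Cfsg H20 H21

/-- Let the finite group G have a 2-block B (relative to a maximal ideal M of the algebraic integers containing 2) of 2-regular rank three (three irreducible Brauer characters) whose defect group D is dihedral of order 2 ^ n with n ≥ 3 or semidihedral. Then the centre of G has odd order and G is not solvable. -/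
theorem result {G : Type*} [Group G] [Finite G] (M : Ideal Cfsg.AlgInt) (hM : Cfsg.IsPModular 2 M) (B : Set (Cfsg.IrrCharacter G)) (hB : Cfsg.IsPBlock M B) (D : Subgroup G) (hD : Cfsg.IsDefectGroup 2 M B D) (hD' : (∃ n : ℕ, 3 ≤ n ∧ Nonempty (D ≃* DihedralGroup (2 ^ (n - 1)))) ∨ Cfsg.IsQuasiDihedral D) (hl : Cfsg.blockRank 2 B = 3) : Odd (Nat.card (Subgroup.center G)) ∧ ¬ Group.IsSolvable G := by
  haveI := hM.2.1
  haveI := Fintype.ofFinite G
  obtain ⟨f, h⟩ := exists_mx hM hB hD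
  rcases hD' with ⟨n, hn, he⟩ | ⟨m, h1, h2, x, y, h3, h4, h5⟩
  · obtain ⟨k, rfl⟩ : ∃ k, n = k + 3 := ⟨n - 3, by omega⟩
    obtain ⟨e⟩ : Nonempty (D ≃* DihedralGroup (2 ^ (k + 2))) := he
    obtain ⟨hm, -⟩ := MC.of_equiv e (s := DihedralGroup.r 1) (t := DihedralGroup.sr 0) (k := k) (δ := 0)
      DihedralGroup.orderOf_r_one (by rintro ⟨i, hi⟩; simp [DihedralGroup.r_zpow] at hi)
      (by rw [DihedralGroup.nat_card]; ring) (by simp) (Or.inl rfl)
    exact three_main h hm (by rw [← Subgroup.coe_mul, ← map_mul]; simp) hl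
  obtain ⟨k, rfl⟩ : ∃ k, m = k + 2 := ⟨m - 2, by omega⟩
  have h6 : y * x * y⁻¹ = x⁻¹ * (x ^ 2 ^ (k + 1)) ^ 1 := by
    rw [h5, pow_one, eq_inv_mul_iff_mul_eq, ← pow_succ', Nat.sub_add_cancel Nat.one_le_two_pow]; rfl
  obtain ⟨hm, -⟩ := MC.of_equiv (MulEquiv.refl D) (s := x) (t := y) (k := k) (δ := 1) h3 (by
    rintro ⟨i, rfl⟩
    rw [(Commute.refl x).zpow_left i |>.eq, mul_inv_cancel_right, pow_one, eq_inv_mul_iff_mul_eq,
      ← sq, pow_eq_pow_iff_modEq, h3] at h6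
    have h7 : 2 < 2 ^ (k + 1) := by
      calc 2 = 2 ^ 1 := rfl
        _ < _ := Nat.pow_lt_pow_right one_lt_two (by omega)
    have := Nat.ModEq.eq_of_lt_of_lt h6 (by rw [pow_succ]; omega) (by rw [pow_succ 2 (k + 1)]; omega)
    omega) h2 h6 (Or.inr ⟨rfl, by omega⟩)
  exact three_main h hm (by
    rw [← Subgroup.coe_mul, ← map_mul, ← sq, ← h4, pow_orderOf_eq_one]; rfl) hl

end Cfsg.Agent.S4531
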