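import Mathlib
import Cfsg.Statements.S4541
import Cfsg.Agent.H21.CFam

set_option autoImplicit false
open Cfsg

namespace Cfsg.Agent.S4541
open H05 Cfsg H20 H21 MonoidAlgebra Classical
open scoped ComplexConjugate

/-- Let B be a 2-block of the finite group G (relative to a maximal ideal M of the algebraic integers containing 2), u a 2-element, and b a block of the centralizer of u inducing B (a subsection (u, b)), of defect q and 2-regular rank l; write s for the integer square root of l and k₀(B) for the number of members of B of height zero. If s is odd then k₀(B) ≤ s·2 ^ q, and otherwise (s + 1)·k₀(B) ≤ l·2 ^ q; in particular k₀(B) ≤ 2 ^ q when l ≤ 3. -/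
theorem result {G : Type*} [Group G] [Finite G] (M : Ideal Cfsg.AlgInt) (hM : Cfsg.IsPModular 2 M) (B : Set (Cfsg.IrrCharacter G)) (hB : Cfsg.IsPBlock M B) (u : G) (hu : ∃ j : ℕ, orderOf u = 2 ^ j) (b : Set (Cfsg.IrrCharacter ↥(Subgroup.centralizer ({u} : Set G)))) (hb : Cfsg.IsInducedBlock M (Subgroup.centralizer ({u} : Set G)) b B) : (Odd (Nat.sqrt (Cfsg.blockRank 2 b)) → Nat.card {χ : Cfsg.IrrCharacter G // χ ∈ B ∧ Cfsg.blockHeight 2 B (χ : G → ℂ) = 0} ≤ Nat.sqrt (Cfsg.blockRank 2 b) * 2 ^ Cfsg.blockDefect 2 b) ∧ (¬ Odd (Nat.sqrt (Cfsg.blockRank 2 b)) → (Nat.sqrt (Cfsg.blockRank 2 b) + 1) * Nat.card {χ : Cfsg.IrrCharacter G // χ ∈ B ∧ Cfsg.blockHeight 2 B (χ : G → ℂ) = 0} ≤ Cfsg.blockRank 2 b * 2 ^ Cfsg.blockDefect 2 b) ∧ (Cfsg.blockRank 2 b ≤ 3 → Nat.card {χ : Cfsg.IrrCharacter G // χ ∈ B ∧ Cfsg.blockHeight 2 B (χ : G → ℂ) = 0} ≤ 2 ^ Cfsg.blockDefect 2 b) := by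
  haveI := Fintype.ofFinite G
  haveI := hM.2.1
  obtain ⟨x, hx, h1, h2⟩ := (H21.Sub.mk hM hu rfl hb).exists_odd
  have hl := one_le_blockRank Nat.prime_two (block_nonempty hb.1)
  generalize Nat.card {χ : Cfsg.IrrCharacter G // χ ∈ B ∧ Cfsg.blockHeight 2 B (χ : G → ℂ) = 0} = k at *
  generalize blockRank 2 b = l at *
  generalize 2 ^ blockDefect 2 b = q at *
  have h3 := Nat.sqrt_le l
  have h4 := Nat.lt_succ_sqrt l
  have key : Odd l.sqrt → k ≤ l.sqrt * q := fun hs => by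
    rcases le_or_gt x l.sqrt with h | h
    · nlinarith
    · have h5 : l.sqrt + 2 ≤ x := by
        obtain ⟨a, ha⟩ := hx
        obtain ⟨c, hc⟩ := hs
        omega
      have h6 : k * (l.sqrt + 2) ≤ l.sqrt * q * (l.sqrt + 2) := by
        have : l ≤ l.sqrt * (l.sqrt + 2) := by simp only [Nat.succ_eq_add_one] at h4; nlinarith
        nlinarith
      exact Nat.le_of_mul_le_mul_right h6 (by omega)
  refine ⟨key, fun hs => ?_, fun h => ?_⟩
  · rcases le_or_gt (l.sqrt + 1) x with h | h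
    · nlinarith
    · have h5 : x + 1 ≤ l.sqrt := by
        obtain ⟨a, ha⟩ := hx
        obtain ⟨c, hc⟩ := Nat.not_odd_iff_even.1 hs
        omega
      have h6 : (l.sqrt + 1) * x ≤ l := by nlinarith
      nlinarith
  · have h5 : l.sqrt = 1 := (Nat.eq_sqrt.2 ⟨by omega, by omega⟩).symm
    simpa [h5] using key

end Cfsg.Agent.S4541
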