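import Mathlib
import Cfsg.Agent.H20.Constr
-- Template for statement S4549 (row 4549; see /opt/grader/pristine/manifest.json for weights).
-- Copy to Cfsg/Agent/S4549.lean and replace the sorry. The statement below is byte-identical to the frozen
-- statement Cfsg.CfsgFrozen.S4549 (Cfsg/Statements/S4549.lean; the theorem Cfsg.blk4_normal_two_complement_iff_galois_fixed_odd_degree_principal_characters_linear);
-- the grader kernel-checks Cfsg.Agent.S4549.result against that frozen type. Keep the theorem IN THIS FILE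
-- (a `result` declared elsewhere and merely imported here is not credited); helpers may live anywhere
-- under Cfsg/Agent/.
import Cfsg.Statements.S4549
-- import your own Cfsg.Agent.* helpers here

set_option autoImplicit false
open Cfsg

open H20 H05 H21 MonoidAlgebra Cfsg

namespace Cfsg.Agent.S4549

/-- Let G be a finite group and M a maximal ideal of the algebraic integers containing 2. Let k be a natural number with g ^ k = g ^ 3 for every 2-element g and g ^ k = g for every element g of odd order (such k exist); an irreducible character χ is unchanged by g ↦ g ^ k exactly when it is fixed by the field automorphism that cubes the 2-power roots of unity and fixes the roots of unity of odd order. Then G has a normal 2-complement if and only if every member χ of the principal 2-block of odd degree with χ (g ^ k) = χ g for all g has degree one. -/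
theorem result {G : Type*} [Group G] [Finite G] (M : Ideal Cfsg.AlgInt) (hM : Cfsg.IsPModular 2 M) (k : ℕ) (hk₁ : ∀ g : G, (∃ j : ℕ, orderOf g = 2 ^ j) → g ^ k = g ^ 3) (hk₂ : ∀ g : G, Odd (orderOf g) → g ^ k = g) : Cfsg.HasNormalPComplement 2 G ↔ ∀ χ ∈ Cfsg.principalBlock M G, Odd (Cfsg.charDegree (χ : G → ℂ)) → (∀ g : G, (χ : G → ℂ) (g ^ k) = (χ : G → ℂ) g) → Cfsg.charDegree (χ : G → ℂ) = 1 := by
  classical
  have := hM.2.1
  have : Fact (Nat.Prime 2) := ⟨Nat.prime_two⟩
  have := Fintype.ofFinite G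
  constructor
  · intro h χ hχ ho _
    obtain ⟨j, hj⟩ := H03.exists_index_pResidual (G := G) (p := 2)
    rw [principal_eq_of_complement hM (H03.hasNPC_iff_not_dvd_card_pResidual.1 h) hj,
      ← QuotientGroup.ker_mk' (pResidual 2 G)] at hχ
    obtain ⟨ψ, rfl⟩ := exists_infl (QuotientGroup.mk'_surjective _) hχ
    rw [charDegree_infl] at ho ⊢
    refine Nat.eq_one_of_dvd_coprimes ((Nat.coprime_two_right.2 ho).pow_right j) dvd_rfl ?_
    rw [← hj]
    exact ψ.2.charDegree_dvd_card
  intro hh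
  have hr : ∀ g : G, Odd (orderOf (pReg 2 g)) := fun g =>
    Nat.not_even_iff_odd.1 (even_iff_two_dvd.not.2 (not_dvd_orderOf_pReg 2 g))
  have h0 : ∀ g : G, g ^ k = pPart 2 g ^ 3 * pReg 2 g := fun g => by
    conv_lhs => rw [← pPart_mul_pReg 2 g]
    rw [(commute_pPart_pReg 2 g).mul_pow, hk₂ _ (hr g), hk₁ _ (orderOf_pPart 2 _)]
  have h1 : ∀ (j : ℕ) (g : G), g ^ k ^ j = pPart 2 g ^ 3 ^ j * pReg 2 g := fun j g => by
    induction j with
    | zero => simp [pPart_mul_pReg]
    | succ j ih =>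
      rw [pow_succ, pow_mul, ih, ((commute_pPart_pReg 2 g).pow_left _).mul_pow, hk₂ _ (hr g), ← pPart_pow,
        hk₁ _ (orderOf_pPart 2 _), pPart_pow, ← pow_mul, ← pow_succ]
  have hk : k.Coprime (Nat.card G) := Nat.Coprime.symm <| Nat.coprime_of_dvd fun r hr h2 h3 => by
    have : Fact r.Prime := ⟨hr⟩
    obtain ⟨x, hx⟩ := exists_prime_orderOf_dvd_card' r h2
    have h4 : x ^ k = 1 := orderOf_dvd_iff_pow_eq_one.1 (hx ▸ h3)
    rcases hr.eq_two_or_odd' with rfl | h5
    · rw [hk₁ x ⟨1, hx⟩, ← orderOf_dvd_iff_pow_eq_one, hx] at h4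
      omega
    · rw [hk₂ x (hx ▸ h5)] at h4
      rw [h4, orderOf_one] at hx
      exact hr.one_lt.ne hx
  obtain ⟨σ, h⟩ := PowG.exists_of_coprime hk
  have h2 := card_fix_modEq (p := 2) (e := (Nat.card G).factorization 2) (f := galIrr σ)
    (fun χ : IrrCharacter G => χ ∈ {χ : IrrCharacter G | χ ∈ principalBlock M G ∧ ¬ 2 ∣ charDegree χ.1 ∧
      ¬ 2 ∣ detOrder χ.1} ∧ ¬ 2 ∣ charDegree (χ : G → ℂ))
    (fun χ hχ => ⟨⟨(galIrr_mem_principal hM σ).2 hχ.1.1, (χ.2.isCharacter.charDegree_galois σ).symm ▸ hχ.2,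
      (detOrder_gal χ.2.isCharacter σ).symm ▸ hχ.1.2.2⟩, (χ.2.isCharacter.charDegree_galois σ).symm ▸ hχ.2⟩)
    fun χ => Subtype.ext (funext fun g => by
      obtain ⟨j, hj⟩ := orderOf_pPart 2 g
      have h3 := Nat.ModEq.pow_totient (x := 3) (n := 2 ^ ((Nat.card G).factorization 2 + 1))
        (Nat.Coprime.pow_right _ (by norm_num))
      rw [Nat.totient_prime_pow_succ Nat.prime_two, show 2 - 1 = 1 from rfl, mul_one] at h3
      rw [h.iterate, h1, pow_eq_pow_of_modEq h3 (orderOf_dvd_iff_pow_eq_one.1 (hj ▸ pow_dvd_pow 2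
        (((Nat.prime_two.pow_dvd_iff_le_factorization Nat.card_pos.ne').1
          (hj ▸ orderOf_dvd_natCard _)).trans (Nat.le_succ _)))), pow_one, pPart_mul_pReg])
  refine H03.hasNPC_iff_not_dvd_card_pResidual.2 fun hd => ?_
  let S : Subgroup (G →* ℂˣ) :=
    { carrier := {φ | (orderOf φ).Coprime 2}
      mul_mem' := fun {a b} ha hb =>
        (Nat.Coprime.mul_left ha hb).coprime_dvd_left (Commute.all a b).orderOf_mul_dvd_mul_orderOf
      one_mem' := by simp
      inv_mem' := by simp }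
  have h3 := (h2.dvd_iff dvd_rfl).1 (dvd_card_of_le_three Nat.prime_two (by norm_num) (by
    convert ((sum_pResidual_modEq hM).dvd_iff dvd_rfl).1
      (dvd_sum_sq_of_dvd_card hM isPBlock_principal.isInt_idem hd) using 3
    rfl))
  have h4 : ∀ φ : G →* ℂˣ, (orderOf φ).Coprime 2 → galIrr σ (linIrr φ) = linIrr φ := fun φ hφ =>
    h.fix_iff.2 fun g => by
      obtain ⟨j, hj⟩ := orderOf_pPart 2 g
      have h5 : φ (pPart 2 g) = 1 := orderOf_eq_one_iff.1 <| Nat.eq_one_of_dvd_coprimes (hφ.pow_right j)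
        (orderOf_dvd_of_pow_eq_one (by rw [← MonoidHom.pow_apply, pow_orderOf_eq_one, MonoidHom.one_apply]))
        (hj ▸ orderOf_map_dvd φ _)
      show ((φ (g ^ k) : ℂˣ) : ℂ) = φ g
      rw [h0]
      conv_rhs => rw [← pPart_mul_pReg 2 g]
      rw [map_mul, map_mul, map_pow, h5, one_pow]
  rw [← Nat.card_congr (Equiv.ofBijective (β := {χ : IrrCharacter G // _})
      (fun φ : (linB0 G M ⊓ S : Subgroup _) => ⟨linIrr φ.1, ⟨⟨φ.2.1,
        by rw [charDegree_linIrr]; norm_num,
        by rw [H07.detOrder_eq, linIrr, H07.detHom_hom]; exact H03.coprime_iff_not_dvd.1 φ.2.2⟩,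
        by rw [charDegree_linIrr]; norm_num⟩, h4 _ φ.2.2⟩)
      ⟨fun φ ψ e => Subtype.ext (linIrr_injective (congrArg Subtype.val e)), fun χ => ?_⟩)] at h3
  · exact H03.coprime_iff_not_dvd.1 (H03.card_coprime_of_forall_orderOf (N := linB0 G M ⊓ S) fun _ h => h.2) h3
  · obtain ⟨χ, ⟨⟨h5, h6, h7⟩, -⟩, h8⟩ := χ
    obtain ⟨φ, rfl⟩ := exists_linIrr (hh χ h5 (Nat.not_even_iff_odd.1 (even_iff_two_dvd.not.2 h6))
      (h.fix_iff.1 h8))
    rw [H07.detOrder_eq, linIrr, H07.detHom_hom] at h7
    exact ⟨⟨φ, h5, H03.coprime_iff_not_dvd.2 h7⟩, rfl⟩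

end Cfsg.Agent.S4549
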