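import Mathlib
import Cfsg.Agent.H20.Cnt
-- Template for statement S4550 (row 4550; see /opt/grader/pristine/manifest.json for weights).
-- Copy to Cfsg/Agent/S4550.lean and replace the sorry. The statement below is byte-identical to the frozen
-- statement Cfsg.CfsgFrozen.S4550 (Cfsg/Statements/S4550.lean; the theorem Cfsg.blk4_even_order_even_number_of_galois_fixed_odd_degree_principal_characters);
-- the grader kernel-checks Cfsg.Agent.S4550.result against that frozen type. Keep the theorem IN THIS FILE
-- (a `result` declared elsewhere and merely imported here is not credited); helpers may live anywhere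
-- under Cfsg/Agent/.
import Cfsg.Statements.S4550
-- import your own Cfsg.Agent.* helpers here

set_option autoImplicit false
open Cfsg

open H20 H05 H21 MonoidAlgebra Cfsg

namespace Cfsg.Agent.S4550

/-- Let G be a finite group of even order and M a maximal ideal of the algebraic integers containing 2. Let k be a natural number with g ^ k = g ^ 3 for every 2-element g and g ^ k = g for every element g of odd order (such k exist); an irreducible character χ is unchanged by g ↦ g ^ k exactly when it is fixed by the field automorphism that cubes the 2-power roots of unity and fixes the roots of unity of odd order. Then the number of members χ of the principal 2-block of odd degree with χ (g ^ k) = χ g for all g is even. -/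
theorem result {G : Type*} [Group G] [Finite G] (M : Ideal Cfsg.AlgInt) (hM : Cfsg.IsPModular 2 M) (hev : Even (Nat.card G)) (k : ℕ) (hk₁ : ∀ g : G, (∃ j : ℕ, orderOf g = 2 ^ j) → g ^ k = g ^ 3) (hk₂ : ∀ g : G, Odd (orderOf g) → g ^ k = g) : Even (Nat.card {χ : Cfsg.IrrCharacter G // χ ∈ Cfsg.principalBlock M G ∧ Odd (Cfsg.charDegree (χ : G → ℂ)) ∧ ∀ g : G, (χ : G → ℂ) (g ^ k) = (χ : G → ℂ) g}) := by
  have := hM.2.1
  have : Fact (Nat.Prime 2) := ⟨Nat.prime_two⟩
  have := Fintype.ofFinite G
  have hr : ∀ g : G, Odd (orderOf (pReg 2 g)) := fun g =>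
    Nat.not_even_iff_odd.1 (even_iff_two_dvd.not.2 (not_dvd_orderOf_pReg 2 g))
  have h1 : ∀ (j : ℕ) (g : G), g ^ k ^ j = pPart 2 g ^ 3 ^ j * pReg 2 g := fun j g => by
    induction j with
    | zero => simp [pPart_mul_pReg]
    | succ j ih =>
      rw [pow_succ, pow_mul, ih, ((commute_pPart_pReg 2 g).pow_left _).mul_pow, hk₂ _ (hr g), ← pPart_pow,
        hk₁ _ (orderOf_pPart 2 _), pPart_pow, ← pow_mul, ← pow_succ]
  have hk : k.Coprime (Nat.card G) := Nat.Coprime.symm <| Nat.coprime_of_dvd fun r hr h2 h3 => by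
    have : Fact r.Prime := ⟨hr⟩
    obtain ⟨x, hx⟩ := exists_prime_orderOf_dvd_card' r h2
    have h4 : x ^ k = 1 := orderOf_dvd_iff_pow_eq_one.1 (hx ▸ h3)
    rcases hr.eq_two_or_odd' with rfl | h5
    · rw [hk₁ x ⟨1, hx⟩, ← orderOf_dvd_iff_pow_eq_one, hx] at h4
      omega
    · rw [hk₂ x (hx ▸ h5)] at h4
      rw [h4, orderOf_one] at hx
      exact hr.one_lt.ne hx
  obtain ⟨σ, h⟩ := PowG.exists_of_coprime hk
  have h2 := card_fix_modEq (p := 2) (e := (Nat.card G).factorization 2) (f := galIrr σ)
    (fun χ : IrrCharacter G => χ ∈ principalBlock M G ∧ ¬ 2 ∣ charDegree (χ : G → ℂ))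
    (fun χ hχ => ⟨(galIrr_mem_principal hM σ).2 hχ.1, (χ.2.isCharacter.charDegree_galois σ).symm ▸ hχ.2⟩)
    fun χ => Subtype.ext (funext fun g => by
      obtain ⟨j, hj⟩ := orderOf_pPart 2 g
      have h3 := Nat.ModEq.pow_totient (x := 3) (n := 2 ^ ((Nat.card G).factorization 2 + 1))
        (Nat.Coprime.pow_right _ (by norm_num))
      rw [Nat.totient_prime_pow_succ Nat.prime_two, show 2 - 1 = 1 from rfl, mul_one] at h3
      rw [h.iterate, h1, pow_eq_pow_of_modEq h3 (orderOf_dvd_iff_pow_eq_one.1 (hj ▸ pow_dvd_pow 2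
        (((Nat.prime_two.pow_dvd_iff_le_factorization Nat.card_pos.ne').1
          (hj ▸ orderOf_dvd_natCard _)).trans (Nat.le_succ _)))), pow_one, pPart_mul_pReg])
  rw [even_iff_two_dvd, Nat.card_congr (Equiv.subtypeEquivRight (q := fun χ : IrrCharacter G =>
    (χ ∈ principalBlock M G ∧ ¬ 2 ∣ charDegree (χ : G → ℂ)) ∧ galIrr σ χ = χ) fun χ => by
      rw [h.fix_iff, ← even_iff_two_dvd, Nat.not_even_iff_odd, and_assoc]), ← h2.dvd_iff dvd_rfl]
  exact dvd_card_of_le_three Nat.prime_two (by norm_num)
    (dvd_sum_sq_of_dvd_card hM isPBlock_principal.isInt_idem (even_iff_two_dvd.1 hev))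

end Cfsg.Agent.S4550
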