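import Mathlib
import Cfsg.Statements.S4552
import Cfsg.Agent.H21.FrobC

set_option autoImplicit false
open Cfsg

namespace Cfsg.Agent.S4552
open H05 Cfsg H20 H21 MonoidAlgebra Classical
open scoped ComplexConjugate
attribute [-instance] H19.instFintypeSubgroupFrob

/-- Let B be a 2-block of the finite group G (relative to a maximal ideal M of the algebraic integers containing 2) whose defect group D is the direct product of two cyclic groups of the same order 2 ^ m, m ≥ 2. Then either B has 2-regular rank one and exactly 4 ^ m irreducible characters, or B has 2-regular rank three and exactly (4 ^ m + 8) / 3 irreducible characters. -/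
theorem result {G : Type*} [Group G] [Finite G] (M : Ideal Cfsg.AlgInt) (hM : Cfsg.IsPModular 2 M) (B : Set (Cfsg.IrrCharacter G)) (hB : Cfsg.IsPBlock M B) (D : Subgroup G) (hD : Cfsg.IsDefectGroup 2 M B D) (m : ℕ) (hm : 2 ≤ m) (hiso : Nonempty (D ≃* Multiplicative (ZMod (2 ^ m) × ZMod (2 ^ m)))) : (Cfsg.blockRank 2 B = 1 ∧ Nat.card B = 4 ^ m) ∨ (Cfsg.blockRank 2 B = 3 ∧ 3 * Nat.card B = 4 ^ m + 8) := by
  haveI := hM.2.1
  haveI := Fintype.ofFinite G
  obtain ⟨c, h⟩ := exists_mx hM hB hD
  obtain ⟨σ⟩ := hiso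
  obtain ⟨-, h1, D, h2, h3, h4⟩ := h.homo_frb (by omega) σ
  have h5 := h2.card
  rw [h1, h3] at h5
  rcases h4 with h4 | h4 <;> rw [h4] at h3 h5
  · exact .inl ⟨h3, by omega⟩
  · exact .inr ⟨h3, by omega⟩

end Cfsg.Agent.S4552
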