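import Mathlib
import Cfsg.Agent.H20.Cnt
import Cfsg.Agent.H07.Deg4
-- Template for statement S4553 (row 4553; see /opt/grader/pristine/manifest.json for weights).
-- Copy to Cfsg/Agent/S4553.lean and replace the sorry. The statement below is byte-identical to the frozen
-- statement Cfsg.CfsgFrozen.S4553 (Cfsg/Statements/S4553.lean; the theorem Cfsg.blk4_galois_fixed_p_prime_degree_principal_count_cyclic_p_quotient);
-- the grader kernel-checks Cfsg.Agent.S4553.result against that frozen type. Keep the theorem IN THIS FILE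
-- (a `result` declared elsewhere and merely imported here is not credited); helpers may live anywhere
-- under Cfsg/Agent/.
import Cfsg.Statements.S4553
-- import your own Cfsg.Agent.* helpers here

set_option autoImplicit false
open Cfsg

open H20 H05 H21 MonoidAlgebra Cfsg

namespace Cfsg.Agent.S4553

theorem card_hom {G : Type*} [Group G] [Finite G] {p k : ℕ} (N : Subgroup G) [N.Normal]
    (hk : N.index = p ^ k) (hcyc : IsCyclic (G ⧸ N)) (hnt : N ≠ ⊤) :
    Nat.card {lam : G →* ℂˣ // (∀ n ∈ N, lam n = 1) ∧ ∀ g, lam g ^ p = 1} = p := by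
  let := IsCyclic.commGroup (α := G ⧸ N)
  let W := (powMonoidHom p : G ⧸ N →* G ⧸ N).range.comap (QuotientGroup.mk' N)
  have h1 : N ≤ W := fun n hn => by
    rw [Subgroup.mem_comap, mk'_eq_one.2 hn]; exact one_mem _
  have h2 := H07.card_ann W
  rw [sup_of_le_left ((Subgroup.Normal.quotient_commutative_iff_commutator_le.1 inferInstance).trans h1),
    Subgroup.index_comap_of_surjective _ (QuotientGroup.mk'_surjective N), IsCyclic.index_powMonoidHom_range,
    Nat.gcd_eq_right ((dvd_pow_self p fun h => hnt (by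
      rw [← Subgroup.index_eq_one, hk, h, pow_zero])).trans (show Nat.card (G ⧸ N) = _ from hk).symm.dvd)] at h2
  refine (Nat.card_congr (Equiv.subtypeEquivRight fun lam => ⟨fun h w ⟨x, hx⟩ => ?_, fun h =>
    ⟨fun n hn => h n (h1 hn), fun g => (map_pow lam g p).symm.trans (h _ ⟨g, rfl⟩)⟩⟩)).trans h2
  obtain ⟨x, rfl⟩ := QuotientGroup.mk'_surjective N x
  have h3 := h.1 _ (QuotientGroup.eq.1 (show ((x ^ p : G) : G ⧸ N) = w from hx))
  rw [map_mul, map_inv, map_pow, h.2, inv_one, one_mul] at h3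
  exact h3

/-- Let G be a finite group, p a prime, P a Sylow p-subgroup, N the p-residual of G (the subgroup generated by the elements of order prime to p, the smallest normal subgroup with G/N a p-group), and M a maximal ideal of the algebraic integers containing p; suppose G/N is cyclic and nontrivial. Let k be a natural number with g ^ k = g ^ (1 + p) for every p-element g and g ^ k = g for every element g of order prime to p (so that χ (g ^ k) is the image of χ g under the field automorphism that raises p-power roots of unity to the power 1 + p and fixes the roots of unity of order prime to p). Then the number of members χ of the principal block of G of degree prime to p with χ (g ^ k) = χ g for all g equals p times the number of members θ of the principal block of N of degree prime to p that are invariant under conjugation by P and satisfy θ (n ^ k) = θ n for all n. -/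
theorem result {G : Type*} [Group G] [Finite G] (p : ℕ) [Fact p.Prime] (M : Ideal Cfsg.AlgInt) (hM : Cfsg.IsPModular p M) (P : Sylow p G) (N : Subgroup G) [hN : N.Normal] (hNres : N = Cfsg.pResidual p G) (hcyc : IsCyclic (G ⧸ N)) (hnt : N ≠ ⊤) (k : ℕ) (hk₁ : ∀ g : G, (∃ j : ℕ, orderOf g = p ^ j) → g ^ k = g ^ (1 + p)) (hk₂ : ∀ g : G, Nat.Coprime (orderOf g) p → g ^ k = g) : Nat.card {χ : Cfsg.IrrCharacter G // χ ∈ Cfsg.principalBlock M G ∧ ¬ p ∣ Cfsg.charDegree (χ : G → ℂ) ∧ ∀ g : G, (χ : G → ℂ) (g ^ k) = (χ : G → ℂ) g} = p * Nat.card {θ : Cfsg.IrrCharacter ↥N // θ ∈ Cfsg.principalBlock M ↥N ∧ ¬ p ∣ Cfsg.charDegree (θ : ↥N → ℂ) ∧ (∀ x ∈ (P : Subgroup G), ∀ n : ↥N, (θ : ↥N → ℂ) ⟨x * n * x⁻¹, hN.conj_mem n n.2 x⟩ = (θ : ↥N → ℂ) n) ∧ ∀ n : ↥N, (θ : ↥N → ℂ) (n ^ k) = (θ : ↥N → ℂ) n} := by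
  subst hNres
  have := hM.2.1
  have := Fintype.ofFinite G
  obtain ⟨a, ha⟩ := H03.exists_index_pResidual (G := G) (p := p)
  have hc : ∀ {n : ℕ}, ¬ p ∣ n → (pResidual p G).index.Coprime n := fun h =>
    ha ▸ (hM.1.coprime_iff_not_dvd.2 h).pow_left a
  have hk : k.Coprime (Nat.card G) := Nat.Coprime.symm <| Nat.coprime_of_dvd fun r hr h2 h3 => by
    have : Fact r.Prime := ⟨hr⟩
    obtain ⟨x, hx⟩ := exists_prime_orderOf_dvd_card' r h2
    have h4 : x ^ k = 1 := orderOf_dvd_iff_pow_eq_one.1 (hx ▸ h3)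
    by_cases h5 : r = p
    · rw [hk₁ x ⟨1, by rw [hx, h5, pow_one]⟩, ← orderOf_dvd_iff_pow_eq_one, hx, h5, Nat.dvd_add_self_right] at h4
      exact hM.1.not_dvd_one h4
    · rw [hk₂ x (hx ▸ (Nat.coprime_primes hr hM.1).2 h5)] at h4
      rw [h4, orderOf_one] at hx
      exact hr.one_lt.ne hx
  obtain ⟨σ, h⟩ := PowG.exists_of_coprime hk
  have hl : ∀ lam : G →* ℂˣ, (∀ n ∈ pResidual p G, lam n = 1) → ∀ g, lam (g ^ k) = lam g * lam g ^ p :=
    fun lam h1 g => by
      have h2 : lam g = lam (pPart p g) := by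
        conv_lhs => rw [← pPart_mul_pReg p g, map_mul, h1 _ (mem_of_index_eq_pow hM.1 ha
          (not_dvd_orderOf_pReg p g)), mul_one]
      rw [map_pow, h2, ← map_pow, hk₁ _ (orderOf_pPart p g), map_pow, pow_add, pow_one]
  refine Eq.trans ?_ ((Nat.card_prod _ _).trans (congrArg (· * _) (card_hom _ ha hcyc hnt)))
  have hE : ∀ θ : IrrCharacter (pResidual p G), ¬ p ∣ charDegree θ.1 →
      (∀ x ∈ (P : Subgroup G), ∀ n : pResidual p G, θ.1 ⟨x * n * x⁻¹, hN.conj_mem n n.2 x⟩ = θ.1 n) →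
      (∀ n, θ.1 (n ^ k) = θ.1 n) →
      ∃ χ : IrrCharacter G, (∀ n : pResidual p G, χ.1 n = θ.1 n) ∧ ∀ g, χ.1 (g ^ k) = χ.1 g := fun θ h1 h2 h3 => by
    have h4 := not_dvd_detOrder_pResidual (p := p) θ.1
    obtain ⟨χ, h5, h6, h7⟩ := H07.exists_ext_of_coprime _ θ.2 (fun g => (H06.mem_inertia _).1
      ((top_le_iff.2 (H03.pResidual_sup_sylow P)).trans (sup_le (H06.le_inertia _ θ.2.isClassFunction)
        fun x hx => (H06.mem_inertia' _).2 (h2 x hx)) (Subgroup.mem_top g))) (hc h1) (hc h4)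
    refine ⟨⟨χ, h5⟩, h6, h.fix_iff.1 (Subtype.ext (H07.ext_unique_of_coprime _ θ.2 (hc h1)
      (h5.isCharacter.galois σ) (fun n => ?_) (hc ((detOrder_gal h5.isCharacter σ).trans h7 ▸ h4))
      h5.isCharacter h6 (hc (h7 ▸ h4))))⟩
    exact (congrArg σ (h6 n)).trans (galIrr_eq_iff.1 ((h.sub _).fix_iff.2 h3) n)
  choose E hE1 hE2 using hE
  symm
  refine Nat.card_congr (Equiv.ofBijective (fun x => ⟨⟨_, (E x.2.1 x.2.2.2.1 x.2.2.2.2.1 x.2.2.2.2.2).2.mul_monoidHom
    x.1.1⟩, ?_, ?_, fun g => ?_⟩) ⟨?_, ?_⟩)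
  · exact (mem_principal_iff_of_index hM ha (over_of_res fun n => by simp [x.1.2.1 n n.2, hE1])).2 x.2.2.1
  · rw [H07.charDegree_eq_of_res _ (θ := x.2.1.1) fun n => by simp [x.1.2.1 n n.2, hE1]]
    exact x.2.2.2.1
  · simp only [hE2, hl _ x.1.2.1, x.1.2.2, mul_one]
  · rintro ⟨⟨lam, h1⟩, θ, h2⟩ ⟨⟨μ, h3⟩, θ', h4⟩ e
    have h5 := congrArg (·.1.1) e
    obtain rfl : θ = θ' := Subtype.ext (funext fun n => by
      simpa [h1.1 n n.2, h3.1 n n.2, hE1] using congrFun h5 n)
    have h6 := H07.gallagher_one_inj _ (E θ h2.2.1 h2.2.2.1 h2.2.2.2).2.isCharacter (funext (hE1 θ _ _ _) ▸ θ.2)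
      (isIrrCharacter_monoidHom lam) (fun x hx => by simp [h1.1 x hx]) (isIrrCharacter_monoidHom μ)
      (fun x hx => by simp [h3.1 x hx]) (funext fun g => by
        simpa only [Pi.mul_apply, mul_comm] using congrFun h5 g)
    obtain rfl : lam = μ := linIrr_injective (Subtype.ext h6)
    rfl
  · rintro ⟨χ, h1, h2, h3⟩
    let θ : IrrCharacter (pResidual p G) := ⟨_, H07.isIrr_res_of_coprime _ χ.2 (hc h2).symm⟩
    have h4 : ∀ x ∈ (P : Subgroup G), ∀ n : pResidual p G, θ.1 ⟨x * n * x⁻¹, hN.conj_mem n n.2 x⟩ = θ.1 n :=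
      fun x _ n => χ.2.isClassFunction _ _
    obtain ⟨lam, h5, h6⟩ := H07.exists_hom_of_ext_ext _ θ.2 (E θ h2 h4 fun n => h3 n).2.isCharacter
      (hE1 θ _ _ _) χ.2.isCharacter fun _ => rfl
    have h7 := H07.gallagher_one_inj _ (E θ h2 h4 fun n => h3 n).2.isCharacter (funext (hE1 θ _ _ _) ▸ θ.2)
      (isIrrCharacter_monoidHom lam) (fun x hx => by simp [h5 x hx]) (isIrrCharacter_monoidHom (lam * lam ^ p))
      (fun x hx => by simp [h5 x hx]) (funext fun g => by
        have := h3 g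
        rw [h6] at this
        simp only [hE2 θ h2 h4 fun n => h3 n, hl _ h5] at this
        simpa only [Pi.mul_apply, mul_comm, MonoidHom.mul_apply, MonoidHom.pow_apply] using this.symm)
    refine ⟨⟨⟨lam, h5, fun g => ?_⟩, θ, mem_principal_of_over h1 (over_of_res fun _ => rfl), h2, h4,
      fun n => h3 n⟩, Subtype.ext (Subtype.ext h6.symm)⟩
    exact left_eq_mul.1 (Units.ext (congrFun h7 g))

end Cfsg.Agent.S4553
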