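import Cfsg.Statements.S4560
import Cfsg.Agent.H24.Sym5
-- import your own Cfsg.Agent.* helpers here

set_option autoImplicit false
open Cfsg

namespace Cfsg.Agent.S4560

open H24.Sym H05 Cfsg MvPolynomial Finset Equiv

theorem irr_res {n : ℕ} [Nontrivial (Fin n)] {ψ : Perm (Fin n) → ℂ} (h : IsIrrCharacter _ ψ) {g : Perm (Fin n)}
    (hg : Perm.sign g = -1) (h0 : ψ g ≠ 0) : IsIrrCharacter (alternatingGroup (Fin n)) fun x => ψ x := by
  refine (h.isCharacter.restrict _).isIrr_of_norm_one ?_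
  have h1 := h.classInner_self
  have h2 := h.classInner_of_ne (h.mul_monoidHom ((Units.map (Int.castRingHom ℂ).toMonoidHom).comp Perm.sign)) fun e => by
    have := congrFun e g
    simp [hg] at this
    exact h0 (by linear_combination this / 2)
  have h3 : (Nat.card (Perm (Fin n)) : ℂ) = 2 * Nat.card (alternatingGroup (Fin n)) := by
    rw [Nat.card_eq_fintype_card, Nat.card_eq_fintype_card, ← two_mul_card_alternatingGroup]; simp
  rw [classInner, inv_mul_eq_iff_eq_mul₀ card_ne_zero_complex] at h1 h2 ⊢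
  rw [← sum_subtype (univ.filter fun x : Perm (Fin n) => Perm.sign x = 1) (by simp) (fun x => ψ x * (starRingEnd ℂ) (ψ x)),
    sum_filter]
  have h4 := congrArg₂ (· + ·) h1 h2
  rw [← sum_add_distrib, sum_congr rfl (g := fun x => 2 * if Perm.sign x = 1 then ψ x * (starRingEnd ℂ) (ψ x) else 0)
    fun x _ => by rcases Int.units_eq_one_or (Perm.sign x) with e | e <;> simp [e, two_mul], ← mul_sum, h3] at h4
  linear_combination h4 / 2

theorem cf_prod {N : ℕ} (s : Multiset ℕ) (S : Fin (N + 1) → ℕ) (h : ∀ k ∈ s, ∀ i, i ≠ Fin.last N → S i < k)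
    (g : MvPolynomial (Fin (N + 1)) ℤ) : cf S ((s.map (psum _ ℤ)).prod * g) =
      if s.sum ≤ S (Fin.last N) then cf (Function.update S (Fin.last N) (S (Fin.last N) - s.sum)) g else 0 := by
  induction s using Multiset.induction_on generalizing S with
  | empty => simp
  | cons k s ih =>
    rw [Multiset.map_cons, Multiset.prod_cons, mul_assoc, cf_psum_mul,
      sum_eq_single (Fin.last N) (fun i _ hi => if_neg (h k (by simp) i hi).not_ge) (by simp),
      ih _ fun l hl i hi => by simpa [hi] using h l (by simp [hl]) i hi]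
    simp only [Function.update_self, Function.update_idem, Multiset.sum_cons, Nat.sub_sub]
    split_ifs <;> first | rfl | omega

theorem XS_eval {N n : ℕ} (S : Fin (N + 1) → ℕ) (σ : Perm (Fin n)) (h : ∀ k ∈ σ.cycleType, 3 ≤ k)
    (h' : ∀ i, i ≠ Fin.last N → S i < 3) : XS S σ = if σ.cycleType.sum ≤ S (Fin.last N) then
      cf (Function.update S (Fin.last N) (S (Fin.last N) - σ.cycleType.sum)) (alt Fin.val * psum _ ℤ 1 ^ (n - σ.cycleType.sum))
      else 0 := by
  rw [XS, PP_cycleType, mul_left_comm, cf_prod _ _ fun k hk i hi => (h' i hi).trans_le (h k hk), Fintype.card_fin]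

theorem alt_pow {N : ℕ} (m : ℕ) : Alt (alt Fin.val * psum (Fin N) ℤ 1 ^ m) :=
  mul_comm (psum (Fin N) ℤ 1 ^ m) _ ▸ (alt_alt _).mul fun τ => by rw [map_pow, rename_psum]

theorem cf_ne {N m : ℕ} {b : Fin N → ℕ} (hb : Function.Injective b) (h : ∑ i, b i = m + ∑ i : Fin N, i.val) :
    cf b (alt Fin.val * psum (Fin N) ℤ 1 ^ m) ≠ 0 := by
  obtain ⟨τ, hτ⟩ := exists_sort hb
  obtain ⟨l, hl, e⟩ := exists_cf_pow m hτ ((Equiv.sum_comp τ b).trans h)
  rw [(alt_pow m).cf_comp] at e
  intro h; rw [h] at e; omega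

theorem exists_odd {n : ℕ} (f : ℕ) (h : f + 6 ≤ n) :
    ∃ g : Perm (Fin n), Perm.sign g = -1 ∧ g.cycleType.sum = n - f ∧ ∀ k ∈ g.cycleType, 3 ≤ k := by
  rcases Nat.even_or_odd (n - f) with e | e
  · obtain ⟨g, hg⟩ := (Perm.exists_with_cycleType_iff (Fin n) (m := {n - f})).2 ⟨by simp, by simp; omega⟩
    exact ⟨g, by simp [Perm.sign_of_cycleType, hg, pow_succ, e.neg_one_pow], by simp [hg], by simp [hg]; omega⟩
  · obtain ⟨g, hg⟩ := (Perm.exists_with_cycleType_iff (Fin n) (m := {3, n - f - 3})).2 ⟨by simp; omega, by simp; omega⟩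
    have : g.cycleType.sum = n - f := by simp [hg]; omega
    exact ⟨g, by rw [Perm.sign_of_cycleType, this]; simp [hg, pow_succ, e.neg_one_pow], this, by simp [hg]; omega⟩

theorem main {n : ℕ} (hn : 7 ≤ n) (P : ℕ → Prop) {s : Multiset ℕ} (h1 : s.sum ≤ n) (h2 : n - s.sum ≤ 2)
    (h3 : ∀ k ∈ s, 2 ≤ k) (h4 : (∀ k ∈ s, 3 ≤ k) ∨ n - s.sum = 1) (h5 : Even (s.sum + s.card)) (h6 : P s.lcm) :
    ∃ χ : IrrCharacter (alternatingGroup (Fin n)), (∃ x : alternatingGroup (Fin n), P (orderOf x) ∧ χ.1 x = 0) ∧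
      ∃ ψ : IrrCharacter (Perm (Fin n)), ∀ x : alternatingGroup (Fin n), ψ.1 x = χ.1 x := by
  have : Nontrivial (Fin n) := Fin.nontrivial_iff_two_le.2 (by omega)
  obtain ⟨x, rfl⟩ := (Perm.exists_with_cycleType_iff (Fin n) (m := s)).2 ⟨by simpa, h3⟩
  have key : ∀ (N f : ℕ) (S : Fin (N + 1) → ℕ), S ∈ SS (N + 1) (n + ∑ i : Fin (N + 1), i.val) → f ≤ 1 →
      (∀ i, i ≠ Fin.last N → S i < 3) → n - f ≤ S (Fin.last N) →
      Function.Injective (Function.update S (Fin.last N) (S (Fin.last N) - (n - f))) → XS S x = 0 →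
      ∃ χ : IrrCharacter (alternatingGroup (Fin n)), (∃ x : alternatingGroup (Fin n), P (orderOf x) ∧ χ.1 x = 0) ∧
        ∃ ψ : IrrCharacter (Perm (Fin n)), ∀ x : alternatingGroup (Fin n), ψ.1 x = χ.1 x := fun N f S hS hf e1 e2 e3 e4 => by
    obtain ⟨g, g1, g2, g3⟩ := exists_odd (n := n) f (by omega)
    refine ⟨⟨_, irr_res (isIrr_chi hS) g1 ?_⟩, ⟨⟨x, by simp [Perm.sign_of_cycleType, h5.neg_one_pow]⟩,
      by rwa [← Subgroup.orderOf_coe, ← Perm.lcm_cycleType], by simp [chi, e4]⟩, ⟨_, isIrr_chi hS⟩, fun _ => rfl⟩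
    rw [chi, XS_eval S g g3 e1, g2, if_pos e2, Int.cast_ne_zero]
    refine cf_ne e3 ?_
    have := (mem_SS.1 hS).1
    rw [Fin.sum_univ_castSucc] at this ⊢
    simp only [Function.update_self, Function.update_of_ne (Fin.castSucc_ne_last _)]
    omega
  obtain e | e | e : n - x.cycleType.sum = 0 ∨ n - x.cycleType.sum = 1 ∨ n - x.cycleType.sum = 2 := by omega
  · refine key 1 1 ![2, n - 1] (mem_SS.2 ⟨by simp; omega, by simp [Fin.strictMono_iff_lt_succ]; omega⟩) le_rfl (by simp)
      (by simp) (fun i j => by fin_cases i <;> fin_cases j <;> simp) ?_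
    rw [XS_eval _ _ (h4.resolve_right (by omega)) (by simp), if_neg (by simp; omega)]
  · refine key 1 0 ![1, n] (mem_SS.2 ⟨by simp; omega, by simp [Fin.strictMono_iff_lt_succ]; omega⟩) zero_le_one (by simp)
      (by simp) (fun i j => by fin_cases i <;> fin_cases j <;> simp) ?_
    rw [XS, PP_cycleType, mul_left_comm, cf_prod _ _ fun k hk i hi => by fin_cases i <;> simp_all; exact h3 k hk,
      (alt_pow _).cf_eq_zero fun h => by simpa [e] using @h 0 1, ite_self]
  · refine key 2 0 ![1, 2, n] (mem_SS.2 ⟨by simp [Fin.sum_univ_three]; omega, by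
      simp [Fin.strictMono_iff_lt_succ, Fin.forall_fin_two]; omega⟩) zero_le_one (fun i => by fin_cases i <;> simp)
      (by simp) (fun i j => by fin_cases i <;> fin_cases j <;> simp) ?_
    rw [XS_eval _ _ (h4.resolve_right (by omega)) (fun i => by fin_cases i <;> simp),
      (alt_pow _).cf_eq_zero fun h => by simpa [e] using @h 1 2, ite_self]

/-- For n ≥ 7 the alternating group on n letters has an irreducible character that vanishes at some 2-element and is the restriction of an irreducible character of the symmetric group, and an irreducible character that vanishes at some element of order 3 and is the restriction of an irreducible character of the symmetric group. -/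
theorem result (n : ℕ) (hn : 7 ≤ n) : (∃ χ : Cfsg.IrrCharacter (alternatingGroup (Fin n)), (∃ x : alternatingGroup (Fin n), (∃ j : ℕ, orderOf x = 2 ^ j) ∧ (χ : alternatingGroup (Fin n) → ℂ) x = 0) ∧ ∃ ψ : Cfsg.IrrCharacter (Equiv.Perm (Fin n)), ∀ x : alternatingGroup (Fin n), (ψ : Equiv.Perm (Fin n) → ℂ) x = (χ : alternatingGroup (Fin n) → ℂ) x) ∧ (∃ χ : Cfsg.IrrCharacter (alternatingGroup (Fin n)), (∃ y : alternatingGroup (Fin n), orderOf y = 3 ∧ (χ : alternatingGroup (Fin n) → ℂ) y = 0) ∧ ∃ ψ : Cfsg.IrrCharacter (Equiv.Perm (Fin n)), ∀ x : alternatingGroup (Fin n), (ψ : Equiv.Perm (Fin n) → ℂ) x = (χ : alternatingGroup (Fin n) → ℂ) x) := by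
  have hl : ∀ (p : ℕ) (s : Multiset ℕ), (∀ k ∈ s, k ∣ 2 ^ 3) → ∃ j, s.lcm = 2 ^ j := fun p s h =>
    ((Nat.dvd_prime_pow Nat.prime_two).1 (Multiset.lcm_dvd.2 h)).imp fun _ h => h.2
  constructor
  · have key : ∀ a b c, 2 * a + 4 * b + 8 * c ≤ n → n - (2 * a + 4 * b + 8 * c) ≤ 2 →
        (a = 0 ∨ n - (2 * a + 4 * b + 8 * c) = 1) → Even (a + b + c) → _ := fun a b c h1 h2 h3 h4 =>
      main hn (fun k => ∃ j, k = 2 ^ j) (s := .replicate a 2 + .replicate b 4 + .replicate c 8) (by simp; omega)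
        (by simp; omega) (by simp [Multiset.mem_replicate]; omega)
        (h3.imp (by rintro rfl; simp [Multiset.mem_replicate]; omega) (by simp; omega))
        (by simp [parity_simps] at h4 ⊢; exact h4) (hl 2 _ (by simp +contextual [Multiset.mem_replicate, or_imp]))
    obtain h | h | h | h : n % 4 = 1 ∨ n % 4 = 3 ∨ n % 8 = 0 ∨ n % 8 = 2 ∨ n % 8 = 4 ∨ n % 8 = 6 := by omega
    · exact key (n / 2) 0 0 (by omega) (by omega) (by omega) (by rw [Nat.even_iff]; omega)
    · exact key (n / 2 - 2) 1 0 (by omega) (by omega) (by omega) (by rw [Nat.even_iff]; omega)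
    · exact key 0 (n / 4) 0 (by omega) (by omega) (by omega) (by rw [Nat.even_iff]; omega)
    obtain h | h := h
    · exact key 0 (n / 4) 0 (by omega) (by omega) (by omega) (by rw [Nat.even_iff]; omega)
    · exact key 0 (n / 4 - 2) 1 (by omega) (by omega) (by omega) (by rw [Nat.even_iff]; omega)
  · refine main hn (· = 3) (s := .replicate (n / 3) 3) (by simp; omega) (by simp; omega)
      (by simp [Multiset.mem_replicate]) (by simp [Multiset.mem_replicate]) (by simp [Nat.even_iff]; omega) ?_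
    refine Nat.dvd_antisymm (Multiset.lcm_dvd.2 fun k hk => by rw [Multiset.eq_of_mem_replicate hk])
      (Multiset.dvd_lcm (by simp [Multiset.mem_replicate]; omega))

end Cfsg.Agent.S4560
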