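import Mathlib
import Cfsg.Statements.S4561
import Cfsg.Agent.H07.Wr

set_option autoImplicit false
universe u
open Cfsg
open H05 H06 H07 Subgroup

namespace Cfsg.Agent.S4561

/-- For every finite solvable group G there is a finite group H with a faithful irreducible character χ whose degree squared equals the index of the centre Z(H) (so χ is fully ramified over the centre), such that G is isomorphic to a subgroup of H/Z(H), the primes dividing the orders of H, of Z(H) and of G are the same, and the order of Z(H) is squarefree. -/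
theorem result {G : Type u} [Group G] [Finite G] (hsolv : Group.IsSolvable G) : ∃ (H : Type u) (_ : Group H) (_ : Finite H) (χ : Cfsg.IrrCharacter H), (∀ h : H, (χ : H → ℂ) h = (χ : H → ℂ) 1 → h = 1) ∧ (Cfsg.charDegree (χ : H → ℂ)) ^ 2 = (Subgroup.center H).index ∧ (∃ f : G →* H ⧸ Subgroup.center H, Function.Injective f) ∧ (∀ p : ℕ, p.Prime → ((p ∣ Nat.card H ↔ p ∣ Nat.card G) ∧ (p ∣ Nat.card (Subgroup.center H) ↔ p ∣ Nat.card G))) ∧ Squarefree (Nat.card (Subgroup.center H)) := by
  obtain ⟨H, _, _, χ, h1, h2, h3, h4, h5⟩ := H07.Wr.exists_ct _ G rfl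
  exact ⟨H, _, ‹_›, χ, h1, h2, h3, fun p hp => ⟨⟨(h4 p hp).1, fun h =>
    ((h4 p hp).2 h).trans (card_subgroup_dvd_card _)⟩,
    ⟨fun h => (h4 p hp).1 (h.trans (card_subgroup_dvd_card _)), (h4 p hp).2⟩⟩, h5⟩

end Cfsg.Agent.S4561
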