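import Mathlib
import Cfsg.Statements.S4567
import Cfsg.Agent.H07.Cnt
import Cfsg.Agent.S4566

set_option autoImplicit false
open Cfsg
open H05 Cfsg H07
open scoped ComplexConjugate

namespace Cfsg.Agent.S4567

/-- Let N be a central subgroup of the finite group G and ψ a faithful irreducible (hence degree-one) character of N. Call a coset g N special when every x ∈ G whose commutator x⁻¹ g⁻¹ x g lies in N actually commutes with g (this depends only on the coset). Then the number of irreducible characters of G whose restriction to N contains ψ equals the number of conjugacy classes of G/N consisting of special cosets. -/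
theorem result {G : Type*} [Group G] [Fintype G] (N : Subgroup G) [N.Normal] [Fintype N] (hN : N ≤ Subgroup.center G) (ψ : Cfsg.IrrCharacter ↥N) (hfaith : ∀ n : ↥N, (ψ : ↥N → ℂ) n = (ψ : ↥N → ℂ) 1 → n = 1) : Nat.card {χ : Cfsg.IrrCharacter G // Cfsg.classInner (fun n : ↥N => (χ : G → ℂ) n) (ψ : ↥N → ℂ) ≠ 0} = Nat.card {C : ConjClasses (G ⧸ N) // ∃ g : G, ConjClasses.mk (g : G ⧸ N) = C ∧ ∀ x : G, x⁻¹ * g⁻¹ * x * g ∈ N → x * g = g * x} := by
  classical
  have := Fintype.ofFinite (G ⧸ N)
  have hZ : ∀ z ∈ N, ∀ x, x * z = z * x := fun z hz => Subgroup.mem_center_iff.1 (hN hz)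
  have hc : IsMulCommutative N := ⟨⟨fun a b => Subtype.ext (hZ b b.2 a)⟩⟩
  have h1 : ∀ (χ : IrrCharacter G) (g : G), ∑ n : N, conj (ψ.1 n) * χ.1 (n * g) =
      if classInner (fun n : N => χ.1 n) ψ.1 ≠ 0 then Nat.card N * χ.1 g else 0 := fun χ g => by
    have h2 : ∑ n : N, conj (ψ.1 n) * χ.1 (n * g) =
        Nat.card N * classInner (fun n : N => χ.1 n) ψ.1 * χ.1 g / χ.1 1 := by
      simp only [card_mul_classInner, Finset.sum_mul, Finset.sum_div]
      exact Finset.sum_congr rfl fun n _ => by rw [χ.2.apply_mul_of_mem_center (hN n.2)]; ring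
    rw [h2]
    split_ifs with h
    · have h3 := congrFun (H06.clifford_invariant N χ.2 ψ.2 h fun x => funext fun n =>
        congrArg ψ.1 (Subtype.ext (by simp [hZ n n.2 x]))) 1
      simp only [Pi.smul_apply, ψ.2.apply_one_of_comm, smul_eq_mul, mul_one, OneMemClass.coe_one] at h3
      have := χ.2.apply_one_ne_zero
      rw [← h3]; field_simp
    · simp [not_not.1 h]
  let P : ConjClasses (G ⧸ N) → Prop := fun C => ∃ g : G, ConjClasses.mk (g : G ⧸ N) = C ∧
    ∀ x : G, x⁻¹ * g⁻¹ * x * g ∈ N → x * g = g * x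
  have h2 : ∀ g : G, ∑ χ : IrrCharacter G, (if classInner (fun n : N => χ.1 n) ψ.1 ≠ 0 then
      χ.1 g * conj (χ.1 g) else 0) = if P (ConjClasses.mk (g : G ⧸ N)) then
      (Nat.card (Subgroup.centralizer ({(g : G ⧸ N)} : Set (G ⧸ N))) : ℂ) else 0 := fun g => by
    by_cases hg : ∀ x : G, x⁻¹ * g⁻¹ * x * g ∈ N → x * g = g * x
    · rw [if_pos ⟨g, rfl, hg⟩]
      apply mul_left_cancel₀ (H06.natCard_ne_zero N)
      have h3 : (Subgroup.centralizer ({(g : G ⧸ N)} : Set (G ⧸ N))).comap (QuotientGroup.mk' N) =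
          Subgroup.centralizer {g} := by
        ext x
        simp only [Subgroup.mem_comap, Subgroup.mem_centralizer_singleton_iff, QuotientGroup.mk'_apply,
          ← QuotientGroup.mk_mul]
        exact ⟨fun h => hg x (by simpa [mul_assoc] using QuotientGroup.eq.1 h.symm), fun h => by rw [h]⟩
      have h4 : Nat.card (Subgroup.centralizer ({g} : Set G)) =
          Nat.card N * Nat.card (Subgroup.centralizer ({(g : G ⧸ N)} : Set (G ⧸ N))) := by
        apply mul_right_cancel₀ (Subgroup.index_ne_zero_of_finite (H := Subgroup.centralizer ({g} : Set G)))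
        rw [Subgroup.card_mul_index, ← h3, Subgroup.index_comap_of_surjective _ (QuotientGroup.mk'_surjective N),
          mul_assoc, Subgroup.card_mul_index, ← Subgroup.index_eq_card, Subgroup.card_mul_index]
      have h5 : ∀ χ : IrrCharacter G, (Nat.card N : ℂ) * (if classInner (fun n : N => χ.1 n) ψ.1 ≠ 0 then
          χ.1 g * conj (χ.1 g) else 0) = ∑ n : N, conj (ψ.1 n) * (χ.1 (n * g) * conj (χ.1 g)) := fun χ => by
        simp only [← mul_assoc, ← Finset.sum_mul, h1]; split_ifs <;> simp [mul_assoc]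
      rw [Finset.mul_sum, Finset.sum_congr rfl fun χ _ => h5 χ, Finset.sum_comm]
      simp only [← Finset.mul_sum]
      rw [Finset.sum_eq_single 1 (fun n _ hn => ?_) (by simp)]
      · simp [-Nat.card_eq_fintype_card, sum_irr_mul_conj_of_isConj (IsConj.refl g), ψ.2.apply_one_of_comm, h4]
      · rw [sum_irr_mul_conj_of_not_isConj, mul_zero]
        intro h
        obtain ⟨c, hc⟩ := isConj_iff.1 h.symm
        have h6 : c⁻¹⁻¹ * g⁻¹ * c⁻¹ * g = (n : G)⁻¹ := by
          rw [inv_inv, show c * g⁻¹ * c⁻¹ = (c * g * c⁻¹)⁻¹ by group, hc, ← hZ n n.2 g]; group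
        have h7 := hg _ (h6 ▸ inv_mem n.2)
        rw [mul_assoc, mul_assoc, h7] at h6
        exact hn (Subtype.ext (by simpa using h6.symm))
    · rw [if_neg, Finset.sum_eq_zero fun χ _ => ?_]
      · push Not at hg
        obtain ⟨x, h3, h4⟩ := hg
        split_ifs with h
        · rw [S4566.result N hN ψ hfaith χ h g x h3 fun e => h4 (by
            rw [← mul_one (g * x), ← e]; group), zero_mul]
        · rfl
      · rintro ⟨y, h3, h4⟩
        obtain ⟨c, hc⟩ := isConj_iff.1 (ConjClasses.mk_eq_mk_iff_isConj.1 h3)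
        obtain ⟨c, rfl⟩ := QuotientGroup.mk_surjective c
        have h5 : (c * y * c⁻¹)⁻¹ * g ∈ N := QuotientGroup.eq.1 hc
        obtain ⟨z, hz, rfl⟩ : ∃ z ∈ N, g = c * y * c⁻¹ * z := ⟨_, h5, by group⟩
        refine hg fun x hx => ?_
        have h7 : ∀ w, x⁻¹ * (w * z)⁻¹ * x * (w * z) = x⁻¹ * w⁻¹ * x * w := fun w => by
          calc _ = x⁻¹ * z⁻¹ * (w⁻¹ * x * w * z) := by group
            _ = _ := by rw [hZ z hz]; group
        rw [h7] at hx
        have h6 := h4 (c⁻¹ * x * c) (by convert ‹N.Normal›.conj_mem' _ hx c using 1; group)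
        calc _ = c * (c⁻¹ * x * c * y) * c⁻¹ * z := by group
          _ = c * y * c⁻¹ * (x * z) := by rw [h6]; group
          _ = _ := by rw [hZ z hz x, ← mul_assoc]
  have h3 := (Finset.sum_congr rfl fun g (_ : g ∈ Finset.univ) => h2 g).trans
    (sum_comp_of_surjective (QuotientGroup.mk' N) (QuotientGroup.mk'_surjective N) fun q =>
      if P (ConjClasses.mk q) then (Nat.card (Subgroup.centralizer ({q} : Set (G ⧸ N))) : ℂ) else 0)
  rw [Finset.sum_comm,
    H06.sum_card_centralizer_ite, QuotientGroup.ker_mk', ← mul_assoc, ← Nat.cast_mul, ← Subgroup.index_eq_card,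
    Subgroup.card_mul_index] at h3
  simp only [Finset.sum_ite_irrel, ← card_mul_classInner, Finset.sum_const_zero,
    fun χ : IrrCharacter G => χ.2.classInner_self, mul_one] at h3
  rw [← Finset.sum_filter, Finset.sum_const, nsmul_eq_mul, mul_comm] at h3
  rw [Nat.subtype_card _ fun χ => (Finset.mem_filter_univ χ)]
  exact_mod_cast mul_left_cancel₀ (H06.natCard_ne_zero G) h3

end Cfsg.Agent.S4567
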