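import Mathlib
import Cfsg.Statements.S4574
import Cfsg.Agent.H07.Cnt

set_option autoImplicit false
open Cfsg
open H05 Cfsg H07

namespace Cfsg.Agent.S4574

/-- Let χ be an irreducible character of the finite group G, of degree d, and let Z(χ) be the set of elements g with |χ g| = d (the centre of χ). Then χ vanishes on at least (d ^ 2 - 1) · |Z(χ)| elements of G, with equality when every value |χ g| is 0, 1 or d. -/
theorem result {G : Type*} [Group G] [Fintype G] [DecidableEq G] (χ : G → ℂ) (hχ : Cfsg.IsIrrCharacter G χ) : (Cfsg.charDegree χ ^ 2 - 1) * (Finset.univ.filter (fun g : G => ‖χ g‖ = (Cfsg.charDegree χ : ℝ))).card ≤ (Finset.univ.filter (fun g : G => χ g = 0)).card ∧ ((∀ g : G, ‖χ g‖ = 0 ∨ ‖χ g‖ = 1 ∨ ‖χ g‖ = (Cfsg.charDegree χ : ℝ)) → (Cfsg.charDegree χ ^ 2 - 1) * (Finset.univ.filter (fun g : G => ‖χ g‖ = (Cfsg.charDegree χ : ℝ))).card = (Finset.univ.filter (fun g : G => χ g = 0)).card) := by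
  have h1 := hχ.sum_norm_sq
  have hd : (1 : ℝ) ≤ charDegree χ := by exact_mod_cast hχ.charDegree_pos
  rw [← Finset.sum_filter_add_sum_filter_not _ (fun g => ‖χ g‖ = charDegree χ),
    ← Finset.sum_filter_add_sum_filter_not (Finset.filter (fun g => ¬ _) _) (fun g => χ g = 0),
    Finset.sum_congr rfl (g := fun _ => (charDegree χ : ℝ) ^ 2) (fun g hg => by
      rw [(Finset.mem_filter.1 hg).2]), Finset.sum_eq_zero (s := Finset.filter (fun g => χ g = 0) _)
      (fun g hg => by simp [(Finset.mem_filter.1 hg).2]), Finset.sum_const, nsmul_eq_mul] at h1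
  have h2 := Finset.card_filter_add_card_filter_not (s := Finset.univ) fun g => ‖χ g‖ = charDegree χ
  have h3 := Finset.card_filter_add_card_filter_not
    (s := Finset.univ.filter fun g => ¬ ‖χ g‖ = charDegree χ) fun g => χ g = 0
  have h4 : (Finset.univ.filter fun g => ¬ ‖χ g‖ = charDegree χ).filter (fun g => χ g = 0) =
      Finset.univ.filter fun g => χ g = 0 := by
    ext g
    simp only [Finset.mem_filter, Finset.mem_univ, true_and, and_iff_right_iff_imp]
    intro h; rw [h, norm_zero]; linarith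
  rw [h4, ← Nat.cast_inj (R := ℝ)] at h3
  rw [Finset.card_univ, ← Nat.card_eq_fintype_card, ← Nat.cast_inj (R := ℝ)] at h2
  push_cast at h2 h3
  have h5 : 1 ≤ charDegree χ ^ 2 := Nat.one_le_pow _ _ hχ.charDegree_pos
  refine ⟨?_, fun h => ?_⟩
  · have h6 := card_le_sum_norm_sq hχ.isGeneralizedCharacter
      ((Finset.univ.filter fun g => ¬ ‖χ g‖ = charDegree χ).filter fun g => ¬ χ g = 0) (fun x hx k hk => by
        simp only [Finset.mem_filter, Finset.mem_univ, true_and, ← hχ.mem_charCenter] at hx ⊢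
        exact ⟨fun h => hx.1 (mem_of_pow_mem hk h), by
          rw [hχ.isGeneralizedCharacter.apply_pow_eq_zero_iff x
            (hk.coprime_dvd_right (orderOf_dvd_natCard x))]; exact hx.2⟩)
      fun x hx => (Finset.mem_filter.1 hx).2
    rw [← Nat.cast_le (α := ℝ)]; push_cast [h5]; linarith
  · rw [Finset.sum_congr rfl (g := fun _ => (1 : ℝ)) (fun g hg => by
      simp only [Finset.mem_filter, Finset.mem_univ, true_and] at hg
      rw [((h g).resolve_left (by simpa using hg.2)).resolve_right hg.1, one_pow]), Finset.sum_const,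
      nsmul_eq_mul] at h1
    rw [← Nat.cast_inj (R := ℝ)]; push_cast [h5]; linarith

end Cfsg.Agent.S4574
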