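import Mathlib
import Cfsg.Agent.H20.Defect
import Cfsg.Agent.H21.Major
import Cfsg.Agent.H07.Gallagher
import Cfsg.Agent.H07.Extend
-- Template for statement S4580 (row 4580; see /opt/grader/pristine/manifest.json for weights).
-- Copy to Cfsg/Agent/S4580.lean and replace the sorry. The statement below is byte-identical to the frozen
-- statement Cfsg.CfsgFrozen.S4580 (Cfsg/Statements/S4580.lean; the theorem Cfsg.chr3_real_odd_degree_extendible_character_extends_in_principal_two_block);
-- the grader kernel-checks Cfsg.Agent.S4580.result against that frozen type. Keep the theorem IN THIS FILE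
-- (a `result` declared elsewhere and merely imported here is not credited); helpers may live anywhere
-- under Cfsg/Agent/.
import Cfsg.Statements.S4580
-- import your own Cfsg.Agent.* helpers here

set_option autoImplicit false
open Cfsg

open H20 H05 H21 MonoidAlgebra Cfsg

namespace Cfsg.Agent.S4580

/-- Let N be a normal subgroup of the finite group G, M a maximal ideal of the algebraic integers containing 2, and θ a real-valued irreducible character of N of odd degree that extends to G (some irreducible character of G restricts to θ). Then θ has an extension to G lying in the principal 2-block of G. -/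
theorem result {G : Type*} [Group G] [Finite G] (N : Subgroup G) [N.Normal] (M : Ideal Cfsg.AlgInt) (hM : Cfsg.IsPModular 2 M) (θ : Cfsg.IrrCharacter N) (hreal : ∀ n : N, ((θ : N → ℂ) n).im = 0) (hodd : Odd (Cfsg.charDegree (θ : N → ℂ))) (hext : ∃ η : Cfsg.IrrCharacter G, ∀ n : N, (η : G → ℂ) n = (θ : N → ℂ) n) :
    ∃ η : Cfsg.IrrCharacter G, (∀ n : N, (η : G → ℂ) n = (θ : N → ℂ) n) ∧ η ∈ Cfsg.principalBlock M G := by
  classical
  have := hM.2.1
  have := Fintype.ofFinite G
  have := Fintype.ofFinite N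
  obtain ⟨η, hη⟩ := hext
  have h1 : ∀ n : N, (starRingEnd ℂ) ((η : G → ℂ) n) = (θ : N → ℂ) n := fun n => by
    rw [hη]; exact Complex.conj_eq_iff_im.2 (hreal n)
  obtain ⟨μ, hμ1, hμ2⟩ := H07.exists_hom_of_ext_ext N θ.2 η.2.isCharacter hη η.2.isCharacter.conj h1
  obtain ⟨k, m, hm, hkm⟩ := Nat.exists_eq_two_pow_mul_odd (Nat.card_pos (α := G)).ne'
  obtain ⟨r, hr⟩ := hm
  have hμ3 : ∀ g : G, ¬ 2 ∣ orderOf g → μ g ^ m = 1 := by
    intro g hg
    have h2 : orderOf g ∣ m := by
      have h3 : orderOf g ∣ 2 ^ k * m := hkm ▸ orderOf_dvd_natCard g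
      exact (Nat.Coprime.pow_right k ((Nat.Prime.coprime_iff_not_dvd Nat.prime_two).2 hg).symm).dvd_of_dvd_mul_left h3
    rw [← map_pow, orderOf_dvd_iff_pow_eq_one.1 h2, map_one]
  let χ : IrrCharacter G := ⟨fun g => (η : G → ℂ) g * (μ ^ (r + 1)) g, η.2.mul_monoidHom _⟩
  have hχ : ∀ n : N, (χ : G → ℂ) n = (θ : N → ℂ) n := fun n => by
    show (η : G → ℂ) n * (μ ^ (r + 1)) n = _
    rw [MonoidHom.pow_apply, hμ1 n n.2, one_pow, Units.val_one, mul_one, hη]
  refine ⟨χ, hχ, mem_principal_of_inv_twin hM (ψ := χ) ?_ (H20.sameBlock_refl _) fun g hg => ?_⟩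
  · rw [H07.charDegree_eq_of_res N hχ]
    exact Odd.not_two_dvd_nat hodd
  · show (η : G → ℂ) g * (μ ^ (r + 1)) g = (η : G → ℂ) g⁻¹ * (μ ^ (r + 1)) g⁻¹
    rw [η.2.apply_inv, congrFun hμ2 g, mul_assoc, ← Units.val_mul]
    congr 2
    have := hμ3 g hg
    rw [MonoidHom.pow_apply, MonoidHom.pow_apply, map_inv, inv_pow, eq_mul_inv_iff_mul_eq, ← pow_add,
      show r + 1 + (r + 1) = m + 1 by omega, pow_succ, this, one_mul]

end Cfsg.Agent.S4580
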