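import Cfsg.Statements.S4582
import Cfsg.Agent.BG.Api
import Cfsg.Agent.H03.Focal
-- import your own Cfsg.Agent.* helpers here

set_option autoImplicit false
open Cfsg
open scoped commutatorElement

namespace Cfsg.Agent.S4582

/-- Let N be a normal subgroup of the finite group G, P a Sylow 2-subgroup of G and Q = P ∩ N. Suppose that P/QP' and Q/Q' are elementary abelian (every square of an element of P lies in the subgroup generated by Q and the derived subgroup of P, and every square of an element of Q lies in the derived subgroup of Q), and that the commutator factor group N/N' has odd order. Then P/P' is elementary abelian. -/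
theorem result {G : Type*} [Group G] [Finite G] (N : Subgroup G) [N.Normal] (P : Sylow 2 G)
    (hP : ∀ x ∈ (P : Subgroup G), x ^ 2 ∈ ((P : Subgroup G) ⊓ N) ⊔ ⁅(P : Subgroup G), (P : Subgroup G)⁆)
    (hQ : ∀ x ∈ (P : Subgroup G) ⊓ N, x ^ 2 ∈ ⁅(P : Subgroup G) ⊓ N, (P : Subgroup G) ⊓ N⁆)
    (hodd : Odd (Nat.card (Abelianization N))) :
    ∀ x ∈ (P : Subgroup G), x ^ 2 ∈ ⁅(P : Subgroup G), (P : Subgroup G)⁆ := by
  open BG in
  classical
  intro x hx
  set G₀ := N ⊔ (P : Subgroup G)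
  have hPG : (P : Subgroup G) ≤ G₀ := le_sup_right
  let H := (P : Subgroup G).subgroupOf G₀
  let φ : H →* Abelianization P :=
    Abelianization.of.comp (Subgroup.subgroupOfEquivOfLe hPG).toMonoidHom
  have hφ : ∀ h : H, φ h = 1 ↔ (h : G) ∈ ⁅(P : Subgroup G), (P : Subgroup G)⁆ := by
    intro h
    rw [← Subgroup.map_subtype_commutator]
    refine (QuotientGroup.eq_one_iff _).trans ⟨fun h' => ⟨_, h', rfl⟩, ?_⟩
    rintro ⟨y, hy, e⟩
    have e' : y = Subgroup.subgroupOfEquivOfLe hPG h := Subtype.ext e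
    exact e' ▸ hy
  have hA : IsPGroup 2 (Abelianization P) := P.isPGroup'.to_quotient _
  let V := MonoidHom.transfer φ
  have hVN : ∀ n : G₀, (n : G) ∈ N → V n = 1 := by
    intro n hn
    let f : N →* Abelianization P := V.comp (Subgroup.inclusion le_sup_left)
    have h1 : (Abelianization.lift f (Abelianization.of ⟨n, hn⟩)) ^ Nat.card (Abelianization N) = 1 := by
      rw [← map_pow, pow_card_eq_one', map_one]
    obtain ⟨k, hk⟩ := hA (V n)
    exact orderOf_eq_one_iff.1 (Nat.eq_one_of_dvd_coprimes (hodd.coprime_two_right.pow_right k)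
      (orderOf_dvd_of_pow_eq_one h1) (orderOf_dvd_of_pow_eq_one hk))
  have hV2 : V ⟨x, hPG hx⟩ ^ 2 = 1 := by
    have : ((P : Subgroup G) ⊓ N) ⊔ ⁅(P : Subgroup G), (P : Subgroup G)⁆ ≤ V.ker.map G₀.subtype := by
      refine sup_le (fun y hy => ⟨⟨y, hPG hy.1⟩, hVN _ hy.2, rfl⟩) (Subgroup.commutator_le.2 fun a ha b hb => ?_)
      exact ⟨⁅(⟨a, hPG ha⟩ : G₀), ⟨b, hPG hb⟩⁆, H03.map_eq_one_of_mem_commutator V
        (Subgroup.commutator_mem_commutator (Subgroup.mem_top _) (Subgroup.mem_top _)), rfl⟩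
    obtain ⟨y, hy, e⟩ := this (hP x hx)
    rw [← map_pow]
    have e' : y = ⟨x, hPG hx⟩ ^ 2 := Subtype.ext e
    exact e' ▸ hy
  have h1 : MonoidHom.transfer (φ ^ 2) ⟨x, hPG hx⟩ = V ⟨x, hPG hx⟩ ^ 2 := by
    haveI := Fintype.ofFinite (MulAction.orbitRel.Quotient (Subgroup.zpowers (⟨x, hPG hx⟩ : G₀)) (G₀ ⧸ H))
    simp only [V, MonoidHom.transfer_eq_prod_quotient_orbitRel_zpowers_quot, MonoidHom.pow_apply, Finset.prod_pow]
  have h2 := H03.transfer_eq_pow_of_forall (φ ^ 2) (⟨x, hPG hx⟩ : G₀) (φ ⟨⟨x, hPG hx⟩, hx⟩ ^ 2) (by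
    rintro k ⟨g, hg⟩ hk
    obtain ⟨y, hy, n, hn, rfl⟩ := Subgroup.mem_sup_of_normal_right.1 (sup_comm N _ ▸ hg : g ∈ (P : Subgroup G) ⊔ N)
    have hw : y⁻¹ * x ^ k * y ∈ (P : Subgroup G) := mul_mem (mul_mem (inv_mem hy) (pow_mem hx k)) hy
    have hk' : (y * n)⁻¹ * x ^ k * (y * n) ∈ (P : Subgroup G) := hk
    have hq : (y⁻¹ * x ^ k * y)⁻¹ * ((y * n)⁻¹ * x ^ k * (y * n)) ∈ (P : Subgroup G) ⊓ N := by
      refine Subgroup.mem_inf.2 ⟨mul_mem (inv_mem hw) hk', ?_⟩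
      have := N.mul_mem (Subgroup.Normal.conj_mem inferInstance _ (inv_mem hn) (y⁻¹ * x ^ k * y)⁻¹) hn
      convert this using 1
      group
    let a : H := ⟨⟨x, hPG hx⟩, hx⟩
    let b : H := ⟨⟨y, hPG hy⟩, hy⟩
    let c : H := ⟨⟨_, hPG hq.1⟩, hq.1⟩
    have e : (⟨_, hk⟩ : H) = b⁻¹ * a ^ k * b * c := by
      apply Subtype.ext; apply Subtype.ext
      change (y * n)⁻¹ * x ^ k * (y * n) = y⁻¹ * x ^ k * y * _
      rw [mul_inv_cancel_left]
    have hc : φ c ^ 2 = 1 := by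
      rw [← map_pow, hφ]
      exact Subgroup.commutator_mono inf_le_left inf_le_left (hQ _ hq)
    rw [e, MonoidHom.pow_apply, map_mul, mul_pow, hc, mul_one, map_mul, map_mul, map_inv, inv_mul_cancel_comm,
      map_pow, ← pow_mul, ← pow_mul, mul_comm])
  rw [h1, hV2] at h2
  have hi : ¬ 2 ∣ H.index := fun h => P.not_dvd_index (h.trans (Subgroup.relIndex_dvd_index_of_le hPG))
  obtain ⟨k, hk⟩ := hA (φ ⟨⟨x, hPG hx⟩, hx⟩ ^ 2)
  have h3 : φ ⟨⟨x, hPG hx⟩, hx⟩ ^ 2 = 1 := orderOf_eq_one_iff.1 (Nat.eq_one_of_dvd_coprimes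
    ((((Nat.Prime.coprime_iff_not_dvd Nat.prime_two).2 hi).symm).pow_right k)
      (orderOf_dvd_of_pow_eq_one h2.symm) (orderOf_dvd_of_pow_eq_one hk))
  rw [← map_pow, hφ] at h3
  exact h3

end Cfsg.Agent.S4582
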