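import Mathlib
import Cfsg.Agent.H20.Cnt
-- Template for statement S4583 (row 4583; see /opt/grader/pristine/manifest.json for weights).
-- Copy to Cfsg/Agent/S4583.lean and replace the sorry. The statement below is byte-identical to the frozen
-- statement Cfsg.CfsgFrozen.S4583 (Cfsg/Statements/S4583.lean; the theorem Cfsg.blk3_principal_block_p_prime_degree_character_over_extendible);
-- the grader kernel-checks Cfsg.Agent.S4583.result against that frozen type. Keep the theorem IN THIS FILE
-- (a `result` declared elsewhere and merely imported here is not credited); helpers may live anywhere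
-- under Cfsg/Agent/.
import Cfsg.Statements.S4583
-- import your own Cfsg.Agent.* helpers here

set_option autoImplicit false
open Cfsg

open H20 H05 H21 MonoidAlgebra Cfsg

namespace Cfsg.Agent.S4583

/-- Let N be a normal subgroup of the finite group G, p a prime, M a maximal ideal of the algebraic integers containing p, and P a Sylow p-subgroup of G. Let θ be an irreducible character of N of degree prime to p lying in the principal p-block of N, and suppose θ extends to the subgroup NP (some irreducible character of NP restricts to θ). Then some irreducible character χ of G of degree prime to p in the principal p-block of G lies over θ (θ is a constituent of the restriction of χ to N). -/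
theorem result {G : Type*} [Group G] [Finite G] (N : Subgroup G) [N.Normal] (p : ℕ) [Fact p.Prime] (M : Ideal Cfsg.AlgInt) (hM : Cfsg.IsPModular p M) (P : Sylow p G)
    (θ : Cfsg.IrrCharacter N) (hθ : θ ∈ Cfsg.principalBlock M N) (hdeg : ¬ p ∣ Cfsg.charDegree (θ : N → ℂ))
    (hext : ∃ η : Cfsg.IrrCharacter ↥(N ⊔ (P : Subgroup G)), ∀ n : N, (η : ↥(N ⊔ (P : Subgroup G)) → ℂ) (Subgroup.inclusion le_sup_left n) = (θ : N → ℂ) n) :
    ∃ χ : Cfsg.IrrCharacter G, χ ∈ Cfsg.principalBlock M G ∧ ¬ p ∣ Cfsg.charDegree (χ : G → ℂ) ∧
      haveI := Fintype.ofFinite N; Cfsg.classInner (fun n : N => (χ : G → ℂ) n) (θ : N → ℂ) ≠ 0 := by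
  have := hM.2.1
  let := Fintype.ofFinite N
  obtain ⟨η, hη⟩ := hext
  obtain ⟨k, hk⟩ := exists_relIndex_sup_eq_pow (K := N) P.isPGroup'
  let e := Subgroup.subgroupOfEquivOfLe (le_sup_left : N ≤ N ⊔ (P : Subgroup G))
  have h1 : ∀ n : N.subgroupOf (N ⊔ (P : Subgroup G)), η.1 n = (irrComap e θ).1 n :=
    fun n => hη (e n)
  obtain ⟨χ, h2, h3, h4⟩ := exists_principal_over hM P le_sup_right
    ((mem_principal_iff_of_index hM hk (over_of_res h1)).2 (by
      rw [← bmap_principal e]; exact irrComap_mem_bmap.2 hθ))
    (by rwa [H07.charDegree_eq_of_res _ h1, coe_irrComap, charDegree, map_one])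
  exact ⟨χ, h2, h3, over_iff.1 (h4.trans le_sup_left χ.2.isCharacter (over_of_res h1))⟩

end Cfsg.Agent.S4583
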