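import Cfsg.Statements.S4584
import Cfsg.Agent.H24.PIdx
-- import your own Cfsg.Agent.* helpers here

set_option autoImplicit false
open Cfsg
open scoped commutatorElement

namespace Cfsg.Agent.S4584

/-- Let p be a prime and P a group of order p^4. Then the derived subgroup P' has order p if and only if the centre Z(P) has index p^2 in P. -/
theorem result {P : Type*} [Group P] [Finite P] (p : ℕ) [Fact p.Prime] (hP : Nat.card P = p ^ 4) :
    Nat.card (commutator P) = p ↔ (Subgroup.center P).index = p ^ 2 := by
  open BG in
  have hp : p.Prime := Fact.out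
  have hG : IsPGroup p P := IsPGroup.of_card hP
  -- an abelian subgroup of index `p` gives the formula
  have key : ∀ A : Subgroup P, IsMulCommutative A → A.index = p → ¬ IsMulCommutative P →
      Nat.card (commutator P) * Nat.card (Subgroup.center P) = p ^ 3 := by
    intro A hA hi hn
    haveI := H04.normal_of_index_eq hG hi
    have hex : ∃ x, x ∉ A := by
      by_contra hc
      push Not at hc
      have : A = ⊤ := eq_top_iff.2 fun x _ => hc x
      rw [this, Subgroup.index_top] at hi
      exact hp.one_lt.ne hi
    obtain ⟨x, hx⟩ := hex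
    have ht := H24.sup_zpowers_eq_top_of_index_prime (hi ▸ hp) hx
    have h := H24.card_eq_commutator_mul_of_abelian A hA x ht
    have hc : A ⊓ C_[x] = Subgroup.center P := by
      apply le_antisymm
      · rintro a ⟨ha, hax⟩
        have : A ⊔ Subgroup.zpowers x ≤ C_[a] := by
          refine sup_le (fun b hb => Subgroup.mem_centralizer_singleton_iff.2 ?_)
            (Subgroup.zpowers_le.2 (Subgroup.mem_centralizer_singleton_iff.2 ?_))
          · exact H04.isMulCommutative_iff'.1 hA b hb a ha
          · exact (Subgroup.mem_centralizer_singleton_iff.1 hax).symm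
        rw [ht] at this
        exact Subgroup.mem_center_iff.2 fun g =>
          Subgroup.mem_centralizer_singleton_iff.1 (this (Subgroup.mem_top g))
      · intro z hz
        refine ⟨?_, Subgroup.mem_centralizer_singleton_iff.2 (Subgroup.mem_center_iff.1 hz x).symm⟩
        by_contra hzA
        have ht' := H24.sup_zpowers_eq_top_of_index_prime (hi ▸ hp) hzA
        have := H04.isMulCommutative_sup_zpowers hA (x := z) (Subgroup.center_le_centralizer _ hz)
        rw [ht'] at this
        exact hn ⟨⟨fun a b => H04.isMulCommutative_iff'.1 this a trivial b trivial⟩⟩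
    rw [← hc, ← h]
    have h6 := Subgroup.card_mul_index A
    rw [hi, hP] at h6
    apply Nat.eq_of_mul_eq_mul_right hp.pos
    rw [h6]; ring
  have hZ := Subgroup.card_mul_index (Subgroup.center P)
  rw [hP] at hZ
  have hcz : ∀ x : P, x ∉ Subgroup.center P →
      Nat.card ↥(Subgroup.center P ⊔ Subgroup.zpowers x) ≥ p * Nat.card (Subgroup.center P) := by
    intro x hx
    have hlt : Subgroup.center P < Subgroup.center P ⊔ Subgroup.zpowers x :=
      lt_of_le_of_ne le_sup_left fun e => hx (e ▸ Subgroup.mem_sup_right (Subgroup.mem_zpowers x))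
    obtain ⟨a, ha⟩ := H04.card_eq_pow hG (Subgroup.center P)
    obtain ⟨b, hb⟩ := H04.card_eq_pow hG (Subgroup.center P ⊔ Subgroup.zpowers x)
    have := H04.card_lt_of_lt hlt
    rw [ha, hb] at this ⊢
    have := (Nat.pow_lt_pow_iff_right hp.one_lt).1 this
    rw [← pow_succ']
    exact Nat.pow_le_pow_right hp.pos this
  have hzc : IsMulCommutative (Subgroup.center P) := inferInstance
  have hidx : ∀ A : Subgroup P, A ≠ ⊤ → p ^ 3 ≤ Nat.card A → A.index = p := by
    intro A hA h3
    obtain ⟨a, ha⟩ := H04.card_eq_pow hG A
    have h6 := Subgroup.card_mul_index A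
    have hlt := H04.card_lt_of_lt (lt_top_iff_ne_top.2 hA)
    rw [Subgroup.card_top, hP, ha] at hlt
    rw [ha] at h3 h6
    have h1 := (Nat.pow_lt_pow_iff_right hp.one_lt).1 hlt
    have h2 := (Nat.pow_le_pow_iff_right hp.one_lt).1 h3
    obtain rfl : a = 3 := by omega
    rw [hP] at h6
    apply Nat.eq_of_mul_eq_mul_left (pow_pos hp.pos 3)
    rw [h6]; ring
  have hex : ¬ IsMulCommutative P → ∃ x, x ∉ Subgroup.center P := by
    intro hn
    by_contra hc
    push Not at hc
    exact hn ⟨⟨fun a b => Subgroup.mem_center_iff.1 (hc b) a⟩⟩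
  constructor
  · intro h
    have hn : ¬ IsMulCommutative P := by
      intro hc
      have : commutator P = ⊥ := by
        rw [commutator_def, Subgroup.commutator_eq_bot_iff_le_centralizer]
        intro a _ b _
        exact hc.1.1 b a
      rw [this, Subgroup.card_bot] at h
      exact hp.one_lt.ne h
    obtain ⟨x, hx⟩ := hex hn
    have hle := H04.le_center_of_card_eq hG (commutator P) h
    -- the centralizer of `x` has index at most `p`
    let f : P →* commutator P := MonoidHom.mk'
      (fun y => ⟨⁅x, y⁆, Subgroup.commutator_mem_commutator (Subgroup.mem_top _) (Subgroup.mem_top _)⟩)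
      (fun a b => Subtype.ext (H04.commutatorElement_mul_right_of_center
        (hle (Subgroup.commutator_mem_commutator (Subgroup.mem_top _) (Subgroup.mem_top _)))))
    have hk : f.ker = C_[x] := by
      ext y
      rw [MonoidHom.mem_ker, Subtype.ext_iff, Subgroup.mem_centralizer_singleton_iff]
      exact commutatorElement_eq_one_iff_mul_comm.trans eq_comm
    have hne : C_[x] ≠ ⊤ := fun e => hx (Subgroup.mem_center_iff.2 fun g =>
      Subgroup.mem_centralizer_singleton_iff.1 (e ▸ Subgroup.mem_top g))
    have h3 : p ^ 3 ≤ Nat.card C_[x] := by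
      have h1 := Subgroup.card_mul_index f.ker
      rw [Subgroup.index_ker, hk, hP] at h1
      have h2 : Nat.card f.range ≤ p := h ▸ Subgroup.card_le_card_group _
      apply Nat.le_of_mul_le_mul_right _ hp.pos
      rw [← pow_succ, ← h1]
      exact Nat.mul_le_mul_left _ h2
    have hi := hidx _ hne h3
    have hab : IsMulCommutative C_[x] := by
      -- `Z ⊔ ⟨x⟩` is central in `C(x)` of index at most `p`
      set B := Subgroup.center P ⊔ Subgroup.zpowers x
      have hB : IsMulCommutative B :=
        H04.isMulCommutative_sup_zpowers hzc (fun z hz => (Subgroup.mem_center_iff.1 hz x).symm)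
      have hBC : B ≤ C_[x] := sup_le (Subgroup.center_le_centralizer _)
        (Subgroup.zpowers_le.2 (Subgroup.mem_centralizer_singleton_iff.2 rfl))
      by_cases e : B = C_[x]
      · exact e ▸ hB
      obtain ⟨y, hy, hyB⟩ := SetLike.exists_of_lt (lt_of_le_of_ne hBC e)
      have hyc : y ∈ C_(B) := by
        have : B ≤ C_[y] := sup_le (Subgroup.center_le_centralizer _)
          (Subgroup.zpowers_le.2 (Subgroup.mem_centralizer_singleton_iff.2
            (Subgroup.mem_centralizer_singleton_iff.1 hy).symm))
        intro b hb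
        exact Subgroup.mem_centralizer_singleton_iff.1 (this hb)
      have hB' := H04.isMulCommutative_sup_zpowers hB hyc
      have hle' : B ⊔ Subgroup.zpowers y ≤ C_[x] := sup_le hBC (Subgroup.zpowers_le.2 hy)
      have hlt : B < B ⊔ Subgroup.zpowers y :=
        lt_of_le_of_ne le_sup_left fun e => hyB (e ▸ Subgroup.mem_sup_right (Subgroup.mem_zpowers y))
      have c1 := hcz x hx
      have c2 : p ≤ Nat.card (Subgroup.center P) := h ▸ Subgroup.card_le_of_le hle
      obtain ⟨a, ha⟩ := H04.card_eq_pow hG B
      obtain ⟨b, hb⟩ := H04.card_eq_pow hG (B ⊔ Subgroup.zpowers y)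
      have c3 := H04.card_lt_of_lt hlt
      have c4 : p ^ 2 ≤ Nat.card B := by
        rw [sq]; exact (Nat.mul_le_mul_left _ c2).trans c1
      rw [ha] at c3 c4
      rw [hb] at c3
      have c5 := (Nat.pow_lt_pow_iff_right hp.one_lt).1 c3
      have c6 := (Nat.pow_le_pow_iff_right hp.one_lt).1 c4
      have c7 : Nat.card C_[x] = p ^ 3 := by
        have h6 := Subgroup.card_mul_index C_[x]
        rw [hi, hP] at h6
        apply Nat.eq_of_mul_eq_mul_right hp.pos
        rw [h6]; ring
      have := H04.eq_of_le_of_card_le hle' (by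
        rw [c7, hb]; exact Nat.pow_le_pow_right hp.pos (by omega))
      exact this ▸ hB'
    have := key _ hab hi hn
    rw [h] at this
    have h2 : Nat.card (Subgroup.center P) = p ^ 2 := by
      apply Nat.eq_of_mul_eq_mul_left hp.pos
      rw [this]; ring
    rw [h2] at hZ
    apply Nat.eq_of_mul_eq_mul_left (pow_pos hp.pos 2)
    rw [hZ]; ring
  · intro h
    have h2 : Nat.card (Subgroup.center P) = p ^ 2 := by
      rw [h] at hZ
      apply Nat.eq_of_mul_eq_mul_right (pow_pos hp.pos 2)
      rw [hZ]; ring
    have hn : ¬ IsMulCommutative P := by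
      intro hc
      have : Subgroup.center P = ⊤ := eq_top_iff.2 fun a _ =>
        Subgroup.mem_center_iff.2 fun b => hc.1.1 b a
      rw [this, Subgroup.index_top] at h
      exact (Nat.one_lt_pow two_ne_zero hp.one_lt).ne h
    obtain ⟨x, hx⟩ := hex hn
    have hB : IsMulCommutative ↥(Subgroup.center P ⊔ Subgroup.zpowers x) :=
      H04.isMulCommutative_sup_zpowers hzc (fun z hz => (Subgroup.mem_center_iff.1 hz x).symm)
    have hne : Subgroup.center P ⊔ Subgroup.zpowers x ≠ ⊤ := fun e => by
      rw [e] at hB
      exact hn ⟨⟨fun a b => H04.isMulCommutative_iff'.1 hB a trivial b trivial⟩⟩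
    have c1 := hcz x hx
    have := key _ hB (hidx _ hne (by rw [h2, ← pow_succ'] at c1; exact c1)) hn
    rw [h2] at this
    apply Nat.eq_of_mul_eq_mul_right (pow_pos hp.pos 2)
    rw [this]; ring

end Cfsg.Agent.S4584
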