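import Cfsg.Statements.S4585
import Cfsg.Agent.S4584
-- import your own Cfsg.Agent.* helpers here

set_option autoImplicit false
open Cfsg

namespace Cfsg.Agent.S4585

/-- Let p be a prime and P a group of order p^4. Then P' has index p^2 in P if and only if P has maximal nilpotency class, that is, nilpotency class exactly 3. -/
theorem result {P : Type*} [Group P] [Finite P] (p : ℕ) [Fact p.Prime] (hP : Nat.card P = p ^ 4) :
    (commutator P).index = p ^ 2 ↔ Group.nilpotencyClass P = 3 := by
  have hp : p.Prime := Fact.out
  have hG : IsPGroup p P := IsPGroup.of_card hP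
  rw [H04.class_eq_iff (n := 2) hP]
  refine ⟨fun h hb => ?_, H04.index_commutator_of_maxClass hP⟩
  have hc := Subgroup.card_mul_index (commutator P)
  rw [h, hP] at hc
  have h2 : Nat.card (commutator P) = p ^ 2 := by
    apply Nat.eq_of_mul_eq_mul_right (pow_pos hp.pos 2)
    rw [hc]; ring
  have hle : commutator P ≤ Subgroup.center P := by
    have : ⁅commutator P, (⊤ : Subgroup P)⁆ = ⊥ := hb
    rw [Subgroup.commutator_eq_bot_iff_le_centralizer] at this
    intro a ha
    exact Subgroup.mem_center_iff.2 fun g => this ha g trivial
  obtain ⟨k, hk⟩ := H04.card_eq_pow hG (Subgroup.center P)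
  have hZ := Subgroup.card_mul_index (Subgroup.center P)
  have h3 := Subgroup.card_le_of_le hle
  rw [h2, hk] at h3
  have h4 := (Nat.pow_le_pow_iff_right hp.one_lt).1 h3
  have h5 : k ≤ 4 := by
    have := Subgroup.card_le_card_group (Subgroup.center P)
    rw [hk, hP] at this
    exact (Nat.pow_le_pow_iff_right hp.one_lt).1 this
  have hi : (Subgroup.center P).index = p ^ (4 - k) := by
    rw [hk, hP] at hZ
    apply Nat.eq_of_mul_eq_mul_left (pow_pos hp.pos k)
    rw [hZ, ← pow_add]; congr 1; omega
  rcases eq_or_lt_of_le h4 with rfl | hlt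
  · have := (Cfsg.Agent.S4584.result p hP).2 hi
    rw [h2] at this
    have h6 := Nat.pow_right_injective hp.two_le (this.trans (pow_one p).symm)
    omega
  · have hcyc : IsCyclic (P ⧸ Subgroup.center P) := by
      apply isCyclic_of_card_dvd_prime (p := p)
      change (Subgroup.center P).index ∣ p
      rw [hi]
      calc p ^ (4 - k) ∣ p ^ 1 := pow_dvd_pow _ (by omega)
        _ = p := pow_one p
    have hcomm := commutative_of_cyclic_center_quotient (QuotientGroup.mk' (Subgroup.center P))
      (by rw [QuotientGroup.ker_mk'])
    have : commutator P = ⊥ := by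
      rw [commutator_def, Subgroup.commutator_eq_bot_iff_le_centralizer]
      intro a _ b _
      exact hcomm b a
    rw [this, Subgroup.card_bot] at h2
    exact (Nat.one_lt_pow two_ne_zero hp.one_lt).ne h2

end Cfsg.Agent.S4585
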