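import Cfsg.Statements.S4586
import Cfsg.Agent.H24.PIdx
-- import your own Cfsg.Agent.* helpers here

set_option autoImplicit false
open Cfsg

namespace Cfsg.Agent.S4586

/-- Let p be a prime, P a finite p-group and N a normal subgroup of P of index p. For x ∈ P write c(x) for the number of elements n of N whose commutator x n x⁻¹ n⁻¹ lies in the derived subgroup N' (so c(x)/#N' is the order of the centralizer of x acting on N/N'). Then [P : P'] = p² if and only if c(x) = p·#N' for every x ∈ P outside N, and also if and only if c(x) = p·#N' for some x ∈ P outside N. -/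
theorem result {P : Type*} [Group P] [Finite P] (p : ℕ) [Fact p.Prime] (hP : IsPGroup p P) (N : Subgroup P) [N.Normal] (hN : N.index = p) :
    ((commutator P).index = p ^ 2 ↔ ∀ x : P, x ∉ N →
        Nat.card {n : N // x * n * x⁻¹ * (n : P)⁻¹ ∈ (commutator N).map N.subtype} = p * Nat.card (commutator N)) ∧
    ((commutator P).index = p ^ 2 ↔ ∃ x : P, x ∉ N ∧
        Nat.card {n : N // x * n * x⁻¹ * (n : P)⁻¹ ∈ (commutator N).map N.subtype} = p * Nat.card (commutator N)) := by
  have hp : p.Prime := Fact.out
  have e : (commutator N).map N.subtype = ⁅N, N⁆ := Subgroup.map_subtype_commutator N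
  have ec : Nat.card (commutator N) = Nat.card (⁅N, N⁆ : Subgroup P) := by
    rw [← e, Subgroup.card_map_of_injective N.subtype_injective]
  have key : ∀ x : P, x ∉ N → ((commutator P).index = p ^ 2 ↔
      Nat.card {n : N // x * n * x⁻¹ * (n : P)⁻¹ ∈ (commutator N).map N.subtype} =
        p * Nat.card (commutator N)) := by
    intro x hx
    have h := H24.index_commutator_mul N x
      (H24.sup_zpowers_eq_top_of_index_prime (hN ▸ hp) hx)
    rw [hN] at h
    rw [ec]
    simp only [e]
    have hpos : 0 < Nat.card (⁅N, N⁆ : Subgroup P) := Nat.card_pos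
    constructor
    · intro h2
      rw [h2] at h
      apply Nat.eq_of_mul_eq_mul_left hp.pos
      rw [← h]; ring
    · intro h2
      rw [h2] at h
      apply Nat.eq_of_mul_eq_mul_right hpos
      rw [h]; ring
  have hex : ∃ x, x ∉ N := by
    by_contra hc
    push Not at hc
    have : N = ⊤ := eq_top_iff.2 fun x _ => hc x
    rw [this, Subgroup.index_top] at hN
    exact hp.one_lt.ne hN
  obtain ⟨x0, hx0⟩ := hex
  refine ⟨⟨fun h x hx => (key x hx).1 h, fun h => (key x0 hx0).2 (h x0 hx0)⟩,
    ⟨fun h => ⟨x0, hx0, (key x0 hx0).1 h⟩, fun ⟨x, hx, h⟩ => (key x hx).2 h⟩⟩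

end Cfsg.Agent.S4586
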