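import Mathlib
import Cfsg.Statements.S4587
import Cfsg.Agent.H17.TwoGen
import Cfsg.Agent.H01.KS91

set_option autoImplicit false
open Cfsg

namespace Cfsg.Agent.S4587

open BG Subgroup
open scoped commutatorElement

section
variable {G : Type*} [Group G] [Finite G] {p : ℕ}

theorem gen {M X : Subgroup G} {a : G} (hp : p.Prime) (h : M ≤ X) (hi : M.relIndex X = p) (ha : a ∈ X) (hM : a ∉ M) :
    X = M ⊔ zpowers a := by
  have h1 : M ⊔ zpowers a ≤ X := sup_le h (zpowers_le.2 ha)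
  have h2 := relIndex_mul (le_sup_left : M ≤ M ⊔ zpowers a) h1
  rw [hi] at h2
  rcases (Nat.dvd_prime hp).1 (Dvd.intro _ h2) with h3 | h3
  · exact absurd (relIndex_eq_one.1 h3 (mem_sup_right (mem_zpowers a))) hM
  · rw [h3] at h2
    exact le_antisymm (relIndex_eq_one.1 (Nat.eq_of_mul_eq_mul_left hp.pos (by rw [h2, mul_one]))) h1

theorem gen' {M X : Subgroup G} (hp : p.Prime) (h : M ≤ X) (hi : M.relIndex X ∣ p) : ∃ a ∈ X, X = M ⊔ zpowers a := by
  by_cases h1 : X ≤ M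
  · exact ⟨1, one_mem _, by rw [zpowers_one_eq_bot, sup_bot_eq]; exact le_antisymm h1 h⟩
  obtain ⟨a, ha, hM⟩ := SetLike.not_le_iff_exists.1 h1
  exact ⟨a, ha, gen hp h (((Nat.dvd_prime hp).1 hi).resolve_left fun e => h1 (relIndex_eq_one.1 e)) ha hM⟩

open scoped IsMulCommutative in
theorem tr {Q W : Subgroup G} [hQ : Q.Normal] (hW : ⁅Q, Q⁆ ≤ W) {q : G} (hq : q ∈ Q) (hd : q ∈ _root_.commutator G)
    (ht : ∀ t ∉ Q, t⁻¹ * q * t ∈ W) : q ∈ W := by
  classical
  have h0 : _root_.commutator Q ≤ W.subgroupOf Q := fun x hx => hW (by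
    rw [← map_subtype_commutator]; exact mem_map_of_mem _ hx)
  haveI : (W.subgroupOf Q).Normal := Normal.of_commutator_le _ h0
  haveI : IsMulCommutative (Q ⧸ W.subgroupOf Q) := Normal.quotient_commutative_iff_commutator_le.2 h0
  set φ := QuotientGroup.mk' (W.subgroupOf Q) with hφ
  have h1 : MonoidHom.transfer φ q = 1 := Abelianization.commutator_subset_ker _ hd
  have hfix : ∀ g ∈ Q, ∀ y : G ⧸ Q, g • y = y := fun g hg y => by
    obtain ⟨y, rfl⟩ := QuotientGroup.mk_surjective y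
    rw [MulAction.Quotient.smul_mk, QuotientGroup.eq]
    have := hQ.conj_mem _ (inv_mem hg) y⁻¹
    simpa [mul_assoc] using this
  haveI : Fintype (Quotient (MulAction.orbitRel (zpowers q) (G ⧸ Q))) := Fintype.ofFinite _
  rw [MonoidHom.transfer_eq_prod_quotient_orbitRel_zpowers_quot,
    Finset.prod_eq_single (Quotient.mk _ ((1 : G) : G ⧸ Q)) ?_ (by simp)] at h1
  · set c : Quotient (MulAction.orbitRel (zpowers q) (G ⧸ Q)) := Quotient.mk _ ((1 : G) : G ⧸ Q) with hc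
    have h2 : c.out = ((1 : G) : G ⧸ Q) := by
      obtain ⟨g, hg⟩ : c.out ∈ MulAction.orbit (zpowers q) ((1 : G) : G ⧸ Q) := Quotient.exact (Quotient.out_eq c)
      rw [← hg]
      exact hfix (g : G) (zpowers_le.2 hq g.2) ((1 : G) : G ⧸ Q)
    have h3 : c.out.out ∈ Q := by
      rw [← QuotientGroup.eq_one_iff, QuotientGroup.out_eq', h2, QuotientGroup.mk_one]
    have h4 : Function.minimalPeriod (q • ·) c.out = 1 :=
      Function.minimalPeriod_eq_one_iff_isFixedPt.2 (hfix q hq _)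
    have h5 : φ ((⟨_, h3⟩ : Q)⁻¹ * ⟨q, hq⟩ * ⟨_, h3⟩) = 1 := by
      rw [← h1]; congr 1; ext; simp [h4]
    rw [map_mul, map_mul, map_inv, inv_mul_cancel_comm] at h5
    exact mem_subgroupOf.1 ((QuotientGroup.eq_one_iff (⟨q, hq⟩ : Q)).1 h5)
  · intro c _ hc
    have h2 : c.out.out ∉ Q := fun h => hc (by
      rw [← Quotient.out_eq c, ← QuotientGroup.out_eq' c.out, (QuotientGroup.eq_one_iff _).2 h, QuotientGroup.mk_one])
    refine (QuotientGroup.eq_one_iff _).2 (mem_subgroupOf.2 ?_)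
    have := pow_mem (ht _ h2) (Function.minimalPeriod (q • ·) c.out)
    rwa [show c.out.out⁻¹ * q * c.out.out = c.out.out⁻¹ * q * c.out.out⁻¹⁻¹ by rw [inv_inv], conj_pow, inv_inv] at this

theorem cls {P : Subgroup G} {y : G} (hy : y ∈ P) : (⁅P, P⁆).relIndex P ≤ Nat.card ↥(C_[y] ⊓ P) := by
  have h1 : C_[y].relIndex P ≤ Nat.card ↥⁅P, P⁆ := by
    have h2 : C_[y].subgroupOf P = centralizer {(⟨y, hy⟩ : P)} := by
      ext z; rw [mem_subgroupOf, mem_cent1, mem_centralizer_singleton_iff, Subtype.ext_iff]; rfl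
    rw [relIndex, h2, ← map_subtype_commutator, card_map_of_injective P.subtype_injective]
    exact (Nat.card_le_card_of_injective _ (quotientCentralizerEmbedding (⟨y, hy⟩ : P)).injective).trans
      (Nat.card_le_card_of_injective _ (Set.inclusion_injective
        (show commutatorSet P ⊆ (_root_.commutator P : Set P) from by
          rw [commutator_eq_closure]; exact subset_closure)))
  have h2 := card_inf_mul_relIndex C_[y] P
  have h3 := card_mul_relIndex (der_le P)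
  refine Nat.le_of_mul_le_mul_left ?_ (card_pos ⁅P, P⁆)
  rw [h3, ← h2, mul_comm]
  exact Nat.mul_le_mul_right _ h1

theorem fac {R X : Subgroup G} (hp : p.Prime) (h : IsSylowIn p R X) : Nat.card R = p ^ (Nat.card X).factorization p := by
  haveI := Fact.mk hp
  obtain ⟨S, rfl⟩ := h.exists_sylow hp
  rw [card_map_of_injective X.subtype_injective, S.card_eq_multiplicity]

theorem syl_sup {Q S T : Subgroup G} (hp : p.Prime) (h : IsSylowIn p Q (S ⊔ T)) (hc : T ≤ C_(S)) (hd : S ⊓ T = ⊥) :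
    Q = Q ⊓ S ⊔ Q ⊓ T := by
  have h1 : IsSylowIn p (Q ⊓ S) S := h.inf_normal le_sup_left (sup_le (le_norm _) (le_norm_of_cent hc))
  have h2 : IsSylowIn p (Q ⊓ T) T := h.inf_normal le_sup_right (sup_le (le_norm_of_cent (cent_comm.1 hc)) (le_norm _))
  have h3 : Q ⊓ S ⊔ Q ⊓ T ≤ Q := sup_le inf_le_left inf_le_left
  refine (isSylowIn_mk hp (h3.trans h.le) (pg_le (h.pg hp) h3) fun hh => ?_).eq_of_pg hp (h.pg hp) h3 h.le
  have h4 := card_mul_relIndex (h3.trans h.le)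
  rw [card_sup_of_disj (le_norm_of_cent hc) hd, card_sup_of_disj (le_norm_of_cent (le_cent_mono hc inf_le_right inf_le_right))
    (le_bot_iff.1 (hd ▸ inf_le_inf inf_le_right inf_le_right)), ← card_mul_relIndex h1.le, ← card_mul_relIndex h2.le,
    mul_mul_mul_comm] at h4
  rw [Nat.eq_of_mul_eq_mul_left (Nat.mul_pos (card_pos _) (card_pos _)) h4] at hh
  exact (hp.dvd_mul.1 hh).elim (h1.not_dvd' hp) (h2.not_dvd' hp)

theorem sq_le {P : Subgroup G} (hp : p.Prime) (hP : IsPGroup p P) (h : p ^ 2 ∣ Nat.card P) : p ^ 2 ∣ (⁅P, P⁆).relIndex P := by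
  obtain ⟨n, hn⟩ := pg_card hp hP
  obtain ⟨j, -, hj⟩ := (Nat.dvd_prime_pow hp).1 (hn ▸ BG.relIndex_dvd_card ⁅P, P⁆ P)
  by_contra hh
  have h1 : j ≤ 1 := by
    by_contra h1
    exact hh (hj ▸ pow_dvd_pow p (by omega))
  obtain ⟨a, ha, e⟩ := gen' hp (der_le P) (hj ▸ (pow_dvd_pow p h1).trans (pow_one p).dvd)
  have h2 : zpowers a = P := eq_of_le_sup_phi (zpowers_le.2 ha)
    (e.le.trans (sup_le ((der_le_phi hp hP).trans le_sup_right) le_sup_left))
  have h3 : ⁅P, P⁆ = ⊥ := abelian_iff_der.1 (h2 ▸ inferInstance)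
  rw [h3, relIndex_bot_left] at hh
  exact hh h

theorem tr' {P Q W : Subgroup G} (hQ : Q ≤ P) (hn : P ≤ N_(Q)) (hW : ⁅Q, Q⁆ ≤ W) {q : G} (hq : q ∈ Q) (hd : q ∈ ⁅P, P⁆)
    (ht : ∀ t ∈ P, t ∉ Q → t⁻¹ * q * t ∈ W) : q ∈ W := by
  haveI : (Q.subgroupOf P).Normal := (normal_subgroupOf_iff_le_normalizer hQ).2 hn
  refine tr (G := P) (Q := Q.subgroupOf P) (W := W.subgroupOf P) (q := ⟨q, hQ hq⟩) ?_ hq ?_ fun t h => ht t t.2 h
  · exact commutator_le.2 fun a ha b hb => hW (commutator_mem_commutator ha hb)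
  · rw [← map_subtype_commutator] at hd
    exact (mem_map_iff_mem P.subtype_injective).1 hd

theorem idx {D Q P : Subgroup G} (hp : p.Prime) (h1 : D ≤ Q) (h2 : Q ≤ P) (h : D.relIndex P = p ^ 2) (h3 : ¬ Q ≤ D)
    (h4 : ¬ P ≤ Q) : D.relIndex Q = p ∧ Q.relIndex P = p := by
  have h5 := relIndex_mul h1 h2
  rw [h] at h5
  obtain ⟨j, hj, e⟩ := (Nat.dvd_prime_pow hp).1 (Dvd.intro _ h5)
  interval_cases j
  · exact absurd (relIndex_eq_one.1 e) h3
  · rw [pow_one] at e
    exact ⟨e, Nat.eq_of_mul_eq_mul_left hp.pos (by rw [← pow_two, ← h5, e])⟩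
  · rw [e] at h5
    exact absurd (relIndex_eq_one.1 (Nat.eq_of_mul_eq_mul_left (pow_pos hp.pos 2) (h5.trans (mul_one _).symm))) h4

theorem key [hp : Fact p.Prime] (P : Sylow p G) (hna : ¬ IsMulCommutative (P : Subgroup G))
    (h : (⁅(P : Subgroup G), (P : Subgroup G)⁆).relIndex P = p ^ 2) (hcore : pPrimeCore p G = ⊥)
    (hcore' : (⁅(P : Subgroup G), (P : Subgroup G)⁆).normalCore = ⊥)
    (hnas : ¬ ∃ S : Subgroup G, S.Normal ∧ IsSimpleGroup S ∧ ¬ IsMulCommutative S ∧ C_(S) = ⊥) :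
    ∃ N : Subgroup G, N.Normal ∧ IsMulCommutative ↥(N ⊓ P) ∧ ¬ (P : Subgroup G) ≤ N ∧
      ⁅(P : Subgroup G), (P : Subgroup G)⁆ ≤ N ∧ ¬ N ⊓ P ≤ ⁅(P : Subgroup G), (P : Subgroup G)⁆ := by
  set D := ⁅(P : Subgroup G), (P : Subgroup G)⁆ with hD
  have hDΦ : D ≤ frattiniOf (P : Subgroup G) := der_le_phi hp.out P.2
  have hΦ : frattiniOf (P : Subgroup G) = D := by
    by_contra hne
    have h1 : ¬ frattiniOf (P : Subgroup G) ≤ D := fun e => hne (le_antisymm e hDΦ)
    have h3 : ∀ a ∈ (P : Subgroup G), ¬ (P : Subgroup G) ≤ zpowers a ⊔ frattiniOf (P : Subgroup G) := fun a ha e =>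
      hna ((eq_of_le_sup_phi (zpowers_le.2 ha) e) ▸ inferInstance)
    have h2 := (idx hp.out hDΦ (map_subtype_le _) h h1 fun e => h3 1 (one_mem _) (e.trans le_sup_right)).2
    obtain ⟨a, ha, e⟩ := gen' hp.out (map_subtype_le _) h2.dvd
    exact h3 a ha (by rw [sup_comm]; exact e.le)
  have hgen : (frattini ↥(P : Subgroup G)).index = p ^ 2 := by
    rw [← h, ← hΦ, relIndex]
    congr 1
    exact (comap_map_eq_self_of_injective (P : Subgroup G).subtype_injective _).symm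
  have hfrat : (frattiniOf (P : Subgroup G)).normalCore = ⊥ := hΦ ▸ hcore'
  have hD0 : D ≠ ⊥ := fun e => hna (abelian_iff_der.2 e)
  haveI := H22.fstar_normal (G := G)
  set N := generalizedFittingSubgroup G with hN
  have h0 : N ≠ ⊥ := fun e => by
    haveI := H22.fstar_eq_bot_iff.1 e
    exact hD0 (Subsingleton.elim _ _)
  have hmin : ∀ K : Subgroup G, K.Normal → K ≠ ⊥ → N ≤ K := fun K _ hK => by
    have h1 : ∀ K : Subgroup G, K.Normal → K ≠ ⊥ → normalClosure (D : Set G) ≤ K := fun K _ hK =>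
      normalClosure_le_normal (H17.TG.der_le_normal P hgen hcore hfrat hK)
    exact (H17.TG.fstar_le P hgen hcore hfrat hna (fun e => hD0 (le_bot_iff.1 (e ▸ le_normalClosure))) h1).trans (h1 K ‹_› hK)
  have hDN : D ≤ N := H17.TG.der_le_normal P hgen hcore hfrat h0
  have hQD : ¬ N ⊓ P ≤ D := hΦ ▸ H17.TG.not_le P hcore hfrat h0
  have hGN : ∀ X : Subgroup G, X ≤ N_(N) := fun X => by rw [normalizer_eq_top]; exact le_top
  suffices H : IsMulCommutative ↥(N ⊓ P) from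
    ⟨N, inferInstance, H, fun e => hna (abelian_of_le H (le_inf e le_rfl)), hDN, hQD⟩
  by_cases hc : N ≤ C_(N)
  · exact abelian_of_le (abelian_iff.2 hc) inf_le_left
  have hC : C_(N) = ⊥ := by_contra fun e => hc (hmin _ inferInstance e)
  have hO : pCore p G = ⊥ := by_contra fun e =>
    pg_center_ne_bot hp.out (pg_le (H02.pCore_isPGroup p G) (hmin _ inferInstance e)) h0 (by rw [hC, inf_bot_eq])
  have hF : fittingSubgroup G = ⊥ := (H02.fitting_eq_pCore hp.out hcore).trans hO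
  have hE : N = layer G := by rw [hN, H22.fstar_def, hF, sup_bot_eq]
  set Q := N ⊓ (P : Subgroup G) with hQ
  have hQS : IsSylowIn p Q N := by
    rw [hQ, inf_comm]; exact (isSylowIn_top hp.out P).inf_normal le_top (hGN _)
  rw [abelian_iff_der, eq_bot_iff, ← hC, cent_comm, hE, H22.layer_le_iff]
  intro S hS
  rw [cent_comm]
  have hSN : S ≤ N := hE ▸ H22.le_layer hS
  have hNS : N ≤ N_(S) := hE ▸ H22.layer_le_normalizer hS
  have hST : N = S ⊔ N ⊓ C_(S) := le_antisymm (hE ▸ H22.layer_le_sup_centralizer hS) (sup_le hSN inf_le_left)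
  have hZ : S ⊓ (N ⊓ C_(S)) = ⊥ := by
    rw [eq_bot_iff, ← hC]
    conv_rhs => rw [hST]
    exact le_cent_sup (inf_le_right.trans inf_le_right) (cent_comm.1 (inf_le_right.trans (cent_anti inf_le_left)))
  have hPS : ¬ (P : Subgroup G) ≤ N_(S) := fun e => by
    have h1 : N = S := le_antisymm (hE ▸ H22.layer_le_iff.2 fun L hL => by
      obtain ⟨x, hx, rfl⟩ := H17.TG.trans P hgen hcore hfrat hna hF hS hL
      exact (cj_of_mem_norm (e hx)).le) hSN
    refine hnas ⟨S, h1 ▸ inferInstance, ?_, H22.qs_not_comm hS.2, h1 ▸ hC⟩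
    haveI := H22.qs_nontrivial hS.2
    refine ⟨fun K hK => (H22.qs_normal hS.2 K).symm.imp_left fun e => eq_bot_iff.2 fun x hx => ?_⟩
    have h2 : (x : G) ∈ C_(S) := mem_cent.2 fun a ha => congrArg Subtype.val (mem_center_iff.1 (e hx) ⟨a, ha⟩)
    rw [show C_(S) = ⊥ from h1 ▸ hC] at h2
    exact mem_bot.2 (Subtype.ext h2)
  have hQP : Q ≤ P := inf_le_right
  have hDQ : D ≤ Q := le_inf hDN (der_le _)
  obtain ⟨i1, i2⟩ := idx hp.out hDQ hQP h hQD fun e => hPS (e.trans (inf_le_left.trans hNS))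
  have hPQ : (P : Subgroup G) ≤ N_(Q) := le_norm_inf' (hGN _)
  set Y := Q ⊓ (N ⊓ C_(S)) with hY
  have hQY : Q = Q ⊓ S ⊔ Y := syl_sup hp.out (hST ▸ hQS) inf_le_right hZ
  have h5 : D ⊓ S ≤ ⁅Q, Q⁆ ⊔ Y := fun q hq => by
    refine tr' hQP hPQ le_sup_left (hDQ hq.1) hq.1 fun t ht htQ => mem_sup_right ?_
    have h6 : t⁻¹ * q * t ∈ Q := by
      have := le_norm_iff.1 hPQ t⁻¹ (inv_mem ht) q (hDQ hq.1)
      rwa [inv_inv] at this
    refine ⟨h6, h6.1, ?_⟩
    have h7 : cj t⁻¹ S ≠ S := fun e => hPS (by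
      rw [gen hp.out hQP i2 ht htQ]
      exact sup_le (inf_le_left.trans hNS) (zpowers_le.2 ((inv_mem_iff).1 (cj_eq_self_iff.1 e))))
    refine comm_eq_bot.1 (H22.comp_comm_of_ne (H22.comp_conj hS t⁻¹) hS h7) (mem_cj_inv.2 ?_)
    simpa [mul_assoc] using hq.2
  have h8 : ∃ a ∈ Q, Q ⊓ S ≤ (⁅Q, Q⁆ ⊔ Y) ⊔ zpowers a := by
    by_cases h9 : Q ⊓ S ≤ D
    · exact ⟨1, one_mem _, ((le_inf h9 inf_le_right).trans h5).trans le_sup_left⟩
    obtain ⟨a, ha, haD⟩ := SetLike.not_le_iff_exists.1 h9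
    refine ⟨a, ha.1, fun q hq => ?_⟩
    have h10 : q ∈ Q := hq.1
    rw [gen hp.out hDQ i1 ha.1 haD, mem_sup_norm ((zpowers_le.2 (hQP ha.1)).trans (le_norm_der _))] at h10
    obtain ⟨d, hd, z, hz, rfl⟩ := h10
    exact mul_mem (mem_sup_left (h5 ⟨hd, (S.mul_mem_cancel_right (zpowers_le.2 ha.2 hz)).1 hq.2⟩)) (mem_sup_right hz)
  obtain ⟨a, ha, h8⟩ := h8
  have h11 : Y ⊔ zpowers a = Q := by
    refine eq_of_le_sup_phi (sup_le inf_le_left (zpowers_le.2 ha)) (hQY.le.trans (sup_le (h8.trans ?_) ?_))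
    · exact sup_le (sup_le ((der_le_phi hp.out (hQS.pg hp.out)).trans le_sup_right) (le_sup_left.trans le_sup_left))
        (le_sup_right.trans le_sup_left)
    · exact le_sup_left.trans le_sup_left
  refine (H17.TG.der_le (le_norm_inf (norm_inf (hGN _) (norm_cent (inf_le_left.trans hNS)))) h11.symm).trans ?_
  exact inf_le_right.trans inf_le_right

end

/-- Let G be a finite group, p a prime and P a Sylow p-subgroup of order at least p². Assume that G has no nontrivial normal subgroup of order prime to p, that the derived subgroup P' of P contains no nontrivial normal subgroup of G, and that G is not almost simple (there is no non-abelian simple normal subgroup of G with trivial centralizer). Then [P : P'] = p² if and only if some p-element x of G has centralizer whose order has p-part exactly p². -/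
theorem result {G : Type*} [Group G] [Finite G] (p : ℕ) [Fact p.Prime] (P : Sylow p G) (hbig : p ^ 2 ∣ Nat.card G) (hcore : Cfsg.pPrimeCore p G = ⊥)
    (hcore' : (⁅(P : Subgroup G), (P : Subgroup G)⁆).normalCore = ⊥) (hnas : ¬ ∃ S : Subgroup G, S.Normal ∧ IsSimpleGroup S ∧ ¬ IsMulCommutative S ∧ Subgroup.centralizer (S : Set G) = ⊥) :
    (⁅(P : Subgroup G), (P : Subgroup G)⁆).relIndex (P : Subgroup G) = p ^ 2 ↔
      ∃ x : G, (∃ k : ℕ, orderOf x = p ^ k) ∧ (Nat.card (Subgroup.centralizer ({x} : Set G))).factorization p = 2 := by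
  have hp : p.Prime := Fact.out
  have hP := isSylowIn_top hp P
  have hP2 : p ^ 2 ∣ Nat.card (P : Subgroup G) := hP.pow_dvd hp (by rwa [card_top])
  constructor
  · intro h
    by_cases hna : IsMulCommutative (P : Subgroup G)
    · refine ⟨1, ⟨0, by simp⟩, ?_⟩
      rw [abelian_iff_der.1 hna, relIndex_bot_left, fac hp hP] at h
      rw [cent1_one]
      exact Nat.pow_right_injective hp.two_le h
    obtain ⟨N, hN, h1, h2, h3, h4⟩ := key P hna h hcore hcore' hnas
    have hGN : ∀ X : Subgroup G, X ≤ N_(N) := fun X => by rw [normalizer_eq_top]; exact le_top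
    obtain ⟨i1, i2⟩ := idx hp (le_inf h3 (der_le _)) inf_le_right h h4 fun e => h2 (e.trans inf_le_left)
    have hPQ : (P : Subgroup G) ≤ N_(N ⊓ P) := le_norm_inf' (hGN _)
    have h5 : ∀ y ∈ (P : Subgroup G), y ∉ N → Nat.card ↥(C_[y] ⊓ P) = p ^ 2 := fun y hy hyN => by
      have h6 := gen hp inf_le_right i2 hy fun e => hyN e.1
      have h7 : ⁅N ⊓ P, zpowers y⁆ = ⁅(P : Subgroup G), (P : Subgroup G)⁆ := by
        refine le_antisymm (comm_mono inf_le_right (zpowers_le.2 hy)) ?_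
        conv_lhs => rw [h6]
        exact der_sup_le (left_le_norm_comm _ _) (right_le_norm_comm _ _) ((abelian_iff_der.1 h1).le.trans bot_le) le_rfl
          ((abelian_iff_der.1 inferInstance).le.trans bot_le)
      have h8 := H01.card_comm_zp h1 (hPQ hy)
      rw [h7, ← card_mul_relIndex (le_inf h3 (der_le _) : ⁅(P : Subgroup G), (P : Subgroup G)⁆ ≤ N ⊓ P), i1, mul_comm] at h8
      have h9 := card_inf_mul_relIndex (N ⊓ P) (C_[y] ⊓ P)
      have h10 : (N ⊓ P).relIndex (C_[y] ⊓ P) = p :=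
        ((Nat.dvd_prime hp).1 ((relIndex_dvd_of_norm inf_le_right hPQ).trans i2.dvd)).resolve_left fun e =>
          hyN (relIndex_eq_one.1 e ⟨mem_cent1_self y, hy⟩).1
      rw [h10, ← inf_assoc, inf_eq_left.2 (inf_le_left.trans inf_le_right : N ⊓ P ⊓ C_[y] ≤ P),
        Nat.eq_of_mul_eq_mul_left (card_pos _) h8] at h9
      rw [← h9, pow_two]
    obtain ⟨x, hx, hxN⟩ := SetLike.not_le_iff_exists.1 h2
    refine ⟨x, ?_, ?_⟩
    · obtain ⟨k, hk⟩ := IsPGroup.iff_orderOf.1 P.2 ⟨x, hx⟩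
      exact ⟨k, by rw [← hk, orderOf_mk]⟩
    obtain ⟨R, hR, hxR⟩ := sylow_superset hp (pg_le P.2 inf_le_right : IsPGroup p ↥(C_[x] ⊓ P)) inf_le_left
    obtain ⟨g, -, hg⟩ := sylow_Jsub hp hP (hR.pg hp) le_top
    have h6 : g * x * g⁻¹ ∈ cj g R := mem_cj'.2 ⟨x, hxR ⟨mem_cent1_self x, hx⟩, rfl⟩
    have h7 := h5 _ (hg h6) fun e => hxN (by simpa [mul_assoc] using hN.conj_mem _ e g⁻¹)
    have h8 : Nat.card R = p ^ 2 := by
      refine le_antisymm ?_ ((h5 x hx hxN).ge.trans (card_le hxR))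
      rw [← h7, ← card_cj g R]
      exact card_le (le_inf ((cj_mono g hR.le).trans (cj_cent1 g x).le) hg)
    rw [fac hp hR] at h8
    exact Nat.pow_right_injective hp.two_le h8
  · rintro ⟨x, ⟨k, hk⟩, hx⟩
    obtain ⟨g, -, hg⟩ := sylow_Jsub hp hP (pg_of_card ((card_zpowers x).trans hk)) le_top
    have h1 : g * x * g⁻¹ ∈ (P : Subgroup G) := hg (mem_cj'.2 ⟨x, mem_zpowers x, rfl⟩)
    obtain ⟨R, hR, hxR⟩ := sylow_superset hp (pg_le P.2 inf_le_right : IsPGroup p ↥(C_[g * x * g⁻¹] ⊓ P)) inf_le_left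
    have h2 := fac hp hR
    rw [← cj_cent1, card_cj, hx] at h2
    exact le_antisymm ((cls h1).trans (h2 ▸ card_le hxR)) (Nat.le_of_dvd (Nat.pos_of_ne_zero (relIndex_ne_zero _ _)) (sq_le hp P.2 hP2))

end Cfsg.Agent.S4587
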