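import Mathlib
import Cfsg.Agent.H20.QForm
-- Template for statement S4588 (row 4588; see /opt/grader/pristine/manifest.json for weights).
-- Copy to Cfsg/Agent/S4588.lean and replace the sorry. The statement below is byte-identical to the frozen
-- statement Cfsg.CfsgFrozen.S4588 (Cfsg/Statements/S4588.lean; the theorem Cfsg.blk3_principal_block_p_prime_degree_count_le_p_sq_of_small_centralizer);
-- the grader kernel-checks Cfsg.Agent.S4588.result against that frozen type. Keep the theorem IN THIS FILE
-- (a `result` declared elsewhere and merely imported here is not credited); helpers may live anywhere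
-- under Cfsg/Agent/.
import Cfsg.Statements.S4588
-- import your own Cfsg.Agent.* helpers here

set_option autoImplicit false
open Cfsg

open H20 H05 H21 MonoidAlgebra Cfsg

namespace Cfsg.Agent.S4588

/-- Let G be a finite group, p a prime and M a maximal ideal of the algebraic integers containing p. If some p-element x of G (possibly x = 1) has centralizer whose order has p-part at most p², then the principal p-block of G contains at most p² irreducible characters of degree prime to p. -/
theorem result {G : Type*} [Group G] [Finite G] (p : ℕ) [Fact p.Prime] (M : Ideal Cfsg.AlgInt) (hM : Cfsg.IsPModular p M)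
    (hx : ∃ x : G, (∃ k : ℕ, orderOf x = p ^ k) ∧ (Nat.card (Subgroup.centralizer ({x} : Set G))).factorization p ≤ 2) :
    Nat.card {χ : Cfsg.IrrCharacter G // χ ∈ Cfsg.principalBlock M G ∧ ¬ p ∣ Cfsg.charDegree (χ : G → ℂ)} ≤ p ^ 2 := by
  have := hM.2.1
  have := Fintype.ofFinite G
  have hp := hM.1
  obtain ⟨u, hu, h1, h2⟩ : ∃ u : G, (∃ k : ℕ, orderOf u = p ^ k) ∧
      (Nat.card (Subgroup.centralizer ({u} : Set G))).factorization p ≤ 2 ∧
      ¬ p ^ 2 * orderOf u ∣ Nat.card (Subgroup.centralizer ({u} : Set G)) := by
    have key : ∀ u : G, p ∣ orderOf u → (Nat.card (Subgroup.centralizer ({u} : Set G))).factorization p ≤ 2 →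
        ¬ p ^ 2 * orderOf u ∣ Nat.card (Subgroup.centralizer ({u} : Set G)) := fun u h1 h2 h3 => by
      have := (hp.pow_dvd_iff_le_factorization (k := 3) Nat.card_pos.ne').1
        (((pow_succ p 2).symm ▸ Nat.mul_dvd_mul_left (p ^ 2) h1).trans h3)
      omega
    obtain ⟨x, hx1, hx2⟩ := hx
    by_cases h : x = 1
    · subst h
      by_cases h' : p ∣ Nat.card G
      · obtain ⟨u, hu⟩ := exists_prime_orderOf_dvd_card' p h'
        have h3 : (Nat.card (Subgroup.centralizer ({u} : Set G))).factorization p ≤ 2 := by
          rw [Subgroup.centralizer_eq_top_iff_subset.2 (by simp), Subgroup.card_top] at hx2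
          exact ((Nat.factorization_le_iff_dvd Nat.card_pos.ne' Nat.card_pos.ne').2
            (Subgroup.card_subgroup_dvd_card _) p).trans hx2
        exact ⟨u, ⟨1, by simp [hu]⟩, h3, key u hu.symm.dvd h3⟩
      · exact ⟨1, hx1, hx2, fun h3 => h' (((dvd_pow_self p two_ne_zero).mul_right _).trans
          (h3.trans (Subgroup.card_subgroup_dvd_card _)))⟩
    · exact ⟨x, hx1, hx2, key x (dvd_orderOf_of_pow hp h hx1) hx2⟩
  refine le_trans (le_of_eq (Nat.card_congr (Equiv.subtypeEquivRight fun χ => and_congr_right fun hχ => ?_)))
    ((k0_principal_le hM hu h2).trans (Nat.pow_le_pow_right hp.pos h1))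
  rw [blockHeight_principal hM hχ, Nat.factorization_eq_zero_iff]
  simp [hp, χ.2.charDegree_pos.ne']

end Cfsg.Agent.S4588
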