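import Mathlib
import Cfsg.Agent.H20.Constr
import Cfsg.Agent.H07.Glb4
import Cfsg.Agent.H03.Fusion
-- Template for statement S4591 (row 4591; see /opt/grader/pristine/manifest.json for weights).
-- Copy to Cfsg/Agent/S4591.lean and replace the sorry. The statement below is byte-identical to the frozen
-- statement Cfsg.CfsgFrozen.S4591 (Cfsg/Statements/S4591.lean; the theorem Cfsg.chr3_kernel_of_p_prime_degree_characters_eq_core);
-- the grader kernel-checks Cfsg.Agent.S4591.result against that frozen type. Keep the theorem IN THIS FILE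
-- (a `result` declared elsewhere and merely imported here is not credited); helpers may live anywhere
-- under Cfsg/Agent/.
import Cfsg.Statements.S4591
-- import your own Cfsg.Agent.* helpers here

set_option autoImplicit false
open Cfsg

open H20 H05 H21 MonoidAlgebra Cfsg

namespace Cfsg.Agent.S4591

theorem exists_under {X C : Type*} [Group X] [Group C] [Finite C] {p : ℕ} (ι : C →* X) {χ : X → ℂ}
    (hχ : IsCharacter X χ) (h : ¬ p ∣ charDegree χ) :
    ∃ η, IsIrrCharacter C η ∧ ¬ p ∣ charDegree η ∧ H07.mult ι χ η ≠ 0 := by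
  by_contra! hc
  refine h (H07.degree_eq_sum_mult ι hχ ▸ Finset.dvd_sum fun η _ => ?_)
  by_cases h1 : p ∣ charDegree (η : C → ℂ)
  · exact h1.mul_left _
  · rw [hc _ η.2 h1, zero_mul]
    exact dvd_zero p

theorem exists_over {G : Type*} [Group G] [Finite G] {p : ℕ} (hp : p.Prime) {H : Subgroup G} (hH : ¬ p ∣ H.index)
    {η : H → ℂ} (hη : IsCharacter H η) (h : ¬ p ∣ charDegree η) :
    ∃ χ, IsIrrCharacter G χ ∧ ¬ p ∣ charDegree χ ∧ H07.mult H.subtype χ η ≠ 0 := by
  have := Fintype.ofFinite G
  have := Fintype.ofFinite H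
  obtain ⟨χ, h1, h2, h3⟩ := exists_under (p := p) (MonoidHom.id G) (H06.isCharacter_indFun H hη) (by
    rw [H06.charDegree_indFun H hη]
    exact fun h' => (hp.dvd_mul.1 h').elim hH h)
  refine ⟨χ, h1, h2, (H07.mult_sub_ne_zero H h1.isCharacter hη).2 (H06.classInner_ne_zero_comm.1 ?_)⟩
  rw [← H06.frobenius_reciprocity _ _ _ h1.isClassFunction]
  exact (H07.mult_ne_zero_iff (MonoidHom.id G) (H06.isCharacter_indFun H hη) h1.isCharacter).1 h3

theorem deg_one {H : Type*} [Group H] [Finite H] {p : ℕ} [Fact p.Prime] {K : Subgroup H} [K.Normal]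
    (hK : IsPGroup p (H ⧸ K)) {η : H → ℂ} (hη : IsIrrCharacter H η) (h : ¬ p ∣ charDegree η)
    (h1 : K ≤ charKer η) : η 1 = 1 := by
  obtain ⟨k, hk⟩ := (H03.isPGroup_quotient_iff_index K).1 hK
  have h2 := H06.charDegree_dvd_index_of_le_charCenter hη K (h1.trans charKer_le_charCenter)
  rw [← hη.charDegree_eq, Nat.eq_one_of_dvd_coprimes ((H03.coprime_iff_not_dvd.2 h).pow_right k) dvd_rfl (hk ▸ h2),
    Nat.cast_one]

theorem quot_sup {G : Type*} [Group G] [Finite G] {p : ℕ} [Fact p.Prime] {K P : Subgroup G} [K.Normal]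
    (hP : IsPGroup p P) : IsPGroup p (↥(K ⊔ P) ⧸ K.subgroupOf (K ⊔ P)) :=
  (H03.isPGroup_quotient_iff_index _).2 (exists_relIndex_sup_eq_pow hP)

theorem mem_irrInv_one {G : Type*} [Group G] {S X : Subgroup G} (h : S ≤ Subgroup.normalizer (X : Set G)) :
    (fun _ => 1) ∈ H07.IrrInv S X :=
  ⟨isIrrCharacter_one', fun _ hs => ⟨h hs, fun _ => rfl⟩⟩

/-- Let G be a finite group, p a prime and P a Sylow p-subgroup, and let N be the largest normal subgroup of G in which P has trivial centralizer (N is normal with C_N(P) = 1 and contains every normal subgroup with that property). Then the intersection of the kernels of the irreducible characters of G of degree prime to p is the normal core in G of the subgroup N·P' (P' the derived subgroup of P). In particular, when G has no nontrivial normal subgroup of order prime to p, that intersection is the normal core of P'. -/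
theorem result {G : Type*} [Group G] [Finite G] (p : ℕ) [Fact p.Prime] (P : Sylow p G) (N : Subgroup G) [N.Normal]
    (hN : N ⊓ Subgroup.centralizer ((P : Subgroup G) : Set G) = ⊥)
    (hmax : ∀ L : Subgroup G, L.Normal → L ⊓ Subgroup.centralizer ((P : Subgroup G) : Set G) = ⊥ → L ≤ N) :
    {g : G | ∀ χ : Cfsg.IrrCharacter G, ¬ p ∣ Cfsg.charDegree (χ : G → ℂ) → (χ : G → ℂ) g = (χ : G → ℂ) 1} =
      ((N ⊔ ⁅(P : Subgroup G), (P : Subgroup G)⁆).normalCore : Set G) := by
  classical
  have hp : p.Prime := Fact.out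
  have := Fintype.ofFinite G
  let K : Subgroup G := ⨅ χ : {χ : IrrCharacter G // ¬ p ∣ charDegree (χ : G → ℂ)}, charKer (χ.1 : G → ℂ)
  have hK : ∀ g, g ∈ K ↔ ∀ χ : IrrCharacter G, ¬ p ∣ charDegree (χ : G → ℂ) → (χ : G → ℂ) g = (χ : G → ℂ) 1 := by
    intro g
    simp only [K, Subgroup.mem_iInf, Subtype.forall]
    exact forall₃_congr fun ψ hψ _ => hψ.isCharacter.mem_charKer
  have hKn : K.Normal := ⟨fun n hn g => by
    simp only [K, Subgroup.mem_iInf] at hn ⊢
    exact fun ψ => (charKer_normal _).conj_mem _ (hn ψ) g⟩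
  have hker : ∀ {H : Subgroup G}, (P : Subgroup G) ≤ H → ∀ {η : H → ℂ}, IsIrrCharacter H η →
      ¬ p ∣ charDegree η → K.subgroupOf H ≤ charKer η := by
    intro H hH η hη hd x hx
    obtain ⟨χ, h1, h2, h3⟩ := exists_over hp (fun h => P.not_dvd_index (h.trans (Subgroup.index_dvd_of_le hH)))
      hη.isCharacter hd
    exact hη.isCharacter.mem_charKer.2 (H07.apply_eq_of_mult h1.isCharacter hη h3 ((hK _).1 hx ⟨χ, h1⟩ h2))
  refine Set.Subset.antisymm (fun g hg => ?_) fun g hg χ hχ => ?_
  · refine (Subgroup.normal_le_normalCore (N := K)).2 ?_ ((hK g).2 hg)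
    have h1 : (P : Subgroup G) ⊓ K ≤ ⁅(P : Subgroup G), (P : Subgroup G)⁆ := by
      intro x hx
      rw [← Subgroup.map_subtype_commutator]
      refine ⟨⟨x, hx.1⟩, H07.mem_of_forall_irr _ fun η hη => η.2.isCharacter.mem_charKer.1
        (hker le_rfl η.2 ?_ hx.2), rfl⟩
      rw [charDegree_eq_of_apply_one (n := 1) (by
        simpa using (H07.commutator_le_charKer_iff η.2).1 fun n hn => η.2.isCharacter.mem_charKer.2 (hη n hn))]
      exact hp.not_dvd_one
    let H := K ⊔ (P : Subgroup G)
    have hq : IsPGroup p (H ⧸ K.subgroupOf H) := quot_sup P.2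
    have h2 : ¬ p ∣ Nat.card (pResidual p H) := by
      rw [(H07.card_pResidual_modEq (G := H) (p := p)).dvd_iff dvd_rfl, Finset.sum_eq_single (trivIrr H)]
      · rw [charDegree_eq_of_apply_one (n := 1) (by simp)]
        simpa using hp.ne_one
      · intro η hη hne
        obtain ⟨h3, h4⟩ := (Finset.mem_filter.1 hη).2
        have h5 := hker le_sup_right η.2 h3
        obtain ⟨φ, rfl⟩ := exists_linIrr (charDegree_eq_of_apply_one (n := 1) (by simpa using deg_one hq η.2 h3 h5))
        rw [H07.detOrder_eq, linIrr, H07.detHom_hom] at h4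
        refine (hne (Subtype.ext (funext fun x => ?_))).elim
        obtain ⟨k, hk⟩ := hq (x : H ⧸ K.subgroupOf H)
        have h6 := (linIrr φ).2.isCharacter.mem_charKer.1 (h5 ((QuotientGroup.eq_one_iff (x ^ p ^ k)).1 hk))
        have h7 : φ x = 1 := orderOf_eq_one_iff.1 <| Nat.eq_one_of_dvd_coprimes
          ((H03.coprime_iff_not_dvd.2 h4).pow_right k)
          (orderOf_dvd_of_pow_eq_one (by rw [← MonoidHom.pow_apply, pow_orderOf_eq_one, MonoidHom.one_apply]))
          (orderOf_dvd_of_pow_eq_one (Units.ext (by simpa [linIrr] using h6)))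
        simp [linIrr, h7]
      · intro h
        refine (h (Finset.mem_filter.2 ⟨Finset.mem_univ _, ?_, ?_⟩)).elim
        · rw [charDegree_eq_of_apply_one (n := 1) (by simp)]
          exact hp.not_dvd_one
        · rw [show (trivIrr H).1 = (linIrr 1).1 from rfl, H07.detOrder_eq, linIrr, H07.detHom_hom, orderOf_one]
          exact hp.not_dvd_one
    let S := (P : Subgroup G).subgroupOf H
    have hS : IsPGroup p S := P.2.comap_subtype
    have h3 : pResidual p H ⊓ Subgroup.centralizer (S : Set H) = ⊥ := by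
      have hc := H07.corr_pgroup hS Subgroup.le_normalizer_of_normal h2 rfl inf_le_left
      refine eq_bot_iff.2 fun x hx => ?_
      have := H07.mem_of_forall_irr (⊥ : Subgroup ↥(pResidual p H ⊓ Subgroup.centralizer (S : Set H)))
        (x := ⟨x, hx⟩) fun β _ => ?_
      · exact congrArg Subtype.val (Subgroup.mem_bot.1 this)
      obtain ⟨θ, h4, h5⟩ := hc.surj _ β.2
      obtain ⟨k, hk⟩ := H03.exists_index_pResidual (G := H) (p := p)
      obtain ⟨η, h6, h7, -⟩ := H07.exists_ext_of_coprime_card _ h4.1 (fun g => funext fun n =>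
        H07.stab_apply (show g ∈ H07.stab θ from by
          refine (?_ : ⊤ ≤ H07.stab θ) trivial
          rw [← H03.pResidual_sup_of_not_dvd_index (p := p) S (fun h => P.not_dvd_index
            (h.trans (Subgroup.relIndex_dvd_index_of_le le_sup_right)))]
          exact sup_le (H07.le_stab_self h4.1.isClassFunction) h4.2) rfl)
        (hk ▸ ((H03.coprime_iff_not_dvd.2 h2).symm.pow_left k))
      refine H07.apply_eq_of_mult h4.1.isCharacter β.2 (fun h => h5 (h ▸ dvd_zero p)) ?_
      rw [← h7, ← h7]
      exact h6.isCharacter.mem_charKer.1 (hker le_sup_right h6 (fun h => h2 ((H07.charDegree_eq_of_res _ h7 ▸ h).trans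
        h4.1.charDegree_dvd_card)) (H03.pResidual_le_of_isPGroup_quotient _ hq hx.1))
    have h4 : (pResidual p K).map K.subtype ≤ N := by
      refine hmax _ inferInstance (eq_bot_iff.2 fun x hx => ?_)
      obtain ⟨y, hy, rfl⟩ := H03.map_pResidual_mono (le_sup_left : K ≤ H) hx.1
      have : y ∈ pResidual p H ⊓ Subgroup.centralizer (S : Set H) :=
        ⟨hy, fun z hz => Subtype.ext (hx.2 z hz)⟩
      rw [h3, Subgroup.mem_bot] at this
      simp [this]
    have h5 := congrArg (Subgroup.map K.subtype) (H03.pResidual_sup_of_not_dvd_index (p := p)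
      ((P : Subgroup G).subgroupOf K) (H03.not_dvd_relIndex_normal P.not_dvd_index K))
    rw [Subgroup.map_sup, Subgroup.subgroupOf_map_subtype, ← MonoidHom.range_eq_map, Subgroup.range_subtype] at h5
    exact h5 ▸ sup_le_sup h4 h1
  · have hN' : ¬ p ∣ Nat.card N := by
      have h2 : N.subgroupOf (P : Subgroup G) = ⊥ := by
        by_contra h
        have := P.2.isNilpotent
        obtain ⟨x, hx⟩ := Subgroup.ne_bot_iff_exists_ne_one.1 (H02.inf_center_ne_bot_of_isNilpotent _ h)
        have h3 : (x.1.1 : G) ∈ N ⊓ Subgroup.centralizer ((P : Subgroup G) : Set G) :=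
          ⟨x.2.1, fun y hy => congrArg Subtype.val (Subgroup.mem_center_iff.1 x.2.2 ⟨y, hy⟩)⟩
        rw [hN, Subgroup.mem_bot] at h3
        exact hx (Subtype.ext (Subtype.ext h3))
      have h1 := H03.not_dvd_relIndex_normal P.not_dvd_index N
      rwa [← Subgroup.inf_relIndex_right, inf_comm, Subgroup.subgroupOf_eq_bot.1 h2 |>.eq_bot,
        Subgroup.relIndex_bot_left] at h1
    have h1 : N ≤ charKer (χ : G → ℂ) := by
      have := Fintype.ofFinite N
      by_contra hc
      refine hχ (H07.degree_eq_sum_mult N.subtype χ.2.isCharacter ▸ H07.dvd_sum_irr P.2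
        Subgroup.le_normalizer_of_normal (fun η => H07.mult N.subtype χ η * charDegree η)
        (fun t ht η hη => ?_) fun η hη => ?_)
      · congr 1
        · exact H07.mult_congr (H07.cjA (Subgroup.le_normalizer_of_normal ht)).toEquiv
            (fun c => (χ.2.isClassFunction _ _).symm) fun c => rfl
        · simp only [charDegree, map_one]
      · have := P.2.isNilpotent
        have h3 := H07.card_irrInv_eq (S := (P : Subgroup G)) (G := N)
          Subgroup.le_normalizer_of_normal (P.2.exists_card_eq.choose_spec ▸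
            (H03.coprime_iff_not_dvd.2 hN').pow_right _)
        rw [hN, card_irr_eq_card_conjClasses, show Nat.card (ConjClasses (⊥ : Subgroup G)) = 1 from
          Nat.card_eq_one_iff_unique.2 ⟨ConjClasses.mk_surjective.subsingleton, inferInstance⟩,
          Nat.card_eq_one_iff_unique] at h3
        obtain rfl : η = fun _ => 1 := congrArg Subtype.val
          (h3.1.elim ⟨η, hη⟩ ⟨_, mem_irrInv_one Subgroup.le_normalizer_of_normal⟩)
        rw [not_not.1 fun h => hc fun n hn => χ.2.isCharacter.mem_charKer.2 ((H07.res_inner_one_ne_zero_iff N χ.2).1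
          ((H07.mult_sub_ne_zero N χ.2.isCharacter hη.1.isCharacter).1 h) n hn), zero_mul]
        exact dvd_zero p
    let H := N ⊔ (P : Subgroup G)
    obtain ⟨η, h2, h3, h4⟩ := exists_under (p := p) H.subtype χ.2.isCharacter hχ
    have h5 : N.subgroupOf H ≤ charKer η := fun x hx => h2.isCharacter.mem_charKer.2
      (H07.apply_eq_of_mult χ.2.isCharacter h2 h4 (χ.2.isCharacter.mem_charKer.1 (h1 hx)))
    have h6 := deg_one (quot_sup P.2) h2 h3 h5
    have h7 : N ⊔ ⁅(P : Subgroup G), (P : Subgroup G)⁆ ≤ (charKer η).map H.subtype := by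
      refine sup_le (fun x hx => ⟨⟨x, Subgroup.mem_sup_left hx⟩, h5 hx, rfl⟩) ?_
      refine (Subgroup.commutator_mono (le_sup_right : _ ≤ H) (le_sup_right : _ ≤ H)).trans ?_
      rw [← Subgroup.map_subtype_commutator]
      exact Subgroup.map_mono ((H07.commutator_le_charKer_iff h2).2 h6)
    let L := (N ⊔ ⁅(P : Subgroup G), (P : Subgroup G)⁆).normalCore
    have h8 : L ≤ (charKer η).map H.subtype := (Subgroup.normalCore_le _).trans h7
    have h9 : L ≤ H := h8.trans (Subgroup.map_subtype_le _)
    have := Fintype.ofFinite L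
    refine (H07.res_inner_one_ne_zero_iff L χ.2).1 ((H07.mult_sub_ne_zero L χ.2.isCharacter
      isIrrCharacter_one'.isCharacter).1 ?_) g hg
    refine H07.mult_trans (ι₂ := Subgroup.inclusion h9) χ.2.isCharacter h2 isIrrCharacter_one'.isCharacter h4 ?_
      (fun _ => rfl)
    rw [H07.mult_of_comp_eq isIrrCharacter_one' fun c => ?_]
    · exact one_ne_zero
    · obtain ⟨y, hy, e⟩ := h8 c.2
      rw [← h6, ← h2.isCharacter.mem_charKer.1 hy]
      exact congrArg η (Subtype.ext e.symm)

end Cfsg.Agent.S4591
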