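import Cfsg.Statements.S4602
import Cfsg.Agent.H24.PSolv
import Cfsg.Agent.H03.HallNC
-- import your own Cfsg.Agent.* helpers here

set_option autoImplicit false
open Cfsg

namespace Cfsg.Agent.S4602

/-- Let G be a finite p-solvable group and q a prime different from p. Some Sylow p-subgroup of G normalizes some Sylow q-subgroup of G if and only if q does not divide the order of G/O_{p'}(G), the quotient by the largest normal subgroup of order prime to p. -/
theorem result {G : Type*} [Group G] [Finite G] (p q : ℕ) [Fact p.Prime] [Fact q.Prime] (hpq : p ≠ q) (hsolv : Cfsg.IsPSolvable p G) :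
    (∃ (P : Sylow p G) (Q : Sylow q G), (P : Subgroup G) ≤ Subgroup.normalizer ((Q : Subgroup G) : Set G)) ↔ ¬ q ∣ (Cfsg.pPrimeCore p G).index := by
  open BG in
  have hp : p.Prime := Fact.out
  have hq : q.Prime := Fact.out
  constructor
  · rintro ⟨P, Q, h⟩
    obtain ⟨k, hk⟩ := IsPGroup.iff_card.1 Q.isPGroup'
    have := H24.PS.le_pPrimeCore_of_normalized hsolv
      (hk ▸ Nat.Coprime.pow_left _ ((Nat.coprime_primes hq hp).2 hpq.symm)) P h
    exact fun hd => Q.not_dvd_index (hd.trans (Subgroup.index_dvd_of_le this))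
  · intro h
    obtain ⟨Q⟩ : Nonempty (Sylow q G) := inferInstance
    have hle : (Q : Subgroup G) ≤ pPrimeCore p G := by
      intro x hx
      obtain ⟨k, hk⟩ := H16.exists_orderOf_eq_of_mem Q.isPGroup' hx
      exact H16.mem_of_coprime_index (hk ▸ Nat.Coprime.pow_left _ ((Nat.Prime.coprime_iff_not_dvd hq).2 h))
    have hF : N_((Q : Subgroup G)) ⊔ pPrimeCore p G = ⊤ := Sylow.normalizer_sup_eq_top' Q hle
    have hi : ¬ p ∣ N_((Q : Subgroup G)).index := by
      have h1 : N_((Q : Subgroup G)).index ∣ Nat.card (pPrimeCore p G) := by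
        rw [← Subgroup.relIndex_top_right, ← hF, sup_comm, relIndex_sup' Subgroup.le_normalizer_of_normal]
        exact relIndex_dvd_card _ _
      exact fun hd => H02.not_dvd_card_pPrimeCore hp (hd.trans h1)
    obtain ⟨P, hP⟩ := H03.exists_sylow_le_of_not_dvd_index hi
    exact ⟨P, Q, hP⟩

end Cfsg.Agent.S4602
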