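import Cfsg.Statements.S4601
import Cfsg.Agent.H24.PSolv2
import Cfsg.Agent.S4602
import Cfsg.Agent.H17.Lift
import Cfsg.Agent.H21.PPart
import Cfsg.Agent.H03.HallNC
-- import your own Cfsg.Agent.* helpers here

set_option autoImplicit false
open Cfsg

namespace Cfsg.Agent.S4601

open BG in
theorem aux {p q : ℕ} [hp : Fact p.Prime] [hq : Fact q.Prime] (hpq : p ≠ q) (G : Type*) [Group G] [Finite G]
    (hG : IsPSolvable q G) : (∀ y : G, (∃ k : ℕ, orderOf y = q ^ k) → ¬ p ∣ C_[y].index) →
    ∃ (P : Sylow p G) (Q : Sylow q G), (P : Subgroup G) ≤ N_((Q : Subgroup G)) := by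
  refine H24.PS.induction (motive := fun G _ _ => (∀ y : G, (∃ k : ℕ, orderOf y = q ^ k) → ¬ p ∣ C_[y].index) →
    ∃ (P : Sylow p G) (Q : Sylow q G), (P : Subgroup G) ≤ N_((Q : Subgroup G))) ?_ ?_ ?_ G hG
  · intro G _ _ hs _
    exact ⟨default, default, fun a _ => by rw [Subsingleton.elim a 1]; exact one_mem _⟩
  all_goals
    intro G _ _ N _ hG hN h ih hy
    have hs := QuotientGroup.mk'_surjective N
    obtain ⟨P', Q', h1⟩ := ih fun y hy' => by
      obtain ⟨x, rfl⟩ := hs y
      rw [← H21.pPart_of_pow hy', ← H21.map_pPart]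
      refine fun hd => hy _ (H21.orderOf_pPart q x) (hd.trans ?_)
      refine (Subgroup.index_dvd_of_le ?_).trans (Subgroup.index_map_dvd _ hs)
      rintro _ ⟨c, hc, rfl⟩
      rw [Subgroup.mem_centralizer_singleton_iff, ← map_mul, ← map_mul,
        Subgroup.mem_centralizer_singleton_iff.1 hc]
    obtain ⟨P, rfl⟩ := Sylow.mapSurjective_surjective hs p P'
    obtain ⟨Q, rfl⟩ := Sylow.mapSurjective_surjective hs q Q'
    have h2 : (P : Subgroup G) ≤ N_((Q : Subgroup G).map (QuotientGroup.mk' N)).comap (QuotientGroup.mk' N) :=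
      Subgroup.map_le_iff_le_comap.1 h1
  · refine ⟨P, Q, h2.trans ((H17.comap_normalizer_le _ _).trans (le_of_eq ?_))⟩
    rw [Subgroup.comap_map_eq, QuotientGroup.ker_mk', sup_eq_left.2 (h.le_sylow_of_normal Q)]
  · rw [← H17.normalizer_map_of_coprime_ker hs (by rwa [QuotientGroup.ker_mk']) Q.isPGroup',
      Subgroup.comap_map_eq, QuotientGroup.ker_mk'] at h2
    have hc := (H01.coprime_card_of_isPGroup Q.isPGroup' h).symm
    have hsol := H01.isSolvable_of_isPGroup Q.isPGroup'
    obtain ⟨P₀, a, b, c, d⟩ := H01.exists_invariant_sylow (A := Q) (K := N) Subgroup.le_normalizer_of_normal hc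
      (Or.inl hsol) p
    have h3 : P₀ ≤ C_((Q : Subgroup G)) := by
      rw [Subgroup.le_centralizer_iff]
      intro y hyQ
      obtain ⟨R, hR⟩ := H03.exists_sylow_le_of_not_dvd_index
        (hy y (H16.exists_orderOf_eq_of_mem Q.isPGroup' hyQ))
      have e1 : IsSylowIn p (R ⊓ N : Subgroup G) N :=
        H01.isPiHallOf_inf_normal (isSylowIn_top hp.out R) le_top Subgroup.le_normalizer_of_normal
      have hz : Subgroup.zpowers y ≤ Q := Subgroup.zpowers_le.2 hyQ
      have e2 : (R ⊓ N : Subgroup G) ≤ C_[y] := inf_le_left.trans hR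
      obtain ⟨c, ⟨-, hc2⟩, hc3⟩ := H01.invariant_sylow_conj (A := Subgroup.zpowers y) (K := N)
        Subgroup.le_normalizer_of_normal (H01.coprime_of_le_left hc hz) (Or.inl inferInstance)
        e1.le (e1.pg hp.out) (e1.not_dvd' hp.out) a b c
        ((Subgroup.zpowers_le.2 (le_cent1_iff.1 e2)).trans (Subgroup.centralizer_le_normalizer _)) (hz.trans d)
      rw [← le_cent1_iff, ← hc3]
      rw [cent_zpowers] at hc2
      exact cj_le_of_mem e2 hc2
    have h4 : ¬ p ∣ N_((Q : Subgroup G)).index := by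
      rw [← Subgroup.relIndex_mul_index (le_sup_left (b := N)), sup_comm, relIndex_sup' Subgroup.le_normalizer_of_normal,
        sup_comm]
      refine fun hd => (hp.out.dvd_mul.1 hd).elim (fun h5 => c (h5.trans ?_)) fun h5 => P.not_dvd_index (h5.trans ?_)
      · exact relIndex_dvd_left _ (h3.trans (Subgroup.centralizer_le_normalizer _))
      · exact Subgroup.index_dvd_of_le h2
    obtain ⟨R, hR⟩ := H03.exists_sylow_le_of_not_dvd_index h4
    exact ⟨R, Q, hR⟩

/-- Let p and q be primes and G a finite group that is p-solvable or q-solvable, in which no q-element has conjugacy class size divisible by p. Then some Sylow p-subgroup of G normalizes some Sylow q-subgroup of G. -/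
theorem result {G : Type*} [Group G] [Finite G] (p q : ℕ) [Fact p.Prime] [Fact q.Prime] (hsolv : Cfsg.IsPSolvable p G ∨ Cfsg.IsPSolvable q G)
    (h : ∀ y : G, (∃ k : ℕ, orderOf y = q ^ k) → ¬ p ∣ (Subgroup.centralizer ({y} : Set G)).index) :
    ∃ (P : Sylow p G) (Q : Sylow q G), (P : Subgroup G) ≤ Subgroup.normalizer ((Q : Subgroup G) : Set G) := by
  open BG in
  have hp : p.Prime := Fact.out
  have hq : q.Prime := Fact.out
  by_cases hpq : p = q
  · subst hpq
    exact ⟨default, default, Subgroup.le_normalizer⟩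
  rcases hsolv with hs | hs
  · refine (Cfsg.Agent.S4602.result p q hpq hs).2 ?_
    obtain ⟨Q⟩ : Nonempty (Sylow q G) := inferInstance
    have : (Q : Subgroup G) ≤ pPrimeCore p G := by
      intro y hy
      obtain ⟨k, hk⟩ := H16.exists_orderOf_eq_of_mem Q.isPGroup' hy
      obtain ⟨R, hR⟩ := H03.exists_sylow_le_of_not_dvd_index (h y ⟨k, hk⟩)
      refine H24.PS.le_pPrimeCore_of_normalized hs (Q := Subgroup.zpowers y) ?_ R ?_ (Subgroup.mem_zpowers y)
      · rw [Nat.card_zpowers, hk]
        exact Nat.Coprime.pow_left _ ((Nat.coprime_primes hq hp).2 (Ne.symm hpq))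
      · exact hR.trans (cent_zpowers y ▸ Subgroup.centralizer_le_normalizer _)
    exact fun hd => Q.not_dvd_index (hd.trans (Subgroup.index_dvd_of_le this))
  · exact aux hpq G hs h

end Cfsg.Agent.S4601
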