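import Cfsg.Statements.S4604
import Cfsg.Agent.H05.Brauer
import Cfsg.Agent.H21.PPart
-- import your own Cfsg.Agent.* helpers here

set_option autoImplicit false
open Cfsg

namespace Cfsg.Agent.S4604

open H05 Subgroup
open scoped ComplexConjugate

theorem avg_int {Γ : Type*} [Group Γ] [Fintype Γ] {χ : Γ → ℂ} (hχ : IsCharacter Γ χ) {z : Γ} (hz : z ∈ center Γ)
    (Q : Subgroup Γ) [Fintype Q] : IsIntegral ℤ ((Nat.card Q : ℂ)⁻¹ * ∑ q : Q, χ (z * q)) := by
  have := Fintype.ofFinite (IrrCharacter Γ)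
  obtain ⟨m, -, rfl⟩ := hχ.exists_nat_coeff
  simp only [Finset.sum_apply, Pi.smul_apply, smul_eq_mul]
  rw [Finset.sum_comm, Finset.mul_sum]
  refine IsIntegral.sum _ fun ψ _ => ?_
  obtain ⟨n, hn⟩ := (ψ.2.isCharacter.restrict Q).exists_classInner_eq_nat isCharacter_one
  have h1 : ∀ k : ℕ, ψ.1 (z ^ k) = (ψ.1 z / ψ.1 1) ^ k * ψ.1 1 := fun k => by
    induction k with
    | zero => simp
    | succ k ih => rw [pow_succ', ψ.2.apply_mul_of_mem_center hz, ih, pow_succ', mul_assoc]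
  have h2 := h1 (orderOf z)
  rw [pow_orderOf_eq_one, eq_comm, mul_eq_right₀ ψ.2.apply_one_ne_zero] at h2
  simp only [ψ.2.apply_mul_of_mem_center hz, ← Finset.mul_sum]
  rw [mul_left_comm, mul_left_comm _ (_ / _), ← classInner_one_right, hn]
  exact (isIntegral_natCast _).mul ((isIntegral_of_pow_eq_one (orderOf_pos z).ne' h2).mul (isIntegral_natCast _))

theorem frob {G : Type*} [Group G] [Finite G] {p : ℕ} (hp : p.Prime) {χ : G → ℂ} (hχ : IsCharacter G χ) (g : G) (n : ℕ) :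
    ∃ γ : AlgInt, χ g ^ p ^ n = χ (g ^ p ^ n) + p * γ := by
  obtain ⟨ω, h1, h2⟩ := hχ.exists_roots g
  have h3 : ∀ s : Finset (Fin (charDegree χ)), ∃ γ : AlgInt, (∑ i ∈ s, ω i) ^ p ^ n = ∑ i ∈ s, ω i ^ p ^ n + p * γ := by
    intro s
    induction s using Finset.cons_induction with
    | empty => exact ⟨0, by simp [hp.ne_zero]⟩
    | cons a s ha ih =>
      obtain ⟨γ, ih⟩ := ih
      have hi : ∀ i, IsIntegral ℤ (ω i) := fun i => isIntegral_of_pow_eq_one (orderOf_pos g).ne' (h1 i)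
      obtain ⟨r, hr⟩ := exists_add_pow_prime_pow_eq hp (⟨_, hi a⟩ : AlgInt) ⟨_, IsIntegral.sum _ fun i (_ : i ∈ s) => hi i⟩ n
      refine ⟨γ + ⟨_, hi a⟩ * ⟨_, IsIntegral.sum _ fun i (_ : i ∈ s) => hi i⟩ * r, ?_⟩
      have := congrArg Subtype.val hr
      push_cast at this ⊢
      rw [Finset.sum_cons, Finset.sum_cons, this, ih]; ring
  rw [h2, ← pow_one g, h2]
  simpa using h3 Finset.univ

theorem sep {G : Type*} [Group G] [Finite G] {p : ℕ} [hp : Fact p.Prime] {s t : G} (hs : ¬ p ∣ orderOf s)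
    (ht : ¬ p ∣ orderOf t) (h : ∀ χ : IrrCharacter G, ∃ γ : AlgInt, χ.1 s - χ.1 t = p * γ) : IsConj s t := by
  classical
  by_contra hc
  have := Fintype.ofFinite G
  have := Fintype.ofFinite (IrrCharacter G)
  let C := centralizer ({s} : Set G)
  let z : C := ⟨s, mem_centralizer_singleton_iff.2 rfl⟩
  let Q : Sylow p C := default
  let a : IrrCharacter G → ℂ := fun χ => (Nat.card Q : ℂ)⁻¹ * ∑ q : (Q : Subgroup C), χ.1 (z * q : C)
  have h1 : ∀ g : G, ¬ p ∣ orderOf g → ∑ χ : IrrCharacter G, χ.1 g * conj (a χ) =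
      (Nat.card Q : ℂ)⁻¹ * if IsConj g s then (Nat.card (centralizer ({g} : Set G)) : ℂ) else 0 := fun g hg => by
    simp only [a, map_mul, map_inv₀, Complex.conj_natCast, map_sum, mul_left_comm _ (_⁻¹ : ℂ), ← Finset.mul_sum]
    congr 1
    simp only [Finset.mul_sum]
    rw [Finset.sum_comm, Finset.sum_eq_single 1 (fun q _ hq => ?_) (by simp), sum_irr_mul_conj]
    · simp [z]
    refine sum_irr_mul_conj_of_not_isConj fun h => hq (Subtype.ext (Subtype.ext ?_))
    have h2 := H21.isConj_pPart p h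
    have h3 : Commute (q.1 : G) s := mem_centralizer_singleton_iff.1 q.1.2
    rw [H21.pPart_of_not_dvd hg, isConj_one_right, show ((z * q : C) : G) = q * s from h3.symm,
      H21.pPart_mul_of_commute (by simpa using IsPGroup.iff_orderOf.1 Q.2 q) hs h3] at h2
    exact h2
  choose γ hγ using h
  have h2 : ((Q : Subgroup C).index : ℂ) = p * ∑ χ, γ χ * conj (a χ) := by
    have := congrArg₂ (· - ·) (h1 s hs) (h1 t ht)
    simp only [IsConj.refl, if_true, if_neg fun h : IsConj t s => hc h.symm, mul_zero, sub_zero, ← Finset.sum_sub_distrib,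
      ← sub_mul, hγ, mul_assoc, ← Finset.mul_sum] at this
    rw [this, ← card_mul_index (Q : Subgroup C), Nat.cast_mul, inv_mul_cancel_left₀ (Nat.cast_ne_zero.2 Nat.card_pos.ne')]
  obtain ⟨m, hm⟩ := exists_int_of_coprime_mul (Nat.coprime_one_right p) ⟨_, h2.symm⟩ (by
    rw [Nat.cast_one, one_mul]
    exact IsIntegral.sum _ fun χ _ => (γ χ).2.mul ((avg_int (χ.2.isCharacter.restrict C) (mem_center_iff.2 fun g =>
      Subtype.ext (mem_centralizer_singleton_iff.1 g.2)) Q).map (starRingEnd ℂ).toIntAlgHom)) hp.out.ne_zero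
  rw [hm] at h2
  exact Q.not_dvd_index (Int.natCast_dvd_natCast.1 ⟨m, by exact_mod_cast h2⟩)

/-- Let G be a finite group, p a prime and p^a the p-part of the order of G. Let x, y ∈ G and let x′, y′ be their p-regular parts: x′ has order prime to p, commutes with x·x′⁻¹, and x·x′⁻¹ has p-power order (likewise for y). Then x′ and y′ are conjugate in G if and only if for every irreducible character χ of G the algebraic integer χ(x)^(p^a) − χ(y)^(p^a) is p times an algebraic integer. -/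
theorem result {G : Type*} [Group G] [Finite G] (p : ℕ) [Fact p.Prime] (x y x' y' : G)
    (hx : (∃ k : ℕ, orderOf (x * x'⁻¹) = p ^ k) ∧ Commute (x * x'⁻¹) x' ∧ ¬ p ∣ orderOf x')
    (hy : (∃ k : ℕ, orderOf (y * y'⁻¹) = p ^ k) ∧ Commute (y * y'⁻¹) y' ∧ ¬ p ∣ orderOf y') :
    IsConj x' y' ↔ ∀ χ : Cfsg.IrrCharacter G, ∃ γ : Cfsg.AlgInt,
      (χ : G → ℂ) x ^ (p ^ (Nat.card G).factorization p) - (χ : G → ℂ) y ^ (p ^ (Nat.card G).factorization p) = (p : ℂ) * (γ : ℂ) := by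
  have hp : p.Prime := Fact.out
  set n := (Nat.card G).factorization p
  have h1 : ∀ x x' : G, ((∃ k : ℕ, orderOf (x * x'⁻¹) = p ^ k) ∧ Commute (x * x'⁻¹) x' ∧ ¬ p ∣ orderOf x') →
      x ^ p ^ n = x' ^ p ^ n := fun x x' ⟨⟨k, h1⟩, h2, _⟩ => by
    rw [← inv_mul_cancel_right x x', h2.mul_pow, orderOf_dvd_iff_pow_eq_one.1 (h1.dvd.trans (pow_dvd_pow _
      ((hp.pow_dvd_iff_le_factorization Nat.card_pos.ne').1 (h1 ▸ orderOf_dvd_natCard _)))), one_mul]
  have h2 : ∀ χ : IrrCharacter G, ∃ γ : AlgInt, χ.1 x ^ p ^ n - χ.1 y ^ p ^ n =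
      χ.1 (x' ^ p ^ n) - χ.1 (y' ^ p ^ n) + p * γ := fun χ => by
    obtain ⟨a, ha⟩ := frob hp χ.2.isCharacter x n
    obtain ⟨b, hb⟩ := frob hp χ.2.isCharacter y n
    exact ⟨a - b, by rw [ha, hb, h1 x x' hx, h1 y y' hy]; push_cast; ring⟩
  refine ⟨fun h χ => ?_, fun h => ?_⟩
  · obtain ⟨γ, hγ⟩ := h2 χ
    exact ⟨γ, by rw [hγ, χ.2.isClassFunction.isConj (h.pow _), sub_self, zero_add]⟩
  have h3 := sep (fun h => hx.2.2 (h.trans (orderOf_pow_dvd (p ^ n)))) (fun h => hy.2.2 (h.trans (orderOf_pow_dvd (p ^ n))))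
    fun χ => by
      obtain ⟨a, ha⟩ := h χ
      obtain ⟨b, hb⟩ := h2 χ
      exact ⟨a - b, by push_cast; linear_combination ha - hb⟩
  obtain ⟨m, hm⟩ := exists_pow_eq_self_of_coprime (x := (x', y')) (n := p ^ n) (by
    rw [Prod.orderOf]
    exact Nat.Coprime.pow_left _ (Nat.Coprime.coprime_dvd_right (Nat.lcm_dvd_mul _ _)
      ((hp.coprime_iff_not_dvd.2 hx.2.2).mul_right (hp.coprime_iff_not_dvd.2 hy.2.2))))
  rw [← show _ = x' from congrArg Prod.fst hm, ← show _ = y' from congrArg Prod.snd hm]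
  exact h3.pow m

end Cfsg.Agent.S4604
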