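import Mathlib
import Cfsg.Statements.S4608
import Cfsg.Agent.H21.K5

set_option autoImplicit false
open Cfsg

namespace Cfsg.Agent.S4608
open H05 Cfsg H20 H21

/-- Let G be a finite group, p a prime, M a maximal ideal of the algebraic integers containing p, and B a p-block of G with defect group D. If B has p-regular rank one and exactly five irreducible characters, then D is cyclic of order 5, or D has order 8 and is non-abelian (dihedral or quaternion). -/
theorem result {G : Type*} [Group G] [Finite G] (p : ℕ) [Fact p.Prime] (M : Ideal Cfsg.AlgInt) (hM : Cfsg.IsPModular p M) (B : Set (Cfsg.IrrCharacter G)) (hB : Cfsg.IsPBlock M B) (D : Subgroup G) (hD : Cfsg.IsDefectGroup p M B D)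
    (hl : Cfsg.blockRank p B = 1) (hk : Nat.card B = 5) :
    (Nat.card D = 5) ∨ (Nat.card D = 8 ∧ ¬ IsMulCommutative D) := by
  haveI := Fintype.ofFinite G
  rw [hD.card_eq hM hB]
  refine (pow_of_k5 hM hB hl hk).imp_right fun e => ⟨e, ?_⟩
  obtain rfl : p = 2 := (Nat.prime_dvd_prime_iff_eq Nat.prime_two hM.1).1
    (Nat.prime_two.dvd_of_dvd_pow (e ▸ by norm_num : 2 ∣ p ^ blockDefect p B)) |>.symm
  exact not_comm_of_k5 hM hB hl hk (Nat.pow_right_injective le_rfl (e.trans (by norm_num))) hD

end Cfsg.Agent.S4608
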