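import Mathlib
import Cfsg.Statements.S4609
import Cfsg.Agent.H21.K3b

set_option autoImplicit false
open Cfsg

namespace Cfsg.Agent.S4609
open H05 Cfsg H20 H21

/-- Let G be a finite group, p a prime, M a maximal ideal of the algebraic integers containing p, and B a p-block of G with defect group D containing exactly three irreducible characters. Suppose the number of height-zero characters of B equals the number of height-zero characters of its Brauer correspondent b, the block of N_G(D) with defect group D inducing B (as the Alperin–McKay conjecture predicts). Then D has order 3. -/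
theorem result {G : Type*} [Group G] [Finite G] (p : ℕ) [Fact p.Prime] (M : Ideal Cfsg.AlgInt) (hM : Cfsg.IsPModular p M) (B : Set (Cfsg.IrrCharacter G)) (hB : Cfsg.IsPBlock M B) (D : Subgroup G) (hD : Cfsg.IsDefectGroup p M B D) (hk : Nat.card B = 3)
    (b : Set (Cfsg.IrrCharacter (Subgroup.normalizer (D : Set G)))) (hbB : Cfsg.IsInducedBlock M (Subgroup.normalizer (D : Set G)) b B)
    (hbD : Cfsg.IsDefectGroup p M b (D.subgroupOf (Subgroup.normalizer (D : Set G))))
    (hAM : Nat.card {χ : Cfsg.IrrCharacter G // χ ∈ B ∧ Cfsg.blockHeight p B (χ : G → ℂ) = 0} =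
           Nat.card {ψ : Cfsg.IrrCharacter (Subgroup.normalizer (D : Set G)) // ψ ∈ b ∧ Cfsg.blockHeight p b (ψ : Subgroup.normalizer (D : Set G) → ℂ) = 0}) :
    Nat.card D = 3 := by
  haveI := hM.2.1
  haveI := Fintype.ofFinite G
  have hp : p.Prime := Fact.out
  have h1 := one_le_blockRank hM.1 hB.nonempty
  have h2 := hD.card_eq hM hB
  have h3 : ¬ Nat.card B ≤ blockRank p B := fun e => by
    have := card_block_le hM hB
    rw [defect_zero_of_card_le_rank hM hB e, mul_zero, pow_zero] at this
    omega
  by_cases h4 : blockRank p B = 1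
  · rw [h2, ← card_eq_of_rank_one hM hB h4 (by omega), hk]
  have he := pow_eq_one_of_conj hD.isPGroup fun u hu hu1 =>
    (kl_aux hM hB hD (by omega) hu hu1).2
  have hD1 : Nat.card D ≠ 1 := fun e => by
    have := card_block_le hM hB
    rw [(hD.eq_bot_iff hM hB).1 (Subgroup.card_eq_one.1 e), mul_zero, pow_zero] at this
    omega
  have hD2 : Nat.card D ≠ 2 := fun e => by
    have := (Cfsg.Agent.S4607.result p M hM B hB D hD).2 e
    omega
  set N := Subgroup.normalizer (D : Set G)
  have hcard : Nat.card (D.subgroupOf N) = Nat.card D :=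
    Nat.card_congr (Subgroup.subgroupOfEquivOfLe Subgroup.le_normalizer).toEquiv
  set P := D.subgroupOf N
  haveI : P.Normal := Subgroup.normal_in_normalizer
  have hP := hbD.isPGroup
  have hle : ⁅P, P⁆ ≤ P := Subgroup.commutator_le_left P P
  have hf := QuotientGroup.mk'_surjective ⁅P, P⁆
  have hker := QuotientGroup.ker_mk' ⁅P, P⁆
  set f := QuotientGroup.mk' ⁅P, P⁆
  obtain ⟨c, c1, c2, c3⟩ := exists_dom_defectGroup hM hf (hker.symm ▸ hP.to_le hle) hbB.1 hbD
  haveI : (P.map f).Normal := Subgroup.Normal.map this f hf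
  have hcm : ∀ a ∈ P.map f, ∀ c ∈ P.map f, a * c = c * a := by
    rintro _ ⟨x, hx, rfl⟩ _ ⟨y, hy, rfl⟩
    rw [← commutatorElement_eq_one_iff_mul_comm, ← map_commutatorElement, ← MonoidHom.mem_ker, hker]
    exact Subgroup.commutator_mem_commutator hx hy
  have h5 := card_map_mul_of_ker_le (f := f) (hker.symm ▸ hle)
  have h6 := (Cfsg.Agent.S0972.result p M hM c c1 _ c3).1 hcm
  have h7 : Nat.card c ≤ 3 := by
    rw [← hk]
    refine le_trans ?_ (hAM.symm.le.trans (Nat.card_le_card_of_injective
      (fun χ => (⟨χ.1, χ.2.1⟩ : B)) fun _ _ e => Subtype.ext (congrArg (fun x : B => x.1) e)))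
    refine Nat.card_le_card_of_injective (fun ψ => ⟨infl hf ψ.1, c2 ψ.2, ?_⟩) fun _ _ e =>
      Subtype.ext (infl_injective hf (congrArg Subtype.val e))
    have a1 := (blockHeight_eq_zero_iff p ψ.2).1 (h6 _ ψ.2)
    have a2 := factorization_card_quotient hp ⁅P, P⁆
    rw [blockHeight_eq_zero_iff p ((mem_dom hf).1 (c2 ψ.2)), charDegree_infl, ← hbD.factorization_card hM hbB.1, ← h5,
      Nat.factorization_mul Nat.card_pos.ne' Nat.card_pos.ne', Finsupp.add_apply,
      c3.factorization_card hM c1, hker]
    omega
  have h8 := K3.card_le_three_of_normal hM c1 c3 ⟨⟨fun a b => Subtype.ext (hcm _ a.2 _ b.2)⟩⟩ (by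
    rintro ⟨_, x, hx, rfl⟩
    refine Subtype.ext ?_
    show f x ^ p = 1
    rw [← map_pow, show x ^ p = 1 from Subtype.ext (he _ hx), map_one]) h7
  have h9 : (commutator P).index = Nat.card (P.map f) := by
    have a1 := (commutator P).index_mul_card
    rw [← Subgroup.card_map_of_injective P.subtype_injective, Subgroup.map_subtype_commutator, ← h5,
      hker] at a1
    exact Nat.eq_of_mul_eq_mul_right Nat.card_pos a1
  haveI : Nontrivial P := Finite.one_lt_card_iff_nontrivial.1 (by
    have := Nat.card_pos (α := D); omega)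
  have h10 : commutator P ≠ ⊤ := fun e => by
    have := frattini_nongenerating (K := ⊥) (by
      rw [bot_sup_eq, eq_top_iff, ← e]; exact H04.commutator_le_frattini hP)
    exact bot_ne_top this
  obtain ⟨x, hx⟩ : ∃ x, x ∉ commutator P := by
    by_contra h
    exact h10 (eq_top_iff.2 fun x _ => by_contra fun hx => h ⟨x, hx⟩)
  have h11 : (commutator P).index.Prime := by
    have a1 : (commutator P).index ≠ 1 := fun e => h10 (Subgroup.index_eq_one.1 e)
    have a2 : (commutator P).index ≠ 0 := Subgroup.index_ne_zero_of_finite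
    have a3 : (commutator P).index = 2 ∨ (commutator P).index = 3 := by omega
    rcases a3 with e | e <;> rw [e] <;> norm_num
  have h12 : Subgroup.zpowers x ⊔ commutator P = ⊤ := by
    rcases (Nat.dvd_prime h11).1 (Subgroup.index_dvd_of_le
      (le_sup_right : commutator P ≤ Subgroup.zpowers x ⊔ commutator P)) with e | e
    · exact Subgroup.index_eq_one.1 e
    · have a1 := Subgroup.relIndex_mul_index
        (le_sup_right : commutator P ≤ Subgroup.zpowers x ⊔ commutator P)
      rw [e, Nat.mul_eq_right h11.ne_zero, Subgroup.relIndex_eq_one] at a1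
      exact absurd (a1 (Subgroup.mem_sup_left (Subgroup.mem_zpowers x))) hx
  have h13 : Subgroup.zpowers x = ⊤ := frattini_nongenerating (eq_top_iff.2
    (h12.ge.trans (sup_le_sup_left (H04.commutator_le_frattini hP) _)))
  have h14 : Nat.card D = p := by
    rw [← hcard, ← Subgroup.card_top, ← h13, Nat.card_zpowers]
    exact orderOf_eq_prime (Subtype.ext (Subtype.ext (he _ x.2))) fun e => hx (e ▸ one_mem _)
  have h15 := (commutator P).index_dvd_card
  rw [hcard, h14, Nat.prime_dvd_prime_iff_eq h11 hp] at h15
  have := hp.two_le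
  omega

end Cfsg.Agent.S4609
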