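import Mathlib
import Cfsg.Agent.H20.Constr
-- Template for statement S4611 (row 4611; see /opt/grader/pristine/manifest.json for weights).
-- Copy to Cfsg/Agent/S4611.lean and replace the sorry. The statement below is byte-identical to the frozen
-- statement Cfsg.CfsgFrozen.S4611 (Cfsg/Statements/S4611.lean; the theorem Cfsg.blk3_solvable_principal_blocks_meet_trivially_iff_product_of_cores);
-- the grader kernel-checks Cfsg.Agent.S4611.result against that frozen type. Keep the theorem IN THIS FILE
-- (a `result` declared elsewhere and merely imported here is not credited); helpers may live anywhere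
-- under Cfsg/Agent/.
import Cfsg.Statements.S4611
-- import your own Cfsg.Agent.* helpers here

set_option autoImplicit false
open Cfsg

open H20 H05 H21 MonoidAlgebra Cfsg

namespace Cfsg.Agent.S4611

/-- Let G be a finite solvable group and π a nonempty set of primes, each dividing the order of G; fix for each p in π a maximal ideal M p of the algebraic integers containing p. Then the only irreducible character lying in the principal p-block for every p in π is the principal character if and only if G is generated by the subgroups O_{p'}(G), p in π (the largest normal subgroups of order prime to p). -/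
theorem result {G : Type*} [Group G] [Finite G] [Group.IsSolvable G] (π : Set ℕ) (hπ : ∀ p ∈ π, p.Prime ∧ p ∣ Nat.card G) (hne : π.Nonempty) (M : ℕ → Ideal Cfsg.AlgInt) (hM : ∀ p ∈ π, Cfsg.IsPModular p (M p)) :
    (∀ χ : Cfsg.IrrCharacter G, (∀ p ∈ π, χ ∈ Cfsg.principalBlock (M p) G) → (χ : G → ℂ) = fun _ => 1) ↔
      ⨆ p ∈ π, Cfsg.pPrimeCore p G = ⊤ := by
  have key : ∀ χ : IrrCharacter G, (∀ p ∈ π, χ ∈ principalBlock (M p) G) ↔
      ⨆ p ∈ π, pPrimeCore p G ≤ charKer (χ : G → ℂ) := by
    intro χ
    rw [iSup₂_le_iff]
    refine forall₂_congr fun p hp => ?_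
    have : Fact p.Prime := ⟨(hπ p hp).1⟩
    rw [principal_eq_kerSet (hM p hp) (H24.PS.constrained H24.PS.of_solvable)]
    exact forall₂_congr fun n _ => χ.2.isCharacter.mem_charKer.symm
  constructor
  · intro h
    have : (⨆ p ∈ π, pPrimeCore p G).Normal := inferInstance
    refine eq_top_iff.2 fun x _ => H07.mem_of_forall_irr _ fun χ hχ => ?_
    rw [h χ ((key χ).2 fun n hn => χ.2.isCharacter.mem_charKer.2 (hχ n hn))]
  · intro h χ hχ
    exact χ.2.charKer_eq_top_iff.1 (top_le_iff.1 (h ▸ (key χ).1 hχ))

end Cfsg.Agent.S4611
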