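import Mathlib
import Cfsg.Statements.S4613
import Cfsg.Agent.H12.LtF

set_option autoImplicit false
open Cfsg

namespace Cfsg.Agent.S4613

/-- Let G be a finite simple group of Lie type in characteristic p and α an automorphism of G of order prime to p that fixes some Sylow p-subgroup of G elementwise. Then α is the identity. -/
theorem result {G : Type*} [Group G] [Finite G] [IsSimpleGroup G] (p : ℕ) [Fact p.Prime] (hG : Cfsg.IsLieTypeChar p G) (α : MulAut G) (hα : ¬ p ∣ orderOf α) (U : Sylow p G) (hfix : ∀ x ∈ (U : Subgroup G), α x = x) : α = 1 := by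
  obtain ⟨C, -⟩ := H12.Lt.dat_of p hG
  obtain ⟨g, hg⟩ := C.lt.exists_conj U
  have := C.lt.aut_eq_one (α := (MulAut.congr (MulAut.conj g⁻¹)) α) (fun u hu => by
    have := hfix (g * u * g⁻¹) ((hg _).2 (by simpa [mul_assoc]))
    simp only [MulAut.congr_apply, MulEquiv.trans_apply, MulAut.conj_symm_apply, inv_inv, this, MulAut.conj_apply]
    group) (by rwa [MulEquiv.orderOf_eq])
  exact (map_eq_one_iff _ (MulEquiv.injective _)).1 this

end Cfsg.Agent.S4613
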