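import Cfsg.Statements.S4620
import Cfsg.Agent.BG.Api
import Cfsg.Agent.H22.FStar
import Cfsg.Agent.H16.Util
import Cfsg.Agent.H02.PPrimeCore
-- import your own Cfsg.Agent.* helpers here

set_option autoImplicit false
open scoped Pointwise
open Cfsg

namespace Cfsg.Agent.S4620

/-- Let H be a finite group with no nontrivial normal p-subgroup and no nontrivial normal subgroup of order prime to p, whose Sylow p-subgroup P is nontrivial and a trivial-intersection set (P meets its conjugates by elements outside N_H(P) trivially). Then H has a unique minimal normal subgroup N; N is non-abelian simple with trivial centralizer in H (so H embeds in Aut(N)), and a Sylow p-subgroup of N is again a nontrivial trivial-intersection set in N. -/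
theorem result {H : Type*} [Group H] [Finite H] (p : ℕ) [Fact p.Prime] (hOp : Cfsg.pCore p H = ⊥) (hOp' : Cfsg.pPrimeCore p H = ⊥) (P : Sylow p H) (hP1 : (P : Subgroup H) ≠ ⊥)
    (hTI : ∀ g : H, g ∉ Subgroup.normalizer ((P : Subgroup H) : Set H) → (P : Subgroup H) ⊓ (MulAut.conj g • (P : Subgroup H)) = ⊥) :
    ∃ N : Subgroup H, N.Normal ∧ N ≠ ⊥ ∧ (∀ K : Subgroup H, K.Normal → K ≠ ⊥ → N ≤ K) ∧
      IsSimpleGroup N ∧ ¬ IsMulCommutative N ∧ Subgroup.centralizer (N : Set H) = ⊥ ∧
      ∀ Q : Sylow p N, (Q : Subgroup N) ≠ ⊥ ∧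
        ∀ n : N, n ∉ Subgroup.normalizer ((Q : Subgroup N) : Set N) → (Q : Subgroup N) ⊓ (MulAut.conj n • (Q : Subgroup N)) = ⊥ := by
  open BG in
  have hp : p.Prime := Fact.out
  haveI : Nontrivial H := by
    by_contra h
    exact hP1 (Subsingleton.elim (h := (Subgroup.subsingleton_iff).2 (not_nontrivial_iff_subsingleton.1 h)) _ _)
  have hE : layer H ≠ ⊥ := by
    intro h
    have := H22.fstar_eq_of_pPrimeCore_eq_bot hOp'
    rw [h, hOp, bot_sup_eq, H22.fstar_eq_bot_iff] at this
    exact not_subsingleton H this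
  have hdiv : ∀ L : Subgroup H, L.IsSubnormal → L ≠ ⊥ → ∃ v ∈ L, orderOf v = p := by
    intro L hL h1
    have : p ∣ Nat.card L := by
      by_contra h
      exact h1 (le_bot_iff.1 (hOp' ▸ H02.le_pPrimeCore_of_subnormal hL ((Nat.Prime.coprime_iff_not_dvd hp).2 h).symm))
    obtain ⟨v, hv⟩ := exists_prime_orderOf_dvd_card' p this
    exact ⟨v, v.2, by simpa using hv⟩
  have key : ∀ L : Subgroup H, IsComponent L → ∀ u ∈ C_(L), orderOf u ≠ p := by
    intro L hL u hu ho
    have hu1 : u ≠ 1 := fun e => hp.one_lt.ne (by rw [← ho, e, orderOf_one])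
    obtain ⟨R, hR⟩ := (H16.isPGroup_zpowers (k := 1) (by rw [ho, pow_one])).exists_le_sylow
    have huR : u ∈ (R : Subgroup H) := hR (Subgroup.mem_zpowers u)
    have hn : L ≤ N_((R : Subgroup H)) := by
      intro l hl
      have := H16.sylow_eq_of_TI P hTI (l • R) R hu1 (by
        rw [H16.mem_sylow_smul, mul_assoc, ← hu l hl]; simpa using huR) huR
      exact Sylow.smul_eq_iff_mem_normalizer.1 this
    obtain ⟨v, hv, hvo⟩ := hdiv L hL.1 (H22.comp_ne_bot hL)
    have hvR := H16.mem_sylow_of_mem_normalizer R (k := 1) (by rw [hvo, pow_one]) (hn hv)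
    have hsub : (L ⊓ R : Subgroup H).IsSubnormal := by
      haveI : ((L ⊓ R : Subgroup H).subgroupOf L).Normal :=
        (Subgroup.normal_subgroupOf_iff_le_normalizer inf_le_left).2
          (H01.le_normalizer_inf Subgroup.le_normalizer hn)
      exact Subgroup.IsSubnormal.trans inf_le_left (Subgroup.Normal.isSubnormal this) hL.1
    have := H02.le_pCore_of_subnormal hsub (R.isPGroup'.to_le inf_le_right)
    rw [hOp] at this
    have h2 := Subgroup.mem_bot.1 (this ⟨hv, hvR⟩)
    exact hp.one_lt.ne (by rw [← hvo, h2, orderOf_one])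
  obtain ⟨L, hL⟩ := H22.layer_ne_bot_iff.1 hE
  have hnorm : L.Normal := by
    refine ⟨fun x hx g => ?_⟩
    by_cases e : L.map (MulAut.conj g).toMonoidHom = L
    · exact e ▸ ⟨x, hx, rfl⟩
    · have hM := H22.comp_conj hL g
      obtain ⟨v, hv, hvo⟩ := hdiv _ hM.1 (H22.comp_ne_bot hM)
      exact absurd hvo (key L hL v
        (Subgroup.commutator_eq_bot_iff_le_centralizer.1 (H22.comp_comm_of_ne hM hL e) hv))
  have hC : C_(L) = ⊥ := by
    by_contra h
    obtain ⟨v, hv, hvo⟩ := hdiv _ (Subgroup.Normal.isSubnormal inferInstance) h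
    exact key L hL v hv hvo
  have hq := hL.2
  refine ⟨L, hnorm, H22.comp_ne_bot hL, fun K hK h1 => ?_, ?_, H22.qs_not_comm hq, hC, fun Q => ?_⟩
  · rcases H22.comp_le_or_comm_of_normalizes hL (H := K) Subgroup.le_normalizer_of_normal with h | h
    · exact h
    · rw [Subgroup.commutator_comm, Subgroup.commutator_eq_bot_iff_le_centralizer, hC, le_bot_iff] at h
      exact absurd h h1
  · haveI := H22.qs_nontrivial hq
    refine ⟨fun N hN => (H22.qs_normal hq N).symm.imp_left fun h => ?_⟩
    rw [H22.le_center_iff_map, hC, le_bot_iff, Subgroup.map_eq_bot_iff_of_injective _ L.subtype_injective] at h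
    exact h
  · obtain ⟨R, hR⟩ := Q.exists_comap_subtype_eq
    constructor
    · obtain ⟨v, hv, hvo⟩ := hdiv L hL.1 (H22.comp_ne_bot hL)
      exact Q.ne_bot_of_dvd_card (hvo ▸ L.orderOf_dvd_natCard hv)
    · intro n hn
      by_contra h
      obtain ⟨x, ⟨hx1, hx2⟩, hx⟩ := exists_mem_ne_one h
      apply hn
      have h2 : (x : H) ∈ (((n : H) • R : Sylow p H) : Subgroup H) := by
        rw [H16.mem_sylow_smul]
        have := H16.mem_conj_smul.1 hx2
        rw [← hR] at this
        exact this
      have h3 := H16.sylow_eq_of_TI P hTI _ R (fun e => hx (Subtype.ext e)) h2 (by rw [← hR] at hx1; exact hx1)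
      have h4 := Sylow.smul_eq_iff_mem_normalizer.1 h3
      rw [Subgroup.mem_normalizer_iff]
      intro y
      rw [← hR]
      exact Subgroup.mem_normalizer_iff.1 h4 y

end Cfsg.Agent.S4620
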