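import Mathlib
import Cfsg.Statements.S4625
import Cfsg.Agent.H12.LtF

set_option autoImplicit false
open Cfsg

namespace Cfsg.Agent.S4625

/-- Let G be a finite simple group of Lie type in characteristic 2, not counting the Tits group ²F₄(2)′. Then a Sylow 2-subgroup P of G has P/P' elementary abelian: the square of every element of P lies in the derived subgroup of P. -/
theorem result {G : Type*} [Group G] [Finite G] [IsSimpleGroup G] (hG : Cfsg.IsLieTypeChar 2 G) (P : Sylow 2 G) :
    ∀ x : (P : Subgroup G), x ^ 2 ∈ commutator (P : Subgroup G) := by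
  obtain ⟨C, h⟩ := H12.Lt.dat_of 2 hG
  intro x
  have e := Sylow.equiv P C.lt.syl
  rw [← H10.mem_commutator_equiv e, map_pow]
  exact C.lt.sq_mem (fun i => (h rfl i).1) _

end Cfsg.Agent.S4625
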