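import Cfsg.Statements.S4632
import Cfsg.Agent.H11.Zorn
import Cfsg.Agent.H11.Untw
import Cfsg.Agent.H11.Cent
-- import your own Cfsg.Agent.* helpers here

set_option autoImplicit false
open Cfsg

namespace Cfsg.Agent.S4632
open H11 Cfsg.Lie

open StSys G2
open scoped commutatorElement

theorem transfer {G H : Type*} [Group G] [Group H] [Finite G] {j : G →* H} (hj : Function.Injective j) {Q : Subgroup H} (hQ : Q ≤ j.range)
    (hc : Nat.card Q = 2 ^ (Nat.card G).factorization 2) (h : ∀ x ∈ Q, x ^ 2 ∈ ⁅Q, Q⁆) (P : Sylow 2 G) (x : (P : Subgroup G)) :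
    x ^ 2 ∈ commutator (P : Subgroup G) := by
  have h1 := Subgroup.map_comap_eq_self hQ
  obtain ⟨g, hg⟩ := MulAction.exists_smul_eq G P (Sylow.ofCard (Q.comap j) (by
    rw [← hc, ← Subgroup.card_map_of_injective hj, h1]))
  let f : (P : Subgroup G) →* H := (j.comp (MulAut.conj g).toMonoidHom).comp (P : Subgroup G).subtype
  have h2 : f.range = Q := by
    rw [MonoidHom.range_comp, Subgroup.range_subtype, ← Subgroup.map_map, ← h1]
    exact congrArg _ (congrArg Sylow.toSubgroup hg)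
  rw [← Subgroup.mem_map_iff_mem (f := f) (hj.comp ((MulAut.conj g).injective.comp Subtype.val_injective)), commutator_def,
    Subgroup.map_commutator, ← MonoidHom.range_eq_map, h2, map_pow]
  exact h _ (h2.le ⟨x, rfl⟩)

set_option synthInstance.maxSize 2000 in
theorem w6 : ∀ M ∈ gW, M * M * (M * M) * (M * M) = 1 ∧ (M * M = 1 → M = 1 ∨ M = -1 ∨ ∃ α β : Root chevG2,
    ((M = .of fun i j => cor (sroot i) j - pair (sroot i) α * cor α j) ∧ (1 + M = .of fun i j => wt β i * cor β j) ∧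
      ∀ j, (cor α j - cor β j) % 2 = 0) ∧
      (∃ γ, pair γ β = 1) ∧ ∃ δ, pair β δ = 1) := by decide +kernel

theorem neg_mem : (-1 : M2) ∈ gW := by decide +kernel

theorem key {Ω G : Type*} [Field Ω] [IsAlgClosed Ω] [Uncountable Ω] [Group G] {S : StSys chevG2 Ω G} {A : S.Gal} {σ : MulAut G} {b : ℤ}
    (T : Tws A σ (b • 1)) (hb : 4 ∣ b - 1) (h2 : (2 : Ω) ≠ 0) [Finite ↥(S.N ⊓ fixS σ)] : ∃ Q ≤ fixS σ,
      Nat.card Q = 2 ^ (Nat.card ↥(S.N ⊓ fixS σ)).factorization 2 ∧ ∀ x ∈ Q, x ^ 2 ∈ ⁅Q, Q⁆ := by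
  obtain ⟨w, hw⟩ := exists_gW neg_mem
  obtain ⟨y, y1, y2⟩ := T.exists_N (by rw [Matrix.det_smul, Matrix.det_one, mul_one]; exact pow_ne_zero _ (by omega)) (v := w) (by simp [hw])
  have cj (m : S.N) (c) := conj_torS A.hm (Weyl.aut _) (acts_π m) c
  have hf (c) : torS A.hm c ∈ fixS σ ↔ c ^ b = c := by rw [T.mem_fix, mact_smul, mact_one]
  -- squares of lifts of `-1`
  have sq1 (x : S.N) (hx : corM (S.π x).1 = -1) : ∃ d, x.1 ^ 2 = torS A.hm d ∧ d ^ 2 = 1 := by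
    obtain ⟨d, hd⟩ := (torS_range A.hm).ge (π_eq_one_iff.1 (corM_inj (by
      rw [sq, map_mul, corM_mul', hx, neg_mul_neg, mul_one]; exact corM_one.symm) : S.π (x ^ 2) = 1))
    refine ⟨d, hd.symm, T.inj ?_⟩
    have := cj x d
    rw [hx, ← neg_one_smul ℤ, mact_smul, mact_one, hd, zpow_neg_one, map_inv, hd] at this
    rw [map_pow, hd, map_one, sq, mul_eq_one_iff_eq_inv, ← this]; simp [sq, mul_assoc]
  -- the normal `2`-subgroup
  let N₀ := S.N ⊓ fixS σ
  let A₀ : Subgroup N₀ :=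
    { carrier := {x | ∃ c, x.1 = torS A.hm c ∧ ∃ k, c ^ 2 ^ k = 1}
      one_mem' := ⟨1, (map_one _).symm, 0, one_pow _⟩
      mul_mem' := by
        rintro x z ⟨c, h1, k, h2⟩ ⟨d, h3, l, h4⟩
        exact ⟨c * d, by rw [map_mul, ← h1, ← h3]; rfl, k + l, by
          rw [mul_pow, pow_add, pow_mul, h2, mul_comm (2 ^ k), pow_mul, h4]; simp⟩
      inv_mem' := by rintro x ⟨c, h1, k, h2⟩; exact ⟨c⁻¹, by rw [map_inv, ← h1]; rfl, k, by rw [inv_pow, h2, inv_one]⟩ }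
  have : A₀.Normal := ⟨by
    rintro x ⟨c, h1, k, h2⟩ g
    exact ⟨_, (congrArg (g.1 * · * g.1⁻¹) h1).trans (cj ⟨g.1, g.2.1⟩ c), k, by rw [← map_pow, h2, map_one]⟩⟩
  have hA : IsPGroup 2 A₀ := fun ⟨x, c, h1, k, h2⟩ => ⟨k, Subtype.ext (Subtype.ext (show x.1 ^ _ = 1 by rw [h1, ← map_pow, h2, map_one]))⟩
  obtain ⟨l, -, hl⟩ := (Nat.dvd_prime_pow Nat.prime_two).1 (orderOf_dvd_of_pow_eq_one (x := (⟨y, y.2, y1⟩ : N₀)) (n := 2 ^ 2) (Subtype.ext (by
    obtain ⟨d, h1, h2⟩ := sq1 y (y2 ▸ hw)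
    exact (pow_mul y.1 2 2).trans (by rw [h1, ← map_pow, h2, map_one]; rfl))))
  obtain ⟨P, hP⟩ := (IsPGroup.of_card ((Nat.card_zpowers _).trans hl)).exists_le_sylow
  refine ⟨(P : Subgroup N₀).map N₀.subtype, (Subgroup.map_subtype_le _).trans inf_le_right,
    by rw [Subgroup.card_subtype, P.card_eq_multiplicity], ?_⟩
  generalize hQ : (P : Subgroup N₀).map N₀.subtype = Q
  have hy : y.1 ∈ Q := hQ.le ⟨_, hP (Subgroup.mem_zpowers _), rfl⟩
  have hc (m : S.N) (hm : m.1 ∈ Q) (c) (h1 : c ^ b = c) (k) (h2 : c ^ 2 ^ k = 1) : torS A.hm (mact (1 - corM (S.π m).1) c) ∈ ⁅Q, Q⁆ := by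
    rw [mact_sub, mact_one, map_div, ← cj, div_eq_mul_inv, show ∀ a m : G, a * (m * a * m⁻¹)⁻¹ = ⁅a, m⁆ from fun _ _ => by
      rw [commutatorElement_def]; group]
    exact Subgroup.commutator_mem_commutator (hQ.le ⟨⟨_, H_le_N (torS_mem _ c), (hf c).2 h1⟩, hA.le_sylow_of_normal P ⟨c, rfl, k, h2⟩, rfl⟩) hm
  have hs (c) (h1 : c ^ b = c) (k) (h2 : c ^ 2 ^ k = 1) : torS A.hm (c ^ 2) ∈ ⁅Q, Q⁆ := by
    have := hc y hy c h1 k h2
    rwa [y2, hw, sub_neg_eq_add, mact_add, mact_one, ← sq] at this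
  intro x hx
  obtain ⟨x, hx', rfl⟩ := hQ.ge hx
  obtain ⟨k, hk⟩ := P.2 ⟨x, hx'⟩
  replace hk : x.1 ^ 2 ^ k = 1 := congrArg (·.1.1) hk
  let m : S.N := ⟨x.1, x.2.1⟩
  obtain ⟨h6, h3⟩ := w6 _ (mem_gW (S.π m))
  have h4 : S.π m ^ 2 = 1 := by
    have a : S.π m ^ 6 = 1 := corM_inj (by rw [corM_pow, show corM (1 : Weyl chevG2).1 = 1 from corM_one, ← h6]; simp only [pow_succ, pow_zero, one_mul, mul_assoc])
    have b : S.π m ^ 2 ^ k = 1 := by rw [← map_pow, show m ^ 2 ^ k = 1 from Subtype.ext hk, map_one]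
    refine orderOf_dvd_iff_pow_eq_one.1 (((Nat.coprime_primes Nat.prime_three Nat.prime_two).2 (by decide)).pow_right k |>.coprime_dvd_right
      (orderOf_dvd_of_pow_eq_one b) |>.symm.dvd_of_dvd_mul_right (orderOf_dvd_of_pow_eq_one a))
  obtain h | h | ⟨α, β, h, ⟨γ, h5⟩, δ, h7⟩ := h3 (by rw [← sq, ← corM_pow, h4]; exact corM_one)
  · obtain ⟨c, hc⟩ := (torS_range A.hm).ge (π_eq_one_iff.1 (corM_inj (h.trans corM_one.symm) : S.π m = 1))
    refine (show _ = x.1 ^ 2 by rw [map_pow, hc]).subst (hs c ((hf c).1 (hc ▸ x.2.2)) k (T.inj ?_))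
    rw [map_pow, hc, map_one]; exact hk
  · obtain ⟨d, h1, h2⟩ := sq1 m h
    choose c hc using fun i => IsAlgClosed.exists_pow_nat_eq (d i : Ω) two_pos
    have h0 (i) : c i ≠ 0 := fun e => (d i).ne_zero (by rw [← hc, e, zero_pow two_ne_zero])
    have h3 : (fun i => Units.mk0 (c i) (h0 i)) ^ 2 = d := funext fun i => Units.ext (hc i)
    have h4 : (fun i => Units.mk0 (c i) (h0 i)) ^ 2 ^ 2 = 1 := by rw [sq 2, pow_mul, h3, h2]
    refine (show _ = x.1 ^ 2 by rw [h3]; exact h1.symm).subst (hs _ ?_ 2 h4)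
    rw [← mul_inv_eq_one, ← zpow_sub_one, ← orderOf_dvd_iff_zpow_eq_one]
    exact (Int.natCast_dvd_natCast.2 (orderOf_dvd_of_pow_eq_one h4)).trans hb
  have h8 : S.π m = S.π ⟨S.n α (-1), n_mem_N α (by simp)⟩ := corM_inj (Matrix.ext fun i j => by
    rw [h.1, π_n _ (by simp), corM, Matrix.of_apply, Matrix.of_apply, sref_apply, cor_refl]; rfl)
  obtain ⟨t, ht⟩ := (torS_range A.hm).ge (π_eq_one_iff.1 (by rw [map_mul, map_inv, h8, mul_inv_cancel] :
    S.π (m * (⟨S.n α (-1), n_mem_N α (by simp)⟩ : S.N)⁻¹) = 1))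
  obtain ⟨u, hu⟩ : ∃ u : Ωˣ, x.1 ^ 2 = torS A.hm fun i => u ^ cor β i := by
    refine ⟨(∏ i, t i ^ wt β i) * -1, ?_⟩
    have h9 := cj ⟨S.n α (-1), n_mem_N α (by simp)⟩ t
    rw [← h8] at h9
    rw [show x.1 = torS A.hm t * S.n α (-1) by rw [ht]; simp [m], show ∀ a n : G, (a * n) ^ 2 = a * (n * a * n⁻¹) * (n * n) from
      fun _ _ => by rw [sq]; group, h9, show S.n α (-1) * S.n α (-1) = S.h α (-1 : Ωˣ) by simp [StSys.h], h_eq_torS A.hm, ← map_mul, ← map_mul,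
      show t * mact (corM (S.π m).1) t = mact (1 + corM (S.π m).1) t by rw [mact_add, mact_one]]
    congr 1; ext j : 1
    simp only [Pi.mul_apply, mact_apply, h.2.1, Matrix.of_apply, zpow_mul, Finset.prod_zpow, mul_zpow]
    exact congrArg _ ((neg_one_zpow_eq h2).2 (by have := h.2.2 j; omega))
  have hu' {a a' : ℤ} (e : (x.1 ^ 2) ^ a = (x.1 ^ 2) ^ a') : (fun i => u ^ cor γ i) ^ a = (fun i => u ^ cor γ i) ^ a' := by
    rw [hu, ← map_zpow, ← map_zpow] at e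
    have := congrArg (chiOf · δ) (T.inj e)
    simp only [chiOf, Pi.pow_apply, ← zpow_mul, ← zpow_sum', mul_right_comm _ a, mul_right_comm _ a', ← Finset.sum_mul] at this
    rw [show ∑ i, cor β i * wt δ i = 1 from h7, one_mul, one_mul] at this
    ext i : 1; simp only [Pi.pow_apply, ← zpow_mul, mul_comm (cor γ i)]; rw [zpow_mul, this, zpow_mul]
  have := hc (m * y) (mul_mem hx hy) (fun i => u ^ cor γ i) ((hu' (a' := 1) ?_).trans (zpow_one _)) k
    ((zpow_natCast _ _).symm.trans ((hu' (a' := 0) ?_).trans (zpow_zero _)))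
  · rw [map_mul, corM_mul', y2, hw, neg_one_mul, sub_neg_eq_add] at this
    refine (show _ = x.1 ^ 2 from (congrArg _ (funext fun j => ?_)).trans hu.symm).subst this
    simp only [mact_apply, h.2.1, Matrix.of_apply, ← zpow_mul, ← zpow_sum', ← mul_assoc, ← Finset.sum_mul]
    rw [show ∑ i, cor γ i * wt β i = 1 from h5, one_mul]
  · rw [zpow_one, hu, ← map_zpow, (hf _).1 (hu ▸ pow_mem x.2.2 2)]
  · rw [zpow_natCast, pow_right_comm, hk, one_pow, zpow_zero]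

/-- Let F be a finite field of odd order and G₂(F) the automorphism group of the split octonion algebra over F (realized on F⁸ with the Zorn vector-matrix multiplication). A Sylow 2-subgroup P of G₂(F) has P/P' elementary abelian: the square of every element of P lies in the derived subgroup of P. -/
theorem result {F : Type*} [Field F] [Fintype F] (hF : Odd (Fintype.card F)) (P : Sylow 2 (Cfsg.Lie.G2 F)) : ∀ x : (P : Subgroup (Cfsg.Lie.G2 F)), x ^ 2 ∈ commutator (P : Subgroup (Cfsg.Lie.G2 F)) := by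
  obtain ⟨p, _⟩ := CharP.exists F
  have h2 : (2 : F) ≠ 0 := Ring.two_ne_zero fun e => by
    have := FiniteField.even_card_iff_char_two.1 e; have := Nat.odd_iff.1 hF; omega
  obtain ⟨e⟩ := Zorn.exists_equiv (F := F) ⟨-1, by simp, fun e => h2 (by linear_combination -e)⟩
  obtain ⟨Ω, _, _, _, _, φ, τ, hτ, T, hr⟩ := exists_untw (D := chevG2) F p fun _ _ _ => torS_G2 _
  obtain ⟨ε, w, h1, h3, h4⟩ : ∃ (ε : ℤ) (w : Weyl chevG2), corM w.1 = ε • 1 ∧ 4 ∣ Fintype.card F * ε - 1 ∧ ε ^ 2 = 1 := by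
    obtain ⟨w, hw⟩ := exists_gW neg_mem
    obtain h | h := Nat.odd_mod_four_iff.1 (Nat.odd_iff.1 hF)
    exacts [⟨1, 1, by rw [one_smul]; exact corM_one, by omega, rfl⟩, ⟨-1, w, by simp [hw], by omega, rfl⟩]
  obtain ⟨σ, z, T', h5⟩ := T.exists_emb hr w
  rw [h1, smul_mul_smul_comm, one_mul] at T'
  have hj := (MulAut.conj z).injective.comp ((fieldHom_injective φ).comp e.symm.injective)
  let j := ((MulAut.conj z).toMonoidHom.comp (fieldHom chevG2 φ)).comp e.symm.toMonoidHom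
  have h6 : j.range = fixS σ := by rw [MonoidHom.range_comp, MonoidHom.range_eq_top.2 e.symm.surjective, ← MonoidHom.range_eq_map, h5]
  have : Finite (fixS σ) := h6 ▸ Set.finite_range j
  have : Finite ↥((grpSys chevG2 Ω).N ⊓ fixS σ) := .of_injective _ (Subgroup.inclusion_injective inf_le_right)
  obtain ⟨Q, h7, h8, h9⟩ := key T' h3 (by rw [← map_ofNat φ]; exact (map_ne_zero φ).2 h2)
  refine transfer (j := j) hj (h6 ▸ h7) (h8.trans (congrArg _ ?_)) h9 P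
  have hd : ((Fintype.card F * ε : ℤ) • (1 : M2) - 1).det = (Fintype.card F * ε - 1) ^ 2 := by
    rw [m2_one, m2_smul, m2_sub, det_m2]; ring
  rw [T'.card_N (by rw [Matrix.det_smul, Matrix.det_one, mul_one]; exact pow_ne_zero _ (by omega)), T'.card_H (by
    rw [hd]; push_cast; rw [← map_natCast φ, FiniteField.cast_card_eq_zero]; simp), hd, ← Nat.card_congr e.toEquiv, S1059.result rfl,
    card_gW fun M => M * (Fintype.card F * ε : ℤ) • (1 : M2) = (Fintype.card F * ε : ℤ) • (1 : M2) * M, List.filter_eq_self.2 (fun _ _ => by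
      rw [decide_eq_true_eq, mul_smul_comm, smul_mul_assoc, mul_one, one_mul]),
    show gW.length = 12 from rfl]
  have h0 := Fintype.one_lt_card (α := F)
  generalize Fintype.card F = q at h0 h3 hF
  obtain ⟨a, ha⟩ := h3
  have h10 : q ^ 6 * (q ^ 2 - 1) * (q ^ 6 - 1) * 3 = ((q * ε - 1) ^ 2).natAbs * 12 * (q ^ 6 * (q ^ 4 + q ^ 2 + 1) * (2 * a + 1).natAbs ^ 2) := by
    zify [Nat.one_le_pow _ _ h0.le]
    rw [abs_sq, sq_abs, show (q : ℤ) ^ 6 - 1 = (q ^ 2 - 1) * (q ^ 4 + q ^ 2 + 1) by ring,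
      show (q : ℤ) ^ 2 - 1 = (q * ε - 1) * (2 * (2 * a + 1)) by linear_combination (1 - q * ε) * -ha - q ^ 2 * h4]
    ring
  have h11 : Odd (q ^ 6 * (q ^ 4 + q ^ 2 + 1) * (2 * a + 1).natAbs ^ 2) :=
    (hF.pow.mul ((hF.pow.add_odd hF.pow).add_one)).mul (Int.natAbs_odd.2 (odd_two_mul_add_one a)).pow
  have h12 := congrArg (·.factorization 2) h10
  have h13 (k) (hk : k ≠ 0) : q ^ k - 1 ≠ 0 := Nat.sub_ne_zero_of_lt (Nat.one_lt_pow hk h0)
  rw [Nat.factorization_mul (mul_ne_zero (mul_ne_zero (by positivity) (h13 _ two_ne_zero)) (h13 _ (by decide))) three_ne_zero,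
    Nat.factorization_mul _ h11.pos.ne', Finsupp.add_apply, Finsupp.add_apply, Nat.factorization_eq_zero_of_not_dvd (n := 3) (by decide),
    Nat.factorization_eq_zero_of_not_dvd h11.not_two_dvd_nat] at h12
  · exact h12.symm
  · exact left_ne_zero_of_mul (h10 ▸ mul_ne_zero (mul_ne_zero (mul_ne_zero (by positivity) (h13 _ two_ne_zero)) (h13 _ (by decide)))
      three_ne_zero)

end Cfsg.Agent.S4632
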