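import Mathlib
import Cfsg.Statements.S4742
import Cfsg.Agent.H21.Rob2

set_option autoImplicit false
open Cfsg

namespace Cfsg.Agent.S4742
open H05 Cfsg H20 H21 MonoidAlgebra Classical
open scoped ComplexConjugate

/-- Let p ≠ q be primes dividing the order of the finite group G, and suppose the centralizer of every non-identity p-element of G has order prime to q. Then either G has an irreducible character of p-defect zero, or for every non-identity q-element z of G there are conjugates g, h of z such that g h⁻¹ is a non-identity p-element. -/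
theorem result {G : Type*} [Group G] [Finite G] (p q : ℕ) [Fact p.Prime] [Fact q.Prime] (hppq : p ≠ q) (hpG : p ∣ Nat.card G) (hqG : q ∣ Nat.card G) (hC : ∀ g : G, g ≠ 1 → (∃ k : ℕ, orderOf g = p ^ k) → ¬ q ∣ Nat.card ↥(Subgroup.centralizer ({g} : Set G))) : (∃ χ : Cfsg.IrrCharacter G, (Cfsg.charDegree (χ : G → ℂ)).factorization p = (Nat.card G).factorization p) ∨ ∀ z : G, z ≠ 1 → (∃ k : ℕ, orderOf z = q ^ k) → ∃ g h : G, IsConj z g ∧ IsConj z h ∧ g * h⁻¹ ≠ 1 ∧ ∃ k : ℕ, orderOf (g * h⁻¹) = p ^ k := by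
  by_cases h : HasDZ p G
  · exact Or.inl h
  refine Or.inr fun z h1 hz => ?_
  obtain ⟨S⟩ : Nonempty (Sylow p G) := inferInstance
  obtain ⟨g, k, h2, h3, h4, h5⟩ := exists_pair_of_not_hasDZ h
    (not_dvd_centralizer_of hC (dvd_orderOf_of_pow Fact.out h1 hz)) S
  obtain ⟨n, hn⟩ := IsPGroup.iff_orderOf.1 S.isPGroup' ⟨_, h4⟩
  exact ⟨k, g, h3, h2, h5, n, by rw [← hn, Subgroup.orderOf_mk]⟩

end Cfsg.Agent.S4742
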