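import Mathlib
import Cfsg.Agent.H20.Cover
import Cfsg.Agent.H20.Defect
import Cfsg.Agent.H21.Contrib
-- Template for statement S4743 (row 4743; see /opt/grader/pristine/manifest.json for weights).
-- Copy to Cfsg/Agent/S4743.lean and replace the sorry. The statement below is byte-identical to the frozen
-- statement Cfsg.CfsgFrozen.S4743 (Cfsg/Statements/S4743.lean; the theorem Cfsg.blk8_pq_group_p_or_q_solvable_has_defect_zero_block);
-- the grader kernel-checks Cfsg.Agent.S4743.result against that frozen type. Keep the theorem IN THIS FILE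
-- (a `result` declared elsewhere and merely imported here is not credited); helpers may live anywhere
-- under Cfsg/Agent/.
import Cfsg.Statements.S4743
-- import your own Cfsg.Agent.* helpers here

set_option autoImplicit false
open Cfsg

open H20 H05 H21 MonoidAlgebra Cfsg Classical ComplexConjugate

namespace Cfsg.Agent.S4743

theorem lemA {G : Type*} [Group G] [Finite G] {r : ℕ} (hr : r.Prime) (N : Subgroup G) [hN : N.Normal]
    (h1 : ¬ r ∣ Nat.card N) {y : G} (hy : y ∈ N)
    (h2 : ¬ r ∣ Nat.card (Subgroup.centralizer ({y} : Set G))) :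
    ∃ χ : IrrCharacter G, (charDegree (χ : G → ℂ)).factorization r = (Nat.card G).factorization r := by
  obtain ⟨M, hM⟩ := exists_isPModular hr
  have := hM.2.1
  have : ∃ χ : IrrCharacter G, lam M (χ : G → ℂ) (classSum (Res M) y) ≠ 0 := by
    by_contra! h
    have h3 := coeff_cen ((isCen_classSum (k := ℂ) y).res N) ⟨y, hy⟩
    rw [coeff_res, coeff_classSum, if_pos (IsConj.refl _)] at h3
    refine not_ideal_one (M := M) ?_
    rw [h3]
    refine ideal_mul_left (ring_inv_natCast hM h1) (ideal_sum fun θ _ => ?_)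
    obtain ⟨χ, hχ⟩ := exists_over θ
    rw [← omega_of_over χ.2 hχ (isCen_classSum y) (fun g hg => by
      rw [coeff_classSum, if_neg]
      intro hc
      obtain ⟨c, rfl⟩ := isConj_iff.1 hc
      exact hg (hN.conj_mem _ hy c)), omega_classSum χ.2.isClassFunction, mul_assoc]
    refine ideal_mul_right ((lam_classSum_eq_zero_iff χ.2 y).1 (h χ)) (ring_mul ?_ ?_)
    · exact ring_of_isIntegral (θ.2.isCharacter.isIntegral _)
    · rw [← θ.2.isCharacter.apply_inv]
      exact ring_of_isIntegral (θ.2.isCharacter.isIntegral _)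
  obtain ⟨χ, hχ⟩ := this
  have hB := H20.isPBlock_blockOf (M := M) χ
  have hχB := H20.mem_blockOf_self (M := M) χ
  obtain ⟨D, hD⟩ := H20.Cfsg.IsPBlock.exists_isDefectGroup hB r
  have h3 := (H20.Cfsg.IsDefectGroup.subConj_of_lam hM hB hD hχB hχ).card_dvd
  rw [H20.Cfsg.IsDefectGroup.card_eq hM hB hD] at h3
  refine ⟨χ, (H20.Cfsg.IsPBlock.blockDefect_eq_zero_iff hM hB hχB).1 ?_⟩
  by_contra h4
  exact h2 ((dvd_pow_self r h4).trans h3)

theorem lemB {G : Type*} [Group G] [Finite G] {r s : ℕ} (hr : r.Prime) (hs : s.Prime) (hrs : r ≠ s)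
    (hG : IsPSolvable r G) (hrG : r ∣ Nat.card G) :
    ∃ N : Subgroup G, N.Normal ∧ ((r ∣ Nat.card N ∧ ¬ s ∣ Nat.card N) ∨
      (s ∣ Nat.card N ∧ ¬ r ∣ Nat.card N)) := by
  obtain ⟨n, H, h0, h1, hm, hn, hi⟩ := hG
  by_contra! hc
  have : ∀ i : Fin (n + 1), ¬ r ∣ Nat.card (H i) ∧ ¬ s ∣ Nat.card (H i) := by
    intro i
    induction i using Fin.induction with
    | zero => rw [h0]; simp [hr.ne_one, hs.ne_one]
    | succ i ih =>
      have hle : H i.castSucc ≤ H i.succ := hm (Fin.castSucc_le_succ i)
      have hcard : Nat.card (H i.succ) =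
          Nat.card (H i.castSucc) * (H i.castSucc).relIndex (H i.succ) := by
        rw [Subgroup.relIndex, ← Nat.card_congr (Subgroup.subgroupOfEquivOfLe hle).toEquiv,
          Subgroup.card_mul_index]
      have h2 := hc _ (hn i.succ)
      rcases hi i with ⟨m, hm⟩ | hm
      · have : ¬ s ∣ Nat.card (H i.succ) := by
          rw [hcard, hm, hs.dvd_mul]
          rintro (h | h)
          · exact ih.2 h
          · exact hrs ((Nat.prime_dvd_prime_iff_eq hs hr).1 (hs.dvd_of_dvd_pow h)).symm
        exact ⟨fun h => this (h2.1 h), this⟩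
      · have : ¬ r ∣ Nat.card (H i.succ) := by
          rw [hcard, hr.dvd_mul]
          rintro (h | h)
          · exact ih.1 h
          · exact (Nat.Prime.coprime_iff_not_dvd hr).1 hm.symm h
        exact ⟨this, fun h => this (h2.2 h)⟩
  have h2 := (this (Fin.last n)).1
  rw [h1, Subgroup.card_top] at h2
  exact h2 hrG

/-- Let p ≠ q be primes dividing the order of the finite group G, suppose the centralizer of every non-identity p-element has order prime to q, and suppose G is p-solvable or q-solvable. Then G has an irreducible character of p-defect zero or an irreducible character of q-defect zero. -/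
theorem result {G : Type*} [Group G] [Finite G] (p q : ℕ) [Fact p.Prime] [Fact q.Prime] (hppq : p ≠ q) (hpG : p ∣ Nat.card G) (hqG : q ∣ Nat.card G) (hC : ∀ g : G, g ≠ 1 → (∃ k : ℕ, orderOf g = p ^ k) → ¬ q ∣ Nat.card ↥(Subgroup.centralizer ({g} : Set G))) (hsolv : Cfsg.IsPSolvable p G ∨ Cfsg.IsPSolvable q G) : (∃ χ : Cfsg.IrrCharacter G, (Cfsg.charDegree (χ : G → ℂ)).factorization p = (Nat.card G).factorization p) ∨ (∃ χ : Cfsg.IrrCharacter G, (Cfsg.charDegree (χ : G → ℂ)).factorization q = (Nat.card G).factorization q) := by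
  have hp : p.Prime := Fact.out
  have hq : q.Prime := Fact.out
  have key : ∃ N : Subgroup G, N.Normal ∧ ((p ∣ Nat.card N ∧ ¬ q ∣ Nat.card N) ∨
      (q ∣ Nat.card N ∧ ¬ p ∣ Nat.card N)) := by
    rcases hsolv with h | h
    · exact lemB hp hq hppq h hpG
    · obtain ⟨N, h1, h2⟩ := lemB hq hp hppq.symm h hqG
      exact ⟨N, h1, h2.symm⟩
  obtain ⟨N, hN, h | h⟩ := key
  · obtain ⟨y, hy⟩ := exists_prime_orderOf_dvd_card' p h.1
    have hy' : orderOf (y : G) = p := by rw [Subgroup.orderOf_coe, hy]
    refine Or.inr (lemA hq N h.2 y.2 (hC y ?_ ⟨1, by simpa using hy'⟩))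
    intro h1
    rw [h1, orderOf_one] at hy'
    exact hp.ne_one hy'.symm
  · obtain ⟨y, hy⟩ := exists_prime_orderOf_dvd_card' q h.1
    have hy' : orderOf (y : G) = q := by rw [Subgroup.orderOf_coe, hy]
    refine Or.inl (lemA hp N h.2 y.2 fun h2 => ?_)
    obtain ⟨x, hx⟩ := exists_prime_orderOf_dvd_card' p h2
    have hx' : orderOf (x : G) = p := by rw [Subgroup.orderOf_coe, hx]
    refine hC x ?_ ⟨1, by simpa using hx'⟩ ?_
    · intro h1
      rw [h1, orderOf_one] at hx'
      exact hp.ne_one hx'.symm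
    · have : (y : G) ∈ Subgroup.centralizer ({(x : G)} : Set G) := by
        have := x.2
        simp only [Subgroup.mem_centralizer_iff, Set.mem_singleton_iff, forall_eq] at this ⊢
        exact this.symm
      rw [← hy']
      exact Subgroup.orderOf_dvd_natCard _ this

end Cfsg.Agent.S4743
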