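import Mathlib
import Cfsg.Statements.S4744
import Cfsg.Agent.H21.Rob2

set_option autoImplicit false
open Cfsg

namespace Cfsg.Agent.S4744
open H05 Cfsg H20 H21 MonoidAlgebra Classical
open scoped ComplexConjugate

/-- Let p be an odd prime and G a finite group of even order divisible by p in which the centralizer of every non-identity p-element has odd order. Then either G has an irreducible character of p-defect zero, or the normalizer of every Sylow p-subgroup P of G has even order and P is abelian. -/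
theorem result {G : Type*} [Group G] [Finite G] (p : ℕ) [Fact p.Prime] (hp2 : p ≠ 2) (hpG : p ∣ Nat.card G) (h2G : 2 ∣ Nat.card G) (hC : ∀ g : G, g ≠ 1 → (∃ k : ℕ, orderOf g = p ^ k) → Odd (Nat.card ↥(Subgroup.centralizer ({g} : Set G)))) : (∃ χ : Cfsg.IrrCharacter G, (Cfsg.charDegree (χ : G → ℂ)).factorization p = (Nat.card G).factorization p) ∨ ∀ P : Sylow p G, Even (Nat.card ↥(Subgroup.normalizer ((P : Subgroup G) : Set G))) ∧ IsMulCommutative ↥(P : Subgroup G) := by
  by_cases h : HasDZ p G
  · exact Or.inl h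
  refine Or.inr fun P => ?_
  obtain ⟨t, ht⟩ := exists_prime_orderOf_dvd_card' 2 h2G
  obtain ⟨-, t', h0, h1⟩ := inverts_of_not_hasDZ hp2
    (fun g h1 h2 => (hC g h1 h2).not_two_dvd_nat) h ht P
  refine ⟨?_, H02.isMulCommutative_of_inverts h1⟩
  rw [even_iff_two_dvd, ← ht, isConj_orderOf h0]
  refine Subgroup.orderOf_dvd_natCard _ ?_
  rw [mem_normalizer_iff_cj]
  refine Subgroup.eq_of_le_of_card_ge ?_ (card_cj _ _).ge
  rintro _ ⟨r, hr, rfl⟩
  have : (MulAut.conj t').toMonoidHom r = r⁻¹ := h1 r hr
  rw [this]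
  exact (P : Subgroup G).inv_mem hr

end Cfsg.Agent.S4744
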