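import Mathlib
import Cfsg.Statements.S4746
import Cfsg.Agent.S4744
import Cfsg.Agent.H20.No2p
import Cfsg.Agent.H05.Orth
import Cfsg.Agent.H05.Values
import Cfsg.Agent.H05.AutC

set_option autoImplicit false
open Cfsg

namespace Cfsg.Agent.S4746

theorem sq_sum {ι : Type*} (s : Finset ι) (a : ι → ℂ) (ha : ∀ i, IsIntegral ℤ (a i)) :
    ∃ w : ℂ, IsIntegral ℤ w ∧ (∑ i ∈ s, a i) ^ 2 = ∑ i ∈ s, a i ^ 2 + 2 * w := by
  classical
  induction s using Finset.induction_on with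
  | empty => exact ⟨0, isIntegral_zero, by simp⟩
  | insert i s hi ih =>
    obtain ⟨w, hw, e⟩ := ih
    refine ⟨w + a i * ∑ j ∈ s, a j, hw.add ((ha i).mul (IsIntegral.sum _ fun j _ => ha j)), ?_⟩
    rw [Finset.sum_insert hi, Finset.sum_insert hi]
    linear_combination e

open H05 in
theorem even_of_real {G : Type*} [Group G] [Finite G] {x s : G} (hx : x ≠ 1) (hs : s * x * s⁻¹ = x⁻¹)
    (hodd : Odd (Nat.card (Subgroup.centralizer ({x} : Set G)))) :
    ∃ χ : Cfsg.IrrCharacter G, Even (Cfsg.charDegree (χ : G → ℂ)) := by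
  classical
  have := Fintype.ofFinite (Cfsg.IrrCharacter G)
  by_contra! hcon
  have hm : ∀ χ : Cfsg.IrrCharacter G, ∃ m : ℕ, (χ : G → ℂ) 1 = 2 * m + 1 := by
    intro χ
    obtain ⟨m, hm⟩ := Nat.not_even_iff_odd.1 (hcon χ)
    exact ⟨m, by rw [← χ.2.charDegree_eq, hm]; push_cast; ring⟩
  choose m hm using hm
  have h1 := sum_degree_mul_apply_of_ne hx
  have h2 := sum_irr_mul_conj_of_isConj (IsConj.refl x)
  have h3 : ∀ χ : Cfsg.IrrCharacter G, (χ : G → ℂ) x * (starRingEnd ℂ) ((χ : G → ℂ) x) = (χ : G → ℂ) x ^ 2 := by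
    intro χ
    rw [← χ.2.apply_inv, ← hs, χ.2.isClassFunction x s, pow_two]
  simp only [h3] at h2
  obtain ⟨w, hw, e⟩ := sq_sum Finset.univ (fun χ : Cfsg.IrrCharacter G => (χ : G → ℂ) x)
    fun χ => χ.2.isIntegral x
  have h4 : ∑ χ : Cfsg.IrrCharacter G, (χ : G → ℂ) x =
      -2 * ∑ χ : Cfsg.IrrCharacter G, (m χ : ℂ) * (χ : G → ℂ) x := by
    simp only [hm, add_mul, one_mul, Finset.sum_add_distrib, mul_assoc, ← Finset.mul_sum] at h1
    linear_combination h1
  have hu : IsIntegral ℤ (∑ χ : Cfsg.IrrCharacter G, (m χ : ℂ) * (χ : G → ℂ) x) :=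
    IsIntegral.sum _ fun χ _ => (isIntegral_natCast _).mul (χ.2.isIntegral x)
  have h5 : ((Nat.card (Subgroup.centralizer ({x} : Set G)) : ℕ) : ℂ) / (2 : ℕ) =
      2 * (∑ χ : Cfsg.IrrCharacter G, (m χ : ℂ) * (χ : G → ℂ) x) ^ 2 - w := by
    rw [h2, h4] at e
    push_cast
    linear_combination (-1 / 2 : ℂ) * e
  have := nat_dvd_of_isIntegral_div (b := 2) two_ne_zero (by
    rw [h5]
    exact ((isIntegral_natCast (B := ℂ) 2).mul (hu.pow 2)).sub hw)
  exact Nat.not_even_iff_odd.2 hodd (even_iff_two_dvd.2 this)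

/-- Let p be an odd prime and G a finite group of even order divisible by p in which the centralizer of every non-identity p-element has odd order. Then G has an irreducible character of p-defect zero or an irreducible character of even degree. -/
theorem result {G : Type*} [Group G] [Finite G] (p : ℕ) [Fact p.Prime] (hp2 : p ≠ 2) (hpG : p ∣ Nat.card G) (h2G : 2 ∣ Nat.card G) (hC : ∀ g : G, g ≠ 1 → (∃ k : ℕ, orderOf g = p ^ k) → Odd (Nat.card ↥(Subgroup.centralizer ({g} : Set G)))) : (∃ χ : Cfsg.IrrCharacter G, (Cfsg.charDegree (χ : G → ℂ)).factorization p = (Nat.card G).factorization p) ∨ ∃ χ : Cfsg.IrrCharacter G, Even (Cfsg.charDegree (χ : G → ℂ)) := by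
  rcases Cfsg.Agent.S4744.result p hp2 hpG h2G hC with h | h
  · exact Or.inl h
  right
  obtain ⟨P⟩ : Nonempty (Sylow p G) := inferInstance
  haveI : Fact (Nat.Prime 2) := ⟨Nat.prime_two⟩
  obtain ⟨s, hs⟩ := exists_prime_orderOf_dvd_card' 2 (h P).1.two_dvd
  have hs' : orderOf (s : G) = 2 := (Subgroup.orderOf_coe s).trans hs
  obtain ⟨x, hx⟩ := exists_prime_orderOf_dvd_card' p (P.dvd_card_of_dvd_card hpG)
  have hx' : orderOf (x : G) = p := (Subgroup.orderOf_coe x).trans hx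
  have hx1 : (x : G) ≠ 1 := by
    intro e
    rw [e, orderOf_one] at hx'
    exact (Fact.out : p.Prime).one_lt.ne hx'
  refine even_of_real hx1 (H20.inv_of_fpf (R := (P : Subgroup G)) (s := (s : G)) ?_ s.2 ?_ x.2) (hC x hx1 ⟨1, by simpa using hx'⟩)
  · rw [← pow_two, ← hs', pow_orderOf_eq_one]
  · intro y hy e
    by_contra hy1
    obtain ⟨k, hk⟩ := IsPGroup.iff_orderOf.1 P.2 ⟨y, hy⟩
    have h1 := hC y hy1 ⟨k, by rw [← hk]; exact Subgroup.orderOf_coe (⟨y, hy⟩ : (P : Subgroup G))⟩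
    have h2 := Subgroup.orderOf_dvd_natCard (Subgroup.centralizer ({y} : Set G))
      (Subgroup.mem_centralizer_singleton_iff.2 e)
    rw [hs'] at h2
    exact Nat.not_even_iff_odd.2 h1 (even_iff_two_dvd.2 h2)

end Cfsg.Agent.S4746
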