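import Mathlib
import Cfsg.Statements.S4748
import Cfsg.Agent.H07.TISyl

set_option autoImplicit false
open scoped Pointwise
open Cfsg
open H05 H06 H01 Cfsg H07 Subgroup

namespace Cfsg.Agent.S4748

/-- Let G be a finite p-solvable group whose Sylow p-subgroup P meets each conjugate g P g⁻¹ with g outside N_G(P) trivially, and let χ be a faithful character of G (χ g = χ 1 only for g = 1) whose degree d satisfies d² ≤ |P|. Then P is normal in G. -/
theorem result {G : Type*} [Group G] [Finite G] (p : ℕ) [Fact p.Prime] (hsolv : Cfsg.IsPSolvable p G) (P : Sylow p G) (hTI : ∀ g : G, g ∉ Subgroup.normalizer ((P : Subgroup G) : Set G) → (P : Subgroup G) ⊓ (MulAut.conj g • (P : Subgroup G)) = ⊥) (χ : G → ℂ) (hχ : Cfsg.IsCharacter G χ) (hfaith : ∀ g : G, χ g = χ 1 → g = 1) (hdeg : Cfsg.charDegree χ ^ 2 ≤ Nat.card ↥(P : Subgroup G)) : (P : Subgroup G).Normal := by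
  by_contra hn
  obtain ⟨g, hg⟩ : ∃ g, g ∉ normalizer ((P : Subgroup G) : Set G) := by
    by_contra h; push Not at h; exact hn (normalizer_eq_top_iff.1 (eq_top_iff.2 fun g _ => h g))
  have h1 : pCore p G = ⊥ := eq_bot_iff.2 ((le_inf (H02.pCore_le_sylow P)
    (H02.pCore_le_sylow (g • P))).trans (hTI g hg).le)
  have h2 := H02.isPGroup_inf_pPrimeCore P.2
  refine absurd hdeg (not_le.2 (card_lt_deg_sq (K := pPrimeCore p G) (le_normalizer_of_normal _ _)
    (coprime_card_of_isPGroup P.2 (H02.pPrimeCore_coprime p G)).symm (Or.inl (isSolvable_of_isPGroup P.2))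
    (fun h => hn ?_) (fun x hx h3 k hk h4 y hy => ?_) hχ hfaith))
  · rw [inf_eq_left.2 (h.trans (H24.PS.centralizer_pPrimeCore_le hsolv h1))] at h2
    rw [h2]; infer_instance
  · have h5 : k ∈ normalizer ((P : Subgroup G) : Set G) := by
      by_contra h5
      have h6 : x ∈ (P : Subgroup G) ⊓ MulAut.conj k • (P : Subgroup G) :=
        ⟨hx, x, hx, mul_inv_eq_iff_eq_mul.2 h4.symm⟩
      rw [hTI k h5] at h6
      exact h3 h6
    have h6 : k * y * k⁻¹ * y⁻¹ ∈ (P : Subgroup G) ⊓ pPrimeCore p G :=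
      ⟨(P : Subgroup G).mul_mem ((mem_normalizer_iff.1 h5 y).1 hy) ((P : Subgroup G).inv_mem hy), by
        simpa [mul_assoc] using mul_mem hk ((inferInstance : (pPrimeCore p G).Normal).conj_mem _ (inv_mem hk) y)⟩
    rw [h2] at h6
    exact (mul_inv_eq_iff_eq_mul.1 (mul_inv_eq_one.1 h6)).symm

end Cfsg.Agent.S4748
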