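import Mathlib
import Cfsg.Statements.S4754
import Cfsg.Agent.H07.Cnt

set_option autoImplicit false
open Cfsg
open H05 Cfsg H07

namespace Cfsg.Agent.S4754

/-- For elements x, y of a finite group G, the conjugacy class of x y equals the set of all products of a conjugate of x with a conjugate of y if and only if χ(1) χ(a x a⁻¹ b y b⁻¹) = χ(x) χ(y) for all a, b ∈ G and every irreducible character χ. -/
theorem result {G : Type*} [Group G] [Finite G] (x y : G) : (∀ z : G, IsConj (x * y) z ↔ ∃ a b : G, z = a * x * a⁻¹ * (b * y * b⁻¹)) ↔ ∀ (a b : G) (χ : Cfsg.IrrCharacter G), (χ : G → ℂ) 1 * (χ : G → ℂ) (a * x * a⁻¹ * (b * y * b⁻¹)) = (χ : G → ℂ) x * (χ : G → ℂ) y := by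
  have := Fintype.ofFinite G
  refine ⟨fun h a b χ => ?_, fun h z => ⟨fun h1 => ?_, ?_⟩⟩
  · have h1 := χ.2.sum_conj_mul x y
    rw [Finset.sum_congr rfl (g := fun _ => χ.1 (x * y)) fun c _ =>
      (χ.2.isClassFunction.isConj ((h _).2 ⟨c, 1, by simp⟩)).symm, Finset.sum_const, Finset.card_univ,
      nsmul_eq_mul, ← Nat.card_eq_fintype_card, mul_assoc, mul_div_assoc] at h1
    rw [← χ.2.isClassFunction.isConj ((h _).2 ⟨a, b, rfl⟩), mul_left_cancel₀ (H06.natCard_ne_zero G) h1,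
      mul_div_cancel₀ _ χ.2.apply_one_ne_zero]
  · obtain ⟨c, rfl⟩ := isConj_iff.1 h1
    exact ⟨c, c, by group⟩
  · rintro ⟨a, b, rfl⟩
    exact (isConj_iff_irr _ _).2 fun χ => mul_left_cancel₀ χ.2.apply_one_ne_zero
      (by rw [h a b, ← h 1 1]; simp)

end Cfsg.Agent.S4754
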