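import Mathlib
import Cfsg.Statements.S4755
import Cfsg.Agent.H07.Cnt
import Cfsg.Agent.S4754

set_option autoImplicit false
open Cfsg
open H05 Cfsg H07
open scoped ComplexConjugate

namespace Cfsg.Agent.S4755

/-- Let x, y be non-identity elements of the finite group G such that χ(x' y') = χ(x') χ(y') for all conjugates x' of x, y' of y and every irreducible character χ. Then the conjugacy class of x y is the set of all products of a conjugate of x with a conjugate of y; every irreducible character of degree greater than 1 vanishes at x y; and the conjugacy class of x y is the coset of the commutator subgroup containing x y. -/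
theorem result {G : Type*} [Group G] [Finite G] (x y : G) (hx : x ≠ 1) (hy : y ≠ 1) (h : ∀ (a b : G) (χ : Cfsg.IrrCharacter G), (χ : G → ℂ) (a * x * a⁻¹ * (b * y * b⁻¹)) = (χ : G → ℂ) (a * x * a⁻¹) * (χ : G → ℂ) (b * y * b⁻¹)) : (∀ z : G, IsConj (x * y) z ↔ ∃ a b : G, z = a * x * a⁻¹ * (b * y * b⁻¹)) ∧ (∀ χ : Cfsg.IrrCharacter G, (χ : G → ℂ) 1 ≠ 1 → (χ : G → ℂ) (x * y) = 0) ∧ (∀ z : G, IsConj (x * y) z ↔ (x * y)⁻¹ * z ∈ commutator G) := by
  have := Fintype.ofFinite G
  have h1 : ∀ (a b : G) (χ : IrrCharacter G), χ.1 (a * x * a⁻¹ * (b * y * b⁻¹)) = χ.1 x * χ.1 y :=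
    fun a b χ => by rw [h, χ.2.isClassFunction, χ.2.isClassFunction]
  have h2 : ∀ χ : IrrCharacter G, χ.1 1 ≠ 1 → χ.1 x * χ.1 y = 0 := fun χ h2 => by
    have h3 := χ.2.sum_conj_mul x y
    rw [Finset.sum_congr rfl (g := fun _ => χ.1 x * χ.1 y) fun c _ => by simpa using h1 c 1 χ,
      Finset.sum_const, Finset.card_univ, nsmul_eq_mul, ← Nat.card_eq_fintype_card, mul_assoc,
      mul_div_assoc] at h3
    have h4 := mul_left_cancel₀ (H06.natCard_ne_zero G) h3
    rw [eq_div_iff χ.2.apply_one_ne_zero] at h4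
    exact (mul_eq_zero.1 (show χ.1 x * χ.1 y * (χ.1 1 - 1) = 0 by linear_combination h4)).resolve_right
      (sub_ne_zero.2 h2)
  have h3 : ∀ χ : IrrCharacter G, χ.1 1 ≠ 1 → χ.1 (x * y) = 0 := fun χ h3 => by
    simpa [h2 χ h3] using h1 1 1 χ
  refine ⟨(S4754.result x y).2 fun a b χ => ?_, h3, fun z => ⟨fun h4 => ?_, fun h4 => ?_⟩⟩
  · rw [h1]
    by_cases h4 : χ.1 1 = 1
    · rw [h4, one_mul]
    · rw [h2 χ h4, mul_zero]
  · obtain ⟨c, rfl⟩ := isConj_iff.1 h4
    simpa [commutatorElement_def, mul_assoc, commutator_def] using Subgroup.commutator_mem_commutator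
      (Subgroup.mem_top (x * y)⁻¹) (Subgroup.mem_top c)
  · by_contra h5
    have h6 := sum_irr_mul_conj_of_not_isConj h5
    rw [Finset.sum_congr rfl (g := fun χ => χ.1 (x * y) * conj (χ.1 (x * y))) fun χ _ => ?_,
      sum_irr_mul_conj_of_isConj (IsConj.refl _)] at h6
    · exact H06.natCard_ne_zero _ h6
    · by_cases h7 : χ.1 1 = 1
      · rw [← apply_mul_of_mem_charKer' ((commutator_le_charKer_iff χ.2).2 h7 h4) (x * y),
          mul_inv_cancel_left]
      · simp [h3 χ h7]

end Cfsg.Agent.S4755
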