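import Mathlib
import Cfsg.Statements.S4756
import Cfsg.Agent.H05.Mult

set_option autoImplicit false
open Cfsg

namespace Cfsg.Agent.S4756

/-- For a finite group G the following are equivalent. (1) χ(x y) = χ(x) χ(y) for every irreducible character χ and all non-identity elements x, y of prime power orders for two different primes. (2) G is a p-group for some prime p, or G is abelian, or for some prime p: G = A P with P a normal Sylow p-subgroup and A a nontrivial cyclic subgroup of order prime to p such that, with C = C_P(A) and D = [A, P], one has P = C D, C abelian, D normal in G, C ∩ D = 1, and A acts fixed-point-freely on D (no non-identity element of A centralizes a non-identity element of D). -/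
theorem result {G : Type*} [Group G] [Finite G] : (∀ (x y : G) (χ : Cfsg.IrrCharacter G), x ≠ 1 → y ≠ 1 → (∃ p q a b : ℕ, p.Prime ∧ q.Prime ∧ p ≠ q ∧ orderOf x = p ^ a ∧ orderOf y = q ^ b) → (χ : G → ℂ) (x * y) = (χ : G → ℂ) x * (χ : G → ℂ) y) ↔ ((∃ p : ℕ, p.Prime ∧ IsPGroup p G) ∨ IsMulCommutative G ∨ ∃ (p : ℕ) (_ : Fact p.Prime) (P : Sylow p G) (A : Subgroup G), (P : Subgroup G).Normal ∧ IsCyclic ↥A ∧ A ≠ ⊥ ∧ (Nat.card ↥A).Coprime p ∧ A ⊔ (P : Subgroup G) = ⊤ ∧ IsMulCommutative ↥((P : Subgroup G) ⊓ Subgroup.centralizer (A : Set G)) ∧ (⁅A, (P : Subgroup G)⁆).Normal ∧ ((P : Subgroup G) ⊓ Subgroup.centralizer (A : Set G)) ⊔ ⁅A, (P : Subgroup G)⁆ = (P : Subgroup G) ∧ ((P : Subgroup G) ⊓ Subgroup.centralizer (A : Set G)) ⊓ ⁅A, (P : Subgroup G)⁆ = ⊥ ∧ ∀ a ∈ A, a ≠ 1 → ∀ d ∈ ⁅A, (P : Subgroup G)⁆, a * d = d * a → d = 1) := by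
  refine ⟨fun H => or_iff_not_imp_left.2 fun h1 => or_iff_not_imp_left.2 fun h2 =>
    H05.Mult.fwd (fun x y χ h => H x y χ h.1 h.2.1 h.2.2) h1 h2, fun h x y χ h1 h2 h3 => ?_⟩
  have hp : H05.Mult.PP x y := ⟨h1, h2, h3⟩
  rcases h with ⟨p, a1, a2⟩ | h | ⟨p, a0, P, A, a1, a2, -, a3, a4, a5, a6, a7, -, a8⟩
  · exact (hp.not_pg a1 (a2.to_subgroup ⊤) trivial trivial).elim
  · exact H05.Cfsg.IsCharacter.apply_mul_of_apply_one (H05.Cfsg.IsIrrCharacter.isCharacter χ.2)
      (H05.Cfsg.IsIrrCharacter.apply_one_of_comm χ.2) x y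
  · exact H05.Mult.bwd a0.out P.2 a2 a3 a4 a5 a7 a8 hp χ.2

end Cfsg.Agent.S4756
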