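import Mathlib
import Cfsg.Statements.S4759
import Cfsg.Agent.H05.Dd6

set_option autoImplicit false
open Cfsg

namespace Cfsg.Agent.S4759

open H05.Dd in
theorem xs_of {E : Type*} [Group E] (hE : Cfsg.IsExtraspecial 2 E) : ∃ z : E, XS z := by
  obtain ⟨z, hz1, hz2⟩ := (Nat.card_eq_two_iff' (1 : Subgroup.center E)).1 hE.2
  have hc : ∀ e : E, e ∈ Subgroup.center E → e = 1 ∨ e = z := fun e he => by
    by_cases h1 : e = 1
    · exact Or.inl h1
    · exact Or.inr (congrArg Subtype.val (hz2 ⟨e, he⟩ fun h2 => h1 (congrArg Subtype.val h2)))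
  have hne : (z : E) ≠ 1 := fun h => hz1 (Subtype.ext h)
  refine ⟨z, hne, ?_, fun e => (Subgroup.mem_center_iff.1 z.2 e).symm, fun e f => ?_,
    fun e he => hc e (Subgroup.mem_center_iff.2 fun f => (he f).symm)⟩
  · rcases hc _ (Subgroup.mul_mem _ z.2 z.2) with h | h
    · exact h
    · exact absurd (by simpa using h) hne
  · have h1 : e * f * e⁻¹ * f⁻¹ ∈ Subgroup.center E := by
      rw [← hE.1.2.2]
      exact Subgroup.commutator_mem_commutator (Subgroup.mem_top e) (Subgroup.mem_top f)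
    rcases hc _ h1 with h | h
    · left
      rw [mul_inv_eq_one, mul_inv_eq_iff_eq_mul] at h
      exact h
    · right
      rw [← h]; group

/-- Let G be a finite group that is the semidirect product of a normal extraspecial 2-subgroup E and a complement H acting faithfully on E (no non-identity element of H centralizes E), and suppose H has a normal subgroup K of odd order with [E, K] = E. Then every faithful irreducible character θ of E (there is exactly one) extends to G: some irreducible character of G restricts to θ on E. -/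
theorem result {G : Type*} [Group G] [Finite G] (E H : Subgroup G) [E.Normal] (hE : Cfsg.IsExtraspecial 2 ↥E) (hEH : E ⊓ H = ⊥) (hEHtop : E ⊔ H = ⊤) (hfaith : ∀ h ∈ H, (∀ e ∈ E, h * e = e * h) → h = 1) (K : Subgroup G) (hKH : K ≤ H) (hKn : ∀ h ∈ H, ∀ k ∈ K, h * k * h⁻¹ ∈ K) (hKodd : Odd (Nat.card ↥K)) (hEK : ⁅E, K⁆ = E) (θ : Cfsg.IrrCharacter ↥E) (hθ : ∀ e : ↥E, (θ : ↥E → ℂ) e = (θ : ↥E → ℂ) 1 → e = 1) : ∃ χ : Cfsg.IrrCharacter G, ∀ e : ↥E, (χ : G → ℂ) e = (θ : ↥E → ℂ) e := by
  classical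
  obtain ⟨z, h⟩ := xs_of hE
  obtain ⟨n, ρ₀, m₀, hθ₀⟩ := H05.Dd.exists_md_of_irr h θ.2 (fun h1 => h.ne (hθ z h1))
  let α : G →* MulAut E := MulAut.conjNormal
  have hα : ∀ (g : G) (e : E), (α g e : G) = g * e * g⁻¹ := fun g e => MulAut.conjNormal_apply g e
  have hinv : ∀ g, H06.conjFun E g (θ : E → ℂ) = θ := by
    intro g
    funext e
    have m₁ : H05.Dd.Md z (ρ₀.comp (α g).toMonoidHom) :=
      ⟨by show ρ₀ (α g z) = -1; rw [h.fix, m₀.neg], m₀.dim⟩
    have := H05.Dd.trace_eq_of_md h m₁ m₀ e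
    rw [H06.conjFun_apply, hθ₀]
    exact this
  haveI : Fact (Nat.Prime 2) := ⟨Nat.prime_two⟩
  obtain ⟨S⟩ : Nonempty (Sylow 2 H) := inferInstance
  let T : Subgroup G := (S : Subgroup H).map H.subtype
  have hTH : T ≤ H := Subgroup.map_subtype_le _
  have hT : IsPGroup 2 T := S.isPGroup'.map _
  obtain ⟨ι, _, _, ρ, φ, m, hφ⟩ := H05.Dd.main (Nat.card E + 1) E z h (Nat.lt_succ_self _)
    (T.map α) (K.map α) (hT.map α) (Odd.of_dvd_nat hKodd (Subgroup.card_map_dvd _ _))
    (by
      rintro _ ⟨t, ht, rfl⟩ _ ⟨k, hk, rfl⟩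
      exact ⟨t * k * t⁻¹, hKn t (hTH ht) k hk, by simp⟩)
    (by
      intro y hy
      have h1 : ⁅E, K⁆ ≤ Subgroup.centralizer {(y : G)} := by
        rw [Subgroup.commutator_le]
        intro e he k hk
        have h2 : α k y = y := hy _ ⟨k, hk, rfl⟩
        have h3 : H05.Dd.sg y (α k ⟨e, he⟩⁻¹) = H05.Dd.sg y ⟨e, he⟩⁻¹ := by
          have h4 : (y * α k ⟨e, he⟩⁻¹ = α k ⟨e, he⟩⁻¹ * y) ↔ (y * ⟨e, he⟩⁻¹ = ⟨e, he⟩⁻¹ * y) := by
            conv_lhs => rw [← h2, ← map_mul, ← map_mul]
            exact (α k).injective.eq_iff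
          unfold H05.Dd.sg
          by_cases h9 : y * ⟨e, he⟩⁻¹ = ⟨e, he⟩⁻¹ * y
          · rw [if_pos h9, if_pos (h4.2 h9)]
          · rw [if_neg h9, if_neg (fun h10 => h9 (h4.1 h10))]
        have h5 := H05.Dd.sg_mul h y ⟨e, he⟩ (α k ⟨e, he⟩⁻¹)
        rw [h3, ← H05.Dd.sg_mul h, mul_inv_cancel] at h5
        have h6 : y * (⟨e, he⟩ * α k ⟨e, he⟩⁻¹) = (⟨e, he⟩ * α k ⟨e, he⟩⁻¹) * y := by
          by_contra h7
          unfold H05.Dd.sg at h5
          rw [if_neg h7, if_pos (by simp)] at h5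
          omega
        have h8 := congrArg Subtype.val h6
        simp only [Subgroup.coe_mul, hα, Subgroup.coe_inv] at h8
        rw [Subgroup.mem_centralizer_singleton_iff, commutatorElement_def]
        simpa only [mul_assoc] using h8.symm
      rw [hEK] at h1
      exact h.nd y fun f => Subtype.ext (Subgroup.mem_centralizer_singleton_iff.1 (h1 f.2)).symm)
  obtain ⟨χ, hχ, hχ'⟩ := H07.exists_ext_of_sylow E θ.2 hinv (fun p hp hpd => by
    have hp2 : p = 2 := by
      obtain ⟨k, hk⟩ := IsPGroup.iff_card.1 h.pgroup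
      have hd : Cfsg.charDegree (θ : E → ℂ) = n :=
        H05.charDegree_eq_of_apply_one (by rw [hθ₀]; simp)
      have h1 : p ∣ Nat.card E := by
        rcases (Nat.Prime.dvd_mul hp).1 hpd with h2 | h2
        · refine h2.trans ?_
          rw [hd, ← m₀.dim, Fintype.card_fin]
          exact ⟨2 * n, by ring⟩
        · exact h2.trans (H07.detOrder_dvd_card _)
      rw [hk] at h1
      exact (Nat.prime_dvd_prime_iff_eq hp Nat.prime_two).1 (hp.dvd_of_dvd_pow h1)
    subst hp2
    let X := SemidirectProduct E T (α.comp T.subtype)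
    let f : X →* (E ⊔ T : Subgroup G) :=
      { toFun := fun x => ⟨x.left * x.right,
          mul_mem (Subgroup.mem_sup_left x.left.2) (Subgroup.mem_sup_right x.right.2)⟩
        map_one' := Subtype.ext (by simp [X])
        map_mul' := fun a b => Subtype.ext (by
          simp only [X, SemidirectProduct.mul_left, SemidirectProduct.mul_right, Subgroup.coe_mul,
            MonoidHom.comp_apply, Subgroup.subtype_apply, hα]
          group) }
    let β : T →* T.map α := (α.comp T.subtype).codRestrict _ (fun t => ⟨t, t.2, rfl⟩)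
    let g : X →* Matrix ι ι ℂ :=
      { toFun := fun x => ρ x.left * φ (β x.right)
        map_one' := by simp [X]
        map_mul' := fun a b => by
          simp only [X, SemidirectProduct.mul_left, SemidirectProduct.mul_right, map_mul]
          rw [mul_assoc (ρ a.left) (φ _), ← mul_assoc (φ _) (ρ _), hφ]
          simp only [mul_assoc]
          rfl }
    have hf : Function.Surjective f := by
      rintro ⟨x, hx⟩
      obtain ⟨e, he, t, ht, rfl⟩ := Subgroup.mem_sup_of_normal_left.1 hx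
      exact ⟨⟨⟨e, he⟩, ⟨t, ht⟩⟩, rfl⟩
    obtain ⟨U, hU⟩ := H05.Dd.descend f hf g (fun k hk => by
      have h1 : (k.left : G) * k.right = 1 := congrArg Subtype.val hk
      have h2 : (k.left : G) ∈ E ⊓ H :=
        ⟨k.left.2, by rw [eq_inv_of_mul_eq_one_left h1]; exact H.inv_mem (hTH k.right.2)⟩
      rw [hEH, Subgroup.mem_bot] at h2
      rw [h2, one_mul] at h1
      have h3 : k = 1 := SemidirectProduct.ext (Subtype.ext h2) (Subtype.ext h1)
      rw [h3, map_one])
    refine ⟨E ⊔ T, le_sup_left, fun x => (U x).trace, ?_, H05.Dd.isCharacter_mat U, fun e => ?_⟩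
    · let π := QuotientGroup.mk' E
      have hs : Function.Surjective (π.comp H.subtype) := by
        intro q
        obtain ⟨x, rfl⟩ := QuotientGroup.mk'_surjective E q
        obtain ⟨e, he, t, ht, rfl⟩ :=
          Subgroup.mem_sup_of_normal_left.1 (hEHtop ▸ Subgroup.mem_top x : x ∈ E ⊔ H)
        refine ⟨⟨t, ht⟩, ?_⟩
        have : π e = 1 := (QuotientGroup.eq_one_iff e).2 he
        rw [map_mul, this, one_mul]; rfl
      have h1 : (E ⊔ T).index = ((E ⊔ T).map π).index := by
        conv_lhs => rw [← Subgroup.comap_map_eq_self (f := π) (H := E ⊔ T)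
          (by rw [QuotientGroup.ker_mk']; exact le_sup_left)]
        exact Subgroup.index_comap_of_surjective _ (QuotientGroup.mk'_surjective E)
      have h2 : (S : Subgroup H) ≤ ((E ⊔ T).map π).comap (π.comp H.subtype) :=
        fun s hs => ⟨s, Subgroup.mem_sup_right ⟨s, hs, rfl⟩, rfl⟩
      have h3 := Subgroup.index_dvd_of_le h2
      rw [Subgroup.index_comap_of_surjective _ hs, ← h1] at h3
      exact ((Nat.Prime.coprime_iff_not_dvd Nat.prime_two).2
        (fun h4 => S.not_dvd_index (h4.trans h3))).symm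
    · have h1 := hU ⟨e, 1⟩
      have h2 : f ⟨e, 1⟩ = ⟨e, Subgroup.mem_sup_left e.2⟩ := Subtype.ext (by simp [f])
      have h3 : g ⟨e, 1⟩ = ρ e := by simp [g]
      rw [h2, h3] at h1
      show (U _).trace = _
      rw [h1, hθ₀]
      exact H05.Dd.trace_eq_of_md h m m₀ e)
  exact ⟨⟨χ, hχ⟩, hχ'⟩

end Cfsg.Agent.S4759
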