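import Mathlib
import Cfsg.Statements.S4762
import Cfsg.Agent.H07.Misc2

set_option autoImplicit false
open Cfsg
open H05 H06 Cfsg H07

namespace Cfsg.Agent.S4762

/-- Let p be a prime and G a finite nilpotent group. Then G has exactly one irreducible complex character of degree divisible by p if and only if p = 2 and G is an extraspecial 2-group. -/
theorem result {G : Type*} [Group G] [Finite G] [Group.IsNilpotent G] (p : ℕ) [Fact p.Prime] : Nat.card {χ : Cfsg.IrrCharacter G // p ∣ Cfsg.charDegree (χ : G → ℂ)} = 1 ↔ (p = 2 ∧ Cfsg.IsExtraspecial 2 G) := by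
  constructor
  · intro h
    have hG := H07.isPGroup_of_one_deg h
    refine H07.extraspecial_of_one_nonlinear hG ((Nat.card_congr (Equiv.subtypeEquivRight fun χ => ?_)).trans h)
    exact (H07.dvd_deg_iff_of_pGroup hG χ.2).symm
  · rintro ⟨rfl, h⟩
    rw [← H07.one_nonlinear_of_extraspecial h]
    exact Nat.card_congr (Equiv.subtypeEquivRight fun χ => H07.dvd_deg_iff_of_pGroup h.1.1 χ.2)

end Cfsg.Agent.S4762
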