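import Mathlib
import Cfsg.Agent.L.PSL2Deg
-- Template for statement S4765 (row 4765; see /opt/grader/pristine/manifest.json for weights).
-- Copy to Cfsg/Agent/S4765.lean and replace the sorry. The statement below is byte-identical to the frozen
-- statement Cfsg.CfsgFrozen.S4765 (Cfsg/Statements/S4765.lean; the theorem Cfsg.chr9_psl_two_defining_characteristic_unique_p_singular_character);
-- the grader kernel-checks Cfsg.Agent.S4765.result against that frozen type. Keep the theorem IN THIS FILE
-- (a `result` declared elsewhere and merely imported here is not credited); helpers may live anywhere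
-- under Cfsg/Agent/.
import Cfsg.Statements.S4765
-- import your own Cfsg.Agent.* helpers here

set_option autoImplicit false
open Cfsg

namespace Cfsg.Agent.S4765

/-- Let F be a finite field of characteristic p with at least 4 elements. Then PSL(2,F) has exactly one irreducible complex character of degree divisible by p, and its degree is the order of F. -/
theorem result (p : ℕ) [Fact p.Prime] (F : Type*) [Field F] [Fintype F] [CharP F p] (hF : 4 ≤ Fintype.card F) : Nat.card {χ : Cfsg.IrrCharacter (Matrix.ProjectiveSpecialLinearGroup (Fin 2) F) // p ∣ Cfsg.charDegree (χ : Matrix.ProjectiveSpecialLinearGroup (Fin 2) F → ℂ)} = 1 ∧ ∀ χ : Cfsg.IrrCharacter (Matrix.ProjectiveSpecialLinearGroup (Fin 2) F), p ∣ Cfsg.charDegree (χ : Matrix.ProjectiveSpecialLinearGroup (Fin 2) F → ℂ) → Cfsg.charDegree (χ : Matrix.ProjectiveSpecialLinearGroup (Fin 2) F → ℂ) = Fintype.card F := by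
  classical
  have hp : p.Prime := Fact.out
  obtain ⟨n, -, hn⟩ := FiniteField.card F p
  have hq : p ∣ Fintype.card F := hn ▸ dvd_pow_self p n.ne_zero
  have key : ∀ χ : Cfsg.IrrCharacter (Matrix.ProjectiveSpecialLinearGroup (Fin 2) F),
      p ∣ Cfsg.charDegree χ.1 → Cfsg.charDegree χ.1 = Fintype.card F := by
    intro χ h
    have k1 : ¬ p ∣ Fintype.card F + 1 := fun e => hp.not_dvd_one ((Nat.dvd_add_right hq).1 e)
    have k2 : ¬ p ∣ Fintype.card F - 1 := fun e => hp.not_dvd_one ((Nat.dvd_sub_iff_right (by omega) hq).1 e)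
    rcases L.SLc.deg_cases_SL (L.SLc.IsL2.sub (F := F) (Or.inl ⟨MulEquiv.refl _⟩) ⟨χ, rfl⟩) with
      e | e | e | e | ⟨-, e | e⟩
    · exact absurd (e ▸ h) hp.not_dvd_one
    · exact e
    · exact absurd (e ▸ h) k1
    · exact absurd (e ▸ h) k2
    · exact absurd (e ▸ h.mul_left 2) k1
    · exact absurd (e ▸ h.mul_left 2) k2
  refine ⟨?_, key⟩
  obtain ⟨ψ, hψ, e⟩ := L.SLc.exists_descend (L.SLc.isIrr_Sts (F := F))
    (by rw [L.SLc.Sts_scal L.SLc.isScal_neg_one, L.SLc.Sts_one])
  have h1 : Cfsg.charDegree ψ = Fintype.card F :=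
    H05.charDegree_eq_of_apply_one ((congrFun e 1).symm.trans L.SLc.Sts_one)
  refine Nat.card_eq_one_iff_exists.2 ⟨⟨⟨ψ, hψ⟩, h1 ▸ hq⟩, fun χ => Subtype.ext (Subtype.ext (funext fun g => ?_))⟩
  obtain ⟨g, rfl⟩ := QuotientGroup.mk_surjective g
  have h2 := L.SLc.eq_Sts_of_deg (H05.Cfsg.IsIrrCharacter.inflate _ χ.1.2) (by
    rw [← key _ χ.2, H05.Cfsg.IsIrrCharacter.charDegree_eq χ.1.2]; rfl)
  exact (congrFun h2 g).trans (congrFun e g)

end Cfsg.Agent.S4765
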