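import Mathlib
import Cfsg.Agent.H07.Deg3
import Cfsg.Agent.H07.Det
import Cfsg.Agent.H24.PSolv
import Cfsg.Agent.H07.Cnt
import Cfsg.Agent.H07.Misc2
-- Template for statement S4768 (row 4768; see /opt/grader/pristine/manifest.json for weights).
-- Copy to Cfsg/Agent/S4768.lean and replace the sorry. The statement below is byte-identical to the frozen
-- statement Cfsg.CfsgFrozen.S4768 (Cfsg/Statements/S4768.lean; the theorem Cfsg.chr9_p_solvable_sylow_derived_length_le_p_singular_count_succ);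
-- the grader kernel-checks Cfsg.Agent.S4768.result against that frozen type. Keep the theorem IN THIS FILE
-- (a `result` declared elsewhere and merely imported here is not credited); helpers may live anywhere
-- under Cfsg/Agent/.
import Cfsg.Statements.S4768
-- import your own Cfsg.Agent.* helpers here

set_option autoImplicit false
open Cfsg

open H05 H06 H07 Cfsg Classical ComplexConjugate commutatorElement

namespace Cfsg.Agent.S4768

theorem key {G : Type*} [Group G] [Finite G] {p : ℕ} [hp : Fact p.Prime] (hG : IsPSolvable p G)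
    (N : Subgroup G) [N.Normal] [IsMulCommutative N] (hN : IsPGroup p N) (h1 : N ≠ ⊥)
    (h : ∀ χ : IrrCharacter G, p ∣ charDegree (χ : G → ℂ) → ∀ n ∈ N, χ.1 n = χ.1 1)
    (P : Sylow p G) : ∀ x ∈ (P : Subgroup G), ∀ y ∈ (P : Subgroup G), ⁅x, y⁆ ∈ N := by
  have := Fintype.ofFinite G
  have := Fintype.ofFinite N
  obtain ⟨z, hz⟩ : ∃ z : N, z ≠ 1 := by
    have := (Subgroup.nontrivial_iff_ne_bot N).2 h1
    exact exists_ne 1
  obtain ⟨lam, hlam⟩ := exists_hom_apply_ne_one (x := z) (by
    rw [(commutator_eq_bot_iff_center_eq_top N).2 (Subgroup.center_eq_top_iff.2 inferInstance)]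
    simpa using hz)
  have hθ : IsIrrCharacter N fun n => (lam n : ℂ) := isIrrCharacter_monoidHom lam
  have hθ1 : classInner (fun _ : N => (1 : ℂ)) (fun n => (lam n : ℂ)) = 0 := by
    have := classInner_irr (⟨_, isIrrCharacter_one'⟩ : IrrCharacter N) ⟨_, hθ⟩
    rw [if_neg] at this
    · exact this
    · intro h
      exact hlam (Units.ext (congrFun (congrArg Subtype.val h) z).symm)
  have hov : ∀ χ : G → ℂ, IsIrrCharacter G χ →
      classInner (fun n : N => χ n) (fun n => (lam n : ℂ)) ≠ 0 → ¬ p ∣ charDegree χ := by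
    intro χ hχ h2 h3
    apply h2
    have : (fun n : N => χ n) = χ 1 • fun _ : N => (1 : ℂ) := by
      funext n
      simpa using h ⟨χ, hχ⟩ h3 n n.2
    rw [this, H05.classInner_smul_left, hθ1, mul_zero]
  set T := inertia N fun n => (lam n : ℂ) with hT
  have := Fintype.ofFinite T
  have hNT : N ≤ T := le_inertia N hθ.isClassFunction
  obtain ⟨χ, hχ, hχ1⟩ := exists_irr_over N hθ
  obtain ⟨ψ, hψ, hψ1, hψ2⟩ := clifford_corr_surj N T hNT hθ hT hχ hχ1
  have hd := hov χ hχ hχ1
  rw [← hψ1, charDegree_indFun T hψ.isCharacter, hp.out.dvd_mul, not_or] at hd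
  have hres := res_eq_smul_of_le_inertia N T hNT hθ hT.le hψ (by rwa [hψ2])
  have hc : classInner (fun n : N => ψ ⟨n, hNT n.2⟩) (fun n => (lam n : ℂ)) = charDegree ψ := by
    have := congrFun hres 1
    simp only [Pi.smul_apply, map_one, Units.val_one, smul_eq_mul, mul_one] at this
    rw [← this, hψ.charDegree_eq]
    rfl
  rw [hc] at hres
  have hdet : ∀ n : N, detHom ψ ⟨n, hNT n.2⟩ = lam n ^ charDegree ψ := by
    intro n
    have h2 := detHom_comp hψ.isCharacter (Subgroup.inclusion hNT)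
    have h3 : (fun x : N => ψ (Subgroup.inclusion hNT x)) = (charDegree ψ : ℂ) • fun n => (lam n : ℂ) :=
      hres
    rw [h3, detHom_smul hθ.isCharacter, detHom_hom] at h2
    exact (DFunLike.congr_fun h2 n).symm
  obtain ⟨k, hk⟩ := IsPGroup.iff_card.1 hN
  have hco : (charDegree ψ).Coprime (Nat.card N) := by
    rw [hk]; exact (Nat.Coprime.pow_left _ ((Nat.Prime.coprime_iff_not_dvd hp.out).2 hd.2)).symm
  obtain ⟨b, hb⟩ : ∃ b, charDegree ψ * b ≡ 1 [MOD Nat.card N] := by
    obtain ⟨b, hb⟩ := Nat.exists_mul_mod_eq_of_coprime 1 hco Nat.card_pos.ne'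
    exact ⟨b, hb.2⟩
  have hμ : ∀ n : N, (detHom ψ ^ b) ⟨n, hNT n.2⟩ = lam n := by
    intro n
    rw [MonoidHom.pow_apply, hdet, ← pow_mul, ← map_pow]
    congr 1
    conv_rhs => rw [← pow_one n]
    exact pow_eq_pow_iff_modEq.2 (hb.of_dvd (orderOf_dvd_natCard n))
  have hQ : ∀ β : IrrCharacter (T ⧸ N.subgroupOf T), ¬ p ∣ charDegree β.1 := by
    intro β hβ
    have h2 := (β.2.inflate (N.subgroupOf T)).mul_monoidHom (detHom ψ ^ b)
    have h3 : (fun n : N => β.1 ((⟨n, hNT n.2⟩ : T) : T ⧸ N.subgroupOf T) *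
        (((detHom ψ ^ b) ⟨n, hNT n.2⟩ : ℂˣ) : ℂ)) = β.1 1 • fun n => (lam n : ℂ) := by
      funext n
      rw [hμ, (QuotientGroup.eq_one_iff _).2 (by simp [Subgroup.mem_subgroupOf])]
      rfl
    have h4 : classInner (fun n : N => β.1 ((⟨n, hNT n.2⟩ : T) : T ⧸ N.subgroupOf T) *
        (((detHom ψ ^ b) ⟨n, hNT n.2⟩ : ℂˣ) : ℂ)) (fun n => (lam n : ℂ)) ≠ 0 := by
      rw [h3, H05.classInner_smul_left, hθ.classInner_self, mul_one]
      exact β.2.apply_one_ne_zero
    obtain ⟨h5, h6⟩ := clifford_corr_irr N T hNT hθ hT h2 h4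
    refine hov _ h5 (by rwa [h6]) ?_
    rw [charDegree_indFun T h2.isCharacter, deg_mul_hom (β.2.inflate _).isCharacter]
    refine Dvd.dvd.mul_left ?_ _
    simpa [charDegree] using hβ
  obtain ⟨S⟩ : Nonempty (Sylow p T) := inferInstance
  have hs := QuotientGroup.mk'_surjective (N.subgroupOf T)
  have hps : IsPSolvable p (T ⧸ N.subgroupOf T) := H24.PS.quotient (H24.PS.subgroup hG T) _
  have := ito_psolv hps hQ (S.mapSurjective hs)
  have hab := comm_of_normal_pGroup _ (S.mapSurjective hs).2 hQ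
  have hS : ∀ x ∈ (S : Subgroup T).map T.subtype, ∀ y ∈ (S : Subgroup T).map T.subtype, ⁅x, y⁆ ∈ N := by
    rintro _ ⟨x, hx, rfl⟩ _ ⟨y, hy, rfl⟩
    have h2 := hab.is_comm.comm ⟨_, Subgroup.mem_map_of_mem _ hx⟩ ⟨_, Subgroup.mem_map_of_mem _ hy⟩
    have h3 : QuotientGroup.mk' (N.subgroupOf T) ⁅x, y⁆ = 1 := by
      rw [map_commutatorElement, commutatorElement_eq_one_iff_mul_comm]
      exact congrArg Subtype.val h2
    rw [← map_commutatorElement]
    exact (QuotientGroup.eq_one_iff (N := N.subgroupOf T) ⁅x, y⁆).1 h3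
  have hi : ¬ p ∣ ((S : Subgroup T).map T.subtype).index := by
    rw [Subgroup.index_map_subtype, hp.out.dvd_mul, not_or]
    exact ⟨S.not_dvd_index, hd.1⟩
  obtain ⟨g, hg⟩ := MulAction.exists_smul_eq G ((S.2.map T.subtype).toSylow hi) P
  intro x hx y hy
  rw [← hg, Sylow.coe_subgroup_smul, Subgroup.mem_pointwise_smul_iff_inv_smul_mem] at hx hy
  have := hS _ hx _ hy
  rw [MulAut.smul_def, MulAut.smul_def, ← map_commutatorElement] at this
  generalize ⁅x, y⁆ = w at this
  have h7 := ‹N.Normal›.conj_mem _ this g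
  simpa [mul_assoc] using h7

universe u in
theorem main {p : ℕ} [hp : Fact p.Prime] (m : ℕ) : ∀ (G : Type u) [Group G] [Finite G],
    Nat.card G = m → IsPSolvable p G → ∀ P : Sylow p G, derivedSeries (P : Subgroup G)
      (Nat.card {χ : IrrCharacter G // p ∣ charDegree (χ : G → ℂ)} + 1) = ⊥ := by
  induction m using Nat.strong_induction_on with
  | _ m ih =>
  intro G _ _ hm hG P
  by_cases h0 : Nat.card {χ : IrrCharacter G // p ∣ charDegree (χ : G → ℂ)} = 0
  · have h1 : ∀ χ : IrrCharacter G, ¬ p ∣ charDegree χ.1 := by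
      intro χ hχ
      have : Nonempty {χ : IrrCharacter G // p ∣ charDegree (χ : G → ℂ)} := ⟨⟨χ, hχ⟩⟩
      exact Nat.card_pos.ne' h0
    have := ito_psolv hG h1 P
    have := comm_of_normal_pGroup _ P.2 h1
    rw [h0, zero_add, derivedSeries_one]
    exact (commutator_eq_bot_iff_center_eq_top _).2 (Subgroup.center_eq_top_iff.2 inferInstance)
  rcases subsingleton_or_nontrivial G with hs | hs
  · exact Subsingleton.elim _ _
  have hq : ∀ (N : Subgroup G) [N.Normal], N ≠ ⊥ → derivedSeries (P : Subgroup G)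
      (Nat.card {χ : IrrCharacter G // (∀ n ∈ N, χ.1 n = χ.1 1) ∧ p ∣ charDegree (χ : G → ℂ)} + 1) ≤
        N.subgroupOf P := by
    intro N _ hN
    have hs := QuotientGroup.mk'_surjective N
    have h1 := ih _ (by
      rw [← hm, ← Subgroup.card_mul_index N]
      exact lt_mul_of_one_lt_left Nat.card_pos ((Subgroup.one_lt_card_iff_ne_bot N).2 hN))
      (G ⧸ N) rfl (H24.PS.quotient hG N) (P.mapSurjective hs)
    rw [card_irr_ker N fun χ => p ∣ charDegree (χ : G → ℂ)]
    have h2 : Nat.card {ψ : IrrCharacter (G ⧸ N) // p ∣ charDegree (inflIrr N ψ : G → ℂ)} =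
        Nat.card {ψ : IrrCharacter (G ⧸ N) // p ∣ charDegree (ψ : G ⧸ N → ℂ)} := by
      simp [inflIrr, charDegree]
    rw [h2]
    have h3 := map_derivedSeries_eq ((QuotientGroup.mk' N).subgroupMap_surjective P)
      (Nat.card {ψ : IrrCharacter (G ⧸ N) // p ∣ charDegree (ψ : G ⧸ N → ℂ)} + 1)
    intro x hx
    have h4 := Subgroup.mem_map_of_mem ((QuotientGroup.mk' N).subgroupMap P) hx
    rw [h3] at h4
    have h5 : (QuotientGroup.mk' N).subgroupMap P x = 1 := (Subgroup.mem_bot.1 (h1.le h4))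
    exact (QuotientGroup.eq_one_iff (x : G)).1 (congrArg Subtype.val h5)
  have hle : ∀ N : Subgroup G,
      Nat.card {χ : IrrCharacter G // (∀ n ∈ N, χ.1 n = χ.1 1) ∧ p ∣ charDegree (χ : G → ℂ)} ≤
      Nat.card {χ : IrrCharacter G // p ∣ charDegree (χ : G → ℂ)} := fun N =>
    Nat.card_le_card_of_injective (fun x => ⟨x.1, x.2.2⟩) fun x y h =>
      Subtype.ext (by simpa using h)
  rcases H24.PS.core_ne_bot hG with h | h
  · set N := (Subgroup.center (pCore p G)).map (pCore p G).subtype with hN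
    have : N.Normal := ConjAct.normal_of_characteristic_of_normal
    have hpc : IsPGroup p (pCore p G) := H02.pCore_isPGroup p G
    have hN0 : N ≠ ⊥ := by
      have := (Subgroup.nontrivial_iff_ne_bot _).2 h
      have := hpc.center_nontrivial
      rw [hN, Ne, Subgroup.map_eq_bot_iff_of_injective _ (Subgroup.subtype_injective _)]
      exact (Subgroup.nontrivial_iff_ne_bot _).1 this
    have hab : ∀ k, derivedSeries (P : Subgroup G) k ≤ N.subgroupOf P →
        derivedSeries (P : Subgroup G) (k + 1) = ⊥ := by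
      intro k hk
      rw [derivedSeries_succ, Subgroup.commutator_eq_bot_iff_le_centralizer]
      intro x hx
      refine Subgroup.mem_centralizer_iff.2 fun y hy => Subtype.ext ?_
      exact congrArg (fun z : N => (z : G)) (mul_comm' (⟨y, hk hy⟩ : N) ⟨x, hk hx⟩)
    by_cases hc : ∀ χ : IrrCharacter G, p ∣ charDegree (χ : G → ℂ) → ∀ n ∈ N, χ.1 n = χ.1 1
    · have h2 := key hG N ((hpc.to_subgroup _).map _) hN0 hc P
      have h3 := hab 1 (by
        rw [derivedSeries_one, commutator_def, Subgroup.commutator_le]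
        intro x _ y _
        rw [Subgroup.mem_subgroupOf]
        exact h2 x x.2 y y.2)
      exact le_bot_iff.1 (h3 ▸ derivedSeries_antitone _ (by omega))
    · have h3 := hab _ (hq N hN0)
      refine le_bot_iff.1 (h3 ▸ derivedSeries_antitone _ ?_)
      push Not at hc
      obtain ⟨χ, hχ, hχ'⟩ := hc
      have := Fintype.card_lt_of_injective_of_notMem
        (fun x : {χ : IrrCharacter G // (∀ n ∈ N, χ.1 n = χ.1 1) ∧ p ∣ charDegree (χ : G → ℂ)} =>
          (⟨x.1, x.2.2⟩ : {χ : IrrCharacter G // p ∣ charDegree (χ : G → ℂ)}))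
        (fun x y h => Subtype.ext (by simpa using h)) (b := ⟨χ, hχ⟩) (by
          rintro ⟨⟨ψ, h1, h2⟩, h3⟩
          obtain rfl : ψ = χ := congrArg Subtype.val h3
          obtain ⟨n, hn, hn'⟩ := hχ'
          exact hn' (h1 n hn))
      rw [← Nat.card_eq_fintype_card, ← Nat.card_eq_fintype_card] at this
      omega
  · have h3 := hq _ h
    have h4 : (pPrimeCore p G).subgroupOf P = ⊥ := by
      rw [Subgroup.subgroupOf_eq_bot]
      exact (Subgroup.disjoint_of_coprime_natCard (by
        obtain ⟨k, hk⟩ := IsPGroup.iff_card.1 P.2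
        rw [hk]
        exact Nat.Coprime.pow_right _ ((Nat.Prime.coprime_iff_not_dvd hp.out).2
          (H02.not_dvd_card_pPrimeCore hp.out)).symm))
    rw [h4] at h3
    exact le_bot_iff.1 ((derivedSeries_antitone _ (by have := hle (pPrimeCore p G); omega)).trans h3)

/-- Let p be a prime, G a finite p-solvable group and P a Sylow p-subgroup of G. If n is the number of irreducible complex characters of G whose degree is divisible by p, then the (n+1)-st term of the derived series of P is trivial. (The p-solvable case has a direct inductive proof.) -/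
theorem result {G : Type*} [Group G] [Finite G] (p : ℕ) [Fact p.Prime] (hG : Cfsg.IsPSolvable p G) (P : Sylow p G) : derivedSeries ↥(P : Subgroup G) (Nat.card {χ : Cfsg.IrrCharacter G // p ∣ Cfsg.charDegree (χ : G → ℂ)} + 1) = ⊥ := by
  exact main _ G rfl hG P

end Cfsg.Agent.S4768
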