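import Mathlib
import Cfsg.Agent.L.PSL2Deg
-- Template for statement S4774 (row 4774; see /opt/grader/pristine/manifest.json for weights).
-- Copy to Cfsg/Agent/S4774.lean and replace the sorry. The statement below is byte-identical to the frozen
-- statement Cfsg.CfsgFrozen.S4774 (Cfsg/Statements/S4774.lean; the theorem Cfsg.chr9_psl_two_odd_degree_graph);
-- the grader kernel-checks Cfsg.Agent.S4774.result against that frozen type. Keep the theorem IN THIS FILE
-- (a `result` declared elsewhere and merely imported here is not credited); helpers may live anywhere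
-- under Cfsg/Agent/.
import Cfsg.Statements.S4774
-- import your own Cfsg.Agent.* helpers here

set_option autoImplicit false
open Cfsg

namespace Cfsg.Agent.S4774

/-- Let F be a finite field of odd characteristic t with q > 5 elements and let S be isomorphic to PSL(2,F) or to SL(2,F). Then the vertices of the character degree graph of S are the primes dividing q(q²−1); the prime t is adjacent to no vertex; two distinct primes dividing q² − 1 are adjacent exactly when one of them is 2, or both divide q + 1, or both divide q − 1. -/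
theorem result (F : Type*) [Field F] [Fintype F] (t : ℕ) [Fact t.Prime] [CharP F t] (ht : t ≠ 2) (q : ℕ) (hq : Fintype.card F = q) (h5 : 5 < q) {S : Type*} [Group S] [Finite S] (hS : Nonempty (S ≃* Matrix.ProjectiveSpecialLinearGroup (Fin 2) F) ∨ Nonempty (S ≃* Matrix.SpecialLinearGroup (Fin 2) F)) : Cfsg.degreePrimes S = {r : ℕ | r.Prime ∧ r ∣ q * (q ^ 2 - 1)} ∧ ∀ r s : ℕ, (Cfsg.degreeGraph S).Adj r s ↔ (r ≠ s ∧ r.Prime ∧ s.Prime ∧ r ∣ q ^ 2 - 1 ∧ s ∣ q ^ 2 - 1 ∧ (r = 2 ∨ s = 2 ∨ (r ∣ q + 1 ∧ s ∣ q + 1) ∨ (r ∣ q - 1 ∧ s ∣ q - 1))) := by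
  subst hq
  have hodd := Nat.odd_iff.1 (L.odd_card_iff.2 (L.two_ne_zero_of_charP (F := F) t ht))
  refine ⟨L.SLc.IsL2.degreePrimes hS (by omega) (by omega), fun r s => ?_⟩
  rw [L.SLc.IsL2.adj hS (by omega) (by omega)]
  refine and_congr_right fun h1 => and_congr_right fun hr => and_congr_right fun hs => ?_
  rw [show Fintype.card F ^ 2 - 1 = (Fintype.card F + 1) * (Fintype.card F - 1) by
    simpa using Nat.sq_sub_sq (Fintype.card F) 1, hr.dvd_mul, hs.dvd_mul]
  have h2 : 2 ∣ Fintype.card F + 1 := by omega
  have h3 : 2 ∣ Fintype.card F - 1 := by omega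
  constructor
  · tauto
  · rintro ⟨h4, h6, rfl | rfl | h | h⟩ <;> tauto

end Cfsg.Agent.S4774
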