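import Mathlib
import Cfsg.Agent.H20.SzC
import Cfsg.Agent.H12.Sz3
-- Template for statement S4775 (row 4775; see /opt/grader/pristine/manifest.json for weights).
-- Copy to Cfsg/Agent/S4775.lean and replace the sorry. The statement below is byte-identical to the frozen
-- statement Cfsg.CfsgFrozen.S4775 (Cfsg/Statements/S4775.lean; the theorem Cfsg.chr9_suzuki_degree_graph);
-- the grader kernel-checks Cfsg.Agent.S4775.result against that frozen type. Keep the theorem IN THIS FILE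
-- (a `result` declared elsewhere and merely imported here is not credited); helpers may live anywhere
-- under Cfsg/Agent/.
import Cfsg.Statements.S4775
-- import your own Cfsg.Agent.* helpers here

set_option autoImplicit false
open Cfsg

open H05 H12.Sz Classical

namespace Cfsg.Agent.S4775

/-- Let F be a finite field with q = 2^(2m+1) ≥ 8 elements and let S be isomorphic to the Suzuki group over F. Then the vertices of the character degree graph of S are 2 and the primes dividing (q − 1)(q² + 1); the primes dividing (q − 1)(q² + 1) are pairwise adjacent, and 2 is adjacent exactly to the primes dividing q − 1. -/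
theorem result (F : Type*) [Field F] [Fintype F] (m : ℕ) (hm : 1 ≤ m) (q : ℕ) (hq : Fintype.card F = q) (hqm : q = 2 ^ (2 * m + 1)) {S : Type*} [Group S] [Finite S] (hS : Nonempty (S ≃* ↥(Cfsg.Lie.Sz F (2 ^ (m + 1))))) : Cfsg.degreePrimes S = {r : ℕ | r.Prime ∧ (r = 2 ∨ r ∣ (q - 1) * (q ^ 2 + 1))} ∧ ∀ r s : ℕ, (Cfsg.degreeGraph S).Adj r s ↔ (r ≠ s ∧ r.Prime ∧ s.Prime ∧ ((r ∣ (q - 1) * (q ^ 2 + 1) ∧ s ∣ (q - 1) * (q ^ 2 + 1)) ∨ (r = 2 ∧ s ∣ q - 1) ∨ (s = 2 ∧ r ∣ q - 1))) := by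
----
  have hF : SzF F m := ⟨hm, hq.trans hqm⟩
  obtain ⟨e⟩ := hS
  have e' := e.trans (lieEquiv (F := F)).symm
  have hd : ∀ d, d ∈ charDegrees S ↔ d ∈ charDegrees (G F m) := fun d =>
    ⟨by rintro ⟨χ, rfl⟩; exact ⟨⟨_, χ.2.comp_of_surjective e'.symm.toMonoidHom e'.symm.surjective⟩, charDegree_comp _ _⟩,
      by rintro ⟨χ, rfl⟩; exact ⟨⟨_, χ.2.comp_of_surjective e'.toMonoidHom e'.surjective⟩, charDegree_comp _ _⟩⟩
  have hm' := tori_mul (F := F)
  simp only [H20.CCX.mem_degrees, hq] at hd hm'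
  generalize q + 2 ^ (m + 1) + 1 = a at hd hm'
  generalize q - 2 ^ (m + 1) + 1 = b at hd hm'
  generalize q - 1 = c at hd ⊢
  rw [← hm'] at hd ⊢
  have h2 : ∀ {r n : ℕ}, r.Prime → r ∣ 2 ^ n → r = 2 := fun hr h =>
    (Nat.prime_dvd_prime_iff_eq hr Nat.prime_two).1 (hr.dvd_of_dvd_pow h)
  have h3 : ∀ {r : ℕ}, r.Prime → r ∣ q ^ 2 → r = 2 := fun hr h => h2 hr (hqm ▸ hr.dvd_of_dvd_pow h)
  have h4 : 2 ∣ 2 ^ m := dvd_pow_self 2 (by omega)
  have k1 : c * b ∣ c * (a * b) := Nat.mul_dvd_mul_left c (dvd_mul_left b a)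
  have k2 : c * a ∣ c * (a * b) := Nat.mul_dvd_mul_left c (dvd_mul_right a b)
  have m1 := (hd _).2 (.inr (.inr (.inl rfl)))
  have m2 := (hd _).2 (.inr (.inr (.inr (.inl rfl))))
  have m3 := (hd _).2 (.inr (.inr (.inr (.inr (.inl rfl)))))
  have m4 := (hd _).2 (.inr (.inr (.inr (.inr (.inr rfl)))))
  refine ⟨Set.ext fun r => ⟨fun ⟨hr, d, h, h'⟩ => ⟨hr, ?_⟩, fun ⟨hr, h⟩ => ⟨hr, ?_⟩⟩, fun r s =>
    ⟨fun ⟨hne, hr, hs, d, h, h'⟩ => ⟨hne, hr, hs, ?_⟩, fun ⟨hne, hr, hs, h⟩ => ⟨hne, hr, hs, ?_⟩⟩⟩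
  · rcases (hd d).1 h with rfl | rfl | rfl | rfl | rfl | rfl
    · exact absurd (Nat.dvd_one.1 h') hr.ne_one
    · exact .inl (h3 hr h')
    · exact .inr (h'.mul_left _)
    · exact .inr (h'.trans k1)
    · exact .inr (h'.trans k2)
    · exact ((Nat.Prime.dvd_mul hr).1 h').symm.imp (h2 hr) (·.mul_right _)
  · rcases h with rfl | h
    · exact ⟨_, m4, h4.mul_left _⟩
    · exact ((Nat.Prime.dvd_mul hr).1 h).elim (fun h => ⟨_, m4, h.mul_right _⟩) fun h => ⟨_, m1, h⟩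
  · have a1 := (dvd_mul_right r s).trans h'
    have a2 := (dvd_mul_left s r).trans h'
    rcases (hd d).1 h with rfl | rfl | rfl | rfl | rfl | rfl
    · exact absurd (Nat.dvd_one.1 a1) hr.ne_one
    · exact absurd ((h3 hr a1).trans (h3 hs a2).symm) hne
    · exact .inl ⟨a1.mul_left _, a2.mul_left _⟩
    · exact .inl ⟨a1.trans k1, a2.trans k1⟩
    · exact .inl ⟨a1.trans k2, a2.trans k2⟩
    · rcases (Nat.Prime.dvd_mul hr).1 a1 with b1 | b1 <;> rcases (Nat.Prime.dvd_mul hs).1 a2 with b2 | b2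
      · exact .inl ⟨b1.mul_right _, b2.mul_right _⟩
      · exact .inr (.inr ⟨h2 hs b2, b1⟩)
      · exact .inr (.inl ⟨h2 hr b1, b2⟩)
      · exact absurd ((h2 hr b1).trans (h2 hs b2).symm) hne
  · have key : ∀ d ∈ charDegrees S, r ∣ d → s ∣ d → ∃ d ∈ charDegrees S, r * s ∣ d := fun d h a1 a2 =>
      ⟨d, h, ((Nat.coprime_primes hr hs).2 hne).mul_dvd_of_dvd_of_dvd a1 a2⟩
    rcases h with ⟨a1, a2⟩ | ⟨rfl, a2⟩ | ⟨rfl, a1⟩
    · simp only [Nat.Prime.dvd_mul hr, Nat.Prime.dvd_mul hs] at a1 a2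
      rcases a1 with a1 | a1 | a1 <;> rcases a2 with a2 | a2 | a2
      all_goals first
        | exact key _ m1 ((Nat.Prime.dvd_mul hr).2 (by tauto)) ((Nat.Prime.dvd_mul hs).2 (by tauto))
        | exact key _ m2 ((Nat.Prime.dvd_mul hr).2 (by tauto)) ((Nat.Prime.dvd_mul hs).2 (by tauto))
        | exact key _ m3 ((Nat.Prime.dvd_mul hr).2 (by tauto)) ((Nat.Prime.dvd_mul hs).2 (by tauto))
    · exact key _ m4 (h4.mul_left _) (a2.mul_right _)
    · exact key _ m4 (a1.mul_right _) (h4.mul_left _)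

end Cfsg.Agent.S4775
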