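import Mathlib
import Cfsg.Statements.S4784
import Cfsg.Agent.H07.Misc1

set_option autoImplicit false
open Cfsg
open H05 H06 Cfsg H07

namespace Cfsg.Agent.S4784

/-- Let H be a subgroup of the finite group G and consider the permutation character of G on the cosets of H (the function induced from the principal character of H). Then exactly one irreducible constituent of it is real-valued with Frobenius–Schur indicator +1 (namely the principal character) if and only if the normal core of H has odd index in G. -/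
theorem result {G : Type*} [Group G] [Fintype G] (H : Subgroup G) : Nat.card {χ : Cfsg.IrrCharacter G // Cfsg.classInner (Cfsg.indFun H (fun _ : H => (1 : ℂ))) (χ : G → ℂ) ≠ 0 ∧ (∀ g : G, (starRingEnd ℂ) ((χ : G → ℂ) g) = (χ : G → ℂ) g) ∧ (Nat.card G : ℂ)⁻¹ * ∑ g : G, (χ : G → ℂ) (g * g) = 1} = 1 ↔ Odd H.normalCore.index := by
  have hone : Cfsg.classInner (Cfsg.indFun H (fun _ : H => (1 : ℂ))) (1 : G → ℂ) ≠ 0 ∧
      (∀ g : G, (starRingEnd ℂ) ((1 : G → ℂ) g) = (1 : G → ℂ) g) ∧
      (Nat.card G : ℂ)⁻¹ * ∑ g : G, (1 : G → ℂ) (g * g) = 1 := by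
    refine ⟨?_, fun g => by simp, by simp⟩
    let _ := Fintype.ofFinite H
    rw [H06.frobenius_reciprocity H _ _ H05.isIrrCharacter_one.isCharacter.isClassFunction]
    exact ne_of_eq_of_ne (H05.isIrrCharacter_one (G := H)).classInner_self one_ne_zero
  constructor
  · intro h
    refine H07.odd_index_of_perm_fs H fun ψ h1 h2 => ?_
    have hr : ∀ g : G, (starRingEnd ℂ) (ψ.1 g) = ψ.1 g := fun g => by
      rw [Complex.conj_eq_iff_im]
      by_contra hh
      rw [ψ.2.fsIndicator_of_not_real ⟨g, hh⟩] at h2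
      exact zero_ne_one h2
    have := (Nat.card_eq_one_iff_unique.1 h).1.elim ⟨ψ, h1, hr, h2⟩ ⟨⟨1, H05.isIrrCharacter_one⟩, hone⟩
    exact congrArg (fun x => x.1.1) this
  · intro h
    refine Nat.card_eq_one_iff_exists.2 ⟨⟨⟨1, H05.isIrrCharacter_one⟩, hone⟩, fun ψ => Subtype.ext (Subtype.ext ?_)⟩
    exact H07.eq_one_of_perm_odd H h ψ.1.2 ψ.2.1 fun g => Complex.conj_eq_iff_im.1 (ψ.2.2.1 g)

end Cfsg.Agent.S4784
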