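import Mathlib
import Cfsg.Statements.S4796
import Cfsg.Agent.H07.Deg

set_option autoImplicit false
open Cfsg
open H05 H06 Cfsg H07

namespace Cfsg.Agent.S4796

/-- Let G be a finite group with a faithful irreducible complex character χ whose codegree #G / χ(1) is a prime p (for a faithful character the kernel is trivial, so the codegree is #G / χ(1)). Then either G is cyclic of order p, or G is a Frobenius group whose Frobenius kernel has order p: some proper non-trivial subgroup H satisfies H ∩ gHg⁻¹ = 1 for every element g outside H, and the set of elements lying in no conjugate of H, together with the identity, has exactly p elements. -/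
theorem result {G : Type*} [Group G] [Finite G] (χ : Cfsg.IrrCharacter G) (hfaith : ∀ g : G, (χ : G → ℂ) g = (χ : G → ℂ) 1 → g = 1) (p : ℕ) (hp : p.Prime) (hcod : Nat.card G = p * Cfsg.charDegree (χ : G → ℂ)) : (IsCyclic G ∧ Nat.card G = p) ∨ ∃ H : Subgroup G, Cfsg.IsFrobeniusComplement H ∧ Nat.card ↥(Cfsg.frobeniusKernel H) = p := by
  obtain ⟨P, hP, h1, h2⟩ := cod_prime χ.2 hp hcod
  have := Fact.mk hp
  by_cases hd : charDegree χ.1 = 1
  · rw [hd, mul_one] at hcod
    exact .inl ⟨isCyclic_of_prime_card hcod, hcod⟩
  have h3 : P.index = charDegree χ.1 :=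
    mul_left_cancel₀ hp.ne_zero (by rw [← hcod, ← P.card_mul_index, h1])
  have hPn : P ≠ ⊥ := by rintro rfl; exact hp.ne_one (by simpa using h1.symm)
  have h4 : (Nat.card P).Coprime P.index := by
    rw [h1, hp.coprime_iff_not_dvd]
    intro h5
    have h6 := (charDegree_sq_le_index_center χ.2).trans
      (Nat.le_of_dvd Nat.card_pos (Subgroup.index_dvd_card _))
    have h7 := Nat.le_of_dvd χ.2.charDegree_pos (h3 ▸ h5)
    have h8 : charDegree χ.1 = p := le_antisymm (by nlinarith [χ.2.charDegree_pos]) h7
    rw [h8, ← sq] at hcod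
    have := IsPGroup.isMulCommutative_of_card_eq_prime_sq hcod
    exact hd (deg_eq_one_of_comm χ.2)
  obtain ⟨H, hH⟩ := Subgroup.exists_right_complement'_of_coprime h4
  have hF := H02.isFrob_of_fpf hH hPn (by
    rintro rfl
    exact hd (by rw [← h3, hH.symm.index_eq_card, Subgroup.card_bot])) fun h hh h5 => by
      by_contra h6
      have h7 : P ⊓ Subgroup.centralizer {h} = P := Subgroup.eq_of_le_of_card_ge inf_le_left (by
        rcases (Nat.dvd_prime hp).1 (h1 ▸ Subgroup.card_dvd_of_le (inf_le_left :
          P ⊓ Subgroup.centralizer {h} ≤ P)) with h8 | h8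
        · exact (h6 (Subgroup.card_eq_one.1 h8)).elim
        · rw [h8, h1])
      exact h5 (Subgroup.disjoint_def.1 hH.disjoint (h2 fun x hx =>
        ((h7.ge hx).2 h rfl).symm) hh)
  exact .inr ⟨H, hF, by rw [H02.IsFrob.card_kernel hF, hH.index_eq_card, h1]⟩

end Cfsg.Agent.S4796
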