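import Mathlib
import Cfsg.Statements.S4797
import Cfsg.Agent.H07.Deg
import Cfsg.Agent.H04.ElemAb

set_option autoImplicit false
open Cfsg
open H05 H06 Cfsg H07

namespace Cfsg.Agent.S4797

/-- The codegree of an irreducible complex character χ of a finite group G is [G : ker χ] / χ(1), where ker χ is the set of elements at which χ takes the value χ(1). A non-trivial finite group is perfect if and only if no irreducible complex character of it has prime codegree. -/
theorem result {G : Type*} [Group G] [Finite G] [Nontrivial G] : commutator G = ⊤ ↔ ∀ χ : Cfsg.IrrCharacter G, ¬ ((Nat.card G / (Nat.card {g : G // (χ : G → ℂ) g = (χ : G → ℂ) 1} * Cfsg.charDegree (χ : G → ℂ)))).Prime := by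
  constructor
  · intro h χ hp
    obtain ⟨ψ, h1, h2, h3⟩ := exists_faithful_quotient χ.2
    have h4 : charDegree χ.1 = charDegree ψ := congrArg charDegree h3
    have hc : Nat.card (G ⧸ charKer χ.1) = cod χ.1 * charDegree ψ := by
      rw [← h4]; exact (cod_mul χ.2).symm
    obtain ⟨P, hP, h5, h6⟩ := cod_prime h1 hp hc
    have := Fact.mk hp
    have h7 : commutator (G ⧸ charKer χ.1) = ⊤ := by
      rw [commutator_def, ← Subgroup.map_top_of_surjective _ (QuotientGroup.mk'_surjective (charKer χ.1)),
        ← Subgroup.map_commutator, ← commutator_def, h]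
    have h8 := isCyclic_of_prime_card h5
    obtain rfl : P = ⊤ := top_unique (h7.ge.trans ((H04.commutator_le_centralizer_of_isCyclic h8
      Subgroup.le_normalizer_of_normal Subgroup.le_normalizer_of_normal).trans h6))
    have h9 : (⊤ : Subgroup (G ⧸ charKer χ.1)) = ⊥ := h7.symm.trans
      (Subgroup.commutator_eq_bot_iff_le_centralizer.2 (Subgroup.le_centralizer _))
    exact hp.ne_one (by rw [← h5, h9, Subgroup.card_bot])
  · intro h
    by_contra h1
    have h2 : Nat.card (G →* ℂˣ) ≠ 1 := by rwa [card_monoidHom_units, Ne, Subgroup.index_eq_one]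
    have : Finite (G →* ℂˣ) := Nat.finite_of_card_ne_zero (by
      rw [card_monoidHom_units]; exact Subgroup.index_ne_zero_of_finite)
    have hp := Fact.mk (Nat.minFac_prime h2)
    obtain ⟨φ, h3⟩ := exists_prime_orderOf_dvd_card' _ (Nat.minFac_dvd (Nat.card (G →* ℂˣ)))
    have h4 := isIrrCharacter_monoidHom φ
    refine h ⟨_, h4⟩ ?_
    have h5 := cod_mul h4
    rw [charDegree_eq_of_apply_one (n := 1) (by simp), mul_one,
      show charKer (fun g => (φ g : ℂ)) = φ.ker from Subgroup.ext fun g => by
        rw [h4.isCharacter.mem_charKer]; simp, Subgroup.index_ker] at h5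
    have := Nat.pos_iff_ne_zero.1 hp.out.pos
    have h6 : φ.range ≤ rootsOfUnity (Nat.card (G →* ℂˣ)).minFac ℂ := by
      rintro _ ⟨g, rfl⟩
      rw [mem_rootsOfUnity, ← h3, ← MonoidHom.pow_apply, pow_orderOf_eq_one]; rfl
    have h7 := Subgroup.card_dvd_of_le h6
    rw [Complex.card_rootsOfUnity] at h7
    change (cod _).Prime
    rcases (Nat.dvd_prime hp.out).1 h7 with h8 | h8
    · rw [Subgroup.card_eq_one, MonoidHom.range_eq_bot_iff] at h8
      exact (hp.out.ne_one (by rw [← h3, h8, orderOf_one])).elim
    · rw [h5, h8]; exact hp.out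

end Cfsg.Agent.S4797
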