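import Mathlib
import Cfsg.Agent.H07.Glb4
import Cfsg.Agent.H01.Coprime2
-- Template for statement S4798 (row 4798; see /opt/grader/pristine/manifest.json for weights).
-- Copy to Cfsg/Agent/S4798.lean and replace the sorry. The statement below is byte-identical to the frozen
-- statement Cfsg.CfsgFrozen.S4798 (Cfsg/Statements/S4798.lean; the theorem Cfsg.chr9_faithful_character_prime_power_codegree_iff_induced_from_sylow);
-- the grader kernel-checks Cfsg.Agent.S4798.result against that frozen type. Keep the theorem IN THIS FILE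
-- (a `result` declared elsewhere and merely imported here is not credited); helpers may live anywhere
-- under Cfsg/Agent/.
import Cfsg.Statements.S4798
-- import your own Cfsg.Agent.* helpers here

set_option autoImplicit false
open Cfsg

open H05 H06 H07 Cfsg

namespace Cfsg.Agent.S4798

/-- Let p be a prime and χ a faithful irreducible complex character of the finite group G (χ(g) = χ(1) only for g = 1), so that its codegree is #G / χ(1). Then #G / χ(1) is a power of p if and only if χ is induced from a character of a Sylow p-subgroup of G. -/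
theorem result {G : Type*} [Group G] [Fintype G] (p : ℕ) [Fact p.Prime] (χ : Cfsg.IrrCharacter G) (hfaith : ∀ g : G, (χ : G → ℂ) g = (χ : G → ℂ) 1 → g = 1) : (∃ k : ℕ, Nat.card G = p ^ k * Cfsg.charDegree (χ : G → ℂ)) ↔ ∃ (P : Sylow p G) (θ : ↥(P : Subgroup G) → ℂ), Cfsg.IsCharacter ↥(P : Subgroup G) θ ∧ (χ : G → ℂ) = Cfsg.indFun (P : Subgroup G) θ := by
  have hp : p.Prime := Fact.out
  constructor
  · rintro ⟨k, hk⟩
    obtain ⟨P⟩ : Nonempty (Sylow p G) := inferInstance
    have := Fintype.ofFinite (P : Subgroup G)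
    obtain ⟨a, ha⟩ := P.2.exists_card_eq
    have h1 := (P : Subgroup G).card_mul_index
    rw [ha, hk] at h1
    have h2 : k ≤ a := (Nat.pow_dvd_pow_iff_le_right hp.one_lt).1
      ((((Nat.Prime.coprime_iff_not_dvd hp).2 P.not_dvd_index).pow_left k).dvd_of_dvd_mul_right ⟨_, h1⟩)
    obtain ⟨b, rfl⟩ := Nat.exists_eq_add_of_le h2
    rw [pow_add, mul_assoc] at h1
    replace h1 := Nat.eq_of_mul_eq_mul_left (pow_pos hp.pos k) h1
    obtain ⟨θ, h3, h4⟩ : ∃ θ : IrrCharacter (P : Subgroup G), mult (P : Subgroup G).subtype χ θ ≠ 0 ∧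
        charDegree θ.1 ≤ p ^ b := by
      by_contra hn
      push Not at hn
      have h5 : p ^ (b + 1) ∣ charDegree χ.1 := by
        rw [degree_eq_sum_mult (P : Subgroup G).subtype χ.2.isCharacter]
        refine Finset.dvd_sum fun θ _ => ?_
        by_cases h : mult (P : Subgroup G).subtype χ θ = 0
        · simp [h]
        obtain ⟨j, -, hj⟩ := (Nat.dvd_prime_pow hp).1 (ha ▸ θ.2.charDegree_dvd_card)
        have h6 := hn θ h
        rw [hj] at h6 ⊢
        exact (pow_dvd_pow p ((Nat.pow_lt_pow_iff_right hp.one_lt).1 h6)).mul_left _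
      rw [← h1, pow_succ] at h5
      exact P.not_dvd_index (Nat.dvd_of_mul_dvd_mul_left (pow_pos hp.pos b) h5)
    refine ⟨P, θ, θ.2.isCharacter, ?_⟩
    have h5 := isCharacter_indFun _ θ.2.isCharacter
    have h6 : mult (MonoidHom.id G) (indFun _ θ.1) χ ≠ 0 := by
      rw [mult_ne_zero_iff _ h5 χ.2.isCharacter]
      rw [mult_sub_ne_zero _ χ.2.isCharacter θ.2.isCharacter, ← frobenius_reciprocity_right _ _ _ χ.2.isClassFunction,
        χ.2.isCharacter.classInner_comm h5] at h3
      exact h3
    have h7 : charDegree (indFun _ θ.1) ≤ charDegree χ.1 := by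
      have : charDegree (indFun _ θ.1) = (P : Subgroup G).index * charDegree θ.1 := by
        apply Nat.cast_injective (R := ℂ)
        rw [h5.charDegree_eq, indFun_one, Nat.cast_mul, θ.2.charDegree_eq]
      rw [this, ← h1, mul_comm]
      exact Nat.mul_le_mul_right _ h4
    classical
    have h8 := degree_eq_sum_mult (MonoidHom.id G) h5
    rw [← Finset.add_sum_erase _ _ (Finset.mem_univ χ)] at h8
    have h9 := χ.2.charDegree_pos
    have h10 : mult (MonoidHom.id G) (indFun _ θ.1) χ = 1 := by
      by_contra h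
      have : 2 ≤ mult (MonoidHom.id G) (indFun _ θ.1) χ := by omega
      nlinarith [Nat.zero_le (∑ x ∈ Finset.univ.erase χ, mult (MonoidHom.id G) (indFun _ θ.1) x * charDegree x.1)]
    rw [h10, one_mul] at h8
    have h11 := Finset.sum_eq_zero_iff.1 (show ∑ x ∈ Finset.univ.erase χ,
      mult (MonoidHom.id G) (indFun _ θ.1) x * charDegree x.1 = 0 by omega)
    refine Eq.symm ((comp_eq_sum_mult (MonoidHom.id G) h5).trans ?_)
    rw [← Finset.add_sum_erase _ _ (Finset.mem_univ χ), h10, Finset.sum_eq_zero fun x hx => by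
      rw [(mul_eq_zero.1 (h11 x hx)).resolve_right x.2.charDegree_pos.ne']; simp]
    simp
  · rintro ⟨P, θ, h1, h2⟩
    have := Fintype.ofFinite (P : Subgroup G)
    obtain ⟨a, ha⟩ := P.2.exists_card_eq
    have h3 : charDegree χ.1 = (P : Subgroup G).index * charDegree θ := by
      apply Nat.cast_injective (R := ℂ)
      rw [χ.2.charDegree_eq, h2, indFun_one, Nat.cast_mul, h1.charDegree_eq]
    obtain ⟨c, hc⟩ := χ.2.charDegree_dvd_card
    have h4 := (P : Subgroup G).card_mul_index
    rw [ha, hc, h3, mul_comm, mul_assoc] at h4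
    obtain ⟨j, -, hj⟩ := (Nat.dvd_prime_pow hp).1 (Dvd.intro_left _
      (Nat.eq_of_mul_eq_mul_left (Nat.pos_of_ne_zero (P : Subgroup G).index_ne_zero_of_finite) h4).symm)
    exact ⟨j, by rw [hc, hj, mul_comm]⟩

end Cfsg.Agent.S4798
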