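import Mathlib
import Cfsg.Statements.S4801
import Cfsg.Agent.H07.Deg

set_option autoImplicit false
open Cfsg
open H05 H06 Cfsg H07

namespace Cfsg.Agent.S4801

/-- The codegree of an irreducible complex character χ of a finite group G is [G : ker χ] / χ(1), where ker χ is the set of elements at which χ takes the value χ(1). Let S be a finite simple group and G a finite group such that every codegree of an irreducible character of S is a codegree of an irreducible character of G. Then the order of S divides the order of G. -/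
theorem result {S : Type*} [Group S] [Finite S] (hS : IsSimpleGroup S) {G : Type*} [Group G] [Finite G] (hsub : ∀ χ : Cfsg.IrrCharacter S, ∃ ψ : Cfsg.IrrCharacter G, (Nat.card S / (Nat.card {g : S // (χ : S → ℂ) g = (χ : S → ℂ) 1} * Cfsg.charDegree (χ : S → ℂ))) = (Nat.card G / (Nat.card {g : G // (ψ : G → ℂ) g = (ψ : G → ℂ) 1} * Cfsg.charDegree (ψ : G → ℂ)))) : Nat.card S ∣ Nat.card G := by
  refine (Nat.dvd_iff_prime_pow_dvd_dvd _ _).2 fun p k hp hk => ?_
  obtain ⟨g, hg⟩ := exists_ne (1 : S)
  obtain ⟨χ, h1, h2, -, h3⟩ := exists_irr_not_dvd_degree hg hp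
  obtain ⟨ψ, h4⟩ := hsub ⟨χ, h1⟩
  refine Dvd.dvd.trans ?_ (cod_dvd ψ.2)
  rw [← Subgroup.index_bot, ← h1.charKer_eq_bot_of_simple h2, ← cod_mul h1] at hk
  exact (((hp.coprime_iff_not_dvd.2 h3).pow_left k).dvd_of_dvd_mul_right hk).trans h4.dvd

end Cfsg.Agent.S4801
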