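import Mathlib
import Cfsg.Statements.S4802
import Cfsg.Agent.H07.Cnt

set_option autoImplicit false
open Cfsg
open H05 Cfsg H07
open scoped ComplexConjugate

namespace Cfsg.Agent.S4802

/-- Let N < M be normal subgroups of the finite group G and g ∈ M ∖ N. Then the conjugacy class of g is exactly M ∖ N if and only if every irreducible complex character of G whose kernel contains N takes the same value at all elements of M ∖ N, and every irreducible complex character of G whose kernel does not contain N vanishes at g. -/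
theorem result {G : Type*} [Group G] [Finite G] (N M : Subgroup G) [N.Normal] [M.Normal] (hNM : N < M) (g : G) (hgM : g ∈ M) (hgN : g ∉ N) : {h : G | IsConj g h} = (M : Set G) \ (N : Set G) ↔ ((∀ χ : Cfsg.IrrCharacter G, (∀ x ∈ N, (χ : G → ℂ) x = (χ : G → ℂ) 1) → ∀ x ∈ M, x ∉ N → ∀ y ∈ M, y ∉ N → (χ : G → ℂ) x = (χ : G → ℂ) y) ∧ (∀ χ : Cfsg.IrrCharacter G, (∃ x ∈ N, (χ : G → ℂ) x ≠ (χ : G → ℂ) 1) → (χ : G → ℂ) g = 0)) := by
  classical
  have := Fintype.ofFinite G
  refine ⟨fun h => ⟨fun χ _ x hx hx' y hy hy' => ?_, fun χ ⟨x, hx, h1⟩ => ?_⟩, fun h => ?_⟩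
  · rw [← χ.2.isClassFunction.isConj (h.ge ⟨hx, hx'⟩), χ.2.isClassFunction.isConj (h.ge ⟨hy, hy'⟩)]
  · have h2 := sum_coset N χ.2 g
    rw [if_neg fun h => h1 (h x hx), Finset.sum_congr rfl (g := fun _ => χ.1 g) fun n _ =>
      (χ.2.isClassFunction.isConj (h.ge ⟨M.mul_mem (hNM.le n.2) hgM,
        fun h => hgN ((N.mul_mem_cancel_left n.2).1 h)⟩)).symm] at h2
    simpa using h2
  · ext z
    refine ⟨fun hz => ?_, fun hz => ?_⟩
    · obtain ⟨c, rfl⟩ := isConj_iff.1 hz
      exact ⟨‹M.Normal›.conj_mem _ hgM c, fun h => hgN (by simpa [mul_assoc] using ‹N.Normal›.conj_mem' _ h c)⟩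
    · by_contra h5
      have h6 := sum_irr_mul_conj_of_not_isConj h5
      rw [Finset.sum_congr rfl (g := fun χ => χ.1 g * conj (χ.1 g)) fun χ _ => ?_,
        sum_irr_mul_conj_of_isConj (IsConj.refl _)] at h6
      · exact H06.natCard_ne_zero _ h6
      · by_cases h7 : ∀ x ∈ N, χ.1 x = χ.1 1
        · rw [h.1 χ h7 z hz.1 hz.2 g hgM hgN]
        · simp [h.2 χ (by simpa using h7)]

end Cfsg.Agent.S4802
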