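import Mathlib
import Cfsg.Agent.H20.OneCls
import Cfsg.Agent.H07.CharBasic
import Cfsg.Agent.H20.Constr
-- Template for statement S4805 (row 4805; see /opt/grader/pristine/manifest.json for weights).
-- Copy to Cfsg/Agent/S4805.lean and replace the sorry. The statement below is byte-identical to the frozen
-- statement Cfsg.CfsgFrozen.S4805 (Cfsg/Statements/S4805.lean; the theorem Cfsg.chr9_noncentral_element_seen_by_one_nonlinear_character);
-- the grader kernel-checks Cfsg.Agent.S4805.result against that frozen type. Keep the theorem IN THIS FILE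
-- (a `result` declared elsewhere and merely imported here is not credited); helpers may live anywhere
-- under Cfsg/Agent/.
import Cfsg.Statements.S4805
-- import your own Cfsg.Agent.* helpers here

set_option autoImplicit false
open Cfsg

open H20 H05 Cfsg Classical

namespace Cfsg.Agent.S4805

theorem sum_hom {G : Type*} [Group G] [Finite G] [Fintype (G →* ℂˣ)] (y : G) :
    ∑ φ : G →* ℂˣ, (φ y : ℂ) = if y ∈ commutator G then ((commutator G).index : ℂ) else 0 := by
  split_ifs with h
  · rw [Finset.sum_congr rfl (g := fun _ => 1) fun φ _ => by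
      rw [Abelianization.commutator_subset_ker φ h]; rfl]
    simp [← card_monoidHom_units]
  · obtain ⟨φ₀, h0⟩ := H07.exists_hom_apply_ne_one h
    have h1 := Equiv.sum_comp (Equiv.mulLeft φ₀) fun φ : G →* ℂˣ => (φ y : ℂ)
    simp only [Equiv.coe_mulLeft, MonoidHom.mul_apply, Units.val_mul, ← Finset.mul_sum] at h1
    by_contra h2
    exact h0 (Units.ext (mul_right_cancel₀ h2 (h1.trans (one_mul _).symm)))

/-- Let G be a finite group, g an element outside the centre of G, and χ an irreducible complex character of degree greater than one with χ(g) ≠ 0 such that every other irreducible character of degree greater than one vanishes at g. Then g lies in the derived subgroup G′ and χ(g) = −[G : G′]/χ(1); G′ is the union of the kernel of χ (the elements where χ takes the value χ(1)) and the conjugacy class of g, and χ vanishes outside G′; every irreducible character of degree greater than one whose kernel contains that of χ equals χ; and G is solvable. -/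
theorem result {G : Type*} [Group G] [Finite G] (g : G) (hg : g ∉ Subgroup.center G) (χ : Cfsg.IrrCharacter G) (hχ1 : Cfsg.charDegree (χ : G → ℂ) ≠ 1) (hχg : (χ : G → ℂ) g ≠ 0) (hother : ∀ ψ : Cfsg.IrrCharacter G, Cfsg.charDegree (ψ : G → ℂ) ≠ 1 → ψ ≠ χ → (ψ : G → ℂ) g = 0) : g ∈ commutator G ∧ (χ : G → ℂ) g = -(((commutator G).index : ℂ) / (χ : G → ℂ) 1) ∧ ((commutator G : Set G) = {x : G | (χ : G → ℂ) x = (χ : G → ℂ) 1} ∪ {h : G | IsConj g h}) ∧ (∀ x : G, x ∉ commutator G → (χ : G → ℂ) x = 0) ∧ (∀ ψ : Cfsg.IrrCharacter G, Cfsg.charDegree (ψ : G → ℂ) ≠ 1 → (∀ x : G, (χ : G → ℂ) x = (χ : G → ℂ) 1 → (ψ : G → ℂ) x = (ψ : G → ℂ) 1) → ψ = χ) ∧ Group.IsSolvable G := by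
  have := Fintype.ofFinite G
  have := Fintype.ofFinite (IrrCharacter G)
  have : Finite (G →* ℂˣ) := Finite.of_equiv _ (linearIrrEquiv G).symm
  have := Fintype.ofFinite (G →* ℂˣ)
  have hd : ∀ ψ : IrrCharacter G, charDegree (ψ : G → ℂ) = 1 ↔ (ψ : G → ℂ) 1 = 1 := fun ψ => by
    rw [← ψ.2.isCharacter.charDegree_eq, Nat.cast_eq_one]
  have hm : ((commutator G).index : ℂ) ≠ 0 := by exact_mod_cast Subgroup.index_ne_zero_of_finite
  have h10 : (χ : G → ℂ) 1 ≠ 0 := χ.2.apply_one_ne_zero
  have key : ∀ x, ¬ IsConj g x → (if g * x⁻¹ ∈ commutator G then ((commutator G).index : ℂ) else 0) +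
      (χ : G → ℂ) g * (starRingEnd ℂ) ((χ : G → ℂ) x) = 0 := fun x hx => by
    rw [← sum_hom, ← sum_irr_mul_conj_of_not_isConj hx,
      ← Finset.sum_filter_add_sum_filter_not _ fun ψ : IrrCharacter G => (ψ : G → ℂ) 1 = 1]
    congr 1
    · rw [Finset.sum_subtype (p := fun ψ : IrrCharacter G => (ψ : G → ℂ) 1 = 1) _ (fun ψ => by simp),
        ← (linearIrrEquiv G).sum_comp]
      refine Finset.sum_congr rfl fun φ _ => ?_
      change _ = (φ g : ℂ) * (starRingEnd ℂ) (φ x : ℂ)
      rw [← (isIrrCharacter_monoidHom φ).isCharacter.apply_inv, map_mul, Units.val_mul]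
    · rw [Finset.sum_eq_single_of_mem χ (by simpa [← hd] using hχ1) fun ψ h1 h2 => ?_]
      rw [hother ψ (by simpa [← hd] using h1) h2, zero_mul]
  have c1 : (starRingEnd ℂ) ((χ : G → ℂ) 1) = (χ : G → ℂ) 1 := by
    rw [← χ.2.isCharacter.charDegree_eq]; simp
  have h1 := key 1 fun h => hg (by rw [isConj_one_left.1 h]; exact one_mem _)
  rw [inv_one, mul_one, c1] at h1
  have gD : g ∈ commutator G := by
    by_contra h
    rw [if_neg h, zero_add] at h1
    exact mul_ne_zero hχg h10 h1
  rw [if_pos gD] at h1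
  have h2 : ∀ x ∉ commutator G, (χ : G → ℂ) x = 0 := fun x hx => by
    have := key x fun h => hx (by
      obtain ⟨c, rfl⟩ := isConj_iff.1 h
      exact (inferInstance : (commutator G).Normal).conj_mem g gD c)
    rw [if_neg fun h => hx (by simpa using mul_mem (inv_mem h) gD), zero_add] at this
    simpa [hχg] using this
  have h3 : ∀ x ∈ commutator G, ¬ IsConj g x → (χ : G → ℂ) x = (χ : G → ℂ) 1 := fun x hx h => by
    have := key x h
    rw [if_pos (mul_mem gD (inv_mem hx)), ← h1, add_right_inj, mul_right_inj' hχg, ← c1] at this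
    exact (starRingEnd ℂ).injective this
  have h4 : (χ : G → ℂ) g ≠ (χ : G → ℂ) 1 := fun h => by
    rw [h, ← χ.2.isCharacter.charDegree_eq] at h1
    have : (commutator G).index + charDegree (χ : G → ℂ) * charDegree (χ : G → ℂ) = 0 := by exact_mod_cast h1
    exact Subgroup.index_ne_zero_of_finite (by omega : (commutator G).index = 0)
  have hk : ∀ x, x ∈ charKer (χ : G → ℂ) ↔ (χ : G → ℂ) x = (χ : G → ℂ) 1 := fun x => χ.2.isCharacter.mem_charKer
  have hOC : OC (charKer (χ : G → ℂ)) g := by
    refine ⟨fun x hx => ?_, gD, fun h => h4 ((hk g).1 h), fun x hx h => ?_, fun z hz => ?_⟩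
    · by_contra h
      exact h10 (((hk x).1 hx).symm.trans (h2 x h))
    · by_contra h'
      exact h ((hk x).2 (h3 x hx h'))
    · by_contra h
      have := χ.2.mem_charCenter.1 (mem_charCenter_iff.2 hz)
      rw [h2 z h, norm_zero] at this
      exact χ.2.charDegree_pos.ne (by exact_mod_cast this)
  refine ⟨gD, by field_simp; linear_combination h1, ?_, h2, fun ψ hψ h => ?_, hOC.solvable⟩
  · ext x
    refine ⟨fun hx => (_root_.em (IsConj g x)).elim Or.inr fun h => Or.inl (h3 x hx h), ?_⟩
    rintro (h | h)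
    · exact hOC.le ((hk x).2 h)
    · obtain ⟨c, rfl⟩ := isConj_iff.1 h
      exact (inferInstance : (commutator G).Normal).conj_mem g gD c
  · by_contra hne
    refine hψ ((hd ψ).2 ((H07.commutator_le_charKer_iff ψ.2).1 fun x hx => ψ.2.isCharacter.mem_charKer.2 ?_))
    refine (H07.res_inner_one_ne_zero_iff (commutator G) ψ.2).1 ?_ x hx
    rw [classInner_def]
    refine mul_ne_zero (inv_ne_zero (by exact_mod_cast Nat.card_pos.ne')) ?_
    rw [Finset.sum_congr rfl (g := fun n : commutator G =>
      ((if IsConj g n then 0 else charDegree (ψ : G → ℂ) : ℕ) : ℂ)) fun n _ => ?_, ← Nat.cast_sum, Nat.cast_ne_zero]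
    · refine (Finset.sum_pos' (fun _ _ => Nat.zero_le _) ⟨1, Finset.mem_univ _, ?_⟩).ne'
      rw [if_neg fun h => hg (by rw [isConj_one_left.1 h]; exact one_mem _)]
      exact ψ.2.charDegree_pos
    · split_ifs with h5
      · obtain ⟨c, hc⟩ := isConj_iff.1 h5
        rw [← hc, ψ.2.isCharacter.isClassFunction, hother ψ hψ hne]; simp
      · rw [h _ (h3 _ n.2 h5), ψ.2.isCharacter.charDegree_eq]; simp

end Cfsg.Agent.S4805
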