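import Mathlib
import Cfsg.Statements.S4808
import Cfsg.Agent.H07.Deg

set_option autoImplicit false
open Cfsg
open H05 H06 Cfsg H07

namespace Cfsg.Agent.S4808

/-- The codegree of an irreducible complex character χ of a finite group G is [G : ker χ] / χ(1), where ker χ is the set of elements at which χ takes the value χ(1). A prime divides the order of G if and only if it divides the codegree of some irreducible complex character of G. -/
theorem result {G : Type*} [Group G] [Finite G] (p : ℕ) (hp : p.Prime) : p ∣ Nat.card G ↔ ∃ χ : Cfsg.IrrCharacter G, p ∣ (Nat.card G / (Nat.card {g : G // (χ : G → ℂ) g = (χ : G → ℂ) 1} * Cfsg.charDegree (χ : G → ℂ))) := by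
  refine ⟨fun h => ?_, fun ⟨χ, h⟩ => h.trans (cod_dvd χ.2)⟩
  by_contra h1
  have := Fact.mk hp
  obtain ⟨g, hg⟩ := exists_prime_orderOf_dvd_card' p h
  have h2 : ∀ χ : IrrCharacter G, χ.1 g = 0 ∨ χ.1 g = χ.1 1 := fun χ => by
    obtain ⟨ψ, h2, h3, h4⟩ := exists_faithful_quotient χ.2
    have h5 : charDegree χ.1 = charDegree ψ := congrArg charDegree h4
    rcases (Nat.dvd_prime hp).1 (hg ▸ orderOf_map_dvd (QuotientGroup.mk' (charKer χ.1)) g) with h6 | h6
    · exact .inr (χ.2.isCharacter.mem_charKer.1 ((QuotientGroup.eq_one_iff g).1 (orderOf_eq_one_iff.1 h6)))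
    · refine .inl ((congrFun h4 g).trans (h2.apply_eq_zero_of_defect_zero hp (fun h7 => h1 ⟨χ, ?_⟩) h6.symm.dvd))
      rwa [← Subgroup.index_eq_card, ← cod_mul χ.2, ← h5, Nat.mul_div_cancel _ χ.2.charDegree_pos] at h7
  have h3 := congrArg Complex.re (sum_degree_mul_apply_of_ne (g := g) (by
    rintro rfl; exact hp.ne_one (by simpa using hg.symm)))
  rw [Complex.re_sum] at h3
  refine (Finset.sum_pos' (fun χ _ => ?_) ⟨⟨1, isIrrCharacter_one⟩, Finset.mem_univ _, by simp⟩).ne' h3
  rcases h2 χ with h4 | h4 <;> rw [h4]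
  · simp
  · rw [← χ.2.charDegree_eq]; simp; positivity

end Cfsg.Agent.S4808
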