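import Mathlib
import Cfsg.Statements.S4813
import Cfsg.Agent.H07.MinNA

set_option autoImplicit false
open Cfsg
open H05 H06 Cfsg H07

namespace Cfsg.Agent.S4813

/-- If every irreducible complex character of the finite group G of degree greater than one has prime degree, then G has at most three distinct irreducible character degrees. -/
theorem result {G : Type*} [Group G] [Finite G] (hprime : ∀ d ∈ Cfsg.charDegrees G, d = 1 ∨ d.Prime) : Nat.card ↥(Cfsg.charDegrees G) ≤ 3 := by
  obtain ⟨p, q, h⟩ := H07.prime_degs (G := G) fun χ hχ => (hprime _ ⟨χ, rfl⟩).resolve_left hχ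
  refine (Set.ncard_le_ncard (t := {1, p, q}) ?_ (Set.toFinite _)).trans ((Set.ncard_insert_le _ _).trans
    (Nat.succ_le_succ ((Set.ncard_insert_le _ _).trans (by simp))))
  rintro _ ⟨χ, rfl⟩
  exact h χ

end Cfsg.Agent.S4813
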