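import Mathlib
import Cfsg.Statements.S4814
import Cfsg.Agent.H07.Cnt

set_option autoImplicit false
open Cfsg
open H05 Cfsg H07

namespace Cfsg.Agent.S4814

/-- Let G be a finite group such that the sum, over the irreducible complex characters χ of G, of 1/χ(1)² is less than 2. Then every element of G is a product of two commutators. -/
theorem result {G : Type*} [Group G] [Finite G]
    (h : ∑ᶠ χ : Cfsg.IrrCharacter G, 1 / ‖(χ : G → ℂ) 1‖ ^ 2 < (2 : ℝ)) (g : G) :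
    ∃ a b c d : G, (a * b * a⁻¹ * b⁻¹) * (c * d * c⁻¹ * d⁻¹) = g := by
  classical
  have := Fintype.ofFinite G
  by_contra hc
  have h1 := card_fiber_eq' (fun p : (G × G) × G × G =>
    p.1.1 * p.1.2 * p.1.1⁻¹ * p.1.2⁻¹ * (p.2.1 * p.2.2 * p.2.1⁻¹ * p.2.2⁻¹)) g
  rw [Nat.card_eq_zero (α := Subtype _).2 (.inl ⟨fun p => hc ⟨_, _, _, _, p.2⟩⟩), Nat.cast_zero,
    mul_zero] at h1
  have h2 : ∀ χ : IrrCharacter G, χ.1 1 * ∑ p : (G × G) × G × G, χ.1 (p.1.1 * p.1.2 * p.1.1⁻¹ * p.1.2⁻¹ *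
      (p.2.1 * p.2.2 * p.2.1⁻¹ * p.2.2⁻¹) * g⁻¹) = (Nat.card G : ℂ) ^ 4 * (χ.1 g⁻¹ / χ.1 1 ^ 3) := fun χ => by
    rw [Fintype.sum_prod_type_right]
    simp only [Fintype.sum_prod_type, mul_assoc _ _ g⁻¹, sum_comm_mul χ.2]
    simp only [← mul_assoc _ _ g⁻¹, ← Finset.sum_div, ← Finset.mul_sum, sum_comm_mul χ.2]
    have := χ.2.apply_one_ne_zero
    field_simp
  simp only [h2, ← Finset.mul_sum] at h1
  have h3 := (mul_eq_zero.1 h1.symm).resolve_left (pow_ne_zero _ (H06.natCard_ne_zero G))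
  rw [← Finset.add_sum_erase _ _ (Finset.mem_univ ⟨1, isIrrCharacter_one⟩)] at h3
  rw [finsum_eq_sum_of_fintype, ← Finset.add_sum_erase _ _ (Finset.mem_univ ⟨1, isIrrCharacter_one⟩)] at h
  have h4 := congrArg norm (eq_neg_of_add_eq_zero_left h3)
  rw [norm_neg] at h4
  have h5 := h4.trans_le ((norm_sum_le _ _).trans (Finset.sum_le_sum (g := fun χ => 1 / ‖χ.1 1‖ ^ 2)
    fun χ _ => by
      have := norm_pos_iff.2 χ.2.apply_one_ne_zero
      rw [norm_div, norm_pow, div_le_div_iff₀ (by positivity) (by positivity)]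
      nlinarith [χ.2.isCharacter.norm_le_norm_one g⁻¹, pow_pos this 2]))
  simp only [Pi.one_apply, one_pow, div_one, norm_one] at h h5
  linarith

end Cfsg.Agent.S4814
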