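import Mathlib
import Cfsg.Agent.H20.Cnt
-- Template for statement S4825 (row 4825; see /opt/grader/pristine/manifest.json for weights).
-- Copy to Cfsg/Agent/S4825.lean and replace the sorry. The statement below is byte-identical to the frozen
-- statement Cfsg.CfsgFrozen.S4825 (Cfsg/Statements/S4825.lean; the theorem Cfsg.blk10_maximal_defect_block_height_zero_count_over_character_not_one);
-- the grader kernel-checks Cfsg.Agent.S4825.result against that frozen type. Keep the theorem IN THIS FILE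
-- (a `result` declared elsewhere and merely imported here is not credited); helpers may live anywhere
-- under Cfsg/Agent/.
import Cfsg.Statements.S4825
-- import your own Cfsg.Agent.* helpers here

set_option autoImplicit false
open Cfsg

open H20 H05 H21 MonoidAlgebra Cfsg

namespace Cfsg.Agent.S4825

/-- Let p be a prime, G a finite group with Sylow p-subgroup P, M a maximal ideal of the algebraic integers containing p, and B a p-block of G with defect group P. Let N be a normal subgroup of G not containing P and θ an irreducible character of N. Then the number of irreducible characters in B of degree prime to p lying over θ (having θ as a constituent on restriction to N) is either 0 or at least 2, and when p ≤ 3 it is divisible by p. -/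
theorem result {G : Type*} [Group G] [Fintype G] (p : ℕ) [Fact p.Prime] (P : Sylow p G) (M : Ideal Cfsg.AlgInt) (hM : Cfsg.IsPModular p M) (B : Set (Cfsg.IrrCharacter G)) (hB : Cfsg.IsPBlock M B) (hBP : Cfsg.IsDefectGroup p M B P) (N : Subgroup G) [N.Normal] [Fintype N] (hPN : ¬ (P : Subgroup G) ≤ N) (θ : Cfsg.IrrCharacter N) :
    (Nat.card {χ : Cfsg.IrrCharacter G // χ ∈ B ∧ ¬ p ∣ Cfsg.charDegree (χ : G → ℂ) ∧ Cfsg.classInner (fun n : N => (χ : G → ℂ) n) (θ : N → ℂ) ≠ 0} = 0 ∨
      2 ≤ Nat.card {χ : Cfsg.IrrCharacter G // χ ∈ B ∧ ¬ p ∣ Cfsg.charDegree (χ : G → ℂ) ∧ Cfsg.classInner (fun n : N => (χ : G → ℂ) n) (θ : N → ℂ) ≠ 0}) ∧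
    (p ≤ 3 → p ∣ Nat.card {χ : Cfsg.IrrCharacter G // χ ∈ B ∧ ¬ p ∣ Cfsg.charDegree (χ : G → ℂ) ∧ Cfsg.classInner (fun n : N => (χ : G → ℂ) n) (θ : N → ℂ) ≠ 0}) := by
  classical
  have := hM.2.1
  obtain ⟨u, hu, huN⟩ := SetLike.not_le_iff_exists.1 hPN
  obtain ⟨k, hk⟩ := IsPGroup.iff_orderOf.1 P.isPGroup' ⟨u, hu⟩
  rw [Subgroup.orderOf_mk] at hk
  obtain ⟨j, -, hj⟩ := (Nat.dvd_prime_pow hM.1).1 (hk ▸ orderOf_map_dvd (QuotientGroup.mk' N) u)
  have h1 := dvd_sum_sq hM ⟨k, hk⟩ (blockCoeff_inter_over hM hB.isInt_idem {θ} (u := u⁻¹) (by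
    rw [map_inv, orderOf_inv, hj]
    refine dvd_pow_self p fun h => huN (mk'_eq_one.1 (orderOf_eq_one_iff.1 ?_))
    rw [hj, h, pow_zero]))
  rw [Nat.card_congr (Equiv.subtypeEquivRight (q := fun χ : IrrCharacter G =>
    χ ∈ B ∩ {χ | ∃ θ' ∈ ({θ} : Set _), Over N (χ : G → ℂ) θ'} ∧ ¬ p ∣ charDegree (χ : G → ℂ)) fun χ => by
      simp only [Set.mem_inter_iff, Set.mem_singleton_iff, exists_eq_left, Set.mem_ofPred_eq, over_iff]
      tauto)]
  have h2 := card_ne_one_of_dvd hM.1 h1
  exact ⟨by omega, fun h => dvd_card_of_le_three hM.1 h h1⟩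

end Cfsg.Agent.S4825
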