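import Mathlib
import Cfsg.Agent.H20.Quot2
-- Template for statement S4828 (row 4828; see /opt/grader/pristine/manifest.json for weights).
-- Copy to Cfsg/Agent/S4828.lean and replace the sorry. The statement below is byte-identical to the frozen
-- statement Cfsg.CfsgFrozen.S4828 (Cfsg/Statements/S4828.lean; the theorem Cfsg.blk10_maximal_brauer_pair_iff_defect_zero_character_and_p_prime_stabilizer);
-- the grader kernel-checks Cfsg.Agent.S4828.result against that frozen type. Keep the theorem IN THIS FILE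
-- (a `result` declared elsewhere and merely imported here is not credited); helpers may live anywhere
-- under Cfsg/Agent/.
import Cfsg.Statements.S4828
-- import your own Cfsg.Agent.* helpers here

set_option autoImplicit false
open Cfsg

open H20 H05 H21 MonoidAlgebra Cfsg

namespace Cfsg.Agent.S4828

/-- Let p be a prime, M a maximal ideal of the algebraic integers containing p, and (Q, e) a Brauer pair of the finite group G (Q a p-subgroup, e a block of C_G(Q)). Then (Q, e) is a maximal Brauer pair of some block of G if and only if e contains an irreducible character θ such that θ takes the value θ(1) at every element of Z(Q) = Q ∩ C_G(Q), the p-part of θ(1) times the p-part of the order of Z(Q) equals the p-part of the order of C_G(Q) (θ has defect zero as a character of C_G(Q)/Z(Q)), and every element of N_G(Q) of p-power order that stabilizes e lies in Q·C_G(Q) (the stabilizer of e in N_G(Q) has index prime to p over Q·C_G(Q)). -/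
theorem result {G : Type*} [Group G] [Finite G] (p : ℕ) [Fact p.Prime] (M : Ideal Cfsg.AlgInt) (hM : Cfsg.IsPModular p M) (Q : Subgroup G) (e : Set (Cfsg.IrrCharacter (Subgroup.centralizer (Q : Set G)))) (he : Cfsg.IsBrauerPair p M Q e) :
    (∃ B : Set (Cfsg.IrrCharacter G), Cfsg.IsMaximalBrauerPair p M B Q e) ↔
      ∃ θ ∈ e, (∀ z : Subgroup.centralizer (Q : Set G), (z : G) ∈ Q → (θ : Subgroup.centralizer (Q : Set G) → ℂ) z = (θ : Subgroup.centralizer (Q : Set G) → ℂ) 1) ∧
        (Cfsg.charDegree (θ : Subgroup.centralizer (Q : Set G) → ℂ)).factorization p + (Nat.card ↥(Q ⊓ Subgroup.centralizer (Q : Set G))).factorization p = (Nat.card (Subgroup.centralizer (Q : Set G))).factorization p ∧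
        (∀ g : G, g ∈ Subgroup.normalizer (Q : Set G) → Cfsg.StabilizesBlock (Subgroup.centralizer (Q : Set G)) e g → (∃ k : ℕ, orderOf g = p ^ k) → g ∈ Q ⊔ Subgroup.centralizer (Q : Set G)) := by
  have := hM.2.1
  have ha : BP p M ⟨Q, e⟩ := he
  have hQ : IsPGroup p Q := he.1
  have hZ : ((Q ⊓ Subgroup.centralizer (Q : Set G)).subgroupOf (Subgroup.centralizer (Q : Set G))) ≤
      Subgroup.center _ := by
    intro z hz
    rw [Subgroup.mem_center_iff]
    intro c
    exact Subtype.ext (Subgroup.mem_centralizer_iff.1 c.2 _ hz.1).symm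
  have hZp : IsPGroup p
      ((Q ⊓ Subgroup.centralizer (Q : Set G)).subgroupOf (Subgroup.centralizer (Q : Set G))) :=
    (hQ.to_le inf_le_left).comap_subtype
  have hc := Nat.card_congr (Subgroup.subgroupOfEquivOfLe
    (inf_le_right : Q ⊓ Subgroup.centralizer (Q : Set G) ≤ _)).toEquiv
  have hm := maxBr_iB_iff hM he.2 (inf_le_right : Q ⊓ Subgroup.centralizer (Q : Set G) ≤ _)
  have hk : ∀ θ : IrrCharacter (Subgroup.centralizer (Q : Set G)), θ ∈ kerSet
      ((Q ⊓ Subgroup.centralizer (Q : Set G)).subgroupOf (Subgroup.centralizer (Q : Set G))) ↔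
      ∀ z : Subgroup.centralizer (Q : Set G), (z : G) ∈ Q → θ.1 z = θ.1 1 := fun θ =>
    ⟨fun h z hz => h z ⟨hz, z.2⟩, fun h z hz => h z hz.1⟩
  generalize (Q ⊓ Subgroup.centralizer (Q : Set G)).subgroupOf (Subgroup.centralizer (Q : Set G)) = Z at *
  have : Z.Normal := ⟨fun n hn g => by
    rw [Subgroup.mem_center_iff.1 (hZ hn) g, mul_inv_cancel_right]; exact hn⟩
  have hs : Z ⊔ Subgroup.centralizer (Z : Set _) = ⊤ := by
    rw [Subgroup.centralizer_eq_top_iff_subset.2 hZ, sup_top_eq]
  constructor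
  · rintro ⟨B, hB⟩
    have hB' : PMax p M B ⟨Q, e⟩ := hB
    have h0 := hB'.maxBr hM (H := Subgroup.centralizer (Q : Set G))
      (centralizer_le_pstab (⟨Q, e⟩ : BrauerPairIdx G))
    have hD := hm.1 h0
    obtain ⟨θ, hθ, h1⟩ := he.2.exists_ker hM hZp
    refine ⟨θ, hθ, (hk θ).1 h1, hc ▸ factorization_degree_of_ker hM hs he.2 hD hθ h1,
      fun g hg hg' ⟨k, hk⟩ => ?_⟩
    refine hB'.le_sup_centralizer hM (S := Subgroup.zpowers g) ?_
      (Subgroup.zpowers_le.2 ((mem_pstab_iff (a := ⟨Q, e⟩)).2 ⟨hg, hg'⟩)) (Subgroup.mem_zpowers g)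
    exact IsPGroup.of_card (by rw [Nat.card_zpowers, hk])
  · rintro ⟨θ, hθ, h1, h2, h3⟩
    have hD := hm.2 (isDefectGroup_of_ker hM hZp hs he.2 hθ ((hk θ).2 h1) (by rw [hc]; exact h2.ge))
    have h4 := MaxBr.sup_of_centralizer (a := ⟨Q, e⟩) hQ hD
    rw [show (⟨Q, e⟩ : BrauerPairIdx G).1 ⊔ (Q ⊓ Subgroup.centralizer (Q : Set G)) = Q from
      sup_eq_left.2 inf_le_left] at h4
    obtain ⟨B, hB⟩ := exists_pOf hM ha
    refine ⟨B, hB.pMax_of_maxBr hM ⟨le_pstab (⟨Q, e⟩ : BrauerPairIdx G), hQ, h4.ne, fun R hR h5 h6 h7 => h4.max R hR h5 ?_ h7⟩⟩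
    intro g hg
    exact h3 g (mem_pstab_iff.1 (h6 hg)).1 (mem_pstab_iff.1 (h6 hg)).2 (orderOf_pow_of_mem hR hg)

end Cfsg.Agent.S4828
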