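import Mathlib
import Cfsg.Statements.S4838
import Cfsg.Agent.H07.Gagola

set_option autoImplicit false
open Cfsg
open H05 H06 Cfsg H07

namespace Cfsg.Agent.S4838

/-- Let G be a finite group of order greater than 2 with an irreducible character χ nonzero on exactly two conjugacy classes, N the normal p-subgroup of elements where χ is nonzero, and P a Sylow p-subgroup of G. Then (a) for every x outside N the centralizer of x in G has the same order as the centralizer of xN in G/N; (b) the centre of P lies in N, and equals N exactly when P is normal in G; (c) N, viewed inside P, is a term of the upper central series of P. -/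
theorem result {G : Type*} [Group G] [Finite G] (hG : 2 < Nat.card G) (χ : Cfsg.IrrCharacter G) (hχ : Nat.card {C : ConjClasses G // ∃ g ∈ C.carrier, (χ : G → ℂ) g ≠ 0} = 2) (p : ℕ) [Fact p.Prime] (N : Subgroup G) [N.Normal] (hN : ∀ g : G, g ∈ N ↔ (χ : G → ℂ) g ≠ 0) (hNp : IsPGroup p N) (hN1 : N ≠ ⊥) (P : Sylow p G) :
    (∀ x : G, x ∉ N → Nat.card (Subgroup.centralizer ({x} : Set G)) = Nat.card (Subgroup.centralizer ({(x : G ⧸ N)} : Set (G ⧸ N)))) ∧
      ((Subgroup.center ↥(P : Subgroup G)).map (P : Subgroup G).subtype ≤ N ∧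
        ((Subgroup.center ↥(P : Subgroup G)).map (P : Subgroup G).subtype = N ↔ (P : Subgroup G).Normal)) ∧
      (∃ i : ℕ, Subgroup.upperCentralSeries ↥(P : Subgroup G) i = N.subgroupOf (P : Subgroup G)) := by
  obtain ⟨M, hM, h⟩ := exists_gag hG χ hχ
  obtain rfl : N = M := Subgroup.ext fun g => (hN g).trans (h.mem g)
  have hNP : N ≤ P := hNp.le_sylow_of_normal P
  have h1 : (Subgroup.center P).map (P : Subgroup G).subtype ≤ N := by
    rintro _ ⟨y, hy, rfl⟩
    by_contra h1
    have := h.card_le hNp P h1 ⊥ fun x =>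
      commutatorElement_eq_one_iff_mul_comm.2 (Subgroup.mem_center_iff.1 hy x).symm
    exact hN1 (Subgroup.card_eq_one.1 (le_antisymm (by simpa using this) Nat.card_pos))
  refine ⟨fun x => h.card_cent, ⟨h1, fun h2 => ?_, fun h2 => le_antisymm h1 (h.le _ fun h3 => ?_)⟩, ?_⟩
  · obtain ⟨z, hz⟩ := Subgroup.ne_bot_iff_exists_ne_one.1 hN1
    obtain ⟨Q, hQ⟩ := h.exists_sylow hNp (h.index_cent z.2 (by simpa using hz))
    have h3 : (P : Subgroup G) ≤ Subgroup.centralizer (N : Set G) := fun x hx n hn => by
      obtain ⟨y, hy, rfl⟩ := h2.ge hn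
      exact congrArg Subtype.val (Subgroup.mem_center_iff.1 hy ⟨x, hx⟩).symm
    rw [← P.3 (Q.2.to_le (hQ ▸ Subgroup.centralizer_le (Set.singleton_subset_iff.2 z.2))) h3]
    infer_instance
  · have := (Subgroup.nontrivial_iff_ne_bot _).2 (ne_bot_of_le_ne_bot hN1 hNP)
    have := P.2.center_nontrivial
    exact (Subgroup.nontrivial_iff_ne_bot _).1 this
      ((Subgroup.map_eq_bot_iff_of_injective _ (P : Subgroup G).subtype_injective).1 h3)
  · by_contra h2
    have h3 : ∀ i, Subgroup.upperCentralSeries P i ≤ N.subgroupOf P := fun i => by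
      induction i with
      | zero => exact bot_le
      | succ i ih =>
        intro y hy
        by_contra h3
        exact h2 ⟨i, Subgroup.eq_of_le_of_card_ge ih (by
          rw [Nat.card_congr (Subgroup.subgroupOfEquivOfLe hNP).toEquiv]
          exact h.card_le hNp P h3 _ hy)⟩
    have := P.2.isNilpotent
    exact h2 ⟨_, le_antisymm (h3 _) (le_top.trans (Subgroup.upperCentralSeries_nilpotencyClass (G := P)).ge)⟩

end Cfsg.Agent.S4838
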