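import Mathlib
import Cfsg.Agent.S4838
import Cfsg.Agent.H02.Frobenius
import Cfsg.Agent.H08.BaerSuzuki
import Cfsg.Agent.H02.PCore
-- Template for statement S4839 (row 4839; see /opt/grader/pristine/manifest.json for weights).
-- Copy to Cfsg/Agent/S4839.lean and replace the sorry. The statement below is byte-identical to the frozen
-- statement Cfsg.CfsgFrozen.S4839 (Cfsg/Statements/S4839.lean; the theorem Cfsg.chr10_character_nonzero_on_two_classes_support_eq_p_core_iff_two_transitive_frobenius);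
-- the grader kernel-checks Cfsg.Agent.S4839.result against that frozen type. Keep the theorem IN THIS FILE
-- (a `result` declared elsewhere and merely imported here is not credited); helpers may live anywhere
-- under Cfsg/Agent/.
import Cfsg.Statements.S4839
-- import your own Cfsg.Agent.* helpers here

set_option autoImplicit false
open Cfsg

open H05 H06 H07 H02 Cfsg Classical

namespace Cfsg.Agent.S4839

section
variable {G : Type*} [Group G] [Finite G] {χ : IrrCharacter G} {N : Subgroup G} [hn : N.Normal]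
  {p : ℕ} [hp : Fact p.Prime]

omit hn in
theorem camina (h : Gag χ N) {x n : G} (hx : x ∉ N) (hn : n ∈ N) : IsConj x (x * n) := by
  refine (isConj_iff_irr _ _).2 fun ψ => ?_
  by_cases hψ : ψ = χ
  · subst hψ
    have h1 : ψ.1 x = 0 := by by_contra h1; exact hx ((h.mem _).1 h1)
    have h2 : ψ.1 (x * n) = 0 := by
      by_contra h2; exact hx ((N.mul_mem_cancel_right hn).1 ((h.mem _).1 h2))
    rw [h1, h2]
  · exact (ψ.2.isCharacter.apply_mul_of_eq' (h.ker ψ hψ n hn) x).symm

theorem cent_pg (h : Gag χ N) (hN : IsPGroup p N) {v : G} (hv : v ∈ N) (h1 : v ≠ 1) :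
    IsPGroup p (Subgroup.centralizer ({v} : Set G)) := by
  obtain ⟨Q, hQ⟩ := h.exists_sylow hN (h.index_cent hv h1)
  rw [hQ]; exact Q.2

theorem cent_le (h : Gag χ N) (hN : N = pCore p G) : Subgroup.centralizer (N : Set G) ≤ N := by
  have hNp : IsPGroup p N := hN ▸ pCore_isPGroup p G
  obtain ⟨z, hz⟩ := Subgroup.ne_bot_iff_exists_ne_one.1 h.ne_bot
  have := (cent_pg h hNp z.2 (by simpa using hz)).to_le
    (Subgroup.centralizer_le (Set.singleton_subset_iff.2 z.2))
  exact (le_pCore this).trans hN.ge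

theorem elem (h : Gag χ N) (hN : IsPGroup p N) : IsElementaryAbelian p N := by
  obtain ⟨q, hq, h1⟩ := h.elem
  obtain ⟨z, hz⟩ := Subgroup.ne_bot_iff_exists_ne_one.1 h.ne_bot
  obtain ⟨k, hk⟩ := IsPGroup.iff_orderOf.1 hN z
  have := Fact.mk hq
  have h2 : orderOf z = q := orderOf_eq_prime (Subtype.ext (h1.2 z z.2)) hz
  have : q = p := (Nat.prime_dvd_prime_iff_eq hq hp.out).1 (hq.dvd_of_dvd_pow (n := k) (by rw [← hk, h2]))
  exact this ▸ h1

theorem two_case (h : Gag χ N) (hN : N = pCore 2 G) {g : G} (hg : g * g ∈ N) : g ∈ N := by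
  have hNp : IsPGroup 2 N := hN ▸ pCore_isPGroup 2 G
  obtain ⟨hab, he⟩ := elem h hNp
  have hc : ∀ a ∈ N, ∀ b ∈ N, a * b = b * a := fun a ha b hb =>
    congrArg Subtype.val (hab.is_comm.comm ⟨a, ha⟩ ⟨b, hb⟩)
  have he' : ∀ a ∈ N, a * a = 1 := fun a ha => by rw [← sq]; exact he a ha
  have hinv : ∀ t, t * t = 1 → t ∈ N := by
    intro t ht
    by_contra h1
    refine h1 (cent_le h hN (Subgroup.mem_centralizer_iff.2 fun n hn => ?_))
    obtain ⟨c, hc⟩ := isConj_iff.1 (camina h h1 hn)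
    have h2 : (t * n) * (t * n) = 1 := by
      rw [← hc]
      calc _ = c * (t * t) * c⁻¹ := by group
        _ = 1 := by rw [ht]; group
    calc n * t = t * t * (n * t) * (n * n) := by rw [ht, he' n hn]; group
      _ = t * ((t * n) * (t * n)) * n := by group
      _ = t * n := by rw [h2]; group
  have big : ∀ g, g ∉ N → g * g ∈ N → Nat.card N <
      Nat.card ((Subgroup.centralizer ({g} : Set G)).subgroupOf N) ^ 2 := by
    intro g h1 h2
    let φ : N →* N :=
      { toFun := fun v => ⟨g * v * g⁻¹ * v, N.mul_mem (hn.conj_mem _ v.2 g) v.2⟩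
        map_one' := Subtype.ext (by simp)
        map_mul' := fun a b => Subtype.ext (by
          have := hc _ (hn.conj_mem _ b.2 g) _ a.2
          simp only [Subgroup.coe_mul]
          calc _ = g * a * g⁻¹ * ((g * b * g⁻¹) * a) * b := by group
            _ = _ := by rw [this]; group) }
    have hker : φ.ker = (Subgroup.centralizer ({g} : Set G)).subgroupOf N := by
      ext v
      rw [MonoidHom.mem_ker, Subgroup.mem_subgroupOf, Subgroup.mem_centralizer_iff]
      simp only [Set.mem_singleton_iff, forall_eq]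
      constructor
      · intro h3
        have h4 : g * v * g⁻¹ * v = 1 := congrArg Subtype.val h3
        calc g * v = (g * v * g⁻¹ * v) * (v : G)⁻¹ * g := by group
          _ = ((v : G) * v) * (v : G)⁻¹ * g := by rw [h4, he' v v.2]
          _ = _ := by group
      · intro h3
        refine Subtype.ext ?_
        show g * v * g⁻¹ * v = 1
        rw [h3, mul_inv_cancel_right, he' v v.2]
    have hlt : φ.range < φ.ker := by
      refine lt_of_le_of_ne ?_ fun h3 => ?_
      · rintro _ ⟨v, rfl⟩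
        refine Subtype.ext ?_
        show g * (g * v * g⁻¹ * v) * g⁻¹ * (g * v * g⁻¹ * v) = 1
        have h4 := hc _ h2 _ v.2
        have h5 := he' _ (hn.conj_mem _ v.2 g)
        calc _ = (g * g * v) * g⁻¹ * g⁻¹ * ((g * v * g⁻¹) * (g * v * g⁻¹)) * v := by group
          _ = v * v := by rw [h4, h5]; group
          _ = 1 := he' v v.2
      · have h4 : (⟨g * g, h2⟩ : N) ∈ φ.ker := by
          rw [hker, Subgroup.mem_subgroupOf, Subgroup.mem_centralizer_iff]
          simp [mul_assoc]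
        rw [← h3] at h4
        obtain ⟨v, hv⟩ := h4
        have hv' : g * v * g⁻¹ * v = g * g := congrArg Subtype.val hv
        refine h1 ((N.mul_mem_cancel_right v.2).1 (hinv _ ?_))
        have h5 := he' _ (N.mul_mem (hn.conj_mem _ v.2 g) v.2)
        have h6 := hc _ h2 _ v.2
        calc g * v * (g * v) = g * v * g⁻¹ * ((g * g) * v) := by group
          _ = (g * v * g⁻¹ * v) * (g * g) := by rw [h6]; group
          _ = 1 := by rw [← hv', h5]
    have h3 := Subgroup.card_mul_index φ.ker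
    rw [Subgroup.index_ker] at h3
    have h4 : Nat.card φ.range < Nat.card φ.ker := by
      refine lt_of_le_of_ne (Subgroup.card_le_of_le hlt.le) fun e => hlt.ne ?_
      exact Subgroup.eq_of_le_of_card_ge hlt.le e.ge
    rw [← hker, ← h3, sq]
    exact Nat.mul_lt_mul_of_pos_left h4 Nat.card_pos
  by_contra h1
  refine h1 (hN ▸ H08.baer_suzuki_elt (p := 2) g fun c => ?_)
  have h2 : c * g * c⁻¹ ∉ N := fun h2 => h1 (by simpa [mul_assoc] using hn.conj_mem _ h2 c⁻¹)
  have h3 : (c * g * c⁻¹) * (c * g * c⁻¹) ∈ N := by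
    simpa [mul_assoc] using hn.conj_mem _ hg c
  have b1 := big g h1 hg
  have b2 := big _ h2 h3
  set A := (Subgroup.centralizer ({g} : Set G)).subgroupOf N
  set B := (Subgroup.centralizer ({c * g * c⁻¹} : Set G)).subgroupOf N
  have h4 : A ⊓ B ≠ ⊥ := by
    intro h4
    have h5 : Nat.card A * Nat.card B ≤ Nat.card N := by
      rw [← Nat.card_prod]
      exact Nat.card_le_card_of_injective _ (Subgroup.mul_injective_of_disjoint (disjoint_iff.2 h4))
    have h6 := Nat.mul_lt_mul'' b1 b2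
    have h7 := Nat.mul_le_mul h5 h5
    rw [← mul_pow, sq] at h6
    omega
  obtain ⟨⟨v, hv⟩, hv1⟩ := Subgroup.ne_bot_iff_exists_ne_one.1 h4
  refine (cent_pg h hNp v.2 (by simpa using hv1)).to_le ((Subgroup.closure_le _).2 ?_)
  have h5 := Subgroup.mem_centralizer_iff.1 (Subgroup.mem_subgroupOf.1 hv.1) _ rfl
  have h6 := Subgroup.mem_centralizer_iff.1 (Subgroup.mem_subgroupOf.1 hv.2) _ rfl
  rintro x (rfl | rfl)
  · exact Subgroup.mem_centralizer_iff.2 (by rintro _ rfl; exact h5.symm)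
  · exact Subgroup.mem_centralizer_iff.2 (by rintro _ rfl; exact h6.symm)

theorem odd_case (h : Gag χ N) (hN : N = pCore p G) (h2 : p ≠ 2)
    (hZ : ∀ P : Sylow p G, (Subgroup.center P).map (P : Subgroup G).subtype ≤ N)
    {g : G} (hg : g ^ p ∈ N) : g ∈ N := by
  have hNp : IsPGroup p N := hN ▸ pCore_isPGroup p G
  obtain ⟨hab, he⟩ := elem h hNp
  have hc : ∀ a ∈ N, ∀ b ∈ N, a * b = b * a := fun a ha b hb =>
    congrArg Subtype.val (hab.is_comm.comm ⟨a, ha⟩ ⟨b, hb⟩)
  obtain ⟨v0, hv0⟩ := Subgroup.ne_bot_iff_exists_ne_one.1 h.ne_bot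
  obtain ⟨k, hk⟩ := IsPGroup.iff_card.1 hNp
  have hodd : Odd (Nat.card N) := hk ▸ (hp.out.odd_of_ne_two h2).pow
  have h3 : 2 ∣ Nat.card G := by
    refine Dvd.dvd.trans ?_ (Subgroup.index_dvd_card (Subgroup.centralizer ({(v0 : G)} : Set G)))
    have := h.index_cent v0.2 (by simpa using hv0)
    rw [← this] at hodd
    exact even_iff_two_dvd.1 (Nat.not_odd_iff_even.1 (Nat.odd_add_one.1 hodd))
  obtain ⟨z, hz⟩ := exists_prime_orderOf_dvd_card' 2 h3
  have fpf : ∀ t : G, orderOf t = 2 → N ⊓ Subgroup.centralizer {t} = ⊥ := by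
    intro t ht
    rw [eq_bot_iff]
    rintro v ⟨hv, hv'⟩
    by_contra h1
    have h4 : t ∈ Subgroup.centralizer ({v} : Set G) := Subgroup.mem_centralizer_iff.2 (by
      rintro _ rfl; exact (Subgroup.mem_centralizer_iff.1 hv' t rfl).symm)
    obtain ⟨j, hj⟩ := IsPGroup.iff_orderOf.1 (cent_pg h hNp hv h1) ⟨t, h4⟩
    rw [Subgroup.orderOf_mk, ht] at hj
    exact h2 ((Nat.prime_dvd_prime_iff_eq Nat.prime_two hp.out).1
      (Nat.prime_two.dvd_of_dvd_pow (n := j) (by rw [← hj]))).symm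
  have inv : ∀ t : G, orderOf t = 2 → ∀ v ∈ N, t * v * t⁻¹ = v⁻¹ := fun t ht v hv =>
    fpf_involution_inverts (by rw [Subgroup.normalizer_eq_top]; trivial)
      (by rw [← sq, ← ht, pow_orderOf_eq_one]) (fpf t ht) hv
  have dec : ∀ y : G, ∃ v ∈ N, v * y ∈ Subgroup.centralizer ({z} : Set G) := by
    intro y
    have h4 : orderOf (y * z * y⁻¹) = 2 := by
      rw [← hz]; exact (MulAut.conj y).orderOf_eq z
    have h5 : z⁻¹ * (y * z * y⁻¹) ∈ N := by
      refine cent_le h hN (Subgroup.mem_centralizer_iff.2 fun v hv => ?_)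
      have a1 := inv z hz v hv
      have a2 := inv _ h4 v hv
      calc v * (z⁻¹ * (y * z * y⁻¹)) = z⁻¹ * (z * v * z⁻¹) * (y * z * y⁻¹) := by group
        _ = _ := by rw [a1, ← a2]; group
    obtain ⟨w, hw⟩ := (Nat.Coprime.pow_left_bijective (n := 2) (G := N)
      (Odd.coprime_two_right hodd)).2 ⟨_, h5⟩
    have hw' : (w : G) * w = z⁻¹ * (y * z * y⁻¹) := by rw [← sq]; exact congrArg Subtype.val hw
    refine ⟨w, w.2, Subgroup.mem_centralizer_iff.2 ?_⟩
    intro t ht
    rw [Set.mem_singleton_iff.1 ht]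
    have a1 := inv z hz w w.2
    calc z * (w * y) = w * (z * w * z⁻¹) * z * (w * y) := by rw [a1]; group
      _ = w * z * ((w : G) * w) * y := by group
      _ = _ := by rw [hw']; group
  by_contra h1
  obtain ⟨v, hv, hx⟩ := dec g
  set x := v * g with hxd
  have hxN : x ∉ N := fun h4 => h1 ((N.mul_mem_cancel_left hv).1 h4)
  have hzN : ∀ a ∈ N, a ∈ Subgroup.centralizer ({z} : Set G) → a = 1 := fun a h4 h5 =>
    Subgroup.mem_bot.1 (fpf z hz ▸ Subgroup.mem_inf.2 ⟨h4, h5⟩)
  have hxp : x ^ p = 1 := by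
    refine hzN _ ?_ (Subgroup.pow_mem _ hx p)
    rw [← QuotientGroup.eq_one_iff] at hg hv ⊢
    rw [hxd, QuotientGroup.mk_pow, QuotientGroup.mk_mul, hv, one_mul, ← QuotientGroup.mk_pow, hg]
  have hsurj : Function.Surjective fun n : N => (⟨x⁻¹ * n * x * n⁻¹, N.mul_mem
      (by simpa using hn.conj_mem _ n.2 x⁻¹) (N.inv_mem n.2)⟩ : N) := by
    intro n
    obtain ⟨c, hc⟩ := isConj_iff.1 (camina h hxN n.2)
    obtain ⟨u, hu, hu'⟩ := dec c
    have h4 : (u * c) * x * (u * c)⁻¹ * x⁻¹ = 1 := by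
      refine hzN _ ?_ (Subgroup.mul_mem _ (Subgroup.mul_mem _ (Subgroup.mul_mem _ hu' hx)
        (Subgroup.inv_mem _ hu')) (Subgroup.inv_mem _ hx))
      have : (u * c) * x * (u * c)⁻¹ * x⁻¹ = u * (x * (n * u⁻¹) * x⁻¹) := by
        calc _ = u * (c * x * c⁻¹) * u⁻¹ * x⁻¹ := by group
          _ = _ := by rw [hc]; group
      rw [this]
      exact N.mul_mem hu (hn.conj_mem _ (N.mul_mem n.2 (N.inv_mem hu)) x)
    refine ⟨⟨u⁻¹, N.inv_mem hu⟩, Subtype.ext ?_⟩
    show x⁻¹ * u⁻¹ * x * u⁻¹⁻¹ = n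
    calc _ = x⁻¹ * u⁻¹ * ((u * c) * x * (u * c)⁻¹ * x⁻¹) * x * u := by rw [h4]; group
      _ = x⁻¹ * (c * x * c⁻¹) := by group
      _ = _ := by rw [hc]; group
  have hinj := Finite.injective_iff_surjective.2 hsurj
  obtain ⟨P, hP⟩ := IsPGroup.exists_le_sylow (P := Subgroup.zpowers x) (p := p) (by
    rintro ⟨_, j, rfl⟩
    refine ⟨1, Subtype.ext ?_⟩
    simp only [pow_one, SubmonoidClass.coe_pow, OneMemClass.coe_one]
    rw [← zpow_natCast, ← zpow_mul, mul_comm, zpow_mul, zpow_natCast, hxp, one_zpow])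
  have hxP : x ∈ (P : Subgroup G) := hP (Subgroup.mem_zpowers x)
  have := (Subgroup.nontrivial_iff_ne_bot _).2 (ne_bot_of_le_ne_bot h.ne_bot (hNp.le_sylow_of_normal P))
  have := P.2.center_nontrivial
  obtain ⟨w, hw⟩ := exists_ne (1 : Subgroup.center P)
  have hwN : ((w : P) : G) ∈ N := hZ P ⟨w, w.2, rfl⟩
  have h5 : x * w = w * x := congrArg Subtype.val (Subgroup.mem_center_iff.1 w.2 ⟨x, hxP⟩)
  have h6 := @hinj ⟨_, hwN⟩ 1 (Subtype.ext (by
    show x⁻¹ * w * x * ((w : P) : G)⁻¹ = x⁻¹ * 1 * x * 1⁻¹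
    rw [mul_assoc x⁻¹, ← h5]; group))
  exact hw (Subtype.ext (Subtype.ext (congrArg (fun a : N => (a : G)) h6)))

end

/-- Let G be a finite group of order greater than 2 with an irreducible character χ nonzero on exactly two conjugacy classes, and let N be the normal p-subgroup of elements where χ is nonzero. Then N is the whole p-core O_p(G) if and only if G is a doubly transitive Frobenius group with kernel N: G has a Frobenius complement H whose Frobenius kernel is N and whose order is one less than that of N. -/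
theorem result {G : Type*} [Group G] [Finite G] (hG : 2 < Nat.card G) (χ : Cfsg.IrrCharacter G) (hχ : Nat.card {C : ConjClasses G // ∃ g ∈ C.carrier, (χ : G → ℂ) g ≠ 0} = 2) (p : ℕ) [Fact p.Prime] (N : Subgroup G) [N.Normal] (hN : ∀ g : G, g ∈ N ↔ (χ : G → ℂ) g ≠ 0) (hNp : IsPGroup p N) (hN1 : N ≠ ⊥) :
    N = Cfsg.pCore p G ↔ ∃ H : Subgroup G, Cfsg.IsFrobeniusComplement H ∧ Cfsg.frobeniusKernel H = (N : Set G) ∧ Nat.card H + 1 = Nat.card N := by
  have hp : p.Prime := Fact.out
  have hZ := fun P : Sylow p G => (Cfsg.Agent.S4838.result hG χ hχ p N hN hNp hN1 P).2.1.1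
  obtain ⟨M, hM, h⟩ := exists_gag hG χ hχ
  obtain rfl : N = M := Subgroup.ext fun g => (hN g).trans (h.mem g)
  have hpN : p ∣ Nat.card N := hNp.card_eq_or_dvd.resolve_left (by
    rw [Subgroup.card_eq_one]; exact hN1)
  constructor
  · intro hO
    have hi : ¬ p ∣ N.index := by
      intro hi
      obtain ⟨x, hx⟩ := exists_prime_orderOf_dvd_card' (G := G ⧸ N) p hi
      obtain ⟨g, rfl⟩ := QuotientGroup.mk_surjective x
      have h1 : g ^ p ∈ N := by
        rw [← QuotientGroup.eq_one_iff, QuotientGroup.mk_pow, ← hx, pow_orderOf_eq_one]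
      have h2 : g ∈ N := by
        by_cases h2 : p = 2
        · subst h2
          exact two_case h hO (by rwa [← sq])
        · exact odd_case h hO h2 hZ h1
      rw [(QuotientGroup.eq_one_iff g).2 h2, orderOf_one] at hx
      exact hp.ne_one hx.symm
    obtain ⟨k, hk⟩ := IsPGroup.iff_card.1 hNp
    obtain ⟨H, hH⟩ := Subgroup.exists_right_complement'_of_coprime (N := N) (by
      rw [hk]; exact Nat.Coprime.pow_left _ ((Nat.Prime.coprime_iff_not_dvd hp).2 hi))
    obtain ⟨hab, -⟩ := elem h hNp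
    have hC : ∀ v ∈ N, v ≠ 1 → Subgroup.centralizer ({v} : Set G) = N := fun v hv h1 =>
      (hNp.toSylow hi).3 (cent_pg h hNp hv h1) fun a ha => Subgroup.mem_centralizer_iff.2 (by
        rintro _ rfl
        exact congrArg Subtype.val (hab.is_comm.comm ⟨_, hv⟩ ⟨a, ha⟩))
    obtain ⟨z, hz⟩ := Subgroup.ne_bot_iff_exists_ne_one.1 hN1
    have h1 := h.index_cent z.2 (by simpa using hz)
    rw [hC z z.2 (by simpa using hz), hH.symm.index_eq_card] at h1
    have hH1 : H ≠ ⊥ := by
      rintro rfl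
      have := hH.card_mul_card
      rw [Subgroup.card_bot] at h1 this
      omega
    have hfpf : ∀ a ∈ H, a ≠ 1 → N ⊓ Subgroup.centralizer {a} = ⊥ := by
      intro a ha ha1
      rw [eq_bot_iff]
      rintro v ⟨hv, hv'⟩
      by_contra h2
      have h3 : a ∈ N := hC v hv h2 ▸ Subgroup.mem_centralizer_iff.2 (by
        rintro _ rfl; exact (Subgroup.mem_centralizer_iff.1 hv' a rfl).symm)
      exact ha1 (Subgroup.mem_bot.1 (hH.disjoint.eq_bot ▸ Subgroup.mem_inf.2 ⟨h3, ha⟩))
    exact ⟨H, isFrob_of_fpf hH hN1 hH1 hfpf, (frobKer_eq_of_fpf hH hN1 hH1 hfpf).symm, h1⟩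
  · rintro ⟨H, hH, hK, -⟩
    have h1 := IsFrob.isComplement'_of_coe_eq hH hK.symm
    have hi : ¬ p ∣ N.index := by
      intro hi
      rw [h1.symm.index_eq_card] at hi
      have h2 := IsFrob.coprime hH
      rw [← IsFrob.card_of_coe_eq hH hK.symm] at h2
      exact hp.ne_one (Nat.eq_one_of_dvd_coprimes h2 hi hpN)
    exact ((hNp.toSylow hi).3 (pCore_isPGroup p G) (le_pCore (N := N) hNp)).symm

end Cfsg.Agent.S4839
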