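import Mathlib
import Cfsg.Statements.S4840
import Cfsg.Agent.H05.Gag
import Cfsg.Agent.S4835
import Cfsg.Agent.S4837
import Cfsg.Agent.H08.Basic

set_option autoImplicit false
open Cfsg

namespace Cfsg.Agent.S4840

/-- Let G be a finite solvable group of order greater than 2 with an irreducible character nonzero on exactly two conjugacy classes. Then there is exactly one prime p with O_p(G) ≠ 1, and the quotient G/O_p(G) has a normal p-complement and commutative Sylow p-subgroups. -/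
theorem result {G : Type*} [Group G] [Finite G] [hs : Group.IsSolvable G] (hG : 2 < Nat.card G) (χ : Cfsg.IrrCharacter G) (hχ : Nat.card {C : ConjClasses G // ∃ g ∈ C.carrier, (χ : G → ℂ) g ≠ 0} = 2) :
    ∃ p : ℕ, p.Prime ∧ (∀ q : ℕ, q.Prime → (Cfsg.pCore q G ≠ ⊥ ↔ q = p)) ∧
      Cfsg.HasNormalPComplement p (G ⧸ Cfsg.pCore p G) ∧ ∀ Q : Sylow p (G ⧸ Cfsg.pCore p G), IsMulCommutative (Q : Subgroup (G ⧸ Cfsg.pCore p G)) := by
  obtain ⟨N, hN, N0, -, ⟨p, hp, hE⟩, hs, ht⟩ := S4835.result hG χ hχ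
  have := Fact.mk hp
  have hp' : IsPGroup p N := BG.pg_of_pow hE.2
  have hC := (S4837.result hG χ hχ p N (fun g => (hs g).symm) hp' N0).1
  obtain ⟨x, hx, x1⟩ := BG.exists_mem_ne_one N0
  obtain ⟨P, hP⟩ := hC x hx x1
  have k1 : pCore p G ≤ Subgroup.centralizer (N : Set G) := fun g hg => BG.mem_cent.2 fun y hy => by
    by_cases y1 : y = 1
    · simp [y1]
    obtain ⟨Q, hQ⟩ := hC y hy y1
    exact (BG.mem_cent1.1 (hQ ▸ H02.pCore_le_sylow Q hg)).symm
  have k2 : Subgroup.centralizer (N : Set G) ≤ pCore p G :=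
    H02.le_pCore (BG.pg_le P.2 (hP ▸ BG.cent_le_cent1 hx))
  refine ⟨p, hp, fun q hq => ⟨fun h => by_contra fun e => h ?_, fun e => e ▸ BG.ne_bot_mono N0 (H02.le_pCore hp')⟩, ?_⟩
  · have c := fun B : Subgroup G => BG.pg_coprime_ne (B := B) hq hp (H02.pCore_isPGroup q G)
    refine BG.eq_bot_mono (BG.inf_eq_bot_of_coprime (c _ (H02.pCore_isPGroup p G) e)) (le_inf le_rfl (le_trans ?_ k2))
    exact BG.le_cent_of_coprime (by rw [Subgroup.normalizer_eq_top]; exact le_top)
      (by rw [Subgroup.normalizer_eq_top]; exact le_top) (c _ hp' e)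
  have hk : ∀ g : G, (MulAut.conjNormal g : MulAut N) = 1 ↔ g ∈ Subgroup.centralizer (N : Set G) := fun g =>
    ⟨fun h => BG.mem_cent.2 fun y hy => (mul_inv_eq_iff_eq_mul.1 (show g * y * g⁻¹ = y from congrArg Subtype.val (DFunLike.congr_fun h (⟨y, hy⟩ : N)))).symm,
      fun h => MulEquiv.ext fun y => Subtype.ext (mul_inv_eq_iff_eq_mul.2 (BG.mem_cent.1 h y y.2).symm)⟩
  have : Nontrivial N := (Subgroup.nontrivial_iff_ne_bot N).2 N0
  refine H05.Gag.main (QuotientGroup.lift (pCore p G) (MulAut.conjNormal : G →* MulAut N) fun g hg => (hk g).2 (k1 hg))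
    ((injective_iff_map_eq_one _).2 fun a => ?_) hE.1 hp' inferInstance (H02.pCore_quotient_pCore p G) (fun a y y1 => ?_) ?_
  · induction a using QuotientGroup.induction_on with
    | H g => exact fun h => (QuotientGroup.eq_one_iff g).2 (k2 ((hk g).1 h))
  · induction a using QuotientGroup.induction_on with
    | H g =>
      intro h
      obtain ⟨Q, hQ⟩ := hC y y.2 fun e => y1 (Subtype.ext e)
      obtain ⟨k, hk⟩ := Q.2 ⟨g, hQ ▸ BG.mem_cent1.2 (mul_inv_eq_iff_eq_mul.1 (congrArg Subtype.val h))⟩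
      exact ⟨k, by rw [← QuotientGroup.mk_pow, show g ^ p ^ k = 1 from congrArg Subtype.val hk, QuotientGroup.mk_one]⟩
  · refine dvd_trans (dvd_of_eq ?_) (Subgroup.index_dvd_of_le (H02.pCore_le_sylow P))
    rw [← hP, ← H08.card_isConj_eq_index, show Nat.card N = (N : Set G).ncard from rfl,
      ← Set.ncard_sdiff_singleton_of_mem N.one_mem]
    change _ = Set.ncard {y | IsConj x y}
    congr 1
    ext y
    refine ⟨fun h => isConj_iff.2 (ht x hx y h.1 x1 h.2), fun h => ?_⟩
    obtain ⟨g, rfl⟩ := isConj_iff.1 h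
    exact ⟨hN.conj_mem x hx g, by simpa using x1⟩

end Cfsg.Agent.S4840
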