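import Mathlib
import Cfsg.Statements.S4845
import Cfsg.Agent.H07.Misc2
import Cfsg.Agent.H04.Rank

set_option autoImplicit false
open Cfsg

namespace Cfsg.Agent.S4845

section
open H05 H06 H07 Subgroup
variable {G : Type*} [Group G] [Finite G] {p : ℕ} [hp : Fact p.Prime]

def KH (G : Type*) [Group G] : Prop := ∀ χ ψ : IrrCharacter G, charDegree χ.1 ≠ 1 →
  charDegree χ.1 = charDegree ψ.1 → charKer χ.1 ≤ charKer ψ.1

theorem lin_iff (χ : IrrCharacter G) : _root_.commutator G ≤ charKer χ.1 ↔ charDegree χ.1 = 1 :=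
  (commutator_le_charKer_iff χ.2).trans (deg_eq_one_iff χ.2.isCharacter).symm

theorem KH.lt (h : KH G) (χ : IrrCharacter G) (h1 : charDegree χ.1 ≠ 1) : charKer χ.1 < _root_.commutator G := by
  refine lt_of_le_of_ne (fun x hx => ?_) fun e => h1 ((lin_iff χ).1 e.ge)
  by_contra hx'
  obtain ⟨φ, hφ⟩ := exists_hom_apply_ne_one hx'
  have h2 := (χ.2.mul_monoidHom φ).isCharacter.mem_charKer.1
    (h χ ⟨_, χ.2.mul_monoidHom φ⟩ h1 (deg_mul_hom χ.2.isCharacter φ).symm hx)
  rw [χ.2.isCharacter.mem_charKer.1 hx] at h2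
  exact hφ (Units.ext (by simpa using mul_left_cancel₀ χ.2.apply_one_ne_zero h2))

theorem KH.quot (h : KH G) (N : Subgroup G) [N.Normal] : KH (G ⧸ N) := fun χ ψ h1 h2 x hx => by
  obtain ⟨x, rfl⟩ := QuotientGroup.mk_surjective x
  exact ψ.2.isCharacter.mem_charKer.2 ((inflIrr N ψ).2.isCharacter.mem_charKer.1
    (h (inflIrr N χ) (inflIrr N ψ) h1 h2 ((inflIrr N χ).2.isCharacter.mem_charKer.2
      (χ.2.isCharacter.mem_charKer.1 hx))))

theorem relIndex_le (hG : IsPGroup p G) (χ : IrrCharacter G) (hk : Nat.card (charKer χ.1) = p) :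
    (center G).relIndex (charCenter χ.1) ≤ p := by
  obtain ⟨ψ, hψ, he⟩ := χ.2.exists_quotient (charKer χ.1) fun x hx => χ.2.isCharacter.mem_charKer.1 hx
  have h1 : charKer ψ = ⊥ := eq_bot_iff.2 fun x hx => by
    obtain ⟨x, rfl⟩ := QuotientGroup.mk_surjective x
    exact (QuotientGroup.eq_one_iff x).2 (χ.2.isCharacter.mem_charKer.2
      ((congrFun he x).trans ((hψ.isCharacter.mem_charKer.1 hx).trans (congrFun he 1).symm)))
  obtain ⟨⟨a, ha⟩, hg⟩ := (isCyclic_center_of_faithful hψ h1).exists_zpow_surjective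
  obtain ⟨a, rfl⟩ := QuotientGroup.mk_surjective a
  have hc := H04.le_center_of_card_eq hG _ hk
  have h2 : a ^ p ∈ center G := mem_center_iff.2 fun g => by
    have h3 : g * a * g⁻¹ * a⁻¹ ∈ charKer χ.1 := mem_charCenter_iff.1 (show a ∈ charCenter χ.1 from ha) g
    have h4 : (g * a * g⁻¹ * a⁻¹) ^ p = 1 := by
      have := pow_card_eq_one' (x := (⟨_, h3⟩ : charKer χ.1))
      rw [hk] at this; exact congrArg Subtype.val this
    have h5 : Commute (g * a * g⁻¹ * a⁻¹) a := (mem_center_iff.1 (hc h3) a).symm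
    have h6 := h5.mul_pow p
    rw [h4, one_mul, inv_mul_cancel_right, conj_pow] at h6
    exact mul_inv_eq_iff_eq_mul.1 h6
  have h3 := relIndex_ker (charCenter χ.1) (QuotientGroup.mk' (center G))
  rw [QuotientGroup.ker_mk'] at h3
  rw [h3]
  refine (card_le_of_le (K := zpowers (a : G ⧸ center G)) ?_).trans ?_
  · rintro _ ⟨z, hz, rfl⟩
    obtain ⟨k, hk⟩ := hg ⟨z, hz⟩
    refine ⟨k, ?_⟩
    have h4 : ((a ^ k : G) : G ⧸ charKer χ.1) = z := congrArg Subtype.val hk
    exact QuotientGroup.eq.2 (hc (QuotientGroup.eq.1 h4))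
  · rw [Nat.card_zpowers]
    exact Nat.le_of_dvd hp.out.pos (orderOf_dvd_of_pow_eq_one ((QuotientGroup.eq_one_iff _).2 h2))

theorem deg_pow (hG : IsPGroup p G) (χ : IrrCharacter G) : ∃ k, charDegree χ.1 = p ^ k := by
  obtain ⟨n, hn⟩ := hG.exists_card_eq
  obtain ⟨k, -, hk⟩ := (Nat.dvd_prime_pow hp.out).1 (hn ▸ χ.2.charDegree_dvd_card)
  exact ⟨k, hk⟩

theorem deg_max (hG : IsPGroup p G) (hc : Nat.card (_root_.commutator G) = p ^ 2) (χ ψ : IrrCharacter G)
    (hk : Nat.card (charKer χ.1) = p) (hl : charKer χ.1 < _root_.commutator G) : charDegree ψ.1 ≤ charDegree χ.1 := by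
  obtain ⟨K, -, -, k2, k3, k4⟩ := H04.exists_normal_card_mul hG _ _ hl
  rw [H04.eq_of_le_of_card_le k2 (by rw [k3, hk, hc, sq])] at k4
  have h1 := deg_sq_eq_index χ.2 fun x hx => mem_charCenter_iff.2 fun g => by
    rw [commutator_comm] at k4
    exact k4 (commutator_mem_commutator (mem_top g) hx)
  have h2 := charDegree_sq_le_index_center ψ.2
  rw [← relIndex_mul_index (center_le_charCenter (χ := χ.1)), ← h1] at h2
  have h3 := h2.trans (Nat.mul_le_mul_right _ (relIndex_le hG χ hk))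
  obtain ⟨a, ha⟩ := deg_pow hG χ
  obtain ⟨b, hb⟩ := deg_pow hG ψ
  rw [ha, hb, ← pow_mul, ← pow_mul, ← pow_succ', Nat.pow_le_pow_iff_right hp.out.one_lt] at h3
  rw [ha, hb]
  exact Nat.pow_le_pow_right hp.out.pos (by omega)

theorem card_of_lt (hc : Nat.card (_root_.commutator G) = p ^ 2) {K : Subgroup G} (h : K < _root_.commutator G) :
    K = ⊥ ∨ Nat.card K = p := by
  obtain ⟨k, h1, h2⟩ := (Nat.dvd_prime_pow hp.out).1 (hc ▸ card_dvd_of_le h.le)
  interval_cases k
  · exact Or.inl (card_eq_one.1 h2)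
  · exact Or.inr (h2.trans (pow_one p))
  · exact (h.ne (H04.eq_of_le_of_card_le h.le (hc.trans h2.symm).le)).elim

theorem core (hG : IsPGroup p G) (h : KH G) (hc : Nat.card (_root_.commutator G) = p ^ 2) : False := by
  obtain ⟨N, _, hN, hNc⟩ := H04.exists_normal_card_eq hG (_root_.commutator G) 1
    (hc ▸ Nat.pow_le_pow_right hp.out.pos one_le_two)
  rw [pow_one] at hNc
  have hN1 : N ≠ ⊥ := fun e => hp.out.ne_one (hNc.symm.trans (card_eq_one.2 e))
  have heq : ∀ K, N ≤ K → K < _root_.commutator G → N = K := fun K h1 h2 =>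
    H04.eq_of_le_of_card_le h1 (((card_of_lt hc h2).resolve_left fun e => hN1 (le_bot_iff.1 (e ▸ h1))).trans hNc.symm).le
  obtain ⟨χ, h1, h2⟩ : ∃ χ : IrrCharacter G, N ≤ charKer χ.1 ∧ charDegree χ.1 ≠ 1 := by
    by_contra hh
    push Not at hh
    have := card_le_of_le (commutator_le_of_irr N fun χ h1 => hh χ fun x hx => χ.2.isCharacter.mem_charKer.2 (h1 x hx))
    have := hp.out.one_lt
    rw [hc, hNc] at *
    nlinarith
  obtain ⟨ψ, h3⟩ : ∃ ψ : IrrCharacter G, ¬ N ≤ charKer ψ.1 := by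
    by_contra hh
    push Not at hh
    exact hN1 (eq_bot_iff.2 fun x hx => eq_one_of_forall_irr fun ψ => ψ.2.isCharacter.mem_charKer.1 (hh ψ hx))
  have h4 : charDegree ψ.1 ≠ 1 := fun e => h3 (hN.trans ((lin_iff ψ).2 e))
  have h5 := heq _ h1 (h.lt χ h2)
  have h6 : ¬ charDegree χ.1 ≤ charDegree ψ.1 := fun e =>
    h3 (h1.trans (h χ ψ h2 (le_antisymm e (deg_max hG hc χ ψ (h5 ▸ hNc) (h.lt χ h2)))))
  have h7 : charKer ψ.1 = ⊥ := (card_of_lt hc (h.lt ψ h4)).resolve_right fun e => h6 (deg_max hG hc ψ χ e (h.lt ψ h4))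
  by_cases hz : _root_.commutator G ≤ center G
  · have a1 := deg_sq_eq_index ψ.2 (hz.trans center_le_charCenter)
    rw [H06.charCenter_eq_center h7] at a1
    exact h6 ((Nat.pow_le_pow_iff_left two_ne_zero).1 (a1 ▸ charDegree_sq_le_index_center χ.2))
  have a1 := H04.index_centralizer_le hG 2 _ hc
  set C := centralizer (_root_.commutator G : Set G) with hC
  have a2 : ⁅C, ⊤⁆ ≤ centralizer (C : Set G) := (commutator_mono le_top le_rfl).trans (le_centralizer_iff.1 le_rfl)
  have a3 : ⁅⁅C, C⁆, (⊤ : Subgroup G)⁆ = ⊥ := commutator_commutator_eq_bot_of_rotate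
    (commutator_eq_bot_iff_le_centralizer.2 a2) (by rw [commutator_comm ⊤]; exact commutator_eq_bot_iff_le_centralizer.2 a2)
  have a4 : ⁅C, C⁆ ≤ N := by
    rw [heq (_root_.commutator G ⊓ center G) (le_inf hN (H04.le_center_of_card_eq hG _ hNc))
      (lt_of_le_of_ne inf_le_left fun e => hz (e.ge.trans inf_le_right))]
    refine le_inf (commutator_mono le_top le_top) ?_
    rw [commutator_eq_bot_iff_le_centralizer, coe_top, centralizer_univ] at a3
    exact a3
  have := Fintype.ofFinite G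
  have := Fintype.ofFinite C
  obtain ⟨θ, hθ, a5⟩ := exists_irr_under C χ.2
  have a6 : charDegree θ = 1 := (lin_iff ⟨θ, hθ⟩).1 (commutator_le.2 fun x _ y _ => hθ.isCharacter.mem_charKer.2
    (apply_eq_of_constituent (χ.2.isCharacter.restrict C) hθ a5
      (χ.2.isCharacter.mem_charKer.1 (h1 (a4 (commutator_mem_commutator x.2 y.2))))))
  have a7 := degree_le_index_mul C χ.2 hθ.isCharacter a5
  have a8 := Nat.le_of_dvd ψ.2.charDegree_pos ((dvd_deg_iff_of_pGroup hG ψ.2).2 h4)
  rw [a6, mul_one] at a7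
  exact h6 (a7.trans (a1.trans (by simpa using a8)))

theorem pow_val {χ : G → ℂ} (hχ : IsIrrCharacter G χ) {z : G} (hz : z ∈ center G) (k : ℕ) :
    χ (z ^ k) = (χ z / χ 1) ^ k * χ 1 := by
  induction k with
  | zero => simp
  | succ k ih => rw [pow_succ', hχ.apply_mul_of_mem_charCenter (center_le_charCenter hz), ih]; ring

theorem prim {χ : G → ℂ} (hχ : IsIrrCharacter G χ) (hk : charKer χ = ⊥) {z : G} (hz : z ∈ center G) :
    IsPrimitiveRoot (χ z / χ 1) (orderOf z) := by
  have h0 := hχ.apply_one_ne_zero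
  refine ⟨mul_right_cancel₀ h0 ?_, fun l hl => orderOf_dvd_of_pow_eq_one ?_⟩
  · rw [← pow_val hχ hz, pow_orderOf_eq_one, one_mul]
  · rw [← mem_bot, ← hk, hχ.isCharacter.mem_charKer, pow_val hχ hz, hl, one_mul]

end

/-- Let p be a prime and P a finite non-commutative p-group. Then every two irreducible characters of P of the same degree greater than 1 are Galois conjugate (one is obtained from the other by composing with g ↦ g^k for some k prime to the order of P) if and only if the centre of P is cyclic and the derived subgroup of P has order p. -/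
theorem result {P : Type*} [Group P] [Finite P] (p : ℕ) [Fact p.Prime] (hP : IsPGroup p P) (hna : ¬ IsMulCommutative P) :
    (∀ χ ψ : Cfsg.IrrCharacter P, Cfsg.charDegree (χ : P → ℂ) ≠ 1 → Cfsg.charDegree (χ : P → ℂ) = Cfsg.charDegree (ψ : P → ℂ) → ∃ k : ℕ, Nat.Coprime k (Nat.card P) ∧ ∀ g : P, (ψ : P → ℂ) g = (χ : P → ℂ) (g ^ k)) ↔
      (IsCyclic (Subgroup.center P) ∧ Nat.card (commutator P) = p) := by
  open H05 H06 H07 Subgroup in
  have hne : _root_.commutator P ≠ ⊥ := fun e => hna ((commutator_eq_bot_iff P).1 e)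
  refine ⟨fun h => ?_, fun ⟨hZ, hc⟩ χ ψ h1 h2 => ?_⟩
  · have hK : KH P := fun χ ψ h1 h2 x hx => by
      obtain ⟨k, -, hk⟩ := h χ ψ h1 h2
      rw [ψ.2.isCharacter.mem_charKer, hk, hk, one_pow]
      exact χ.2.isCharacter.mem_charKer.1 (pow_mem hx k)
    obtain ⟨n, hn⟩ := H04.card_eq_pow hP (_root_.commutator P)
    have hc : Nat.card (_root_.commutator P) = p := by
      rcases n with _ | _ | n
      · exact (hne (card_eq_one.1 hn)).elim
      · simpa using hn
      obtain ⟨M, _, hM, hMc⟩ := H04.exists_normal_card_eq hP (_root_.commutator P) n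
        (hn ▸ Nat.pow_le_pow_right (Fact.out : p.Prime).pos (by omega))
      refine (core (hP.to_quotient M) (hK.quot M) ?_).elim
      have h3 := relIndex_ker (_root_.commutator P) (QuotientGroup.mk' M)
      rw [QuotientGroup.ker_mk', _root_.commutator, map_commutator, map_top_of_surjective _ (QuotientGroup.mk'_surjective M)] at h3
      have h4 := card_mul_index (M.subgroupOf (_root_.commutator P))
      rw [hn, Nat.card_congr (subgroupOfEquivOfLe hM).toEquiv, hMc, show n + 1 + 1 = n + 2 from rfl, pow_add] at h4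
      exact h3.symm.trans (Nat.eq_of_mul_eq_mul_left (pow_pos (Fact.out : p.Prime).pos n) h4)
    obtain ⟨χ, hχ⟩ := exists_deg_ne_one hna
    refine ⟨isCyclic_center_of_faithful χ.2 ?_, hc⟩
    have h1 := hK.lt χ hχ
    exact ((Nat.dvd_prime Fact.out).1 (hc ▸ card_dvd_of_le h1.le)).elim card_eq_one.1
      fun e => (h1.ne (H04.eq_of_le_of_card_le h1.le (hc.trans e.symm).le)).elim
  have hcz := H04.le_center_of_card_eq hP _ hc
  haveI := hP.isNilpotent
  have hf : ∀ χ : IrrCharacter P, charDegree χ.1 ≠ 1 → charKer χ.1 = ⊥ := fun χ h1 => by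
    by_contra hk
    refine h1 ((lin_iff χ).1 fun x hx => ?_)
    have a1 : p ∣ Nat.card ((charKer χ.1).subgroupOf (center P)) := by
      obtain ⟨k, hk'⟩ := H04.card_eq_pow (hP.to_subgroup (center P)) ((charKer χ.1).subgroupOf (center P))
      rw [hk']
      refine dvd_pow_self _ ?_
      rintro rfl
      refine H04.inf_center_ne_bot _ hk ?_
      rw [← subgroupOf_map_subtype, card_eq_one.1 hk', Subgroup.map_bot]
    refine mem_subgroupOf.1 (mem_of_pow_card_eq_one_of_isCyclic ((charKer χ.1).subgroupOf (center P))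
      (z := ⟨x, hcz hx⟩) ?_)
    have a2 := pow_card_eq_one' (x := (⟨_, hx⟩ : _root_.commutator P))
    obtain ⟨c, hc'⟩ := a1
    rw [hc] at a2
    have a3 : x ^ p = 1 := congrArg Subtype.val a2
    rw [hc', pow_mul, show (⟨x, hcz hx⟩ : center P) ^ p = 1 from Subtype.ext a3, one_pow]
  have f1 := hf χ h1
  have f2 := hf ψ (h2 ▸ h1)
  obtain ⟨⟨z, hz⟩, hg⟩ := hZ.exists_monoid_generator
  have hz1 : orderOf z ≠ 1 := fun e => hne (eq_bot_iff.2 fun x hx => by
    obtain ⟨j, hj⟩ := hg ⟨x, hcz hx⟩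
    have : z ^ j = x := congrArg Subtype.val hj
    rw [← this, orderOf_eq_one_iff.1 e, one_pow]; exact one_mem _)
  haveI : NeZero (orderOf z) := ⟨(orderOf_pos z).ne'⟩
  obtain ⟨k, -, hk, he⟩ := ((prim χ.2 f1 hz).isPrimitiveRoot_iff).1 (prim ψ.2 f2 hz)
  have h11 : ψ.1 1 = χ.1 1 := by rw [← ψ.2.isCharacter.charDegree_eq, ← χ.2.isCharacter.charDegree_eq, h2]
  have hkc : k.Coprime (Nat.card P) := by
    obtain ⟨n, hn⟩ := hP.exists_card_eq
    obtain ⟨m, hm⟩ := (IsPGroup.iff_orderOf.1 hP) z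
    rw [hn]
    refine Nat.Coprime.pow_right _ (hk.coprime_dvd_right (hm ▸ dvd_pow_self _ ?_))
    rintro rfl
    exact hz1 hm
  refine ⟨k, hkc, fun g => ?_⟩
  by_cases hgz : g ∈ center P
  · obtain ⟨j, hj⟩ := hg ⟨g, hgz⟩
    obtain rfl : z ^ j = g := congrArg Subtype.val hj
    rw [← pow_mul, pow_val ψ.2 hz, pow_val χ.2 hz, ← he, h11, ← pow_mul, mul_comm k]
  rw [apply_eq_zero_of_commutator_le ψ.2 (hcz.trans center_le_charCenter) (H06.charCenter_eq_center f2 ▸ hgz),
    apply_eq_zero_of_commutator_le χ.2 (hcz.trans center_le_charCenter) ?_]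
  rw [H06.charCenter_eq_center f1]
  refine fun e => hgz ?_
  obtain ⟨m, hm⟩ := exists_pow_eq_self_of_coprime (hkc.coprime_dvd_right (orderOf_dvd_natCard g))
  exact hm ▸ pow_mem e m

end Cfsg.Agent.S4845
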