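import Mathlib
import Cfsg.Statements.S4850
import Cfsg.Agent.H05.Van

set_option autoImplicit false
open Cfsg

namespace Cfsg.Agent.S4850

/-- Let p be a prime and G a finite solvable group whose vanishing elements (elements at which some irreducible character is zero) of order divisible by p all have the same order, with at least one such element. Let P be a Sylow p-subgroup of G. Then the derived subgroup of P is subnormal in G and the image of P in G/O_p(G) is cyclic. -/
theorem result {G : Type*} [Group G] [Finite G] [hs : Group.IsSolvable G] (p : ℕ) [Fact p.Prime] (b : ℕ) (hvo : {n : ℕ | p ∣ n ∧ ∃ (g : G) (χ : Cfsg.IrrCharacter G), orderOf g = n ∧ (χ : G → ℂ) g = 0} = {b}) (P : Sylow p G) :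
    ((commutator ↥(P : Subgroup G)).map (P : Subgroup G).subtype).IsSubnormal ∧ IsCyclic ↥((P : Subgroup G).map (QuotientGroup.mk' (Cfsg.pCore p G))) := by
  have := H05.Van.card_le (p := p) (b := b) (fun g χ hχ e hg =>
    show _ ∈ ({b} : Set ℕ) from hvo ▸ ⟨hg, g, ⟨χ, hχ⟩, rfl, e⟩) P.isPGroup'
  have hc : IsCyclic ↥((P : Subgroup G).map (QuotientGroup.mk' (Cfsg.pCore p G))) := by
    obtain ⟨i, hi⟩ := (P.isPGroup'.map (QuotientGroup.mk' (Cfsg.pCore p G))).exists_card_eq
    rcases i with _ | i
    · have := (Nat.card_eq_one_iff_unique.1 hi).1; infer_instance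
    · exact isCyclic_of_prime_card (le_antisymm this (hi ▸ Nat.le_self_pow (Nat.succ_ne_zero i) p))
  refine ⟨?_, hc⟩
  have h1 : (commutator ↥(P : Subgroup G)).map (P : Subgroup G).subtype ≤ Cfsg.pCore p G := by
    rw [Subgroup.map_subtype_commutator, ← QuotientGroup.ker_mk' (Cfsg.pCore p G), ← Subgroup.map_eq_bot_iff,
      Subgroup.map_commutator, Subgroup.commutator_eq_bot_iff_le_centralizer]
    exact fun x hx y hy => congrArg Subtype.val (hc.isMulCommutative.is_comm.comm ⟨y, hy⟩ ⟨x, hx⟩)
  have := (H02.pCore_isPGroup (p := p) (G := G)).isNilpotent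
  exact H02.isSubnormal_of_le_fitting (h1.trans (H02.le_fitting this))

end Cfsg.Agent.S4850
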