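import Mathlib
import Cfsg.Statements.S4856
import Cfsg.Agent.H07.Cnt
import Cfsg.Agent.H05.FrobeniusSchur

set_option autoImplicit false
open Cfsg
open H05 Cfsg H07

namespace Cfsg.Agent.S4856

/-- For an element z of a finite group G, the number of pairs (x, y) of elements with x y x⁻¹ y⁻¹ = z equals the order of G times the sum over the irreducible characters χ of χ(z)/χ(1). -/
theorem result {G : Type*} [Group G] [Finite G] (z : G) : (Nat.card {xy : G × G // xy.1 * xy.2 * xy.1⁻¹ * xy.2⁻¹ = z} : ℂ) = (Nat.card G : ℂ) * ∑ᶠ χ : Cfsg.IrrCharacter G, (χ : G → ℂ) z / (χ : G → ℂ) 1 := by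
  have := Fintype.ofFinite G
  apply mul_left_cancel₀ (H06.natCard_ne_zero G)
  rw [card_fiber_eq' (fun p : G × G => p.1 * p.2 * p.1⁻¹ * p.2⁻¹), finsum_eq_sum_of_fintype,
    Finset.mul_sum, Finset.mul_sum]
  refine Fintype.sum_equiv (Function.Involutive.toPerm conjIrr conjIrr_conjIrr) _ _ fun χ => ?_
  have := χ.2.apply_one_ne_zero
  change _ = _ * (_ * (starRingEnd ℂ (χ.1 z) / starRingEnd ℂ (χ.1 1)))
  simp only [Fintype.sum_prod_type, sum_comm_mul χ.2, χ.2.apply_inv, χ.2.conj_apply_one]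
  field_simp

end Cfsg.Agent.S4856
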