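import Mathlib
import Cfsg.Statements.S4865
import Cfsg.Agent.H07.RealP

set_option autoImplicit false
open Cfsg
open H05 H06 Cfsg H07

namespace Cfsg.Agent.S4865

/-- Let p be a prime and G a finite group such that the subgroup generated by the p-elements of G is solvable and every real-valued irreducible complex character of G has degree prime to p. Let N be the normalizer of a Sylow p-subgroup of G. Then there is a bijection from the real-valued irreducible characters of G onto the real-valued irreducible characters of N of degree prime to p under which corresponding degrees are congruent modulo p up to sign. -/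
theorem result {G : Type*} [Group G] [Finite G] (p : ℕ) [Fact p.Prime] (hsolv : Group.IsSolvable ↥(Subgroup.closure {g : G | ∃ k : ℕ, orderOf g = p ^ k})) (hreal : ∀ χ : Cfsg.IrrCharacter G, (∀ g : G, ((χ : G → ℂ) g).im = 0) → ¬ p ∣ Cfsg.charDegree (χ : G → ℂ)) (P : Sylow p G) : ∃ f : {χ : Cfsg.IrrCharacter G // ∀ g : G, ((χ : G → ℂ) g).im = 0} → {ξ : Cfsg.IrrCharacter ↥(Subgroup.normalizer ((P : Subgroup G) : Set G)) // (∀ n, ((ξ : ↥(Subgroup.normalizer ((P : Subgroup G) : Set G)) → ℂ) n).im = 0) ∧ ¬ p ∣ Cfsg.charDegree (ξ : ↥(Subgroup.normalizer ((P : Subgroup G) : Set G)) → ℂ)}, Function.Bijective f ∧ ∀ χ, ((Cfsg.charDegree ((f χ).1 : ↥(Subgroup.normalizer ((P : Subgroup G) : Set G)) → ℂ) : ZMod p) = (Cfsg.charDegree (χ.1 : G → ℂ) : ZMod p) ∨ (Cfsg.charDegree ((f χ).1 : ↥(Subgroup.normalizer ((P : Subgroup G) : Set G)) → ℂ) : ZMod p) = -(Cfsg.charDegree (χ.1 : G → ℂ) : ZMod p)) := by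
  haveI := pGen_normal (G := G) Nat.prime_two
  haveI := sylow_inf_normal hsolv hreal P
  obtain ⟨R, h1, h2⟩ := real_bij P (pGen 2 G) odd_index_pGen (H01.le_normalizer_of_normal _ _) hreal rfl
  choose f hf hR using h1.ex
  refine ⟨fun χ => ⟨⟨f _ ⟨χ.1.2, χ.2⟩, (hf _ _).1⟩, (hf _ _).2⟩, ⟨fun a b e => Subtype.ext (Subtype.ext
    (h1.inj _ ⟨a.1.2, a.2⟩ _ ⟨b.1.2, b.2⟩ _ (hf _ _) (hR _ ⟨a.1.2, a.2⟩) ?_)), fun ξ => ?_⟩, fun χ => h2 _ _ (hR _ _)⟩
  · exact (congrArg (fun x => R b.1.1 x.1.1) e).mpr (hR _ ⟨b.1.2, b.2⟩)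
  · obtain ⟨χ, hχ, h⟩ := h1.ex' ξ.1.1 ⟨ξ.1.2, ξ.2⟩
    exact ⟨⟨⟨χ, hχ.1⟩, hχ.2⟩, Subtype.ext (Subtype.ext (h1.inj' _ hχ _ (hf _ _) _ ⟨ξ.1.2, ξ.2⟩ (hR _ hχ) h))⟩

end Cfsg.Agent.S4865
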