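import Mathlib
import Cfsg.Statements.S4870
import Cfsg.Agent.H07.Real2

set_option autoImplicit false
open Cfsg
open H05 H06 Cfsg H07

namespace Cfsg.Agent.S4870

/-- Let G be a finite group with a non-abelian minimal normal subgroup N, and let φ be an irreducible complex character of N with stabilizer I in G (the elements g with φ(g n g⁻¹) = φ(n) for all n ∈ N) such that φ extends to an irreducible character of I. Put d = φ(1)·[G : I]. Then the number of linear characters of G is at most [G : I] times the number of irreducible characters of G of degree d. -/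
theorem result {G : Type*} [Group G] [Finite G] (N : Subgroup G) (hN : N.Normal) (hN1 : N ≠ ⊥) (hmin : ∀ M : Subgroup G, M.Normal → M ≤ N → M = ⊥ ∨ M = N) (hna : ¬ IsMulCommutative ↥N) (φ : Cfsg.IrrCharacter ↥N) (I : Subgroup G) (hI : ∀ g : G, g ∈ I ↔ ∀ n n' : ↥N, (n' : G) = g * (n : G) * g⁻¹ → (φ : ↥N → ℂ) n' = (φ : ↥N → ℂ) n) (hNI : N ≤ I) (hext : ∃ ψ : Cfsg.IrrCharacter ↥I, ∀ n : ↥N, (ψ : ↥I → ℂ) (Subgroup.inclusion hNI n) = (φ : ↥N → ℂ) n) : Nat.card {χ : Cfsg.IrrCharacter G // Cfsg.charDegree (χ : G → ℂ) = 1} ≤ I.index * Nat.card {χ : Cfsg.IrrCharacter G // Cfsg.charDegree (χ : G → ℂ) = Cfsg.charDegree (φ : ↥N → ℂ) * I.index} := by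
  let _ := Fintype.ofFinite G
  obtain ⟨ψ, hψ⟩ := hext
  have hT := H07.eq_inertia hI
  obtain ⟨h1, h2⟩ := H07.isIrr_ind_ext N φ.2 hT hNI ψ.2.isCharacter hψ
  have h3 := fun μ : G →* ℂˣ => (H07.le_commutator_of_minimal hmin hna).trans (Abelianization.commutator_subset_ker μ)
  simpa using H07.card_lin_le h1 I (fun _ => True)
    (fun χ => Cfsg.charDegree χ.1 = Cfsg.charDegree φ.1 * I.index)
    (fun a b _ _ => H07.eq_on_inertia N φ.2 hT hNI ψ.2.isCharacter hψ (h3 a) (h3 b))
    (fun a _ => (H07.deg_mul_hom h1.isCharacter a).trans h2)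

end Cfsg.Agent.S4870
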