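import Mathlib
import Cfsg.Statements.S4871
import Cfsg.Agent.H07.Real2

set_option autoImplicit false
open Cfsg
open H05 H06 Cfsg H07

namespace Cfsg.Agent.S4871

/-- Let G be a finite group that is the semidirect product of a normal elementary abelian subgroup N of odd order by a non-trivial 2-subgroup P, with N the unique minimal normal subgroup of G. Consider the strongly real irreducible complex characters of G (Frobenius–Schur indicator +1) whose degree is 1 or even. Then their average degree is at least 4/3: four times their number is at most three times the sum of their degrees. -/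
theorem result {G : Type*} [Group G] [Finite G] (N P : Subgroup G) (hN : N.Normal) (q : ℕ) [Fact q.Prime] (hq : q ≠ 2) (hNel : Cfsg.IsElementaryAbelian q N) (hP : IsPGroup 2 ↥P) (hP1 : P ≠ ⊥) (hdisj : N ⊓ P = ⊥) (hprod : N ⊔ P = ⊤) (hmin : N ≠ ⊥ ∧ ∀ M : Subgroup G, M.Normal → M ≠ ⊥ → N ≤ M) : 4 * Nat.card {χ : Cfsg.IrrCharacter G // (Cfsg.charDegree (χ : G → ℂ) = 1 ∨ 2 ∣ Cfsg.charDegree (χ : G → ℂ)) ∧ (Nat.card G : ℂ)⁻¹ * ∑ᶠ g : G, (χ : G → ℂ) (g * g) = 1} ≤ 3 * (∑ᶠ χ : {χ : Cfsg.IrrCharacter G // (Cfsg.charDegree (χ : G → ℂ) = 1 ∨ 2 ∣ Cfsg.charDegree (χ : G → ℂ)) ∧ (Nat.card G : ℂ)⁻¹ * ∑ᶠ g : G, (χ : G → ℂ) (g * g) = 1}, Cfsg.charDegree (χ.1 : G → ℂ)) := by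
  classical
  let _ := Fintype.ofFinite G
  rw [finsum_eq_sum_of_fintype]
  obtain ⟨χ, T, h1, h2, h3, h4⟩ := H07.exists_fs_ind hq hNel hP hP1 hdisj hprod hmin
  have h5 : ∀ μ : G →* ℂˣ, fsIndicator (fun g => (μ g : ℂ)) = 1 → N ≤ μ.ker := fun μ hμ n hn => by
    have a1 := monoidHom_mul_conj μ n
    rw [Complex.conj_eq_iff_im.2 (H07.real_of_fs (isIrrCharacter_monoidHom μ) hμ n), ← sq] at a1
    have a2 : μ n ^ q = 1 := by rw [← map_pow, hNel.2 n hn, map_one]
    simpa [((Nat.coprime_primes Nat.prime_two Fact.out).2 hq.symm).gcd_eq_one] using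
      pow_gcd_eq_one.2 ⟨(Units.ext a1 : μ n ^ 2 = 1), a2⟩
  have h6 := H07.card_lin_le χ.2 T (fun χ => fsIndicator χ.1 = 1)
    (fun χ => Cfsg.charDegree χ.1 = T.index ∧ fsIndicator χ.1 = 1)
    (fun a b ha hb => h4 a b (h5 a ha) (h5 b hb))
    (fun a ha => ⟨(H07.deg_mul_hom χ.2.isCharacter a).trans h2, (H07.fs_mul_hom ha).trans h1⟩)
  simp only [fsIndicator, ← finsum_eq_sum_of_fintype] at h6
  rw [← Finset.sum_subtype (Finset.univ.filter fun χ : Cfsg.IrrCharacter G =>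
    (Cfsg.charDegree χ.1 = 1 ∨ 2 ∣ Cfsg.charDegree χ.1) ∧ (Nat.card G : ℂ)⁻¹ * ∑ᶠ g, χ.1 (g * g) = 1) (by simp)
    (fun χ => Cfsg.charDegree χ.1), Finset.sum_filter]
  generalize (Nat.card G : ℂ) = c at h6 ⊢
  simp only [Nat.card_eq_fintype_card, Fintype.card_subtype, Finset.card_filter] at h6 ⊢
  rw [Finset.mul_sum] at h6
  rw [Finset.mul_sum, Finset.mul_sum]
  refine Nat.le_of_add_le_add_right ((le_trans ?_ (Nat.add_le_add_left h6 _)))
  rw [← Finset.sum_add_distrib, ← Finset.sum_add_distrib]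
  refine Finset.sum_le_sum fun ψ _ => ?_
  have := ψ.2.charDegree_pos
  by_cases a1 : c⁻¹ * ∑ᶠ g, ψ.1 (g * g) = 1 <;> simp only [a1, and_true, and_false, if_false]
  · split_ifs <;> omega
  · simp

end Cfsg.Agent.S4871
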