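import Mathlib
import Cfsg.Statements.S4872
import Cfsg.Agent.H07.Real1
import Cfsg.Agent.H07.Extend
import Cfsg.Agent.H07.Gallagher
import Cfsg.Agent.H05.Brauer

set_option autoImplicit false
open Cfsg

namespace Cfsg.Agent.S4872

/-- Let N be a normal subgroup of the finite group G with G/N a 2-group, and let φ be an irreducible complex character of N of 2-defect zero (the 2-part of #N divides φ(1)) whose complex conjugate is G-conjugate to φ. Then some irreducible character of G with Frobenius–Schur indicator +1 contains φ with multiplicity exactly one on restriction to N. -/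
theorem result {G : Type*} [Group G] [Finite G] (N : Subgroup G) [N.Normal] (h2 : IsPGroup 2 (G ⧸ N)) (φ : Cfsg.IrrCharacter ↥N) (hdef : 2 ^ (Nat.card ↥N).factorization 2 ∣ Cfsg.charDegree (φ : ↥N → ℂ)) (hconj : ∃ g : G, ∀ n n' : ↥N, (n' : G) = g * (n : G) * g⁻¹ → (φ : ↥N → ℂ) n' = (starRingEnd ℂ) ((φ : ↥N → ℂ) n)) : ∃ χ : Cfsg.IrrCharacter G, (Nat.card G : ℂ)⁻¹ * ∑ᶠ g : G, (χ : G → ℂ) (g * g) = 1 ∧ (Nat.card ↥N : ℂ)⁻¹ * ∑ᶠ n : ↥N, (χ : G → ℂ) n * (starRingEnd ℂ) ((φ : ↥N → ℂ) n) = 1 := by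
  classical
  letI : Fintype G := Fintype.ofFinite G
  letI : Fintype N := Fintype.ofFinite N
  haveI : Fact (Nat.Prime 2) := ⟨Nat.prime_two⟩
  obtain ⟨Q⟩ : Nonempty (Sylow 2 G) := inferInstance
  letI : Fintype (Q : Subgroup G) := Fintype.ofFinite _
  have hφ : Cfsg.IsIrrCharacter N (φ : N → ℂ) := φ.2
  have hφc := H05.Cfsg.IsIrrCharacter.isCharacter hφ
  obtain ⟨e, he, hΦ⟩ := H07.indFun_eq_sum_nat N hφc
  choose a ha using fun χ : Cfsg.IrrCharacter G =>
    H05.Cfsg.IsCharacter.exists_classInner_eq_nat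
      (H05.Cfsg.IsCharacter.restrict (H05.Cfsg.IsIrrCharacter.isCharacter χ.2) (Q : Subgroup G))
      H05.isCharacter_one
  have hdvd := H05.Cfsg.IsIrrCharacter.charDegree_dvd_card hφ
  have hN0 : Nat.card N ≠ 0 := Nat.card_pos.ne'
  have hnd : ¬ 2 ∣ Nat.card N / Cfsg.charDegree (φ : N → ℂ) :=
    H05.not_dvd_div_of_pow_dvd (Nat.pow_succ_factorization_not_dvd hN0 Nat.prime_two) hdef hdvd
  have hvan : ∀ q : (Q : Subgroup G), q ≠ 1 → Cfsg.indFun N (φ : N → ℂ) (q : G) = 0 := by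
    intro q hq
    apply H06.indFun_eq_zero_of_forall
    intro x hx
    apply H05.Cfsg.IsIrrCharacter.apply_eq_zero_of_defect_zero hφ Nat.prime_two hnd
    rw [← Subgroup.orderOf_coe]
    have h1 : orderOf (x⁻¹ * (q : G) * x) = orderOf (q : G) := by
      have := (MulAut.conj x⁻¹).orderOf_eq (q : G)
      simpa using this
    show 2 ∣ orderOf (x⁻¹ * (q : G) * x)
    rw [h1, Subgroup.orderOf_coe]
    obtain ⟨k, hk⟩ := (IsPGroup.iff_orderOf.1 Q.isPGroup') q
    rcases k with _ | k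
    · exact absurd (orderOf_eq_one_iff.1 (by simpa using hk)) hq
    · rw [hk]; exact dvd_pow_self 2 (Nat.succ_ne_zero k)
  have hsum : (∑ χ : Cfsg.IrrCharacter G, e χ * a χ) * Nat.card (Q : Subgroup G) =
      N.index * Cfsg.charDegree (φ : N → ℂ) := by
    have h1 : Cfsg.classInner (fun q : (Q : Subgroup G) => Cfsg.indFun N (φ : N → ℂ) (q : G)) 1 =
        ∑ χ : Cfsg.IrrCharacter G, (e χ : ℂ) * a χ := by
      have : (fun q : (Q : Subgroup G) => Cfsg.indFun N (φ : N → ℂ) (q : G)) =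
          ∑ χ : Cfsg.IrrCharacter G, (e χ : ℂ) • (fun q : (Q : Subgroup G) => (χ : G → ℂ) q) := by
        funext q
        rw [hΦ]; simp [Finset.sum_apply]
      rw [this, H05.classInner_sum_left]
      exact Finset.sum_congr rfl fun χ _ => by rw [H05.classInner_smul_left, ha]
    rw [H05.classInner_one_right, Finset.sum_eq_single (1 : (Q : Subgroup G))
      (fun q _ hq => hvan q hq) (by simp)] at h1
    have h2' : Cfsg.indFun N (φ : N → ℂ) ((1 : (Q : Subgroup G)) : G) =
        (N.index : ℂ) * (Cfsg.charDegree (φ : N → ℂ) : ℂ) := by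
      rw [OneMemClass.coe_one, H06.indFun_one, H05.Cfsg.IsIrrCharacter.charDegree_eq hφ]
    rw [h2'] at h1
    have h3 : (Nat.card (Q : Subgroup G) : ℂ) ≠ 0 := H05.card_ne_zero_complex
    have h4 : (∑ χ : Cfsg.IrrCharacter G, (e χ : ℂ) * a χ) * (Nat.card (Q : Subgroup G) : ℂ) =
        (N.index : ℂ) * (Cfsg.charDegree (φ : N → ℂ) : ℂ) := by
      rw [← h1]; field_simp
    exact_mod_cast h4
  obtain ⟨k, hk⟩ := IsPGroup.iff_card.1 h2
  have hidx : N.index = 2 ^ k := hk
  have hodd : Odd (∑ χ : Cfsg.IrrCharacter G, e χ * a χ) := by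
    obtain ⟨m, hm⟩ := hdef
    have hQ := Q.card_eq_multiplicity
    have hG : Nat.card G = Nat.card N * 2 ^ k := by rw [← hidx, Subgroup.card_mul_index]
    have hf : (Nat.card G).factorization 2 = (Nat.card N).factorization 2 + k := by
      rw [hG, Nat.factorization_mul hN0 (by positivity), Nat.factorization_pow]
      simp [Nat.prime_two.factorization]
    rw [hQ, hf, hidx, hm] at hsum
    have h5 : (∑ χ : Cfsg.IrrCharacter G, e χ * a χ) = m := by
      have : (∑ χ : Cfsg.IrrCharacter G, e χ * a χ) * 2 ^ ((Nat.card N).factorization 2 + k) =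
          m * 2 ^ ((Nat.card N).factorization 2 + k) := by rw [hsum]; ring
      exact Nat.eq_of_mul_eq_mul_right (by positivity) this
    rw [h5]
    by_contra hev
    rw [Nat.not_odd_iff_even] at hev
    obtain ⟨r, hr⟩ := hev
    apply Nat.pow_succ_factorization_not_dvd hN0 Nat.prime_two
    refine Dvd.dvd.trans ⟨r, ?_⟩ hdvd
    rw [hm, hr]; ring
  obtain ⟨g, hg⟩ := hconj
  have hcj : H06.conjFun N g (φ : N → ℂ) = fun n => (starRingEnd ℂ) ((φ : N → ℂ) n) := by
    funext n
    exact hg n _ rfl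
  have he' : ∀ χ, e (H05.conjIrr χ) = e χ := by
    intro χ
    have h1 := he (H05.conjIrr χ)
    have h3 : Cfsg.classInner (fun n : N => ((H05.conjIrr χ : Cfsg.IrrCharacter G) : G → ℂ) n)
        (fun n => (starRingEnd ℂ) ((φ : N → ℂ) n)) = e χ := by
      have := H05.classInner_conj_conj (φ := fun n : N => (χ : G → ℂ) n) (ψ := (φ : N → ℂ))
      rw [← H05.classInner_conj_symm (φ := fun n : N => (χ : G → ℂ) n), he χ] at this
      simpa [H05.conjIrr] using this
    rw [← hcj, H06.classInner_res_conjFun N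
      (H05.Cfsg.IsIrrCharacter.isClassFunction (H05.conjIrr χ).2), h1] at h3
    exact_mod_cast h3
  have ha' : ∀ χ, a (H05.conjIrr χ) = a χ := by
    intro χ
    have h1 := ha (H05.conjIrr χ)
    have := H05.classInner_conj_conj (φ := fun n : (Q : Subgroup G) => (χ : G → ℂ) n) (ψ := 1)
    rw [← H05.classInner_conj_symm (φ := fun n : (Q : Subgroup G) => (χ : G → ℂ) n), ha χ] at this
    have h4 : (fun g : (Q : Subgroup G) => (starRingEnd ℂ) ((1 : ↥(Q : Subgroup G) → ℂ) g)) = 1 := by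
      funext q; simp
    rw [h4] at this
    have h5 : (a (H05.conjIrr χ) : ℂ) = a χ := by
      rw [← h1]; simpa [H05.conjIrr] using this
    exact_mod_cast h5
  have hex : ∃ χ : Cfsg.IrrCharacter G, H05.conjIrr χ = χ ∧ Odd (e χ * a χ) := by
    by_contra hc
    push Not at hc
    have h0 : ∑ χ : Cfsg.IrrCharacter G, ((e χ * a χ : ℕ) : ZMod 2) = 0 := by
      refine Finset.sum_involution (fun χ _ => H05.conjIrr χ) (fun χ _ => ?_) (fun χ _ h0 h => ?_)
        (fun _ _ => Finset.mem_univ _) (fun χ _ => H05.conjIrr_conjIrr χ)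
      · rw [he', ha', ← two_mul]
        exact mul_eq_zero_of_left rfl _
      · apply h0
        have := hc χ h
        rw [Nat.not_odd_iff_even] at this
        exact (ZMod.natCast_eq_zero_iff_even).2 this
    rw [← Nat.cast_sum, ZMod.natCast_eq_zero_iff_even] at h0
    exact (Nat.not_even_iff_odd.2 hodd) h0
  obtain ⟨χ, hreal, ho⟩ := hex
  obtain ⟨hoe, hoa⟩ := Nat.odd_mul.1 ho
  have hr : ∀ x, ((χ : G → ℂ) x).im = 0 :=
    (H05.conj_eq_iff_forall_im _).1 (congrArg Subtype.val hreal)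
  have hne : Cfsg.classInner (fun n : N => (χ : G → ℂ) n) (φ : N → ℂ) ≠ 0 := by
    rw [he χ]
    exact_mod_cast hoe.pos.ne'
  have he1 : e χ = 1 := by
    obtain ⟨f, hf, hdeg⟩ := H07.exists_degree_eq_mul N χ.2 hφ hne
    have hcl := H06.clifford_degree N χ.2 hφ hne
    rw [he χ, ← H05.Cfsg.IsIrrCharacter.charDegree_eq χ.2,
      ← H05.Cfsg.IsIrrCharacter.charDegree_eq hφ, hdeg] at hcl
    have h6 : f * Cfsg.charDegree (φ : N → ℂ) =
        e χ * (H06.inertia N (φ : N → ℂ)).index * Cfsg.charDegree (φ : N → ℂ) := by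
      exact_mod_cast hcl
    have h7 := Nat.eq_of_mul_eq_mul_right (H05.Cfsg.IsIrrCharacter.charDegree_pos hφ) h6
    have h8 : e χ ∣ 2 ^ k := hidx ▸ Dvd.dvd.trans ⟨_, h7⟩ hf
    obtain ⟨j, -, hj⟩ := (Nat.dvd_prime_pow Nat.prime_two).1 h8
    rcases j with _ | j
    · simpa using hj
    · rw [hj] at hoe
      exact absurd hoe (Nat.not_odd_iff_even.2 ⟨2 ^ j, by ring⟩)
  refine ⟨χ, ?_, ?_⟩
  · have := H07.fs_eq_of_odd (Q : Subgroup G).subtype χ.2 hr H05.isIrrCharacter_one
      (fun _ => by simp) (ha χ) hoa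
    rw [finsum_eq_sum_of_fintype]
    refine this.trans ?_
    have h3 : (Nat.card (Q : Subgroup G) : ℂ) ≠ 0 := H05.card_ne_zero_complex
    simp only [H05.fsIndicator, Pi.one_apply, Finset.sum_const, Finset.card_univ, nsmul_eq_mul,
      mul_one, ← Nat.card_eq_fintype_card]
    field_simp
  · rw [finsum_eq_sum_of_fintype, ← H05.classInner_def, he χ, he1]; simp

end Cfsg.Agent.S4872
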