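import Mathlib
import Cfsg.Agent.H20.Cnt
-- Template for statement S4888 (row 4888; see /opt/grader/pristine/manifest.json for weights).
-- Copy to Cfsg/Agent/S4888.lean and replace the sorry. The statement below is byte-identical to the frozen
-- statement Cfsg.CfsgFrozen.S4888 (Cfsg/Statements/S4888.lean; the theorem Cfsg.blk11_principal_block_equal_height_zero_degrees_iff_normal_p_complement);
-- the grader kernel-checks Cfsg.Agent.S4888.result against that frozen type. Keep the theorem IN THIS FILE
-- (a `result` declared elsewhere and merely imported here is not credited); helpers may live anywhere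
-- under Cfsg/Agent/.
import Cfsg.Statements.S4888
-- import your own Cfsg.Agent.* helpers here

set_option autoImplicit false
open Cfsg

open H20 H05 H21 MonoidAlgebra Cfsg

namespace Cfsg.Agent.S4888

/-- Let G be a finite group, p a prime and M a maximal ideal of the algebraic integers containing p. Then all height-zero irreducible characters of the principal p-block of G (equivalently, all its characters of degree prime to p) have the same degree if and only if G has a normal p-complement. -/
theorem result {G : Type*} [Group G] [Finite G] (p : ℕ) [Fact p.Prime] (M : Ideal Cfsg.AlgInt) (hM : Cfsg.IsPModular p M) : (∃ d : ℕ, ∀ χ : Cfsg.IrrCharacter G, χ ∈ (Cfsg.principalBlock M G) → Cfsg.blockHeight p (Cfsg.principalBlock M G) (χ : G → ℂ) = 0 → Cfsg.charDegree (χ : G → ℂ) = d) ↔ Cfsg.HasNormalPComplement p G := by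
  have := hM.2.1
  rw [H03.hasNPC_iff_not_dvd_card_pResidual]
  refine ⟨fun ⟨d, hd⟩ => isaacs_smith hM fun χ h1 h2 => ?_, fun h => ⟨1, fun χ h1 h2 => ?_⟩⟩
  · have h3 : charDegree (trivIrr G : G → ℂ) = 1 := charDegree_eq_of_apply_one (by simp)
    rw [hd χ h1 (by rw [blockHeight_principal hM h1, Nat.factorization_eq_zero_of_not_dvd h2]), ← h3,
      hd _ one_mem_principalBlock (by rw [blockHeight_principal hM one_mem_principalBlock, h3]; simp)]
  · obtain ⟨k, hk⟩ := H03.exists_index_pResidual (G := G) (p := p)
    rw [blockHeight_principal hM h1] at h2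
    rw [principal_eq_of_complement hM h hk] at h1
    obtain ⟨ψ, rfl⟩ := exists_infl (QuotientGroup.mk'_surjective (pResidual p G)) (χ := χ)
      (by simpa using h1)
    obtain ⟨j, -, hj⟩ := (Nat.dvd_prime_pow hM.1).1 (ψ.2.charDegree_dvd_card.trans hk.dvd)
    rw [charDegree_infl, hj] at h2 ⊢
    rw [hM.1.factorization_pow, Finsupp.single_eq_same] at h2
    rw [h2, pow_zero]

end Cfsg.Agent.S4888
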