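import Mathlib
import Cfsg.Statements.S4889
import Cfsg.Agent.H21.EqDeg

set_option autoImplicit false
open Cfsg

namespace Cfsg.Agent.S4889
open H05 Cfsg H20 H21 MonoidAlgebra Classical
open scoped ComplexConjugate
attribute [-instance] H19.instFintypeSubgroupFrob

/-- Let G be a finite group, p a prime, M a maximal ideal of the algebraic integers containing p, and B a p-block of G that has an abelian defect group and in which every irreducible character has height zero. Then all irreducible characters of B have the same degree if and only if B is a nilpotent block. -/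
theorem result {G : Type*} [Group G] [Finite G] (p : ℕ) [Fact p.Prime] (M : Ideal Cfsg.AlgInt) (hM : Cfsg.IsPModular p M) (B : Set (Cfsg.IrrCharacter G)) (hB : Cfsg.IsPBlock M B) (D : Subgroup G) (hD : Cfsg.IsDefectGroup p M B D) (hDab : IsMulCommutative ↥D) (h0 : ∀ χ : Cfsg.IrrCharacter G, χ ∈ B → Cfsg.blockHeight p B (χ : G → ℂ) = 0) : (∃ d : ℕ, ∀ χ : Cfsg.IrrCharacter G, χ ∈ B → Cfsg.charDegree (χ : G → ℂ) = d) ↔ Cfsg.IsNilpotentBlock p M B := by
  haveI := hM.2.1
  haveI := Fintype.ofFinite G
  obtain ⟨c, h⟩ := exists_mx hM hB hD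
  have hab : D ≤ Subgroup.centralizer (D : Set G) := fun x hx y hy =>
    congrArg Subtype.val (hDab.1.1 ⟨y, hy⟩ ⟨x, hx⟩)
  rw [isNilpotentBlock_iff_of_comm hM h.max hab]
  refine ⟨fun ⟨d, hd⟩ => h.nil_of_agree hab (agree_of_deg hM hB h0 (m := d) fun χ hχ => by
    rw [← χ.2.isCharacter.charDegree_eq, hd χ hχ]), fun hn => ?_⟩
  obtain ⟨ξ, hξ⟩ := hB.nonempty
  exact ⟨_, fun χ hχ => by
    rw [charDegree, h.nil_agree hab hn hχ hξ (by simpa using hM.1.one_lt.ne'), ← charDegree]⟩

end Cfsg.Agent.S4889
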