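import Mathlib
import Cfsg.Statements.S4890
import Cfsg.Agent.H21.NormDef
import Cfsg.Agent.S4889
import Cfsg.Agent.S0972

set_option autoImplicit false
open Cfsg

namespace Cfsg.Agent.S4890
open H05 Cfsg H20 H21 MonoidAlgebra Classical
attribute [-instance] H19.instFintypeSubgroupFrob

/-- Let G be a finite group, p a prime, M a maximal ideal of the algebraic integers containing p, and B a p-block of G with a defect group that is normal in G. Then all height-zero irreducible characters of B have the same degree if and only if B is a nilpotent block. -/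
theorem result {G : Type*} [Group G] [Finite G] (p : ℕ) [Fact p.Prime] (M : Ideal Cfsg.AlgInt) (hM : Cfsg.IsPModular p M) (B : Set (Cfsg.IrrCharacter G)) (hB : Cfsg.IsPBlock M B) (D : Subgroup G) (hD : Cfsg.IsDefectGroup p M B D) (hDn : D.Normal) : (∃ d : ℕ, ∀ χ : Cfsg.IrrCharacter G, χ ∈ B → Cfsg.blockHeight p B (χ : G → ℂ) = 0 → Cfsg.charDegree (χ : G → ℂ) = d) ↔ Cfsg.IsNilpotentBlock p M B := by
  haveI := hM.2.1
  haveI := Fintype.ofFinite G
  refine ⟨fun ⟨d, hd⟩ => ?_, fun hn => ?_⟩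
  · let f := QuotientGroup.mk' ⁅D, D⁆
    have hf : Function.Surjective f := QuotientGroup.mk'_surjective _
    have hk : f.ker = ⁅D, D⁆ := QuotientGroup.ker_mk' _
    have hkD : f.ker ≤ D := hk.le.trans (Subgroup.commutator_le_left D D)
    obtain ⟨b, b1, b2, b3⟩ := exists_dom_defectGroup hM hf (hD.isPGroup.to_le hkD) hB hD
    obtain ⟨χ, hχ⟩ := b1.nonempty
    obtain rfl : b = dom hf B := b2.antisymm fun ψ hψ => b1.mem_of_sameBlock hχ
      ((sameBlock_infl_iff_of_commutator hM hf hD.isPGroup hk.le).1 (hB.sameBlock (b2 hχ) hψ))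
    haveI := hDn.map f hf
    have h1 : ∀ a ∈ D.map f, ∀ c ∈ D.map f, a * c = c * a := by
      rintro _ ⟨a, ha, rfl⟩ _ ⟨c, hc, rfl⟩
      rw [← commutatorElement_eq_one_iff_mul_comm, ← map_commutatorElement, ← MonoidHom.mem_ker, hk]
      exact Subgroup.commutator_mem_commutator ha hc
    have h2 := (Cfsg.Agent.S0972.result p M hM _ b1 _ b3).1 h1
    refine nilpotent_of_dom hM hB hD hf hk.le ((Cfsg.Agent.S4889.result p M hM _ b1 _ b3
      ⟨⟨fun a c => Subtype.ext (h1 _ a.2 _ c.2)⟩⟩ h2).1 ⟨d, fun ψ hψ => ?_⟩)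
    rw [← charDegree_infl hf]
    refine hd _ hψ ((blockHeight_eq_zero_iff (B := B) (χ := infl hf ψ) p hψ).2 ?_)
    have h3 := (blockHeight_eq_zero_iff p hψ).1 (h2 ψ hψ)
    have h4 := congrArg (fun n => n.factorization p) (card_map_mul_of_ker_le hkD)
    have h5 := factorization_card_quotient hM.1 ⁅D, D⁆
    simp only [Nat.factorization_mul Nat.card_pos.ne' Nat.card_pos.ne', Finsupp.add_apply,
      hD.factorization_card hM hB, b3.factorization_card hM b1, hk] at h4
    rw [charDegree_infl]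
    omega
  · obtain ⟨c, h⟩ := exists_mx hM hB hD
    obtain ⟨ξ, h1, h2⟩ := hB.exists_height_zero p
    obtain ⟨Φ, -, h3⟩ := h.exists_equiv_of_ctl (h.ctl_of_nilpotent hn) h1 h2
    refine ⟨charDegree (ξ : G → ℂ), fun χ hχ h4 => ?_⟩
    obtain ⟨η, hη⟩ := Φ.surjective ⟨χ, hχ⟩
    have h5 := h3 η 1 (by simpa using hM.1.ne_one)
    rw [hη, ← χ.2.charDegree_eq, ← η.2.charDegree_eq, ← ξ.2.charDegree_eq, ← Nat.cast_mul,
      Nat.cast_inj] at h5
    obtain ⟨k, -, hk⟩ := (Nat.dvd_prime_pow hM.1).1 (hD.card_eq hM hB ▸ η.2.charDegree_dvd_card)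
    have h6 := (blockHeight_eq_zero_iff p hχ).1 h4
    rw [← (blockHeight_eq_zero_iff p h1).1 h2, h5, hk, Nat.factorization_mul (pow_ne_zero _
      hM.1.ne_zero) (charDegree_ne_zero' ξ), Finsupp.add_apply, hM.1.factorization_pow,
      Finsupp.single_eq_same] at h6
    rw [h5, hk, show k = 0 by omega, pow_zero, one_mul]

end Cfsg.Agent.S4890
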