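import Mathlib
import Cfsg.Agent.H20.PRat
-- Template for statement S4892 (row 4892; see /opt/grader/pristine/manifest.json for weights).
-- Copy to Cfsg/Agent/S4892.lean and replace the sorry. The statement below is byte-identical to the frozen
-- statement Cfsg.CfsgFrozen.S4892 (Cfsg/Statements/S4892.lean; the theorem Cfsg.blk11_p_rational_p_prime_degree_principal_character_extends_p_rationally);
-- the grader kernel-checks Cfsg.Agent.S4892.result against that frozen type. Keep the theorem IN THIS FILE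
-- (a `result` declared elsewhere and merely imported here is not credited); helpers may live anywhere
-- under Cfsg/Agent/.
import Cfsg.Statements.S4892
-- import your own Cfsg.Agent.* helpers here

set_option autoImplicit false
open Cfsg

open H20 H05 H21 MonoidAlgebra Cfsg

namespace Cfsg.Agent.S4892

/-- Let p be an odd prime, M a maximal ideal of the algebraic integers containing p, N a normal subgroup of the finite group G, and θ an irreducible character of N that is G-invariant, of degree prime to p, p-rational (values in the field generated over ℚ by a root of unity of order prime to p) and lies in the principal p-block of N. Let Q be a Sylow p-subgroup of N and suppose the index of N·C_G(Q) in G is a power of p. Then θ extends to a p-rational irreducible character of G lying in the principal p-block of G. -/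
theorem result {G : Type*} [Group G] [Finite G] (p : ℕ) [Fact p.Prime] (hp : p ≠ 2) (M : Ideal Cfsg.AlgInt) (hM : Cfsg.IsPModular p M) (N : Subgroup G) [N.Normal] (θ : Cfsg.IrrCharacter ↥N) (hinv : ∀ g : G, ∀ n n' : ↥N, (n' : G) = g * (n : G) * g⁻¹ → (θ : ↥N → ℂ) n' = (θ : ↥N → ℂ) n) (hdeg : ¬ p ∣ Cfsg.charDegree (θ : ↥N → ℂ)) (hrat : ∃ m : ℕ, ¬ p ∣ m ∧ ∀ n : ↥N, (θ : ↥N → ℂ) n ∈ IntermediateField.adjoin ℚ ({Complex.exp (2 * Real.pi * Complex.I / m)} : Set ℂ)) (hB : θ ∈ Cfsg.principalBlock M ↥N) (Q : Sylow p ↥N) (hidx : ∃ a : ℕ, (N ⊔ Subgroup.centralizer (((Q : Subgroup ↥N).map N.subtype : Subgroup G) : Set G)).index = p ^ a) : ∃ χ : Cfsg.IrrCharacter G, χ ∈ (Cfsg.principalBlock M G) ∧ (∃ n : ℕ, ¬ p ∣ n ∧ ∀ g : G, (χ : G → ℂ) g ∈ IntermediateField.adjoin ℚ ({Complex.exp (2 * Real.pi * Complex.I / n)} : Set ℂ)) ∧ ∀ n : ↥N, (χ : G → ℂ) n = (θ : ↥N → ℂ) n := by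
  obtain ⟨m, hm, h1⟩ := hrat
  obtain ⟨a, ha⟩ := hidx
  have hn : Nat.card G * m ≠ 0 := mul_ne_zero Nat.card_pos.ne' fun h0 => hm (h0 ▸ dvd_zero p)
  have hG : ∀ g : G, g ^ (Nat.card G * m) = 1 := fun g => by rw [pow_mul, pow_card_eq_one', one_pow]
  have h2 : ∀ σ, PGal p (Nat.card G * m) σ → ∀ x, σ ((θ : N → ℂ) x) = (θ : N → ℂ) x := fun σ hσ x =>
    hσ.apply_of_mem hM.1 hn hm (dvd_mul_left _ _) (h1 x)
  have := (sylIn_map Q).normal_sup_centralizer
  obtain ⟨χ, h3, h4, -, h5⟩ := exists_pRat_ext hM hn hG le_sup_left (dc_sup (sylIn_map Q)) ha hB hinv hdeg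
    (not_dvd_detOrder_of_pGal hM.1 hp hn (fun g => Subtype.ext (hG g)) θ.2.isCharacter h2)
  exact ⟨χ, h3, ⟨_, Nat.not_dvd_ordCompl hM.1 hn, fun g => mem_adjoin_of_pGal hn (χ.2.isCharacter.isIntegral g)
    fun σ hσ => h5 σ hσ (h2 σ hσ) g⟩, h4⟩

end Cfsg.Agent.S4892
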