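import Mathlib
import Cfsg.Statements.S4912
import Cfsg.Agent.H07.Real2

set_option autoImplicit false
open Cfsg
open H05 H06 Cfsg H07

namespace Cfsg.Agent.S4912

/-- Let G be a finite group with a non-abelian minimal normal subgroup N, and let φ be an irreducible complex character of N with stabilizer I in G such that φ extends to an irreducible character of I with Frobenius–Schur indicator +1. Put d = φ(1)·[G : I]. Then the number of linear characters of G with Frobenius–Schur indicator +1 is at most [G : I] times the number of irreducible characters of G of degree d with Frobenius–Schur indicator +1. -/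
theorem result {G : Type*} [Group G] [Finite G] (N : Subgroup G) (hN : N.Normal) (hN1 : N ≠ ⊥) (hmin : ∀ M : Subgroup G, M.Normal → M ≤ N → M = ⊥ ∨ M = N) (hna : ¬ IsMulCommutative ↥N) (φ : Cfsg.IrrCharacter ↥N) (I : Subgroup G) (hI : ∀ g : G, g ∈ I ↔ ∀ n n' : ↥N, (n' : G) = g * (n : G) * g⁻¹ → (φ : ↥N → ℂ) n' = (φ : ↥N → ℂ) n) (hNI : N ≤ I) (hext : ∃ ψ : Cfsg.IrrCharacter ↥I, (Nat.card ↥I : ℂ)⁻¹ * ∑ᶠ g : ↥I, (ψ : ↥I → ℂ) (g * g) = 1 ∧ ∀ n : ↥N, (ψ : ↥I → ℂ) (Subgroup.inclusion hNI n) = (φ : ↥N → ℂ) n) : Nat.card {χ : Cfsg.IrrCharacter G // Cfsg.charDegree (χ : G → ℂ) = 1 ∧ (Nat.card G : ℂ)⁻¹ * ∑ᶠ g : G, (χ : G → ℂ) (g * g) = 1} ≤ I.index * Nat.card {χ : Cfsg.IrrCharacter G // Cfsg.charDegree (χ : G → ℂ) = Cfsg.charDegree (φ : ↥N → ℂ) * I.index ∧ (Nat.card G : ℂ)⁻¹ * ∑ᶠ g : G, (χ : G → ℂ) (g * g) = 1} := by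
  let _ := Fintype.ofFinite G
  let _ := Fintype.ofFinite I
  simp only [finsum_eq_sum_of_fintype] at hext ⊢
  obtain ⟨ψ, hfs, hψ⟩ := hext
  have hT := H07.eq_inertia hI
  obtain ⟨h1, h2⟩ := H07.isIrr_ind_ext N φ.2 hT hNI ψ.2.isCharacter hψ
  have h3 := fun μ : G →* ℂˣ => (H07.le_commutator_of_minimal hmin hna).trans (Abelianization.commutator_subset_ker μ)
  exact H07.card_lin_le h1 I (fun χ => fsIndicator χ.1 = 1)
    (fun χ => Cfsg.charDegree χ.1 = Cfsg.charDegree φ.1 * I.index ∧ fsIndicator χ.1 = 1)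
    (fun a b _ _ => H07.eq_on_inertia N φ.2 hT hNI ψ.2.isCharacter hψ (h3 a) (h3 b))
    (fun a ha => ⟨(H07.deg_mul_hom h1.isCharacter a).trans h2,
      (H07.fs_mul_hom ha).trans ((H07.fs_indFun I ψ.2 (H07.real_of_fs ψ.2 hfs) h1).trans hfs)⟩)

end Cfsg.Agent.S4912
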