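import Mathlib
import Cfsg.Statements.S4914
import Cfsg.Agent.H07.Glb6

set_option autoImplicit false
open Cfsg
open H05 H06 Cfsg H07

namespace Cfsg.Agent.S4914

/-- Let P and K be subgroups of a finite group G with P a p-group normalizing K, and suppose K has a normal Sylow p-subgroup Q. Let C be the subgroup of those k ∈ K whose commutator with every element of P lies in Q (so that C/Q is the fixed-point subgroup of P on K/Q). Then there is a bijection f from the P-invariant irreducible complex characters of K onto the P-invariant irreducible complex characters of C such that, for every P-invariant irreducible character χ of K, the multiplicity of f(χ) in the restriction of χ to C is a natural number congruent to 1 or to −1 modulo p, every other P-invariant irreducible character of C occurs in that restriction with multiplicity divisible by p, and the degrees of χ and f(χ) are congruent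 modulo p up to sign. -/
theorem result {G : Type*} [Group G] [Finite G] (p : ℕ) [Fact p.Prime] (P K Q C : Subgroup G) (hP : IsPGroup p ↥P) (hPK : P ≤ Subgroup.normalizer (K : Set G)) (hQK : Q ≤ K) (hQn : ∀ k ∈ K, ∀ q ∈ Q, k * q * k⁻¹ ∈ Q) (hQp : ∃ a : ℕ, Nat.card ↥Q = p ^ a) (hQsyl : ¬ p ∣ Q.relIndex K) (hCK : C ≤ K) (hC : ∀ k : G, k ∈ C ↔ (k ∈ K ∧ ∀ x ∈ P, x * k * x⁻¹ * k⁻¹ ∈ Q)) : ∃ f : {χ : Cfsg.IrrCharacter ↥K // (∀ x ∈ P, ∀ k k' : ↥K, (k' : G) = x * (k : G) * x⁻¹ → (χ : ↥K → ℂ) k' = (χ : ↥K → ℂ) k)} → {ξ : Cfsg.IrrCharacter ↥C // (∀ x ∈ P, ∀ k k' : ↥C, (k' : G) = x * (k : G) * x⁻¹ → (ξ : ↥C → ℂ) k' = (ξ : ↥C → ℂ) k)}, Function.Bijective f ∧ ∀ χ, (∀ ξ : {ξ : Cfsg.IrrCharacter ↥C // (∀ x ∈ P, ∀ k k' : ↥C, (k' : G) = x * (k : G) * x⁻¹ → (ξ : ↥C → ℂ) k' = (ξ : ↥C → ℂ) k)}, ∃ m : ℕ, (Nat.card ↥C : ℂ)⁻¹ * ∑ᶠ c : ↥C, (χ.1 : ↥K → ℂ) (Subgroup.inclusion hCK c) * (starRingEnd ℂ) ((ξ.1 : ↥C →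 ℂ) c) = (m : ℂ) ∧ (ξ = f χ → ((m : ZMod p) = 1 ∨ (m : ZMod p) = -1)) ∧ (ξ ≠ f χ → p ∣ m)) ∧ ((Cfsg.charDegree ((f χ).1 : ↥C → ℂ) : ZMod p) = (Cfsg.charDegree (χ.1 : ↥K → ℂ) : ZMod p) ∨ (Cfsg.charDegree ((f χ).1 : ↥C → ℂ) : ZMod p) = -(Cfsg.charDegree (χ.1 : ↥K → ℂ) : ZMod p)) := by
  have hp : p.Prime := Fact.out
  have hKQ := H01.le_normalizer_of_conj_mem hQn
  obtain ⟨a, ha⟩ := hQp
  have hPQ : P ≤ Subgroup.normalizer (Q : Set G) := H01.le_normalizer_of_conj_mem fun x hx q hq => by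
    have := normal_subgroupOf hKQ
    obtain ⟨m, hm⟩ := exists_pow_eq_self_of_coprime (x := x * q * x⁻¹) (n := Q.relIndex K)
      ((((Nat.Prime.coprime_iff_not_dvd hp).2 hQsyl).symm.pow_right a).coprime_dvd_right (by
        rw [← MulAut.conj_apply, MulEquiv.orderOf_eq, ← ha]; exact Subgroup.orderOf_dvd_natCard Q hq))
    exact hm ▸ pow_mem (Subgroup.pow_index_mem (Q.subgroupOf K) ⟨_, H01.conj_mem_of_le_normalizer hPK hx (hQK hq)⟩) m
  have hPC := le_normalizer_of_comm hPK hPQ hC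
  have h := corr_rel hP hPK hPQ hQK hKQ (IsPGroup.of_card ha) hQsyl hCK hC
  obtain ⟨f, h1, h2⟩ := h.exists_bij
  let e : ∀ {X : Subgroup G}, P ≤ Subgroup.normalizer (X : Set G) → {χ : IrrCharacter X //
      ∀ x ∈ P, ∀ k k' : X, (k' : G) = x * k * x⁻¹ → χ.1 k' = χ.1 k} ≃ IrrInv P X := fun h =>
    ⟨fun χ => ⟨χ.1.1, χ.1.2, (le_stab_iff h).2 χ.2⟩, fun χ => ⟨⟨χ.1, χ.2.1⟩, (le_stab_iff h).1 χ.2.2⟩,
      fun _ => rfl, fun _ => rfl⟩
  have := Fintype.ofFinite C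
  refine ⟨(e hPC).symm ∘ f ∘ e hPK, (e hPC).symm.bijective.comp (h1.comp (e hPK).bijective), fun χ => ⟨fun ξ =>
    ⟨mult (Subgroup.inclusion hCK) χ.1.1 ξ.1.1, ?_, ?_, fun h3 => by_contra fun h4 => h3 ?_⟩, ?_⟩⟩
  · rw [mult_eq _ χ.1.2.isCharacter ξ.1.2.isCharacter, finsum_eq_sum_of_fintype]; rfl
  · rintro rfl
    exact h.pm (e hPK χ).2 (f _).2 (h2 _)
  · exact (e hPC).injective (Subtype.ext (h.uniq (e hPK χ).2 (e hPC ξ).2 (f _).2 h4 (h2 _)))
  · have h3 := h.degree hP hPC (e hPK χ).2 (f _).2 (h2 _)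
    rcases h.pm (e hPK χ).2 (f _).2 (h2 _) with h4 | h4 <;> rw [h4] at h3
    · exact .inl ((one_mul _).symm.trans h3.symm)
    · exact .inr (neg_eq_iff_eq_neg.1 ((neg_one_mul _).symm.trans h3.symm))

end Cfsg.Agent.S4914
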