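import Mathlib
import Cfsg.Statements.S4916
import Cfsg.Agent.H21.Quot

set_option autoImplicit false
open Cfsg

namespace Cfsg.Agent.S4916
open H05 Cfsg H20 H21 MonoidAlgebra Classical
open scoped ComplexConjugate

/-- Let G be a finite group, p a prime and M a maximal ideal of the algebraic integers containing p. Then the principal character is the only irreducible character of degree prime to p in the principal p-block of G if and only if p does not divide the order of G. -/
theorem result {G : Type*} [Group G] [Finite G] (p : ℕ) [Fact p.Prime] (M : Ideal Cfsg.AlgInt) (hM : Cfsg.IsPModular p M) : (∀ χ : Cfsg.IrrCharacter G, χ ∈ Cfsg.principalBlock M G → ¬ p ∣ Cfsg.charDegree (χ : G → ℂ) → (χ : G → ℂ) = fun _ => (1 : ℂ)) ↔ ¬ p ∣ Nat.card G := by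
  haveI := hM.2.1
  haveI := Fintype.ofFinite G
  constructor
  · intro h hp
    obtain ⟨ψ, hψ, h1, h2⟩ := exists_other_height_zero hM (isPBlock_principal (M := M) (G := G)) (by
      rw [blockDefect_principal hM]
      exact (hM.1.factorization_pos_of_dvd Nat.card_pos.ne' hp).ne') (irrOne G)
    rw [blockHeight_principal hM hψ] at h2
    exact h1 (Subtype.ext (h ψ hψ fun h3 =>
      (hM.1.factorization_pos_of_dvd (charDegree_ne_zero' _) h3).ne' h2))
  · intro h χ hχ _
    have := blockOf_eq_singleton_of_not_dvd hM h (irrOne G)
    have h1 : χ ∈ blockOf M (irrOne G : G → ℂ) := hχ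
    rw [this] at h1
    rw [h1]; rfl

end Cfsg.Agent.S4916
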