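import Mathlib
import Cfsg.Agent.H20.PRat
import Cfsg.Agent.H04.TwoGroups
-- Template for statement S4923 (row 4923; see /opt/grader/pristine/manifest.json for weights).
-- Copy to Cfsg/Agent/S4923.lean and replace the sorry. The statement below is byte-identical to the frozen
-- statement Cfsg.CfsgFrozen.S4923 (Cfsg/Statements/S4923.lean; the theorem Cfsg.chr12_sylow_two_abelianization_four_iff_field_of_values_criterion);
-- the grader kernel-checks Cfsg.Agent.S4923.result against that frozen type. Keep the theorem IN THIS FILE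
-- (a `result` declared elsewhere and merely imported here is not credited); helpers may live anywhere
-- under Cfsg/Agent/.
import Cfsg.Statements.S4923
-- import your own Cfsg.Agent.* helpers here

set_option autoImplicit false
open Cfsg

open H20 H05 H04 Cfsg

namespace Cfsg.Agent.S4923

theorem adjoin_le {S T : Set ℂ} (hS : ∀ x ∈ S, IsIntegral ℤ x) (hT : ∀ x ∈ T, IsIntegral ℤ x)
    (h : ∀ σ : ℂ ≃+* ℂ, (∀ x ∈ T, σ x = x) → ∀ x ∈ S, σ x = x) :
    IntermediateField.adjoin ℚ S ≤ IntermediateField.adjoin ℚ T := by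
  have : Algebra.IsAlgebraic ℚ (IntermediateField.adjoin ℚ T) :=
    IntermediateField.isAlgebraic_adjoin (K := ℚ) (S := T) fun x hx => (hT x hx).tower_top
  exact IntermediateField.adjoin_le_iff.2 fun x hx => mem_adjoin_of_fixed (hS x hx).tower_top.isAlgebraic
    fun σ hσ => h σ (fun y hy => hσ y (IntermediateField.subset_adjoin ℚ T hy)) x hx

theorem fix_of_mem {S : Set ℂ} {σ : ℂ ≃+* ℂ} (h : ∀ x ∈ S, σ x = x) {y : ℂ}
    (hy : y ∈ IntermediateField.adjoin ℚ S) : σ y = y := by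
  induction hy using IntermediateField.adjoin_induction with
  | mem x hx => exact h x hx
  | algebraMap x => simp
  | add x y _ _ h1 h2 => rw [map_add, h1, h2]
  | inv x _ h1 => rw [map_inv₀, h1]
  | mul x y _ _ h1 h2 => rw [map_mul, h1, h2]

theorem fix_iff {G : Type*} [Group G] [Finite G] {g : G} {N k : ℕ} (hg : g ^ N = 1) {σ : ℂ ≃+* ℂ}
    (h : ∀ ω : ℂ, ω ^ N = 1 → σ ω = ω ^ k) :
    (∀ x ∈ {z : ℂ | ∃ χ : IrrCharacter G, (χ : G → ℂ) g = z}, σ x = x) ↔ IsConj (g ^ k) g := by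
  have h1 : ∀ χ : IrrCharacter G, σ (χ.1 g) = χ.1 (g ^ k) := fun χ =>
    χ.2.isGeneralizedCharacter.galois_apply_eq_pow σ.toRingHom g k fun ω hω => h ω (by
      obtain ⟨c, hc⟩ := orderOf_dvd_of_pow_eq_one hg
      rw [hc, pow_mul, hω, one_pow])
  rw [isConj_iff_irr]
  exact ⟨fun h2 χ => h1 χ ▸ h2 _ ⟨χ, rfl⟩, fun h2 _ ⟨χ, e⟩ => e ▸ (h1 χ).trans (h2 χ)⟩

theorem exists_conj_sylow {G : Type*} [Group G] [Finite G] (P : Sylow 2 G) {a x : G} {j : ℕ}
    (ha : orderOf a = 2 ^ (j + 1)) (hP : (P : Subgroup G) ≤ Subgroup.normalizer (Subgroup.zpowers a : Set G))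
    (hx : x ∈ Subgroup.normalizer (Subgroup.zpowers a : Set G)) : ∃ y ∈ P, x * a * x⁻¹ = y * a * y⁻¹ := by
  let φ := (Subgroup.zpowers a).normalizerMonoidHom
  have h1 := Subgroup.index_map_dvd ((P : Subgroup G).subgroupOf _) φ.rangeRestrict_surjective
  have h2 := (Subgroup.index_dvd_card (((P : Subgroup G).subgroupOf _).map φ.rangeRestrict)).trans
    (Subgroup.card_subgroup_dvd_card φ.range)
  rw [IsCyclic.card_mulAut, Nat.card_zpowers, ha, Nat.totient_prime_pow_succ Nat.prime_two] at h2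
  have h3 := Subgroup.index_eq_one.1 (Nat.eq_one_of_dvd_coprimes ((Nat.coprime_two_right.2
    (Nat.odd_iff.2 (Nat.two_dvd_ne_zero.1 P.not_dvd_index))).pow_right j)
    (h1.trans (Subgroup.relIndex_dvd_index_of_le hP)) (by simpa using h2))
  obtain ⟨y, h4, h5⟩ := h3.ge (Subgroup.mem_top (φ.rangeRestrict ⟨x, hx⟩))
  exact ⟨y, h4, (congrArg (fun f : φ.range => (f.1 ⟨a, Subgroup.mem_zpowers a⟩ : G)) h5).symm⟩

theorem add_inv_eq {x y ε : ℂ} (hx : x ≠ 0) (hy : y ≠ 0) : x + ε * x⁻¹ = y + ε * y⁻¹ ↔ x = y ∨ x = ε * y⁻¹ := by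
  rw [← sub_eq_zero, ← sub_eq_zero (a := x), ← sub_eq_zero (a := x), ← mul_eq_zero,
    show x + ε * x⁻¹ - (y + ε * y⁻¹) = (x - y) * (x - ε * y⁻¹) * x⁻¹ by field_simp; ring, mul_eq_zero,
    or_iff_left (inv_ne_zero hx)]

/-- Let G be a finite group with Sylow 2-subgroup P of order 2^n ≥ 8, and let ζ be a primitive 2^(n−1)-th root of unity in ℂ. Then the commutator subgroup of P has index 4 in P if and only if there is an element g of P whose conjugacy class in G has even size and such that the field generated over ℚ by the values at g of all irreducible complex characters of G equals ℚ(ζ + ζ⁻¹) or ℚ(ζ − ζ⁻¹). -/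
theorem result {G : Type*} [Group G] [Finite G] (P : Sylow 2 G) (n : ℕ) (hn : 3 ≤ n) (hP : Nat.card P = 2 ^ n) (ζ : ℂ) (hζ : IsPrimitiveRoot ζ (2 ^ (n - 1))) :
    (commutator ↥P).index = 4 ↔
      ∃ g : G, g ∈ (P : Subgroup G) ∧ 2 ∣ (Subgroup.centralizer ({g} : Set G)).index ∧
        (IntermediateField.adjoin ℚ {z : ℂ | ∃ χ : Cfsg.IrrCharacter G, (χ : G → ℂ) g = z} = IntermediateField.adjoin ℚ ({ζ + ζ⁻¹} : Set ℂ) ∨
          IntermediateField.adjoin ℚ {z : ℂ | ∃ χ : Cfsg.IrrCharacter G, (χ : G → ℂ) g = z} = IntermediateField.adjoin ℚ ({ζ - ζ⁻¹} : Set ℂ)) := by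
  change (commutator (P : Subgroup G)).index = 4 ↔ _
  obtain ⟨m, rfl⟩ := Nat.exists_eq_add_of_le' hn
  replace hζ : IsPrimitiveRoot ζ (2 ^ (m + 2)) := hζ
  have z0 := hζ.ne_zero (by positivity)
  have zi := hζ.isIntegral (by positivity)
  have zi' := hζ.inv.isIntegral (by positivity)
  have zn : ζ ^ 2 ^ (m + 1) = -1 := (hζ.pow (by positivity) (pow_succ 2 (m + 1))).eq_neg_one_of_two_right
  constructor
  · intro h4
    obtain ⟨a, b, h⟩ := taussky_aux m P hP (fun hc => by
      rw [(commutator_eq_bot_iff P).2 hc, Subgroup.index_bot, hP, pow_add] at h4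
      omega) h4
    have ho : orderOf (a : G) = 2 ^ (m + 2) := (Subgroup.orderOf_coe a).trans h.ord
    refine ⟨a, a.2, by_contra fun hi => ?_, ?_⟩
    · obtain ⟨Q, hQ⟩ := (IsPGroup.of_card (G := Subgroup.zpowers (⟨a, Subgroup.mem_centralizer_singleton_iff.2 rfl⟩ :
        Subgroup.centralizer ({(a : G)} : Set G))) (by
          rw [Nat.card_zpowers, ← Subgroup.orderOf_coe, ho])).exists_le_sylow
      have h1 : ¬ 2 ∣ ((Q : Subgroup _).map (Subgroup.centralizer ({(a : G)} : Set G)).subtype).index := by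
        rw [Subgroup.index_map_subtype]
        exact Nat.prime_two.not_dvd_mul Q.not_dvd_index hi
      have h2 := (h.map (P.equiv ((Q.2.map _).toSylow h1))).card_center
      have h3 := Subgroup.orderOf_dvd_natCard _ (show (⟨a, _, hQ (Subgroup.mem_zpowers _), rfl⟩ :
          ((Q.2.map _).toSylow h1 : Subgroup G)) ∈ Subgroup.center _ from Subgroup.mem_center_iff.2 fun y => by
        obtain ⟨_, y, -, rfl⟩ := y
        exact Subtype.ext (Subgroup.mem_centralizer_singleton_iff.1 y.2))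
      rw [h2, ← Subgroup.orderOf_coe, ho] at h3
      have := (Nat.pow_dvd_pow_iff_le_right one_lt_two).1 (h3.trans (pow_one 2).symm.dvd)
      omega
    · have hp : ∀ k l : ℕ, a ^ k = a ^ l ↔ ζ ^ k = ζ ^ l := fun k l => by
        rw [pow_eq_pow_iff_modEq, (hζ.isOfFinOrder (by positivity)).pow_eq_pow_iff_modEq, ← hζ.eq_orderOf, h.ord]
      have key : ∀ ε : ℂ, IsIntegral ℤ ε → (∀ σ : ℂ ≃+* ℂ, σ ε = ε) →
          (∀ k, a ^ k = b * a * b⁻¹ ↔ ζ ^ k = ε * ζ⁻¹) → IntermediateField.adjoin ℚ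
          {z : ℂ | ∃ χ : IrrCharacter G, (χ : G → ℂ) a = z} = IntermediateField.adjoin ℚ {ζ + ε * ζ⁻¹} := by
        intro ε h1 h2 h3
        have h5 : ∀ σ : ℂ ≃+* ℂ, (∀ x ∈ {z : ℂ | ∃ χ : IrrCharacter G, (χ : G → ℂ) a = z}, σ x = x) ↔
            ∀ x ∈ ({ζ + ε * ζ⁻¹} : Set ℂ), σ x = x := fun σ => by
          obtain ⟨k, -, hk⟩ := exists_pow_of_ringHom (n := 2 ^ (m + 2)) (by positivity) σ.toRingHom
          rw [fix_iff (by rw [← ho, pow_orderOf_eq_one]) hk]
          simp only [Set.mem_singleton_iff, forall_eq]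
          rw [map_add, map_mul, map_inv₀,
            h2, show σ ζ = ζ ^ k from hk ζ hζ.pow_eq_one, add_inv_eq (pow_ne_zero k z0) z0, ← h3]
          have h6 : ζ ^ k = ζ ↔ a ^ k = a := by simpa using (hp k 1).symm
          rw [h6, isConj_comm, isConj_iff]
          refine ⟨fun ⟨x, hx⟩ => ?_, fun h7 => h7.elim (fun h7 => ⟨1, by simp [← Subgroup.coe_pow, h7]⟩)
            fun h7 => ⟨b, (congrArg Subtype.val h7).symm⟩⟩
          obtain ⟨y, hy, h7⟩ := exists_conj_sylow P (x := x) ho (fun y hy => Subgroup.mem_normalizer_fintype (by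
            rintro _ ⟨i, rfl⟩
            obtain ⟨j, hj⟩ := h.normal.1 _ (Subgroup.zpow_mem_zpowers a i) ⟨y, hy⟩
            exact ⟨j, congrArg Subtype.val hj⟩)) (Subgroup.mem_normalizer_fintype (by
            rintro _ ⟨i, rfl⟩
            exact ⟨k * i, by simp only [← conj_zpow, hx, zpow_mul, zpow_natCast]⟩))
          rw [hx] at h7
          rcases h.cases ⟨y, hy⟩ with ⟨i, hi⟩ | ⟨i, hi⟩
          · refine Or.inl (Subtype.ext (h7.trans ?_))
            rw [show y = a ^ i from congrArg Subtype.val hi]; group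
          · refine Or.inr (Subtype.ext (h7.trans ?_))
            rw [show y = b * a ^ i from congrArg Subtype.val hi]; push_cast; group
        have h6 : ∀ x ∈ {z : ℂ | ∃ χ : IrrCharacter G, (χ : G → ℂ) a = z}, IsIntegral ℤ x :=
          fun _ ⟨χ, e⟩ => e ▸ χ.2.isCharacter.isIntegral _
        have h7 : ∀ x ∈ ({ζ + ε * ζ⁻¹} : Set ℂ), IsIntegral ℤ x := fun _ e => e ▸ zi.add (h1.mul zi')
        exact le_antisymm (adjoin_le h6 h7 fun σ => (h5 σ).2) (adjoin_le h7 h6 fun σ => (h5 σ).1)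
      have h6 : b * a * b⁻¹ = a⁻¹ → _ := fun e => key 1 isIntegral_one map_one fun k => by
        rw [e, one_mul, eq_inv_iff_mul_eq_one, ← mul_inv_eq_one₀ (inv_ne_zero z0), inv_inv, ← pow_succ, ← pow_succ,
          ← pow_zero a, ← pow_zero ζ, hp]
      rcases h.rel with e | e | e
      · exact Or.inl (by simpa using h6 e.2)
      · exact Or.inl (by simpa using h6 e.2)
      · refine Or.inr (by
          simpa [sub_eq_add_neg] using key (-1) isIntegral_one.neg (by simp) fun k => by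
            rw [e.2.2, hp, pow_sub₀ _ z0 Nat.one_le_two_pow, zn, pow_one])
  · rintro ⟨g, hg, h2, h3⟩
    have hna : ¬ IsMulCommutative P := fun hc => P.not_dvd_index (h2.trans (Subgroup.index_dvd_of_le fun x hx =>
      Subgroup.mem_centralizer_singleton_iff.2 (congrArg Subtype.val (hc.1.1 ⟨x, hx⟩ ⟨g, hg⟩))))
    by_contra h4
    have hm : m ≠ 0 := by
      rintro rfl
      obtain ⟨a, b, h⟩ := isDSQ_of_card_eight hP hna
      exact h4 h.index_commutator
    obtain ⟨j, hj, h5⟩ := (Nat.dvd_prime_pow Nat.prime_two).1 (hP ▸ orderOf_dvd_natCard (⟨g, hg⟩ : P))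
    have h6 : j ≠ m + 3 := fun e => hna (by
      have := isCyclic_of_orderOf_eq_card _ (h5.trans (e ▸ hP.symm))
      infer_instance)
    have h7 : orderOf g = 2 ^ j := (Subgroup.orderOf_coe (⟨g, hg⟩ : P)).trans h5
    have h8 : IsConj (g ^ (1 + 2 ^ (m + 1))) g := by
      by_cases e : j = m + 2
      · obtain ⟨b, h | ⟨-, -, -, h⟩⟩ := dsq_or_modular hP (e ▸ h5) hna
        · exact absurd h.index_commutator h4
        · exact (isConj_iff.2 ⟨(b : G), by simpa using congrArg Subtype.val h⟩).symm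
      · rw [pow_add, pow_one, orderOf_dvd_iff_pow_eq_one.1 (h7 ▸ pow_dvd_pow 2 (by omega)), mul_one]
    obtain ⟨σ, hσ⟩ := exists_ringEquiv_pow (n := 2 ^ (m + 2)) (k := 1 + 2 ^ (m + 1)) (by positivity)
      (Nat.Coprime.pow_right _ (Nat.coprime_two_right.2 (Odd.add_even odd_one (by simp [Nat.even_pow]))))
    have h9 := (fix_iff (orderOf_dvd_iff_pow_eq_one.1 (h7 ▸ pow_dvd_pow 2 (by omega))) hσ).2 h8
    have h10 : σ ζ = -ζ := by rw [hσ ζ hζ.pow_eq_one, pow_add, zn]; ring
    have h11 : ζ ^ 4 = 1 := by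
      rcases h3 with h3 | h3
      · have := fix_of_mem h9 (h3.ge (IntermediateField.subset_adjoin ℚ _ rfl))
        rw [map_add, map_inv₀, h10] at this
        field_simp at this
        linear_combination (1 - ζ ^ 2) / 2 * this
      · have := fix_of_mem h9 (h3.ge (IntermediateField.subset_adjoin ℚ _ rfl))
        rw [map_sub, map_inv₀, h10] at this
        field_simp at this
        linear_combination (-1 - ζ ^ 2) / 2 * this
    have := (Nat.pow_dvd_pow_iff_le_right one_lt_two).1 (hζ.dvd_of_pow_eq_one (2 ^ 2) h11)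
    omega

end Cfsg.Agent.S4923
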