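import Mathlib
import Cfsg.Statements.S4931
import Cfsg.Agent.H03.Tate
import Cfsg.Agent.H03.Fusion
import Cfsg.Agent.H06.Degree
import Cfsg.Agent.H21.Quot
import Cfsg.Agent.H02.MinNormal

set_option autoImplicit false
open Cfsg

namespace Cfsg.Agent.S4931
open Subgroup H03 H05 Cfsg
open scoped commutatorElement

theorem ker {G : Type*} [Group G] [Finite G] {p : ℕ} [Fact p.Prime] (P : Sylow p G)
    (h : ∀ θ : IrrCharacter ↥(normalizer ((P : Subgroup G) : Set G)),
      ¬ p ∣ charDegree (θ : ↥(normalizer ((P : Subgroup G) : Set G)) → ℂ) →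
        ∃ χ : IrrCharacter G, ∀ x : ↥(normalizer ((P : Subgroup G) : Set G)),
          (χ : G → ℂ) x = (θ : ↥(normalizer ((P : Subgroup G) : Set G)) → ℂ) x)
    (R : Subgroup G) (hR : ⁅(P : Subgroup G), (P : Subgroup G)⁆ ≤ R)
    [(R.subgroupOf (normalizer ((P : Subgroup G) : Set G))).Normal] :
    ∃ L : Subgroup G, L.Normal ∧ ∀ x ∈ normalizer ((P : Subgroup G) : Set G), x ∈ L ↔ x ∈ R := by
  set N := normalizer ((P : Subgroup G) : Set G)
  let f := QuotientGroup.mk' (R.subgroupOf N)
  have hf : Function.Surjective f := QuotientGroup.mk'_surjective _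
  haveI : (((P : Subgroup G).subgroupOf N).map f).Normal := Normal.map normal_in_normalizer f hf
  haveI : IsMulCommutative (((P : Subgroup G).subgroupOf N).map f) := H02.isMulCommutative_of_commutator_eq_bot (by
    rw [← map_commutator, Subgroup.map_eq_bot_iff, QuotientGroup.ker_mk', commutator_le]
    exact fun a ha b hb => hR (commutator_mem_commutator ha hb))
  choose χ hχ using fun ψ : IrrCharacter (N ⧸ R.subgroupOf N) => h ⟨_, ψ.2.comp_of_surjective f hf⟩ fun hd =>
    not_dvd_relIndex_of_le P le_normalizer ((hd.trans (H06.ito_charDegree_dvd_index ψ.2 (((P : Subgroup G).subgroupOf N).map f))).trans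
      (index_map_dvd _ hf))
  refine ⟨⨅ ψ, charKer (χ ψ : G → ℂ), normal_iInf_normal fun _ => inferInstance, fun x hx => ?_⟩
  have e : ∀ ψ, x ∈ charKer (χ ψ : G → ℂ) ↔ ψ.1 (f ⟨x, hx⟩) = ψ.1 1 := fun ψ => by
    rw [(χ ψ).2.isCharacter.mem_charKer, hχ ψ ⟨x, hx⟩, show (χ ψ : G → ℂ) 1 = _ from hχ ψ 1]; rfl
  simp only [mem_iInf, e]
  exact ⟨fun h => (QuotientGroup.eq_one_iff (N := R.subgroupOf N) ⟨x, hx⟩).1 (eq_one_of_forall_irr h), fun h ψ => by
    rw [show f ⟨x, hx⟩ = 1 from (QuotientGroup.eq_one_iff _).2 h]⟩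


/-- Let G be a finite group, p a prime and P a Sylow p-subgroup of G with normalizer N. Then every irreducible complex character of N of degree not divisible by p is the restriction of an irreducible character of G if and only if there is a normal subgroup K of G with KN = G and K ∩ N = 1. -/
theorem result {G : Type*} [Group G] [Finite G] (p : ℕ) [Fact p.Prime] (P : Sylow p G) :
    (∀ θ : Cfsg.IrrCharacter ↥(Subgroup.normalizer ((P : Subgroup G) : Set G)), ¬ p ∣ Cfsg.charDegree (θ : ↥(Subgroup.normalizer ((P : Subgroup G) : Set G)) → ℂ) →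
        ∃ χ : Cfsg.IrrCharacter G, ∀ x : ↥(Subgroup.normalizer ((P : Subgroup G) : Set G)), (χ : G → ℂ) x = (θ : ↥(Subgroup.normalizer ((P : Subgroup G) : Set G)) → ℂ) x) ↔
      ∃ K : Subgroup G, K.Normal ∧ K ⊔ Subgroup.normalizer ((P : Subgroup G) : Set G) = ⊤ ∧ K ⊓ Subgroup.normalizer ((P : Subgroup G) : Set G) = ⊥ := by
  constructor
  · intro h
    haveI : ((⁅(P : Subgroup G), (P : Subgroup G)⁆ : Subgroup G).subgroupOf (normalizer ((P : Subgroup G) : Set G))).Normal :=
      normal_subgroupOf_of_le_normalizer fun g hg => mem_normalizer_of_conj_le fun x hx => by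
        have : (⁅(P : Subgroup G), (P : Subgroup G)⁆ : Subgroup G).map (MulAut.conj g).toMonoidHom ≤ ⁅(P : Subgroup G), (P : Subgroup G)⁆ := by
          rw [map_commutator, map_conj_eq_iff_mem_normalizer.2 hg]
        exact this (conj_mem_map_conj g hx)
    haveI : ((P : Subgroup G).subgroupOf (normalizer ((P : Subgroup G) : Set G))).Normal := normal_in_normalizer
    have hPP : ⁅(P : Subgroup G), (P : Subgroup G)⁆ ≤ P := commutator_le.2 fun a ha b hb =>
      mul_mem (mul_mem (mul_mem ha hb) (inv_mem ha)) (inv_mem hb)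
    obtain ⟨L, _, hL⟩ := ker P h _ le_rfl
    obtain ⟨M, _, hM⟩ := ker P h P hPP
    have hPM : (P : Subgroup G) ≤ M := fun x hx => (hM x (le_normalizer hx)).2 hx
    have hPL : ⁅(P : Subgroup G), (P : Subgroup G)⁆ ≤ L := fun x hx => (hL x (le_normalizer (hPP hx))).2 hx
    have h1 : HasNormalPComplement p M := by
      refine hasNPC_of_commutator_inf_le (P.subtype hPM) le_rfl (commutator_inf_sylow_le _ fun x hx g hg => ?_)
        (hasNPC_of_isPGroup (P.subtype hPM).2)
      rw [← mem_map_iff_mem M.subtype_injective, map_commutator, Sylow.coe_subtype, subgroupOf_map_subtype,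
        inf_eq_left.2 hPM]
      have hx : (x : G) ∈ (P : Subgroup G) := hx
      have hg : (g : G) * x * (g : G)⁻¹ ∈ (P : Subgroup G) := hg
      have hC : ∀ c : G, c ∈ (centralizer {QuotientGroup.mk' L x}).comap (QuotientGroup.mk' L) ↔ ⁅c, (x : G)⁆ ∈ L := fun c => by
        rw [mem_comap, mem_centralizer_singleton_iff, ← QuotientGroup.eq_one_iff, ← QuotientGroup.mk'_apply,
          map_commutatorElement, commutatorElement_eq_one_iff_mul_comm]
      obtain ⟨c, hc, hn⟩ := exists_mul_mem_normalizer_sylow P (C := M ⊓ (centralizer {QuotientGroup.mk' L x}).comap (QuotientGroup.mk' L))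
        (fun z hz => ⟨hPM hz, (hC z).2 (hPL (commutator_mem_commutator hz hx))⟩) (g := g) fun z hz =>
          ⟨M.mul_mem (M.mul_mem (M.inv_mem g.2) (hPM hz)) g.2, (hC _).2 (by
            convert ‹L.Normal›.conj_mem' _ (hPL (commutator_mem_commutator hz hg)) g using 1
            simp only [commutatorElement_def]; group)⟩
      have h2 := (hM _ hn).1 (M.mul_mem g.2 hc.1)
      refine (hL _ (le_normalizer (mul_mem (inv_mem hx) hg))).1 ?_
      convert L.mul_mem (hPL (commutator_mem_commutator (inv_mem hx) h2))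
        (‹L.Normal›.conj_mem _ ((hC _).1 (Subgroup.inv_mem _ hc.2)) (g * c * (x : G)⁻¹)) using 1
      simp only [commutatorElement_def, coe_subtype, coe_mul, coe_inv]; group
    refine ⟨(pResidual p M).map M.subtype, inferInstance, ?_, eq_bot_iff.2 ?_⟩
    · rw [eq_top_iff, ← P.normalizer_sup_eq_top' hPM, sup_le_iff]
      refine ⟨le_sup_right, fun x hx => ?_⟩
      have : (⟨x, hx⟩ : M) ∈ pResidual p M ⊔ P.subtype hPM := by rw [pResidual_sup_sylow]; trivial
      obtain ⟨a, ha, b, hb, e⟩ := mem_sup_of_normal_left.1 this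
      rw [show x = a * b from (congrArg Subtype.val e).symm]
      exact mul_mem (mem_sup_left (mem_map_of_mem _ ha)) (mem_sup_right (le_normalizer hb))
    · rintro _ ⟨⟨x, hx, rfl⟩, h2⟩
      have := (hasNPC_iff_disjoint (P.subtype hPM)).1 h1
      rw [show x = 1 from disjoint_def.1 this hx ((hM _ h2).1 x.2)]; exact one_mem _
  · rintro ⟨K, _, h1, h2⟩ θ -
    let e := MulEquiv.ofBijective ((QuotientGroup.mk' K).comp (normalizer ((P : Subgroup G) : Set G)).subtype) ⟨by
      rw [injective_iff_map_eq_one]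
      exact fun x hx => Subtype.ext (mem_bot.1 (h2 ▸ ⟨(QuotientGroup.eq_one_iff _).1 hx, x.2⟩)), fun q => by
      obtain ⟨x, rfl⟩ := QuotientGroup.mk_surjective q
      obtain ⟨a, ha, b, hb, rfl⟩ := mem_sup_of_normal_left.1 (h1 ▸ mem_top x)
      exact ⟨⟨b, hb⟩, by simp [(QuotientGroup.eq_one_iff a).2 ha]⟩⟩
    exact ⟨⟨_, θ.2.comp_of_surjective (e.symm.toMonoidHom.comp (QuotientGroup.mk' K))
      (e.symm.surjective.comp (QuotientGroup.mk'_surjective K))⟩, fun x => congrArg θ.1 (e.symm_apply_apply x)⟩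

end Cfsg.Agent.S4931
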