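import Mathlib
import Cfsg.Agent.H20.Dade
-- Template for statement S4937 (row 4937; see /opt/grader/pristine/manifest.json for weights).
-- Copy to Cfsg/Agent/S4937.lean and replace the sorry. The statement below is byte-identical to the frozen
-- statement Cfsg.CfsgFrozen.S4937 (Cfsg/Statements/S4937.lean; the theorem Cfsg.blk12_principal_block_character_extends_in_principal_block_when_sylow_centralizer_covers);
-- the grader kernel-checks Cfsg.Agent.S4937.result against that frozen type. Keep the theorem IN THIS FILE
-- (a `result` declared elsewhere and merely imported here is not credited); helpers may live anywhere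
-- under Cfsg/Agent/.
import Cfsg.Statements.S4937
-- import your own Cfsg.Agent.* helpers here

set_option autoImplicit false
open Cfsg

open H20 H05 H21 MonoidAlgebra Cfsg

namespace Cfsg.Agent.S4937

/-- Let G be a finite group, p a prime, M a maximal ideal of the algebraic integers containing p, N a normal subgroup of G and P a Sylow p-subgroup of N such that G = N·C_G(P). Let θ be an irreducible character in the principal p-block of N that is the restriction of some irreducible character of G. Then θ is the restriction of an irreducible character χ of G lying in the principal p-block of G such that, for every subgroup J of G containing N, the restriction of χ to J is an irreducible character of J lying in the principal p-block of J. -/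
theorem result {G : Type*} [Group G] [Finite G] (p : ℕ) [Fact p.Prime] (M : Ideal Cfsg.AlgInt) (hM : Cfsg.IsPModular p M) (N : Subgroup G) [N.Normal] (P : Sylow p ↥N)
    (hcov : N ⊔ Subgroup.centralizer (((P : Subgroup ↥N).map N.subtype : Subgroup G) : Set G) = ⊤)
    (θ : Cfsg.IrrCharacter ↥N) (hθ : θ ∈ Cfsg.principalBlock M ↥N)
    (hext : ∃ ψ : Cfsg.IrrCharacter G, ∀ x : ↥N, (ψ : G → ℂ) x = (θ : ↥N → ℂ) x) :
    ∃ χ : Cfsg.IrrCharacter G, χ ∈ Cfsg.principalBlock M G ∧ (∀ x : ↥N, (χ : G → ℂ) x = (θ : ↥N → ℂ) x) ∧
      ∀ J : Subgroup G, N ≤ J → ∃ ξ : Cfsg.IrrCharacter ↥J, ξ ∈ Cfsg.principalBlock M ↥J ∧ ∀ y : ↥J, (ξ : ↥J → ℂ) y = (χ : G → ℂ) y := by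
  have := hM.2.1
  obtain ⟨ψ, hψ⟩ := hext
  obtain ⟨χ, h1, h2⟩ := (dc_of_sup (sylIn_map P) hcov).exists_aug hM hθ ψ.2.isCharacter hψ
  exact ⟨⟨χ, h1.irr⟩, h1.mem_principal, h2, fun J hJ =>
    ⟨⟨_, (h1.subgroupOf hJ).irr⟩, (h1.subgroupOf hJ).mem_principal, fun _ => rfl⟩⟩

end Cfsg.Agent.S4937
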