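import Mathlib
import Cfsg.Statements.S4989
import Cfsg.Agent.H07.Cnt

set_option autoImplicit false
open Cfsg
open H05 Cfsg H07

namespace Cfsg.Agent.S4989

/-- Let H be a subgroup of the finite group G and χ an irreducible complex character of G. Then the inner product of the restriction of χ to H with itself, (1/#H)·Σ_{h ∈ H} |χ(h)|², is at most 1 + #(Z ∖ H)/#H, where Z is the set of zeros of χ in G. -/
theorem result {G : Type*} [Group G] [Finite G] (H : Subgroup G) (χ : Cfsg.IrrCharacter G) : (Nat.card ↥H : ℝ)⁻¹ * ∑ᶠ h : ↥H, ‖(χ : G → ℂ) h‖ ^ 2 ≤ 1 + (Set.ncard ({x : G | (χ : G → ℂ) x = 0} \ (H : Set G)) : ℝ) / (Nat.card ↥H : ℝ) := by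
  classical
  have := Fintype.ofFinite G
  have h0 : (0 : ℝ) < Nat.card H := by exact_mod_cast Nat.card_pos
  have h1 := χ.2.sum_norm_sq
  rw [← Finset.sum_filter_add_sum_filter_not _ (· ∈ H), Finset.sum_subtype (p := (· ∈ H)) _ (by simp),
    ← Finset.sum_filter_add_sum_filter_not (Finset.filter (fun g => ¬ _) _) (fun g => χ.1 g = 0)] at h1
  have h2 := Finset.card_filter_add_card_filter_not (s := Finset.univ) (· ∈ H)
  have h3 := Finset.card_filter_add_card_filter_not
    (s := Finset.univ.filter fun g => ¬ g ∈ H) fun g => χ.1 g = 0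
  have h4 := card_le_sum_norm_sq χ.2.isGeneralizedCharacter
    ((Finset.univ.filter fun g => ¬ g ∈ H).filter fun g => ¬ χ.1 g = 0) (fun x hx k hk => by
      simp only [Finset.mem_filter, Finset.mem_univ, true_and] at hx ⊢
      exact ⟨fun h => hx.1 (mem_of_pow_mem hk h), by
        rw [χ.2.isGeneralizedCharacter.apply_pow_eq_zero_iff x
          (hk.coprime_dvd_right (orderOf_dvd_natCard x))]; exact hx.2⟩)
    fun x hx => (Finset.mem_filter.1 hx).2
  rw [← Nat.subtype_card (p := (· ∈ H)) _ (by simp), Finset.card_univ, ← Nat.card_eq_fintype_card,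
    ← h3, ← Nat.cast_inj (R := ℝ)] at h2
  rw [finsum_eq_sum_of_fintype, inv_mul_le_iff₀ h0, mul_add, mul_div_cancel₀ _ h0.ne',
    show ({x | χ.1 x = 0} \ (H : Set G)) = ↑((Finset.univ.filter fun g => ¬ g ∈ H).filter fun g => χ.1 g = 0)
      by ext; simp [and_comm], Set.ncard_coe_finset]
  have := Finset.sum_nonneg (s := (Finset.univ.filter fun g => ¬ g ∈ H).filter fun g => χ.1 g = 0)
    (f := fun g => ‖χ.1 g‖ ^ 2) fun _ _ => by positivity
  push_cast at h2
  linarith

end Cfsg.Agent.S4989
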