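import Mathlib
import Cfsg.Agent.H20.PrimCls
import Cfsg.Agent.H02.Fitting
-- Template for statement S4993 (row 4993; see /opt/grader/pristine/manifest.json for weights).
-- Copy to Cfsg/Agent/S4993.lean and replace the sorry. The statement below is byte-identical to the frozen
-- statement Cfsg.CfsgFrozen.S4993 (Cfsg/Statements/S4993.lean; the theorem Cfsg.chr13_odd_metanilpotent_two_primes_primitive_character_degree_divides_class_size);
-- the grader kernel-checks Cfsg.Agent.S4993.result against that frozen type. Keep the theorem IN THIS FILE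
-- (a `result` declared elsewhere and merely imported here is not credited); helpers may live anywhere
-- under Cfsg/Agent/.
import Cfsg.Statements.S4993
-- import your own Cfsg.Agent.* helpers here

set_option autoImplicit false
open Cfsg

open H20 H05 Cfsg

namespace Cfsg.Agent.S4993

/-- Let G be a group of odd order whose order has exactly two prime divisors and whose quotient by its Fitting subgroup is nilpotent (G is metanilpotent), and let χ be a primitive irreducible complex character of G (not induced from a character of any proper subgroup). Then χ(1) divides the size of some conjugacy class of G. -/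
theorem result {G : Type*} [Group G] [Fintype G] (hodd : Odd (Nat.card G)) (h2 : (Nat.card G).primeFactors.card = 2) [hF : (Cfsg.fittingSubgroup G).Normal] (hmeta : Group.IsNilpotent (G ⧸ Cfsg.fittingSubgroup G)) (χ : Cfsg.IrrCharacter G) (hprim : ¬ ∃ (H : Subgroup G), H ≠ ⊤ ∧ ∃ θ : ↥H → ℂ, Cfsg.IsCharacter ↥H θ ∧ Cfsg.indFun H θ = (χ : G → ℂ)) : ∃ g : G, Cfsg.charDegree (χ : G → ℂ) ∣ (Subgroup.centralizer ({g} : Set G)).index := by
  have : Group.IsSolvable G := Group.isSolvable_of_ker_le_range (fittingSubgroup G).subtype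
    (QuotientGroup.mk' (fittingSubgroup G)) (by simp)
  have key := fun (p : ℕ) (_ : Fact p.Prime) => exists_class_weight (p := p) (isPrimitiveChar_of χ.2 hprim)
    (F := fittingSubgroup G) (Y := (pCore p (G ⧸ fittingSubgroup G)).comap (QuotientGroup.mk' _)) inferInstance
    fun y hy => (H02.pCore_isPGroup p _ ⟨_, hy⟩).imp fun k hk => (QuotientGroup.eq_one_iff _).1 (congrArg Subtype.val hk)
  obtain ⟨p, q, hpq, h⟩ := Finset.card_eq_two.1 h2
  have hp : Fact p.Prime := ⟨Nat.prime_of_mem_primeFactors (h ▸ Finset.mem_insert_self _ _)⟩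
  have hq : Fact q.Prime := ⟨Nat.prime_of_mem_primeFactors (n := Nat.card G) (by rw [h]; simp)⟩
  have hr : ∀ r : ℕ, r.Prime → r ∣ Nat.card G → r = p ∨ r = q := fun r h1 h2 => by
    have := Nat.mem_primeFactors.2 ⟨h1, h2, Nat.card_pos.ne'⟩
    rwa [h, Finset.mem_insert, Finset.mem_singleton] at this
  obtain ⟨a, a1, a2, a3⟩ := key p hp
  obtain ⟨b, b1, b2, b3⟩ := key q hq
  obtain ⟨g, hg⟩ := exists_le_of_sum_le a2
  obtain ⟨g', hg'⟩ := exists_le_of_sum_le b2
  have h3 : pCore p (G ⧸ fittingSubgroup G) ⊔ pCore q (G ⧸ fittingSubgroup G) = ⊤ := by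
    rw [eq_top_iff, ← H02.fitting_eq_top_iff.2 hmeta, H02.fitting_eq_iSup_pCore (G ⧸ fittingSubgroup G)]
    refine iSup_le fun r => ?_
    by_cases h4 : pCore r (G ⧸ fittingSubgroup G) = ⊥
    · exact h4 ▸ bot_le
    have : Fact (r : ℕ).Prime := ⟨r.2⟩
    obtain ⟨k, hk, h5⟩ := (H02.pCore_isPGroup r _).nontrivial_iff_card.1 ((Subgroup.nontrivial_iff_ne_bot _).2 h4)
    rcases hr r r.2 (((dvd_pow_self _ hk.ne').trans (h5 ▸ Subgroup.card_subgroup_dvd_card _)).trans
      (Subgroup.card_quotient_dvd_card _)) with h6 | h6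
    · exact h6 ▸ le_sup_left
    · exact h6 ▸ le_sup_right
  obtain ⟨y, hy, z, hz, e⟩ := Subgroup.mem_sup_of_normal_left.1 (h3 ▸ Subgroup.mem_top (QuotientGroup.mk' _ (g * g'⁻¹)))
  obtain ⟨y, rfl⟩ := QuotientGroup.mk'_surjective _ y
  have h4 : y⁻¹ * g * g'⁻¹ ∈ (pCore q (G ⧸ fittingSubgroup G)).comap (QuotientGroup.mk' _) := by
    rwa [Subgroup.mem_comap, mul_assoc, map_mul, ← e, map_inv, inv_mul_cancel_left]
  refine ⟨y⁻¹ * g, (Nat.factorization_prime_le_iff_dvd χ.2.charDegree_pos.ne' Subgroup.index_ne_zero_of_finite).1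
    fun r h5 => ?_⟩
  by_cases h6 : r ∣ Nat.card G
  · rcases hr r h5 h6 with rfl | rfl
    · exact (hg.trans (a3 _ (inv_mem hy) g).ge).trans (a1 _)
    · have := b3 _ h4 g'
      rw [inv_mul_cancel_right] at this
      exact (hg'.trans this.ge).trans (b1 _)
  · simp [Nat.factorization_eq_zero_of_not_dvd fun h => h6 (h.trans χ.2.charDegree_dvd_card)]

end Cfsg.Agent.S4993
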