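import Mathlib
import Cfsg.Statements.S4996
import Cfsg.Agent.H07.Cnt

set_option autoImplicit false
open Cfsg
open H05 Cfsg H07

namespace Cfsg.Agent.S4996

/-- Let N be a normal subgroup of the finite group G and χ an irreducible complex character of G. Then the restriction of χ to N is not irreducible if and only if χ vanishes on some whole coset Nx of N in G. -/
theorem result {G : Type*} [Group G] [Finite G] (N : Subgroup G) [N.Normal] (χ : Cfsg.IrrCharacter G) : ¬ Cfsg.IsIrrCharacter ↥N (fun n : ↥N => (χ : G → ℂ) n) ↔ ∃ x : G, ∀ n : ↥N, (χ : G → ℂ) ((n : G) * x) = 0 := by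
  classical
  have := Fintype.ofFinite G
  have := Fintype.ofFinite (G ⧸ N)
  refine ⟨fun h => ?_, fun ⟨x, hx⟩ h => by simpa [hx] using coset_ip_self N χ.2.isCharacter h x⟩
  by_contra hc
  push Not at hc
  obtain ⟨η, h1, h2, -⟩ := exists_cosetAvg N (χ.2.isCharacter.mul χ.2.isCharacter.conj)
  have h0 : (0 : ℝ) < Nat.card N := by exact_mod_cast Nat.card_pos
  have h3 : ∀ g : G, ∑ n : N, ‖χ.1 (n * g)‖ ^ 2 = Nat.card N * ‖η g‖ := fun g => by
    have := congrArg norm (h2 g)
    simp only [Pi.mul_apply, Complex.mul_conj', ← Complex.ofReal_pow, ← Complex.ofReal_sum, norm_mul,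
      Complex.norm_natCast, Complex.norm_real] at this
    rwa [Real.norm_of_nonneg (by positivity)] at this
  have h4 := card_le_sum_norm h1.isGeneralizedCharacter (Finset.univ.erase 1) (fun x hx k hk => by
    simp only [Finset.mem_erase, Finset.mem_univ, and_true] at hx ⊢
    exact fun e => hx (mem_of_pow_mem (H := ⊥) hk e)) fun x _ hx => by
      obtain ⟨x, rfl⟩ := QuotientGroup.mk_surjective x
      obtain ⟨n, hn⟩ := hc x
      have := h3 x
      rw [hx, norm_zero, mul_zero, Finset.sum_eq_zero_iff_of_nonneg fun _ _ => by positivity] at this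
      exact hn (by simpa using this n (Finset.mem_univ _))
  have h5 : ∑ q, ‖η q‖ = Nat.card (G ⧸ N) := by
    have h6 := Finset.sum_congr rfl fun g (_ : g ∈ Finset.univ) => h3 g
    rw [Finset.sum_comm, Finset.sum_congr rfl (f := fun n : N => ∑ g, ‖χ.1 (n * g)‖ ^ 2) fun (n : N) _ =>
      (Equiv.sum_comp (Equiv.mulLeft (n : G)) fun g => ‖χ.1 g‖ ^ 2).trans χ.2.sum_norm_sq,
      ← Finset.mul_sum, Finset.sum_const, Finset.card_univ, nsmul_eq_mul, ← Nat.card_eq_fintype_card] at h6
    have h7 := sum_comp_of_surjective (QuotientGroup.mk' N) (QuotientGroup.mk'_surjective N)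
      fun q => (‖η q‖ : ℂ)
    rw [QuotientGroup.ker_mk'] at h7
    have h8 : ∑ g : G, ‖η g‖ = Nat.card N * ∑ q, ‖η q‖ := by exact_mod_cast h7
    rw [h8, Subgroup.card_eq_card_quotient_mul_card_subgroup N, Nat.cast_mul, mul_comm _ (Nat.card N : ℝ)] at h6
    exact (mul_left_cancel₀ h0.ne' (mul_left_cancel₀ h0.ne' h6)).symm
  rw [← Finset.add_sum_erase _ _ (Finset.mem_univ 1), h1.norm_apply_one] at h5
  rw [Finset.card_erase_of_mem (Finset.mem_univ _), Finset.card_univ, Nat.cast_pred Fintype.card_pos,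
    ← Nat.card_eq_fintype_card] at h4
  have h6 : charDegree η ≤ 1 := by exact_mod_cast (by linarith : (charDegree η : ℝ) ≤ 1)
  have h7 : classInner (fun n : N => χ.1 n) (fun n : N => χ.1 n) = charDegree η := by
    rw [classInner_def, h1.charDegree_eq, inv_mul_eq_iff_eq_mul₀ (H06.natCard_ne_zero N)]
    simpa using h2 1
  interval_cases charDegree η
  · exact χ.2.apply_one_ne_zero (congrFun ((classInner_self_eq_zero fun n : N => χ.1 n).1
      (by simpa using h7)) 1)
  · exact h ((χ.2.isCharacter.restrict N).isIrr_of_norm_one (by simpa using h7))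

end Cfsg.Agent.S4996
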