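import Mathlib
import Cfsg.Agent.H20.Defect
import Cfsg.Agent.H21.Subsec
-- Template for statement S5001 (row 5001; see /opt/grader/pristine/manifest.json for weights).
-- Copy to Cfsg/Agent/S5001.lean and replace the sorry. The statement below is byte-identical to the frozen
-- statement Cfsg.CfsgFrozen.S5001 (Cfsg/Statements/S5001.lean; the theorem Cfsg.blk13_height_zero_character_over_central_character_forces_extension_to_defect_group);
-- the grader kernel-checks Cfsg.Agent.S5001.result against that frozen type. Keep the theorem IN THIS FILE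
-- (a `result` declared elsewhere and merely imported here is not credited); helpers may live anywhere
-- under Cfsg/Agent/.
import Cfsg.Statements.S5001
-- import your own Cfsg.Agent.* helpers here

set_option autoImplicit false
open Cfsg

open H20 H05 H21 MonoidAlgebra Cfsg

namespace Cfsg.Agent.S5001

theorem isRComb_sh {G : Type*} [Group G] [Fintype G] {M : Ideal AlgInt} [M.IsMaximal] {C : Subgroup G}
    [Fintype C] {u : G} (hu : u ∈ C) (hu' : ∀ c ∈ C, c * u = u * c) {χ : G → ℂ}
    (hχ : IsCharacter G χ) : IsRComb M (sh C χ u) := by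
  refine isRComb_iff.2 ⟨sh_isClassFunction hu' hχ.isClassFunction, fun ξ => ?_⟩
  rw [classInner_sh hu hu']
  refine ring_mul ?_ ?_
  · have hz : (⟨u, hu⟩ : C) ∈ Subgroup.center C := by
      rw [Subgroup.mem_center_iff]; intro c; exact Subtype.ext (hu' c c.2)
    have := ring_omega (M := M) ξ.2 (isCen_single hz (1 : ℂ)) (isInt_single_one _)
    rwa [omega_single, one_mul] at this
  · obtain ⟨n, hn⟩ := (hχ.restrict C).exists_classInner_eq_nat ξ.2.isCharacter
    rw [hn]; exact ring_natCast n

/-- Let p be a prime, G a finite group and B a p-block of G (relative to a maximal ideal M of the algebraic integers containing p) with defect group D. Let Z be a central p-subgroup of G contained in D and λ a linear character of Z (a homomorphism to the nonzero complex numbers). Say an irreducible character χ of G lies over λ when χ(z) = χ(1)λ(z) for all z ∈ Z. If some irreducible character in B lying over λ has height zero, then λ extends to a linear character of D. -/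
theorem result {G : Type*} [Group G] [Finite G] (p : ℕ) [Fact p.Prime] (M : Ideal Cfsg.AlgInt) (hM : Cfsg.IsPModular p M) (B : Set (Cfsg.IrrCharacter G)) (hB : Cfsg.IsPBlock M B) (D : Subgroup G) (hD : Cfsg.IsDefectGroup p M B D) (Z : Subgroup G) (hZc : Z ≤ Subgroup.center G) (hZp : IsPGroup p ↥Z) (hZD : Z ≤ D) (lam : ↥Z →* ℂˣ) (χ : Cfsg.IrrCharacter G) (hχ : χ ∈ B) (hover : (∀ z : ↥Z, (χ : G → ℂ) z = (χ : G → ℂ) 1 * (lam z : ℂ))) (h0 : Cfsg.blockHeight p B (χ : G → ℂ) = 0) : (∃ μ : ↥D →* ℂˣ, ∀ z : ↥Z, μ ⟨(z : G), hZD z.2⟩ = lam z) := by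
  classical
  have := hM.2.1
  have := Fintype.ofFinite G
  obtain ⟨g, hg, hs⟩ := isDefectGroup_iff.1 hD
  have h1 := (hg.not_ideal_iff_height_zero hM hB hχ).2 h0
  have h2 : IsRComb M (sh (Subgroup.centralizer {g}) (χ : G → ℂ) g) :=
    isRComb_sh (self_mem_centralizer g) (fun c hc => (Subgroup.mem_centralizer_singleton_iff.1 hc))
      χ.2.isCharacter
  have h3 := h2.comp (Subgroup.inclusion hs.le)
  set f : D → ℂ := fun x => sh (Subgroup.centralizer {g}) (χ : G → ℂ) g (Subgroup.inclusion hs.le x)
    with hf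
  have hf' : ∀ x : D, f x = (χ : G → ℂ) (g * x) := fun x => rfl
  have h4 : ∃ ψ : IrrCharacter D, ¬ MemLocalIdeal M (classInner f ψ * (ψ : D → ℂ) 1) := by
    by_contra hc
    push Not at hc
    apply h1
    have := h3.isClassFunction.apply_eq_sum 1
    rw [hf'] at this
    simp only [OneMemClass.coe_one, mul_one] at this
    rw [this]
    exact ideal_sum fun ψ _ => hc ψ
  obtain ⟨ψ, hψ⟩ := h4
  have h5 : classInner f ψ ≠ 0 := fun h => hψ (by rw [h, zero_mul]; exact ideal_zero)
  have h6 : (ψ : D → ℂ) 1 = 1 := by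
    have h7 : ¬ p ∣ charDegree (ψ : D → ℂ) := fun h => hψ (ideal_mul_left ((isRComb_iff.1 h3).2 ψ)
      (by rw [← ψ.2.charDegree_eq]; exact (ideal_natCast_iff hM).2 h))
    have h8 := ψ.2.charDegree_dvd_card
    obtain ⟨k, hk⟩ := IsPGroup.iff_card.1 hD.isPGroup
    rw [hk] at h8
    obtain ⟨j, -, hj⟩ := (Nat.dvd_prime_pow hM.1).1 h8
    rw [← ψ.2.charDegree_eq, hj]
    rcases j with _ | j
    · simp
    · exact absurd (hj ▸ dvd_pow_self p (Nat.succ_ne_zero j)) h7
  obtain ⟨μ, hμ⟩ := ψ.2.isCharacter.exists_monoidHom h6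
  refine ⟨μ, fun z => ?_⟩
  set w : D := ⟨(z : G), hZD z.2⟩ with hw
  have h9 : ∀ x : D, f (w * x) = lam z * f x := by
    intro x
    rw [hf', hf']
    have : g * ((w * x : D) : G) = z * (g * x) := by
      have := Subgroup.mem_center_iff.1 (hZc z.2) g
      simp only [hw, Subgroup.coe_mul]
      rw [← mul_assoc, this, mul_assoc]
    rw [this, χ.2.apply_mul_of_mem_center (hZc z.2), hover, mul_div_cancel_left₀ _ χ.2.apply_one_ne_zero]
  have h10 : classInner f ψ = lam z * (starRingEnd ℂ) (μ w : ℂ) * classInner f ψ := by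
    rw [classInner_def]
    conv_lhs => rw [← Equiv.sum_comp (Equiv.mulLeft w)]
    rw [Finset.mul_sum, Finset.mul_sum, Finset.mul_sum]
    refine Finset.sum_congr rfl fun x _ => ?_
    simp only [Equiv.coe_mulLeft, h9, hμ, map_mul, Units.val_mul]
    ring
  have h11 : (lam z : ℂ) * (starRingEnd ℂ) (μ w : ℂ) = 1 := by
    apply mul_right_cancel₀ h5
    rw [one_mul]; exact h10.symm
  have h12 := monoidHom_mul_conj μ w
  apply Units.ext
  have h13 : (starRingEnd ℂ) (μ w : ℂ) ≠ 0 := by simp
  exact mul_right_cancel₀ h13 (h12.trans h11.symm)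

end Cfsg.Agent.S5001
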