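import Mathlib
import Cfsg.Statements.S5011
import Cfsg.Agent.H07.Cnt

set_option autoImplicit false
open Cfsg
open H05 Cfsg H07

namespace Cfsg.Agent.S5011

/-- Let G be a finite non-abelian simple group and ρ an irreducible complex representation of G on a space of dimension greater than one (irreducible in the sense that the only subspaces invariant under every ρ(x) are 0 and the whole space). Then for every non-identity element g of G, the centralizer of g does not act irreducibly: there is a non-zero proper subspace invariant under ρ(c) for every c commuting with g. -/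
theorem result {G : Type*} [Group G] [Finite G] [IsSimpleGroup G]
    (hG : ¬ IsMulCommutative G) {V : Type*} [AddCommGroup V] [Module ℂ V] [FiniteDimensional ℂ V]
    (ρ : Representation ℂ G V)
    (hirr : ∀ W : Submodule ℂ V, (∀ x : G, ∀ v ∈ W, ρ x v ∈ W) → W = ⊥ ∨ W = ⊤)
    (hdim : 1 < Module.finrank ℂ V) (g : G) (hg : g ≠ 1) :
    ∃ W : Submodule ℂ V, W ≠ ⊥ ∧ W ≠ ⊤ ∧ ∀ c ∈ Subgroup.centralizer ({g} : Set G), ∀ v ∈ W, ρ c v ∈ W := by
  by_contra hc
  have hn : Nontrivial V := Module.nontrivial_of_finrank_pos (R := ℂ) (by omega)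
  have : ρ.IsIrreducible := (isIrreducible_iff ρ).2 ⟨hn, hirr⟩
  have : Representation.IsIrreducible (ρ.comp (Subgroup.centralizer ({g} : Set G)).subtype) :=
    (isIrreducible_iff _).2 ⟨hn, fun W hW => by
      by_contra h
      exact hc ⟨W, fun e => h (.inl e), fun e => h (.inr e), fun c hc => hW ⟨c, hc⟩⟩⟩
  have h1 := exists_scalar_of_comm (ρ.comp (Subgroup.centralizer ({g} : Set G)).subtype) (ρ g) fun c => by
    change ρ g * ρ c = ρ c * ρ g
    rw [← map_mul, ← map_mul, Subgroup.mem_centralizer_singleton_iff.1 c.2]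
  have h2 : ∀ x, x ∈ charCenter ρ.character ↔ ∃ ω : ℂ, ρ x = ω • LinearMap.id := fun x => by
    rw [(isIrrCharacter_character ρ).mem_charCenter, charDegree_character, norm_character_eq_iff]
  have h3 := (IsSimpleGroup.eq_bot_or_eq_top_of_normal (charCenter ρ.character) inferInstance).resolve_left
    fun e => hg (by simpa [e] using (h2 g).2 h1)
  obtain ⟨v, hv⟩ := exists_ne (0 : V)
  rcases hirr (ℂ ∙ v) (fun x w hw => by
    obtain ⟨ω, h⟩ := (h2 x).1 (h3 ▸ Subgroup.mem_top x)
    rw [h]; exact Submodule.smul_mem _ _ hw) with h | h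
  · exact hv (by simpa using h)
  · have := finrank_span_singleton (K := ℂ) hv
    rw [h, finrank_top] at this
    omega

end Cfsg.Agent.S5011
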