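import Mathlib
import Cfsg.Statements.S5075
import Cfsg.Agent.H12.McB

set_option autoImplicit false
open Cfsg

namespace Cfsg.Agent.S5075

open H12.Mc Module in
theorem gen_eq {p : ℕ} [Fact p.Prime] {V : Type*} [AddCommGroup V] [Module (ZMod p) V] [Finite V]
    (H : Subgroup (V ≃ₗ[ZMod p] V)) (T : Set (V ≃ₗ[ZMod p] V)) (hHT : H = Subgroup.closure T)
    (hT : ∀ t ∈ T, orderOf t = p ∧
      Module.finrank (ZMod p) ↥(LinearMap.ker ((t : V →ₗ[ZMod p] V) - LinearMap.id)) + 1 =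
        Module.finrank (ZMod p) V) : H = Gn (Tv H) := by
  have : Module.Finite (ZMod p) V := Module.Finite.of_finite
  refine le_antisymm (hHT.le.trans ((Subgroup.closure_le _).2 fun t ht => ?_))
    ((Subgroup.closure_le _).2 ?_)
  · obtain ⟨h1, h2⟩ := hT t ht
    have h3 := LinearMap.finrank_range_add_finrank_ker ((t : V →ₗ[ZMod p] V) - LinearMap.id)
    obtain ⟨φ, a, e⟩ := (LinearEquiv.mem_dilatransvections_iff_finrank (e := t)).2 (by omega)
    have e' : ∀ v, t v = v + φ v • a := fun v => LinearMap.congr_fun e v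
    have f : ∀ n : ℕ, (t ^ n) a = (1 + φ a) ^ n • a := by
      intro n
      induction n with
      | zero => simp
      | succ n ih => rw [pow_succ', LinearEquiv.mul_apply, ih, map_smul, e', pow_succ]; module
    have k := f p
    rw [ZMod.pow_card, show t ^ p = 1 from (congrArg (t ^ ·) h1.symm).trans (pow_orderOf_eq_one t)] at k
    have k2 : φ a • a = 0 := by simpa [add_smul] using k
    refine Subgroup.subset_closure ⟨a, φ, ⟨?_, t, hHT ▸ Subgroup.subset_closure ht, e'⟩, e'⟩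
    rcases smul_eq_zero.1 k2 with h | h
    · exact h
    · simp [h]
  · rintro h ⟨a, φ, ⟨-, h', hh', e'⟩, e⟩
    rwa [show h = h' from LinearEquiv.ext fun v => by rw [e, e']]

open H12.Mc Module in
theorem induced {F V : Type*} [Field F] [AddCommGroup V] [Module F V] [FiniteDimensional F V]
    [Finite (Dual F V)] {T : V → Dual F V → Prop} (h : TC LinearMap.id T)
    (hex : ∀ a φ, T a φ → ∃ g : V ≃ₗ[F] V, ∀ v, g v = v + φ v • a) :
    ∃ ρ : ↥(Gn T) →* (↥(Wc F T) ≃ₗ[F] ↥(Wc F T)),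
      (∀ (g : ↥(Gn T)) (v : ↥(Wc F T)), ((ρ g v : ↥(Wc F T)) : V) = (g : V ≃ₗ[F] V) (v : V)) ∧
      ((ρ.range : Set (↥(Wc F T) ≃ₗ[F] ↥(Wc F T))) =
          {f : ↥(Wc F T) ≃ₗ[F] ↥(Wc F T) | LinearMap.det (f : ↥(Wc F T) →ₗ[F] ↥(Wc F T)) = 1} ∨
        ∃ B : LinearMap.BilinForm F ↥(Wc F T), B.IsAlt ∧ B.Nondegenerate ∧
          (ρ.range : Set (↥(Wc F T) ≃ₗ[F] ↥(Wc F T))) =
            {f : ↥(Wc F T) ≃ₗ[F] ↥(Wc F T) | ∀ x y, B (f x) (f y) = B x y}) := by
  have inv : ∀ g ∈ Gn T, ∀ y ∈ Wc F T, g y ∈ Wc F T := fun g hg => gn_inv h.toTS (fun a φ t y _ => by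
    by_cases φ0 : φ = 0
    · simp [φ0]
    · exact Submodule.smul_mem _ _ (TC.mem_Wc t φ0)) hg
  have mp : ∀ g ∈ Gn T, (Wc F T).map (g : V →ₗ[F] V) = Wc F T := fun g hg =>
    le_antisymm (by rintro _ ⟨y, hy, rfl⟩; exact inv g hg y hy)
      fun y hy => ⟨g⁻¹ y, inv _ (inv_mem hg) y hy, by simp⟩
  let ρ : ↥(Gn T) →* (↥(Wc F T) ≃ₗ[F] ↥(Wc F T)) :=
    MonoidHom.mk' (fun g => g.1.ofSubmodules _ _ (mp g.1 g.2)) fun g g' => by ext; rfl
  have hρ : ∀ (g : ↥(Gn T)) (v : ↥(Wc F T)), ((ρ g v : ↥(Wc F T)) : V) = g.1 v := fun _ _ => rfl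
  have ind : ∀ P : (↥(Wc F T) ≃ₗ[F] ↥(Wc F T)) → Prop, P 1 → (∀ f g, P f → P g → P (f * g)) →
      (∀ f (a : Wc F T) (φ : Dual F V), T a φ → (∀ v : Wc F T, f v = v + φ v • a) → P f) →
      ∀ f ∈ ρ.range, P f := by
    rintro P h1 h2 h3 _ ⟨⟨g, hg⟩, rfl⟩
    obtain ⟨_, k⟩ := gn_induction h.toTS (P := fun g => ∃ hg : g ∈ Gn T, P (ρ ⟨g, hg⟩))
      (fun g a φ t e => ⟨Subgroup.subset_closure ⟨a, φ, t, e⟩, by
        by_cases φ0 : φ = 0
        · exact h3 _ 0 0 (h.zr _) fun v => Subtype.ext (by simp [hρ, e, φ0])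
        · exact h3 _ ⟨a, TC.mem_Wc t φ0⟩ φ t fun v => Subtype.ext (by simp [hρ, e])⟩)
      ⟨one_mem _, by rw [show (⟨1, one_mem _⟩ : Gn T) = 1 from rfl, map_one]; exact h1⟩
      (fun g g' ⟨m, k⟩ ⟨m', k'⟩ => ⟨mul_mem m m', by
        rw [show (⟨g * g', mul_mem m m'⟩ : Gn T) = ⟨g, m⟩ * ⟨g', m'⟩ from rfl, map_mul]
        exact h2 _ _ k k'⟩) hg
    exact k
  have ex : ∀ (a : Wc F T) (φ : Dual F V), T a φ → ∃ g ∈ ρ.range, ∀ v, g v = v + φ v • a := by
    intro a φ t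
    obtain ⟨g, e⟩ := hex a φ t
    exact ⟨_, ⟨⟨g, Subgroup.subset_closure ⟨a, φ, t, e⟩⟩, rfl⟩, fun v => Subtype.ext (by simp [hρ, e])⟩
  refine ⟨ρ, hρ, ?_⟩
  by_cases hU : ∀ e φ φ', e ≠ 0 → T e φ → T e φ' → φ ≠ 0 → ∃ c : F, φ' = c • φ
  · obtain ⟨θ, t1, t2, t3⟩ := h.symp hU
    simp only [LinearMap.id_apply] at t2
    let B : LinearMap.BilinForm F ↥(Wc F T) := (Wc F T).subtype.dualMap.comp θ
    have hB : ∀ x y, B x y = θ x y := fun _ _ => rfl
    have hA : B.IsAlt := fun x => h.iso (t1 x)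
    have nd : ∀ x, (∀ y, B x y = 0) → x = 0 := fun x hx => by
      by_contra x0
      obtain ⟨y, χ, t, c1, c2⟩ := h.con (t1 x) (t1 x) (fun e => x0 (Subtype.ext e))
        (fun e => x0 (t3 x e)) (fun e => x0 (Subtype.ext e)) (fun e => x0 (t3 x e))
      exact c2 (hx ⟨y, TC.mem_Wc t (by rintro rfl; simp at c1)⟩)
    have hN : B.Nondegenerate := ⟨nd, fun y hy => nd y fun x => by rw [hB, t2, ← hB, hy, neg_zero]⟩
    have pres : ∀ f ∈ ρ.range, ∀ x y, B (f x) (f y) = B x y := by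
      refine ind _ (fun _ _ => rfl) (fun f g h1 h2 x y => (h1 _ _).trans (h2 x y)) ?_
      intro f a φ t e x y
      by_cases a0 : a = 0
      · simp [e, a0]
      obtain ⟨c, rfl⟩ := hU a (θ a) φ (fun e => a0 (Subtype.ext e)) (t1 a) t fun e => a0 (t3 a e)
      simp only [e, map_add, map_smul, LinearMap.add_apply, LinearMap.smul_apply, smul_eq_mul,
        ← hB, hA.self_eq_zero]
      rw [← hA.neg_eq x a]
      ring
    refine Or.inr ⟨B, hA, hN, Set.Subset.antisymm pres fun g hg => gen_sp _ hA hN pres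
      (fun a c => ?_) g hg⟩
    obtain ⟨g, hg, e⟩ := ex a ((-c) • θ a) (h.smulR _ (t1 a))
    refine ⟨g, hg, fun v => ?_⟩
    rw [e, hB, t2 v a]
    simp
  · refine Or.inl (Set.Subset.antisymm (ind _ (by simp) (fun f g h1 h2 => ?_) ?_)
      fun g hg => gen_det _ (fun a f hf => ?_) g hg)
    · simp only [Set.mem_setOf_eq] at h1 h2 ⊢
      rw [LinearEquiv.coe_toLinearMap_mul, map_mul, h1, h2, mul_one]
    · intro f a φ t e
      have : (f : Wc F T →ₗ[F] Wc F T) = LinearMap.transvection (φ.domRestrict _) a :=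
        LinearMap.ext e
      rw [Set.mem_setOf_eq, this, LinearMap.transvection.det]
      simpa using h.iso t
    · obtain ⟨ψ, hψ, e⟩ := h.flip.surj f
      obtain ⟨g, hg, e'⟩ := ex a ψ (h.full hU a.2 hψ ((e a).trans hf))
      exact ⟨g, hg, fun v => by rw [e', ← e v]; rfl⟩

/-- Let p be an odd prime, V a finite-dimensional vector space over the field with p elements, and H a group of linear automorphisms of V generated by transvections (elements of order p fixing a hyperplane pointwise) and having no nontrivial normal p-subgroup. Then for some n ≥ 1 there are a decomposition V = V₀ ⊕ V₁ ⊕ ⋯ ⊕ Vₙ into H-invariant subspaces and a decomposition of H as the internal direct product of normal subgroups H₁, …, Hₙ such that Hⱼ acts trivially on every Vᵢ with i ≠ j, and Hⱼ induces on Vⱼ exactly the special linear group of Vⱼ or exactly the isometry group of a non-degenerate alternating form on Vⱼ. -/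
theorem result {p : ℕ} [Fact p.Prime] (hp : Odd p) {V : Type*} [AddCommGroup V] [Module (ZMod p) V] [Finite V]
    (H : Subgroup (V ≃ₗ[ZMod p] V)) (T : Set (V ≃ₗ[ZMod p] V)) (hHT : H = Subgroup.closure T)
    (hT : ∀ t ∈ T, orderOf t = p ∧
      Module.finrank (ZMod p) ↥(LinearMap.ker ((t : V →ₗ[ZMod p] V) - LinearMap.id)) + 1 =
        Module.finrank (ZMod p) V)
    (hOp : Cfsg.pCore p ↥H = ⊥) :
    ∃ (n : ℕ) (W : Fin (n + 1) → Submodule (ZMod p) V) (K : Fin n → Subgroup (V ≃ₗ[ZMod p] V)),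
      1 ≤ n ∧ DirectSum.IsInternal W ∧
      (∀ h ∈ H, ∀ i, (W i).map (h : V →ₗ[ZMod p] V) = W i) ∧
      (∀ j, K j ≤ H ∧ ((K j).subgroupOf H).Normal) ∧ ⨆ j, K j = H ∧
      (∀ j, K j ⊓ (⨆ j' ∈ {j' : Fin n | j' ≠ j}, K j') = ⊥) ∧
      (∀ j j', j ≠ j' → ∀ a ∈ K j, ∀ b ∈ K j', a * b = b * a) ∧
      (∀ j, ∀ h ∈ K j, ∀ i : Fin (n + 1), i ≠ j.succ → ∀ v ∈ W i, h v = v) ∧
      (∀ j, ∃ ρ : ↥(K j) →* (↥(W j.succ) ≃ₗ[ZMod p] ↥(W j.succ)),
        (∀ (h : ↥(K j)) (v : ↥(W j.succ)), ((ρ h v : ↥(W j.succ)) : V) = (h : V ≃ₗ[ZMod p] V) (v : V)) ∧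
        ((ρ.range : Set (↥(W j.succ) ≃ₗ[ZMod p] ↥(W j.succ))) =
            {f : ↥(W j.succ) ≃ₗ[ZMod p] ↥(W j.succ) | LinearMap.det (f : ↥(W j.succ) →ₗ[ZMod p] ↥(W j.succ)) = 1} ∨
          ∃ B : LinearMap.BilinForm (ZMod p) ↥(W j.succ), B.IsAlt ∧ B.Nondegenerate ∧
            (ρ.range : Set (↥(W j.succ) ≃ₗ[ZMod p] ↥(W j.succ))) = {f : ↥(W j.succ) ≃ₗ[ZMod p] ↥(W j.succ) | ∀ x y, B (f x) (f y) = B x y})) := by
  have : Module.Finite (ZMod p) V := Module.Finite.of_finite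
  have : Finite (Module.Dual (ZMod p) V) := Finite.of_injective _ DFunLike.coe_injective
  have hH := gen_eq H T hHT hT
  have h := H12.Mc.tg_of_pCore hp hOp hH
  obtain ⟨n, f, hn, h0, h1, h2⟩ := h.exists_index
  have hc := fun j => h.comp (h0 j)
  let X : Submodule (ZMod p) V :=
    { carrier := {v | H12.Mc.Rad (F := ZMod p) LinearMap.id (H12.Mc.Tv H) v}
      add_mem' := fun r r' => H12.Mc.Rad.add r r'
      zero_mem' := fun _ _ _ _ => by simp
      smul_mem' := fun c _ r => r.smul c }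
  let T' := fun j => H12.Mc.Tc LinearMap.id (H12.Mc.Tv H) (f j)
  let W : Fin (n + 1) → Submodule (ZMod p) V := Fin.cons X fun j => H12.Mc.Wc (ZMod p) (T' j)
  have orth : ∀ j a φ, T' j a φ → ∀ i, i ≠ j.succ → ∀ y ∈ W i, φ y • a = 0 := by
    intro j a φ t i hi y hy
    by_cases a0 : a = 0
    · simp [a0]
    suffices φ y = 0 by simp [this]
    induction i using Fin.cases with
    | zero => exact hy a φ t.1 a0
    | succ i =>
      change y ∈ Submodule.span _ _ at hy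
      induction hy using Submodule.span_induction with
      | mem y hy =>
        obtain ⟨y0, χ, χ0, t1⟩ := hy
        by_contra c
        exact hi (by rw [h2 i j y χ y0 χ0 t1 (h.mem1 t a0 t1.1 c)])
      | zero => simp
      | add y z _ _ hy hz => simp [hy, hz]
      | smul c y _ hy => simp [hy]
  have orth' : ∀ j, ∀ ψ ∈ H12.Mc.Wc (ZMod p) (fun φ a => T' j a φ), ∀ i, i ≠ j.succ → ∀ y ∈ W i,
      ψ y = 0 := by
    intro j ψ hψ i hi y hy
    induction hψ using Submodule.span_induction with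
    | mem ψ hψ =>
      obtain ⟨-, a, a0, t⟩ := hψ
      simpa [a0] using orth j a ψ t i hi y hy
    | zero => simp
    | add y z _ _ hy hz => simp [hy, hz]
    | smul c y _ hy => simp [hy]
  have fix : ∀ j, ∀ g ∈ H12.Mc.Gn (T' j), ∀ i, i ≠ j.succ → ∀ v ∈ W i, g v = v :=
    fun j g hg i hi v hv => H12.Mc.gn_fix (hc j).toTS (fun a φ t => orth j a φ t i hi v hv) hg
  have inv : ∀ g ∈ H, ∀ i, ∀ v ∈ W i, g v ∈ W i := fun g hg i =>
    H12.Mc.gn_inv h.toTS (fun a φ t y hy => by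
      obtain ⟨j, t'⟩ := h1 a φ t
      by_cases e : i = j.succ
      · subst e
        by_cases φ0 : φ = 0
        · simp [φ0]
        · exact Submodule.smul_mem _ _ (H12.Mc.TC.mem_Wc t' φ0)
      · rw [orth j a φ t' i e y hy]; exact zero_mem _) (hH ▸ hg)
  have top : ⨆ i, W i = ⊤ := by
    rw [eq_top_iff]
    rintro v -
    choose w hw e using fun j => (hc j).surj ((Module.Dual.eval (ZMod p) V v).domRestrict _)
    have : v - ∑ j, w j ∈ W 0 := fun y χ t y0 => by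
      obtain ⟨j, t'⟩ := h1 y χ t
      have m := H12.Mc.TC.mem_Wc (F := ZMod p) (T := fun φ a => T' j a φ) t' y0
      rw [LinearMap.id_apply, map_sub, map_sum, Finset.sum_eq_single j (fun i _ hi => orth' j χ m i.succ
        (fun e => hi (Fin.succ_injective _ e)) _ (hw i)) (by simp)]
      exact sub_eq_zero.2 (e j ⟨χ, m⟩).symm
    rw [← sub_add_cancel v (∑ j, w j)]
    exact add_mem (Submodule.mem_iSup_of_mem 0 this)
      (sum_mem fun j _ => Submodule.mem_iSup_of_mem j.succ (hw j))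
  have hext : ∀ g g' : V ≃ₗ[ZMod p] V, (∀ i, ∀ v ∈ W i, g v = g' v) → g = g' := fun g g' e => by
    have : ⨆ i, W i ≤ LinearMap.eqLocus (g : V →ₗ[ZMod p] V) g' := iSup_le fun i v hv => e i v hv
    exact LinearEquiv.ext fun v => this (top ▸ Submodule.mem_top (x := v))
  have le : ∀ j, H12.Mc.Gn (T' j) ≤ H := fun j => hH.ge.trans' (Subgroup.closure_mono
    fun g ⟨a, φ, t, e⟩ => ⟨a, φ, t.1, e⟩)
  have sup : ⨆ j, H12.Mc.Gn (T' j) = H := le_antisymm (iSup_le le) (hH.le.trans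
    ((Subgroup.closure_le _).2 fun g ⟨a, φ, t, e⟩ => by
      obtain ⟨j, t'⟩ := h1 a φ t
      exact Subgroup.mem_iSup_of_mem j (Subgroup.subset_closure ⟨a, φ, t', e⟩)))
  have comm : ∀ j j', j ≠ j' → ∀ a ∈ H12.Mc.Gn (T' j), ∀ b ∈ H12.Mc.Gn (T' j'), a * b = b * a := by
    intro j j' hj a ha b hb
    refine hext _ _ fun i v hv => ?_
    rw [LinearEquiv.mul_apply, LinearEquiv.mul_apply]
    by_cases e : i = j.succ
    · have e' : i ≠ j'.succ := fun e' => hj (Fin.succ_injective _ (e.symm.trans e'))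
      rw [fix j' b hb i e' v hv, fix j' b hb i e' _ (inv a (le j ha) i v hv)]
    · rw [fix j a ha i e v hv, fix j a ha i e _ (inv b (le j' hb) i v hv)]
  refine ⟨n, W, fun j => H12.Mc.Gn (T' j), hn,
    (DirectSum.isInternal_submodule_iff_iSupIndep_and_iSup_eq_top W).2 ⟨?_, top⟩, fun g hg i =>
      le_antisymm (by rintro _ ⟨y, hy, rfl⟩; exact inv g hg i y hy)
        fun y hy => ⟨g⁻¹ y, inv _ (inv_mem hg) i y hy, by simp⟩, fun j => ⟨le j, ?_⟩, sup, fun j => ?_,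
    comm, fix, fun j => induced (hc j) fun a φ t => let ⟨_, g, _, e⟩ := t.1; ⟨g, e⟩⟩
  · rw [iSupIndep_iff_finsetSum_eq_zero_imp_eq_zero]
    intro s v hv hs
    have k : ∀ j : Fin n, j.succ ∈ s → v j.succ = 0 := fun j hj =>
      (hc j).eq_zero_of_rad (hv _ hj) fun y χ t y0 => by
        have m := H12.Mc.TC.mem_Wc (F := ZMod p) (T := fun φ a => T' j a φ) t y0
        have := congrArg χ hs
        rwa [map_sum, Finset.sum_eq_single_of_mem j.succ hj
          (fun i hi e => orth' j χ m i e _ (hv i hi)), map_zero] at this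
    intro i hi
    induction i using Fin.cases with
    | zero =>
      rwa [Finset.sum_eq_single_of_mem 0 hi fun i hi' e => by
        obtain ⟨j, rfl⟩ := Fin.exists_succ_eq.2 e
        exact k j hi'] at hs
    | succ i => exact k i hi
  · rw [Subgroup.normal_subgroupOf_iff_le_normalizer (le j), ← sup]
    refine iSup_le fun j' => ?_
    by_cases e : j' = j
    · rw [e]; exact Subgroup.le_normalizer
    · refine le_trans (fun g hg => ?_) (Subgroup.centralizer_le_normalizer _)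
      exact fun a ha => comm j j' (Ne.symm e) a ha g hg
  · rw [eq_bot_iff]
    rintro g ⟨g1, g2⟩
    refine hext g 1 fun i v hv => ?_
    by_cases e : i = j.succ
    · have : ⨆ j' ∈ {j' : Fin n | j' ≠ j}, H12.Mc.Gn (T' j') ≤ MulAction.stabilizer _ v :=
        iSup₂_le fun j' hj' g hg => fix j' g hg i
          (fun e' => hj' (Fin.succ_injective _ (e'.symm.trans e))) v hv
      exact this g2
    · exact fix j g g1 i e v hv

end Cfsg.Agent.S5075
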