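import Cfsg.Statements.S5125
import Cfsg.Agent.H28.Norm
-- import your own Cfsg.Agent.* helpers here

set_option autoImplicit false
open Cfsg

namespace Cfsg.Agent.S5125
open H28 Cfsg.FusionSystem
set_option linter.unusedVariables false
set_option linter.style.haveILetI false


/-- Let F be a saturated fusion system over a finite p-group S and Q a subgroup strongly closed in F. If Q has a subgroup Q₁ that is normal in F, with Q/Q₁ abelian and Aut_F(Q₁) a p-group, then Q is normal in F. -/
theorem result {Ω : Type*} [Group Ω] {S : Subgroup Ω} [Finite S] (p : ℕ) [Fact p.Prime] (hS : IsPGroup p S) (F : Cfsg.FusionSystem S) (hF : F.IsSaturated p) (Q Q₁ : Subgroup Ω) (hQ : F.StronglyClosed Q) (hQ₁Q : Q₁ ≤ Q) (hQ₁ : F.IsNormal Q₁) (hab : ⁅Q, Q⁆ ≤ Q₁) (hAut : IsPGroup p ↥(F.autGroup Q₁)) : F.IsNormal Q := by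
  refine normal_of_chain' hS hF (fun i => if i = 0 then Q₁ else Q) 1 rfl
    (fun i _ => by split_ifs; exacts [normal_sc hQ₁, hQ]) (fun R hR α hα hc x hx hx' => ?_) fun i hi => ?_
  · have hle := normal_le_of_radical hS hQ₁ hR.1 (essential_radical hS hF hR)
    have hi := sc_iso (normal_sc hQ₁) (iso_ex hR.1.1 hα).map hle
    refine hi.hiso.res_eq_one_iff.1 (H26.eq_one_of_mem_pGroup hAut hi.res_mem
      (Nat.Coprime.coprime_dvd_left (orderOf_dvd_of_pow_eq_one ?_) hc)) x hx'
    rw [← hi.hiso.res_pow, ← map_pow, pow_orderOf_eq_one, map_one, res_one]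
  · interval_cases i
    exact hab

end Cfsg.Agent.S5125
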