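import Cfsg.Statements.S5126
import Cfsg.Agent.H28.Model2
-- import your own Cfsg.Agent.* helpers here

set_option autoImplicit false
open Cfsg

namespace Cfsg.Agent.S5126
open H28 Cfsg.FusionSystem
set_option linter.unusedVariables false
set_option linter.style.haveILetI false


/-- In a saturated fusion system over a finite p-group S, the normalizer system of a fully normalized, centric, radical subgroup R is constrained, and in every model of that normalizer system the largest normal p-subgroup is the image of R. -/
theorem result {Ω : Type*} [Group Ω] {S : Subgroup Ω} [Finite S] (p : ℕ) [Fact p.Prime] (hS : IsPGroup p S) (F : Cfsg.FusionSystem S) (hF : F.IsSaturated p) (R : Subgroup Ω) (hRn : F.IsFullyNormalized R) (hRc : F.IsCentric R) (hRr : F.IsRadical p R) (E : Cfsg.FusionSystem (Cfsg.FusionSystem.normalizerIn S R)) (hE : F.IsNormalizerSystem R E) {G : Type*} [Group G] (ι : ↥(Cfsg.FusionSystem.normalizerIn S R) →* G) : E.IsConstrained p ∧ (E.IsModel p G ι → (Cfsg.pCore p G : Subgroup G) = (R.subgroupOf (Cfsg.FusionSystem.normalizerIn S R)).map ι) := by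
  have h := isNK_of_normalizer hRc.1 hE
  haveI := h.finite
  have hT := hS.to_le h.le_top
  have hs := sat_normalizer hS hF hRn hE
  have hR : R ≤ normalizerIn S R := le_normalizerIn hRc.1
  have hc := h.centric hRc hR
  have hcore : E.core = R := le_antisymm (normal_le_of_radical hT (normal_core E) hc (by
    have := h.autGroup_self hR
    rw [inf_top_eq] at this
    unfold FusionSystem.IsRadical at hRr ⊢
    rw [this]; exact ⟨hR, hRr.2⟩)) (le_core (h.normal hR))
  refine ⟨(constrained_iff hT hs).2 (by rw [hcore]; exact centric_self hc), fun hm => ?_⟩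
  rw [model_core hm, hcore, map_subgroupOf_eq_img_tot _ hR]

end Cfsg.Agent.S5126
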