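import Cfsg.Statements.S5153
import Cfsg.Agent.H28.Inv
-- import your own Cfsg.Agent.* helpers here

set_option autoImplicit false
open Cfsg

namespace Cfsg.Agent.S5153
open H28 Cfsg.FusionSystem
set_option linter.unusedVariables false
set_option linter.style.haveILetI false

theorem le_of_subnormal {Ω : Type*} [Group Ω] {T U : Subgroup Ω} {E : FusionSystem T} {D : FusionSystem U} {p : ℕ}
    (h : E.IsSubnormalIn D p) : T ≤ U := by
  induction h with
  | refl => exact le_rfl
  | step _ h2 ih => exact ih.trans h2.1.2.2.2.1.1

theorem aux {Ω : Type*} [Group Ω] {T S : Subgroup Ω} {E : FusionSystem T} {F : FusionSystem S} {p : ℕ}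
    (hE : E.IsSubnormalIn F p) {P : Subgroup Ω} (hPT : P ≤ T) : Finite S → Fact p.Prime → IsPGroup p S →
    F.IsSaturated p → F.IsFullyNormalized P → E.IsFullyNormalized P := by
  induction hE with
  | refl => exact fun _ _ _ _ h => h
  | step h1 h2 ih =>
    intro _ _ hS hF hP
    exact ih (inv_finite h2.1.2.2) inferInstance (hS.to_le (inv_le h2.1.2.2)) h2.1.1
      (fn_of_sc hS hF h2.1.2.2.2.1 h2.1.2.2.1 (hPT.trans (le_of_subnormal h1)) hP)


/-- Let F be a saturated fusion system over a finite p-group S and E a subnormal subsystem of F over T. Then every subgroup of T that is fully normalized in F is fully normalized in E. -/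
theorem result {Ω : Type*} [Group Ω] {S : Subgroup Ω} [Finite S] (p : ℕ) [Fact p.Prime] (hS : IsPGroup p S) (F : Cfsg.FusionSystem S) (hF : F.IsSaturated p) {T : Subgroup Ω} (E : Cfsg.FusionSystem T) (hE : E.IsSubnormalIn F p) (P : Subgroup Ω) (hPT : P ≤ T) (hP : F.IsFullyNormalized P) : E.IsFullyNormalized P := by
  exact aux hE hPT inferInstance inferInstance hS hF hP

end Cfsg.Agent.S5153
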