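import Cfsg.Statements.S5196
import Cfsg.Agent.H28.Ctrl2
-- import your own Cfsg.Agent.* helpers here

set_option autoImplicit false
universe u
open Cfsg

namespace Cfsg.Agent.S5196
open H28 Cfsg.FusionSystem
set_option linter.unusedVariables false
set_option linter.style.haveILetI false


/-- Let p be an odd prime and W a positive characteristic p-functor: W assigns to every finite p-group Q (in a fixed universe) a subgroup W(Q), nontrivial when Q is, carried to W(R) by every isomorphism Q ≅ R; assume also Z(Q) ≤ W(Q) for every finite p-group Q. Suppose W satisfies the local condition: for every finite group G with Sylow p-subgroup P, O_p(G) ∩ Z(G) = O_p(G) ∩ Z(N_G(W(P))). Then W controls weak closure of elements in every saturated fusion system F over a finite p-group S: the centre of the normalizer fusion system of W(S) in F equals the centre of F. (For p = 2 no functor satisfies the local condition, so p is taken odd.) -/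
theorem result {p : ℕ} [Fact p.Prime] (hp : p ≠ 2) (W : ∀ (Q : Type u) [Group Q], Subgroup Q) (hW1 : ∀ (Q : Type u) [Group Q] [Finite Q], IsPGroup p Q → Nontrivial Q → W Q ≠ ⊥) (hW2 : ∀ (Q R : Type u) [Group Q] [Group R] [Finite Q], IsPGroup p Q → ∀ φ : Q ≃* R, (W Q).map φ.toMonoidHom = W R) (hWZ : ∀ (Q : Type u) [Group Q] [Finite Q], IsPGroup p Q → Subgroup.center Q ≤ W Q) (hC : ∀ (G : Type u) [Group G] [Finite G] (P : Sylow p G), Cfsg.pCore p G ⊓ Subgroup.center G = Cfsg.pCore p G ⊓ (Subgroup.center ↥(Subgroup.normalizer (((W ↥(P : Subgroup G)).map (P : Subgroup G).subtype : Subgroup G) : Set G))).map (Subgroup.normalizer (((W ↥(P : Subgroup G)).map (P : Subgroup G).subtype : Subgroup G) : Set G)).subtype) {Ω : Type u} [Group Ω] {S : Subgroup Ω} [Finite S] (hS : IsPGroup p S) (F : Cfsg.FusionSystem S) (hF : F.IsSaturated p) (N : Cfsg.FusionSystem (Cfsg.FusionSystem.normalizerIn S ((W ↥S).map S.subtype))) (hN : F.IsNormalizerSystem ((W ↥S).map S.subtype) N) : N.center = F.center := by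
  have hW := pfun_of_functor W hW1 hW2
  refine (isNK_of_normalizer (hW.le S) hN).center_eq hS hF (Subgroup.le_normalizer.trans (hW.norm hS))
    (fix_thm hW (cls_free True (Cfsg.qd p)) F (fun {_} _ {S} _ F hS hF _ z hz hN => ?_) hS hF (Or.inl trivial))
  obtain ⟨G, _, _, ι, P, h1, h2, h3⟩ := exists_model' hS hF
  have h4 : z ∈ wf W S := ⟨⟨z, hz.1⟩, hWZ S hS (Subgroup.mem_center_iff.2 fun y => Subtype.ext (hz.2 y y.2)), rfl⟩
  have h5 : tot ι z ∈ Cfsg.pCore p G ⊓ Subgroup.center G := by
    rw [hC G P, H26.map_subtype_center]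
    refine ⟨h3 fun y hy => (h2.mem_center hz).2 y (H26.pCore_le_sylow P hy), ?_⟩
    change _ ∈ Subgroup.normalizer (wf W (P : Subgroup G) : Set G) ⊓
      Subgroup.centralizer (Subgroup.normalizer (wf W (P : Subgroup G) : Set G) : Set G)
    rw [hW.model hS h2]
    exact ⟨Subgroup.le_normalizer (mem_img_of_mem h4), fun g hg => by
      rw [← mul_inv_eq_iff_eq_mul]; exact h2.fix_normalizer (hW.le S) h4 hN hg⟩
  exact h2.all_fix fun g _ => by rw [Subgroup.mem_center_iff.1 h5.2 g, mul_inv_cancel_right]

end Cfsg.Agent.S5196
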