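import Cfsg.Statements.S5200
import Cfsg.Agent.H28.ES2
import Cfsg.Agent.S2799
-- import your own Cfsg.Agent.* helpers here

set_option autoImplicit false
open Cfsg

namespace Cfsg.Agent.S5200
open H28 Cfsg.FusionSystem
set_option linter.unusedVariables false
set_option linter.style.haveILetI false


/-- Let F be a saturated fusion system over a finite p-group S and E a normal subsystem of F over T whose centralizer in S lies in T: every subgroup Y of C_S(T) such that E is contained in the centralizer fusion system of Y in F satisfies Y ≤ T. Then T·C_S(T)/T is abelian (the commutator subgroup of T·C_S(T) lies in T), and if p is odd then C_S(T) ≤ T. -/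
theorem result {Ω : Type*} [Group Ω] {S : Subgroup Ω} [Finite S] (p : ℕ) [Fact p.Prime] (hS : IsPGroup p S) (F : Cfsg.FusionSystem S) (hF : F.IsSaturated p) {T : Subgroup Ω} (E : Cfsg.FusionSystem T) (hE : E.IsNormalIn F p) (hCE : ∀ Y : Subgroup Ω, Y ≤ Cfsg.FusionSystem.centralizerIn S T → (∀ C : Cfsg.FusionSystem (Cfsg.FusionSystem.centralizerIn S Y), F.IsCentralizerSystem Y C → E.IsSubsystemOf C) → Y ≤ T) : ⁅T ⊔ Cfsg.FusionSystem.centralizerIn S T, T ⊔ Cfsg.FusionSystem.centralizerIn S T⁆ ≤ T ∧ (p ≠ 2 → Cfsg.FusionSystem.centralizerIn S T ≤ T) := by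
  haveI := inv_finite hE.1.2.2
  have hT := hE.1.2.2.2.1
  have a3 := cen_cenS hS hF hE
  have a4 := hCE _ a3.1 fun C hC => a3.sub_NK hT.1 (isNK_of_centralizer (a3.1.trans centralizerIn_le) hC)
  have hG : Glaub p := fun G _ _ S x h1 h2 h3 => Cfsg.Agent.S2799.result S x h1 h2 (h3.imp_right Or.inr)
  refine ⟨?_, fun hp => (centralizerIn_le_of_odd hG hp hS hF hE).trans (sup_le le_rfl a4)⟩
  have a5 : T ⊔ centralizerIn S T ≤ S := sup_le hT.1 centralizerIn_le
  haveI := finite_of_le a5
  refine (commutator_le_focal (innerFusionSystem _)).trans ((focal_le_of_aut hS hF hE (sat_inner (hS.to_le a5))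
    (sub_iff_M.2 fun P f hf => ?_) le_sup_left le_rfl fun α hα => ?_).trans (sup_le le_rfl a4))
  · obtain ⟨b1, s, hs, e⟩ := M_inner.1 hf
    exact (M.cj F (b1.trans a5) (a5 hs)).congr fun x hx => (e x hx).symm
  · obtain ⟨-, s, hs, e⟩ := M_inner.1 ((mem_autGroup le_sup_left).1 hα)
    obtain ⟨u, hu, c, hc, rfl⟩ := mem_sup_centralizerIn.1 hs
    exact (mem_autGroup le_rfl).2 ((M.cj E le_rfl hu).congr fun x hx => by
      rw [e x hx, cj_apply, mul_assoc u c, ← hc.2 x hx]; group)

end Cfsg.Agent.S5200
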