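import Cfsg.Statements.S5201
import Cfsg.Agent.H28.Cen2
-- import your own Cfsg.Agent.* helpers here

set_option autoImplicit false
open Cfsg

namespace Cfsg.Agent.S5201
open H28 Cfsg.FusionSystem
set_option linter.unusedVariables false
set_option linter.style.haveILetI false


/-- A reduction to normal subsystems. Let F be a saturated fusion system over a finite p-group S and E a normal subsystem of F over T whose centralizer in S lies in T (every subgroup Y of C_S(T) with E contained in the centralizer fusion system of Y in F satisfies Y ≤ T), and suppose Aut_F(T)/Aut_E(T) is p-solvable. Then F and E have the same residual limit: if F∞ is the residual limit of F (reached by alternately passing to the p-residual and the p'-residual subsystem until nothing changes) and E∞ that of E, then F∞ and E∞ have the same maps. -/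
theorem result {Ω : Type*} [Group Ω] {S : Subgroup Ω} [Finite S] (p : ℕ) [Fact p.Prime] (hS : IsPGroup p S) (F : Cfsg.FusionSystem S) (hF : F.IsSaturated p) {T : Subgroup Ω} (E : Cfsg.FusionSystem T) (hE : E.IsNormalIn F p) (hCE : ∀ Y : Subgroup Ω, Y ≤ Cfsg.FusionSystem.centralizerIn S T → (∀ C : Cfsg.FusionSystem (Cfsg.FusionSystem.centralizerIn S Y), F.IsCentralizerSystem Y C → E.IsSubsystemOf C) → Y ≤ T) [hn : ((E.autGroup T).subgroupOf (F.autGroup T)).Normal] (hsolv : Cfsg.IsPSolvable p (↥(F.autGroup T) ⧸ (E.autGroup T).subgroupOf (F.autGroup T))) {U V : Subgroup Ω} (Finf : Cfsg.FusionSystem U) (hFinf : Finf.IsResidualLimitOf F p) (Einf : Cfsg.FusionSystem V) (hEinf : Einf.IsResidualLimitOf E p) : ∀ P : Subgroup Ω, Finf.Hom P = Einf.Hom P := by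
  haveI := inv_finite hE.1.2.2
  obtain ⟨D, h1, h2, h3, h4⟩ := exists_reduction hS hF hE hsolv
  obtain ⟨a1, a2, -⟩ := limit_spec hS hF hFinf
  haveI := inv_finite h1.1.2.2
  have a3 := cen_cenS hS hF hE
  have a4 := hCE _ a3.1 fun C hC => a3.sub_NK (inv_le hE.1.2.2) (isNK_of_centralizer (a3.1.trans centralizerIn_le) hC)
  exact (limit_same hS hF hE hFinf hEinf (a2.1.ge.trans ((hyperfocal_mono (subnormal_sub (subnormal_of_le hS a2.2 a1 h1.1
    (h4 _ _ a2 a1)))).trans ((hyperfocal_le_focal D).trans ((focal_le_of_aut hS hF hE h1.1.1 h1.1.2.2.1 le_sup_left le_rfl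
      h3.le).trans (sup_le le_rfl a4)))))).hom_eq

end Cfsg.Agent.S5201
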