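import Mathlib
import Cfsg.Statements.S5214
import Cfsg.Agent.S1137
import Cfsg.Agent.S1138
import Cfsg.Agent.H28.Norm

set_option autoImplicit false
open Cfsg

namespace Cfsg.Agent.S5214

open Subgroup H28


/-- Let S be a Suzuki 2-group (a finite nonabelian 2-group with more than one involution admitting a cyclic group of automorphisms permuting its involutions regularly). Then S is normal in every saturated fusion system over S (such a group is resistant). -/
theorem result {Ω : Type*} [Group Ω] {S : Subgroup Ω} [Finite S] (hS : IsPGroup 2 S) (F : Cfsg.FusionSystem S) (hF : F.IsSaturated 2) (hsz : Cfsg.IsSuzukiTwoGroup ↥S) : F.IsNormal S := by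
  have h1 := Cfsg.Agent.S1137.result hsz
  have h2 := (Cfsg.Agent.S1138.result hsz).2.1
  have h3 : ∀ x ∈ S, x ∈ (center S).map S.subtype ↔ x * x = 1 := fun x hx => by
    rw [show x = S.subtype ⟨x, hx⟩ from rfl, mem_map_iff_mem S.subtype_injective, ← map_mul,
      map_eq_one_iff _ S.subtype_injective]
    refine ⟨h1.2 _, fun h => ?_⟩
    by_cases e : (⟨x, hx⟩ : S) = 1
    · rw [e]; exact one_mem _
    · exact ((h1.1 _).1 ⟨e, h⟩).1
  refine normal_of_sc_two_step hS hF (sc_top F) (R := (center S).map S.subtype)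
    (stronglyClosed_iff.2 ⟨map_subtype_le _, fun P f hf x hx hx' => (h3 _ (hf.mem hx)).2 ?_⟩)
    (commutator_le.2 fun x hx y hy => ⟨_, h2 ⟨x, hx⟩⁻¹ ⟨y, hy⟩⁻¹, by simp [commutatorElement_def]⟩)
    (commutator_eq_bot_iff_le_centralizer.2 ?_)
  · rw [← hf.hom.map_mul hx hx, (h3 x (hf.le hx)).1 hx', hf.hom.map_one]
  · rintro _ ⟨x, hx, rfl⟩ y hy
    exact congrArg Subtype.val (mem_center_iff.1 hx ⟨y, hy⟩)

end Cfsg.Agent.S5214
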