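import Cfsg.Statements.S5222
import Cfsg.Agent.H28.Trans2
-- import your own Cfsg.Agent.* helpers here

set_option autoImplicit false
open Cfsg

namespace Cfsg.Agent.S5222
open H28 Cfsg.FusionSystem
set_option linter.unusedVariables false
set_option linter.style.haveILetI false


/-- Let F be a saturated fusion system over a finite p-group S whose normalizer fusion system of S is the inner fusion system of S (Aut_F(S) is a p-group). Then for every subgroup Q of S with [S, S] ≤ Q ≤ Φ(S), the normalizer fusion system of Q in F is the inner fusion system of N_S(Q) = S. -/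
theorem result {Ω : Type*} [Group Ω] {S : Subgroup Ω} [Finite S] (p : ℕ) [Fact p.Prime] (hS : IsPGroup p S) (F : Cfsg.FusionSystem S) (hF : F.IsSaturated p) (hN : ∀ N : Cfsg.FusionSystem (Cfsg.FusionSystem.normalizerIn S S), F.IsNormalizerSystem S N → ∀ P : Subgroup Ω, N.Hom P = (Cfsg.innerFusionSystem (Cfsg.FusionSystem.normalizerIn S S)).Hom P) (Q : Subgroup Ω) (h1 : (commutator ↥S).map S.subtype ≤ Q) (h2 : Q ≤ (frattini ↥S).map S.subtype) : ∀ N : Cfsg.FusionSystem (Cfsg.FusionSystem.normalizerIn S Q), F.IsNormalizerSystem Q N → ∀ P : Subgroup Ω, N.Hom P = (Cfsg.innerFusionSystem (Cfsg.FusionSystem.normalizerIn S Q)).Hom P := by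
  intro N hN'
  rw [Subgroup.map_subtype_commutator] at h1
  have hQ : Q ≤ S := h2.trans (Subgroup.map_subtype_le _)
  have hn : S ≤ Subgroup.normalizer (Q : Set Ω) := fun s hs => by
    haveI := finite_of_le hQ
    exact mem_normalizer_of_conj_mem fun x hx => by
      simpa using Q.mul_mem hx (h1 (inv_mul_conj_mem_commutator (hQ hx) hs))
  have h3 := onN_inner_of le_rfl Subgroup.le_normalizer hN
  have h4 := isNK_of_normalizer hQ hN'
  clear hN'
  generalize Cfsg.FusionSystem.normalizerIn S Q = T at N h4
  obtain rfl := h4.eq_top hn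
  rw [inner_of_sc hS (h4.sat_top hS hF hn) (normal_sc (h4.normal hQ)) h1 h2 fun f hf =>
    h3 _ f le_rfl (hf.of_sub h4.sub) hf.iso_top.hiso]
  exact fun _ => rfl

end Cfsg.Agent.S5222
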