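import Cfsg.Statements.S5223
import Cfsg.Agent.H28.Inv
-- import your own Cfsg.Agent.* helpers here

set_option autoImplicit false
open Cfsg

namespace Cfsg.Agent.S5223
open H28 Cfsg.FusionSystem
set_option linter.unusedVariables false
set_option linter.style.haveILetI false


/-- Let F be a saturated fusion system over a finite p-group S. Suppose there are subgroups Q₀ = S, Q₁, …, Qₙ = 1 (not required to be nested) such that for each i < n the focal subgroup of Qᵢ (generated by the elements x⁻¹φ(x), x ∈ Qᵢ, φ a map of F defined on the cyclic group generated by x) lies in Qᵢ₊₁. Then F is the inner fusion system of S. -/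
theorem result {Ω : Type*} [Group Ω] {S : Subgroup Ω} [Finite S] (p : ℕ) [Fact p.Prime] (hS : IsPGroup p S) (F : Cfsg.FusionSystem S) (hF : F.IsSaturated p) (n : ℕ) (Q : Fin (n + 1) → Subgroup Ω) (hQ0 : Q 0 = S) (hQn : Q (Fin.last n) = ⊥) (hstep : ∀ i : Fin n, Subgroup.closure {y : Ω | ∃ x ∈ Q i.castSucc, ∃ φ ∈ F.Hom (Subgroup.zpowers x), y = x⁻¹ * φ ⟨x, Subgroup.mem_zpowers x⟩} ≤ Q i.succ) : ∀ P : Subgroup Ω, F.Hom P = (Cfsg.innerFusionSystem S).Hom P := by
  intro P
  rw [eq_inner_of_isPGroup hS hF fun R hR => ?_]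
  have hRS := (cr_of_alperin hS hF hR).1.1
  haveI := finite_mulAut hRS
  refine H26.isPGroup_of_forall_coprime fun α hα hc => aut_eq_one fun x hx => ?_
  have key : ∀ i : Fin (n + 1), ∀ x ∈ R, x ∈ Q i → ex R α x = x := by
    intro i
    induction i using Fin.reverseInduction with
    | last => intro x _ hx; rw [hQn, Subgroup.mem_bot] at hx; rw [hx, (hiso_ex α).hom.map_one]
    | cast i ih =>
      intro x hx hx'
      exact fix_of_step hS hRS hc hx (ih _ (R.mul_mem (inv_mem hx) (ex_mem α hx)) (hstep i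
        (Subgroup.subset_closure ⟨x, hx', _,
          ((iso_ex hRS hα).map.mono (Subgroup.zpowers_le_of_mem hx)).toHom_mem, rfl⟩)))
  exact key 0 x hx (hQ0 ▸ hRS hx)

end Cfsg.Agent.S5223
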