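import Cfsg.Statements.S5224
import Cfsg.Agent.H28.Trans
-- import your own Cfsg.Agent.* helpers here

set_option autoImplicit false
open Cfsg

namespace Cfsg.Agent.S5224
open H28 Cfsg.FusionSystem
set_option linter.unusedVariables false
set_option linter.style.haveILetI false


/-- Tate's Theorem for fusion systems. Let F be a saturated fusion system over a finite p-group S and H a saturated fusion system over S contained in F. Then the following are equivalent: the elementary focal subgroups Φ(S)·foc agree for F and H; the focal subgroups of F and H agree; the hyperfocal subgroups of F and H agree. -/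
theorem result {Ω : Type*} [Group Ω] {S : Subgroup Ω} [Finite S] (p : ℕ) [Fact p.Prime] (hS : IsPGroup p S) (F : Cfsg.FusionSystem S) (hF : F.IsSaturated p) (H : Cfsg.FusionSystem S) (hH : H.IsSaturated p) (hHF : H.IsSubsystemOf F) : (((frattini ↥S).map S.subtype ⊔ F.focalSubgroup) = ((frattini ↥S).map S.subtype ⊔ H.focalSubgroup) ↔ F.focalSubgroup = H.focalSubgroup) ∧ (F.focalSubgroup = H.focalSubgroup ↔ F.hyperfocalSubgroup p = H.hyperfocalSubgroup p) := by
  have h0 : ⁅S, S⁆ ≤ (frattini S).map S.subtype := H04.commutator_le_map_frattini hS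
  have h1 : (frattini S).map S.subtype ⊔ F.focalSubgroup = (frattini S).map S.subtype ⊔ H.focalSubgroup →
      F.hyperfocalSubgroup p = H.hyperfocalSubgroup p := fun h => le_antisymm
    (hyperfocal_le_of_frattini hS hF (hyperfocal_mono hHF) (hyperfocal_le_normalizer H)
      ((hyperfocal_le_focal F).trans (le_sup_right.trans (h.le.trans (sup_le le_sup_right (by
        rw [focal_eq_sup hS hH]; exact sup_le_sup_left h0 _)))))) (hyperfocal_mono hHF)
  have h2 : F.hyperfocalSubgroup p = H.hyperfocalSubgroup p → F.focalSubgroup = H.focalSubgroup := fun h => by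
    rw [focal_eq_sup hS hF, focal_eq_sup hS hH, h]
  exact ⟨⟨fun h => h2 (h1 h), fun h => by rw [h]⟩, fun h => h1 (by rw [h]), h2⟩

end Cfsg.Agent.S5224
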