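import Cfsg.Statements.S5226
import Cfsg.Agent.H28.Q3
-- import your own Cfsg.Agent.* helpers here

set_option autoImplicit false
open Cfsg

namespace Cfsg.Agent.S5226
open H28 Cfsg.FusionSystem
set_option linter.unusedVariables false
set_option linter.style.haveILetI false


/-- Let F be a saturated fusion system over a finite p-group S and Q a subgroup of S. Then Q is normal in F (F equals the normalizer system of Q) if and only if Q is strongly closed in F and admits a central series 1 = Q₀ ≤ Q₁ ≤ ⋯ ≤ Qₙ = Q ([Qᵢ₊₁, Q] ≤ Qᵢ) all of whose proper terms are weakly closed in F. -/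
theorem result {Ω : Type*} [Group Ω] {S : Subgroup Ω} [Finite S] (p : ℕ) [Fact p.Prime] (hS : IsPGroup p S) (F : Cfsg.FusionSystem S) (hF : F.IsSaturated p) (Q : Subgroup Ω) : F.IsNormal Q ↔ F.StronglyClosed Q ∧ ∃ (n : ℕ) (C : Fin (n + 1) → Subgroup Ω), C 0 = ⊥ ∧ C (Fin.last n) = Q ∧ Monotone C ∧ (∀ i : Fin n, ⁅C i.succ, Q⁆ ≤ C i.castSucc) ∧ ∀ i : Fin n, F.WeaklyClosed (C i.castSucc) := by
  refine ⟨fun h => ⟨normal_sc h, ?_⟩, fun ⟨hQ, n, C, h0, hn, hm, h1, h2⟩ => ?_⟩
  · obtain ⟨n, C, a1, a2, a3, a4, a5⟩ := exists_normal_chain hS hF h h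
    exact ⟨n, C, a1, a2, a3, a5, fun i => wc_of_sc (normal_sc (a4 _))⟩
  have k : ∀ i, F.StronglyClosed (C i) := by
    intro i
    induction i using Fin.induction with
    | zero => rw [h0]; exact sc_bot F
    | succ i ih =>
      by_cases h : i.succ = Fin.last n
      · rw [h, hn]; exact hQ
      · obtain ⟨j, hj⟩ := Fin.exists_castSucc_eq.2 h
        exact sc_of_wc_step hS hF hQ ih (hj ▸ h2 j) (hm i.castSucc_le_succ) (hn ▸ hm (Fin.le_last _)) (h1 i)
  refine normal_of_chain hS hF (fun i => C ⟨min i n, by omega⟩) n (by simpa using h0) (by simp only [min_self]; exact hn)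
    (fun i _ => k _) fun i hi => ?_
  simp only [min_eq_left hi.le, min_eq_left (Nat.succ_le_of_lt hi)]
  exact h1 ⟨i, hi⟩

end Cfsg.Agent.S5226
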