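import Cfsg.Statements.S5236
import Cfsg.Agent.H28.Q3
-- import your own Cfsg.Agent.* helpers here

set_option autoImplicit false
open Cfsg

namespace Cfsg.Agent.S5236
open H28 Cfsg.FusionSystem
set_option linter.unusedVariables false
set_option linter.style.haveILetI false


/-- Let p be an odd prime, F a saturated fusion system over a finite p-group S and P a subgroup of S strongly closed in F. Then P is normal in F if and only if Ω₁(P) (the subgroup generated by the elements of order p of P) has a chain of subgroups 1 = Q₀ ≤ Q₁ ≤ ⋯ ≤ Qₙ = Ω₁(P), each strongly closed in F, with [Qᵢ₊₁, P] ≤ Qᵢ for all i. -/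
theorem result {Ω : Type*} [Group Ω] {S : Subgroup Ω} [Finite S] (p : ℕ) [Fact p.Prime] (hS : IsPGroup p S) (F : Cfsg.FusionSystem S) (hF : F.IsSaturated p) (hp : p ≠ 2) (P : Subgroup Ω) (hP : F.StronglyClosed P) : F.IsNormal P ↔ ∃ (n : ℕ) (Q : Fin (n + 1) → Subgroup Ω), Q 0 = ⊥ ∧ Q (Fin.last n) = Cfsg.omegaOne p P ∧ Monotone Q ∧ (∀ i : Fin (n + 1), F.StronglyClosed (Q i)) ∧ ∀ i : Fin n, ⁅Q i.succ, P⁆ ≤ Q i.castSucc := by
  refine ⟨fun h => ?_, fun ⟨n, Q, h0, hn, _, h1, h2⟩ => ?_⟩
  · obtain ⟨n, C, a1, a2, a3, a4, a5⟩ := exists_normal_chain hS hF (normal_of_invariant h (H17.omegaOne_le p P)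
      fun g hg => (hg.hom.mono (H17.omegaOne_le p P)).mem_of_closure (A := Cfsg.omegaOne p P) fun y hy =>
        H17.mem_omegaOne (hg.map_mem hy.1) (by rw [← hg.hom.map_pow hy.1, hy.2, hg.hom.map_one])) h
    exact ⟨n, C, a1, a2, a3, fun i => normal_sc (a4 i), a5⟩
  refine normal_of_small_chain hS hF hP (fun i => Q ⟨min i n, by omega⟩) n (by simpa using h0) (fun i => h1 _)
    (fun x hx hs => ?_) fun i hi => ?_
  · simp only [min_self]
    exact hn.ge (H17.mem_omegaOne hx (hs.resolve_right fun e => hp e.1))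
  · simp only [min_eq_left hi.le, min_eq_left (Nat.succ_le_of_lt hi)]
    exact h2 ⟨i, hi⟩

end Cfsg.Agent.S5236
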