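import Cfsg.Statements.S5243
import Cfsg.Agent.H28.PG
-- import your own Cfsg.Agent.* helpers here

set_option autoImplicit false
open Cfsg

namespace Cfsg.Agent.S5243
open H28 Cfsg.FusionSystem
set_option linter.unusedVariables false
set_option linter.style.haveILetI false


/-- Let F be a saturated fusion system over a finite p-group S, E a normal subsystem of F over T ≤ S, and χ a surjective homomorphism from Aut_F(T) onto a nontrivial finite group Δ of order prime to p whose kernel contains Aut_E(T). Then there is a proper normal subsystem F₀ of F over S containing E such that Aut_{F₀}(S) consists of those α ∈ Aut_F(S) whose restriction to T is an element of Aut_F(T) in the kernel of χ; moreover every p'-residual subsystem O^{p'}(F) of F is contained in F₀. -/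
theorem result {Ω : Type*} [Group Ω] {S : Subgroup Ω} [Finite S] (p : ℕ) [Fact p.Prime] (hS : IsPGroup p S) (F : Cfsg.FusionSystem S) (hF : F.IsSaturated p) {T : Subgroup Ω} (hTS : T ≤ S) (E : Cfsg.FusionSystem T) (hE : E.IsNormalIn F p) {Δ : Type*} [Group Δ] [Finite Δ] [Nontrivial Δ] (hΔ : (Nat.card Δ).Coprime p) (χ : ↥(F.autGroup T) →* Δ) (hχ : Function.Surjective χ) (hker : (E.autGroup T).subgroupOf (F.autGroup T) ≤ χ.ker) : ∃ F₀ : Cfsg.FusionSystem S, F₀.IsNormalIn F p ∧ ¬ (∀ P : Subgroup Ω, F₀.Hom P = F.Hom P) ∧ E.IsSubsystemOf F₀ ∧ (∀ α : MulAut ↥S, α ∈ F₀.autGroup S ↔ α ∈ F.autGroup S ∧ ∃ β : ↥(F.autGroup T), χ β = 1 ∧ ∀ t : ↥T, (((β : MulAut ↥T) t : ↥T) : Ω) = ((α ⟨(t : Ω), hTS t.2⟩ : ↥S) : Ω)) ∧ ∀ R : Cfsg.FusionSystem S, F.IsPPrimeResidual p R → R.IsSubsystemOf F₀ := by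
  have hT := hE.1.2.2.2.1
  haveI := finite_mulAut hTS
  have hm : ∀ α, α ∈ χ.ker.map (F.autGroup T).subtype ↔ ∃ h : α ∈ F.autGroup T, χ ⟨α, h⟩ = 1 := fun α =>
    ⟨fun ⟨β, h1, h2⟩ => h2 ▸ ⟨β.2, h1⟩, fun ⟨h1, h2⟩ => ⟨⟨α, h1⟩, h2, rfl⟩⟩
  obtain ⟨D, h1, h2, h3, -⟩ := pg_aut hS hF hE.1 (Γ := χ.ker.map (F.autGroup T).subtype) (Subgroup.map_subtype_le _)
    (H26.le_normalizer_map_subtype _) (fun α hα => (hm α).2 ⟨autGroup_mono hE.1.2.2.1 T hα, hker hα⟩) fun α hα => by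
      have a1 := autInducedBy_le_autGroup F hTS le_rfl hα
      obtain ⟨k, hk⟩ := H26.isPGroup_iff_mem.1 (isPGroup_autInducedBy hS T) α hα
      refine (hm α).2 ⟨a1, orderOf_eq_one_iff.1 ((Nat.coprime_self _).1 ?_)⟩
      refine Nat.Coprime.coprime_dvd_left (orderOf_dvd_natCard _) (Nat.Coprime.coprime_dvd_right (orderOf_dvd_of_pow_eq_one (n := p ^ k) ?_) (hΔ.pow_right k))
      rw [← map_pow, show (⟨α, a1⟩ : F.autGroup T) ^ p ^ k = 1 from Subtype.ext hk, map_one]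
  refine ⟨D, h1, fun h => ?_, h2, fun α => ?_, fun R hR => pprime_sub_of_wn hS hF hR h1.1⟩
  · obtain ⟨δ, hδ⟩ := exists_ne (1 : Δ)
    obtain ⟨β, rfl⟩ := hχ δ
    obtain ⟨a0, a1⟩ := (hm _).1 ((h3 T _ le_rfl).1 ((M_congr_of_hom_eq (h T)).2 (iso_ex hTS β.2).map)).2
    exact hδ (by simpa using a1)
  · rw [mem_autGroup le_rfl, mem_autGroup le_rfl, h3 S _ hTS]
    refine and_congr_right fun hα => ?_
    have a1 := (sc_iso hT hα hTS).hiso
    refine ⟨fun a2 => let ⟨a3, a4⟩ := (hm _).1 a2; ⟨_, a4, fun t => (a1.res_coe t).trans (ex_apply α _)⟩, fun ⟨β, a2, a3⟩ => ?_⟩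
    rw [a1.res_eq_iff.2 fun x hx => by rw [ex_apply _ hx, a3, ex_apply α (hTS hx)]]
    exact (hm _).2 ⟨β.2, a2⟩

end Cfsg.Agent.S5243
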