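import Cfsg.Statements.S5245
import Cfsg.Agent.H28.Q4
-- import your own Cfsg.Agent.* helpers here

set_option autoImplicit false
open Cfsg

namespace Cfsg.Agent.S5245
open H28 Cfsg.FusionSystem
set_option linter.unusedVariables false
set_option linter.style.haveILetI false


/-- Let F be an extremely sparse fusion system over a finite p-group S (saturated, not the inner system, and every saturated fusion system over any subgroup T of S contained in F is F itself or the inner system of T). Then S is normal in F, the focal and hyperfocal subgroups of F are both S, and Aut_F(S) is generated by the inner automorphisms of S together with a single automorphism of prime order q ≠ p (F is the fusion system of the semidirect product of S by a cyclic group of prime order). -/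
theorem result {Ω : Type*} [Group Ω] {S : Subgroup Ω} [Finite S] (p : ℕ) [Fact p.Prime] (hS : IsPGroup p S) (F : Cfsg.FusionSystem S) (hF : F.IsSaturated p) (hxs : ¬ (∀ P : Subgroup Ω, F.Hom P = (Cfsg.innerFusionSystem S).Hom P) ∧ ∀ (T : Subgroup Ω) (E : Cfsg.FusionSystem T), E.IsSaturated p → E.IsSubsystemOf F → (T = S ∧ ∀ P : Subgroup Ω, E.Hom P = F.Hom P) ∨ (∀ P : Subgroup Ω, E.Hom P = (Cfsg.innerFusionSystem T).Hom P)) : F.IsNormal S ∧ F.focalSubgroup = S ∧ F.hyperfocalSubgroup p = S ∧ ∃ (q : ℕ) (β : MulAut ↥S), q.Prime ∧ q ≠ p ∧ β ∈ F.autGroup S ∧ orderOf β = q ∧ (F.autGroup S : Subgroup (MulAut ↥S)) = Cfsg.Inn ↥S ⊔ Subgroup.zpowers β := by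
  have key : ∀ P ≤ S, ∀ β ∈ F.autGroup P, β ≠ 1 → (orderOf β).Coprime p → P = S ∧ F.IsNormal P ∧
      F.autGroup P = Cfsg.Inn P ⊔ Subgroup.zpowers β := fun P hP β hβ h1 hc => by
    haveI := finite_of_le hP
    have hP' := hS.to_le hP
    have hI : IsPGroup p (Cfsg.Inn P) := Inn_eq P ▸ isPGroup_autInducedBy hP' P
    obtain ⟨E, hE⟩ := exists_autSys (S := P) (K := Cfsg.Inn P ⊔ Subgroup.zpowers β) le_sup_left
    have a1 := autSys_autGroup hE
    rcases hxs.2 P E (sat_of_normal_top hP' (autSys_normal hE) (a1 ▸ isSyl_sup_zpowers hI (le_normalizer_Inn ⊤ trivial) hc))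
      (sub_iff_M.2 fun Q f hf => by
        obtain ⟨b1, α, b2, b3⟩ := (hE Q f).1 hf
        exact ((iso_ex hP (sup_le (Inn_le_autGroup F hP) (Subgroup.zpowers_le_of_mem hβ) b2)).map.mono b1).congr
          fun x hx => (b3 x hx).symm) with ⟨rfl, h⟩ | h
    · obtain rfl := fs_ext h
      exact ⟨rfl, autSys_normal hE, a1⟩
    · rw [autGroup_congr (h P), autGroup_inner le_rfl, ← Inn_eq] at a1
      exact (h1 (H26.eq_one_of_mem_pGroup hI (a1.ge (Subgroup.mem_sup_right (Subgroup.mem_zpowers β))) hc)).elim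
  obtain ⟨R, hR, h1⟩ : ∃ R, R ≤ S ∧ ¬ IsPGroup p (F.autGroup R) := by
    by_contra h
    push Not at h
    exact hxs.1 fun P => by rw [← eq_inner_of_isPGroup hS hF fun R hR => h R (cr_of_alperin hS hF hR).1.1]
  haveI := finite_mulAut hR
  obtain ⟨q, β, hβ, hq, hqp, ho⟩ := exists_prime_order h1
  have hc : (orderOf β).Coprime p := ho ▸ (Nat.coprime_primes hq Fact.out).2 hqp
  have h2 : β ≠ 1 := fun e => hq.one_lt.ne (by rw [← ho, e, orderOf_one])
  obtain ⟨rfl, a2, a3⟩ := key R hR β hβ h2 hc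
  have hi := sc_iso (sc_hyperfocal hS hF) (iso_ex le_rfl hβ).map (hyperfocal_le F)
  have a4 := (key _ (hyperfocal_le F) _ hi.res_mem (fun e => h2 (aut_eq_one fun x hx => fix_of_step hS le_rfl hc hx
    (hi.hiso.res_eq_one_iff.1 e _ (mem_commIn_hyperfocal hS le_rfl hβ hc x hx))))
    (coprime_res (hiso_ex β) hi.hiso (hyperfocal_le F) (by rwa [res_ex]))).1
  exact ⟨a2, focal_eq_top_of_hyperfocal hS hF a4, a4, q, β, hq, hqp, hβ, ho, a3⟩

end Cfsg.Agent.S5245
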