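import Cfsg.Statements.S5271
import Cfsg.Agent.H28.WE
-- import your own Cfsg.Agent.* helpers here

set_option autoImplicit false
open Cfsg

namespace Cfsg.Agent.S5271
open H28 Cfsg.FusionSystem
set_option linter.unusedVariables false
set_option linter.style.haveILetI false


/-- A nilpotency criterion for fusion systems. Let F be a saturated fusion system over a finite p-group S of order at least p². Call a subgroup Q of S weakly embedded in F when there is a subgroup P of S strongly closed in F such that both the product QP and the intersection Q ∩ P are strongly closed in F. Then F is the inner fusion system of S if and only if there is a subgroup D of S with 1 < D < S such that every subgroup of S of the same order as D is weakly embedded in F and, for every fully normalized subgroup H of S of that order, the normalizer fusion system of H in F is the inner fusion system of N_S(H). -/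
theorem result {Ω : Type*} [Group Ω] {S : Subgroup Ω} [Finite S] (p : ℕ) [Fact p.Prime] (hS : IsPGroup p ↥S) (F : Cfsg.FusionSystem S) (hF : F.IsSaturated p) (hcard : p ^ 2 ≤ Nat.card S) : (∀ P : Subgroup Ω, F.Hom P = (Cfsg.innerFusionSystem S).Hom P) ↔ ∃ D : Subgroup Ω, ⊥ < D ∧ D < S ∧ (∀ Q : Subgroup Ω, Q ≤ S → Nat.card ↥Q = Nat.card ↥D → ∃ P : Subgroup Ω, F.StronglyClosed P ∧ F.StronglyClosed (Q ⊔ P) ∧ F.StronglyClosed (Q ⊓ P)) ∧ (∀ H : Subgroup Ω, F.IsFullyNormalized H → Nat.card ↥H = Nat.card ↥D → ∀ N : Cfsg.FusionSystem (Cfsg.FusionSystem.normalizerIn S H), F.IsNormalizerSystem H N → ∀ P : Subgroup Ω, N.Hom P = (Cfsg.innerFusionSystem (Cfsg.FusionSystem.normalizerIn S H)).Hom P) := by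
  have hp : p.Prime := Fact.out
  refine ⟨fun h => ?_, fun ⟨D, _, h2, h3, h4⟩ P => by
    rw [we_inner F hS hF _ (Subgroup.card_dvd_of_le h2.le) (card_lt_of_lt le_rfl h2) h3 (pn_of hS hF h4)]⟩
  obtain rfl := fs_ext h
  obtain ⟨k, hk⟩ := IsPGroup.iff_card.1 hS
  rw [hk, Nat.pow_le_pow_iff_right hp.one_lt] at hcard
  obtain ⟨k, rfl⟩ : ∃ j, k = j + 1 := ⟨k - 1, by omega⟩
  obtain ⟨D, -, h1, h2⟩ := exists_card_between hS bot_le (n := p ^ k) (by simp) (hk ▸ pow_dvd_pow p k.le_succ)
  refine ⟨D, bot_lt_iff_ne_bot.2 fun e => ?_, lt_of_le_of_ne h1 fun e => ?_, fun Q hQ e => ⟨⊥, sc_bot _, ?_, ?_⟩,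
    fun H hH _ N hN P => ?_⟩
  · rw [e, Subgroup.card_bot] at h2
    exact (Nat.one_lt_pow (by omega) hp.one_lt).ne h2
  · rw [e, hk, Nat.pow_right_inj hp.one_lt] at h2
    omega
  · have h3 := (Q.subgroupOf S).card_mul_index
    rw [Nat.card_congr (Subgroup.subgroupOfEquivOfLe hQ).toEquiv, e, h2, hk, pow_succ,
      Nat.mul_right_inj (pow_pos hp.pos k).ne'] at h3
    haveI := hS.isNilpotent
    rw [sup_bot_eq]
    exact normal_sc (normal_inner hQ ((Subgroup.normal_subgroupOf_iff_le_normalizer hQ).1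
      (H04.normal_of_isCoatom ((H04.isCoatom_iff_index_eq hS).2 h3))))
  · rw [inf_bot_eq]; exact sc_bot _
  · haveI := finite_of_le (normalizerIn_le (S := S) (P := H))
    refine hom_eq_of_sub (sub_iff_M.2 fun R f hf => ?_) (inner_sub N) P
    obtain ⟨g, a1, a2, a3, -⟩ := (isNK_of_normalizer hH.1 hN).ext hf
    obtain ⟨-, s, hs, a4⟩ := M_inner.1 a1
    exact M_inner.2 ⟨hf.le, s, ⟨hs, (a3.congr (g := cj s) fun x hx => a4 x (Subgroup.mem_sup_right hx)).normalizer_of_cj⟩,
      fun x hx => a2 x hx ▸ a4 x (Subgroup.mem_sup_left hx)⟩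

end Cfsg.Agent.S5271
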