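import Cfsg.Statements.S5272
import Cfsg.Agent.H28.Q1
-- import your own Cfsg.Agent.* helpers here

set_option autoImplicit false
open Cfsg

namespace Cfsg.Agent.S5272
open H28 Cfsg.FusionSystem
set_option linter.unusedVariables false
set_option linter.style.haveILetI false


/-- An axiomatic Glauberman–Thompson nilpotency criterion for fusion systems. Let p be an odd prime, F a saturated fusion system over a finite p-group S, and 𝒜 a nonempty family of abelian subgroups of S. For Q ≤ S write I(Q) for the intersection of the members of 𝒜 contained in Q. Assume (invariance) that for every Q ≤ S containing a member of 𝒜, every F-automorphism of Q maps I(Q) into itself, and (replacement) that for every subgroup B of S of nilpotency class at most 2, if some member of 𝒜 contains [B,B] but not B, then B normalizes some member of 𝒜 that contains [B,B] but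 not B. Then F is the inner fusion system of S if and only if the normalizer fusion system of I(S) in F is the inner fusion system of N_S(I(S)). -/
theorem result {Ω : Type*} [Group Ω] {S : Subgroup Ω} [Finite S] (p : ℕ) [Fact p.Prime] (hS : IsPGroup p ↥S) (F : Cfsg.FusionSystem S) (hF : F.IsSaturated p) (hp : p ≠ 2) (𝒜 : Set (Subgroup Ω)) (h𝒜 : ∀ A ∈ 𝒜, A ≤ S ∧ IsMulCommutative ↥A) (hne : 𝒜.Nonempty) (hinv : ∀ Q : Subgroup Ω, Q ≤ S → (∃ A ∈ 𝒜, A ≤ Q) → ∀ α ∈ F.autGroup Q, ∀ x : ↥Q, (x : Ω) ∈ (⨅ A ∈ {A : Subgroup Ω | A ∈ 𝒜 ∧ A ≤ Q}, A) → (((α : MulAut ↥Q) x : ↥Q) : Ω) ∈ (⨅ A ∈ {A : Subgroup Ω | A ∈ 𝒜 ∧ A ≤ Q}, A)) (hrep : ∀ B : Subgroup Ω, B ≤ S → ⁅⁅B, B⁆, B⁆ = ⊥ → (∃ A ∈ 𝒜, ⁅B, B⁆ ≤ A ∧ ¬ B ≤ A) → ∃ A ∈ 𝒜, ⁅B, B⁆ ≤ A ∧ ¬ B ≤ A ∧ B ≤ Subgroup.normalizer (A : Set Ω)) : (∀ P : Subgroup Ω, F.Hom P = (Cfsg.innerFusionSystem S).Hom P) ↔ ∀ N : Cfsg.FusionSystem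 (Cfsg.FusionSystem.normalizerIn S (⨅ A ∈ 𝒜, A)), F.IsNormalizerSystem (⨅ A ∈ 𝒜, A) N → ∀ P : Subgroup Ω, N.Hom P = (Cfsg.innerFusionSystem (Cfsg.FusionSystem.normalizerIn S (⨅ A ∈ 𝒜, A))).Hom P := by
  have k : ∀ Q ≤ S, ∀ A ∈ 𝒜, A ≤ Q → ∀ f, Iso F Q Q f → ∀ z ∈ (⨅ A ∈ 𝒜, A), ∀ B ∈ 𝒜, B ≤ Q → f z ∈ B := by
    intro Q hQ A hA hAQ f hf z hz B hB hBQ
    have hz' : z ∈ Q := hAQ (Subgroup.mem_iInf.1 (Subgroup.mem_iInf.1 hz A) hA)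
    have := hinv Q hQ ⟨A, hA, hAQ⟩ _ hf.res_mem ⟨z, hz'⟩ (Subgroup.mem_iInf.2 fun B => Subgroup.mem_iInf.2
      fun h => Subgroup.mem_iInf.1 (Subgroup.mem_iInf.1 hz B) h.1)
    rw [hf.hiso.res_coe] at this
    exact Subgroup.mem_iInf.1 (Subgroup.mem_iInf.1 this B) ⟨hB, hBQ⟩
  obtain ⟨A₀, hA₀⟩ := hne
  have h1 : (⨅ A ∈ 𝒜, A) ≤ S := (iInf₂_le A₀ hA₀).trans (h𝒜 A₀ hA₀).1
  haveI := finite_of_le h1
  have h2 : S ≤ Subgroup.normalizer ((⨅ A ∈ 𝒜, A : Subgroup Ω) : Set Ω) := fun s hs =>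
    mem_normalizer_of_conj_mem fun x hx => Subgroup.mem_iInf.2 fun B => Subgroup.mem_iInf.2 fun hB =>
      k S le_rfl A₀ hA₀ (h𝒜 A₀ hA₀).1 _ (Iso.cj F le_rfl ⟨hs, Subgroup.le_normalizer hs⟩) x hx B hB (h𝒜 B hB).1
  refine ⟨fun h N hN => hom_inner_of_onN hS hF (isNK_of_normalizer h1 hN) h2 (all_inner_of_hom le_rfl h).onN,
    fun h => hom_of_all_inner (inner_of_family hp hS hF 𝒜 _ ⟨A₀, hA₀⟩ (fun A hA => ⟨iInf₂_le A hA, h𝒜 A hA⟩)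
      (fun B hB => le_iInf₂ hB) h2 (fun Q hQ A hA hAQ f hf z hz => k Q hQ A hA hAQ f hf z hz A hA hAQ)
      (fun B hB h3 h4 => ?_) (onN_inner_of h1 h2 h))⟩
  obtain ⟨A, a1, -, a2⟩ := hrep B hB h3 h4
  exact ⟨A, a1, a2⟩

end Cfsg.Agent.S5272
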