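import Mathlib
import Cfsg.Statements.S5274
import Cfsg.Agent.H28.Alp

set_option autoImplicit false
open scoped Pointwise
open Cfsg

namespace Cfsg.Agent.S5274

open H28 Cfsg.FusionSystem Equiv

section
variable {Ω : Type*} [Group Ω] {S : Subgroup Ω}

/-- the `2^j`-th powers of the central elements of `S` -/
def Zp (S : Subgroup Ω) (j : ℕ) : Subgroup Ω where
  carrier := {x | ∃ z ∈ S, (∀ s ∈ S, s * z = z * s) ∧ z ^ 2 ^ j = x}
  one_mem' := ⟨1, S.one_mem, by simp, by simp⟩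
  mul_mem' := by
    rintro _ _ ⟨a, ha, ca, rfl⟩ ⟨b, hb, cb, rfl⟩
    refine ⟨a * b, S.mul_mem ha hb, fun s hs => ?_, ?_⟩
    · rw [← mul_assoc, ca s hs, mul_assoc, cb s hs, mul_assoc]
    · exact Commute.mul_pow (cb a ha) _
  inv_mem' := by
    rintro _ ⟨a, ha, ca, rfl⟩
    refine ⟨a⁻¹, S.inv_mem ha, fun s hs => ?_, inv_pow _ _⟩
    exact (Commute.inv_right (ca s hs) : Commute s a⁻¹)

theorem Zp_succ (j : ℕ) : Zp S (j + 1) ≤ Zp S j := by
  rintro _ ⟨a, ha, ca, rfl⟩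
  refine ⟨a ^ 2, S.pow_mem ha 2, fun s hs => (Commute.pow_right (ca s hs) 2 : Commute s _), ?_⟩
  rw [← pow_mul, pow_succ']

/-- strong closure -/
def SC (F : FusionSystem S) (N : Subgroup Ω) : Prop :=
  ∀ (P : Subgroup Ω) (f : Perm Ω), M F P f → ∀ x ∈ P, x ∈ N → f x ∈ N

theorem pow_mem_of [Finite S] {F : FusionSystem S}
    (h : ∀ x ∈ S, ∃ z ∈ S ⊓ Subgroup.centralizer (S : Set Ω), F.IsConjElt x z) {j : ℕ}
    (hN : SC F (Zp S j)) {x : Ω} (hx : x ∈ S) : x ^ 2 ^ j ∈ Zp S j := by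
  obtain ⟨z, hz, φ, hφ, e⟩ := h x hx
  obtain ⟨f, hf, e'⟩ := exists_M hφ
  rw [e'] at e
  have hi := hf.iso_img
  have h1 : f (x ^ 2 ^ j) = z ^ 2 ^ j := by rw [hf.hom.map_pow (Subgroup.mem_zpowers x), e]
  have h2 := hN _ _ hi.symm.map (f (x ^ 2 ^ j))
    (hi.map_mem (Subgroup.pow_mem _ (Subgroup.mem_zpowers x) _)) (by rw [h1]; exact ⟨z, hz.1, hz.2, rfl⟩)
  simpa using h2

theorem cen_map {R : Subgroup Ω} {f : Perm Ω} (hf : HIso R R f) {v : Ω} (hv : v ∈ R)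
    (cv : ∀ r ∈ R, r * v = v * r) : ∀ r ∈ R, r * f v = f v * r :=
  hf.comm_of_comm hf.hom le_rfl hv cv

/-- the automorphisms of `R` in `F` centralizing the `2^j`-th powers of `Z(R)` modulo `N` -/
def KK (F : FusionSystem S) (R N : Subgroup Ω) (j : ℕ) : Subgroup (MulAut R) where
  carrier := {α | α ∈ F.autGroup R ∧ ∀ v ∈ R, (∀ r ∈ R, r * v = v * r) →
    ex R α (v ^ 2 ^ j) * (v ^ 2 ^ j)⁻¹ ∈ N}
  one_mem' := ⟨Subgroup.one_mem _, fun v _ _ => by simp⟩
  mul_mem' := by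
    rintro α β ⟨ha, ka⟩ ⟨hb, kb⟩
    refine ⟨Subgroup.mul_mem _ ha hb, fun v hv cv => ?_⟩
    have h1 := ka _ (ex_mem β hv) (cen_map (hiso_ex β) hv cv)
    rw [← (hiso_ex β).hom.map_pow hv] at h1
    have := N.mul_mem h1 (kb v hv cv)
    rw [ex_mul_apply]
    simpa [mul_assoc] using this
  inv_mem' := by
    rintro α ⟨ha, ka⟩
    refine ⟨Subgroup.inv_mem _ ha, fun v hv cv => ?_⟩
    have h1 := ka _ (ex_mem α⁻¹ hv) (cen_map (hiso_ex α⁻¹) hv cv)
    rw [← (hiso_ex α⁻¹).hom.map_pow hv, ← ex_mul_apply, mul_inv_cancel, map_one] at h1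
    simpa using N.inv_mem h1

theorem step [Finite S] (hS : IsPGroup 2 S) {F : FusionSystem S} (hF : F.IsSaturated 2)
    (h : ∀ x ∈ S, ∃ z ∈ S ⊓ Subgroup.centralizer (S : Set Ω), F.IsConjElt x z) {j : ℕ}
    (hN : SC F (Zp S (j + 1))) : SC F (Zp S j) := by
  intro P f hf
  refine alperin hS hF (C := fun P f => ∀ x ∈ P, x ∈ Zp S j → f x ∈ Zp S j)
    (fun P Q f g _ h1 h2 e x hx hz => e x hx ▸ h1 x (h2 hx) hz)
    (fun P Q f g _ _ h1 h2 e x hx hz => h2 _ (e x hx) (h1 x hx hz)) ?_ hf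
  rintro R a (rfl | hR) ha ih
  · rintro _ - ⟨z, hz, cz, rfl⟩
    exact ⟨a z, ha.map_mem hz, cen_map ha.hiso hz cz, (ha.hom.map_pow hz _).symm⟩
  have hRS := hR.1.1
  have hn := hR.2.1
  have hC := centric_self hR.1
  haveI := finite_mulAut hRS
  obtain ⟨t, ht, htR, ht2⟩ : ∃ t ∈ normalizerIn S R, t ∉ R ∧ t ^ 2 ∈ R := by
    obtain ⟨s, hs, hsR⟩ := SetLike.exists_of_lt (lt_normalizerIn hS (essential_lt hS hF hR))
    have hex : ∃ k, s ^ 2 ^ k ∈ R := by
      obtain ⟨k, hk⟩ := hS ⟨s, hs.1⟩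
      exact ⟨k, by rw [show s ^ 2 ^ k = 1 from congrArg Subtype.val hk]; exact R.one_mem⟩
    classical
    have h1 := Nat.find_spec hex
    obtain ⟨k, hk⟩ : ∃ k, Nat.find hex = k + 1 := Nat.exists_eq_succ_of_ne_zero fun e => by
      rw [e] at h1; simp at h1; exact hsR h1
    refine ⟨s ^ 2 ^ k, Subgroup.pow_mem _ hs _, Nat.find_min hex (by omega), ?_⟩
    rw [← pow_mul, ← pow_succ, ← hk]; exact h1
  set K := KK F R (Zp S (j + 1)) j with hK
  have hKA : K ≤ F.autGroup R := fun _ h => h.1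
  have hnorm : F.autGroup R ≤ Subgroup.normalizer (K : Set (MulAut R)) := by
    intro γ hγ
    refine mem_normalizer_of_conj_mem fun α hα => ⟨Subgroup.mul_mem _ (Subgroup.mul_mem _ hγ hα.1)
      (Subgroup.inv_mem _ hγ), fun v hv cv => ?_⟩
    have hv' := ex_mem γ⁻¹ hv
    have h1 := hα.2 _ hv' (cen_map (hiso_ex γ⁻¹) hv cv)
    have h2 := hN _ _ (iso_ex hRS hγ).map _
      (R.mul_mem (ex_mem α (R.pow_mem hv' _)) (R.inv_mem (R.pow_mem hv' _))) h1
    rw [(hiso_ex γ).hom.map_mul_inv (ex_mem α (R.pow_mem hv' _)) (R.pow_mem hv' _),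
      ← (hiso_ex γ⁻¹).hom.map_pow hv, ← ex_mul_apply, ← ex_mul_apply, ← ex_mul_apply, mul_inv_cancel,
      map_one] at h2
    simpa [mul_assoc] using h2
  have htK : res R (cj t) ∈ K := by
    refine ⟨(Iso.cj F hRS ht).res_mem, fun v hv cv => ?_⟩
    rw [ex_res_cj ht.2 (R.pow_mem hv _)]
    have hw : t * v * t⁻¹ ∈ R := conj_mem_of_normalizer ht.2 hv
    have cw : ∀ r ∈ R, r * (t * v * t⁻¹) = (t * v * t⁻¹) * r :=
      cen_map (hiso_cj_of_normalizer ht.2) hv cv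
    have e1 : (t * v) ^ 2 = t ^ 2 * (t * v * t⁻¹ * v) := by
      rw [← mul_assoc, cw _ ht2]; simp [pow_two, mul_assoc]
    have c1 : Commute (t ^ 2) (t * v * t⁻¹ * v) :=
      Commute.mul_right (cw _ ht2) (cv _ ht2)
    have c2 : Commute (t * v * t⁻¹) v := cv _ hw
    have m1 := pow_mem_of h hN (S.mul_mem ht.1 (hRS hv))
    have m2 := pow_mem_of h hN ht.1
    have m3 := pow_mem_of h hN (hRS hv)
    rw [pow_succ', pow_mul] at m1 m2
    rw [e1, c1.mul_pow, c2.mul_pow, conj_pow] at m1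
    have m4 := Subgroup.mul_mem _ (Subgroup.mul_mem _ (Subgroup.inv_mem _ m2) m1) (Subgroup.inv_mem _ m3)
    rw [pow_succ 2 j, pow_mul, pow_two (v ^ 2 ^ j)] at m4
    simpa [mul_assoc] using m4
  have hsyl := (sat_syl hS hF hn).inf_of_le hKA hnorm
  obtain ⟨n, hnK, y, hy, e⟩ := hsyl.frattini hnorm ha.res_mem
  have hyA : y ∈ F.autGroup R := by
    have := Subgroup.mul_mem _ (Subgroup.inv_mem _ (hKA hnK)) ha.res_mem
    rwa [e, inv_mul_cancel_left] at this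
  obtain ⟨g, hg, eg⟩ := recep_ext (sat_recep_fn hS hF hn) (iso_ex hRS hyA)
  have hte : t ∈ extd S R (ex R y) := ((hiso_ex y).mem_extd_iff ht).2 (by
    rw [(hiso_ex y).tr_self, res_ex]
    exact (conj_mem_of_normalizer hy ⟨res_cj_mem ht.1 ht.2, htK⟩).1)
  have hlt : R < extd S R (ex R y) :=
    lt_of_le_not_ge (iso_ex hRS hyA).map.le_extd fun h' => htR (h' hte)
  intro x hx hz
  have h1 := ih _ g (card_lt_of_lt hg.le hlt) hg x (hlt.le hx) hz
  rw [eg x hx] at h1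
  rw [← ha.hiso.ex_res hx, e, ex_mul_apply]
  obtain ⟨z, hz1, cz, ez⟩ := h1
  have hzR : z ∈ R := hC ⟨hz1, fun r hr => cz r (hRS hr)⟩
  have h2 := hnK.2 z hzR fun r hr => cz r (hRS hr)
  have h3 := Subgroup.mul_mem _ (Zp_succ j h2) (show z ^ 2 ^ j ∈ Zp S j from ⟨z, hz1, cz, rfl⟩)
  rw [← ez]
  simpa using h3
end

/-- Let F be a saturated fusion system over a finite 2-group S. Suppose that every element of S is F-conjugate to an element of the centre Z(S) (some map of F defined on the cyclic subgroup it generates sends it into Z(S)). Then S is abelian. -/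
theorem result {Ω : Type*} [Group Ω] {S : Subgroup Ω} [Finite S] (hS : IsPGroup 2 ↥S) (F : Cfsg.FusionSystem S) (hF : F.IsSaturated 2) (h : ∀ x ∈ S, ∃ z ∈ S ⊓ Subgroup.centralizer (S : Set Ω), F.IsConjElt x z) : IsMulCommutative ↥S := by
  obtain ⟨n, hn⟩ := hS.exists_card_eq
  have h0 : SC F (Zp S n) := by
    rintro P f hf _ - ⟨z, hz, -, rfl⟩
    have : z ^ 2 ^ n = 1 := by
      rw [← hn]; exact congrArg Subtype.val (pow_card_eq_one' (x := (⟨z, hz⟩ : S)))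
    rw [this, hf.hom.map_one]; exact Subgroup.one_mem _
  have h1 : ∀ k j, j + k = n → SC F (Zp S j) := by
    intro k
    induction k with
    | zero => intro j hj; rw [show j = n by omega]; exact h0
    | succ k ih => intro j hj; exact step hS hF h (ih (j + 1) (by omega))
  refine ⟨⟨fun x y => ?_⟩⟩
  obtain ⟨z, -, cz, e⟩ := pow_mem_of h (h1 n 0 (by omega)) y.2
  simp only [pow_zero, pow_one] at e
  exact Subtype.ext (by simpa [e] using cz x x.2)

end Cfsg.Agent.S5274
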