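import Cfsg.Statements.S5275
import Cfsg.Agent.H28.Q1
-- import your own Cfsg.Agent.* helpers here

set_option autoImplicit false
open Cfsg

namespace Cfsg.Agent.S5275
open H28 Cfsg.FusionSystem
set_option linter.unusedVariables false
set_option linter.style.haveILetI false


/-- A Glauberman–Thompson nilpotency criterion for fusion systems relative to a strongly closed subgroup. Let p be an odd prime, F a saturated fusion system over a finite p-group S, and D a subgroup of S that is strongly closed in F. Let Z(J(D)) be the centre of the subgroup of D generated by the abelian subgroups of D of largest order. Then F is the inner fusion system of S if and only if the normalizer fusion system of Z(J(D)) in F is the inner fusion system of N_S(Z(J(D))) = S. -/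
theorem result {Ω : Type*} [Group Ω] {S : Subgroup Ω} [Finite S] (p : ℕ) [Fact p.Prime] (hS : IsPGroup p ↥S) (F : Cfsg.FusionSystem S) (hF : F.IsSaturated p) (hp : p ≠ 2) (D : Subgroup Ω) (hD : F.StronglyClosed D) : (∀ P : Subgroup Ω, F.Hom P = (Cfsg.innerFusionSystem S).Hom P) ↔ ∀ N : Cfsg.FusionSystem (Cfsg.FusionSystem.normalizerIn S (Cfsg.centerThompsonAOf D)), F.IsNormalizerSystem (Cfsg.centerThompsonAOf D) N → ∀ P : Subgroup Ω, N.Hom P = (Cfsg.innerFusionSystem (Cfsg.FusionSystem.normalizerIn S (Cfsg.centerThompsonAOf D))).Hom P := by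
  haveI := finite_of_le hD.1
  have h1 : Cfsg.centerThompsonAOf D ≤ S := (pfun_ZJ (p := p).le D).trans hD.1
  have h2 := (sc_le_normalizer hD).trans (pfun_ZJ.norm (hS.to_le hD.1))
  exact ⟨fun h N hN => hom_inner_of_onN hS hF (isNK_of_normalizer h1 hN) h2 (all_inner_of_hom le_rfl h).onN,
    fun h => hom_of_all_inner (inner_of_zj_sc hp hS hF hD (onN_inner_of h1 h2 h))⟩

end Cfsg.Agent.S5275
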