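import Cfsg.Statements.S5276
import Cfsg.Agent.H28.Trans2
-- import your own Cfsg.Agent.* helpers here

set_option autoImplicit false
open Cfsg

namespace Cfsg.Agent.S5276
open H28 Cfsg.FusionSystem
set_option linter.unusedVariables false
set_option linter.style.haveILetI false


/-- Let p be a prime and F a saturated fusion system over a finite p-group S. Then F is the inner fusion system of S if and only if the normalizer fusion system of S itself in F is the inner fusion system (equivalently, Aut_F(S) is induced by S) and the Frattini subgroup Φ(S) is strongly closed in F. -/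
theorem result {Ω : Type*} [Group Ω] {S : Subgroup Ω} [Finite S] (p : ℕ) [Fact p.Prime] (hS : IsPGroup p ↥S) (F : Cfsg.FusionSystem S) (hF : F.IsSaturated p) : (∀ P : Subgroup Ω, F.Hom P = (Cfsg.innerFusionSystem S).Hom P) ↔ (∀ N : Cfsg.FusionSystem (Cfsg.FusionSystem.normalizerIn S S), F.IsNormalizerSystem S N → ∀ P : Subgroup Ω, N.Hom P = (Cfsg.innerFusionSystem (Cfsg.FusionSystem.normalizerIn S S)).Hom P) ∧ F.StronglyClosed ((frattini ↥S).map S.subtype) := by
  refine ⟨fun h => ?_, fun ⟨h1, h2⟩ => ?_⟩
  · obtain rfl := fs_ext h
    exact ⟨fun N hN => hom_inner_of_onN hS hF (isNK_of_normalizer le_rfl hN) Subgroup.le_normalizer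
      (all_inner_iff.2 rfl).onN, normal_sc (normal_inner (Subgroup.map_subtype_le _) (H26.le_normalizer_map_subtype _))⟩
  · rw [inner_of_sc hS hF h2 (H04.commutator_le_map_frattini hS) le_rfl fun f hf =>
      onN_inner_of le_rfl Subgroup.le_normalizer h1 _ f le_rfl hf hf.iso_top.hiso]
    exact fun _ => rfl

end Cfsg.Agent.S5276
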