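import Cfsg.Statements.S5278
import Cfsg.Agent.H28.Flav2
-- import your own Cfsg.Agent.* helpers here

set_option autoImplicit false
open Cfsg

namespace Cfsg.Agent.S5278
open H28 Cfsg.FusionSystem
set_option linter.unusedVariables false
set_option linter.style.haveILetI false


/-- Let p be an odd prime, F a saturated fusion system over a finite p-group S, and T a subgroup of Z(S) such that the normalizer fusion system of J(S) in F is contained in the normalizer fusion system of T, J(S) being the subgroup generated by the abelian subgroups of S of largest order. Then either T is weakly closed in F, or Aut_F(T) has a nontrivial cyclic subgroup X of order prime to p that permutes transitively the non-identity elements of the commutator [T, X] (the subgroup of T generated by the elements ψ(t)·t⁻¹ with ψ in X and t in T). -/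
theorem result {Ω : Type*} [Group Ω] {S : Subgroup Ω} [Finite S] (p : ℕ) [Fact p.Prime] (hS : IsPGroup p ↥S) (F : Cfsg.FusionSystem S) (hF : F.IsSaturated p) (hp : p ≠ 2) (T : Subgroup Ω) (hT : T ≤ S ⊓ Subgroup.centralizer (S : Set Ω)) (hJT : ∀ NJ : Cfsg.FusionSystem (Cfsg.FusionSystem.normalizerIn S (Cfsg.thompsonSubgroupAOf S)), F.IsNormalizerSystem (Cfsg.thompsonSubgroupAOf S) NJ → ∀ NT : Cfsg.FusionSystem (Cfsg.FusionSystem.normalizerIn S T), F.IsNormalizerSystem T NT → NJ.IsSubsystemOf NT) : F.WeaklyClosed T ∨ ∃ X : Subgroup (MulAut ↥T), X ≤ F.autGroup T ∧ X ≠ ⊥ ∧ IsCyclic ↥X ∧ (Nat.card ↥X).Coprime p ∧ ∀ a b : ↥T, a ∈ Subgroup.closure {y : ↥T | ∃ ψ ∈ X, ∃ t : ↥T, y = ψ t * t⁻¹} → b ∈ Subgroup.closure {y : ↥T | ∃ ψ ∈ X, ∃ t : ↥T, y = ψ t * t⁻¹} → a ≠ 1 → b ≠ 1 → ∃ ψ ∈ X, ψ a = b := by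
  have hTS : T ≤ S := hT.trans inf_le_left
  have hT' : T ≤ centralizerIn S S := hT
  by_cases h : ∃ f, Iso F T T f ∧ Tr T f
  · obtain ⟨f, hf, ht⟩ := h
    haveI : Finite T := finite_of_le hTS
    have h1 := ht.exists_cyclic hf.hiso fun a ha b hb => (hT' hb).2 a (hTS ha)
    have h2 : Subgroup.zpowers (res T f) ≤ F.autGroup T := Subgroup.zpowers_le.2 hf.res_mem
    exact Or.inr ⟨_, h2, h1.1, inferInstance,
      (coprime_aut_central hS hF hT').coprime_dvd_left (Subgroup.card_dvd_of_le h2), h1.2⟩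
  · have hW := pfun_J (p := p)
    obtain ⟨NJ, h1⟩ := exists_normalizerSystem F (hW.le S)
    obtain ⟨NT, h2⟩ := exists_normalizerSystem F hTS
    refine Or.inl (weaklyClosed_iff.2 ⟨hTS, fun f hf => flav_fs hp F hS hF T hT' ((isNK_of_normalizer (hW.le S) h1).onN_of_all
      (Subgroup.le_normalizer.trans (hW.norm hS)) fun P g hg hP x hx => ?_) (fun f a b => h ⟨f, a, b⟩) T f hf le_rfl⟩)
    obtain ⟨k, -, a2, a3, -⟩ := (isNK_of_normalizer hTS h2).ext (hg.of_sub (hJT NJ h1 NT h2))
    exact a2 x (hP hx) ▸ a3.map_mem hx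

end Cfsg.Agent.S5278
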