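import Cfsg.Statements.S5291
import Cfsg.Agent.H28.Inv
-- import your own Cfsg.Agent.* helpers here

set_option autoImplicit false
open Cfsg

namespace Cfsg.Agent.S5291
open H28 Cfsg.FusionSystem
set_option linter.unusedVariables false
set_option linter.style.haveILetI false


/-- Let F be a saturated fusion system over a finite p-group S and E a weakly normal subsystem of F over a subgroup T. Suppose a subgroup R of T is normal in E (E = N_E(R)), and let R* be the subgroup of T generated by the images of R under all maps of F with source R. Then R* is normal in F (F = N_F(R*)). -/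
theorem result {Ω : Type*} [Group Ω] {S : Subgroup Ω} [Finite S] (p : ℕ) [Fact p.Prime] (hS : IsPGroup p S)
    (F : Cfsg.FusionSystem S) (hF : F.IsSaturated p)
    {T : Subgroup Ω} (E : Cfsg.FusionSystem T) (hE : E.IsWeaklyNormalIn F p)
    (R : Subgroup Ω) (hR : E.IsNormal R) :
    F.IsNormal (Subgroup.closure {x : Ω | ∃ φ ∈ F.Hom R, ∃ r : R, x = φ r}) := by
  have h := hE.2.2
  haveI := inv_finite h
  set R' := Subgroup.closure {x : Ω | ∃ φ ∈ F.Hom R, ∃ r : R, x = φ r}
  have h1 : ∀ f, M F R f → ∀ x ∈ R, f x ∈ R' := fun f hf x hx =>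
    Subgroup.subset_closure ⟨_, hf.toHom_mem, ⟨x, hx⟩, rfl⟩
  have h2 : ∀ A : Subgroup Ω, (∀ a, Iso F T T a → ∀ x ∈ R, a x ∈ A) → R' ≤ A := fun A hA => by
    rw [Subgroup.closure_le]
    rintro _ ⟨φ, hφ, r, rfl⟩
    obtain ⟨f, hf, e⟩ := exists_M hφ
    obtain ⟨a, f₀, ha, h0, e'⟩ := inv_frattini h hR.1 hf
    rw [e r r.2, e' r r.2]
    exact hA a ha _ (sc_mem (normal_sc hR) h0 r.2 r.2)
  have h3 : R' = sSup {Q | Q ≤ R' ∧ E.IsNormal Q} := le_antisymm (h2 _ fun a ha x hx => by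
    obtain ⟨Q, -, hQ⟩ := ha.restrict hR.1
    refine (le_sSup (s := {Q | Q ≤ R' ∧ E.IsNormal Q}) ⟨fun y hy => ?_, inv_normal_iso h hR ha hQ.hiso⟩)
      (hQ.map_mem hx)
    obtain ⟨x, hx, rfl⟩ := hQ.surj hy
    exact h1 a hQ.map x hx) (sSup_le fun _ h => h.1)
  have h4 : E.IsNormal R' := by
    rw [h3]
    exact (exists_max_of_sup_closed (S := T) (C := fun Q => Q ≤ R' ∧ E.IsNormal Q) ⟨bot_le, normal_bot E⟩
      (fun _ h => h.2.1) fun _ _ h h' => ⟨sup_le h.1 h'.1, normal_sup h.2 h'.2⟩).2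
  refine normal_of_inv hS hF h h4 fun a ha x hx => (h2 (ha.hom.pre R') (fun b hb y hy => ?_) hx).2
  exact ⟨hb.map_mem (hR.1 hy), h1 _ ((hb.trans ha).map.mono hR.1) y hy⟩

end Cfsg.Agent.S5291
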