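import Cfsg.Statements.S5292
import Cfsg.Agent.H28.Q4
import Cfsg.Agent.H01.PSep
-- import your own Cfsg.Agent.* helpers here

set_option autoImplicit false
universe u
open Cfsg

namespace Cfsg.Agent.S5292
open H28 Cfsg.FusionSystem
set_option linter.unusedVariables false
set_option linter.style.haveILetI false


/-- Let F be a saturated fusion system over a finite p-group S. Then F is the fusion system of some finite p-solvable group on a Sylow p-subgroup if and only if F is constrained (some subgroup normal in F is centric in F) and the group of automorphisms that F induces on its largest normal subgroup O_p(F) is p-solvable. -/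
theorem result {Ω : Type u} [Group Ω] {S : Subgroup Ω} [Finite S] (p : ℕ) [Fact p.Prime] (hS : IsPGroup p S)
    (F : Cfsg.FusionSystem S) (hF : F.IsSaturated p) :
    (∃ (G : Type u) (_ : Group G) (_ : Finite G) (ι : S →* G), Cfsg.IsPSolvable p G ∧ F.IsRealizedBy ι ∧
        ∃ T : Sylow p G, (T : Subgroup G) = ι.range) ↔
      (F.IsConstrained p ∧ Cfsg.IsPSolvable p ↥(F.autGroup F.core)) := by
  refine ⟨fun ⟨G, _, _, ι, h1, h2, T, hT⟩ => ?_, fun ⟨h1, h2⟩ => ?_⟩
  · have a1 := realized_iff.1 h2
    have a2 : H26.IsSyl p ι.range ⊤ := hT ▸ H26.isSyl_top T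
    have hs := QuotientGroup.mk'_surjective (Cfsg.pPrimeCore p G)
    have a3 := a1.toIsQuo.comp (isQuo_group a2 _ hs)
    have a4 : IsFIso F _ _ := ⟨a3, a3.hom.injOn_of_ker (eq_bot_iff.2 fun x hx => a1.ker.le ⟨hx.1,
      H26.eq_one_of_mem_pGroup a2.pg (a1.mem x hx.1) ((H02.pPrimeCore_coprime p G).coprime_dvd_left
        (Subgroup.orderOf_dvd_natCard _ ((QuotientGroup.eq_one_iff _).1 hx.2)))⟩)⟩
    have a5 := H01.psol_quot h1 (Cfsg.pPrimeCore p G)
    have a6 := isModel_of_isFIso a4 (Subgroup.map_top_of_surjective _ hs ▸ a2.map _)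
      (H01.psol_cent_pCore a5 (H02.pPrimeCore_quotient_pPrimeCore p G))
    have a7 := model_constrained a6
    obtain ⟨κ, hκ⟩ := exists_mdata a6 (normal_core F) (centric_self (core_centric hS a7))
    exact ⟨a7, hκ.range ▸ H01.psol_of_surjective _ κ.rangeRestrict_surjective a5⟩
  · obtain ⟨G, _, ι, hG⟩ := exists_model hS h1
    haveI := model_finite hG
    obtain ⟨κ, hκ⟩ := exists_mdata hG (normal_core F) (centric_self (core_centric hS h1))
    refine ⟨G, inferInstance, inferInstance, ι, H01.psol_ext _ κ.rangeRestrict_surjective (Or.inl ?_)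
      (hκ.range ▸ h2), hG.2.1, hG.2.2.1⟩
    rw [MonoidHom.ker_rangeRestrict]
    exact (hκ.ker_pgroup hS).exists_card_eq

end Cfsg.Agent.S5292
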