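import Cfsg.Statements.S5295
import Cfsg.Agent.H28.Q2
import Cfsg.Agent.S2799
-- import your own Cfsg.Agent.* helpers here

set_option autoImplicit false
universe u
open Cfsg

namespace Cfsg.Agent.S5295
open H28 Cfsg.FusionSystem
set_option linter.unusedVariables false
set_option linter.style.haveILetI false


/-- Let F be a saturated fusion system over a finite p-group S with p odd. Then the centre Z(F) of F is a direct factor of Z(S): there is a subgroup K of Z(S) with Z(F) ∩ K = 1 and Z(F)K = Z(S). (At the prime 2 this can fail.) -/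
theorem result {Ω : Type u} [Group Ω] {S : Subgroup Ω} [Finite S] (p : ℕ) [Fact p.Prime] (hp : p ≠ 2) (hS : IsPGroup p S)
    (F : Cfsg.FusionSystem S) (hF : F.IsSaturated p) :
    ∃ K : Subgroup Ω, K ≤ (S ⊓ Subgroup.centralizer (S : Set Ω)) ∧ F.center ⊓ K = ⊥ ∧ F.center ⊔ K = (S ⊓ Subgroup.centralizer (S : Set Ω)) := by
  have hn := Subgroup.le_normalizer.trans (pfun_J.norm hS)
  obtain ⟨N, hN⟩ := exists_isNK' F (pfun_J (p := p).le S) ⊤ (T := S) (by rw [nK_top, normalizerIn_eq_of_le hn])
  rw [← hN.center_eq hS hF hn (glaub_fix (fun G _ _ S x h1 h2 h3 => Cfsg.Agent.S2799.result S x h1 h2 (h3.imp_right Or.inr)) hS hF (Or.inl hp))]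
  exact center_compl hS (hN.sat_top hS hF hn) ((center_le_J S).trans (le_core (hN.normal (pfun_J (p := p).le S))))

end Cfsg.Agent.S5295
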