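import Cfsg.Statements.S5298
import Cfsg.Agent.H28.Q3
-- import your own Cfsg.Agent.* helpers here

set_option autoImplicit false
universe u
open Cfsg

namespace Cfsg.Agent.S5298
open H28 Cfsg.FusionSystem
set_option linter.unusedVariables false
set_option linter.style.haveILetI false


/-- Let F be a saturated fusion system over a finite p-group S. If every map of F between cyclic subgroups of the hyperfocal subgroup of F of order p or 4 is conjugation by an element of S, then F is the inner fusion system of S. -/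
theorem result {Ω : Type u} [Group Ω] {S : Subgroup Ω} [Finite S] (p : ℕ) [Fact p.Prime] (hS : IsPGroup p S)
    (F : Cfsg.FusionSystem S) (hF : F.IsSaturated p)
    (h : ∀ A B : Subgroup Ω, A ≤ (F.hyperfocalSubgroup p) → B ≤ (F.hyperfocalSubgroup p) → IsCyclic ↥A → (Nat.card ↥A = p ∨ Nat.card ↥A = 4) → IsCyclic ↥B → (Nat.card ↥B = p ∨ Nat.card ↥B = 4) →
      F.homSet A B ⊆ (Cfsg.innerFusionSystem S).Hom A) :
    ∀ P : Subgroup Ω, F.Hom P = (Cfsg.innerFusionSystem S).Hom P := by
  intro P
  rw [inner_of_small hS hF fun x hx hs P f hf hP => ?_]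
  by_cases h1 : x = 1
  · exact ⟨1, S.one_mem, by rw [h1, hf.hom.map_one]; simp⟩
  have hz := Subgroup.zpowers_le_of_mem hP
  have hi := hf.hom.hiso_zpowers hP
  have k : Nat.card (Subgroup.zpowers x) = p ∨ Nat.card (Subgroup.zpowers x) = 4 := by
    rw [Nat.card_zpowers]
    by_cases h2 : x ^ p = 1
    · exact Or.inl (orderOf_eq_prime h2 h1)
    · obtain ⟨rfl, h3⟩ := hs.resolve_left h2
      exact Or.inr (orderOf_eq_prime_pow (p := 2) (n := 1) (by simpa using h2) h3)
  obtain ⟨-, s, a1, a2⟩ := (M_inner (f := f)).1 ⟨_, h _ _ (Subgroup.zpowers_le_of_mem hx)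
    (Subgroup.zpowers_le_of_mem (sc_mem (sc_hyperfocal hS hF) hf hP hx)) inferInstance k inferInstance
    (hi.card_eq ▸ k) ⟨(hf.mono hz).toHom_mem, fun y => hi.map_mem y.2⟩, fun _ _ => rfl⟩
  exact ⟨s, a1, a2 x (Subgroup.mem_zpowers x)⟩

end Cfsg.Agent.S5298
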