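import Cfsg.Statements.S5301
import Cfsg.Agent.H28.Inv
-- import your own Cfsg.Agent.* helpers here

set_option autoImplicit false
universe u
open Cfsg

namespace Cfsg.Agent.S5301
open H28 Cfsg.FusionSystem
set_option linter.unusedVariables false
set_option linter.style.haveILetI false


/-- Let F be a saturated fusion system over a finite p-group S. If for every subgroup P of S that is fully normalized, centric and radical in F the automorphism group that F induces on P has a normal Sylow p-subgroup, then S is normal in F. -/
theorem result {Ω : Type u} [Group Ω] {S : Subgroup Ω} [Finite S] (p : ℕ) [Fact p.Prime] (hS : IsPGroup p S)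
    (F : Cfsg.FusionSystem S) (hF : F.IsSaturated p)
    (hcl : ∀ P : Subgroup Ω, F.IsFullyNormalized P → F.IsCentric P → F.IsRadical p P →
      ∃ R : Sylow p ↥(F.autGroup P), (R : Subgroup ↥(F.autGroup P)).Normal) :
    F.IsNormal S := by
  refine normal_of_sc hS hF (sc_top F) fun R hR => absurd ?_ ((isEssential_iff hS hF).1 hR).2.2.1.2
  have hr := essential_radical hS hF hR
  obtain ⟨Q, hQ⟩ := hcl R hR.2.1 hR.1 hr
  haveI := finite_mulAut hR.1.1
  have h1 := H26.isSyl_map_subtype Q
  exact (h1.le_of_le_normalizer' (sat_syl hS hF hR.2.1).pg (sat_syl hS hF hR.2.1).le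
    ((sat_syl hS hF hR.2.1).le.trans (H26.le_normalizer_map_subtype _))).trans
    ((H26.le_pCoreOf h1.le (H26.le_normalizer_map_subtype _) h1.pg).trans hr.2.le)

end Cfsg.Agent.S5301
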