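import Cfsg.Statements.S5310
import Cfsg.Agent.H28.Fit
-- import your own Cfsg.Agent.* helpers here

set_option autoImplicit false
open Cfsg

namespace Cfsg.Agent.S5310
open H28 Cfsg.FusionSystem
set_option linter.unusedVariables false
set_option linter.style.haveILetI false


/-- A saturated fusion system F over a finite p-group S is constrained (its largest normal subgroup O_p(F) is centric) if and only if the inner fusion system of O_p(F) is itself a generalized Fitting subsystem of F (that is, F*(F) = O_p(F)). -/
theorem result {Ω : Type*} [Group Ω] {S : Subgroup Ω} [Finite S] (p : ℕ) [Fact p.Prime] (hS : IsPGroup p S) (F : Cfsg.FusionSystem S) (hF : F.IsSaturated p) :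
    F.IsConstrained p ↔ (Cfsg.innerFusionSystem F.core).IsGeneralizedFittingOf F p := by
  haveI := finite_of_le (core_le F)
  constructor
  · intro h
    obtain ⟨T, E, hE⟩ := exists_layer hS hF
    haveI := inv_finite hE.1.1.2.2
    exact ⟨T, E, hE, isCP_iff.2 (isCP_bot _ (layer_eq_bot hS hF h hE))⟩
  · intro h
    obtain ⟨T, E, hE, h⟩ := fit_exists_cp hS h
    exact (constrained_iff_no_comp hS hF).2 fun ⟨U, C, hC⟩ =>
      comp_not_le hS hF hC (normal_core F) ((le_of_sub (hE.2.1 U C hC)).trans h.le2)

end Cfsg.Agent.S5310
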