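import Cfsg.Statements.S5315
import Cfsg.Agent.H28.Solv
-- import your own Cfsg.Agent.* helpers here

set_option autoImplicit false
open Cfsg

namespace Cfsg.Agent.S5315
open H28 Cfsg.FusionSystem
set_option linter.unusedVariables false
set_option linter.style.haveILetI false


/-- An analogue of Grün's lemma for fusion systems. Let F be a saturated fusion system over a finite p-group S that is perfect in the sense that its hyperfocal subgroup is all of S (F coincides with its p-residual subsystem). Then the second centre of F equals its centre: every fusion system over S/(Z(F) ∩ S) that is the factor system of F modulo its centre Z(F), read through the quotient map, has trivial centre. -/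
theorem result {Ω : Type*} [Group Ω] {S : Subgroup Ω} [Finite S] (p : ℕ) [Fact p.Prime] (hS : IsPGroup p S) (F : Cfsg.FusionSystem S) (hF : F.IsSaturated p)
    (hperf : F.hyperfocalSubgroup p = S)
    (E : Cfsg.FusionSystem (⊤ : Subgroup (↥S ⧸ (F.center).subgroupOf S)))
    (hE : F.IsFactorSystem F.center (QuotientGroup.mk' ((F.center).subgroupOf S)) E) : E.center = ⊥ := by
  have hZ := central_center F
  have hq := isQuo_of_factor_normal (central_normal hZ) hE
  have hk : F.center = hq.hom.pre ⊥ := factor_ker hE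
  set U := hq.hom.pre E.center
  have hU : F.StronglyClosed U := hq.sc_pre (normal_sc (central_normal (central_center E)))
  have h1 : ∀ P f, M F P f → ∀ x ∈ P, x ∈ U → x⁻¹ * f x ∈ F.center := fun P f hf x hx hx' => by
    obtain ⟨f', hf', e⟩ := hq.mor P f hf
    rw [hk, hq.hom.inv_mul_mem_ker hx'.1 (hf.mem hx), ← e x hx,
      central_fix (central_center E) hf' (mem_img_of_mem hx) hx'.2]
  have h2 : ∀ x ∈ U, ∀ s ∈ S, x⁻¹ * (s * x * s⁻¹) ∈ F.center := fun x hx s hs =>
    h1 S _ (M.cj F le_rfl hs) x hx.1 hx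
  have hc : ∀ z ∈ F.center, ∀ s ∈ S, s * z = z * s := fun z hz => (center_le_centralizerIn F hz).2
  have h3 : F.IsNormal U := normal_of_sc_two_step hS hF hU (normal_sc (central_normal hZ))
    (Subgroup.commutator_le.2 fun a ha b hb => by
      simpa [commutatorElement_def, mul_assoc] using h2 _ (inv_mem ha) b hb.1)
    (H26.commutator_eq_bot_iff'.2 fun a ha z hz => (hc z hz a ha.1).symm)
  have h4 : ∀ x ∈ U, ∀ s ∈ S, s * x * s⁻¹ = x := fun x hx => by
    have h5 : HomOn S fun s => x⁻¹ * (s * x * s⁻¹) := fun a ha b hb => by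
      have := hc _ (h2 x hx b hb) a ha
      have h6 := hc _ (h2 x hx b hb) _ (inv_mem ha)
      calc x⁻¹ * (a * b * x * (a * b)⁻¹) = x⁻¹ * (a * x) * (x⁻¹ * (b * x * b⁻¹)) * a⁻¹ := by group
        _ = x⁻¹ * (a * x * a⁻¹) * (x⁻¹ * (b * x * b⁻¹)) := by rw [mul_assoc _ _ a⁻¹, ← h6]; group
    have h6 : F.focalSubgroup ≤ h5.pre ⊥ := focal_le_iff.2 fun P f hf y hy => by
      rw [h5.inv_mul_mem_ker (hf.le hy) (hf.mem hy)]
      obtain ⟨g, hg, e, -⟩ := normal_ext h3 hf
      have hx' : x ∈ P ⊔ U := Subgroup.mem_sup_right hx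
      have hy' : y ∈ P ⊔ U := Subgroup.mem_sup_left hy
      have h7 := central_fix hZ hg (mul_mem (inv_mem hx') (mul_mem (mul_mem hy' hx') (inv_mem hy')))
        (h2 x hx y (hf.le hy))
      rw [hg.hom.map_inv_mul hx' (mul_mem (mul_mem hy' hx') (inv_mem hy')), hg.hom.map_conj hy' hx', e y hy] at h7
      obtain ⟨z, hz, e'⟩ : ∃ z ∈ F.center, g x = x * z := ⟨_, h1 _ g hg x hx' hx, by simp⟩
      rw [← h7, e']
      calc (x * z)⁻¹ * (f y * (x * z) * (f y)⁻¹) = z⁻¹ * (x⁻¹ * f y * x * (z * (f y)⁻¹)) := by group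
        _ = z⁻¹ * ((x⁻¹ * (f y * x * (f y)⁻¹)) * z) := by rw [← hc z hz _ (inv_mem (hf.mem hy))]; group
        _ = _ := by rw [hc z hz _ (center_le F (h2 x hx _ (hf.mem hy)))]; group
    rw [focal_eq_top_of_hyperfocal hS hF hperf] at h6
    exact fun s hs => (inv_mul_eq_one.1 (h6 hs).2).symm
  haveI := finite_mulAut hU.1
  have h5 : F.autGroup U ≤ autInducedBy S U := by
    have := sat_syl hS hF (fullyNormalized_of_normal hU.1 (sc_le_normalizer hU))
    refine (this.max _ (H26.isPGroup_of_forall_coprime fun α hα hc => aut_eq_one fun x hx => ?_) this.le le_rfl).le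
    have h6 := h1 _ _ (iso_ex hU.1 hα).map x hx hx
    exact fix_of_step hS hU.1 hc hx (central_fix hZ (iso_ex hU.1 hα).map (mul_mem (inv_mem hx) (ex_mem α hx)) h6)
  have h6 : F.IsCentral U := isCentral_iff.2 ⟨hU.1, fun P f hf => by
    obtain ⟨g, hg, e, hi⟩ := normal_ext' h3 hf
    obtain ⟨s, hs, e'⟩ := hi.hiso.res_mem_autInducedBy.1 (h5 hi.res_mem)
    exact ⟨g, hg, e, fun x hx => (e' x hx).trans (h4 x hx s hs)⟩⟩
  rw [← hq.img_pre (center_le E), img_eq_bot_iff hq.hom hU.1, ← hk]
  exact le_center h6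

end Cfsg.Agent.S5315
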