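import Cfsg.Statements.S5322
import Cfsg.Agent.H15.J3B
-- import your own Cfsg.Agent.* helpers here

set_option autoImplicit false
open Cfsg

namespace Cfsg.Agent.S5322

/-- For a finite group G isomorphic to the third Janko group J₃, the 2-fusion system of G on a Sylow 2-subgroup is simple: saturated, over a nontrivial 2-group, with no normal subsystem other than the trivial one and itself. -/
theorem result {G : Type*} [Group G] [Finite G] (hG : Cfsg.Spor.IsoJ3 G) (S : Sylow 2 G) : (Cfsg.groupFusionSystem (S : Subgroup G)).IsSimple 2 := by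
  open H15 H15.J3 in
  obtain ⟨F, _, _, ω, hF, hω, ⟨e⟩⟩ := hG
  have t := two_eq hF
  have k : ∀ K, K = mdl (g _ (hh e9 t hω)) dom5 → (K ⧸ Subgroup.center K ≃* G) →
      (groupFusionSystem (S : Subgroup G)).IsSimple 2 := by
    rintro _ rfl e
    exact (invol _ (hh e9 t hω)).2.2 e S
  exact k _ (three_eq t hω) e.symm

end Cfsg.Agent.S5322
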