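import Cfsg.Statements.S5331
import Cfsg.Agent.H28.Ab2
import Cfsg.Agent.H26.Core
-- import your own Cfsg.Agent.* helpers here

set_option autoImplicit false
open Cfsg

namespace Cfsg.Agent.S5331
open H28 Cfsg.FusionSystem
set_option linter.unusedVariables false
set_option linter.style.haveILetI false


/-- Let S be a finite abelian 2-group that is a direct product of cyclic groups of pairwise distinct orders 2^{a_1} < 2^{a_2} < ⋯ < 2^{a_n} (all a_i ≥ 1). Then every saturated fusion system over S is the inner one: its maps are exactly the conjugations by elements of S. -/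
theorem result {Ω : Type*} [Group Ω] {S : Subgroup Ω} [Finite S] (n : ℕ) (a : Fin n → ℕ) (ha : StrictMono a) (ha1 : ∀ i, 1 ≤ a i) (e : ↥S ≃* Multiplicative ((i : Fin n) → ZMod (2 ^ a i))) (F : Cfsg.FusionSystem S) (hF : F.IsSaturated 2) (P : Subgroup Ω) : F.Hom P = (Cfsg.innerFusionSystem S).Hom P := by
  haveI : Fact (Nat.Prime 2) := ⟨Nat.prime_two⟩
  have hS : IsPGroup 2 S := IsPGroup.of_card (n := ∑ i, a i) (by
    rw [Nat.card_congr e.toEquiv, Nat.card_congr Multiplicative.toAdd, Nat.card_pi, ← Finset.prod_pow_eq_pow_sum]; simp)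
  obtain ⟨N, hN⟩ := exists_pow_card hS
  rw [eq_inner_of_isPGroup hS hF fun R hR => ?_]
  have h := (cr_of_alperin hS hF hR).1
  obtain rfl : R = S := h.1.antisymm fun s hs => centric_self h ⟨hs, fun x hx => congrArg Subtype.val
    (e.injective (a₁ := ⟨x, h.1 hx⟩ * ⟨s, hs⟩) (a₂ := ⟨s, hs⟩ * ⟨x, h.1 hx⟩) (by rw [map_mul, map_mul, mul_comm]))⟩
  haveI := finite_mulAut (S := R) le_rfl
  exact H26.isPGroup_of_forall_coprime fun α _ hα =>
    aut_eq_one_of_distinct ha.injective ha1 e hS (fun x => Subtype.ext (hN x x.2)) hα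

end Cfsg.Agent.S5331
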