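import Mathlib
import Cfsg.Statements.S5521
import Cfsg.Agent.H14.M24Stab

set_option autoImplicit false
open Cfsg

namespace Cfsg.Agent.S5521

/-- The Mathieu group M₂₄ in its natural action on the 24 coordinate positions of the binary Golay code has minimal base size exactly 7: every set of at most 6 positions is fixed pointwise by some non-identity element of M₂₄, while some set of 7 positions is fixed pointwise only by the identity. -/
theorem result :
    (∀ B : Finset Cfsg.GolayPt, B.card ≤ 6 → ∃ g ∈ Cfsg.M24, g ≠ 1 ∧ ∀ b ∈ B, g b = b) ∧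
    (∃ B : Finset Cfsg.GolayPt, B.card = 7 ∧ ∀ g ∈ Cfsg.M24, (∀ b ∈ B, g b = b) → g = 1) := by
  refine ⟨fun B hB => ?_, H14.toSet 0xbf, by decide +kernel, fun g hg h => H14.eq_one_of_fix_mask hg h⟩
  obtain ⟨u, hBu, -, hu⟩ := Finset.exists_subsuperset_card_eq (Finset.subset_univ B) hB
    (by rw [Finset.card_univ, H14.card_pt]; norm_num)
  obtain ⟨p, hp⟩ : u.Nonempty := Finset.card_pos.1 (by omega)
  have h5 : (u.erase p).card = 5 := by rw [Finset.card_erase_of_mem hp, hu]
  let e := (u.erase p).equivFinOfCardEq h5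
  let x : Fin 5 ↪ GolayPt := e.symm.toEmbedding.trans (Function.Embedding.subtype _)
  have h1 := H14.card_stab_mul (G := M24) x Set.univ (fun _ => trivial)
    (fun y _ => H14.M24_five_trans.exists_smul_eq x y)
  rw [H14.card_M24, Set.ncard_univ, Nat.card_eq_fintype_card, Fintype.card_embedding_eq, H14.card_pt,
    Fintype.card_fin, show Nat.descFactorial 24 5 = 5100480 by decide +kernel] at h1
  have h2 := H14.card_le_mul_stab (MulAction.stabilizer M24 x) p Finset.univ (fun _ _ => Finset.mem_univ _)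
  rw [Finset.card_univ, H14.card_pt] at h2
  have h3 : MulAction.stabilizer M24 x ⊓ MulAction.stabilizer M24 p ≠ ⊥ := by
    intro h; rw [h, Subgroup.card_bot] at h2; omega
  obtain ⟨⟨g, hg⟩, hg1⟩ := Subgroup.ne_bot_iff_exists_ne_one.1 h3
  refine ⟨g, g.2, fun h => hg1 (Subtype.ext (Subtype.ext h)), fun b hb => ?_⟩
  by_cases hbp : b = p
  · rw [hbp]; exact hg.2
  · have := DFunLike.congr_fun (MulAction.mem_stabilizer_iff.1 hg.1)
      (e ⟨b, Finset.mem_erase.2 ⟨hbp, hBu hb⟩⟩)
    have e2 : x (e ⟨b, Finset.mem_erase.2 ⟨hbp, hBu hb⟩⟩) = b := by simp [x]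
    change (g : Equiv.Perm GolayPt) (x _) = _ at this
    rwa [e2] at this

end Cfsg.Agent.S5521
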