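import Mathlib
import Cfsg.Statements.S5562
import Cfsg.Agent.H08.Dihedral

set_option autoImplicit false
open Cfsg

namespace Cfsg.Agent.S5562

/-- Let G be a finite group, d an involution of G whose conjugates pairwise have products of odd order, and x any involution of G. Then the conjugacy class of d is the disjoint union, over the conjugates a of d commuting with x, of the sets of conjugates of d commuting with ax: every conjugate of d commutes with ax for exactly one conjugate a of d that commutes with x. -/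
theorem result {G : Type*} [Group G] [Finite G] (d : G) (hd : orderOf d = 2)
    (hodd : ∀ a ∈ conjugatesOf d, ∀ b ∈ conjugatesOf d, Odd (orderOf (a * b)))
    (x : G) (hx : orderOf x = 2) :
    ∀ e ∈ conjugatesOf d,
      ∃! a : G, a ∈ conjugatesOf d ∧ Commute a x ∧ Commute e (a * x) := by
  have o : ∀ a ∈ conjugatesOf d, orderOf a = 2 := fun a ha => by
    obtain ⟨g, rfl⟩ := isConj_iff.1 ha; rw [H08.orderOf_conj', hd]
  have cj : ∀ a ∈ conjugatesOf d, ∀ g : G, g * a * g⁻¹ ∈ conjugatesOf d := fun a ha g =>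
    IsConj.trans ha (isConj_iff.2 ⟨g, rfl⟩)
  have sx := H08.mul_self_of_orderOf hx
  have eqc : ∀ a ∈ conjugatesOf d, ∀ b ∈ conjugatesOf d, Commute a b → a = b := fun a ha b hb h => by
    have h1 : (a * b) ^ 2 = 1 := by
      rw [h.mul_pow, sq, sq, H08.mul_self_of_orderOf (o a ha), H08.mul_self_of_orderOf (o b hb), one_mul]
    have h2 := (Nat.dvd_prime Nat.prime_two).1 (orderOf_dvd_of_pow_eq_one h1)
    have h3 := hodd a ha b hb
    rcases h2 with h2 | h2
    · rw [eq_inv_of_mul_eq_one_left (orderOf_eq_one_iff.1 h2), H08.inv_eq_of_orderOf (o b hb)]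
    · rw [h2] at h3; exact absurd h3 (by decide)
  intro e he
  have se := H08.mul_self_of_orderOf (o e he)
  by_cases hxD : x ∈ conjugatesOf d
  · exact ⟨x, ⟨hxD, Commute.refl x, by simp [sx]⟩, fun a ha => eqc a ha.1 x hxD ha.2.1⟩
  have hev := H08.even_orderOf_mul_of_not_isConj se sx fun h => hxD (IsConj.trans he h)
  have c1 := H08.commute_half_pow_left se sx hev
  have c2 := H08.commute_half_pow_right se sx hev
  have oz := H08.half_pow_invol hev
  refine ⟨(e * x) ^ (orderOf (e * x) / 2) * x, ⟨?_, c2.mul_left (Commute.refl x), ?_⟩, ?_⟩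
  · rcases H08.conj_mul_half_pow se sx hev with ⟨-, k, h, -⟩ | ⟨-, -, k, h⟩
    · have := eqc _ (h ▸ cj e he _) e he (c1.mul_left (Commute.refl e))
      exact absurd (by simpa using this) (H08.ne_one_of_orderOf oz)
    · exact h ▸ cj e he _
  · rw [mul_assoc, sx, mul_one]; exact c1.symm
  · rintro a ⟨ha, h1, h2⟩
    have sa := H08.mul_self_of_orderOf (o a ha)
    have sz : (a * x) ^ 2 = 1 := by rw [h1.mul_pow, sq, sq, sa, sx, one_mul]
    have o2 : orderOf (a * x) = 2 := orderOf_eq_prime sz fun h =>
      hxD (by rwa [eq_inv_of_mul_eq_one_right h, H08.inv_eq_of_orderOf (o a ha)])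
    have hc := h2.mul_left ((Commute.refl a).mul_right h1)
    have e1 : e * a * (a * x) = e * x := by rw [mul_assoc, ← mul_assoc a, sa, one_mul]
    have h3 := hc.orderOf_mul_eq_mul_orderOf_of_coprime (by rw [o2]; exact (hodd e he a ha).coprime_two_right)
    rw [e1, o2] at h3
    obtain ⟨m, hm⟩ := hodd e he a ha
    rw [h3, Nat.mul_div_cancel _ two_pos, ← e1, hc.mul_pow, pow_orderOf_eq_one, one_mul, hm, pow_succ,
      pow_mul, sz, one_pow, one_mul, mul_assoc, sx, mul_one]

end Cfsg.Agent.S5562
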