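import Mathlib
import Cfsg.Statements.S5597
import Cfsg.Agent.H03.LX3

set_option autoImplicit false
open Cfsg

namespace Cfsg.Agent.S5597

/-- Setting: `z` is an involution of the finite group `G`; for each element `x`, `Q x` is the largest normal 2-subgroup of the centralizer of `x`; `Q z` is extraspecial and contains its own centralizer in `G`. A subgroup `U` is singular when it is elementary abelian, every non-identity element of `U` is conjugate to `z`, and any two non-identity elements `u`, `v` of `U` are orthogonal (`v ∈ Q u`). Write `QU` for the intersection of the `Q u` and `LU` for the join of the `Q u` over the non-identity `u` in `U`. If `U` is a non-trivial singular subgroup, then `LU` acts trivially on `QU / U` (every commutator of an element of `LU` with an element of `QU` lies in `U`), and for every `x` in `QU` outside `U` the centralizer of `U` in `LU` permutes the coset `x U` transitively: each `x u` with `u ∈ U` is a conjugate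 of `x` by an element of `LU` centralizing `U`. -/
theorem result {G : Type*} [Group G] [Finite G]
    (Q : G → Subgroup G)
    (hQ : ∀ x : G, Q x = (Cfsg.pCore 2 ↥(Subgroup.centralizer ({x} : Set G))).map (Subgroup.centralizer ({x} : Set G)).subtype)
    (z : G) (hz : orderOf z = 2) (hE : Cfsg.IsExtraspecial 2 ↥(Q z))
    (hC : Subgroup.centralizer ((Q z : Subgroup G) : Set G) ≤ Q z)
    (U : Subgroup G) (hU2 : ∀ u ∈ U, u * u = 1)
    (hS : ∀ u ∈ U, u ≠ 1 → ∃ g : G, g * z * g⁻¹ = u)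
    (hO : ∀ u ∈ U, ∀ v ∈ U, u ≠ 1 → v ≠ 1 → v ∈ Q u)
    (QU LU : Subgroup G) (hQU : QU = ⨅ u ∈ ((U : Set G) \ {1}), Q u) (hLU : LU = ⨆ u ∈ ((U : Set G) \ {1}), Q u)
    (hU : U ≠ ⊥) :
    (∀ g ∈ LU, ∀ x ∈ QU, g * x * g⁻¹ * x⁻¹ ∈ U) ∧
      ∀ x ∈ QU, x ∉ U → ∀ u ∈ U, ∃ g ∈ LU ⊓ Subgroup.centralizer (U : Set G), g * x * g⁻¹ = x * u := by
  open BG H03 H04 Subgroup in
  obtain rfl : Q = QQ := funext hQ
  have h := sing_of hz hE hC hU2 hS hO
  subst hQU hLU
  refine ⟨fun g hg x hx => ?_, fun x hx h1 u hu => ?_⟩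
  · have h3 : ∀ u ∈ (U : Set G) \ {1}, x ∈ QQ u := fun u hu => (iInf₂_le u hu : _ ≤ QQ u) hx
    let K : Subgroup G :=
      { carrier := {g | g ∈ N_(U) ∧ g * x * g⁻¹ * x⁻¹ ∈ U}
        one_mem' := ⟨one_mem _, by simp⟩
        mul_mem' := fun {a b} ha hb => ⟨mul_mem ha.1 hb.1, by
          rw [show a * b * x * (a * b)⁻¹ * x⁻¹ = a * (b * x * b⁻¹ * x⁻¹) * a⁻¹ * (a * x * a⁻¹ * x⁻¹) by group]
          exact mul_mem (conj_mem_of_norm ha.1 hb.2) ha.2⟩
        inv_mem' := fun {a} ha => ⟨inv_mem ha.1, by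
          rw [show a⁻¹ * x * a⁻¹⁻¹ * x⁻¹ = a⁻¹ * (a * x * a⁻¹ * x⁻¹)⁻¹ * a by group]
          exact conj_mem_of_norm' ha.1 (inv_mem ha.2)⟩ }
    refine (iSup₂_le (a := K) (fun u hu q hq => ⟨h.norm (le_iSup₂_of_le (f := fun u _ => QQ u) u hu le_rfl hq), ?_⟩) hg).2
    exact zpowers_le.2 hu.1 ((h.es u hu.1 hu.2).aes.comm q hq x (h3 u hu))
  · by_cases e : u = 1
    · exact ⟨1, one_mem _, by simp [e]⟩
    obtain ⟨q, q1, q2, q3⟩ := (h.es u hu e).exists_conj (h.le u hu e) hu ((iInf₂_le u ⟨hu, e⟩ : _ ≤ QQ u) hx) h1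
    exact ⟨q, mem_inf.2 ⟨le_iSup₂_of_le (f := fun u _ => QQ u) u ⟨hu, e⟩ le_rfl q1, q2⟩, q3⟩

end Cfsg.Agent.S5597
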