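import Mathlib
import Cfsg.Agent.H10.Perm
import Cfsg.Statements.S5713

set_option autoImplicit false
open Cfsg

namespace Cfsg.Agent.S5713

open MulAction

theorem card_le_of_two_trans {G Ω : Type*} [Group G] [Finite G] [MulAction G Ω] [Fintype Ω] [DecidableEq Ω]
    (h2 : ∀ a b c : Ω, b ≠ a → c ≠ a → ∃ h : G, h • a = a ∧ h • b = c) (a : Ω) (D : Finset Ω) (hD : a ∉ D)
    (h : ∀ k : G, k • a = a → ∃ x ∈ D, k • x ∈ D) : Fintype.card Ω - 1 ≤ D.card ^ 2 := by
  classical
  haveI : Fintype G := Fintype.ofFinite G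
  let N : Ω → Ω → Finset G := fun x y => Finset.univ.filter fun k => k • a = a ∧ k • x = y
  let S : Finset G := Finset.univ.filter fun k => k • a = a
  have h1 : ∀ x y y', y ≠ a → y' ≠ a → (N x y).card ≤ (N x y').card := by
    intro x y y' hy hy'
    obtain ⟨t, ht1, ht2⟩ := h2 a y y' hy hy'
    refine Finset.card_le_card_of_injOn (fun k => t * k) (fun k hk => ?_) fun k _ l _ h => mul_left_cancel h
    simp only [N, Finset.coe_filter, Finset.mem_univ, true_and, Set.mem_setOf_eq] at hk ⊢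
    simp [mul_smul, hk.1, hk.2, ht1, ht2]
  have h3 : ∀ x y, x ≠ a → y ≠ a → (Fintype.card Ω - 1) * (N x y).card ≤ S.card := by
    intro x y hx hy
    have := Finset.card_eq_sum_card_fiberwise (s := S) (t := Finset.univ.erase a) (f := fun k => k • x) (fun k hk => by
      simp only [S, Finset.coe_filter, Finset.mem_univ, true_and, Set.mem_setOf_eq] at hk
      simp only [Finset.coe_erase, Finset.coe_univ, Set.mem_diff, Set.mem_univ, Set.mem_singleton_iff, true_and]
      exact fun h => hx (smul_left_cancel k (h.trans hk.symm)))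
    rw [this, ← Finset.card_univ, ← Finset.card_erase_of_mem (Finset.mem_univ a), ← smul_eq_mul, ← Finset.sum_const]
    refine Finset.sum_le_sum fun z hz => (h1 x y z hy (Finset.ne_of_mem_erase hz)).trans (le_of_eq ?_)
    simp [N, S, Finset.filter_filter]
  have h4 : S ⊆ (D ×ˢ D).biUnion fun p => N p.1 p.2 := by
    intro k hk
    have hk' : k • a = a := by simpa [S] using hk
    obtain ⟨x, hx, hx'⟩ := h k hk'
    exact Finset.mem_biUnion.2 ⟨(x, k • x), Finset.mem_product.2 ⟨hx, hx'⟩, by simp [N, hk']⟩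
  have h5 := Nat.mul_le_mul_left (Fintype.card Ω - 1) ((Finset.card_le_card h4).trans Finset.card_biUnion_le)
  rw [Finset.mul_sum] at h5
  have h6 := h5.trans (Finset.sum_le_card_nsmul _ _ S.card fun p hp => h3 _ _
    (fun h => hD (h ▸ (Finset.mem_product.1 hp).1)) (fun h => hD (h ▸ (Finset.mem_product.1 hp).2)))
  rw [Finset.card_product, smul_eq_mul, ← sq] at h6
  exact Nat.le_of_mul_le_mul_right h6 (Finset.card_pos.2 ⟨1, by simp [S]⟩)

theorem babai {G Ω : Type*} [Group G] [Finite G] [MulAction G Ω] [Fintype Ω]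
    (hprim : IsPreprimitive G Ω) (h2 : ∃ a b c : Ω, b ≠ a ∧ c ≠ a ∧ ∀ h : G, h • a = a → h • b ≠ c)
    {α β : Ω} (hαβ : α ≠ β) :
    Fintype.card Ω ≤ (2 * {γ : Ω | ∀ h : G, h • γ = γ → h • α ≠ β}.ncard + 1) ^ 2 := by
  classical
  haveI htr : IsPretransitive G Ω := hprim.toIsPretransitive
  let S : Ω → Ω → Finset Ω := fun x y => Finset.univ.filter fun γ => ∀ h : G, h • γ = γ → h • x ≠ y
  have hS : ∀ x y γ, γ ∈ S x y ↔ ∀ h : G, h • γ = γ → h • x ≠ y := by simp [S]
  have hD : {γ : Ω | ∀ h : G, h • γ = γ → h • α ≠ β}.ncard = (S α β).card := by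
    rw [← Set.ncard_coe_finset]; congr 1; ext; simp [S]
  rw [hD]
  set D := (S α β).card with hDD
  set n := Fintype.card Ω with hn
  have hsymm : ∀ x y, S x y = S y x := by
    have : ∀ x y, S x y ⊆ S y x := fun x y γ hγ => (hS _ _ _).2 fun h h1 h2 =>
      (hS _ _ _).1 hγ h⁻¹ (inv_smul_eq_iff.2 h1.symm) (inv_smul_eq_iff.2 h2.symm)
    exact fun x y => Finset.Subset.antisymm (this x y) (this y x)
  have htri : ∀ x y z, (S x z).card ≤ (S x y).card + (S y z).card := by
    intro x y z
    refine le_trans (Finset.card_le_card fun γ hγ => ?_) (Finset.card_union_le _ _)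
    by_contra hc
    simp only [Finset.mem_union, hS, not_or, not_forall, ne_eq, not_not] at hc
    obtain ⟨⟨h, h1, h2⟩, k, k1, k2⟩ := hc
    exact (hS _ _ _).1 hγ (k * h) (by rw [mul_smul, h1, k1]) (by rw [mul_smul, h2, k2])
  have hinv : ∀ (g : G) x y, (S (g • x) (g • y)).card ≤ (S x y).card := by
    intro g x y
    refine Finset.card_le_card_of_injOn (fun γ => g⁻¹ • γ) (fun γ hγ => ?_) fun a _ b _ h => smul_left_cancel _ h
    refine Finset.mem_coe.2 ((hS _ _ _).2 fun h h1 h2 => (hS _ _ _).1 hγ (g * h * g⁻¹) ?_ ?_)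
    · rw [mul_smul, mul_smul, h1, smul_inv_smul]
    · rw [mul_smul, mul_smul, inv_smul_smul, h2]
  let adj : Ω → Ω → Prop := fun x y => ∃ g : G, (g • α = x ∧ g • β = y) ∨ (g • α = y ∧ g • β = x)
  have adj_symm : ∀ x y, adj x y → adj y x := fun x y ⟨g, h⟩ => ⟨g, h.symm⟩
  have adj_inv : ∀ (g : G) x y, adj x y → adj (g • x) (g • y) := by
    rintro g x y ⟨k, ⟨rfl, rfl⟩ | ⟨rfl, rfl⟩⟩
    · exact ⟨g * k, Or.inl ⟨mul_smul _ _ _, mul_smul _ _ _⟩⟩
    · exact ⟨g * k, Or.inr ⟨mul_smul _ _ _, mul_smul _ _ _⟩⟩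
  have adj_S : ∀ x y, adj x y → (S x y).card ≤ D := by
    rintro x y ⟨k, ⟨rfl, rfl⟩ | ⟨rfl, rfl⟩⟩
    · exact hinv k α β
    · rw [hsymm]; exact hinv k α β
  have hconn : ∀ P : Ω → Prop, (∀ x y, P x → adj x y → P y) → ∀ x y, P x → P y := by
    intro P hP x y hx
    have := H18.prim_rel hprim (Relation.ReflTransGen adj)
      ⟨fun _ => .refl, fun h => by
        induction h with
        | refl => exact .refl
        | tail _ h ih => exact .head (adj_symm _ _ h) ih, .trans⟩
      (fun g x y h => by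
        induction h with
        | refl => exact .refl
        | tail _ h ih => exact .tail ih (adj_inv g _ _ h)) hαβ
      (.single ⟨1, Or.inl ⟨one_smul _ _, one_smul _ _⟩⟩) x y
    induction this with
    | refl => exact hx
    | tail _ h ih => exact hP _ _ ih h
  let N : Ω → Finset Ω := fun x => Finset.univ.filter (adj x)
  have hN : ∀ x y, y ∈ N x ↔ adj x y := by simp [N]
  by_cases hA : ∃ δ, ¬ (δ = α ∨ adj α δ ∨ ∃ c, adj α c ∧ adj c δ)
  · obtain ⟨δ, hδ⟩ := hA
    have : ∃ y δ, (y = α ∨ adj α y ∨ ∃ c, adj α c ∧ adj c y) ∧ adj y δ ∧ ¬ (δ = α ∨ adj α δ ∨ ∃ c, adj α c ∧ adj c δ) := by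
      by_contra hc
      push Not at hc
      exact hδ (hconn (fun δ => δ = α ∨ adj α δ ∨ ∃ c, adj α c ∧ adj c δ) (fun x y hx hxy => by
        have := hc x y hx hxy
        tauto) α δ (Or.inl rfl))
    obtain ⟨y, δ, hy, hyδ, hδ⟩ := this
    obtain ⟨c, hc1, hc2⟩ : ∃ c, adj α c ∧ adj c y := by
      rcases hy with rfl | hy | hy
      · exact absurd (Or.inr (Or.inl hyδ)) hδ
      · exact absurd (Or.inr (Or.inr ⟨y, hy, hyδ⟩)) hδ
      · exact hy
    have h3 : (N α).card ≤ 3 * D := by
      have h4 : N α ⊆ S α δ := fun γ hγ => (hS _ _ _).2 fun h h1 h2 => hδ (Or.inr (Or.inr ⟨γ, (hN _ _).1 hγ, by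
        have := adj_inv h _ _ (adj_symm _ _ ((hN _ _).1 hγ))
        rwa [h1, h2] at this⟩))
      have := Finset.card_le_card h4
      have := htri α c δ
      have := htri c y δ
      have := adj_S _ _ hc1
      have := adj_S _ _ hc2
      have := adj_S _ _ hyδ
      omega
    have h4 : Finset.univ.erase α ⊆ (N α).biUnion fun x => S x α := by
      intro γ hγ
      by_contra hc
      simp only [Finset.mem_biUnion, hN, hS, not_exists, not_and, not_forall, ne_eq, not_not] at hc
      obtain ⟨h, h1, h2⟩ := hconn (fun z => ∃ h : G, h • γ = γ ∧ h • z = α) (by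
        rintro z z' ⟨h, h1, h2⟩ hz
        obtain ⟨k, k1, k2⟩ := hc (h • z') (h2 ▸ adj_inv h _ _ hz)
        exact ⟨k * h, by rw [mul_smul, h1, k1], by rw [mul_smul, k2]⟩) α γ ⟨1, one_smul _ _, one_smul _ _⟩
      exact Finset.ne_of_mem_erase hγ (h1.symm.trans h2)
    have h5 := ((Finset.card_le_card h4).trans Finset.card_biUnion_le).trans
      (Finset.sum_le_card_nsmul _ _ D fun x hx => adj_S _ _ (adj_symm _ _ ((hN _ _).1 hx)))
    rw [Finset.card_erase_of_mem (Finset.mem_univ _), Finset.card_univ, smul_eq_mul, ← hn] at h5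
    have h6 := Nat.mul_le_mul_right D h3
    have h7 : n ≤ (N α).card * D + 1 := by omega
    nlinarith
  push Not at hA
  have hall : ∀ y, (S α y).card ≤ 2 * D := by
    intro y
    by_cases h : y = α
    · have : S α y = ∅ := by
        ext γ
        simp only [hS, Finset.notMem_empty, iff_false, not_forall, ne_eq, not_not]
        exact ⟨1, one_smul _ _, by rw [one_smul, h]⟩
      rw [this]; simp
    rcases (hA y).resolve_left h with h | ⟨c, h1, h2⟩
    · have := adj_S _ _ h; omega
    · have := htri α c y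
      have := adj_S _ _ h1
      have := adj_S _ _ h2
      omega
  let C : Ω → Finset Ω := fun γ => Finset.univ.filter fun y => γ ∈ S α y
  obtain ⟨γ, hγ⟩ : ∃ γ, (C γ).card ≤ 2 * D := by
    have h1 : ∑ γ, (C γ).card = ∑ y, (S α y).card := by
      simp only [C, Finset.card_filter]
      rw [Finset.sum_comm]
      refine Finset.sum_congr rfl fun y _ => ?_
      rw [← Finset.card_filter, Finset.filter_mem_eq_inter, Finset.univ_inter]
    have h3 : ∑ γ, (C γ).card ≤ ∑ _γ : Ω, 2 * D := h1 ▸ Finset.sum_le_sum fun y _ => hall y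
    obtain ⟨γ, -, h⟩ := Finset.exists_le_of_sum_le ⟨α, Finset.mem_univ _⟩ h3
    exact ⟨γ, h⟩
  have hC : ∀ y, y ∈ C γ ↔ ∀ h : G, h • γ = γ → h • α ≠ y := by simp [C, hS]
  by_cases hγα : γ = α
  · have : Finset.univ.erase α ⊆ C γ := fun y hy => (hC y).2 fun h h1 h2 =>
      Finset.ne_of_mem_erase hy (by rw [← h2, ← hγα, h1])
    have h3 := Finset.card_le_card this
    rw [Finset.card_erase_of_mem (Finset.mem_univ _), Finset.card_univ, ← hn] at h3
    have h7 : n ≤ 2 * D + 1 := by omega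
    nlinarith
  let T : Ω → Ω → Prop := fun a b => ∀ g : G, g • γ = a → g • α ≠ b
  have T_inv : ∀ (g : G) a b, T a b → T (g • a) (g • b) := fun g a b h k h1 h2 =>
    h (g⁻¹ * k) (by rw [mul_smul, h1, inv_smul_smul]) (by rw [mul_smul, h2, inv_smul_smul])
  have T_refl : ∀ a, T a a := fun a g h1 h2 => hγα (smul_left_cancel g (h1.trans h2.symm))
  let U : Ω → Finset Ω := fun a => Finset.univ.filter (T a)
  have hU : ∀ a b, b ∈ U a ↔ T a b := by simp [U]
  have hUc : ∀ a, (U a).card ≤ 2 * D := by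
    intro a
    obtain ⟨g, rfl⟩ := htr.exists_smul_eq γ a
    refine le_trans (Finset.card_le_card_of_injOn (fun z => g⁻¹ • z) (fun z hz => ?_) fun a _ b _ h => smul_left_cancel _ h) hγ
    have := T_inv g⁻¹ _ _ ((hU _ _).1 hz)
    rw [inv_smul_smul] at this
    exact Finset.mem_coe.2 ((hC _).2 this)
  by_cases hT : ∃ a b c, T a c ∧ T c b ∧ ¬ T a b
  · obtain ⟨a, b, c, h1, h3, h4⟩ := hT
    simp only [T, not_forall, ne_eq, not_not] at h4
    obtain ⟨g, rfl, rfl⟩ := h4
    have h5 : Finset.univ ⊆ (U γ).biUnion U := by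
      intro y _
      by_cases hy : T γ y
      · exact Finset.mem_biUnion.2 ⟨γ, (hU _ _).2 (T_refl γ), (hU _ _).2 hy⟩
      · simp only [T, not_forall, ne_eq, not_not] at hy
        obtain ⟨k, k1, rfl⟩ := hy
        have h6 := T_inv (k * g⁻¹) _ _ h1
        have h7 := T_inv (k * g⁻¹) _ _ h3
        rw [mul_smul, inv_smul_smul, k1] at h6
        rw [mul_smul k g⁻¹ (g • α), inv_smul_smul] at h7
        exact Finset.mem_biUnion.2 ⟨_, (hU _ _).2 h6, (hU _ _).2 h7⟩
    have h6 := ((Finset.card_le_card h5).trans Finset.card_biUnion_le).trans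
      (Finset.sum_le_card_nsmul _ _ (2 * D) fun x _ => hUc x)
    rw [Finset.card_univ, smul_eq_mul, ← hn] at h6
    have h7 := Nat.mul_le_mul_right (2 * D) (hUc γ)
    nlinarith
  exfalso
  push Not at hT
  have T_symm : ∀ a b, T a b → T b a := by
    intro a b h
    obtain ⟨g, rfl⟩ := htr.exists_smul_eq a b
    have h1 : ∀ j : ℕ, T a (g ^ j • a) := by
      intro j
      induction j with
      | zero => simpa using T_refl a
      | succ j ih =>
        refine hT _ _ _ h ?_
        rw [pow_succ', mul_smul]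
        exact T_inv g _ _ ih
    have h3 := T_inv g _ _ (h1 (orderOf g - 1))
    rwa [← mul_smul, ← pow_succ', Nat.sub_add_cancel (orderOf_pos g), pow_orderOf_eq_one, one_smul] at h3
  obtain ⟨a, b, c, hb, hc, habc⟩ := h2
  have h1 : T a b ∨ T a c := by
    by_contra hh
    simp only [T, not_or, not_forall, ne_eq, not_not] at hh
    obtain ⟨⟨g, g1, g2⟩, k, k1, k2⟩ := hh
    exact habc (k * g⁻¹) (by rw [mul_smul, ← g1, inv_smul_smul, k1, g1]) (by rw [mul_smul, ← g2, inv_smul_smul, k2])
  have h3 : T γ α := by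
    rcases h1 with h | h
    · exact H18.prim_rel hprim T ⟨T_refl, T_symm _ _, hT _ _ _⟩ T_inv hb.symm h γ α
    · exact H18.prim_rel hprim T ⟨T_refl, T_symm _ _, hT _ _ _⟩ T_inv hc.symm h γ α
  exact h3 1 (one_smul _ _) (one_smul _ _)

/-- A classification-free minimal-degree bound. Let G be a finite group acting faithfully and primitively on a finite set Ω with n elements, and suppose that the image of G in the symmetric group on Ω does not contain the alternating group on Ω. Then every non-identity element of G moves at least (√n − 1)/2 points of Ω, that is, it fixes at most n − (√n − 1)/2 points. -/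
theorem result {G Ω : Type*} [Group G] [Finite G] [MulAction G Ω] [FaithfulSMul G Ω] [Fintype Ω] [DecidableEq Ω]
    (hprim : MulAction.IsPreprimitive G Ω)
    (hA : ¬ alternatingGroup Ω ≤ (MulAction.toPermHom G Ω).range)
    (g : G) (hg : g ≠ 1) :
    (Real.sqrt (Fintype.card Ω) - 1) / 2 ≤ (Fintype.card Ω : ℝ) - Nat.card (MulAction.fixedBy Ω g) := by
  classical
  let Δ : Finset Ω := Finset.univ.filter fun x => g • x ≠ x
  have hΔ : ∀ x, x ∈ Δ ↔ g • x ≠ x := by simp [Δ]
  have hm : Nat.card (MulAction.fixedBy Ω g) + Δ.card = Fintype.card Ω := by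
    rw [Nat.card_eq_fintype_card, Fintype.card_subtype, ← Finset.card_univ]
    exact Finset.card_filter_add_card_filter_not _
  obtain ⟨α, hα⟩ : ∃ ω : Ω, g • ω ≠ ω := by
    by_contra hc
    push Not at hc
    exact hg (eq_of_smul_eq_smul (α := Ω) fun ω => by rw [hc, one_smul])
  have key : Fintype.card Ω ≤ (2 * Δ.card + 1) ^ 2 := by
    by_cases h2 : ∃ a b c : Ω, b ≠ a ∧ c ≠ a ∧ ∀ h : G, h • a = a → h • b ≠ c
    · refine (babai hprim h2 hα.symm).trans (Nat.pow_le_pow_left ?_ 2)
      have : {γ : Ω | ∀ h : G, h • γ = γ → h • α ≠ g • α}.ncard ≤ Δ.card := by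
        rw [← Set.ncard_coe_finset]
        exact Set.ncard_le_ncard (fun γ hγ => Finset.mem_coe.2 ((hΔ γ).2 fun h => hγ g h rfl)) (Finset.finite_toSet _)
      omega
    · push Not at h2
      have h3 := card_le_of_two_trans h2 α (Δ.erase α) (Finset.notMem_erase _ _) fun k hk => by
        by_contra hc
        push Not at hc
        apply hA
        let φ := MulAction.toPermHom G Ω
        haveI := hprim.toIsPretransitive
        haveI : MulAction.IsPretransitive φ.range Ω := ⟨fun x y => by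
          obtain ⟨h, hh⟩ := MulAction.exists_smul_eq G x y
          exact ⟨⟨φ h, h, rfl⟩, hh⟩⟩
        have hp : MulAction.IsPreprimitive φ.range Ω := H18.prim_of_rel fun r hr hinv a b hab h =>
          H18.prim_rel hprim r hr (fun k x y => hinv ⟨φ k, k, rfl⟩ x y) hab h
        have h4 : ∀ x, φ (k * g * k⁻¹) x = x ↔ g • k⁻¹ • x = k⁻¹ • x := fun x => by
          change (k * g * k⁻¹) • x = x ↔ _
          rw [mul_smul, mul_smul, eq_inv_smul_iff]
        have hk' : k⁻¹ • α = α := inv_smul_eq_iff.2 hk.symm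
        refine Equiv.Perm.alternatingGroup_le_of_isPreprimitive_of_isThreeCycle_mem hp
          (H10.isThreeCycle_commutator (g := φ g) (h := φ (k * g * k⁻¹)) (a := α) hα ?_ fun x hx => ?_)
          (mul_mem (mul_mem (mul_mem ⟨_, rfl⟩ ⟨_, rfl⟩) (inv_mem ⟨_, rfl⟩)) (inv_mem ⟨_, rfl⟩))
        · rw [Ne, h4, hk']; exact hα
        · by_contra hh
          push Not at hh
          rw [Ne, Ne, h4] at hh
          refine hc (k⁻¹ • x) (Finset.mem_erase.2 ⟨fun h => hx ?_, (hΔ _).2 hh.2⟩) ?_
          · rw [inv_smul_eq_iff.1 h, hk]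
          · rw [smul_inv_smul]; exact Finset.mem_erase.2 ⟨hx, (hΔ _).2 hh.1⟩
      have h5 := Nat.pow_le_pow_left (Finset.card_erase_le (s := Δ) (a := α)) 2
      have h6 : Fintype.card Ω ≤ Δ.card ^ 2 + 1 := by omega
      nlinarith
  have h1 : Real.sqrt (Fintype.card Ω) ≤ 2 * Δ.card + 1 := by
    rw [Real.sqrt_le_iff]
    exact ⟨by positivity, by exact_mod_cast key⟩
  have h2 : (Fintype.card Ω : ℝ) = Nat.card (MulAction.fixedBy Ω g) + Δ.card := by exact_mod_cast hm.symm
  linarith

end Cfsg.Agent.S5713
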