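import Mathlib
import Cfsg.Statements.S5722
import Cfsg.Agent.H16.CompLen
import Cfsg.Agent.H04.Frattini

set_option autoImplicit false
open Cfsg

namespace Cfsg.Agent.S5722

open BG Subgroup H16 MulAction
local notation "ω" => ArithmeticFunction.cardFactors

theorem two_pow_omega {m : ℕ} (hm : m ≠ 0) : 2 ^ ω m ≤ m := by
  rw [ArithmeticFunction.cardFactors_apply]
  conv_rhs => rw [← Nat.prod_primeFactorsList hm]
  exact List.pow_card_le_prod _ _ fun x hx => (Nat.prime_of_mem_primeFactorsList hx).two_le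

theorem arith1 (s : ℕ) (hs : 5 ≤ s) : 3 * (s * s + 2 * s) + 1 ≤ 4 * 2 ^ s := by
  induction s, hs using Nat.le_induction with
  | base => norm_num
  | succ s hs ih => rw [pow_succ]; nlinarith

theorem arith {p d : ℕ} (hp : p.Prime) (hd : d ≠ 0) :
    3 * (d + ω (∏ i : Fin d, (p ^ d - p ^ (i : ℕ)))) + 4 ≤ 4 * p ^ d := by
  have h0 : ∏ i : Fin d, (p ^ d - p ^ (i : ℕ)) ≠ 0 := Finset.prod_ne_zero_iff.2 fun i _ =>
    Nat.sub_ne_zero_of_lt (Nat.pow_lt_pow_right hp.one_lt i.2)
  have h1 := two_pow_omega h0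
  set w := ω (∏ i : Fin d, (p ^ d - p ^ (i : ℕ))) with hw
  have hp2 := hp.two_le
  by_cases h2 : 32 ≤ p ^ d
  · set s := Nat.log 2 (p ^ d)
    have h3 : 2 ^ s ≤ p ^ d := Nat.pow_log_le_self 2 (by omega)
    have h4 : p ^ d < 2 ^ (s + 1) := Nat.lt_pow_succ_log_self one_lt_two _
    have h5 : 5 ≤ s := Nat.le_log_of_pow_le one_lt_two h2
    have h6 : d ≤ s := Nat.le_log_of_pow_le one_lt_two (Nat.pow_le_pow_left hp2 d)
    have h7 : ∏ i : Fin d, (p ^ d - p ^ (i : ℕ)) ≤ (p ^ d) ^ d := by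
      simpa using Finset.prod_le_pow_card Finset.univ (fun i : Fin d => p ^ d - p ^ (i : ℕ)) (p ^ d)
        fun i _ => Nat.sub_le _ _
    have h8 : 2 ^ w < 2 ^ ((s + 1) * d) := by
      rw [pow_mul]; exact (h1.trans h7).trans_lt (Nat.pow_lt_pow_left h4 hd)
    have h9 := (Nat.pow_lt_pow_iff_right one_lt_two).1 h8
    have := arith1 s h5
    nlinarith
  · have h3 : d < 5 := (Nat.pow_lt_pow_iff_right one_lt_two).1 ((Nat.pow_le_pow_left hp2 d).trans_lt (not_le.1 h2))
    have h4 : ∀ k : ℕ, 2 ^ w < 2 ^ k → w < k := fun k => (Nat.pow_lt_pow_iff_right one_lt_two).1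
    interval_cases d
    · exact absurd rfl hd
    · simp only [Finset.univ_unique, Finset.prod_singleton, Fin.default_eq_zero, Fin.val_zero, pow_one, pow_zero] at h1 ⊢
      have h5 := Nat.lt_two_pow_self (n := w)
      rcases (show p = 2 ∨ p = 3 ∨ 4 ≤ p by omega) with rfl | rfl | h
      · have := h4 1 (by omega); omega
      · have := h4 2 (by omega); omega
      · omega
    · have h5 : p < 6 := by by_contra h; nlinarith
      simp only [Fin.prod_univ_two] at h1
      interval_cases p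
      · have := h4 3 (h1.trans_lt (by norm_num)); omega
      · have := h4 6 (h1.trans_lt (by norm_num)); omega
      · exact absurd hp (by norm_num)
      · have := h4 9 (h1.trans_lt (by norm_num)); omega
    · have h5 : p < 4 := by by_contra h; exact h2 (le_trans (by norm_num) (Nat.pow_le_pow_left (not_lt.1 h) 3))
      simp only [Fin.prod_univ_three] at h1 hw
      interval_cases p
      · have : w = 5 := by rw [hw, ArithmeticFunction.cardFactors_apply]; norm_num; simp
        omega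
      · have := h4 14 (h1.trans_lt (by norm_num)); omega
    · have h5 : p < 3 := by by_contra h; exact h2 (le_trans (by norm_num) (Nat.pow_le_pow_left (not_lt.1 h) 4))
      simp only [Fin.prod_univ_four] at h1
      interval_cases p
      have := h4 15 (h1.trans_lt (by norm_num)); omega

section
variable {G : Type*} [Group G] {H N X : Subgroup G} {𝒯 : Finset (Subgroup G)}

theorem cent_triv (hcore : ∀ z : G, (∀ g, g⁻¹ * z * g ∈ H) → z = 1) [N.Normal] (hNH : N ⊔ H = ⊤) (hXn : N ≤ N_(X))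
    (hX : X ⊔ N ⊓ H = N) : H ⊓ C_(X) = ⊥ := by
  rw [eq_bot_iff]
  rintro z ⟨hz, hz'⟩
  refine hcore z fun g => ?_
  obtain ⟨n, hn, h, hh, rfl⟩ := (mem_sup_norm le_normalizer_of_normal).1 (hNH.ge (mem_top g))
  obtain ⟨x, hx, m, hm, rfl⟩ := (mem_sup_norm (inf_le_left.trans hXn)).1 (hX.ge hn)
  rw [show (x * m * h)⁻¹ * z * (x * m * h) = (m * h)⁻¹ * (x⁻¹ * (z * x)) * (m * h) by group, ← hz' x hx,
    inv_mul_cancel_left]
  exact mul_mem (mul_mem (inv_mem (mul_mem hm.2 hh)) hz) (mul_mem hm.2 hh)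

theorem case_a [Finite G] (hcore : ∀ z : G, (∀ g, g⁻¹ * z * g ∈ H) → z = 1) [N.Normal] (hNH : N ⊔ H = ⊤) {p : ℕ}
    (hp : p.Prime) (h0 : N ≠ ⊥) (hN : IsElementaryAbelian p N) {l : ℕ} (h : Ch (⊥ : Subgroup G) ⊤ l) :
    3 * l + 4 ≤ 4 * H.index := by
  have : Fact p.Prime := ⟨hp⟩
  have h1 := cent_triv hcore hNH le_normalizer (X := N) (by simp)
  have h2 : N ⊓ H = ⊥ := eq_bot_mono h1 (le_inf inf_le_right (inf_le_left.trans (abelian_iff.1 hN.1)))
  have hP : IsPGroup p N := fun x => ⟨1, by rw [pow_one]; exact Subtype.ext (hN.2 x x.2)⟩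
  obtain ⟨d, hd⟩ := hP.exists_card_eq
  have hd0 : d ≠ 0 := by rintro rfl; exact h0 (Subgroup.card_eq_one.1 hd)
  have h3 : Nat.card G = Nat.card N * Nat.card H := by
    rw [← card_top, ← hNH, card_sup_of_disj le_normalizer_of_normal h2]
  have h4 : H.index = p ^ d := by
    have := H.card_mul_index
    rw [h3, mul_comm, hd] at this
    exact Nat.eq_of_mul_eq_mul_right Nat.card_pos this
  have h5 := H04.card_mulAut_dvd hd (r := d) (by rw [(H04.frattini_eq_bot_iff hP).2 ⟨hN.1, fun x => Subtype.ext (hN.2 x x.2)⟩, index_bot, hd])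
  rw [Nat.sub_self, mul_zero, pow_zero, one_mul] at h5
  have h6 : Nat.card H ∣ Nat.card (MulAut N) := by
    refine card_dvd_of_injective ((MulAut.conjNormal (H := N)).comp H.subtype) ((injective_iff_map_eq_one _).2 fun x hx => ?_)
    refine Subtype.ext (eq_one_of_mem_of_disj h1 x.2 fun y hy => ?_)
    have := congrArg (fun φ : MulAut N => (φ ⟨y, hy⟩ : G)) hx
    exact (mul_inv_eq_iff_eq_mul.1 this).symm
  obtain ⟨c, hc⟩ := h6.trans h5
  have h7 := arith hp hd0
  have h8 : ∏ i : Fin d, (p ^ d - p ^ (i : ℕ)) ≠ 0 := Finset.prod_ne_zero_iff.2 fun i _ =>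
    Nat.sub_ne_zero_of_lt (Nat.pow_lt_pow_right hp.one_lt i.2)
  rw [hc] at h8 h7
  rw [ArithmeticFunction.cardFactors_mul (left_ne_zero_of_mul h8) (right_ne_zero_of_mul h8)] at h7
  have h9 := h.omega
  rw [card_top, h3, ArithmeticFunction.cardFactors_mul (card_ne_zero _) (card_ne_zero _), hd,
    ArithmeticFunction.cardFactors_apply_prime_pow hp] at h9
  omega

theorem case_b (hS : SS 𝒯) (h : ∀ T ∈ 𝒯, T ⊓ H ≠ ⊥) : ∃ d, 𝒯.card ≤ d ∧ Ch ⊥ (𝒯.sup id ⊓ H) d := by
  classical
  have key : ∀ J ⊆ 𝒯, Ch ⊥ (J.sup (· ⊓ H)) J.card ∧ 𝒯.sup id ⊓ H ≤ N_(J.sup (· ⊓ H)) := by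
    intro J hJ
    induction J using Finset.induction_on with
    | empty => exact ⟨.refl, le_top.trans norm_bot.ge⟩
    | insert T J hT ih =>
      have hT' : T ∈ 𝒯 := hJ (by simp)
      have hJ' : J ⊆ 𝒯 := fun x hx => hJ (by simp [hx])
      obtain ⟨h1, h2⟩ := ih hJ'
      have h3 : J.sup (· ⊓ H) ≤ J.sup id := Finset.sup_mono_fun fun _ _ => inf_le_left
      rw [Finset.sup_insert, Finset.card_insert_of_notMem hT]
      refine ⟨h1.step (lt_of_le_of_ne le_sup_right fun e => h T hT' ?_) (sup_le ?_ le_normalizer),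
        norm_sup (norm_inf (inf_le_left.trans (hS.norm hT')) (norm_of_le inf_le_right)) h2⟩
      · exact eq_bot_mono (hS.disj hT' hJ' hT) (le_inf inf_le_left ((le_sup_left.trans e.ge).trans h3))
      · exact le_norm_of_cent (cent_symm (le_cent_mono (hS.sup_le_cent hT' hJ' hT) h3 inf_le_left))
  obtain ⟨d, h1, -, h2⟩ := (key 𝒯 le_rfl).1.weak (X := 𝒯.sup id ⊓ H)
    (Finset.sup_le fun T hT => inf_le_inf_right H (Finset.le_sup (f := id) hT)) (key 𝒯 le_rfl).2
  exact ⟨d, h1, h2⟩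

theorem case_c [Finite G] (hcore : ∀ z : G, (∀ g, g⁻¹ * z * g ∈ H) → z = 1) [N.Normal] (hNH : N ⊔ H = ⊤) (hS : SS 𝒯)
    (hN : 𝒯.sup id = N) (h : ∀ T ∈ 𝒯, T ⊓ H = ⊥) {t : ℕ} (ht : ∀ T ∈ 𝒯, Nat.card T = t) {a : ℕ} (ha : Ch ⊥ N a) :
    ∃ d j, Ch ⊥ (N ⊓ H) d ∧ a ≤ d + j ∧ (j ≤ 1 ∨ j ≤ 𝒯.card ∧ 𝒯.card * t ≤ H.index) := by
  classical
  obtain ⟨J, ⟨hJ, hJN⟩, hmin⟩ := exists_minimal_of_wellFoundedLT
    (fun J : Finset (Subgroup G) => J ⊆ 𝒯 ∧ J.sup id ⊔ N ⊓ H = N) ⟨𝒯, le_rfl, by rw [hN]; simp⟩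
  have hn : ∀ J' ⊆ 𝒯, N ≤ N_(J'.sup id) := fun J' hJ' => hN ▸ hS.norm_sup hJ'
  have hle : ∀ J' ⊆ 𝒯, J'.sup id ≤ N := fun J' hJ' => hN ▸ Finset.sup_mono hJ'
  obtain ⟨a1, a2, e, h1, h2⟩ := ha.split (hn J hJ)
  rw [bot_inf_eq, inf_eq_right.2 (hle J hJ)] at h1
  rw [sup_bot_eq, sup_eq_right.2 (hle J hJ)] at h2
  have h3 := h2.inf_of_sup (H := N ⊓ H) (inf_le_left.trans (hn J hJ)) hJN.ge
  rw [← inf_assoc N, inf_idem] at h3
  obtain ⟨d, -, -, h4⟩ := (Ch.refl (A := (⊥ : Subgroup G))).weak (X := J.sup id ⊓ (N ⊓ H)) bot_le (le_top.trans norm_bot.ge)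
  have h5 := (hS.mono hJ).ch_le h1
  refine ⟨d + a2, J.card, h4.trans h3, by omega, ?_⟩
  by_cases hj : J.card ≤ 1
  · exact Or.inl hj
  refine Or.inr ⟨Finset.card_le_card hJ, ?_⟩
  have key : ∀ J' ⊆ J, J'.Nonempty → 3 ^ J'.card * t ≤ 3 * (N ⊓ H).relIndex (J'.sup id) := by
    intro J' hJ'
    induction J' using Finset.induction_on with
    | empty => simp
    | insert T K hT ih =>
      intro _
      have hTJ : T ∈ J := hJ' (by simp)
      have hK : K ⊆ J := fun x hx => hJ' (by simp [hx])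
      rw [Finset.card_insert_of_notMem hT, Finset.sup_insert, id]
      rcases K.eq_empty_or_nonempty with rfl | hne
      · have := card_inf_mul_relIndex (N ⊓ H) T
        rw [eq_bot_mono (h T (hJ hTJ)) (le_inf inf_le_right (inf_le_left.trans inf_le_right)), card_bot, one_mul] at this
        simp [this, ht T (hJ hTJ)]
      have h6 := ih hK hne
      set X := K.sup id
      set Y := T ⊔ X
      have hXn : N ≤ N_(X) := hn K (hK.trans hJ)
      have hTN : T ≤ N := hN ▸ Finset.le_sup (f := id) (hJ hTJ)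
      have hYN : Y ≤ N := sup_le hTN (hle K (hK.trans hJ))
      have h7 : (N ⊓ H).relIndex Y = (N ⊓ H).relIndex X * (X ⊔ N ⊓ H ⊓ Y).relIndex T := by
        rw [← inf_relIndex_right (N ⊓ H) Y, ← relIndex_mul (B := X ⊔ N ⊓ H ⊓ Y) le_sup_right
          (sup_le le_sup_right inf_le_right), relIndex_sup' ((inf_le_right.trans hYN).trans hXn),
          ← inf_relIndex_right (N ⊓ H ⊓ Y), inf_assoc, inf_eq_right.2 (le_sup_right : X ≤ Y), inf_relIndex_right,
          ← relIndex_sup' (K := T) ((sup_le (hle K (hK.trans hJ)) (inf_le_right.trans hYN)).trans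
            (hN ▸ hS.norm (hJ hTJ))), ← sup_assoc, sup_eq_left.2 (inf_le_right : N ⊓ H ⊓ Y ≤ Y)]
      have h8 := hS.three_le (hJ hTJ) (W := X ⊔ N ⊓ H ⊓ Y) fun hle' => by
        have h9 : (J.erase T).sup id ⊔ N ⊓ H = N := by
          refine le_antisymm (sup_le (hle _ ((Finset.erase_subset _ _).trans hJ)) inf_le_left) (hJN.ge.trans
            (sup_le (Finset.sup_le fun U hU => ?_) le_sup_right))
          by_cases e : U = T
          · refine e.le.trans (hle'.trans (sup_le_sup (Finset.sup_mono fun x hx => ?_) inf_le_left))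
            exact Finset.mem_erase.2 ⟨fun e => hT (e ▸ hx), hK hx⟩
          · exact le_sup_of_le_left (Finset.le_sup (f := id) (Finset.mem_erase.2 ⟨e, hU⟩))
        exact Finset.notMem_erase T J (hmin ⟨(Finset.erase_subset _ _).trans hJ, h9⟩ (Finset.erase_subset _ _) hTJ)
      rw [h7, pow_succ]
      nlinarith
  have h6 := key J le_rfl (Finset.card_pos.1 (by omega))
  have h7 : (N ⊓ H).relIndex (J.sup id) ≤ H.index := by
    rw [← inf_relIndex_right, inf_right_comm, inf_eq_right.2 (hle J hJ), inf_comm, inf_relIndex_right]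
    exact relIndex_le_of_le_right le_top (by rw [relIndex_top_right]; exact index_ne_zero_of_finite) |>.trans
      (relIndex_top_right H).le
  have h8 : Nat.card ((𝒯 \ J).sup id : Subgroup G) ≤ H.index := by
    have h9 : H ⊓ (𝒯 \ J).sup id = ⊥ := eq_bot_mono (cent_triv hcore hNH (hn J hJ) hJN) (inf_le_inf_left _
      (cent_symm (Finset.sup_le fun U hU => cent_symm
        (hS.sup_le_cent (hJ hU) Finset.sdiff_subset (by simp [hU])))))
    have := card_inf_mul_relIndex H ((𝒯 \ J).sup id)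
    rw [h9, card_bot, one_mul] at this
    rw [← this]
    exact relIndex_le_of_le_right le_top (by rw [relIndex_top_right]; exact index_ne_zero_of_finite) |>.trans
      (relIndex_top_right H).le
  rw [(hS.mono Finset.sdiff_subset).card_sup fun T hT => ht T (Finset.sdiff_subset hT)] at h8
  obtain ⟨T, hT⟩ := Finset.card_pos.1 (show 0 < J.card by omega)
  have h9 : 6 ≤ t := ht T (hJ hT) ▸ hS.six_le (hJ hT)
  rw [← Finset.card_sdiff_add_card_eq_card hJ]
  obtain ⟨j, hj'⟩ : ∃ j, J.card = j + 2 := ⟨J.card - 2, by omega⟩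
  generalize (𝒯 \ J).card = c at h8
  rw [hj'] at h6 ⊢
  have h10 : j + 2 ≤ 2 * 3 ^ j := by have := Nat.lt_pow_self (n := j) (show 1 < 3 by norm_num); omega
  have h11 : 3 * 3 ^ j * t ≤ H.index := by rw [pow_add] at h6; nlinarith
  have h12 : 3 * (c * t) ≤ H.index := by
    rcases c with _ | _ | c
    · simp
    · have := Nat.one_le_pow j 3 (by norm_num); nlinarith
    · refine le_trans ?_ h8
      have h13 := Nat.lt_pow_self (n := c) (show 1 < t by omega)
      rw [pow_succ, pow_succ]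
      nlinarith [Nat.mul_le_mul h13 h9]
  nlinarith
end

universe u

theorem main (n : ℕ) : ∀ (G Ω : Type u) [Group G] [Finite G] [Finite Ω] [MulAction G Ω] [FaithfulSMul G Ω],
    Nat.card Ω + Nat.card G = n → ∀ S : Finset Ω, (∀ a ∈ S, ∀ b ∈ S, ∀ g : G, g • a = b → a = b) →
      ∀ l, Ch (⊥ : Subgroup G) ⊤ l → 3 * l + 4 * S.card ≤ 4 * Nat.card Ω := by
  induction n using Nat.strong_induction_on with
  | _ n ih =>
  intro G Ω _ _ _ _ _ hn S hS l hl
  classical
  have ihq : ∀ (Ω' : Type u) [Finite Ω'] [MulAction G Ω'], Nat.card Ω' < Nat.card Ω → ∀ a : Ω',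
      ∀ l, Ch (toPermHom G Ω').ker ⊤ l → 3 * l + 4 ≤ 4 * Nat.card Ω' := by
    intro Ω' _ _ h1 a l h2
    have h3 := (h2.map (toPermHom G Ω').rangeRestrict (MonoidHom.ker_rangeRestrict _).le)
    rw [map_top_of_surjective _ (MonoidHom.rangeRestrict_surjective _), (Subgroup.map_eq_bot_iff _).2
      (MonoidHom.ker_rangeRestrict _).ge] at h3
    have h4 := Nat.card_le_card_of_surjective _ (MonoidHom.rangeRestrict_surjective (toPermHom G Ω'))
    exact ih _ (by omega) _ Ω' rfl {a} (by simp +contextual) l h3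
  have ihs : ∀ (K : Subgroup G) (Ω' : Type u) [Finite Ω'] [MulAction K Ω'] [FaithfulSMul K Ω'],
      Nat.card Ω' ≤ Nat.card Ω → (Nat.card Ω' < Nat.card Ω ∨ K ≠ ⊤) → ∀ S : Finset Ω',
      (∀ a ∈ S, ∀ b ∈ S, ∀ g : K, g • a = b → a = b) → ∀ l, Ch ⊥ K l → 3 * l + 4 * S.card ≤ 4 * Nat.card Ω' := by
    intro K Ω' _ _ _ h1 h2 S hS l hl
    refine ih _ ?_ K Ω' rfl S hS l hl.subgroupOf
    have h3 := card_le (le_top (a := K))
    rw [card_top] at h3
    rcases h2 with h2 | h2
    · omega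
    · have := card_lt (lt_top_iff_ne_top.2 h2)
      rw [card_top] at this
      omega
  have split : ∀ (N : Subgroup G) [N.Normal], ∃ a b, l ≤ a + b ∧ Ch ⊥ N a ∧ Ch N ⊤ b := fun N _ => by
    simpa using hl.split (N := N) le_normalizer_of_normal
  have hSc : S.card ≤ Nat.card Ω := by
    have := Fintype.ofFinite Ω
    rw [Nat.card_eq_fintype_card]; exact S.card_le_univ
  by_cases hG : Subsingleton G
  · rw [hl.eq_zero (Subsingleton.elim _ _).le]; omega
  have : Nontrivial G := not_subsingleton_iff_nontrivial.1 hG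
  obtain ⟨a⟩ : Nonempty Ω := by
    by_contra h
    obtain ⟨x, hx⟩ := exists_ne (1 : G)
    exact hx (eq_of_smul_eq_smul (α := Ω) fun w => absurd ⟨w⟩ h)
  by_cases htr : ∃ w, w ∉ orbit G a
  · obtain ⟨w, hw⟩ := htr
    let W : SubMulAction G Ω := ⟨(orbit G a)ᶜ, fun g x hx h => hx (by
      simpa using mapsTo_smul_orbit g⁻¹ a h)⟩
    have hc : Nat.card (orbit G a) + Nat.card W = Nat.card Ω := by
      rw [← Nat.card_sum]; exact Nat.card_congr (Equiv.Set.sumCompl _)
    have p1 : 0 < Nat.card (orbit G a) := Nat.card_pos_iff.2 ⟨⟨⟨a, mem_orbit_self a⟩⟩, inferInstance⟩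
    have p2 : 0 < Nat.card W := Nat.card_pos_iff.2 ⟨⟨⟨w, hw⟩⟩, inferInstance⟩
    obtain ⟨x, y, e, h1, h2⟩ := split (toPermHom G (orbit G a)).ker
    have h3 := ihq _ (by omega) ⟨a, mem_orbit_self a⟩ y h2
    have : FaithfulSMul (toPermHom G (orbit G a)).ker W := ⟨fun {g h} H => Subtype.ext
      (eq_of_smul_eq_smul (α := Ω) fun v => by
        by_cases hv : v ∈ orbit G a
        · exact (congrArg Subtype.val (Equiv.congr_fun g.2 ⟨v, hv⟩)).trans
            (congrArg Subtype.val (Equiv.congr_fun h.2 ⟨v, hv⟩)).symm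
        · exact congrArg Subtype.val (H ⟨v, hv⟩))⟩
    have h4 := ihs _ W (by omega) (Or.inl (by omega)) (S.subtype (· ∈ W)) (fun u hu v hv g e =>
      Subtype.ext (hS _ (Finset.mem_subtype.1 hu) _ (Finset.mem_subtype.1 hv) g (congrArg Subtype.val e))) x h1
    have h5 : (S.filter (¬ · ∈ W)).card ≤ 1 := Finset.card_le_one.2 fun u hu v hv => by
      obtain ⟨hu, g, rfl⟩ : u ∈ S ∧ u ∈ orbit G a := (Finset.mem_filter.1 hu).imp_right not_not.1
      obtain ⟨hv, h, rfl⟩ : v ∈ S ∧ v ∈ orbit G a := (Finset.mem_filter.1 hv).imp_right not_not.1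
      exact hS _ hu _ hv (h * g⁻¹) (by simp [mul_smul])
    have h6 := Finset.card_filter_add_card_filter_not (s := S) (· ∈ W)
    rw [Finset.card_subtype] at h4
    omega
  push Not at htr
  have : IsPretransitive G Ω := (isPretransitive_iff_base a).2 fun x => htr x
  have hS1 : S.card ≤ 1 := Finset.card_le_one.2 fun u hu v hv => by
    obtain ⟨g, e⟩ := exists_smul_eq G u v
    exact hS u hu v hv g e
  suffices 3 * l + 4 ≤ 4 * Nat.card Ω by omega
  set H := stabilizer G a with hH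
  have hi : H.index = Nat.card Ω := index_stabilizer_of_transitive G a
  have hcore : ∀ z : G, (∀ g, g⁻¹ * z * g ∈ H) → z = 1 := fun z hz => eq_of_smul_eq_smul (α := Ω) fun v => by
    obtain ⟨g, rfl⟩ := exists_smul_eq G a v
    have := mem_stabilizer_iff.1 (hz g)
    rw [one_smul]
    rwa [mul_smul, mul_smul, inv_smul_eq_iff] at this
  have hHt : H ≠ ⊤ := fun e => by
    obtain ⟨x, hx⟩ := exists_ne (1 : G)
    exact hx (hcore x fun g => e ▸ mem_top _)
  by_cases hco : IsCoatom H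
  swap
  · obtain ⟨L, h1, h2⟩ : ∃ L, H < L ∧ L ≠ ⊤ := by
      by_contra h; push Not at h; exact hco ⟨hHt, h⟩
    obtain ⟨x, y, e, h3, h4⟩ := split (toPermHom G (G ⧸ L)).ker
    have h5 : L.index < H.index := index_strictAnti h1
    have h6 := ihq (G ⧸ L) (by rw [← hi]; exact h5) (1 : G) y h4
    have := Fintype.ofFinite (G ⧸ L)
    have hinj : ∀ (u v : G ⧸ L) (k : (toPermHom G (G ⧸ L)).ker), k • u.out • a = v.out • a → u = v := by
      intro u v k e
      have h7 : v.out⁻¹ * (k * u.out) ∈ L := h1.le (by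
        rw [mem_stabilizer_iff, mul_smul, mul_smul, inv_smul_eq_iff]; exact e)
      have h8 : (k : G) • u = u := Equiv.congr_fun k.2 u
      rw [← h8, ← u.out_eq', ← v.out_eq']
      exact (QuotientGroup.eq.2 h7).symm
    have h7 := ihs _ Ω le_rfl (Or.inr fun e => h2 (eq_top_iff.2 fun g _ => by
      have h8 : g • ((1 : G) : G ⧸ L) = (1 : G) := Equiv.congr_fun (e.ge (mem_top g)) ((1 : G) : G ⧸ L)
      simpa using QuotientGroup.eq.1 h8)) (Finset.univ.image fun u : G ⧸ L => u.out • a) (fun u hu v hv k e => by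
        obtain ⟨u, -, rfl⟩ := Finset.mem_image.1 hu
        obtain ⟨v, -, rfl⟩ := Finset.mem_image.1 hv
        rw [hinj u v k e]) x h3
    rw [Finset.card_image_of_injective _ fun u v e => hinj u v 1 (by simpa using e), Finset.card_univ,
      ← Nat.card_eq_fintype_card] at h7
    omega
  obtain ⟨N, -, h0, hNn, hmin⟩ := exists_minnormal (K := (⊤ : Subgroup G)) (A := ⊤) top_ne_bot le_normalizer
  have : N.Normal := normalizer_eq_top_iff.1 (top_le_iff.1 hNn)
  have hNH : N ⊔ H = ⊤ := hco.2 _ (lt_of_le_of_ne le_sup_right fun e => h0 (eq_bot_iff.2 fun z hz =>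
    hcore z fun g => e.ge (mem_sup_left (by simpa using this.conj_mem z hz g⁻¹))))
  by_cases hs : Group.IsSolvable N
  · obtain ⟨p, hp, hN⟩ := minnormal_elem h0 hNn hs hmin
    exact hi ▸ case_a hcore hNH hp h0 hN hl
  obtain ⟨T, 𝒯, hSS, hN, hm⟩ := exists_ss hs hmin
  obtain ⟨x, y, e, h1, h2⟩ := split N
  have h3 := h2.inf_of_sup (H := H) le_normalizer_of_normal hNH.ge
  rw [top_inf_eq] at h3
  have h4 : ∀ d, Ch ⊥ (N ⊓ H) d → 3 * (d + y) + 8 ≤ 4 * Nat.card Ω := fun d hd => by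
    obtain ⟨g, hg⟩ : ∃ g, g ∉ H := by by_contra h; push Not at h; exact hHt (eq_top_iff.2 fun g _ => h g)
    have hne : a ≠ g • a := fun e => hg e.symm
    have := ihs H Ω le_rfl (Or.inr hHt) {a, g • a} (fun u hu v hv k e => by
      have hk : k • a = a := k.2
      rcases Finset.mem_insert.1 hu with rfl | hu
      · rw [← e, hk]
      rcases Finset.mem_insert.1 hv with rfl | hv
      · exact smul_left_cancel k (e.trans hk.symm)
      · rw [Finset.mem_singleton.1 hu, Finset.mem_singleton.1 hv]) _ (hd.trans h3)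
    rwa [Finset.card_pair hne] at this
  have hT : T ∈ 𝒯 := (hm T).2 ⟨1, cj_one T⟩
  have hcj : ∀ U ∈ 𝒯, ∃ h ∈ H, cj h T = U := fun U hU => by
    obtain ⟨g, rfl⟩ := (hm U).1 hU
    obtain ⟨h, hh, n, hn, rfl⟩ := (mem_sup_norm' (K := H) le_normalizer_of_normal).1 ((sup_comm N H ▸ hNH).ge (mem_top g))
    exact ⟨h, hh, (cj_mul_of_mem_norm (hSS.norm hT (hN.ge hn))).symm⟩
  have hcj' : ∀ U ∈ 𝒯, U ⊓ H = ⊥ ↔ T ⊓ H = ⊥ := fun U hU => by
    obtain ⟨h, hh, rfl⟩ := hcj U hU
    conv_lhs => rw [← cj_of_mem hh, ← cj_inf, cj_eq_bot_iff]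
  by_cases hb : T ⊓ H = ⊥
  swap
  · obtain ⟨d, h5, h6⟩ := case_b hSS fun U hU e => hb ((hcj' U hU).1 e)
    have h7 := hSS.ch_le (hN ▸ h1)
    have := h4 d (hN ▸ h6)
    omega
  have ht : ∀ U ∈ 𝒯, Nat.card U = Nat.card T := fun U hU => by
    obtain ⟨g, rfl⟩ := (hm U).1 hU
    exact card_cj g T
  obtain ⟨d, j, h5, h6, h7 | ⟨h7, h8⟩⟩ := case_c hcore hNH hSS hN (fun U hU => (hcj' U hU).2 hb) ht h1
  · have := h4 d h5
    omega
  let W := {x : G // x ≠ 1 ∧ ∃ U ∈ 𝒯, x ∈ U}
  let _ : MulAction H W :=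
    { smul := fun h x => ⟨h * x * (h : G)⁻¹, by simpa using x.2.1, by
        obtain ⟨U, hU, hx⟩ := x.2.2
        obtain ⟨g, rfl⟩ := (hm U).1 hU
        exact ⟨_, (hm _).2 ⟨h * g, (cj_cj _ _ _).symm⟩, conj_mem_cj _ hx⟩⟩
      one_smul := fun x => Subtype.ext (show (1 : G) * x * 1⁻¹ = x by simp)
      mul_smul := fun g h x => Subtype.ext (show (g : G) * h * x * (g * h : G)⁻¹ = g * (h * x * (h : G)⁻¹) * (g : G)⁻¹ by group) }
  have : FaithfulSMul H W := ⟨fun {g h} E => by
    rw [← inv_mul_eq_one]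
    refine Subtype.ext (eq_one_of_mem_of_disj (cent_triv hcore hNH le_normalizer (X := N) (by simp)) (g⁻¹ * h).2 ?_)
    rw [← hN]
    refine cent_symm (A := 𝒯.sup id) (B := zpowers _) (Finset.sup_le fun U hU x hx => ?_) (mem_zpowers _)
    rw [cent_zpowers, mem_cent1]
    by_cases h1 : x = 1
    · simp [h1]
    · have : (g : G) * x * (g : G)⁻¹ = h * x * (h : G)⁻¹ := congrArg Subtype.val (E ⟨x, h1, U, hU, hx⟩)
      calc x * (g⁻¹ * h : H) = (g : G)⁻¹ * (g * x * (g : G)⁻¹) * h := by simp [mul_assoc]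
        _ = _ := by rw [this]; simp [mul_assoc]⟩
  have h9 : Nat.card W + 𝒯.card ≤ 𝒯.card * Nat.card T := by
    have := Fintype.ofFinite G
    have e1 : Nat.card W = (𝒯.biUnion fun U => (Finset.univ.filter (· ∈ U)).erase 1).card := by
      rw [← Nat.card_eq_finsetCard]
      exact Nat.card_congr (Equiv.subtypeEquivRight fun x => by simp; tauto)
    have e2 := Finset.card_biUnion_le_card_mul 𝒯 (fun U => (Finset.univ.filter (· ∈ U)).erase 1) (Nat.card T - 1)
      fun U hU => by rw [Finset.card_erase_of_mem (by simp), ← ht U hU, Nat.card_eq_fintype_card, Fintype.card_subtype]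
    have := card_pos T
    rw [Nat.mul_sub_one] at e2
    have := Nat.le_mul_of_pos_right 𝒯.card this
    omega
  obtain ⟨z, hz, hz1⟩ := exists_mem_ne_one (A := T) fun e => hSS.nonab T hT (e.le.trans bot_le)
  have h10 := ihs H W (by omega) (Or.inr hHt) {⟨z, hz1, T, hT, hz⟩} (by simp +contextual) _ (h5.trans h3)
  rw [Finset.card_singleton] at h10
  omega

/-- If a finite group G acts faithfully on a finite set with n points and r orbits, then the composition length of G is at most 4(n − r)/3. Here the composition length is expressed through chains: the conclusion bounds the length l of every chain of subgroups 1 = H₀ < H₁ < ⋯ < H_l = G in which each term is normal in the next (the longest such chains are exactly the composition series). -/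
theorem result {G Ω : Type*} [Group G] [Finite G] [MulAction G Ω] [FaithfulSMul G Ω] [Fintype Ω]
    (l : ℕ) (H : Fin (l + 1) → Subgroup G) (h0 : H 0 = ⊥) (hl : H (Fin.last l) = ⊤)
    (hchain : ∀ i : Fin l, H i.castSucc < H i.succ ∧ ((H i.castSucc).subgroupOf (H i.succ)).Normal) :
    3 * l ≤ 4 * (Fintype.card Ω - Nat.card (Quotient (MulAction.orbitRel G Ω))) := by
  classical
  have h1 : ∀ (k : ℕ) (hk : k < l + 1), Ch ⊥ (H ⟨k, hk⟩) k := by
    intro k
    induction k with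
    | zero => intro hk; exact h0 ▸ .refl
    | succ k ih =>
      intro hk
      obtain ⟨h2, h3⟩ := hchain ⟨k, by omega⟩
      exact (ih (by omega)).step h2 ((normal_subgroupOf_iff_le_normalizer h2.le).1 h3)
  have h2 : Ch (⊥ : Subgroup G) ⊤ l := hl ▸ h1 l (by omega)
  have hk : (toPermHom G Ω).rangeRestrict.ker ≤ ⊥ := by
    rw [MonoidHom.ker_rangeRestrict, (MonoidHom.ker_eq_bot_iff _).2 toPerm_injective]
  have h3 := h2.map _ hk
  rw [map_top_of_surjective _ (MonoidHom.rangeRestrict_surjective _), Subgroup.map_bot] at h3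
  have := Fintype.ofFinite (Quotient (orbitRel G Ω))
  have hinj : ∀ (u v : Quotient (orbitRel G Ω)) (g : G), g • u.out = v.out → u = v := fun u v g e => by
    rw [← u.out_eq, ← v.out_eq]
    exact (Quotient.sound (show (orbitRel G Ω) v.out u.out from ⟨g, e⟩)).symm
  have h4 := main _ _ Ω rfl (Finset.univ.image fun u : Quotient (orbitRel G Ω) => u.out) (fun u hu v hv k e => by
    obtain ⟨u, -, rfl⟩ := Finset.mem_image.1 hu
    obtain ⟨v, -, rfl⟩ := Finset.mem_image.1 hv
    obtain ⟨_, g, rfl⟩ := k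
    rw [hinj u v g e]) l h3
  rw [Finset.card_image_of_injective _ fun u v e => hinj u v 1 (by simpa using e), Finset.card_univ,
    ← Nat.card_eq_fintype_card, Nat.card_eq_fintype_card (α := Ω)] at h4
  omega

end Cfsg.Agent.S5722
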