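import Mathlib
import Cfsg.Statements.S5729

set_option autoImplicit false
open Cfsg

namespace Cfsg.Agent.S5729

/-- Let a finite group G act faithfully and transitively on a set with n ≥ 3 points. Then either G is a Frobenius permutation group (Frobenius as a permutation group: transitive, some non-identity element fixes a point, and no non-identity element fixes two points) of order n(n − 1) and exactly |G|/n of its elements are derangements (fix no point), or the number of derangements is greater than |G|/n. -/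
theorem result {G Ω : Type*} [Group G] [Finite G] [MulAction G Ω] [FaithfulSMul G Ω] [Fintype Ω] (htr : MulAction.IsPretransitive G Ω) (hn : 3 ≤ Fintype.card Ω) :
    ((MulAction.IsPretransitive G Ω ∧ (∃ g : G, g ≠ 1 ∧ ∃ ω : Ω, g • ω = ω) ∧ ∀ g : G, g ≠ 1 → Nat.card (MulAction.fixedBy Ω g) ≤ 1) ∧ Nat.card G = Fintype.card Ω * (Fintype.card Ω - 1) ∧ Fintype.card Ω * Nat.card {g : G // ∀ ω : Ω, g • ω ≠ ω} = Nat.card G) ∨
    Nat.card G < Fintype.card Ω * Nat.card {g : G // ∀ ω : Ω, g • ω ≠ ω} := by
  classical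
  haveI : Fintype G := Fintype.ofFinite G
  set n := Fintype.card Ω with hn'
  let f : G → ℕ := fun g => Fintype.card (MulAction.fixedBy Ω g)
  have hf : ∀ g, Nat.card (MulAction.fixedBy Ω g) = f g := fun g => Nat.card_eq_fintype_card
  have hΩ0 : Nonempty Ω := Fintype.card_pos_iff.1 (by omega)
  have h1 : ∑ g, f g = Fintype.card G := by
    have := MulAction.sum_card_fixedBy_eq_card_orbits_mul_card_group G Ω
    have h2 : Fintype.card (Quotient (MulAction.orbitRel G Ω)) = 1 := by
      rw [Fintype.card_eq_one_iff_nonempty_unique]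
      exact (MulAction.pretransitive_iff_unique_quotient_of_nonempty G Ω).1 htr
    rw [h2, one_mul] at this
    exact this
  have h2 : 2 * Fintype.card G ≤ ∑ g, f g ^ 2 := by
    have := MulAction.sum_card_fixedBy_eq_card_orbits_mul_card_group G (Ω × Ω)
    have h3 : ∀ g : G, Fintype.card (MulAction.fixedBy (Ω × Ω) g) = f g ^ 2 := by
      intro g
      rw [sq, ← Fintype.card_prod]
      refine Fintype.card_congr ⟨fun x => (⟨x.1.1, congrArg Prod.fst x.2⟩, ⟨x.1.2, congrArg Prod.snd x.2⟩),
        fun x => ⟨(x.1.1, x.2.1), Prod.ext x.1.2 x.2.2⟩, fun x => rfl, fun x => rfl⟩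
    simp only [h3] at this
    rw [this]
    refine Nat.mul_le_mul_right _ ?_
    obtain ⟨a, b, hab⟩ := Fintype.exists_pair_of_one_lt_card (α := Ω) (by omega)
    refine Fintype.one_lt_card_iff_nontrivial.2 ⟨Quotient.mk _ (a, b), Quotient.mk _ (a, a), fun h => hab ?_⟩
    obtain ⟨g, hg⟩ := Quotient.exact h
    exact (congrArg Prod.fst hg).symm.trans (congrArg Prod.snd hg)
  have hle : ∀ g, f g ≤ n := fun g => Fintype.card_subtype_le _
  have hlt : ∀ g, g ≠ 1 → f g < n := by
    intro g hg
    have : ∃ ω : Ω, g • ω ≠ ω := by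
      by_contra hc
      push Not at hc
      exact hg (eq_of_smul_eq_smul (α := Ω) fun ω => by rw [hc, one_smul])
    obtain ⟨ω, hω⟩ := this
    exact Fintype.card_subtype_lt (p := fun x => x ∈ MulAction.fixedBy Ω g) hω
  have hf1 : f 1 = n := by
    simp [f, hn']
  have hf0 : ∀ g, f g = 0 ↔ ∀ ω : Ω, g • ω ≠ ω := by
    intro g
    simp [f, Fintype.card_eq_zero_iff, isEmpty_subtype]
  set D := Nat.card {g : G // ∀ ω : Ω, g • ω ≠ ω} with hD
  have hD' : (D : ℤ) = ∑ g : G, if f g = 0 then 1 else 0 := by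
    rw [hD, Nat.card_eq_fintype_card, Fintype.card_subtype]
    simp only [hf0]
    simp
  let t : G → ℤ := fun g => (if f g = 0 then (n : ℤ) else 0) - ((f g : ℤ) - 1) * ((f g : ℤ) - n)
  have ht : ∀ g, 0 ≤ t g := by
    intro g
    by_cases h : f g = 0
    · simp [t, h]
    · have h3 : (1 : ℤ) ≤ f g := by exact_mod_cast Nat.one_le_iff_ne_zero.2 h
      have h4 : (f g : ℤ) ≤ n := by exact_mod_cast hle g
      simp only [t, if_neg h]
      nlinarith
  have hs : ∑ g, t g = n * D - (∑ g, (f g : ℤ) ^ 2 - Fintype.card G) := by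
    have h5 : ∑ g, (f g : ℤ) = Fintype.card G := by exact_mod_cast h1
    have h6 : ∀ g, t g = n * (if f g = 0 then 1 else 0) - (f g : ℤ) ^ 2 + (n + 1) * (f g : ℤ) - n := by
      intro g
      simp only [t]
      split_ifs <;> ring
    simp only [h6, Finset.sum_sub_distrib, Finset.sum_add_distrib, ← Finset.mul_sum, h5, hD']
    simp only [Finset.sum_const, Finset.card_univ, nsmul_eq_mul]
    ring
  have h2' : 2 * (Fintype.card G : ℤ) ≤ ∑ g, (f g : ℤ) ^ 2 := by exact_mod_cast h2
  have hs0 : 0 ≤ ∑ g, t g := Finset.sum_nonneg fun g _ => ht g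
  rw [Nat.card_eq_fintype_card (α := G)]
  by_cases hcase : Fintype.card G < n * D
  · exact Or.inr hcase
  left
  have hc' : (n * D : ℤ) ≤ Fintype.card G := by exact_mod_cast not_lt.1 hcase
  have hnD : (n * D : ℤ) = Fintype.card G := by linarith
  have ht0 : ∀ g, t g = 0 := fun g =>
    (Finset.sum_eq_zero_iff_of_nonneg fun g _ => ht g).1 (by linarith) g (Finset.mem_univ _)
  have hf2 : ∀ g, g ≠ 1 → f g ≤ 1 := by
    intro g hg
    by_contra h
    have h3 : (1 : ℤ) < f g := by exact_mod_cast not_le.1 h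
    have h4 : (f g : ℤ) < n := by exact_mod_cast hlt g hg
    have h5 := ht0 g
    simp only [t, if_neg (show f g ≠ 0 by omega)] at h5
    nlinarith
  have hD2 : (D : ℤ) = n - 1 := by
    have h5 : ∑ g, (f g : ℤ) = Fintype.card G := by exact_mod_cast h1
    have h6 : ∀ g, (if f g = 0 then 1 else 0 : ℤ) = 1 - f g + if g = 1 then (n : ℤ) - 1 else 0 := by
      intro g
      by_cases hg : g = 1
      · subst hg
        rw [hf1, if_neg (by omega), if_pos rfl]; ring
      · have := hf2 g hg
        rw [if_neg hg]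
        split_ifs with h
        · simp [h]
        · have : f g = 1 := by omega
          simp [this]
    rw [hD']
    simp only [h6, Finset.sum_add_distrib, Finset.sum_sub_distrib, h5]
    simp
  have hG : Fintype.card G = n * (n - 1) := by
    have : ((n * (n - 1) : ℕ) : ℤ) = n * (n - 1) := by
      rw [Nat.cast_mul, Nat.cast_sub (by omega)]; simp
    exact_mod_cast (by rw [this, ← hnD, hD2] : (Fintype.card G : ℤ) = ((n * (n - 1) : ℕ) : ℤ))
  refine ⟨⟨htr, ?_, fun g hg => hf g ▸ hf2 g hg⟩, hG, by exact_mod_cast hnD⟩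
  obtain ⟨ω⟩ := hΩ0
  have h7 := (MulAction.stabilizer G ω).card_mul_index
  rw [MulAction.index_stabilizer_of_transitive, Nat.card_eq_fintype_card (α := G), Nat.card_eq_fintype_card (α := Ω), hG, ← hn', mul_comm] at h7
  have h8 := Nat.eq_of_mul_eq_mul_left (by omega) h7
  haveI : Nontrivial (MulAction.stabilizer G ω) := Finite.one_lt_card_iff_nontrivial.1 (by omega)
  obtain ⟨g, hg⟩ := exists_ne (1 : MulAction.stabilizer G ω)
  exact ⟨g, fun h => hg (Subtype.ext h), ω, g.2⟩

end Cfsg.Agent.S5729
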