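import Mathlib
import Cfsg.Statements.S5730
import Cfsg.Agent.H16.Derange

set_option autoImplicit false
open Cfsg

namespace Cfsg.Agent.S5730

open Finset H16.Der
open scoped Classical

section
variable {G : Type*} [Group G] [Fintype G] {Ω : Type*} [MulAction G Ω] [Fintype Ω]

theorem no84 [FaithfulSMul G Ω] (hG : Fintype.card G = 84) (hn : Fintype.card Ω = 7) {t : G}
    (ht : t ≠ 1) {a b : Ω} (hab : a ≠ b) (ha : t • a = a) (hb : t • b = b) : False := by
  haveI : Fact (Nat.Prime 7) := ⟨by norm_num⟩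
  obtain ⟨c, hc⟩ := exists_prime_orderOf_dvd_card (G := G) 7 (by rw [hG]; norm_num)
  set H := Subgroup.zpowers c with hH
  have hcard : Nat.card H = 7 := by rw [hH, Nat.card_zpowers, hc]
  have hidx : H.index = 12 := by
    have := H.card_mul_index
    rw [hcard, Nat.card_eq_fintype_card, hG] at this
    omega
  have hp : IsPGroup 7 H := IsPGroup.of_card (n := 1) (by rw [hcard]; norm_num)
  let P : Sylow 7 G := hp.toSylow (by rw [hidx]; norm_num)
  have hPH : (P : Subgroup G) = H := rfl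
  have h1 := P.card_dvd_index
  have h2 := card_sylow_modEq_one 7 G
  rw [hPH, hidx] at h1
  have h3 : Nat.card (Sylow 7 G) = 1 := by
    have := Nat.le_of_dvd (by norm_num) h1
    unfold Nat.ModEq at h2
    generalize Nat.card (Sylow 7 G) = m at *
    interval_cases m <;> simp_all
  haveI : Subsingleton (Sylow 7 G) := (Nat.card_eq_one_iff_unique.1 h3).1
  have hN : H.Normal := hPH ▸ P.normal_of_subsingleton
  have hc1 : c ≠ 1 := by rintro rfl; simp at hc
  obtain ⟨y, hy⟩ := exists_moved (Ω := Ω) hc1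
  have hos : ∀ x : Ω, Nat.card (MulAction.orbit H x) * Nat.card (MulAction.stabilizer H x) = 7 := by
    intro x
    rw [← hcard, Nat.card_eq_fintype_card, Nat.card_eq_fintype_card, Nat.card_eq_fintype_card]
    exact MulAction.card_orbit_mul_card_stabilizer_eq_card_group H x
  have hy7 : Nat.card (MulAction.orbit H y) = 7 := by
    have hd : Nat.card (MulAction.stabilizer H y) ∣ 7 := Dvd.intro_left _ (hos y)
    rcases (Nat.dvd_prime (by norm_num)).1 hd with h | h
    · have := hos y; rw [h] at this; omega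
    · exfalso
      have : MulAction.stabilizer H y = ⊤ := Subgroup.eq_top_of_card_eq _ (h.trans hcard.symm)
      have h5 : (⟨c, Subgroup.mem_zpowers c⟩ : H) ∈ MulAction.stabilizer H y := this ▸ Subgroup.mem_top _
      exact hy h5
  have hu : MulAction.orbit H y = Set.univ := by
    apply Set.eq_of_subset_of_ncard_le (Set.subset_univ _)
    rw [Set.ncard_univ, Nat.card_eq_fintype_card, hn, ← Nat.card_coe_set_eq, hy7]
  have hua : MulAction.orbit H a = Set.univ := by
    rw [← hu]; exact MulAction.orbit_eq_iff.2 (hu ▸ Set.mem_univ _)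
  have hsa : Nat.card (MulAction.stabilizer H a) = 1 := by
    have := hos a
    rw [hua, Nat.card_coe_set_eq, Set.ncard_univ, Nat.card_eq_fintype_card, hn] at this
    omega
  obtain ⟨d, hd⟩ : b ∈ MulAction.orbit H a := hua ▸ Set.mem_univ _
  have hd' : (d : G) • a = b := hd
  have hm : (d : G)⁻¹ * (t * d * t⁻¹) ∈ H := H.mul_mem (H.inv_mem d.2) (hN.conj_mem _ d.2 t)
  have hs : (⟨_, hm⟩ : H) ∈ MulAction.stabilizer H a := by
    change ((d : G)⁻¹ * (t * d * t⁻¹)) • a = a
    rw [mul_smul, mul_smul, mul_smul, inv_smul_eq_iff.2 ha.symm, hd', hb, ← hd', inv_smul_smul]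
  rw [Subgroup.card_eq_one.1 hsa, Subgroup.mem_bot] at hs
  have hs' : (d : G)⁻¹ * (t * d * t⁻¹) = 1 := congrArg Subtype.val hs
  have hcomm : Commute t (d : G) := by
    rw [inv_mul_eq_one] at hs'
    rw [Commute, SemiconjBy, ← mul_inv_eq_iff_eq_mul, ← hs']
  have hd1 : d ≠ 1 := by rintro rfl; exact hab (by simpa using hd')
  obtain ⟨w, hw⟩ := exists_moved (Ω := Ω) ht
  obtain ⟨e, he⟩ : w ∈ MulAction.orbit H a := hua ▸ Set.mem_univ _
  have he' : (e : G) • a = w := he
  obtain ⟨j, hj⟩ := mem_zpowers_of_prime_card (p := 7) hcard (g' := e) hd1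
  have : (e : G) = (d : G) ^ j := by rw [← hj]; simp
  apply hw
  rw [← he', this, ← mul_smul, (hcomm.zpow_right j).eq, mul_smul, ha]

theorem two_le_ph {a b : Ω} (hab : a ≠ b) {g : G} (hg : g ∈ LL G a b) : 2 ≤ ph Ω g := by
  rw [mem_LL] at hg
  have : ({a, b} : Finset Ω) ⊆ fx Ω g := by
    intro x hx
    simp only [mem_insert, mem_singleton] at hx
    rcases hx with rfl | rfl <;> simp [hg.1, hg.2]
  have h := card_le_card this
  rwa [card_pair hab] at h

theorem boundA {a b : Ω} (hab : a ≠ b) {m : ℚ} (hm : ∀ g ∈ LL G a b, g ≠ 1 → (ph Ω g : ℚ) ≤ m) :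
    1 / (Fintype.card Ω : ℚ) + ((LL G a b).card - 1) / m ≤ ∑ g ∈ LL G a b, 1 / (ph Ω g : ℚ) := by
  have h1 : (1 : G) ∈ LL G a b := by simp
  rw [← add_sum_erase _ _ h1, ph_one]
  refine add_le_add le_rfl ?_
  have : ∑ g ∈ (LL G a b).erase 1, 1 / m ≤ ∑ g ∈ (LL G a b).erase 1, 1 / (ph Ω g : ℚ) := by
    refine sum_le_sum fun g hg => ?_
    rw [mem_erase] at hg
    have := two_le_ph hab hg.2
    have h0 : (0 : ℚ) < ph Ω g := by exact_mod_cast (by omega : 0 < ph Ω g)
    exact one_div_le_one_div_of_le h0 (hm g hg.2 hg.1)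
  rw [sum_const, card_erase_of_mem h1, nsmul_eq_mul, Nat.cast_sub (card_pos.2 ⟨_, h1⟩)] at this
  refine le_trans (le_of_eq ?_) this
  push_cast; ring

theorem boundB {a b : Ω} (hab : a ≠ b) {s : ℕ} (hs : ∑ g ∈ LL G a b, ph Ω g = s * (LL G a b).card)
    (h2 : 2 * s ≤ Fintype.card Ω) :
    2 * ((LL G a b).card : ℚ) ≤ Fintype.card Ω * ∑ g ∈ LL G a b, 1 / (ph Ω g : ℚ) := by
  have hn : (0 : ℚ) < Fintype.card Ω := by exact_mod_cast Fintype.card_pos_iff.2 ⟨a⟩
  have h2' : 2 * (s : ℚ) ≤ (Fintype.card Ω : ℚ) := by exact_mod_cast h2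
  generalize (Fintype.card Ω : ℚ) = n at *
  have h1 : ∑ g ∈ LL G a b, (4 / n - 4 * (ph Ω g : ℚ) / n ^ 2) ≤ ∑ g ∈ LL G a b, 1 / (ph Ω g : ℚ) := by
    refine sum_le_sum fun g hg => ?_
    have := two_le_ph hab hg
    have h0 : (0 : ℚ) < ph Ω g := by exact_mod_cast (by omega : 0 < ph Ω g)
    rw [le_div_iff₀ h0]
    have : (4 / n - 4 * (ph Ω g : ℚ) / n ^ 2) * ph Ω g = 1 - (n - 2 * ph Ω g) ^ 2 / n ^ 2 := by
      field_simp; ring
    rw [this]
    have : 0 ≤ (n - 2 * ph Ω g) ^ 2 / n ^ 2 := by positivity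
    linarith
  have hs' : ∑ g ∈ LL G a b, (ph Ω g : ℚ) = s * (LL G a b).card := by exact_mod_cast hs
  rw [sum_sub_distrib, sum_const, nsmul_eq_mul, ← sum_div, ← mul_sum, hs'] at h1
  refine le_trans ?_ (mul_le_mul_of_nonneg_left h1 hn.le)
  have hk : (0 : ℚ) ≤ (LL G a b).card := by positivity
  have : n * (((LL G a b).card : ℚ) * (4 / n) - 4 * (s * (LL G a b).card) / n ^ 2) =
      2 * (LL G a b).card + 2 * (LL G a b).card * (n - 2 * s) / n := by
    field_simp; ring
  rw [this]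
  have : 0 ≤ 2 * ((LL G a b).card : ℚ) * (n - 2 * s) / n := by
    apply div_nonneg (mul_nonneg (by positivity) (by linarith)) hn.le
  linarith

theorem fromA {a b : Ω} (hab : a ≠ b) {m : ℚ} (hm0 : 0 < m)
    (hm : ∀ g ∈ LL G a b, g ≠ 1 → (ph Ω g : ℚ) ≤ m)
    (h : 2 * ((LL G a b).card : ℚ) * m ≤ m + ((LL G a b).card - 1) * Fintype.card Ω) :
    2 * ((LL G a b).card : ℚ) ≤ Fintype.card Ω * ∑ g ∈ LL G a b, 1 / (ph Ω g : ℚ) := by
  have hn : (0 : ℚ) < Fintype.card Ω := by exact_mod_cast Fintype.card_pos_iff.2 ⟨a⟩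
  refine le_trans ?_ (mul_le_mul_of_nonneg_left (boundA hab hm) hn.le)
  have : (Fintype.card Ω : ℚ) * (1 / (Fintype.card Ω : ℚ) + ((LL G a b).card - 1) / m) =
      (m + ((LL G a b).card - 1) * Fintype.card Ω) / m := by
    field_simp
  rw [this, le_div_iff₀ hm0]
  exact h

theorem odd_conj (h g : G) : Odd (orderOf (h * g * h⁻¹)) ↔ Odd (orderOf g) := by
  have : orderOf (h * g * h⁻¹) = orderOf g := (MulAut.conj h).orderOf_eq g
  rw [this]

theorem orderOf_dvd_LL {a b : Ω} {g : G} (hg : g ∈ LL G a b) : orderOf g ∣ (LL G a b).card := by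
  rw [← card_Ls]
  exact Subgroup.orderOf_dvd_natCard _ (by simpa [Ls] using hg)

theorem case_odd [FaithfulSMul G Ω] (h2 : Two G Ω) (hn : 7 ≤ Fintype.card Ω) {a b : Ω} (hab : a ≠ b)
    {u : G} (hu : u ∈ LL G a b) (hu1 : u ≠ 1) (huo : Odd (orderOf u)) :
    2 * ((LL G a b).card : ℚ) ≤ Fintype.card Ω * ∑ g ∈ LL G a b, 1 / (ph Ω g : ℚ) := by
  obtain ⟨s, hs⟩ := exists_sum_LL (G := G) a b
  by_cases h2s : 2 * s ≤ Fintype.card Ω
  · exact boundB hab hs h2s
  let P : G → Prop := fun g => Odd (orderOf g)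
  have hP : ∀ h g, P (h * g * h⁻¹) ↔ P g := odd_conj
  set X := line P a b with hX
  obtain ⟨z, hz⟩ := exists_moved (Ω := Ω) hu1
  have hzX : z ∉ X := fun h => hz (mem_line.1 h u (mem_LL.1 hu).1 (mem_LL.1 hu).2 huo)
  have hb1 := line_self_bound h2 hP hab hzX
  rw [← hX] at hb1
  have hf2 : 2 ≤ X.card := by
    have : ({a, b} : Finset Ω) ⊆ X := by
      intro x hx
      simp only [mem_insert, mem_singleton] at hx
      rcases hx with rfl | rfl
      · exact left_mem_line _ _ _
      · exact right_mem_line _ _ _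
    have h := card_le_card this
    rwa [card_pair hab] at h
  set k := (LL G a b).card with hk
  have hk0 : 0 < k := card_pos.2 ⟨_, hu⟩
  let c : Ω → ℕ := fun x => ((LL G a b).filter (fun g => g • x = x)).card
  have hc1 : ∀ x, c x ≤ k := fun x => card_filter_le _ _
  have hc3 : ∀ x ∉ X, 3 * c x ≤ k := by
    intro x hx
    rw [hX, mem_line] at hx
    push Not at hx
    obtain ⟨g, h1, h3, h4, h5⟩ := hx
    exact three_mul_stab a b x (mem_LL.2 ⟨h1, h3⟩) h4 h5
  have hsum : s * k = ∑ x ∈ X, c x + ∑ x ∈ Xᶜ, c x := by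
    rw [← hs, sum_LL_eq, sum_add_sum_compl]
  have hs3 : 3 * ∑ x ∈ Xᶜ, c x ≤ (Fintype.card Ω - X.card) * k := by
    rw [mul_sum, ← card_compl, ← smul_eq_mul]
    exact sum_le_card_nsmul _ _ _ fun x hx => hc3 x (mem_compl.1 hx)
  have hs1 : ∑ x ∈ X, c x ≤ X.card * k := by
    rw [← smul_eq_mul]
    exact sum_le_card_nsmul _ _ _ fun x _ => hc1 x
  have hXn : X.card ≤ Fintype.card Ω := card_le_univ _
  have e1 : 3 * s ≤ 2 * X.card + Fintype.card Ω := by
    have : (3 * s) * k ≤ (2 * X.card + Fintype.card Ω) * k := by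
      have h : (Fintype.card Ω - X.card) * k + X.card * k = Fintype.card Ω * k := by
        rw [← add_mul, Nat.sub_add_cancel hXn]
      nlinarith
    exact Nat.le_of_mul_le_mul_right this hk0
  have hcases : (X.card = 3 ∧ Fintype.card Ω = 7) ∨ (X.card = 3 ∧ Fintype.card Ω = 9) ∨
      (X.card = 4 ∧ Fintype.card Ω = 13) := by
    have h4 : X.card ≤ 4 := by
      by_contra h
      obtain ⟨j, hj⟩ : ∃ j, X.card = j + 5 := ⟨X.card - 5, by omega⟩
      rw [hj] at hb1 e1
      have : j + 5 - 1 = j + 4 := by omega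
      rw [this] at hb1
      nlinarith
    generalize X.card = f at *
    interval_cases f <;> omega
  by_cases hmv : ∃ g ∈ LL G a b, ∃ x ∈ X, g • x ≠ x
  · exfalso
    obtain ⟨g, hg, x, hx, hgx⟩ := hmv
    have h1 : 2 * c x ≤ k := two_mul_stab a b x hg hgx
    have h3 : ∑ y ∈ X.erase x, c y ≤ (X.card - 1) * k := by
      rw [← card_erase_of_mem hx, ← smul_eq_mul]
      exact sum_le_card_nsmul _ _ _ fun x _ => hc1 x
    rw [← add_sum_erase _ _ hx] at hsum
    have : (6 * s) * k ≤ (6 * (X.card - 1) + 3 + 2 * (Fintype.card Ω - X.card)) * k := by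
      nlinarith
    have := Nat.le_of_mul_le_mul_right this hk0
    omega
  push Not at hmv
  have hall : ∀ x y : Ω, x ≠ y → ∀ g : G, g • x = x → g • y = y → line P x y ⊆ fx Ω g := by
    have hsub : ∀ x y : Ω, line (fun _ : G => True) x y ⊆ line P x y := fun x y w hw =>
      mem_line.2 fun g h1 h3 _ => mem_line.1 hw g h1 h3 trivial
    have e : line (fun _ : G => True) a b = X :=
      (hsub a b).antisymm fun w hw => mem_line.2 fun g h1 h3 _ => hmv g (mem_LL.2 ⟨h1, h3⟩) w hw
    intro x y hxy g h1 h3 w hw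
    have e2 : line (fun _ : G => True) x y = line P x y := by
      apply eq_of_subset_of_card_le (hsub x y)
      rw [card_line h2 hP hab hxy, card_line h2 (by simp) hab hxy, e]
    rw [← e2] at hw
    exact mem_fx.2 (mem_line.1 hw g h1 h3 trivial)
  have hph : ∀ g : G, g ≠ 1 → 1 + ph Ω g * (X.card - 1) ≤ Fintype.card Ω := by
    intro g hg
    obtain ⟨w, hw⟩ := exists_moved (Ω := Ω) hg
    exact line_bound h2 hP hab (X := fx Ω g)
      (fun x hx y hy hxy => hall x y hxy g (mem_fx.1 hx) (mem_fx.1 hy)) (z := w) (by simpa using hw)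
  have hdv : orderOf u ∣ k := orderOf_dvd_LL hu
  have ho3 : 3 ≤ orderOf u := by
    have h1 : orderOf u ≠ 1 := fun e => hu1 (orderOf_eq_one_iff.1 e)
    obtain ⟨j, hj⟩ := huo
    omega
  have hk3 : 3 ≤ k := ho3.trans (Nat.le_of_dvd hk0 hdv)
  have hk4 : k ≠ 4 := by
    intro e
    rw [e] at hdv
    have := Nat.le_of_dvd (by norm_num) hdv
    obtain ⟨j, hj⟩ := huo
    have : orderOf u = 3 := by omega
    rw [this] at hdv
    norm_num at hdv
  by_cases hk5 : k = 3
  · -- all nonidentity elements of the stabiliser have fixed set `X`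
    have hfx : ∀ g ∈ LL G a b, g ≠ 1 → ph Ω g = X.card := by
      intro g hg hg1
      apply le_antisymm
      · apply card_le_card
        intro w hw
        rw [hX, mem_line]
        intro h h1 h3 _
        haveI : Fact (Nat.Prime 3) := ⟨by norm_num⟩
        have hcL : Nat.card (Ls G a b) = 3 := by rw [card_Ls, ← hk, hk5]
        obtain ⟨j, hj⟩ := mem_zpowers_of_prime_card (p := 3) hcL
          (g := ⟨g, by simpa [Ls] using hg⟩) (g' := ⟨h, by simp [Ls, h1, h3]⟩)
          (fun e => hg1 (congrArg Subtype.val e))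
        have e : h = g ^ j := by simpa using (congrArg Subtype.val hj).symm
        have : g ^ j ∈ MulAction.stabilizer G w := zpow_mem (mem_fx.1 hw) _
        rw [e]; exact this
      · exact card_le_card (hall a b hab g (mem_LL.1 hg).1 (mem_LL.1 hg).2)
    have h1 : (1 : G) ∈ LL G a b := by simp
    rw [← add_sum_erase _ _ h1, ph_one,
      sum_congr rfl (fun g hg => hfx g (mem_erase.1 hg).2 (mem_erase.1 hg).1), sum_const,
      card_erase_of_mem h1, ← hk, hk5, smul_eq_mul] at hs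
    refine fromA hab (m := X.card) (by exact_mod_cast (by omega : 0 < X.card))
      (fun g hg hg1 => by rw [hfx g hg hg1]) ?_
    rw [← hk, hk5]
    rcases hcases with ⟨h1, h3⟩ | ⟨h1, h3⟩ | ⟨h1, h3⟩
    · omega
    · rw [h1, h3]; norm_num
    · rw [h1, h3]; norm_num
  have hk6 : (5 : ℚ) ≤ k := by exact_mod_cast (by omega : 5 ≤ k)
  rcases hcases with ⟨h1, h3⟩ | ⟨h1, h3⟩ | ⟨h1, h3⟩
  · refine fromA hab (m := 3) (by norm_num) (fun g _ hg1 => ?_) ?_
    · have := hph g hg1
      exact_mod_cast (by rw [h1, h3] at this; omega : ph Ω g ≤ 3)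
    · rw [← hk, h3]; push_cast; linarith
  · refine fromA hab (m := 4) (by norm_num) (fun g _ hg1 => ?_) ?_
    · have := hph g hg1
      exact_mod_cast (by rw [h1, h3] at this; omega : ph Ω g ≤ 4)
    · rw [← hk, h3]; push_cast; linarith
  · refine fromA hab (m := 4) (by norm_num) (fun g _ hg1 => ?_) ?_
    · have := hph g hg1
      exact_mod_cast (by rw [h1, h3] at this; omega : ph Ω g ≤ 4)
    · rw [← hk, h3]; push_cast; linarith

theorem case_even [FaithfulSMul G Ω] (h2 : Two G Ω) (hn : 7 ≤ Fintype.card Ω) {a b : Ω} (hab : a ≠ b)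
    (hno : ∀ u ∈ LL G a b, Odd (orderOf u) → u = 1) (hk1 : (LL G a b).card ≠ 1) :
    2 * ((LL G a b).card : ℚ) ≤ Fintype.card Ω * ∑ g ∈ LL G a b, 1 / (ph Ω g : ℚ) := by
  have h1 : (1 : G) ∈ LL G a b := by simp
  set k := (LL G a b).card with hk
  have hk0 : 0 < k := card_pos.2 ⟨_, h1⟩
  have hodd : ∀ u : G, u ≠ 1 → Odd (orderOf u) → ∀ x y : Ω, u • x = x → u • y = y → x = y := by
    intro u hu1 huo x y hx hy
    by_contra hxy
    obtain ⟨h, rfl, rfl⟩ := h2 a b x y hab hxy
    have := hno (h⁻¹ * u * h⁻¹⁻¹) (by simp [mul_smul, hx, hy]) ((odd_conj _ _).2 huo)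
    apply hu1
    have e : u = h * (h⁻¹ * u * h⁻¹⁻¹) * h⁻¹ := by group
    rw [e, this]; group
  have hev : ∀ g ∈ LL G a b, g ≠ 1 → 2 ∣ orderOf g := fun g hg hg1 =>
    even_iff_two_dvd.1 (Nat.not_odd_iff_even.1 fun h => hg1 (hno g hg h))
  have hph : ∀ g ∈ LL G a b, g ≠ 1 → 3 * ph Ω g ≤ Fintype.card Ω + 2 := by
    intro g hg hg1
    obtain ⟨j, hj⟩ := hev g hg hg1
    have hpos := orderOf_pos g
    have hsub : ∀ x : Ω, g • x = x → g ^ j • x = x := fun x hx =>
      (pow_mem (show g ∈ MulAction.stabilizer G x from hx) j)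
    have := invol_bound h2 hodd (t := g ^ j)
      (pow_ne_one_of_lt_orderOf (by omega) (by omega))
      (by rw [← pow_add, ← two_mul, ← hj, pow_orderOf_eq_one]) (hsub a (mem_LL.1 hg).1)
    have h3 : ph Ω g ≤ ph Ω (g ^ j) := card_le_card fun x hx => mem_fx.2 (hsub x (mem_fx.1 hx))
    omega
  obtain ⟨t, ht, ht1⟩ : ∃ t ∈ LL G a b, t ≠ 1 := by
    by_contra h
    push Not at h
    exact hk1 (card_eq_one.2 ⟨1, eq_singleton_iff_unique_mem.2 ⟨h1, h⟩⟩)
  have hk2 : 2 ∣ k := (hev t ht ht1).trans (orderOf_dvd_LL ht)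
  have hn' : (7 : ℚ) ≤ Fintype.card Ω := by exact_mod_cast hn
  by_cases hk4 : 4 ≤ k
  · refine fromA hab (m := (Fintype.card Ω + 2) / 3) (by positivity) (fun g hg hg1 => ?_) ?_
    · have : ((3 * ph Ω g : ℕ) : ℚ) ≤ (Fintype.card Ω + 2 : ℕ) := by exact_mod_cast hph g hg hg1
      push_cast at this
      linarith
    · have : (4 : ℚ) ≤ k := by exact_mod_cast hk4
      rw [← hk]
      nlinarith
  have hk3 : k = 2 := by omega
  have hL : LL G a b = {1, t} := by
    symm
    apply eq_of_subset_of_card_le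
    · intro x hx
      simp only [mem_insert, mem_singleton] at hx
      rcases hx with rfl | rfl <;> assumption
    · rw [card_pair ht1.symm, ← hk, hk3]
  have hX : line (fun _ : G => True) a b = fx Ω t := by
    ext w
    rw [mem_line, mem_fx]
    refine ⟨fun h => h t (mem_LL.1 ht).1 (mem_LL.1 ht).2 trivial, fun h g h3 h4 _ => ?_⟩
    have : g ∈ LL G a b := mem_LL.2 ⟨h3, h4⟩
    rw [hL, mem_insert, mem_singleton] at this
    rcases this with rfl | rfl
    · simp
    · exact h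
  obtain ⟨w, hw⟩ := exists_moved (Ω := Ω) ht1
  have hb := line_self_bound h2 (P := fun _ : G => True) (by simp) hab (z := w)
    (by rw [hX]; simpa using hw)
  rw [hX] at hb
  change 1 + ph Ω t * (ph Ω t - 1) ≤ _ at hb
  obtain ⟨s, hs⟩ := exists_sum_LL (G := G) a b
  rw [← hk, hk3, hL, sum_pair ht1.symm, ph_one] at hs
  have hm2 := two_le_ph hab ht
  have h3 : 3 * ph Ω t ≤ Fintype.card Ω := by
    by_contra h
    have h4 : ph Ω t ≤ 3 := by
      by_contra h5
      obtain ⟨j, hj⟩ : ∃ j, ph Ω t = j + 4 := ⟨ph Ω t - 4, by omega⟩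
      rw [hj] at hb h
      have : j + 4 - 1 = j + 3 := by omega
      rw [this] at hb
      nlinarith
    have h7 : Fintype.card Ω = 7 := by omega
    refine no84 ?_ h7 ht1 hab (mem_LL.1 ht).1 (mem_LL.1 ht).2
    rw [card_eq_of_two h2 hab, ← hk, hk3, h7]
  refine fromA hab (m := ph Ω t) (by exact_mod_cast (by omega : 0 < ph Ω t)) (fun g hg hg1 => ?_) ?_
  · rw [hL, mem_insert, mem_singleton] at hg
    rcases hg with rfl | rfl
    · exact absurd rfl hg1
    · exact le_rfl
  · have : ((3 * ph Ω t : ℕ) : ℚ) ≤ (Fintype.card Ω : ℕ) := by exact_mod_cast h3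
    push_cast at this
    rw [← hk, hk3]
    push_cast
    linarith

theorem card_der : (Nat.card {g : G // ∀ ω : Ω, g • ω ≠ ω} : ℚ) =
    ∑ g : G, if ph Ω g = 0 then 1 else 0 := by
  rw [sum_boole, Nat.card_eq_fintype_card, Fintype.card_subtype]
  congr 2
  ext g
  simp [ph, fx, filter_eq_empty_iff]

end

/-- Let a finite group G act faithfully and transitively on a set with n ≥ 7 points. Then either G is a Frobenius permutation group (Frobenius as a permutation group: transitive, some non-identity element fixes a point, and no non-identity element fixes two points) of order n(n − 1)/a with a ∈ {1, 2}, in which case exactly a|G|/n of its elements are derangements, or the number of derangements is at least 2|G|/n. (Equality does occur: PSL₃(2) acting on the 7 points of the Fano plane has exactly 2|G|/7 derangements.) -/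
theorem result {G Ω : Type*} [Group G] [Finite G] [MulAction G Ω] [FaithfulSMul G Ω] [Fintype Ω] (htr : MulAction.IsPretransitive G Ω) (hn : 7 ≤ Fintype.card Ω) :
    (∃ a : ℕ, (a = 1 ∨ a = 2) ∧ (MulAction.IsPretransitive G Ω ∧ (∃ g : G, g ≠ 1 ∧ ∃ ω : Ω, g • ω = ω) ∧ ∀ g : G, g ≠ 1 → Nat.card (MulAction.fixedBy Ω g) ≤ 1) ∧ a * Nat.card G = Fintype.card Ω * (Fintype.card Ω - 1) ∧ Fintype.card Ω * Nat.card {g : G // ∀ ω : Ω, g • ω ≠ ω} = a * Nat.card G) ∨
    2 * Nat.card G ≤ Fintype.card Ω * Nat.card {g : G // ∀ ω : Ω, g • ω ≠ ω} := by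
  classical
  haveI := Fintype.ofFinite G
  obtain ⟨a, b, c, hab, hac, hbc⟩ : ∃ a b c : Ω, a ≠ b ∧ a ≠ c ∧ b ≠ c := by
    rw [← Fintype.two_lt_card_iff]; omega
  haveI : Nonempty Ω := ⟨a⟩
  have hS : ∑ g : G, (ph Ω g : ℚ) = Fintype.card G := by exact_mod_cast sum_ph_trans (G := G) (Ω := Ω)
  have hD := card_der (G := G) (Ω := Ω)
  rw [Nat.card_eq_fintype_card (α := G)]
  set D := Nat.card {g : G // ∀ ω : Ω, g • ω ≠ ω}
  have hn' : (7 : ℚ) ≤ Fintype.card Ω := by exact_mod_cast hn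
  by_cases h2 : Two G Ω
  swap
  · right
    have h3 : 3 * (Fintype.card G : ℚ) ≤ ∑ g : G, (ph Ω g : ℚ) ^ 2 := by
      exact_mod_cast sum_sq_of_not_two h2
    have h4 : 0 ≤ ∑ g : G, ((Fintype.card Ω + 1) * (ph Ω g : ℚ) - (ph Ω g : ℚ) ^ 2 - Fintype.card Ω
        + Fintype.card Ω * if ph Ω g = 0 then 1 else 0) := by
      refine sum_nonneg fun g _ => ?_
      split_ifs with h
      · rw [h]; simp
      · have h5 : (1 : ℚ) ≤ ph Ω g := by exact_mod_cast (by omega : 1 ≤ ph Ω g)
        have h6 : (ph Ω g : ℚ) ≤ Fintype.card Ω := by exact_mod_cast ph_le g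
        nlinarith
    rw [sum_add_distrib, sum_sub_distrib, sum_sub_distrib, ← mul_sum, ← mul_sum, hS, ← hD, sum_const,
      nsmul_eq_mul, card_univ] at h4
    have : 2 * (Fintype.card G : ℚ) ≤ Fintype.card Ω * D := by linarith
    exact_mod_cast this
  have hG := card_eq_of_two h2 hab
  have hG' : (Fintype.card G : ℚ) = Fintype.card Ω * (Fintype.card Ω - 1) * (LL G a b).card := by
    rw [hG]; push_cast [Nat.cast_sub (show 1 ≤ Fintype.card Ω by omega)]; ring
  have hT : (D : ℚ) = (Fintype.card Ω : ℚ) * (Fintype.card Ω - 1) *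
      ∑ g ∈ LL G a b, 1 / (ph Ω g : ℚ) := by
    rw [← sum_pairs h2 hab (fun g => 1 / (ph Ω g : ℚ)) (fun h g => by rw [ph_conj])]
    have : ∀ g : G, (ph Ω g : ℚ) * (ph Ω g - 1) * (1 / (ph Ω g : ℚ)) =
        ph Ω g - 1 + if ph Ω g = 0 then 1 else 0 := by
      intro g
      split_ifs with h
      · rw [h]; simp
      · have : (ph Ω g : ℚ) ≠ 0 := by exact_mod_cast h
        field_simp
        simp
    simp only [this]
    rw [sum_add_distrib, sum_sub_distrib, hS, ← hD]
    simp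
  by_cases hk1 : (LL G a b).card = 1
  · left
    have hL : LL G a b = {1} := by
      obtain ⟨x, hx⟩ := card_eq_one.1 hk1
      have : (1 : G) ∈ LL G a b := by simp
      rw [hx, mem_singleton] at this
      rw [hx, this]
    refine ⟨1, Or.inl rfl, ⟨htr, ?_, ?_⟩, ?_, ?_⟩
    · obtain ⟨g, h1, h3⟩ := h2 a b a c hab hac
      refine ⟨g, ?_, a, h1⟩
      rintro rfl
      exact hbc (by simpa using h3)
    · intro g hg
      rw [← ph_eq]
      by_contra h
      obtain ⟨x, hx, y, hy, hxy⟩ := one_lt_card.1 (not_le.1 h)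
      obtain ⟨h, rfl, rfl⟩ := h2 a b x y hab hxy
      have : h⁻¹ * g * h ∈ LL G a b := by simp [mul_smul, mem_fx.1 hx, mem_fx.1 hy]
      rw [hL, mem_singleton] at this
      apply hg
      have e : g = h * (h⁻¹ * g * h) * h⁻¹ := by group
      rw [e, this]; group
    · rw [hG, hk1]; ring
    · rw [hL, sum_singleton, ph_one] at hT
      have : (Fintype.card Ω : ℚ) * D = 1 * Fintype.card G := by
        rw [hT, hG', hk1]; field_simp; simp
      exact_mod_cast this
  right
  have key : 2 * ((LL G a b).card : ℚ) ≤ Fintype.card Ω * ∑ g ∈ LL G a b, 1 / (ph Ω g : ℚ) := by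
    by_cases h : ∃ u ∈ LL G a b, u ≠ 1 ∧ Odd (orderOf u)
    · obtain ⟨u, hu, hu1, huo⟩ := h
      exact case_odd h2 hn hab hu hu1 huo
    · refine case_even h2 hn hab (fun u hu huo => ?_) hk1
      by_contra h1
      exact h ⟨u, hu, h1, huo⟩
  have : 2 * (Fintype.card G : ℚ) ≤ Fintype.card Ω * D := by
    rw [hG', hT]
    have h0 : (0 : ℚ) ≤ Fintype.card Ω * (Fintype.card Ω - 1) := by nlinarith
    nlinarith [mul_le_mul_of_nonneg_left key h0]
  exact_mod_cast this

end Cfsg.Agent.S5730
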