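import Mathlib
import Cfsg.Statements.S5738

set_option autoImplicit false
open Cfsg

namespace Cfsg.Agent.S5738

/-- Let F ⊆ K be finite fields with |F| = q and [K : F] = n ≥ 2, so |K| = q^n. Regard K as an n-dimensional F-vector space; the multiplications by non-zero elements of K form a cyclic subgroup of GL_F(K) of order q^n − 1 acting regularly on the non-zero vectors (a Singer group). Its normaliser in GL_F(K) has order n·(q^n − 1). -/
theorem result {F K : Type*} [Field F] [Fintype F] [Field K] [Fintype K] [Algebra F K] (n : ℕ) (hn : 2 ≤ n) (hdim : Module.finrank F K = n) :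
    Nat.card (Subgroup.normalizer (((Units.map ((Algebra.lmul F K : K →ₐ[F] Module.End F K) : K →* Module.End F K)).range : Subgroup (Module.End F K)ˣ) : Set (Module.End F K)ˣ)) = n * (Fintype.card K - 1) := by
  classical
  let L := Units.map ((Algebra.lmul F K : K →ₐ[F] Module.End F K) : K →* Module.End F K)
  let G : (K ≃ₐ[F] K) →* (Module.End F K)ˣ :=
    (⟨⟨fun σ => σ.toLinearMap, rfl⟩, fun _ _ => rfl⟩ : (K ≃ₐ[F] K) →* Module.End F K).toHomUnits
  have hG : ∀ σ y, (G σ).1 y = σ y := fun _ _ => rfl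
  have hL : ∀ a y, (L a).1 y = a * y := fun _ _ => rfl
  have hc : ∀ σ a, G σ * L a * (G σ)⁻¹ = L (Units.map (σ : K →* K) a) := fun σ a => by
    rw [mul_inv_eq_iff_eq_mul]; ext y; simp [hG, hL]
  have : Finite (Module.End F K) := Module.finite_of_finite F
  rw [← hdim, ← IsGalois.card_aut_eq_finrank, ← Nat.card_eq_fintype_card, ← Nat.card_units, ← Nat.card_prod]
  have hN : ∀ σ, G σ ∈ Subgroup.normalizer (L.range : Set (Module.End F K)ˣ) := fun σ =>
    Subgroup.mem_normalizer_fintype (by rintro _ ⟨a, rfl⟩; exact ⟨_, (hc _ a).symm⟩)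
  refine (Nat.card_congr (Equiv.ofBijective (fun x => ⟨L x.2 * G x.1, mul_mem (Subgroup.le_normalizer ⟨x.2, rfl⟩)
    (hN x.1)⟩) ⟨fun a b e => ?_, fun ⟨g, hg⟩ => ?_⟩)).symm
  · have h : ∀ y, a.2 * a.1 y = b.2 * b.1 y := fun y => congrArg (fun t => t.1.1 y) e
    have h1 : a.2 = b.2 := Units.ext (by simpa using h 1)
    exact Prod.ext (AlgEquiv.ext fun y => by simpa [h1] using h y) h1
  · have h0 : ∀ y, g.1 y = 0 → y = 0 := fun y hy => by
      have : g⁻¹.1 (g.1 y) = y := congrArg (fun t : (Module.End F K)ˣ => t.1 y) (inv_mul_cancel g)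
      rw [← this, hy, map_zero]
    have h1 : g.1 1 ≠ 0 := fun e => one_ne_zero (h0 1 e)
    have h2 : ∀ y z, g.1 (y * z) = (g.1 1)⁻¹ * g.1 y * g.1 z := fun y z => by
      rcases eq_or_ne y 0 with rfl | hy
      · simp
      obtain ⟨a, ha⟩ := (Subgroup.mem_normalizer_iff.1 hg _).1 ⟨Units.mk0 y hy, rfl⟩
      have h3 : ∀ z, g.1 (y * z) = a * g.1 z := fun z =>
        congrArg (fun t : (Module.End F K)ˣ => t.1 z) (eq_mul_inv_iff_mul_eq.1 ha).symm
      rw [h3, ← mul_one y, h3]; field_simp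
    let σ : K →ₐ[F] K := AlgHom.ofLinearMap ((Algebra.lmul F K (g.1 1)⁻¹).comp g.1) (by simp [h1])
      fun y z => by simp [h2 y z]; ring
    exact ⟨(AlgEquiv.ofBijective σ σ.bijective, Units.mk0 _ h1), Subtype.ext (Units.ext (LinearMap.ext fun y => by
      simp [hL, hG, σ, h1]))⟩

end Cfsg.Agent.S5738
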