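import Mathlib
import Cfsg.Statements.S5739

set_option autoImplicit false
open Cfsg

namespace Cfsg.Agent.S5739

/-- Let F ⊆ K be finite fields with |F| = q and [K : F] = n ≥ 2, and let M ≤ GL_F(K) be the Singer group of multiplications by non-zero elements of K. If g ∈ GL_F(K) does not normalise M, then the order of M ∩ gMg⁻¹ divides q^r − 1 for some proper divisor r of n. In particular, when n is prime, that order divides q − 1. -/
theorem result {F K : Type*} [Field F] [Fintype F] [Field K] [Fintype K] [Algebra F K] (n : ℕ) (hn : 2 ≤ n) (hdim : Module.finrank F K = n)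
    (g : (Module.End F K)ˣ) (hg : ((Units.map ((Algebra.lmul F K : K →ₐ[F] Module.End F K) : K →* Module.End F K)).range).map (MulAut.conj g).toMonoidHom ≠ (Units.map ((Algebra.lmul F K : K →ₐ[F] Module.End F K) : K →* Module.End F K)).range) :
    ∃ r : ℕ, 1 ≤ r ∧ r ∣ n ∧ r < n ∧ Nat.card ↥(((Units.map ((Algebra.lmul F K : K →ₐ[F] Module.End F K) : K →* Module.End F K)).range).map (MulAut.conj g).toMonoidHom ⊓ (Units.map ((Algebra.lmul F K : K →ₐ[F] Module.End F K) : K →* Module.End F K)).range) ∣ Fintype.card F ^ r - 1 := by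
  classical
  set L := Units.map ((Algebra.lmul F K : K →ₐ[F] Module.End F K) : K →* Module.End F K)
  have hL : Function.Injective L := Units.map_injective (Algebra.lmul_injective (R := F))
  let c : Module.End F K ≃ₐ[F] Module.End F K := MulSemiringAction.toAlgEquiv F _ (ConjAct.toConjAct g)
  let S : Subalgebra F K := ((Algebra.lmul F K).range.map (c : _ →ₐ[F] _)).comap (Algebra.lmul F K)
  let E : IntermediateField F K := S.toIntermediateField' (Finite.isDomain_to_isField S)
  have hS : ∀ a : Kˣ, (a : K) ∈ E ↔ L a ∈ L.range.map (MulAut.conj g).toMonoidHom := fun a => by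
    refine ⟨?_, ?_⟩
    · rintro ⟨_, ⟨b, rfl⟩, e⟩
      have hb : b ≠ 0 := fun h => a.ne_zero (Algebra.lmul_injective (R := F) (by simpa [h] using e.symm))
      exact ⟨_, ⟨Units.mk0 b hb, rfl⟩, Units.ext e⟩
    · rintro ⟨_, ⟨b, rfl⟩, e⟩
      exact ⟨_, ⟨b, rfl⟩, congrArg Units.val e⟩
  have h1 : Module.finrank F E * Module.finrank E K = n := (Module.finrank_mul_finrank F E K).trans hdim
  refine ⟨Module.finrank F E, Module.finrank_pos, ⟨_, h1.symm⟩, ?_, dvd_of_eq ?_⟩
  · refine lt_of_le_of_ne (h1 ▸ Nat.le_mul_of_pos_right _ Module.finrank_pos) fun h => hg ?_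
    have h2 : E = ⊤ := IntermediateField.eq_of_le_of_finrank_eq le_top (by simp [h, hdim])
    have : Finite (Module.End F K) := Module.finite_of_finite F
    refine (Subgroup.eq_of_le_of_card_ge ?_ ?_).symm
    · rintro _ ⟨a, rfl⟩; exact (hS a).1 (h2 ▸ trivial)
    exact (Subgroup.card_map_of_injective (f := (MulAut.conj g).toMonoidHom) (MulAut.conj g).injective).le
  · rw [← Nat.card_eq_fintype_card, ← Module.natCard_eq_pow_finrank, ← Nat.card_units]
    refine (Nat.card_congr (Equiv.ofBijective (fun a => ⟨L (Units.map (E.val : E →* K) a), (hS _).1 a.1.2, _, rfl⟩)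
      ⟨fun a b e => Units.map_injective Subtype.val_injective (hL (congrArg Subtype.val e)), ?_⟩)).symm
    rintro ⟨_, h, a, rfl⟩
    exact ⟨Units.mk0 ⟨a, (hS a).2 h⟩ fun e => a.ne_zero (congrArg Subtype.val e), Subtype.ext (congrArg L (Units.ext rfl))⟩

end Cfsg.Agent.S5739
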