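import Mathlib
import Cfsg.Statements.S5747

set_option autoImplicit false
open Cfsg

namespace Cfsg.Agent.S5747

/-- `B` is a base. -/
def IsBase (G : Type*) {Ω : Type*} [Group G] [MulAction G Ω] (B : Finset Ω) : Prop :=
  ∀ g : G, (∀ x ∈ B, g • x = x) → g = 1

/-- each point of `B` is moved by an element fixing the others. -/
def Indep (G : Type*) {Ω : Type*} [Group G] [MulAction G Ω] (B : Finset Ω) : Prop :=
  ∀ b ∈ B, ∃ g : G, (∀ x ∈ B, x ≠ b → g • x = x) ∧ g • b ≠ b

/-- irredundant sequences. -/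
def Irr (G : Type*) {Ω : Type*} [Group G] [MulAction G Ω] {t : ℕ} (f : Fin t → Ω) : Prop :=
  ∀ i : Fin t, ∃ g : G, (∀ j : Fin t, j < i → g • f j = f j) ∧ g • f i ≠ f i

theorem irr_snoc {G Ω : Type*} [Group G] [MulAction G Ω] {t : ℕ} {f : Fin t → Ω} (h : Irr G f) (y : Ω) (g : G)
    (hg : ∀ j, g • f j = f j) (hy : g • y ≠ y) : Irr G (Fin.snoc f y : Fin (t + 1) → Ω) := by
  intro i
  induction i using Fin.lastCases with
  | last =>
    refine ⟨g, fun j hj => ?_, by simpa using hy⟩
    obtain ⟨j, rfl⟩ := Fin.exists_castSucc_eq.2 hj.ne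
    simpa using hg j
  | cast i =>
    obtain ⟨k, hk1, hk2⟩ := h i
    refine ⟨k, fun j hj => ?_, by simpa using hk2⟩
    obtain ⟨j, rfl⟩ := Fin.exists_castSucc_eq.2 (hj.trans (Fin.castSucc_lt_last i)).ne
    simpa using hk1 j (by simpa using hj)

theorem irr_of_indep {G Ω : Type*} [Group G] [MulAction G Ω] {B : Finset Ω} (h : Indep G B) {t : ℕ} (f : Fin t → Ω)
    (hf : Function.Injective f) (hB : ∀ i, f i ∈ B) : Irr G f := by
  intro i
  obtain ⟨g, h1, h2⟩ := h (f i) (hB i)
  exact ⟨g, fun j hj => h1 _ (hB j) fun he => hj.ne (hf he), h2⟩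

theorem exists_indep {G Ω : Type*} [Group G] [MulAction G Ω] (B : Finset Ω) (h : IsBase G B) :
    ∃ C ⊆ B, IsBase G C ∧ Indep G C := by
  classical
  induction B using Finset.strongInduction with
  | H B ih =>
    by_cases hB : Indep G B
    · exact ⟨B, subset_rfl, h, hB⟩
    · simp only [Indep, not_forall, not_exists, not_and, ne_eq, not_not] at hB
      obtain ⟨b, hb, hb'⟩ := hB
      obtain ⟨C, hC1, hC2⟩ := ih (B.erase b) (Finset.erase_ssubset hb) (by
        intro g hg
        have h1 : ∀ x ∈ B, x ≠ b → g • x = x := fun x hx hxb => hg x (Finset.mem_erase.2 ⟨hxb, hx⟩)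
        refine h g fun x hx => ?_
        by_cases hxb : x = b
        · rw [hxb]; exact hb' g h1
        · exact h1 x hx hxb)
      exact ⟨C, hC1.trans (Finset.erase_subset _ _), hC2⟩

theorem irr_injective {G Ω : Type*} [Group G] [MulAction G Ω] {t : ℕ} {f : Fin t → Ω} (h : Irr G f) :
    Function.Injective f := by
  intro i j hij
  by_contra hne
  rcases lt_or_gt_of_ne hne with hlt | hlt
  · obtain ⟨g, h1, h2⟩ := h j
    exact h2 (hij ▸ h1 i hlt)
  · obtain ⟨g, h1, h2⟩ := h i
    exact h2 (hij ▸ h1 j hlt)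

/-- Let a finite group G act on a finite set Ω. An irredundant base is a sequence of points ω₁, …, ω_t whose pointwise stabiliser is trivial and in which each ω_i is moved by some element fixing ω₁, …, ω_{i−1}. Then all irredundant bases have the same length if and only if every reordering of an irredundant base is again an irredundant base. -/
theorem result {G Ω : Type*} [Group G] [Finite G] [MulAction G Ω] [Fintype Ω] :
    (∀ (t t' : ℕ) (f : Fin t → Ω) (f' : Fin t' → Ω), ((∀ g : G, (∀ i : Fin t, g • f i = f i) → g = 1) ∧ ∀ i : Fin t, ∃ g : G, (∀ j : Fin t, j < i → g • f j = f j) ∧ g • f i ≠ f i) → ((∀ g : G, (∀ i : Fin t', g • f' i = f' i) → g = 1) ∧ ∀ i : Fin t', ∃ g : G, (∀ j : Fin t', j < i → g • f' j = f' j) ∧ g • f' i ≠ f' i) → t = t') ↔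
    (∀ (t : ℕ) (f : Fin t → Ω) (σ : Equiv.Perm (Fin t)), ((∀ g : G, (∀ i : Fin t, g • f i = f i) → g = 1) ∧ ∀ i : Fin t, ∃ g : G, (∀ j : Fin t, j < i → g • f j = f j) ∧ g • f i ≠ f i) → ((∀ g : G, (∀ i : Fin t, g • (f ∘ σ) i = (f ∘ σ) i) → g = 1) ∧ ∀ i : Fin t, ∃ g : G, (∀ j : Fin t, j < i → g • (f ∘ σ) j = (f ∘ σ) j) ∧ g • (f ∘ σ) i ≠ (f ∘ σ) i)) := by
  classical
  constructor
  · intro H t f σ hf
    have hb : ∀ g : G, (∀ i : Fin t, g • (f ∘ σ) i = (f ∘ σ) i) → g = 1 := fun g hg =>
      hf.1 g fun i => by simpa using hg (σ.symm i)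
    refine ⟨hb, fun i => ?_⟩
    by_contra hc
    push Not at hc
    obtain ⟨C, hC1, hC2, hC3⟩ := exists_indep (G := G) ((Finset.univ.erase i).image (f ∘ σ)) (by
      intro g hg
      have h1 : ∀ j, j ≠ i → g • (f ∘ σ) j = (f ∘ σ) j := fun j hj =>
        hg _ (Finset.mem_image_of_mem _ (Finset.mem_erase.2 ⟨hj, Finset.mem_univ _⟩))
      refine hb g fun j => ?_
      by_cases hj : j = i
      · rw [hj]; exact hc g fun k hk => h1 k hk.ne
      · exact h1 j hj)
    have h1 := H t C.card f (fun j => (C.equivFin.symm j : Ω)) hf ⟨fun g hg => hC2 g fun x hx => by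
      simpa using hg (C.equivFin ⟨x, hx⟩), irr_of_indep hC3 _ (Subtype.val_injective.comp C.equivFin.symm.injective) fun j => (C.equivFin.symm j).2⟩
    have h2 := (Finset.card_le_card hC1).trans Finset.card_image_le
    rw [Finset.card_erase_of_mem (Finset.mem_univ _), Finset.card_univ, Fintype.card_fin] at h2
    have := i.pos
    omega
  · intro H
    -- irredundant bases have independent range
    have hA : ∀ (t : ℕ) (f : Fin t → Ω), (∀ g : G, (∀ i, g • f i = f i) → g = 1) → Irr G f →
        Indep G (Finset.univ.image f) := by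
      intro t f hf1 hf2 b hb
      obtain ⟨i, -, rfl⟩ := Finset.mem_image.1 hb
      obtain ⟨t, rfl⟩ : ∃ s, t = s + 1 := ⟨t - 1, by have := i.pos; omega⟩
      obtain ⟨g, h1, h2⟩ := (H _ f (Equiv.swap i (Fin.last t)) ⟨hf1, hf2⟩).2 (Fin.last t)
      refine ⟨g, fun x hx hxb => ?_, by simpa using h2⟩
      obtain ⟨j, -, rfl⟩ := Finset.mem_image.1 hx
      have hji : j ≠ i := fun h => hxb (h ▸ rfl)
      have := h1 (Equiv.swap i (Fin.last t) j) (lt_of_le_of_ne (Fin.le_last _) fun h => hji (by
        rw [Equiv.swap_apply_eq_iff] at h; simpa using h))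
      simpa using this
    have hB : ∀ (C : Finset Ω), Indep G C → ∀ y : Ω, ∀ g : G, (∀ x ∈ C, g • x = x) → g • y ≠ y →
        ∃ f : Fin (C.card + 1) → Ω, Irr G f ∧ Finset.univ.image f = insert y C := by
      intro C hC y g hg hy
      refine ⟨Fin.snoc (fun j => (C.equivFin.symm j : Ω)) y, irr_snoc (irr_of_indep hC _
        (Subtype.val_injective.comp C.equivFin.symm.injective) fun j => (C.equivFin.symm j).2) y g
        (fun j => hg _ (C.equivFin.symm j).2) hy, ?_⟩
      ext x
      simp only [Finset.mem_image, Finset.mem_univ, true_and, Finset.mem_insert, Fin.exists_fin_succ', Fin.snoc_castSucc, Fin.snoc_last]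
      constructor
      · rintro (⟨j, rfl⟩ | rfl)
        · exact Or.inr (C.equivFin.symm j).2
        · exact Or.inl rfl
      · rintro (rfl | hx)
        · exact Or.inr rfl
        · exact Or.inl ⟨C.equivFin ⟨x, hx⟩, by simp⟩
    have hC : ∀ (k : ℕ) (B₁ B₂ : Finset Ω), (B₁ \ B₂).card = k → IsBase G B₁ → Indep G B₁ → IsBase G B₂ → Indep G B₂ →
        B₁.card = B₂.card := by
      intro k
      induction k with
      | zero =>
        intro B₁ B₂ hk h1 h2 h3 h4
        have hsub : B₁ ⊆ B₂ := Finset.sdiff_eq_empty_iff_subset.1 (Finset.card_eq_zero.1 hk)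
        congr 1
        refine Finset.Subset.antisymm hsub fun y hy => ?_
        by_contra hy'
        obtain ⟨g, hg1, hg2⟩ := h4 y hy
        have := h1 g fun x hx => hg1 x (hsub hx) fun h => hy' (h ▸ hx)
        exact hg2 (by rw [this, one_smul])
      | succ k ih =>
        intro B₁ B₂ hk h1 h2 h3 h4
        obtain ⟨x, hx⟩ : (B₁ \ B₂).Nonempty := Finset.card_pos.1 (by omega)
        obtain ⟨hx1, hx2⟩ := Finset.mem_sdiff.1 hx
        obtain ⟨g, hg1, hg2⟩ := h2 x hx1
        have : ∃ y ∈ B₂, g • y ≠ y := by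
          by_contra hc
          push Not at hc
          exact hg2 (by rw [h3 g hc, one_smul])
        obtain ⟨y, hy1, hy2⟩ := this
        have hind : Indep G (B₁.erase x) := by
          intro b hb
          obtain ⟨k, hk1, hk2⟩ := h2 b (Finset.mem_of_mem_erase hb)
          exact ⟨k, fun z hz => hk1 z (Finset.mem_of_mem_erase hz), hk2⟩
        have hg3 : ∀ z ∈ B₁.erase x, g • z = z := fun z hz => hg1 z (Finset.mem_of_mem_erase hz) (Finset.ne_of_mem_erase hz)
        have hy3 : y ∉ B₁.erase x := fun h => hy2 (hg3 y h)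
        have hyx : y ≠ x := fun h => hx2 (h ▸ hy1)
        obtain ⟨f, hf1, hf2⟩ := hB _ hind y g hg3 hy2
        have hmem : ∀ z, z ∈ insert y (B₁.erase x) ↔ ∃ j, f j = z := by
          intro z; rw [← hf2]; simp
        have hbase : IsBase G (insert y (B₁.erase x)) := by
          intro k hk
          by_contra hk1
          have hkx : k • x ≠ x := fun h => hk1 (h1 k fun z hz => by
            by_cases hzx : z = x
            · rw [hzx]; exact h
            · exact hk z (Finset.mem_insert_of_mem (Finset.mem_erase.2 ⟨hzx, hz⟩)))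
          have h5 := irr_snoc hf1 x k (fun j => hk _ ((hmem _).2 ⟨j, rfl⟩)) hkx
          have hmem' : ∀ z ∈ B₁, ∃ j, (Fin.snoc f x : Fin (_ + 1) → Ω) j = z := by
            intro z hz
            by_cases hzx : z = x
            · exact ⟨Fin.last _, by simp [hzx]⟩
            · obtain ⟨j, hj⟩ := (hmem z).1 (Finset.mem_insert_of_mem (Finset.mem_erase.2 ⟨hzx, hz⟩))
              exact ⟨j.castSucc, by simpa using hj⟩
          have h6 := hA _ _ (fun l hl => h1 l fun z hz => by
            obtain ⟨j, rfl⟩ := hmem' z hz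
            exact hl j) h5
          obtain ⟨j0, hj0⟩ := (hmem y).1 (Finset.mem_insert_self _ _)
          obtain ⟨l, hl1, hl2⟩ := h6 y (Finset.mem_image.2 ⟨j0.castSucc, Finset.mem_univ _, by simpa using hj0⟩)
          have := h1 l fun z hz => by
            obtain ⟨j, hj⟩ := hmem' z hz
            refine hl1 z (Finset.mem_image.2 ⟨j, Finset.mem_univ _, hj⟩) ?_
            rintro rfl
            exact hy3 (Finset.mem_erase.2 ⟨hyx, hz⟩)
          exact hl2 (by rw [this, one_smul])
        have hind' : Indep G (insert y (B₁.erase x)) := by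
          rw [← hf2]
          exact hA _ f (fun l hl => hbase l fun z hz => by
            obtain ⟨j, rfl⟩ := (hmem z).1 hz
            exact hl j) hf1
        rw [← ih _ B₂ ?_ hbase hind' h3 h4, Finset.card_insert_of_notMem hy3, Finset.card_erase_add_one hx1]
        rw [Finset.insert_sdiff_of_mem _ hy1, Finset.erase_sdiff_comm, Finset.card_erase_of_mem hx, hk]
        rfl
    intro t t' f f' hf hf'
    have := hC _ (Finset.univ.image f) (Finset.univ.image f') rfl
      (fun g hg => hf.1 g fun i => hg _ (Finset.mem_image_of_mem _ (Finset.mem_univ _))) (hA _ f hf.1 hf.2)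
      (fun g hg => hf'.1 g fun i => hg _ (Finset.mem_image_of_mem _ (Finset.mem_univ _))) (hA _ f' hf'.1 hf'.2)
    rwa [Finset.card_image_of_injective _ (irr_injective hf.2), Finset.card_image_of_injective _ (irr_injective hf'.2),
      Finset.card_univ, Finset.card_univ, Fintype.card_fin, Fintype.card_fin] at this

end Cfsg.Agent.S5747
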