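import Mathlib
import Cfsg.Statements.S5754

set_option autoImplicit false
open Cfsg

namespace Cfsg.Agent.S5754

/-- Let V be a finite-dimensional vector space over a finite field F carrying an anisotropic quadratic form Q (Q(v) = 0 only for v = 0). Then the group of all maps v ↦ φ(v) + c, with φ an isometry of Q and c ∈ V, acts on V as a binary permutation group: given n ≥ 2 and two n-tuples u, u' of vectors such that every pair of corresponding entries of u is carried to that of u' by such a map, one such map carries u to u'. -/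
theorem result {F V : Type*} [Field F] [Finite F] [AddCommGroup V] [Module F V] [Module.Finite F V]
    (Q : QuadraticForm F V) (hQ : Q.Anisotropic) (n : ℕ) (hn : 2 ≤ n) (u u' : Fin n → V)
    (h2 : ∀ i j : Fin n, i ≠ j → ∃ (φ : Q.IsometryEquiv Q) (c : V), φ (u i) + c = u' i ∧ φ (u j) + c = u' j) :
    ∃ (φ : Q.IsometryEquiv Q) (c : V), ∀ i, φ (u i) + c = u' i := by
  classical
  have hpos : 0 < n := by omega
  let i0 : Fin n := ⟨0, hpos⟩
  have hd : ∀ i j, Q (u i - u j) = Q (u' i - u' j) := by
    intro i j
    by_cases hij : i = j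
    · simp [hij]
    · obtain ⟨φ, c, h1, h2⟩ := h2 i j hij
      rw [← h1, ← h2, add_sub_add_right_eq_sub, ← map_sub, φ.map_app]
  set v : Fin n → V := fun i => u i - u i0 with hv
  set w : Fin n → V := fun i => u' i - u' i0 with hw
  have hQ1 : ∀ i, Q (v i) = Q (w i) := fun i => hd i i0
  have hsub : ∀ x y : V, QuadraticMap.polar Q x y = Q x + Q y - Q (x - y) := by
    intro x y
    have h1 := QuadraticMap.polar_neg_right Q x y
    simp only [QuadraticMap.polar, QuadraticMap.map_neg] at h1 ⊢
    rw [sub_eq_add_neg x y]
    linear_combination h1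
  have hB : ∀ i j, QuadraticMap.polar Q (v i) (v j) = QuadraticMap.polar Q (w i) (w j) := by
    intro i j
    rw [hsub, hsub, hQ1, hQ1]
    have := hd i j
    simp only [hv, hw, sub_sub_sub_cancel_right, this]
  have key : ∀ s : Finset (Fin n), ∃ φ : Q.IsometryEquiv Q, ∀ i ∈ s, φ (v i) = w i := by
    intro s
    induction s using Finset.induction_on with
    | empty => exact ⟨QuadraticMap.IsometryEquiv.refl Q, by simp⟩
    | insert k s hk ih =>
      obtain ⟨φ, hφ⟩ := ih
      by_cases hk' : φ (v k) = w k
      · exact ⟨φ, by simpa [hk'] using hφ⟩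
      set d := φ (v k) - w k with hdd
      have hd0 : Q d ≠ 0 := fun h => hk' (sub_eq_zero.1 (hQ d h))
      let f : Module.Dual F V := (Q d)⁻¹ • (QuadraticMap.polarBilin Q d)
      have hf : f d = 2 := by
        simp only [f, LinearMap.smul_apply, QuadraticMap.polarBilin_apply_apply, QuadraticMap.polar_self, smul_eq_mul, nsmul_eq_mul]
        field_simp
        norm_num
      let r := Module.reflection hf
      have hr : ∀ x, r x = x - ((Q d)⁻¹ * QuadraticMap.polar Q d x) • d := by
        intro x
        simp [r, Module.reflection_apply, f]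
      have hrQ : ∀ x, Q (r x) = Q x := by
        intro x
        rw [hr]
        have h1 := hsub x (((Q d)⁻¹ * QuadraticMap.polar Q d x) • d)
        rw [QuadraticMap.polar_smul_right, QuadraticMap.map_smul, QuadraticMap.polar_comm Q x d] at h1
        simp only [smul_eq_mul] at h1
        have h3 : (Q d)⁻¹ * QuadraticMap.polar Q d x * ((Q d)⁻¹ * QuadraticMap.polar Q d x) * Q d = (Q d)⁻¹ * QuadraticMap.polar Q d x * QuadraticMap.polar Q d x := by
          field_simp
        linear_combination h1 + h3
      have hpφ : ∀ x y, QuadraticMap.polar Q (φ x) (φ y) = QuadraticMap.polar Q x y := by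
        intro x y
        simp only [QuadraticMap.polar, ← map_add, φ.map_app]
      refine ⟨φ.trans ⟨r, hrQ⟩, ?_⟩
      intro i hi
      change r (φ (v i)) = w i
      rcases Finset.mem_insert.1 hi with rfl | hi
      · rw [hr]
        have h1 : QuadraticMap.polar Q d (φ (v i)) = Q d := by
          have h4 := hsub (φ (v i)) (w i)
          rw [hdd, QuadraticMap.polar_sub_left, QuadraticMap.polar_self, QuadraticMap.polar_comm Q (w i), h4, φ.map_app, hQ1]
          simp only [nsmul_eq_mul]
          push_cast
          ring
        rw [h1, inv_mul_cancel₀ hd0, one_smul, hdd, sub_sub_cancel]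
      · rw [hr]
        have h1 : QuadraticMap.polar Q d (φ (v i)) = 0 := by
          rw [hdd, QuadraticMap.polar_sub_left, hpφ, hφ i hi, hB, sub_self]
        rw [h1, mul_zero, zero_smul, sub_zero, hφ i hi]
  obtain ⟨φ, hφ⟩ := key Finset.univ
  refine ⟨φ, u' i0 - φ (u i0), fun i => ?_⟩
  have := hφ i (Finset.mem_univ _)
  simp only [hv, hw, map_sub] at this
  rw [← sub_eq_zero] at this ⊢
  rw [← this]; abel

end Cfsg.Agent.S5754
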