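import Mathlib
import Cfsg.Statements.S5763

set_option autoImplicit false
open Cfsg

namespace Cfsg.Agent.S5763

open Equiv

/-- automorphisms of the binary tree of depth three, as permutations of the leaves. -/
def P0 : Subgroup (Perm (Fin 8)) where
  carrier := {g | ∀ x y : Fin 8, (x.1 / 2 = y.1 / 2 ↔ (g x).1 / 2 = (g y).1 / 2) ∧ (x.1 / 4 = y.1 / 4 ↔ (g x).1 / 4 = (g y).1 / 4)}
  one_mem' := fun _ _ => ⟨Iff.rfl, Iff.rfl⟩
  mul_mem' := fun {g h} hg hh x y => ⟨(hh x y).1.trans (hg (h x) (h y)).1, (hh x y).2.trans (hg (h x) (h y)).2⟩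
  inv_mem' := fun {g} hg x y => by
    have := hg (g⁻¹ x) (g⁻¹ y)
    simp only [Perm.coe_inv, apply_symm_apply] at this ⊢
    exact ⟨this.1.symm, this.2.symm⟩

theorem P0_pgroup : IsPGroup 2 P0 := by
  rintro ⟨g, hg⟩
  refine ⟨3, Subtype.ext ?_⟩
  have h1 : ∀ x, ((g * g) x).1 / 4 = x.1 / 4 := by
    intro x
    have := (hg x (g x)).2
    have := x.2; have := (g x).2; have := (g (g x)).2
    rw [Perm.mul_apply]; omega
  have hg2 := mul_mem hg hg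
  generalize hh : g * g = h at h1 hg2
  have h2 : ∀ x, ((h * h) x).1 / 2 = x.1 / 2 := by
    intro x
    have := (hg2 x (h x)).1
    have := h1 x; have := h1 (h x)
    rw [Perm.mul_apply]; omega
  generalize hk : h * h = k at h2
  have h3 : ∀ x, (k * k) x = x := by
    intro x
    have : x.1 = (k x).1 ↔ (k x).1 = (k (k x)).1 := by simp [Fin.val_inj]
    have := h2 x; have := h2 (k x)
    rw [Perm.mul_apply]; ext; omega
  have : g ^ 2 ^ 3 = k * k := by rw [← hk, ← hh]; simp [pow_succ, mul_assoc]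
  change g ^ 2 ^ 3 = 1
  rw [this]; ext x; rw [h3]; rfl

/-- a covering list of involutions. -/
def L : List (List ℕ) := [[1, 0, 3, 2, 5, 4, 7, 6], [1, 0, 3, 2, 6, 7, 4, 5], [1, 0, 3, 2, 7, 6, 5, 4],
  [0, 1, 2, 3, 4, 5, 7, 6], [0, 1, 2, 3, 5, 4, 6, 7], [0, 1, 3, 2, 4, 5, 6, 7], [1, 0, 2, 3, 4, 5, 6, 7],
  [4, 5, 6, 7, 0, 1, 2, 3], [4, 5, 7, 6, 0, 1, 3, 2], [5, 4, 6, 7, 1, 0, 2, 3], [5, 4, 7, 6, 1, 0, 3, 2],
  [6, 7, 4, 5, 2, 3, 0, 1], [6, 7, 5, 4, 3, 2, 0, 1], [7, 6, 4, 5, 2, 3, 1, 0], [7, 6, 5, 4, 3, 2, 1, 0]]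

/-- the function given by a list. -/
def fn (p : List ℕ) (x : Fin 8) : Fin 8 := Fin.ofNat 8 (p.getD x 0)

theorem L_ok : ∀ p ∈ L, (∀ x, fn p (fn p x) = x) ∧ (∃ x, fn p x ≠ x) ∧ (∀ x, (fn p x).1 = p.getD x 0) ∧
    ∀ x y : Fin 8, (x.1 / 2 = y.1 / 2 ↔ (fn p x).1 / 2 = (fn p y).1 / 2) ∧ (x.1 / 4 = y.1 / 4 ↔ (fn p x).1 / 4 = (fn p y).1 / 4) := by
  decide +kernel

/-- the check for one labelling. -/
def chk (u : List ℕ) : Bool := L.any fun p => (List.range 8).all fun a => (List.range 8).all fun b =>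
  ((u.getD a 0 == u.getD b 0) == (u.getD (p.getD a 0) 0 == u.getD (p.getD b 0) 0)) &&
  ((u.getD a 0 / 2 == u.getD b 0 / 2) == (u.getD (p.getD a 0) 0 / 2 == u.getD (p.getD b 0) 0 / 2))

theorem chk_all : ((List.range 1).all fun a => (List.range 4).all fun b => (List.range 4).all fun c =>
    (List.range 4).all fun d => (List.range 4).all fun e => (List.range 4).all fun f => (List.range 4).all fun g =>
    (List.range 4).all fun h => !(16 ^ a + 16 ^ b + 16 ^ c + 16 ^ d + 16 ^ e + 16 ^ f + 16 ^ g + 16 ^ h == 8738) ||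
      chk [a, b, c, d, e, f, g, h]) = true := by
  decide +kernel

theorem exists_mem0 (y : Perm (Fin 8)) (hy : y 0 = 0) : ∃ p ∈ P0, p ≠ 1 ∧ y * p * y⁻¹ ∈ P0 := by
  have h := chk_all
  simp only [List.all_eq_true, List.mem_range] at h
  have hb : ∀ x : Fin 8, (y x).1 / 2 < 4 := fun x => by have := (y x).2; omega
  have h1 := h ((y 0).1 / 2) (by rw [hy]; decide) _ (hb 1) _ (hb 2) _ (hb 3) _ (hb 4) _ (hb 5) _ (hb 6) _ (hb 7)
  have h2 : ∑ x, 16 ^ ((y x).1 / 2) = 8738 := by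
    rw [Equiv.sum_comp y fun x => 16 ^ (x.1 / 2)]; decide
  rw [Fin.sum_univ_eight] at h2
  simp only [h2, beq_self_eq_true, Bool.not_true, Bool.false_or, chk, List.any_eq_true, List.all_eq_true,
    List.mem_range, Bool.and_eq_true] at h1
  obtain ⟨p, hp, h3⟩ := h1
  obtain ⟨h4, ⟨x, h5⟩, h6, h7⟩ := L_ok p hp
  have hu : ∀ a : Fin 8, [(y 0).1 / 2, (y 1).1 / 2, (y 2).1 / 2, (y 3).1 / 2, (y 4).1 / 2, (y 5).1 / 2, (y 6).1 / 2,
      (y 7).1 / 2].getD a 0 = (y a).1 / 2 := fun a => by fin_cases a <;> rfl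
  refine ⟨Function.Involutive.toPerm (fn p) h4, h7, fun h => h5 (congrArg (fun g : Perm (Fin 8) => g x) h), fun s t => ?_⟩
  obtain ⟨a, rfl⟩ := y.surjective s
  obtain ⟨b, rfl⟩ := y.surjective t
  have h8 := h3 a a.2 b b.2
  rw [← h6, ← h6, hu, hu, hu, hu] at h8
  simp only [Nat.div_div_eq_div_mul, beq_iff_eq, Bool.beq_eq_decide_eq, decide_eq_decide] at h8
  simp only [Perm.mul_apply, Perm.coe_inv, symm_apply_apply]
  exact ⟨of_decide_eq_true h8.1, of_decide_eq_true h8.2⟩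

theorem exists_mem (y : Perm (Fin 8)) : ∃ p ∈ P0, p ≠ 1 ∧ y * p * y⁻¹ ∈ P0 := by
  have h1 : ∀ c x : Fin 8, (x ^^^ c) ^^^ c = x := by decide
  have h2 : ∀ c x y : Fin 8, (x.1 / 2 = y.1 / 2 ↔ (x ^^^ c).1 / 2 = (y ^^^ c).1 / 2) ∧
      (x.1 / 4 = y.1 / 4 ↔ (x ^^^ c).1 / 4 = (y ^^^ c).1 / 4) := by decide +kernel
  have h3 : ∀ c : Fin 8, c ^^^ c = 0 := by decide
  let q : Perm (Fin 8) := Function.Involutive.toPerm (fun x => x ^^^ y 0) (h1 _)
  have hq : q ∈ P0 := h2 _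
  obtain ⟨p, hp, hp1, hp2⟩ := exists_mem0 (q * y) (h3 _)
  refine ⟨p, hp, hp1, ?_⟩
  have := mul_mem (mul_mem (inv_mem hq) hp2) hq
  convert this using 1
  group

/-- In the symmetric group on 8 letters any two Sylow 2-subgroups have non-trivial intersection: for a Sylow 2-subgroup H and every element x, H ∩ xHx⁻¹ ≠ 1. -/
theorem result (H : Sylow 2 (Equiv.Perm (Fin 8))) (x : Equiv.Perm (Fin 8)) :
    (H : Subgroup (Equiv.Perm (Fin 8))) ⊓ (H : Subgroup (Equiv.Perm (Fin 8))).map (MulAut.conj x).toMonoidHom ≠ ⊥ := by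
  obtain ⟨Q, hQ⟩ := P0_pgroup.exists_le_sylow
  obtain ⟨c, rfl⟩ := MulAction.exists_smul_eq (Perm (Fin 8)) Q H
  obtain ⟨p, hp, hp1, hp2⟩ := exists_mem (c⁻¹ * x⁻¹ * c)
  have h1 : ∀ g ∈ P0, c * g * c⁻¹ ∈ ((c • Q : Sylow 2 (Perm (Fin 8))) : Subgroup (Perm (Fin 8))) := fun g hg =>
    ⟨g, hQ hg, rfl⟩
  intro h
  have : c * p * c⁻¹ ∈ (⊥ : Subgroup (Perm (Fin 8))) := by
    rw [← h]
    refine ⟨h1 p hp, _, h1 _ hp2, ?_⟩
    simp [mul_assoc]
  rw [Subgroup.mem_bot, mul_inv_eq_one, mul_eq_left] at this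
  exact hp1 this

end Cfsg.Agent.S5763
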