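import Cfsg.Statements.S5769
import Cfsg.Agent.H11.Untw
import Cfsg.Agent.H11.PoinAll
import Cfsg.Agent.H16.SpecSp
import Cfsg.Agent.H16.SpecU
-- import your own Cfsg.Agent.* helpers here

set_option autoImplicit false
open Cfsg

namespace Cfsg.Agent.S5769
open H11 Cfsg.Lie

section
open Matrix StSys
variable {ι : Type*} [Fintype ι] [DecidableEq ι] {C X : Matrix ι ι ℤ}

theorem det_ne (hc : 1 < Fintype.card ι) (hd : ∀ i, C i i = 2) (h : X + Xᵀ = X * C * Xᵀ) : X.det.natAbs ≠ 2 := fun e => by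
  have h0 : X.det ≠ 0 := by omega
  have h1 : X.adjugate + X.adjugateᵀ = X.det • C := smul_right_injective _ h0 (by
    have := congrArg (X.adjugate * · * X.adjugateᵀ) h
    simp only [mul_add, add_mul, ← mul_assoc, adjugate_mul] at this
    simp only [mul_assoc, ← transpose_mul, adjugate_mul] at this
    simp only [transpose_smul, transpose_one, smul_mul_assoc, mul_smul_comm, one_mul, mul_one] at this
    simpa only [smul_add, add_comm] using this)
  have h2 : (2 : ℤ) ∣ X.det := Int.natCast_dvd.2 e.symm.dvd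
  obtain ⟨a, b, h3⟩ : ∃ a b, ¬ 2 ∣ X.adjugate a b := by
    by_contra! h3
    choose Y hY using h3
    have := congrArg (fun M => M.det.natAbs) (show X.adjugate = (2 : ℤ) • Matrix.of Y from Matrix.ext hY)
    simp only [det_adjugate, det_smul, Int.natAbs_pow, Int.natAbs_mul, e] at this
    exact absurd ((Nat.pow_dvd_pow_iff_le_right one_lt_two).1 ⟨_, this⟩) (by omega)
  have h4 (a) : 2 ∣ X.adjugate a a := by
    have := congrFun₂ h1 a a
    simp [hd] at this; omega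
  have h5 : ¬ 2 ∣ X.adjugate b a := by
    have := congrFun₂ h1 a b
    obtain ⟨c, hc⟩ := h2.mul_right (C a b)
    simp [hc] at this; omega
  have h6 := Submodule.natAbs_det_equiv _ (LinearEquiv.ofInjective X.toLin' (mulVec_injective_of_det_ne_zero h0))
  rw [show (LinearMap.range X.toLin').subtype ∘ₗ _ = X.toLin' from rfl, LinearMap.det_toLin', e, eq_comm, Nat.card_eq_two_iff' 0] at h6
  have h7 (v) (hv : (LinearMap.range X.toLin').mkQ v = 0) (i) : 2 ∣ (X.adjugate *ᵥ v) i := by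
    obtain ⟨u, rfl⟩ := (Submodule.Quotient.mk_eq_zero _).1 hv
    rw [toLin'_apply, mulVec_mulVec, adjugate_mul, smul_mulVec]
    exact h2.mul_right _
  have := h7 (Pi.single a 1 - Pi.single b 1) (by
    rw [map_sub, sub_eq_zero]
    exact h6.unique (fun e => h5 (by simpa using h7 _ e b)) fun e => h3 (by simpa using h7 _ e a)) a
  have := h4 a
  simp [mulVec_sub] at *; omega

theorem det_ne' (hc : 1 < Fintype.card ι) (hd : ∀ i, C i i = 2) (hC : C.det.natAbs = 2) (hs : Cᵀ = C) {M : Matrix ι ι ℤ}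
    (h : M * C * Mᵀ = C) (h' : 1 - M = C * X) : (1 - M).det.natAbs ≠ 4 := fun e => by
  refine det_ne (X := X) hc hd ?_ (by rw [h', det_mul, Int.natAbs_mul, hC] at e; omega)
  have h1 := isRegular_of_isLeftRegular_det (A := C) (IsRegular.of_ne_zero fun e => by simp [e] at hC).1
  rw [show M = 1 - C * X by rw [← h', sub_sub_cancel], transpose_sub, transpose_mul, hs, transpose_one] at h
  refine h1.1 (h1.2 ?_)
  linear_combination (norm := noncomm_ring) -h

variable {D : ChevalleyDatum} [Good D] (hd : ∀ i, cartanM D i i = 2) (hs : (cartanM D)ᵀ = cartanM D)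
include hd hs

theorem orth (w : Weyl D) : corM w.1 * cartanM D * (corM w.1)ᵀ = cartanM D ∧ ∃ X, 1 - corM w.1 = cartanM D * X := by
  have h (i) : corM (sref (sroot i)) = 1 - cartanM D * single i i 1 := by
    rw [corM_sref]; ext j k; by_cases e : i = k
    · simp [one_apply, e, cartanM]
    · simp [one_apply, e, Ne.symm e]
  refine corM_cases h (P := fun M => M * _ * Mᵀ = _ ∧ ∃ X, 1 - M = _ * X) ⟨by simp, 0, by simp⟩ (fun M i ⟨h1, X, h2⟩ => ⟨?_,
    X * (1 - cartanM D * single i i 1) + single i i 1, by rw [mul_add, ← mul_assoc, ← h2]; noncomm_ring⟩) w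
  have := single_mul_mul_single i i i i 1 (cartanM D) (1 : ℤ)
  rw [hd, show (1 * 2 * 1 : ℤ) = 1 + 1 from rfl, single_add] at this
  rw [transpose_mul, transpose_sub, transpose_mul, hs, transpose_one, transpose_single]
  linear_combination (norm := noncomm_ring) h1 + M * cartanM D * this * cartanM D * Mᵀ

open Polynomial in
theorem no65 (hC : (cartanM D).det.natAbs = 2) {Y} (hY : cartanM D * Y = (2 : ℤ) • 1) (h0 : Fintype.card (Node D) = 7) (w : Weyl D) :
    ¬ 65 ∣ (corM w.1).charpoly.eval 2 := fun h => by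
  obtain ⟨h1, Z, h2⟩ := orth hd hs w
  have hm := (corM w.1).charpoly_monic
  have hn := (corM w.1).charpoly_natDegree_eq_dim.trans h0
  have hr a := root_charpoly w (a := a)
  have h5 := det_ne' (by omega) hd hC hs h1 h2
  have h6 := det_ne' (M := -corM w.1) (X := Y - Z) (by omega) hd hC hs (by simpa using h1) (by rw [mul_sub, ← h2, hY, two_smul]; abel)
  have h7 (a : ℤ) := eval_charpoly (corM w.1) a
  generalize (corM w.1).charpoly = f at *
  have c12 : cyclotomic 12 ℤ = X ^ 4 - X ^ 2 + 1 := by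
    rw [← cyclotomic_expand_eq_cyclotomic Nat.prime_two (n := 6) (by decide), cyclotomic_six]; simp [← pow_mul]
  have c4 : cyclotomic 4 ℤ = X ^ 2 + 1 := by
    rw [← cyclotomic_expand_eq_cyclotomic Nat.prime_two (n := 2) (by decide), cyclotomic_two]; simp
  obtain ⟨g, rfl⟩ := cyc_dvd hm (orderOf_pos w) hr (p := 13) (q := 2) (by decide) (.trans (by decide) h) (by omega)
  rw [show orderOf ((2 : ℕ) : ZMod 13) = 12 from (orderOf_eq_iff (by decide)).2 (by decide)] at *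
  have hg := (cyclotomic.monic 12 ℤ).of_mul_monic_left hm
  rw [(cyclotomic.monic 12 ℤ).natDegree_mul hg, natDegree_cyclotomic, show Nat.totient 12 = 4 by decide] at hn
  obtain ⟨g, rfl⟩ := cyc_dvd hg (orderOf_pos w) (fun a e => hr a (by simp [e])) (p := 5) (q := 2) (by decide) (by
    simp [c12] at h ⊢; omega) (by omega)
  rw [show orderOf ((2 : ℕ) : ZMod 5) = 4 from (orderOf_eq_iff (by decide)).2 (by decide)] at *
  have hg' := (cyclotomic.monic 4 ℤ).of_mul_monic_left hg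
  rw [(cyclotomic.monic 4 ℤ).natDegree_mul hg', natDegree_cyclotomic, show Nat.totient 4 = 2 by decide] at hn
  rw [hg'.eq_X_add_C (by omega)] at h7 hr
  generalize g.coeff 0 = e at *
  have h8 : (-e) ^ orderOf w = 1 := by exact_mod_cast hr (-e) (by simp)
  have h9 := h7 1
  have h10 := h7 (-1)
  rw [show Matrix.scalar _ (-1) - corM w.1 = -(1 - -corM w.1) by rw [map_neg, map_one]; abel, det_neg, h0] at h10
  rw [map_one] at h9
  generalize (1 - corM w.1).det = a, (1 - -corM w.1).det = b at *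
  have := Int.isUnit_iff.1 (IsUnit.of_pow_eq_one h8 (orderOf_pos w).ne')
  simp [c12, c4] at h9 h10
  omega

omit hd hs
set_option maxRecDepth 4000 in
theorem no_ord (g : chevE7.group (ZMod 2)) : ¬ 65 ∣ orderOf g := fun h => by
  have h0 : cartanM chevE7 = lmat 7 [[2, 0, -1, 0, 0, 0, 0], [0, 2, 0, -1, 0, 0, 0], [-1, 0, 2, -1, 0, 0, 0], [0, -1, -1, 2, -1, 0, 0],
    [0, 0, 0, -1, 2, -1, 0], [0, 0, 0, 0, -1, 2, -1], [0, 0, 0, 0, 0, -1, 2]] := Matrix.ext cartanE7
  obtain ⟨Y, hY⟩ : ∃ Y, cartanM chevE7 * Y = (2 : ℤ) • (1 : Matrix (Node chevE7) _ ℤ) := by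
    rw [h0]
    show ∃ Y : Matrix (Fin 7) (Fin 7) ℤ, lmat 7 _ * Y = (2 : ℤ) • (1 : Matrix (Fin 7) (Fin 7) ℤ)
    exact ⟨lmat 7 [[4, 4, 6, 8, 6, 4, 2], [4, 7, 8, 12, 9, 6, 3], [6, 8, 12, 16, 12, 8, 4], [8, 12, 16, 24, 18, 12, 6],
      [6, 9, 12, 18, 15, 10, 5], [4, 6, 8, 12, 10, 8, 4], [2, 3, 4, 6, 5, 4, 3]], by decide +kernel⟩
  obtain ⟨Ω, _, _, _, _, φ, τ, -, T, hr⟩ := exists_untw (D := chevE7) (ZMod 2) 2 fun Ω _ _ => (injective_iff_map_eq_one _).2 fun c hc => by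
    have := mact_mul (cartanM chevE7) Y c
    rw [hY, torS_ker_le _ hc, map_one, mact_smul, mact_one] at this
    exact funext fun i => unit_pow 2 (congrFun this i)
  have h1 := orderOf_pow_orderOf_div (orderOf_pos g).ne' h
  obtain ⟨x, c, h2, w, h3⟩ := T.semisimple hr 2 (g := g ^ (orderOf g / 65)) (by rw [h1]; decide)
  have h4 := congrArg orderOf h2
  rw [orderOf_injective _ T.inj, ← MulAut.conj_symm_apply, MulEquiv.orderOf_eq, orderOf_injective _ (fieldHom_injective φ), h1] at h4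
  have h5 := dvd_charpoly h3
  rw [← h4] at h5
  refine no65 (by rw [h0]; decide +kernel) (by rw [h0]; show (lmat 7 _)ᵀ = lmat 7 _; decide +kernel) ?_ hY rfl _ h5
  have h6 (L L') (e : lmat 7 L * lmat 7 L' = 1) : (lmat 7 L).det.natAbs = 1 := Int.isUnit_iff_natAbs_eq.1 (isUnit_det_of_right_inverse e)
  have h7 := congrArg (fun M => M.det.natAbs) (by decide +kernel : lmat 7 [[-1, 0, 0, 0, 0, 0, 0], [0, -1, 0, 0, 0, 0, 0], [1, -2, 0, -1, 0, 0, 0],
    [2, -3, 0, -2, -1, 0, 0], [3, -4, 0, -3, -2, -1, 0], [-2, 1, -1, 0, 0, 0, 0], [-4, -1, -4, -4, -3, -2, -1]] * lmat 7 [[2, 0, -1, 0, 0, 0, 0],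
    [0, 2, 0, -1, 0, 0, 0], [-1, 0, 2, -1, 0, 0, 0], [0, -1, -1, 2, -1, 0, 0], [0, 0, 0, -1, 2, -1, 0], [0, 0, 0, 0, -1, 2, -1],
    [0, 0, 0, 0, 0, -1, 2]] * lmat 7 [[0, 0, 0, 0, 0, 1, -2], [0, 0, 0, 0, 0, 2, -3], [1, 0, 0, 0, 0, 2, -4], [0, 1, 0, 0, 0, 4, -6],
    [0, 0, 1, 0, 0, 4, -5], [0, 0, 0, 1, 0, 4, -4], [0, 0, 0, 0, 1, 4, -3]] = diagonal ![1, 1, 1, 1, 1, 1, 2])
  simp only [det_mul, Int.natAbs_mul] at h7
  rw [h6 [[-1, 0, 0, 0, 0, 0, 0], [0, -1, 0, 0, 0, 0, 0], [1, -2, 0, -1, 0, 0, 0],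
    [2, -3, 0, -2, -1, 0, 0], [3, -4, 0, -3, -2, -1, 0], [-2, 1, -1, 0, 0, 0, 0], [-4, -1, -4, -4, -3, -2, -1]] [[-1, 0, 0, 0, 0, 0, 0], [0, -1, 0, 0, 0, 0, 0], [2, -1, 0, 0, 0, -1, 0], [-1, 2, -1, 0, 0, 0, 0], [0, -1, 2, -1, 0, 0, 0],
    [0, 0, -1, 2, -1, 0, 0], [0, 0, 0, -1, 2, 4, -1]] (by decide +kernel), h6 [[0, 0, 0, 0, 0, 1, -2], [0, 0, 0, 0, 0, 2, -3], [1, 0, 0, 0, 0, 2, -4],
    [0, 1, 0, 0, 0, 4, -6], [0, 0, 1, 0, 0, 4, -5], [0, 0, 0, 1, 0, 4, -4], [0, 0, 0, 0, 1, 4, -3]] [[-2, 0, 1, 0, 0, 0, 0], [0, -2, 0, 1, 0, 0, 0],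
    [2, -3, 0, 0, 1, 0, 0], [4, -4, 0, 0, 0, 1, 0], [6, -5, 0, 0, 0, 0, 1], [-3, 2, 0, 0, 0, 0, 0], [-2, 1, 0, 0, 0, 0, 0]] (by decide +kernel),
    det_diagonal] at h7
  rw [h0]
  show (lmat 7 _).det.natAbs = 2
  generalize (lmat 7 _).det.natAbs = a at h7 ⊢
  simpa [Fin.prod_univ_succ] using h7

open H16 Module in
theorem sp_ord {F A : Type*} [Field F] [CommRing A] [Algebra F A] [Module.Finite F A] (I : InvAlg F A (RingHom.id F) (-1)) {e : A}
    (he : e + I.τ e = 1) {n : ℕ} (hn : finrank F A = 2 * n) {x : A} (hx : I.τ x * x = 1) : ∃ w : PSp n F, orderOf x ∣ 2 * orderOf w := by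
  let Bf : LinearMap.BilinForm F A := LinearMap.mk₂ F (fun a b => I.l (I.τ a * b))
    (fun a a' b => by simp [add_mul]) (fun c a b => by simp [I.τ_smul]) (fun a b b' => by simp [mul_add]) (fun c a b => by simp)
  have hB : ∀ a b, Bf a b = I.l (I.τ a * b) := fun _ _ => rfl
  have hA : Bf.IsAlt := fun a => by
    have := I.l_τ (e * (I.τ a * a))
    rw [map_mul I.τ, map_mul I.τ, I.ττ, mul_comm a] at this
    rw [hB, ← one_mul (_ * a), ← he, add_mul, map_add, this]; simp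
  obtain ⟨f, hf⟩ := H09.exists_equiv_spB ((LinearMap.IsRefl.nondegenerate_iff_separatingLeft hA.isRefl).2 fun a ha => by
    rw [← I.ττ a, I.nondeg _ ha, map_zero]) hA hn
  let b : Basis (Fin n ⊕ Fin n) F A := Basis.ofEquivFun f
  have hb : ∀ x, (b.repr x : _ → F) = f x := fun x => by ext i; simp [b]
  let g : symplecticGroup (Fin n) F := ⟨Algebra.leftMulMatrix b x, H09.mem_sp_iff.2 fun u v => by
    obtain ⟨u, rfl⟩ := f.surjective u
    obtain ⟨v, rfl⟩ := f.surjective v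
    rw [← hb, ← hb, Algebra.leftMulMatrix_mulVec_repr, Algebra.leftMulMatrix_mulVec_repr, hb, hb, hb, hb, hf, hf, hB, hB, map_mul I.τ]
    congr 1
    linear_combination (I.τ u * v) * hx⟩
  refine ⟨g, orderOf_dvd_of_pow_eq_one (Algebra.leftMulMatrix_injective b ?_)⟩
  have := congrArg (spι _ F) (sq_pow_eq_one_of_mk (g := g) dvd_rfl)
  rw [map_pow, map_one] at this
  rwa [map_pow, map_one]

open H16 in
theorem sp65 {F : Type*} [Field F] [Fintype F] [CharP F 2] (h8 : Fintype.card F = 8) :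
    (∃ w : PSp 2 F, 65 ∣ orderOf w) ∧ ∃ w : PSp 3 F, 65 ∣ orderOf w := by
  let K := FiniteField.Extension F 2 4
  have hK : Nat.card K = 64 ^ 2 := by rw [FiniteField.natCard_extension, Nat.card_eq_fintype_card, h8]; rfl
  obtain ⟨γ, -, hγ⟩ := exists_orderOf_field K (d := 65) (by rw [hK]; decide)
  obtain ⟨a, ha⟩ := H10.exists_not_fixed hK
  obtain ⟨I, hI⟩ := exists_invAlg_symp (F := F) (H10.conj hK) (fun c => by
    rw [H10.conj_apply, ← map_pow, show 64 = Fintype.card F ^ 2 by rw [h8]; rfl, FiniteField.pow_card_pow])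
    (H10.conj_conj hK) a ha fun b hb => (field_socle a b hb).imp fun _ => Or.inl
  obtain ⟨J, hJ⟩ := exists_invAlg_symp (F := F) (swapTau (RingEquiv.refl F)) (swapTau_alg (σ := RingHom.id F) (fun _ => rfl) _ fun _ => rfl)
    (swapTau_swapTau _) (1, 0) (by simp [swapTau_apply]) (pair_socle _ (by simp [swapTau_apply]))
  have h1 : I.τ γ * γ = 1 := by rw [hI, H10.conj_apply, ← pow_succ]; exact orderOf_dvd_iff_pow_eq_one.1 hγ.dvd
  have : CharP K 2 := charP_of_injective_algebraMap (algebraMap F K).injective 2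
  have h2 : a / (a + I.τ a) + I.τ (a / (a + I.τ a)) = 1 := by
    rw [map_div₀, map_add, I.ττ, add_comm _ a, ← add_div, div_self]
    rwa [Ne, CharTwo.add_eq_zero, eq_comm, hI]
  have h3 := FiniteField.finrank_extension F 2 4
  have k {n} (w : PSp n F) (h : 65 ∣ 2 * orderOf w) : 65 ∣ orderOf w := Nat.Coprime.dvd_of_dvd_mul_left (by decide) h
  exact ⟨(sp_ord I h2 h3 h1).imp fun w h => k w (hγ ▸ h), (sp_ord (I.prod J) (e := (_, 1, 0)) (Prod.ext h2 (by
    simp [InvAlg.prod_τ, hJ, swapTau_apply])) (by simp [h3, K]) (x := (γ, 1)) (Prod.ext h1 (by simp [InvAlg.prod_τ]))).imp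
      fun w h => k w (by simpa [Prod.orderOf_mk, hγ] using h)⟩

end

/-- The Chevalley group of type E₇ over the field with two elements (generated by its root elements in the adjoint representation) has no subgroup isomorphic to any of PSL₂(64), PSp₄(8), PSL₄(8), PSU₄(8) or PSp₆(8). Here F₈ and F₆₄ denote fields with 8 and 64 elements. -/
theorem result {F₈ F₆₄ : Type*} [Field F₈] [Fintype F₈] (h8 : Fintype.card F₈ = 8) [Field F₆₄] [Fintype F₆₄] (h64 : Fintype.card F₆₄ = 64)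
    (H : Subgroup ↥(Cfsg.Lie.chevE7.group (ZMod 2))) :
    IsEmpty (↥H ≃* Matrix.ProjectiveSpecialLinearGroup (Fin 2) F₆₄) ∧ IsEmpty (↥H ≃* Cfsg.PSp 2 F₈) ∧
    IsEmpty (↥H ≃* Matrix.ProjectiveSpecialLinearGroup (Fin 4) F₈) ∧ IsEmpty (↥H ≃* Cfsg.PSU 4 F₆₄ 8) ∧ IsEmpty (↥H ≃* Cfsg.PSp 3 F₈) := by
  have k {X : Type _} [Group X] (h : ∃ x : X, 65 ∣ orderOf x) : IsEmpty (H ≃* X) := ⟨fun e => h.elim fun x h => no_ord (e.symm x) (by
    rwa [Subgroup.orderOf_coe, MulEquiv.orderOf_eq])⟩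
  have k' {X : Type _} [Group X] (h : ∃ x : X, 65 ∣ orderOf x) : IsEmpty (H ≃* X) := ⟨fun e => h.elim fun x h => no_ord (e.symm x) (by
    rwa [Subgroup.orderOf_coe, MulEquiv.orderOf_eq])⟩
  have := charP_of_card_eq_prime_pow (p := 2) (f := 3) h8
  have := charP_of_card_eq_prime_pow (p := 2) (f := 6) h64
  refine ⟨k' ((H16.psl_singer 2 two_pos).imp fun x h => ?_), k (sp65 h8).1, k ((H16.psl_singer 2 four_pos).imp fun x h => ?_),
    k' ((H16.psu_torus (q := 8) (by rw [Nat.card_eq_fintype_card, h64]; rfl) (by decide)).imp fun x h => ?_), k (sp65 h8).2⟩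
  · rw [h64] at h; exact Nat.Coprime.dvd_of_dvd_mul_right (by decide) h
  · rw [h8] at h; exact Nat.Coprime.dvd_of_dvd_mul_right (by decide) (.trans (by decide) h)
  · exact Nat.Coprime.dvd_of_dvd_mul_right (n := 9) (by decide) (Int.natCast_dvd_natCast.1 (.trans (by decide) h))

end Cfsg.Agent.S5769
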