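import Cfsg.Statements.S5883
import Mathlib
import Cfsg.Agent.H27.F23D
-- import your own Cfsg.Agent.* helpers here

set_option autoImplicit false
open Cfsg

namespace Cfsg.Agent.S5883

open scoped Pointwise commutatorElement

open H13 H13.Z23 H27.F23 Subgroup

variable {G : Type} [Group G] [Finite G] {D : Set G} {gen e : ℕ → G}

theorem zz : clW gen cqm = zpowers (evalW gen z) := by simp [clW, cqm, zpowers_eq_closure]

theorem wm (M : M23.Is D gen) (E : Mt 31671 3511 M23.ev [10] M23.bs D gen e) :
    Wm 31671 M23.ev (B2.map Prod.fst) (zpowers (evalW gen z)) gen fun i => tc (e i) :=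
  zz (gen := gen) ▸ cqeq M ▸ wm_of M E b1 b2

theorem der (M : M23.Is D gen) : derivedSeries (normalizer (zpowers (evalW gen z) : Set G)) 10 ≠
    derivedSeries (normalizer (zpowers (evalW gen z) : Set G)) 9 := by
  obtain ⟨e, E⟩ := M.mt
  have n : normalizer (zpowers (evalW gen z) : Set G) = clW gen hs := (xs M).1
  have S1 := (wm M E).sub (ws := hs) (bs' := bs1) (by decide +kernel) (by decide +kernel) (allLt_iff.1 t1) (by decide +kernel) (by decide +kernel)
  have S2 := S1.sub (ws := W2) (bs' := bs1) (by decide +kernel) (by decide +kernel) (allLt_iff.1 t2) (by decide +kernel) (by decide +kernel)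
  have hz : genW (genW gen hs) W2 23 = evalW gen z := by
    rw [genW_eq, show nthW W2 23 = [1] from rfl, evalW_cons, evalW_nil, mul_one, genW_eq]; rfl
  refine S2.der (d := 8) (a := 15) (b := 17) (fun j => n ▸ clW_le (fun u _ => evalW_mem fun l _ => H27.F23.genW_mem gen hs l) (H27.F23.genW_mem _ W2 j)) hz
    (n.le.trans ((tl_zero gen (n := 9) rfl).ge.trans (tl_le fun l _ hl => ?_))) r1 r2 (by decide +kernel) (by decide +kernel) ?_
  · obtain ⟨p, q⟩ := band_eq_true.1 (allLt_iff.1 r3 l hl)
    have := mul_mem (evalW_mem_tl (g := genW (genW gen hs) W2) p) (zpowers_le.2 (hz ▸ mem_tl (g := genW (genW gen hs) W2) (n := 24) (k := 0)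
      (j := 23) (by omega) (by omega)) (S1.eq q))
    simpa [evalW_subW] using this
  · have := M.neG n1
    simp only [evalW_cons, evalW_nil, mul_one, genW_eq] at this ⊢
    rw [← evalW_subW, ← evalW_subW]; exact this

theorem co [IsSimpleGroup G] (M : M23.Is D gen) (nc : ¬ IsMulCommutative G) : IsCoatom (normalizer (zpowers (evalW gen z) : Set G)) := by
  obtain ⟨e, E⟩ := M.mt
  have n : normalizer (zpowers (evalW gen z) : Set G) = clW gen hs := (xs M).1
  have c : clW gen czm = cenW gen czX := (czeq M).symm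
  have e0 : e 0 = evalW gen [10] := E.wd [] 0 (by decide) rfl
  have m0 : e 0 ∈ clW gen czm := e0 ▸ evalW_mem_clW (by decide)
  refine coatom M E (wm M E) (fun b hb => ?_) (M.ne1 (ws := [[10]]) (l := 0) (i := 4000) (by decide +kernel)) (fun h => ?_)
    fun L hL i hi p q => ?_
  · have a := (E.sm.act z ((wm M E).lt b hb)).2
    rw [Nat.eq_of_beq_eq_true (allL_iff.1 b3 b hb)] at a
    exact tc_fix.1 a
  · rcases (normalizer_eq_top_iff.1 h).eq_bot_or_eq_top with h | h
    · exact (M.ord3 (u := z) 2 (by decide +kernel)).2 (zpowers_eq_bot.1 h)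
    · exact nc ⟨⟨fun a b => commutatorElement_eq_one_iff_mul_comm.1 (zp_cm (h.ge trivial) (h.ge trivial))⟩⟩
  · have l : clW gen czm ≤ L := (clW_le fun u hu => evalW_mem_clW (List.mem_cons_of_mem _ hu)).trans (n ▸ hL)
    have cv : ∀ j < 31671, e j ∈ clW gen czm ∨ (e j ∈ L ↔ e 2 ∈ L) ∨ (e j ∈ L ↔ e 17 ∈ L) := fun j hj => by
      have := congrArg (·.testBit j) (Nat.eq_of_beq_eq_true cov)
      simp only [Nat.land_eq, Nat.lor_eq, Nat.testBit_and, Nat.testBit_or, testBit_ones, hj, decide_true, Bool.and_true, Bool.or_eq_true] at this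
      exact this.imp (fun h => (grow_pt M E le_rfl _ _ j hj h).2 m0) (Or.imp (grow_pt M E l _ _ j hj) (grow_pt M E l _ _ j hj))
    obtain ⟨k4, k5⟩ := band_eq_true.1 k3
    have lk : ∀ {w u : List ℕ} {r s : ℕ}, r < 31671 → Nat.beq (evR M23.ev w r) 0 = true →
        Nat.beq (evW (evG M23.ev (cjW [10] w :: czm)) u 0) s = true → e r ∈ L → e s ∈ L := fun {w u r s} hr h1 h2 h => by
      have a := ((E.sm.genW (cjW [10] w :: czm)).act u (i := 0) (by decide)).2
      rw [Nat.eq_of_beq_eq_true h2, tc_smul] at a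
      have b : evalW (genW gen (cjW [10] w :: czm)) u ∈ L := evalW_mem fun x _ => clW_le (fun v hv => (List.mem_cons.1 hv).elim
        (fun f => f ▸ E.wd w r hr (Nat.eq_of_beq_eq_true h1) ▸ h) fun f => l (evalW_mem_clW f)) (H27.F23.genW_mem gen _ x)
      exact a ▸ mul_mem (mul_mem b (l m0)) (inv_mem b)
    have both : e 2 ∈ L ∧ e 17 ∈ L := by
      rcases cv i hi with h | h | h
      · exact absurd (mem_cenW.1 (c ▸ h) z List.mem_cons_self) q
      · exact ⟨h.1 p, lk (by decide) k4 k1 (h.1 p)⟩
      · exact ⟨lk (by decide) k5 k2 (h.1 p), h.1 p⟩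
    exact fun j hj => (cv j hj).elim (fun h => l h) fun h => h.elim (·.2 both.1) (·.2 both.2)

/-- The constant 10 in the statement that H⁽¹⁰⁾ is perfect for every maximal subgroup H of a finite almost simple group cannot be lowered to 9: there exist a finite almost simple group G (with a non-abelian simple normal subgroup of trivial centralizer) and a maximal subgroup H of G whose ninth derived subgroup H⁽⁹⁾ is not perfect, i.e. H⁽¹⁰⁾ ≠ H⁽⁹⁾. (A solvable maximal subgroup of derived length 10 in the Fischer group Fi₂₃ is such an example.) -/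
theorem result :
    ∃ (G : Type) (_ : Group G) (_ : Finite G) (S H : Subgroup G), S.Normal ∧ IsSimpleGroup S ∧ ¬ IsMulCommutative S ∧
      Subgroup.centralizer (S : Set G) = ⊥ ∧ IsCoatom H ∧ derivedSeries H 10 ≠ derivedSeries H 9 := by
  have f : Finite Spor.Fi23 := Nat.finite_of_card_ne_zero (by rw [Fi23.card_eq]; decide)
  have s := Fi23.simple
  have nc : ¬ IsMulCommutative Spor.Fi23 := fun h => M23.mo.neG (ws := [[0], [1]]) (u := [0, 1]) (v := [1, 0]) (i := 1) (by decide +kernel)
    (by simpa using h.is_comm.comm _ _)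
  refine ⟨Spor.Fi23, inferInstance, f, ⊤, _, inferInstance, topEquiv.isSimpleGroup, fun h => nc ⟨⟨fun a b =>
    congrArg Subtype.val (h.is_comm.comm ⟨a, trivial⟩ ⟨b, trivial⟩)⟩⟩, ?_, co M23.mo nc, der M23.mo⟩
  rw [coe_top, centralizer_univ, Fi23.center_eq]

end Cfsg.Agent.S5883
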