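import Mathlib
-- Template for statement S5885 (row 5885; see /opt/grader/pristine/manifest.json for weights).
-- Copy to Cfsg/Agent/S5885.lean and replace the sorry. The statement below is byte-identical to the frozen
-- statement Cfsg.CfsgFrozen.S5885 (Cfsg/Statements/S5885.lean; the theorem Cfsg.cmax7_second_maximal_below_maximal_subgroup_of_odd_index_admitting_only_giant_primitive_groups);
-- the grader kernel-checks Cfsg.Agent.S5885.result against that frozen type. Keep the theorem IN THIS FILE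
-- (a `result` declared elsewhere and merely imported here is not credited); helpers may live anywhere
-- under Cfsg/Agent/.
import Cfsg.Statements.S5885
-- import your own Cfsg.Agent.* helpers here

set_option autoImplicit false
open Cfsg

open Subgroup MulAction Equiv Pointwise

namespace Cfsg.Agent.S5885

theorem three {G : Type*} [Group G] [Finite G] {n : ℕ}
    (hA : ∀ P : Subgroup (Equiv.Perm (Fin n)), MulAction.IsPreprimitive P (Fin n) → alternatingGroup (Fin n) ≤ P)
    {M : Subgroup G} (hM : IsCoatom M) (hn : M.index = n) {x y z : G ⧸ M} (h1 : x ≠ y) (h2 : x ≠ z) (h3 : y ≠ z) :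
    ∃ g : G, g • x = y ∧ g • y = z ∧ ∀ w, w ≠ x → w ≠ y → w ≠ z → g • w = w := by
  have : Nontrivial (G ⧸ M) := ⟨x, y, h1⟩
  have hp : IsPreprimitive G (G ⧸ M) := (isCoatom_stabilizer_iff_preprimitive G ((1 : G) : G ⧸ M)).1 (by
    rwa [stabilizer_quotient])
  let e : G ⧸ M ≃ Fin n := Finite.equivFinOfCardEq hn
  let ρ : G →* Perm (Fin n) := e.permCongrHom.toMonoidHom.comp (toPermHom G (G ⧸ M))
  have hρ : ∀ g w, ρ g (e w) = e (g • w) := fun g w => by simp [ρ]
  let f : (G ⧸ M) →ₑ[ρ.rangeRestrict] Fin n := ⟨e, fun g w => (hρ g w).symm⟩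
  obtain ⟨g, hg⟩ := hA ρ.range (IsPreprimitive.of_surjective (f := f) e.surjective)
    (Perm.isThreeCycle_swap_mul_swap_same (e.injective.ne h2) (e.injective.ne h1) (e.injective.ne h3.symm)).mem_alternatingGroup
  refine ⟨g, e.injective ?_, e.injective ?_, fun w a b c => e.injective ?_⟩ <;> rw [← hρ, hg]
  · simp [swap_apply_of_ne_of_ne, h1.symm, h3]
  · simp
  · simp [swap_apply_of_ne_of_ne, a, b, c]

/-- Let n be an odd positive integer such that every primitive permutation group of degree n contains the alternating group (so the symmetric and alternating groups are the only primitive groups of degree n). Let G be a finite group, M a maximal subgroup of G of index n, and H a maximal subgroup of M. Then H is a second maximal subgroup of G: H is maximal in every maximal subgroup K of G containing H. -/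
theorem result {G : Type*} [Group G]
    [Finite G] (n : ℕ) (hodd : Odd n)
    (hA : ∀ P : Subgroup (Equiv.Perm (Fin n)), MulAction.IsPreprimitive P (Fin n) → alternatingGroup (Fin n) ≤ P)
    (M : Subgroup G) (hM : IsCoatom M) (hn : M.index = n) (H : Subgroup G) (hHM : H ≤ M)
    (hmax : IsCoatom (H.subgroupOf M)) (K : Subgroup G) (hK : IsCoatom K) (hHK : H ≤ K) :
    IsCoatom (H.subgroupOf K) := by
  by_cases e : K = M
  · exact e ▸ hmax
  have KM : ∀ g ∈ K, g ∈ M → g ∈ H := fun g h1 h2 => by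
    by_contra h3
    have := hmax.2 (K.subgroupOf M) (lt_of_le_of_ne (subgroupOf_mono _ hHK) fun h => h3 (h.ge (show (⟨g, h2⟩ : M) ∈ _ from h1)))
    exact hK.1 (hM.2 K (lt_of_le_of_ne (subgroupOf_eq_top.1 this) (Ne.symm e)))
  refine ⟨fun h => hM.1 (hK.2 M (lt_of_le_of_ne ((subgroupOf_eq_top.1 h).trans hHM) e)), fun L' hL => ?_⟩
  by_contra hc
  obtain ⟨k, hk⟩ : ∃ k : K, k ∉ L' := by
    by_contra h
    push Not at h
    exact hc (eq_top_iff.2 fun x _ => h x)
  obtain ⟨l, hl, hl'⟩ := SetLike.exists_of_lt hL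
  let a : G ⧸ M := (1 : G)
  have fa : ∀ g : G, g • a = a ↔ g ∈ M := fun g => by rw [← mem_stabilizer_iff, stabilizer_quotient]
  have key : ∀ u v : K, (u : G) • a = (v : G) • a → u⁻¹ * v ∈ H.subgroupOf K := fun u v h =>
    KM _ (u⁻¹ * v).2 ((fa _).1 (show ((u : G)⁻¹ * v) • a = a by rw [mul_smul, ← h, inv_smul_smul]))
  let B : Set (G ⧸ M) := {w | ∃ u ∈ L', (u : G) • a = w}
  have out : ∀ u ∈ L', ((k * u : K) : G) • a ∉ B := by
    rintro u hu ⟨v, hv, h⟩
    have := mul_mem (mul_mem hv (hL.le (key _ _ h))) (inv_mem hu)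
    exact hk (by simpa using this)
  have st : ∀ g ∈ H, g • B = B := fun g hg => by
    have : ∀ g ∈ H, g • B ⊆ B := by
      rintro g hg _ ⟨_, ⟨u, hu, rfl⟩, rfl⟩
      exact ⟨⟨g, hHK hg⟩ * u, mul_mem (hL.le hg) hu, mul_smul _ _ _⟩
    exact (this g hg).antisymm fun w hw => Set.mem_smul_set_iff_inv_smul_mem.2 (this _ (inv_mem hg) ⟨w, hw, rfl⟩)
  have aB : a ∈ B := ⟨1, one_mem _, one_smul _ _⟩
  have bB : (l : G) • a ∈ B := ⟨l, hl, rfl⟩
  have xB : (k : G) • a ∉ B := by simpa using out 1 (one_mem _)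
  have yB := out l hl
  have xy : (k : G) • a ≠ ((k * l : K) : G) • a := fun h => hl' (by simpa using key _ _ h)
  have ne : ∀ {u v}, u ∈ B → v ∉ B → u ≠ v := fun h1 h2 h => h2 (h ▸ h1)
  have SH : ∀ g ∈ M, g • B = B → g ∈ H := fun g h1 h2 => by
    by_contra h3
    have h4 := hmax.2 ((stabilizer G B).subgroupOf M) (lt_of_le_of_ne (fun x hx => st x hx)
      fun h => h3 (h.ge (show (⟨g, h1⟩ : M) ∈ _ from h2)))
    obtain ⟨s, s1, -, s3⟩ := three hA hM hn (ne bB xB) (ne bB yB) xy
    have s4 : s • B = B := subgroupOf_eq_top.1 h4 ((fa s).1 (s3 a (fun h => hl' (by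
      simpa using key 1 l (by simpa using h))) (ne aB xB) (ne aB yB)))
    exact xB (s4 ▸ ⟨_, bB, s1⟩)
  obtain ⟨z, z1, z2⟩ : ∃ z, z ∉ B ∧ z ∉ (k : G) • B := by
    by_contra h
    push Not at h
    have h1 : B ∪ (k : G) • B = Set.univ := Set.eq_univ_of_forall fun z => or_iff_not_imp_left.2 (h z)
    have h2 := Set.ncard_union_eq (s := B) (t := (k : G) • B) (Set.disjoint_right.2 (by
      rintro _ ⟨_, ⟨u, hu, rfl⟩, rfl⟩
      simpa [mul_smul] using out u hu))
    rw [h1, Set.ncard_univ, Set.ncard_smul_set, show Nat.card (G ⧸ M) = n from hn] at h2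
    exact Nat.not_even_iff_odd.2 hodd ⟨_, h2⟩
  obtain ⟨g, g1, g2, g3⟩ := three hA hM hn (z := z) xy (fun h => z2 ⟨a, aB, h⟩) fun h => z2 ⟨_, bB, by simpa [mul_smul] using h⟩
  have g4 : ∀ w ∈ B, g • w = w := fun w hw => g3 w (ne hw xB) (ne hw yB) (ne hw z1)
  have g5 : g ∈ H := SH g ((fa g).1 (g4 a aB)) (Set.ext fun w =>
    ⟨fun ⟨v, hv, h⟩ => ((g4 v hv).symm.trans h) ▸ hv, fun hw => ⟨w, hw, g4 w hw⟩⟩)
  have g6 := mul_mem hl (hL.le (key (k * l) (⟨g, hHK g5⟩ * k) (by rw [← g1]; simp [mul_smul])))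
  refine z2 ⟨_, ⟨_, mul_mem g6 hl, rfl⟩, ?_⟩
  rw [← g2]
  simp [mul_smul]

end Cfsg.Agent.S5885
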