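import Mathlib
import Cfsg.Agent.H10.MxG
import Cfsg.Statements.S5887

set_option autoImplicit false
open Cfsg

namespace Cfsg.Agent.S5887

/-- Let F be a finite field, n a positive integer and r a composite number (r > 1, not prime) that divides n with r < n. Let K be a subalgebra of the algebra of n × n matrices over F which is a field of degree r over F (commutative, every non-zero element invertible, of dimension r over F). Then the normaliser N of K in GL_n(F) (a group of type ΓL_{n/r}(F_{q^r})) is not a maximal subgroup of GL_n(F), and N ∩ SL_n(F) is not a maximal subgroup of SL_n(F): both lie properly inside the normaliser of an intermediate subfield of prime degree over F. -/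
theorem result {F : Type*} [Field F]
    [Fintype F] (n r : ℕ) (hr1 : 1 < r) (hrp : ¬ r.Prime) (hrn : r ∣ n) (hlt : r < n)
    (K : Subalgebra F (Matrix (Fin n) (Fin n) F)) (hK : Cfsg.Geo.IsFieldSubalgebra r K) :
    ¬ IsCoatom (Cfsg.Geo.subalgebraNormalizer K) ∧
      ¬ Cfsg.Geo.IsMaximalIn (Cfsg.Geo.specialLinear (Fin n) F)
        (Cfsg.Geo.subalgebraNormalizer K ⊓ Cfsg.Geo.specialLinear (Fin n) F) := by
  have : Nonempty (Fin n) := ⟨⟨0, by omega⟩⟩
  have hs := Nat.minFac_prime hr1.ne'
  have hlt' : r.minFac < r := lt_of_le_of_ne (Nat.minFac_le (by omega)) fun h => hrp (h ▸ hs)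
  obtain ⟨L, hL, h⟩ := H10.As.fld_sub hK (Nat.minFac_dvd r)
  have h1 : L < K := lt_of_le_of_ne (fun x hx => ((h x).1 hx).1) fun e => hlt'.ne (by rw [← hL.3, e, hK.3])
  have h2 : Geo.subalgebraNormalizer K ≤ Geo.subalgebraNormalizer L := H10.As.Nrm.le fun g hg a ha =>
    (h _).2 ⟨H10.As.nrm_normalizer K g hg a (h1.le ha), by rw [← map_pow, ((h a).1 ha).2]⟩
  obtain ⟨g, g1, g2⟩ := H10.Mx.exists_fld_ne hK hL h1 (by simpa)
  have h3 := H10.Mx.not_sl_le_fld hL hs.two_le (by simp; omega)
  refine ⟨fun H => h3 (H.2 _ (lt_of_le_of_ne h2 fun e => g2 (e ▸ g1.1)) ▸ le_top), fun H => ?_⟩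
  rcases H.2 _ (inf_le_inf_right _ h2) inf_le_right with e | e
  · exact g2 (e.le g1).1
  · exact h3 (e.ge.trans inf_le_left)

end Cfsg.Agent.S5887
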