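import Mathlib
import Cfsg.Agent.L.PSL2Max4
-- Template for statement S5890 (row 5890; see /opt/grader/pristine/manifest.json for weights).
-- Copy to Cfsg/Agent/S5890.lean and replace the sorry. The statement below is byte-identical to the frozen
-- statement Cfsg.CfsgFrozen.S5890 (Cfsg/Statements/S5890.lean; the theorem Cfsg.cmax7_projective_general_linear_two_maximal_subgroup_meets_special_part_maximally);
-- the grader kernel-checks Cfsg.Agent.S5890.result against that frozen type. Keep the theorem IN THIS FILE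
-- (a `result` declared elsewhere and merely imported here is not credited); helpers may live anywhere
-- under Cfsg/Agent/.
import Cfsg.Statements.S5890
-- import your own Cfsg.Agent.* helpers here

set_option autoImplicit false
open Cfsg

namespace Cfsg.Agent.S5890

/-- Let F be a finite field with q ≥ 4 elements, let L ≤ PGL₂(F) be the image of SL₂(F) (a copy of PSL₂(F), of index gcd(2, q − 1)), and let M be a maximal subgroup of PGL₂(F) that does not contain L. Suppose q ∉ {7, 9, 11} and that q is not a prime congruent to ±11 or ±19 modulo 40. Then M ∩ L is a maximal subgroup of L. (For the excluded q there are maximal subgroups of PGL₂(q) — dihedral groups of order 12 and 16 at q = 7, of order 20 and 16 at q = 9, of order 20 at q = 11, and S₄ at the excluded primes — whose intersection with L is not maximal in L.) -/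
theorem result {F : Type*} [Field F]
    [Fintype F] (h4 : 4 ≤ Fintype.card F) (h7 : Fintype.card F ≠ 7) (h9 : Fintype.card F ≠ 9) (h11 : Fintype.card F ≠ 11)
    (h40 : (Fintype.card F).Prime → Fintype.card F % 40 ∉ ({11, 19, 21, 29} : Finset ℕ))
    (M : Subgroup (Matrix.ProjGenLinGroup (Fin 2) F)) (hM : IsCoatom M)
    (hML : ¬ (Matrix.ProjGenLinGroup.mk.comp Matrix.SpecialLinearGroup.toGL).range ≤ M) :
    IsCoatom ((M ⊓ (Matrix.ProjGenLinGroup.mk.comp Matrix.SpecialLinearGroup.toGL).range).subgroupOf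
      (Matrix.ProjGenLinGroup.mk.comp Matrix.SpecialLinearGroup.toGL).range) := by
  classical
  rw [L.Dk.range_eq_pslRange] at hML ⊢
  suffices h : IsCoatom (M.comap Matrix.ProjectiveSpecialLinearGroup.toPGL) by
    rw [← Subgroup.isCoatom_comap (L.Dk.pslEquiv F), Subgroup.inf_subgroupOf_right]
    exact h
  have hi := L.Dk.index_pslRange (F := F)
  rcases L.Dk.dd_cases (F := F) with ⟨hq, hd⟩ | ⟨hq, hd⟩
  · exact Subgroup.isCoatom_comap_of_surjective (MonoidHom.range_eq_top.1 (Subgroup.index_eq_one.1 (hi.trans hd))) hM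
  have hodd := Nat.odd_iff.2 hq
  have hL : ¬ M ≤ L.Dk.pslRange F := fun h => hML (L.Dk.coatom_eq hM h (L.Dk.pslRange_ne_top hodd)).ge
  have h1 : 2 * Nat.card (M.comap Matrix.ProjectiveSpecialLinearGroup.toPGL) = Nat.card M := by
    have h2 := Subgroup.relIndex_dvd_index_of_normal (L.Dk.pslRange F) M
    rw [hi, hd, Nat.dvd_prime Nat.prime_two, Subgroup.relIndex_eq_one] at h2
    rw [← ((L.Dk.pslRange F).subgroupOf M).index_mul_card, ← Subgroup.relIndex, h2.resolve_left hL,
      ← Subgroup.card_map_of_injective Matrix.ProjectiveSpecialLinearGroup.toPGL_injective, Subgroup.map_comap_eq,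
      ← Subgroup.inf_subgroupOf_right, Nat.card_congr (Subgroup.subgroupOfEquivOfLe inf_le_right).toEquiv]
    rfl
  rcases L.Dk.coatom_pgl_cases hodd h4 hM hML with ⟨x, rfl⟩ | ⟨A, h2, rfl, h3⟩ | ⟨h2, h3, ⟨e⟩⟩ |
    ⟨F₁, σ, r, h2, h3, h5, rfl⟩
  · convert L.Dk.isCoatom_stab_psl x using 1
    ext g; simp [H09.toPGL_smul]
  · have h5 := L.Dk.card_tor h2
    obtain ⟨s, hs, h6⟩ := L.Dk.exists_tor_eq h2 (by omega)
    rw [L.Dk.torN, h6, ← L.Dk.torN, L.Dk.comap_torN hs]
    refine L.Dk.isCoatom_torusNBar hs ?_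
    rw [L.Dk.card_tor_toGL hs, ← h6]
    simp only [Finset.mem_insert, Finset.mem_singleton]
    omega
  · have h5 := h40 h2
    simp only [Finset.mem_insert, Finset.mem_singleton] at h5
    obtain ⟨f, hf⟩ := L.Dk.A4_le_S4
    have h6 := M.subtype_injective.comp (e.symm.injective.comp hf)
    have e' := (MonoidHom.ofInjective (f := M.subtype.comp (e.symm.toMonoidHom.comp f)) h6).symm
    obtain ⟨T, ⟨eT⟩⟩ := L.Dk.exists_subgroup_of_injective (L.Dk.exists_A4_psl (L.two_ne_zero_of_odd hodd))
    obtain ⟨τ, h7⟩ := L.Dk.conj_A4 (L.two_ne_zero_of_odd hodd) ((L.Dk.mapEquiv T).trans eT) e'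
    have e'' := (L.Dk.comapEquiv (h7 ▸ L.Dk.cj_le_pslRange (Subgroup.map_le_range _ _))).trans e'
    rw [← Subgroup.eq_of_le_of_card_ge (Subgroup.comap_mono (show (M.subtype.comp (e.symm.toMonoidHom.comp f)).range ≤ M by
      rintro _ ⟨x, rfl⟩; exact Subtype.property _))
      (by rw [Nat.card_congr e''.toEquiv, L.Dk.card_A4]; rw [Nat.card_congr e.toEquiv, L.Dk.card_S4] at h1; omega)]
    exact L.Dk.isCoatom_of_A4 h2 rfl (by omega) h3 (by omega) e''
  · have e := (L.Dk.comapEquiv (L.Dk.cj_le_pslRange (σ := σ) (L.Dk.subPSL_le F₁))).trans (L.Dk.subPSLEquiv σ F₁)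
    rw [Nat.card_eq_fintype_card] at h5
    have h6 := L.Dk.isCoatom_of_psl_odd h5.symm hodd h2 (by rintro rfl; exact absurd h3 (by decide)) e
    rwa [L.Dk.coatom_eq h6 (Subgroup.comap_mono (Subgroup.map_mono (Subgroup.map_le_range _ _)))
      (fun e => hML (by rintro _ ⟨g, rfl⟩; exact (eq_top_iff.1 e) (Subgroup.mem_top g)))] at h6

end Cfsg.Agent.S5890
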