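import Mathlib
import Cfsg.Statements.S5895

set_option autoImplicit false
open Cfsg

namespace Cfsg.Agent.S5895

open SemidirectProduct

/-- The natural action of the general linear group. -/
def act (F V : Type) [Field F] [AddCommGroup V] [Module F V] : (V ≃ₗ[F] V) →* MulAut (Multiplicative V) where
  toFun l := AddEquiv.toMultiplicative l.toAddEquiv
  map_one' := rfl
  map_mul' _ _ := rfl

theorem exists_equiv {F V : Type} [Field F] [AddCommGroup V] [Module F V] {x y : V} (hx : x ≠ 0) (hy : y ≠ 0) :
    ∃ l : V ≃ₗ[F] V, l x = y := by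
  obtain ⟨g, hg⟩ := Submodule.exists_linearEquiv_restrict_eq
    ((LinearEquiv.toSpanNonzeroSingleton F V x hx).symm ≪≫ₗ LinearEquiv.toSpanNonzeroSingleton F V y hy)
  refine ⟨g, ?_⟩
  have := hg (LinearEquiv.toSpanNonzeroSingleton F V x hx 1)
  rw [LinearEquiv.trans_apply, LinearEquiv.symm_apply_apply] at this
  simpa using this.symm

theorem act_apply {F V : Type} [Field F] [AddCommGroup V] [Module F V] (l : V ≃ₗ[F] V) (x : Multiplicative V) :
    (act F V l x).toAdd = l x.toAdd := rfl

/-- For every prime p and every d ≥ 2 there is a finite group G with a maximal subgroup M of index p^d and a maximal subgroup H of M that is not second maximal in G: some maximal subgroup K of G contains H without H being maximal in K. (One may take G the affine group V ⋊ GL(V) of V = 𝔽_p^d, M = GL(V), H the stabiliser in M of a line W of V, and K = V ⋊ H, with H < W ⋊ H < K.) So the prime-index hypothesis in the second-maximality criterion cannot be relaxed to prime-power index. -/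
theorem result (p d : ℕ) (hp : p.Prime)
    (hd : 2 ≤ d) :
    ∃ (G : Type) (_ : Group G) (_ : Finite G) (M H K : Subgroup G), IsCoatom M ∧ M.index = p ^ d ∧ H ≤ M ∧
      IsCoatom (H.subgroupOf M) ∧ IsCoatom K ∧ H ≤ K ∧ ¬ IsCoatom (H.subgroupOf K) := by
  classical
  haveI := Fact.mk hp
  let F := ZMod p
  let V := Fin d → F
  let L := V ≃ₗ[F] V
  haveI : Finite L := Finite.of_injective (fun l : L => (l : V → V)) DFunLike.coe_injective
  let G := Multiplicative V ⋊[act F V] L
  haveI : Finite G := Finite.of_equiv _ (SemidirectProduct.equivProd (N := Multiplicative V) (G := L) (φ := act F V)).symm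
  let i0 : Fin d := ⟨0, by omega⟩
  let i1 : Fin d := ⟨1, by omega⟩
  have h01 : i0 ≠ i1 := by simp [i0, i1]
  let v : V := Pi.single i0 1
  let w : V := Pi.single i1 1
  have hv : v ≠ 0 := fun h => one_ne_zero ((Pi.single_eq_same (M := fun _ => F) i0 1).symm.trans (congrFun h i0))
  have hw : w ≠ 0 := fun h => one_ne_zero ((Pi.single_eq_same (M := fun _ => F) i1 1).symm.trans (congrFun h i1))
  have hwv : ∀ c : F, c • v ≠ w := fun c h => by
    have h1 : c * v i1 = w i1 := congrFun h i1
    simp [v, w, h01.symm] at h1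
  let x : Projectivization F V := Projectivization.mk F v hv
  let P : Subgroup L := MulAction.stabilizer L x
  have hP : IsCoatom P := by
    haveI : Nontrivial (Projectivization F V) := ⟨x, Projectivization.mk F w hw, fun h => by
      obtain ⟨c, hc⟩ := (Projectivization.mk_eq_mk_iff' _ _ _ _ _).1 h.symm
      exact hwv c hc⟩
    haveI : MulAction.IsPreprimitive L (Projectivization F V) :=
      MulAction.isPreprimitive_of_is_two_pretransitive (Projectivization.linearEquiv_is_two_pretransitive F V)
    exact MulAction.IsPreprimitive.isCoatom_stabilizer_of_isPreprimitive L x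
  have hPv : ∀ l ∈ P, ∃ c : F, c • v = l v := fun l hl => (Projectivization.mk_eq_mk_iff' _ _ _ _ _).1 hl
  let ι : L →* G := inr
  have hι : Function.Injective ι := inr_injective
  have hM : ∀ g : G, g ∈ ι.range ↔ g.left = 1 := fun g =>
    ⟨by rintro ⟨l, rfl⟩; rfl, fun h => ⟨g.right, SemidirectProduct.ext h.symm rfl⟩⟩
  refine ⟨G, inferInstance, inferInstance, ι.range, P.map ι, P.comap rightHom, ⟨fun h => ?_, fun X hX => ?_⟩, ?_,
    Subgroup.map_le_range _ _, ?_, Subgroup.isCoatom_comap_of_surjective rightHom_surjective hP, ?_, fun h => ?_⟩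
  · have : (inl (Multiplicative.ofAdd v) : G) ∈ ι.range := h ▸ Subgroup.mem_top _
    exact hv ((hM _).1 this)
  · obtain ⟨g, hg1, hg2⟩ := SetLike.exists_of_lt hX
    rw [hM] at hg2
    have h1 : (inl g.left : G) ∈ X := by
      rw [← inl_left_mul_inr_right g] at hg1
      exact (Subgroup.mul_mem_cancel_right _ (hX.le ⟨g.right, rfl⟩)).1 hg1
    rw [eq_top_iff]
    intro k _
    rw [← inl_left_mul_inr_right k]
    refine mul_mem ?_ (hX.le ⟨k.right, rfl⟩)
    by_cases hk : k.left = 1
    · rw [hk, map_one]; exact one_mem _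
    · obtain ⟨l, hl⟩ := exists_equiv (F := F) (x := g.left.toAdd) (y := k.left.toAdd) hg2 hk
      have h2 : k.left = act F V l g.left := Multiplicative.toAdd.injective hl.symm
      rw [h2, inl_aut]
      exact mul_mem (mul_mem (hX.le ⟨l, rfl⟩) h1) (hX.le ⟨l⁻¹, rfl⟩)
  · have h1 := ι.range.card_mul_index
    rw [← Nat.card_congr (MonoidHom.ofInjective hι).toEquiv, SemidirectProduct.card, mul_comm] at h1
    rw [Nat.eq_of_mul_eq_mul_right Nat.card_pos h1]
    simp [V, F]
  · have : (P.map ι).subgroupOf ι.range = (MonoidHom.ofInjective hι).mapSubgroup P := by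
      ext ⟨_, g, rfl⟩
      simp only [Subgroup.mem_subgroupOf, Subgroup.mem_map, MulEquiv.coe_mapSubgroup]
      constructor
      · rintro ⟨k, hk, he⟩; exact ⟨k, hk, Subtype.ext he⟩
      · rintro ⟨k, hk, he⟩; exact ⟨k, hk, congrArg Subtype.val he⟩
    rw [this]
    exact (OrderIso.isCoatom_iff _ _).2 hP
  · rintro _ ⟨l, hl, rfl⟩
    exact hl
  · let Y : Subgroup G :=
      { carrier := {g | g.right ∈ P ∧ g.left.toAdd ∈ Submodule.span F {v}}
        one_mem' := ⟨one_mem _, zero_mem _⟩
        mul_mem' := by
          rintro a b ⟨ha1, ha2⟩ ⟨hb1, hb2⟩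
          refine ⟨mul_mem ha1 hb1, ?_⟩
          rw [mul_left, toAdd_mul, act_apply]
          refine add_mem ha2 ?_
          obtain ⟨c, hc⟩ := Submodule.mem_span_singleton.1 hb2
          obtain ⟨c', hc'⟩ := hPv _ ha1
          rw [← hc, map_smul, ← hc']
          exact Submodule.smul_mem _ _ (Submodule.smul_mem _ _ (Submodule.mem_span_singleton_self v))
        inv_mem' := by
          rintro a ⟨ha1, ha2⟩
          refine ⟨inv_mem ha1, ?_⟩
          rw [inv_left, act_apply, toAdd_inv, map_neg]
          refine neg_mem ?_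
          obtain ⟨c, hc⟩ := Submodule.mem_span_singleton.1 ha2
          obtain ⟨c', hc'⟩ := hPv _ (inv_mem ha1)
          rw [← hc, map_smul, ← hc']
          exact Submodule.smul_mem _ _ (Submodule.smul_mem _ _ (Submodule.mem_span_singleton_self v)) }
    have h1 : ∀ u : V, (inl (Multiplicative.ofAdd u) : G) ∈ P.comap (rightHom : G →* L) := fun u => by
      rw [Subgroup.mem_comap, rightHom_inl]; exact one_mem _
    have h2 := h.2 (Y.subgroupOf _) (lt_of_le_of_ne (Subgroup.subgroupOf_mono _ (by
      rintro _ ⟨l, hl, rfl⟩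
      exact ⟨hl, zero_mem _⟩)) fun he => by
        have : (⟨_, h1 v⟩ : P.comap (rightHom : G →* L)) ∈ (P.map ι).subgroupOf _ := by
          rw [he]; exact ⟨one_mem _, Submodule.mem_span_singleton_self v⟩
        exact hv ((hM _).1 (Subgroup.map_le_range _ _ this)))
    have h3 : (⟨_, h1 w⟩ : P.comap (rightHom : G →* L)) ∈ Y.subgroupOf _ := h2 ▸ Subgroup.mem_top _
    obtain ⟨c, hc⟩ := Submodule.mem_span_singleton.1 h3.2
    exact hwv c hc

end Cfsg.Agent.S5895
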