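import Mathlib
import Cfsg.Agent.S5901
import Cfsg.Statements.S5902

set_option autoImplicit false
open Cfsg

namespace Cfsg.Agent.S5902

/-- Let G be a finite group, X a subgroup whose own subgroup lattice is complemented, and suppose X lies in exactly one maximal subgroup M of G. Then every subgroup H of G not contained in the normal core of M has a complement in the subgroup lattice of G (some C with H ⊔ C = G and H ⊓ C = 1); in particular the subgroup lattice of G modulo the normal core of M is complemented. -/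
theorem result {G : Type*} [Group G] [Finite G] (X M : Subgroup G)
    (hK : ComplementedLattice (Subgroup X))
    (hM : IsCoatom M) (hXM : X ≤ M) (huniq : ∀ M' : Subgroup G, IsCoatom M' → X ≤ M' → M' = M) :
    (∀ H : Subgroup G, ¬ H ≤ M.normalCore → ∃ C : Subgroup G, H ⊔ C = ⊤ ∧ H ⊓ C = ⊥) ∧
    ComplementedLattice (Subgroup (G ⧸ M.normalCore)) := by
  have key : ∀ H : Subgroup G, ¬ H ≤ M.normalCore → ∃ C : Subgroup G, H ⊔ C = ⊤ ∧ H ⊓ C = ⊥ := by
    intro H hH
    obtain ⟨h, hh, hh'⟩ := SetLike.not_le_iff_exists.1 hH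
    have : ∃ g : G, g * h * g⁻¹ ∉ M := by
      by_contra hc
      push Not at hc
      exact hh' hc
    obtain ⟨g, hg⟩ := this
    let e := (MulAut.conj g).mapSubgroup
    have hint : ∀ Y : Subgroup G, ⊥ ≤ Y → Y ≤ X → ∃ C : Subgroup G, ⊥ ≤ C ∧ C ≤ X ∧ Y ⊔ C = X ∧ Y ⊓ C = ⊥ := by
      intro Y _ hY
      obtain ⟨C, hC⟩ := hK.exists_isCompl (Y.subgroupOf X)
      refine ⟨C.map X.subtype, bot_le, Subgroup.map_subtype_le _, ?_, ?_⟩
      · conv_lhs => rw [← Subgroup.map_subgroupOf_eq_of_le hY]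
        rw [← Subgroup.map_sup, hC.sup_eq_top, ← MonoidHom.range_eq_map, Subgroup.range_subtype]
      · conv_lhs => rw [← Subgroup.map_subgroupOf_eq_of_le hY]
        rw [← Subgroup.map_inf _ _ _ X.subtype_injective, hC.inf_eq_bot, Subgroup.map_bot]
    obtain ⟨C, h1, h2⟩ := Cfsg.Agent.S5901.result ⊥ X M bot_le (fun h => hM.1 (top_le_iff.1 (h ▸ hXM))) hint hM hXM huniq
      (e H) (fun hle => hg (hle ⟨h, hh, rfl⟩)) (inf_bot_eq _)
    refine ⟨e.symm C, ?_, ?_⟩
    · apply e.injective
      rw [map_sup, e.apply_symm_apply, h1, map_top]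
    · apply e.injective
      rw [map_inf, e.apply_symm_apply, h2, map_bot]
  refine ⟨key, ⟨fun H => ?_⟩⟩
  by_cases hH : H = ⊥
  · exact ⟨⊤, hH ▸ isCompl_bot_top⟩
  have h1 : ¬ H.comap (QuotientGroup.mk' M.normalCore) ≤ M.normalCore := by
    intro hle
    apply hH
    rw [eq_bot_iff]
    intro x hx
    obtain ⟨y, rfl⟩ := QuotientGroup.mk'_surjective M.normalCore x
    exact Subgroup.mem_bot.2 ((QuotientGroup.eq_one_iff y).2 (hle hx))
  obtain ⟨C, h2, h3⟩ := key _ h1
  refine ⟨C.map (QuotientGroup.mk' M.normalCore), ?_, ?_⟩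
  · rw [disjoint_iff, eq_bot_iff]
    rintro x ⟨hx, c, hc, rfl⟩
    have : c ∈ H.comap (QuotientGroup.mk' M.normalCore) ⊓ C := ⟨hx, hc⟩
    rw [h3, Subgroup.mem_bot] at this
    simp [this]
  · rw [codisjoint_iff]
    conv_lhs => rw [← Subgroup.map_comap_eq_self_of_surjective (QuotientGroup.mk'_surjective M.normalCore) H]
    rw [← Subgroup.map_sup, h2, ← MonoidHom.range_eq_map, MonoidHom.range_eq_top]
    exact QuotientGroup.mk'_surjective _

end Cfsg.Agent.S5902
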