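import Mathlib
import Cfsg.Agent.S5901
import Cfsg.Statements.S5903

set_option autoImplicit false
open Cfsg

namespace Cfsg.Agent.S5903

/-- Let G be a finite simple group, X a subgroup lying in exactly one maximal subgroup M of G, and N a subgroup of prime order with N ≤ X that is central in M. If the subgroup lattice of X/N is complemented, then the subgroup lattice of G is complemented. -/
theorem result {G : Type*} [Group G] [Finite G] [IsSimpleGroup G] (X M N : Subgroup G)
    (hM : IsCoatom M) (hXM : X ≤ M) (huniq : ∀ M' : Subgroup G, IsCoatom M' → X ≤ M' → M' = M)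
    (hNX : N ≤ X) (hN : (Nat.card N).Prime) (hcen : ∀ n ∈ N, ∀ m ∈ M, m * n = n * m)
    [(N.subgroupOf X).Normal] (hK : ComplementedLattice (Subgroup (X ⧸ N.subgroupOf X))) :
    ComplementedLattice (Subgroup G) := by
  have hNM : N ≤ M := hNX.trans hXM
  have hN1 : N ≠ ⊥ := by
    rintro rfl
    simp at hN
    exact Nat.not_prime_one hN
  have hXt : X ≠ ⊤ := fun h => hM.1 (top_le_iff.1 (h ▸ hXM))
  have hint : ∀ Y : Subgroup G, N ≤ Y → Y ≤ X → ∃ C : Subgroup G, N ≤ C ∧ C ≤ X ∧ Y ⊔ C = X ∧ Y ⊓ C = N := by
    intro Y hNY hY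
    let π := QuotientGroup.mk' (N.subgroupOf X)
    obtain ⟨C, hC⟩ := hK.exists_isCompl ((Y.subgroupOf X).map π)
    have hker : π.ker = N.subgroupOf X := QuotientGroup.ker_mk' _
    have hY' : ((Y.subgroupOf X).map π).comap π = Y.subgroupOf X := by
      rw [Subgroup.comap_map_eq, hker, sup_eq_left]
      exact Subgroup.subgroupOf_mono _ hNY
    refine ⟨(C.comap π).map X.subtype, ?_, Subgroup.map_subtype_le _, ?_, ?_⟩
    · conv_lhs => rw [← Subgroup.map_subgroupOf_eq_of_le hNX, ← hker]
      exact Subgroup.map_mono (Subgroup.ker_le_comap _ _)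
    · conv_lhs => rw [← Subgroup.map_subgroupOf_eq_of_le hY, ← hY']
      rw [← Subgroup.map_sup, Subgroup.comap_sup_eq _ _ _ (QuotientGroup.mk'_surjective _), hC.sup_eq_top,
        Subgroup.comap_top, ← MonoidHom.range_eq_map, Subgroup.range_subtype]
    · conv_lhs => rw [← Subgroup.map_subgroupOf_eq_of_le hY, ← hY']
      rw [← Subgroup.map_inf _ _ _ X.subtype_injective, ← Subgroup.comap_inf, hC.inf_eq_bot,
        MonoidHom.comap_bot, hker, Subgroup.map_subgroupOf_eq_of_le hNX]
  refine ⟨fun H => ?_⟩
  by_cases hH : H = ⊥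
  · exact ⟨⊤, hH ▸ isCompl_bot_top⟩
  by_cases hH' : H = ⊤
  · exact ⟨⊥, hH' ▸ isCompl_top_bot⟩
  have key : ∃ g : G, ¬ (MulAut.conj g).mapSubgroup H ≤ M ∧ (MulAut.conj g).mapSubgroup H ⊓ N = ⊥ := by
    by_contra hc
    push Not at hc
    haveI := Fact.mk hN
    -- each conjugate of an element of `N` lies in `H` or centralizes `H`
    have h1 : ∀ g : G, ∀ n ∈ N, (∀ n' ∈ N, g⁻¹ * n' * g ∈ H) ∨ g⁻¹ * n * g ∈ Subgroup.centralizer (H : Set G) := by
      intro g n hn
      by_cases hle : (MulAut.conj g).mapSubgroup H ≤ M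
      · right
        intro h hh
        have := hcen n hn (g * h * g⁻¹) (hle ⟨h, hh, rfl⟩)
        calc h * (g⁻¹ * n * g) = g⁻¹ * (g * h * g⁻¹ * n) * g := by group
          _ = g⁻¹ * (n * (g * h * g⁻¹)) * g := by rw [this]
          _ = _ := by group
      · left
        have h2 := hc g hle
        rcases (((MulAut.conj g).mapSubgroup H).subgroupOf N).eq_bot_or_eq_top_of_prime_card with h3 | h3
        · exact absurd (by rw [Subgroup.subgroupOf_eq_bot, disjoint_iff] at h3; exact h3) h2
        · intro n' hn'
          obtain ⟨h, hh, he⟩ := (Subgroup.subgroupOf_eq_top.1 h3) hn'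
          have : g⁻¹ * n' * g = h := by
            rw [← he]; simp [mul_assoc]
          rwa [this]
    let S : Set G := {x | ∃ g : G, ∃ n ∈ N, x = g⁻¹ * n * g}
    let K : Subgroup G := Subgroup.closure (S ∩ H)
    have hKH : K ≤ H := (Subgroup.closure_le _).2 Set.inter_subset_right
    have hS : Subgroup.closure S = ⊤ := by
      have : (Subgroup.closure S).Normal := by
        constructor
        intro x hx g
        induction hx using Subgroup.closure_induction with
        | mem x hx =>
          obtain ⟨k, n, hn, rfl⟩ := hx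
          exact Subgroup.subset_closure ⟨k * g⁻¹, n, hn, by group⟩
        | one => simp
        | mul x y _ _ hx hy =>
          have := mul_mem hx hy
          convert this using 1; group
        | inv x _ hx =>
          have := inv_mem hx
          convert this using 1; group
      refine this.eq_bot_or_eq_top.resolve_left fun h => hN1 ?_
      rw [eq_bot_iff, ← h]
      intro n hn
      exact Subgroup.subset_closure ⟨1, n, hn, by group⟩
    have hKn : K.Normal := by
      rw [← Subgroup.normalizer_eq_top_iff, eq_top_iff, ← hS, Subgroup.closure_le]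
      rintro x ⟨g, n, hn, rfl⟩
      rcases h1 g n hn with h | h
      · exact Subgroup.le_normalizer (Subgroup.subset_closure ⟨⟨g, n, hn, rfl⟩, h n hn⟩)
      · exact Subgroup.centralizer_le_normalizer _ (Subgroup.centralizer_le (SetLike.coe_subset_coe.2 hKH) h)
    have hK1 : K = ⊥ := hKn.eq_bot_or_eq_top.resolve_right fun h => hH' (top_le_iff.1 (h ▸ hKH))
    have hHn : H.Normal := by
      rw [← Subgroup.normalizer_eq_top_iff, eq_top_iff, ← hS, Subgroup.closure_le]
      rintro x ⟨g, n, hn, rfl⟩
      rcases h1 g n hn with h | h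
      · exact Subgroup.le_normalizer (h n hn)
      · exact Subgroup.centralizer_le_normalizer _ h
    rcases hHn.eq_bot_or_eq_top with h | h
    · exact hH h
    · exact hH' h
  obtain ⟨g, hg1, hg2⟩ := key
  let e := (MulAut.conj g).mapSubgroup
  obtain ⟨C, h1, h2⟩ := Cfsg.Agent.S5901.result N X M hNX hXt hint hM hXM huniq (e H) hg1 hg2
  refine ⟨e.symm C, ?_, ?_⟩
  · rw [disjoint_iff]
    apply e.injective
    rw [map_inf, e.apply_symm_apply, h2, map_bot]
  · rw [codisjoint_iff]
    apply e.injective
    rw [map_sup, e.apply_symm_apply, h1, map_top]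

end Cfsg.Agent.S5903
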