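import Mathlib
import Cfsg.Agent.H10.Perm2
import Cfsg.Statements.S5905

set_option autoImplicit false
open Cfsg

namespace Cfsg.Agent.S5905

/-- Let Ω be a finite set and f : Ω → Fin b a map onto b ≥ 2 labels whose fibres all have the same size a ≥ 2 (a partition of Ω into b blocks of size a, so |Ω| = ab). Then the stabilizer of this partition in the symmetric group on Ω — the permutations g such that x and y lie in the same block exactly when g x and g y do, a group isomorphic to the imprimitive wreath product S_a ≀ S_b — is a maximal subgroup of the symmetric group. -/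
theorem result {Ω : Type*} [Fintype Ω] [DecidableEq Ω] (a b : ℕ) (ha : 2 ≤ a) (hb : 2 ≤ b)
    (f : Ω → Fin b) (hf : ∀ i : Fin b, Nat.card {x : Ω // f x = i} = a) :
    IsCoatom (Subgroup.closure {g : Equiv.Perm Ω | ∀ x y : Ω, f x = f y ↔ f (g x) = f (g y)}) := by
  rw [H10.closure_eq_wr]
  obtain ⟨e, he⟩ := H10.exists_equiv_prod f hf
  let u := e.symm (⟨0, by omega⟩, ⟨0, by omega⟩)
  let u' := e.symm (⟨0, by omega⟩, ⟨1, by omega⟩)
  let v := e.symm (⟨1, by omega⟩, ⟨0, by omega⟩)
  have h1 : f u = f u' := by simp [u, u', ← he]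
  have h2 : f u ≠ f v := by simp [u, v, ← he]
  have h3 : u ≠ u' := by simp [u, u']
  refine ⟨fun h => ?_, fun X hX => ?_⟩
  · have : Equiv.swap u' v ∈ H10.wr f := h ▸ Subgroup.mem_top _
    have h4 := (this u u').1 h1
    rw [Equiv.swap_apply_left, Equiv.swap_apply_of_ne_of_ne h3 (fun h => h2 (congrArg f h))] at h4
    exact h2 h4
  · obtain ⟨g, hg1, hg2⟩ := SetLike.exists_of_lt hX
    obtain ⟨k, hk, x, y, hxy, hk'⟩ := H10.exists_of_not_mem_wr hg2
    have hkX : k ∈ X := by
      rcases hk with rfl | rfl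
      · exact hg1
      · exact inv_mem hg1
    have h4 : Equiv.swap (k x) (k y) ∈ X := by
      rw [Equiv.swap_apply_apply]
      exact mul_mem (mul_mem hkX (hX.le (H10.swap_mem_wr hxy))) (inv_mem hkX)
    rw [eq_top_iff, ← Equiv.Perm.closure_isSwap, Subgroup.closure_le]
    rintro _ ⟨p, q, -, rfl⟩
    by_cases hpq : f p = f q
    · exact hX.le (H10.swap_mem_wr hpq)
    · obtain ⟨w, hw, rfl, rfl⟩ := H10.wr_trans_ne e he hk' hpq
      rw [Equiv.swap_apply_apply]
      exact mul_mem (mul_mem (hX.le hw) h4) (inv_mem (hX.le hw))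

end Cfsg.Agent.S5905
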