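import Mathlib
import Cfsg.Agent.S0827
import Cfsg.Statements.S5908

set_option autoImplicit false
open Cfsg

namespace Cfsg.Agent.S5908

/-- The subgroup lattice of PSU₃(2) (the solvable group of order 72, realised over the field with 4 elements) is not complemented: some subgroup H has no subgroup X with H ⊔ X = ⊤ and H ⊓ X = ⊥. -/
theorem result {F : Type*} [Field F] [Fintype F] (hF : Fintype.card F = 4) :
    ¬ ComplementedLattice (Subgroup (Cfsg.PSU 3 F 2)) := by
  intro h
  obtain ⟨N, hN, -, -, ⟨e⟩⟩ := Cfsg.Agent.S0827.result hF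
  let f := e.toMonoidHom.comp (QuotientGroup.mk' N)
  have hf : Function.Surjective f := e.surjective.comp (QuotientGroup.mk'_surjective N)
  obtain ⟨C, h1, h2⟩ := h.exists_isCompl ((Subgroup.zpowers (QuaternionGroup.a 2)).comap f)
  have h3 : C ≤ (Subgroup.zpowers (QuaternionGroup.a 2)).comap f := fun c hc => by
    have : ∀ g : QuaternionGroup 2, g = 1 ∨ g = .a 2 ∨ g * g = .a 2 := by decide
    rcases this (f c) with H | H | H
    · simp [H]
    · simp [H]
    · have := Subgroup.disjoint_def.1 h1 (x := c * c) (by simp [H]) (C.mul_mem hc hc)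
      rw [← map_mul, this, map_one] at H
      exact absurd H (by decide)
  rw [codisjoint_iff, sup_eq_left.2 h3] at h2
  obtain ⟨g, hg⟩ := hf (.xa 0)
  have : f g ∈ Subgroup.zpowers (QuaternionGroup.a 2) := h2.ge (Subgroup.mem_top g)
  rw [hg] at this
  obtain ⟨k, hk⟩ := mem_powers_iff_mem_zpowers.2 this
  rw [show (QuaternionGroup.a 2 : QuaternionGroup 2) = .a 1 ^ 2 by decide] at hk
  change (QuaternionGroup.a 1 ^ 2) ^ k = _ at hk
  rw [← pow_mul, QuaternionGroup.a_one_pow] at hk
  cases hk

end Cfsg.Agent.S5908
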