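import Mathlib
import Cfsg.Agent.H10.Perm2
import Cfsg.Statements.S5909

set_option autoImplicit false
open Cfsg

namespace Cfsg.Agent.S5909

open Equiv Equiv.Perm

set_option synthInstance.maxSize 1000 in
set_option synthInstance.maxHeartbeats 200000 in
theorem aux22 : ∀ g h : Perm (Fin 2 × Fin 2), sign g = 1 → sign h = 1 → (∃ x y, x.1 = y.1 ∧ (g x).1 ≠ (g y).1) →
    (∀ x y, x.1 = y.1 ↔ (h x).1 = (h y).1) ∨ (∀ x y, x.1 = y.1 ↔ ((h * g) x).1 = ((h * g) y).1) ∨
      (∀ x y, x.1 = y.1 ↔ ((h * g * g) x).1 = ((h * g * g) y).1) := by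
  decide +kernel

theorem three_of_swaps {Ω : Type*} [Fintype Ω] [DecidableEq Ω] {p q r s : Ω} (hpq : p ≠ q) (hrs : r ≠ s)
    (h1 : p = r ∨ p = s ∨ q = r ∨ q = s) (h2 : ¬ ((p = r ∨ p = s) ∧ (q = r ∨ q = s))) :
    IsThreeCycle (swap p q * swap r s) := by
  rcases h1 with rfl | rfl | rfl | rfl
  · exact isThreeCycle_swap_mul_swap_same hpq hrs (by tauto)
  · rw [swap_comm r p]; exact isThreeCycle_swap_mul_swap_same hpq hrs.symm (by tauto)
  · rw [swap_comm p q]; exact isThreeCycle_swap_mul_swap_same hpq.symm hrs (by tauto)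
  · rw [swap_comm p q, swap_comm r q]; exact isThreeCycle_swap_mul_swap_same hpq.symm hrs.symm (by tauto)

/-- Let Ω be a finite set whose size is not 8, and f : Ω → Fin b a labelling with b ≥ 2 whose fibres all have the same size a ≥ 2 (a partition into b blocks of size a). Then the even permutations preserving the partition — the intersection of the imprimitive wreath product S_a ≀ S_b with the alternating group — form a maximal subgroup of the alternating group on Ω. -/
theorem result {Ω : Type*} [Fintype Ω] [DecidableEq Ω] (h8 : Fintype.card Ω ≠ 8) (a b : ℕ) (ha : 2 ≤ a) (hb : 2 ≤ b)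
    (f : Ω → Fin b) (hf : ∀ i : Fin b, Nat.card {x : Ω // f x = i} = a) :
    IsCoatom ((Subgroup.closure {g : Equiv.Perm Ω | ∀ x y : Ω, f x = f y ↔ f (g x) = f (g y)} ⊓ alternatingGroup Ω).subgroupOf (alternatingGroup Ω)) := by
  rw [H10.closure_eq_wr]
  obtain ⟨e, he⟩ := H10.exists_equiv_prod f hf
  have hcard : Fintype.card Ω = b * a := by rw [Fintype.card_congr e]; simp
  have hfe : ∀ i j, f (e.symm (i, j)) = i := by simp [← he]
  let a0 : Fin a := ⟨0, by omega⟩
  let a1 : Fin a := ⟨1, by omega⟩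
  have ha01 : a0 ≠ a1 := by simp [a0, a1]
  have hsw : ∀ {p q r s : Ω}, p ≠ q → r ≠ s → swap p q * swap r s ∈ alternatingGroup Ω := fun hpq hrs => by
    simp [mem_alternatingGroup, hpq, hrs]
  -- a partner in the same block
  have hpart : ∀ x : Ω, ∃ x', x' ≠ x ∧ f x' = f x := by
    intro x
    haveI : Nontrivial (Fin a) := ⟨a0, a1, ha01⟩
    obtain ⟨j, hj⟩ := exists_ne (e x).2
    exact ⟨e.symm (f x, j), fun h => hj (by rw [← h]; simp), hfe _ _⟩
  refine ⟨fun h => ?_, fun X' hX' => ?_⟩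
  · let u := e.symm (⟨0, by omega⟩, a0)
    let u' := e.symm (⟨0, by omega⟩, a1)
    let v := e.symm (⟨1, by omega⟩, a0)
    have h1 : f u = f u' := by simp [u, u', hfe]
    have h2 : f u ≠ f v := by simp [u, v, hfe]
    have h3 : u ≠ u' := by simp [u, u', ha01]
    have h4 : u ≠ v := fun h => h2 (congrArg f h)
    have h5 : u' ≠ v := fun h => h2 (h1.trans (congrArg f h))
    have : (⟨swap u' v * swap u' u, hsw h5 h3.symm⟩ : alternatingGroup Ω) ∈
      (H10.wr f ⊓ alternatingGroup Ω).subgroupOf (alternatingGroup Ω) := h ▸ Subgroup.mem_top _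
    have h6 := (this.1 u u').1 h1
    simp only [Subgroup.coe_subtype, Perm.mul_apply, swap_apply_left, swap_apply_right,
      swap_apply_of_ne_of_ne h3 h4] at h6
    exact h2 h6.symm
  let X := X'.map (alternatingGroup Ω).subtype
  have hY : ∀ w ∈ H10.wr f, w ∈ alternatingGroup Ω → w ∈ X := fun w hw hw' => ⟨⟨w, hw'⟩, hX'.le ⟨hw, hw'⟩, rfl⟩
  suffices alternatingGroup Ω ≤ X by
    rw [eq_top_iff]
    intro x _
    obtain ⟨y, hy, he⟩ := this x.2
    rwa [← Subtype.ext he]
  obtain ⟨g, hg1, hg2⟩ := SetLike.exists_of_lt hX'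
  obtain ⟨k, hk, x₀, y₀, hxy, hk'⟩ := H10.exists_of_not_mem_wr (g := (g : Perm Ω)) fun h => hg2 ⟨h, g.2⟩
  have hkX : k ∈ X := by
    rcases hk with rfl | rfl
    · exact ⟨g, hg1, rfl⟩
    · exact inv_mem ⟨g, hg1, rfl⟩
  have hkA : k ∈ alternatingGroup Ω := Subgroup.map_subtype_le _ hkX
  have hxy0 : x₀ ≠ y₀ := fun h => hk' (by rw [h])
  clear hk hg1 hg2 g
  by_cases h22 : a = 2 ∧ b = 2
  · obtain ⟨rfl, rfl⟩ := h22
    intro h hh
    have hw : ∀ w : Perm Ω, (∀ x y, x.1 = y.1 ↔ ((e.permCongr w) x).1 = ((e.permCongr w) y).1) → w ∈ H10.wr f := by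
      intro w hw x y
      simpa [he] using hw (e x) (e y)
    rcases aux22 (e.permCongr k) (e.permCongr h) (by rw [sign_permCongr]; exact hkA) (by rw [sign_permCongr]; exact hh)
      ⟨e x₀, e y₀, by rw [he, he, hxy], by simpa [he] using hk'⟩ with h1 | h1 | h1
    · exact hY h (hw h h1) hh
    · rw [← Equiv.permCongr_mul] at h1
      exact (Subgroup.mul_mem_cancel_right _ hkX).1 (hY _ (hw _ h1) (mul_mem hh hkA))
    · rw [← Equiv.permCongr_mul, ← Equiv.permCongr_mul] at h1
      exact (Subgroup.mul_mem_cancel_right _ hkX).1 ((Subgroup.mul_mem_cancel_right _ hkX).1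
        (hY _ (hw _ h1) (mul_mem (mul_mem hh hkA) hkA)))
  -- parity can be adjusted
  have hpar : ∀ u v : Ω, ∃ p q, p ≠ q ∧ f p = f q ∧ u ≠ p ∧ u ≠ q ∧ v ≠ p ∧ v ≠ q := by
    intro u v
    by_cases h1 : ∃ i, i ≠ f u ∧ i ≠ f v
    · obtain ⟨i, hi1, hi2⟩ := h1
      refine ⟨e.symm (i, a0), e.symm (i, a1), by simp [ha01], by simp [hfe], ?_, ?_, ?_, ?_⟩ <;>
      · rintro rfl
        simp [hfe] at hi1 hi2
    · have h2 : f u ≠ f v := by
        intro h
        haveI : Nontrivial (Fin b) := Fin.nontrivial_iff_two_le.2 hb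
        obtain ⟨i, hi⟩ := exists_ne (f u)
        exact h1 ⟨i, hi, h ▸ hi⟩
      have h3 : b = 2 := by
        by_contra h
        have : (Finset.univ : Finset (Fin b)) ⊆ {f u, f v} := by
          intro i _
          by_contra hi
          simp only [Finset.mem_insert, Finset.mem_singleton, not_or] at hi
          exact h1 ⟨i, hi⟩
        have h4 := (Finset.card_le_card this).trans Finset.card_le_two
        simp at h4
        omega
      have h4 : 2 < a := by omega
      obtain ⟨j, l, hj, hl, hjl⟩ : ∃ j l : Fin a, j ≠ (e u).2 ∧ l ≠ (e u).2 ∧ j ≠ l := by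
        have h5 : 1 < (Finset.univ.erase (e u).2).card := by simp; omega
        obtain ⟨j, l, hj, hl, hjl⟩ := Finset.one_lt_card_iff.1 h5
        exact ⟨j, l, Finset.ne_of_mem_erase hj, Finset.ne_of_mem_erase hl, hjl⟩
      refine ⟨e.symm (f u, j), e.symm (f u, l), by simp [hjl], by simp [hfe], fun h => hj ?_, fun h => hl ?_,
        fun h => h2 ?_, fun h => h2 ?_⟩
      · rw [h]; simp
      · rw [h]; simp
      · rw [h, hfe]
      · rw [h, hfe]
  have hadj : ∀ w ∈ H10.wr f, ∀ u v : Ω, ∃ w' ∈ X, w' u = w u ∧ w' v = w v := by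
    intro w hw u v
    by_cases hs : w ∈ alternatingGroup Ω
    · exact ⟨w, hY w hw hs, rfl, rfl⟩
    · obtain ⟨p, q, hpq, hf', h1, h2, h3, h4⟩ := hpar u v
      refine ⟨w * swap p q, hY _ (mul_mem hw (H10.swap_mem_wr hf')) ?_, by simp [swap_apply_of_ne_of_ne h1 h2],
        by simp [swap_apply_of_ne_of_ne h3 h4]⟩
      rw [mem_alternatingGroup] at hs ⊢
      rw [map_mul, sign_swap hpq, (Int.units_eq_one_or _).resolve_left hs]
      simp
  have hblock : ∀ x : Ω, ∃ z, f z ≠ f x := by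
    intro x
    haveI : Nontrivial (Fin b) := Fin.nontrivial_iff_two_le.2 hb
    obtain ⟨i, hi⟩ := exists_ne (f x)
    exact ⟨e.symm (i, a0), by rwa [hfe]⟩
  have hne : ∀ u v u' v', f u ≠ f v → f u' ≠ f v' → ∃ w ∈ X, w u = u' ∧ w v = v' := by
    intro u v u' v' h h'
    obtain ⟨w, hw, rfl, rfl⟩ := H10.wr_trans_ne e he h h'
    exact hadj w hw u v
  haveI htr : MulAction.IsPretransitive X Ω := ⟨fun x y => by
    obtain ⟨z, hz⟩ := hblock x
    obtain ⟨z', hz'⟩ := hblock y
    obtain ⟨w, hw, h1, -⟩ := hne x z y z' hz.symm hz'.symm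
    exact ⟨⟨w, hw⟩, h1⟩⟩
  have hprim : MulAction.IsPreprimitive X Ω := by
    refine H18.prim_of_rel fun r hr hinv u v huv hruv => ?_
    have hinv' : ∀ h ∈ X, ∀ x y, r x y → r (h x) (h y) := fun h hh x y => hinv ⟨h, hh⟩ x y
    have h1 : ∃ u v, f u ≠ f v ∧ r u v := by
      by_cases h : f u = f v
      · obtain ⟨w, hw, h2, h3⟩ := H10.wr_trans_eq e he h hxy huv hxy0
        obtain ⟨w', hw', h4, h5⟩ := hadj w hw u v
        refine ⟨k x₀, k y₀, hk', hinv' k hkX _ _ ?_⟩
        rw [← h2, ← h3, ← h4, ← h5]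
        exact hinv' w' hw' _ _ hruv
      · exact ⟨u, v, h, hruv⟩
    obtain ⟨u, v, h, hr'⟩ := h1
    have h2 : ∀ x y, f x ≠ f y → r x y := by
      intro x y hxy
      obtain ⟨w, hw, rfl, rfl⟩ := hne u v x y h hxy
      exact hinv' w hw _ _ hr'
    intro x y
    by_cases hxy : f x = f y
    · obtain ⟨z, hz⟩ := hblock x
      exact hr.trans (h2 x z hz.symm) (h2 z y (hxy ▸ hz))
    · exact h2 x y hxy
  suffices ∃ c ∈ X, IsThreeCycle c by
    obtain ⟨c, hc, hc3⟩ := this
    exact alternatingGroup_le_of_isPreprimitive_of_isThreeCycle_mem hprim hc3 hc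
  by_cases ha3 : 3 ≤ a
  · let a2 : Fin a := ⟨2, by omega⟩
    let i : Fin b := ⟨0, by omega⟩
    have h3 := isThreeCycle_swap_mul_swap_same (a := e.symm (i, a0)) (b := e.symm (i, a1)) (c := e.symm (i, a2))
      (by simp [a0, a1]) (by simp [a0, a2]) (by simp [a1, a2])
    exact ⟨_, hY _ (mul_mem (H10.swap_mem_wr (by simp [hfe])) (H10.swap_mem_wr (by simp [hfe]))) h3.mem_alternatingGroup, h3⟩
  obtain rfl : a = 2 := by omega
  have hb3 : 3 ≤ b := by omega
  -- blocks have exactly two points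
  have htwo : ∀ x x' z : Ω, x' ≠ x → f x' = f x → f z = f x → z = x ∨ z = x' := by
    intro x x' z h1 h2 h3
    have h4 : ∀ p q : Ω, f p = f q → (e p).2 = (e q).2 → p = q := fun p q h h' =>
      e.injective (Prod.ext (by rw [he, he, h]) h')
    have h5 : (e x').2 ≠ (e x).2 := fun h => h1 (h4 _ _ h2 h)
    have h6 : ∀ i j l : Fin 2, j ≠ i → l = i ∨ l = j := by decide
    rcases h6 _ _ (e z).2 h5 with h | h
    · exact Or.inl (h4 _ _ h3 h)
    · exact Or.inr (h4 _ _ (h3.trans h2.symm) h)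
  set x := k x₀ with hx
  set y := k y₀ with hy
  obtain ⟨x', hx'1, hx'2⟩ := hpart x
  obtain ⟨y', hy'1, hy'2⟩ := hpart y
  have hxy1 : x ≠ y := fun h => hk' (by rw [h])
  have hx'y' : x' ≠ y' := fun h => hk' (by rw [← hx'2, h, hy'2])
  have hx'y : x' ≠ y := fun h => hk' (by rw [← hx'2, h])
  have hy'x : y' ≠ x := fun h => hk' (by rw [← hy'2, h])
  obtain ⟨v, v', hv1, hv2, hv3, hv4⟩ : ∃ v v', v ≠ v' ∧ f v = f v' ∧ f v ≠ f x₀ ∧
      ¬ ((k v = x' ∨ k v = y') ∧ (k v' = x' ∨ k v' = y')) := by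
    have h5 : 1 < (Finset.univ.erase (f x₀)).card := by simp; omega
    obtain ⟨j, l, hj, hl, hjl⟩ := Finset.one_lt_card_iff.1 h5
    by_contra hc
    push Not at hc
    have h6 := hc (e.symm (j, a0)) (e.symm (j, a1)) (by simp [ha01]) (by simp [hfe]) (by rw [hfe]; exact Finset.ne_of_mem_erase hj)
    have h7 := hc (e.symm (l, a0)) (e.symm (l, a1)) (by simp [ha01]) (by simp [hfe]) (by rw [hfe]; exact Finset.ne_of_mem_erase hl)
    have h8 : k (e.symm (j, a0)) ≠ k (e.symm (j, a1)) := by simp [ha01]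
    have h9 : k (e.symm (j, a0)) ≠ k (e.symm (l, a0)) := by simp [hjl]
    have h10 : k (e.symm (j, a1)) ≠ k (e.symm (l, a0)) := by simp [hjl]
    grind
  set z := k v with hz
  set w := k v' with hw
  have hzw : z ≠ w := fun h => hv1 (k.injective h)
  have hzx : z ≠ x := fun h => hv3 (by rw [k.injective h])
  have hzy : z ≠ y := fun h => hv3 (by rw [k.injective h, hxy])
  have hwx : w ≠ x := fun h => hv3 (by rw [hv2, k.injective h])
  have hwy : w ≠ y := fun h => hv3 (by rw [hv2, k.injective h, hxy])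
  have hs : swap x y * swap z w ∈ X := by
    have := mul_mem (mul_mem hkX (hY _ (mul_mem (H10.swap_mem_wr hxy) (H10.swap_mem_wr hv2)) (hsw hxy0 hv1))) (inv_mem hkX)
    rw [hx, hy, hz, hw, swap_apply_apply, swap_apply_apply]
    convert this using 1
    group
  by_cases hc1 : z = x' ∨ z = y' ∨ w = x' ∨ w = y'
  · have h1 : swap x y * swap x' y' ∈ X := by
      refine hY _ ?_ (hsw hxy1 hx'y')
      have h2 : ∀ p, f ((swap x y * swap x' y') p) = swap (f x) (f y) (f p) := by
        intro p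
        rw [Perm.mul_apply]
        by_cases hp1 : f p = f x
        · rcases htwo x x' p hx'1 hx'2 hp1 with rfl | rfl
          · rw [swap_apply_of_ne_of_ne hx'1.symm hy'x.symm, swap_apply_left, swap_apply_left]
          · rw [swap_apply_left, swap_apply_of_ne_of_ne hy'x hy'1, hx'2, swap_apply_left, hy'2]
        by_cases hp2 : f p = f y
        · rcases htwo y y' p hy'1 hy'2 hp2 with rfl | rfl
          · rw [swap_apply_of_ne_of_ne hx'y.symm hy'1.symm, swap_apply_right, swap_apply_right]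
          · rw [swap_apply_right, swap_apply_of_ne_of_ne hx'1 hx'y, hy'2, swap_apply_right, hx'2]
        rw [swap_apply_of_ne_of_ne hp1 hp2, swap_apply_of_ne_of_ne (x := p) (a := x') (b := y') (fun h => hp1 (by rw [h, hx'2])) (fun h => hp2 (by rw [h, hy'2])),
          swap_apply_of_ne_of_ne (x := p) (a := x) (b := y) (fun h => hp1 (by rw [h])) (fun h => hp2 (by rw [h]))]
      intro p q
      rw [h2, h2, EmbeddingLike.apply_eq_iff_eq]
    refine ⟨_, mul_mem (inv_mem hs) h1, ?_⟩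
    have : (swap x y * swap z w)⁻¹ * (swap x y * swap x' y') = swap z w * swap x' y' := by
      rw [mul_inv_rev, mul_assoc, inv_mul_cancel_left, swap_inv]
    rw [this]
    exact three_of_swaps hzw hx'y' hc1 hv4
  push Not at hc1
  obtain ⟨hzx', hzy', hwx', hwy'⟩ := hc1
  by_cases hc2 : f z = f w
  · have h1 : swap z w * swap x x' ∈ X :=
      hY _ (mul_mem (H10.swap_mem_wr hc2) (H10.swap_mem_wr hx'2.symm)) (hsw hzw hx'1.symm)
    refine ⟨_, mul_mem hs h1, ?_⟩
    rw [mul_assoc, swap_mul_self_mul]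
    exact isThreeCycle_swap_mul_swap_same hxy1 hx'1.symm hx'y.symm
  have hf1 : f z ≠ f x := fun h => (htwo x x' z hx'1 hx'2 h).elim hzx hzx'
  have hf2 : f z ≠ f y := fun h => (htwo y y' z hy'1 hy'2 h).elim hzy hzy'
  have hf3 : f w ≠ f x := fun h => (htwo x x' w hx'1 hx'2 h).elim hwx hwx'
  have hf4 : f w ≠ f y := fun h => (htwo y y' w hy'1 hy'2 h).elim hwy hwy'
  obtain ⟨i, hi⟩ : ∃ i : Fin b, i ∉ ({f x, f y, f z, f w} : Finset (Fin b)) := by
    by_contra hc
    push Not at hc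
    have h1 : ({f x, f y, f z, f w} : Finset (Fin b)) = Finset.univ := Finset.eq_univ_iff_forall.2 hc
    have h2 : ({f x, f y, f z, f w} : Finset (Fin b)).card = 4 :=
      Finset.card_eq_four.2 ⟨_, _, _, _, hk', hf1.symm, hf3.symm, hf2.symm, hf4.symm, hc2, rfl⟩
    rw [h1, Finset.card_univ, Fintype.card_fin] at h2
    omega
  simp only [Finset.mem_insert, Finset.mem_singleton, not_or] at hi
  obtain ⟨hi1, hi2, hi3, hi4⟩ := hi
  set p := e.symm (i, a0) with hp
  set q := e.symm (i, a1) with hq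
  have hpq : p ≠ q := by simp [hp, hq, ha01]
  have hfp : f p = i := hfe _ _
  have hfq : f q = i := hfe _ _
  have h1 : swap x x' * swap p q ∈ X :=
    hY _ (mul_mem (H10.swap_mem_wr hx'2.symm) (H10.swap_mem_wr (hfp.trans hfq.symm))) (hsw hx'1.symm hpq)
  refine ⟨_, mul_mem (mul_mem (mul_mem hs h1) (inv_mem hs)) (inv_mem h1), H10.isThreeCycle_commutator (a := x) ?_ ?_ ?_⟩
  · rw [Perm.mul_apply, swap_apply_of_ne_of_ne hzx.symm hwx.symm, swap_apply_left]
    exact hxy1.symm
  · rw [Perm.mul_apply, swap_apply_of_ne_of_ne (x := x) (fun h => hi1 (by rw [h, hfp])) (fun h => hi1 (by rw [h, hfq])),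
      swap_apply_left]
    exact hx'1
  · intro t ht
    by_cases h2 : t = y ∨ t = z ∨ t = w
    · right
      have h3 : t ≠ p := by rintro rfl; rcases h2 with h | h | h <;> simp_all
      have h4 : t ≠ q := by rintro rfl; rcases h2 with h | h | h <;> simp_all
      have h5 : t ≠ x' := by
        rcases h2 with rfl | rfl | rfl
        · exact hx'y.symm
        · exact hzx'
        · exact hwx'
      rw [Perm.mul_apply, swap_apply_of_ne_of_ne h3 h4, swap_apply_of_ne_of_ne ht h5]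
    · left
      push Not at h2
      rw [Perm.mul_apply, swap_apply_of_ne_of_ne h2.2.1 h2.2.2, swap_apply_of_ne_of_ne ht h2.1]

end Cfsg.Agent.S5909
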