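import Mathlib
import Cfsg.Agent.H10.Perm2
import Cfsg.Statements.S5910

set_option autoImplicit false
open Cfsg

namespace Cfsg.Agent.S5910

open Equiv Equiv.Perm

/-- the sum of three points of the affine space. -/
def T (x y z : Fin 4 × Fin 2) : Fin 4 × Fin 2 := (x.1 ^^^ y.1 ^^^ z.1, x.2 + y.2 + z.2)

/-- the affine group. -/
def Aff : Subgroup (Perm (Fin 4 × Fin 2)) where
  carrier := {g | ∀ x y z, g (T x y z) = T (g x) (g y) (g z)}
  one_mem' := fun _ _ _ => rfl
  mul_mem' := fun {g h} hg hh x y z => by rw [Perm.mul_apply, hh, hg]; rfl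
  inv_mem' := fun {g} hg x y z => by
    apply g.injective
    rw [hg]; simp

theorem aux1 : ∀ σ : Perm (Fin 4), ∀ i j k, σ (i ^^^ j ^^^ k) = σ i ^^^ σ j ^^^ σ k := by
  decide +kernel

theorem aux2 : ∀ φ : Fin 4 → Fin 2, ∏ i, sign (Equiv.addLeft (φ i)) = 1 →
    ∀ i j k, φ (i ^^^ j ^^^ k) = φ i + φ j + φ k := by
  decide +kernel

theorem aux3 (g : Perm (Fin 4 × Fin 2)) (hg : g ∈ H10.wr Prod.fst) (hs : sign g = 1) : g ∈ Aff := by
  have h1 : Function.Injective fun i => (g (i, 0)).1 := fun i j h => (hg (i, 0) (j, 0)).2 h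
  let σ : Perm (Fin 4) := Equiv.ofBijective _ (Finite.injective_iff_bijective.1 h1)
  let φ : Fin 4 → Fin 2 := fun i => (g (i, 0)).2
  have h2 : ∀ i ε, g (i, ε) = (σ i, φ i + ε) := by
    intro i ε
    have h3 : (g (i, ε)).1 = σ i := (hg (i, ε) (i, 0)).1 rfl
    refine Prod.ext h3 ?_
    by_cases h : ε = 0
    · subst h; simp [φ]
    · have h4 : (g (i, ε)).2 ≠ φ i := fun h4 => h (by
        have : g (i, ε) = g (i, 0) := Prod.ext h3 h4
        simpa using this)
      have h5 : ∀ a b c : Fin 2, c ≠ 0 → a ≠ b → a = b + c := by decide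
      exact h5 _ _ _ h h4
  have h3 : g = prodCongrLeft (fun _ : Fin 2 => σ) * prodCongrRight (fun i => Equiv.addLeft (φ i)) := by
    ext ⟨i, ε⟩ <;> simp [h2]
  have h4 : ∏ i, sign (Equiv.addLeft (φ i)) = 1 := by
    rw [h3, map_mul, sign_prodCongrLeft, sign_prodCongrRight] at hs
    simpa using hs
  rintro ⟨i, a⟩ ⟨j, b⟩ ⟨k, c⟩
  simp only [T, h2, aux1, aux2 φ h4, Prod.mk.injEq, true_and]
  abel

/-- Let Ω be a set with 8 elements and f : Ω → Fin 4 a labelling whose four fibres all have size 2 (a partition of the 8 points into 4 pairs). Then the group of even permutations preserving this partition, (S₂ ≀ S₄) ∩ A₈, is not a maximal subgroup of the alternating group A₈ (it lies in a subgroup isomorphic to the affine group AGL₃(2)). -/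
theorem result {Ω : Type*} [Fintype Ω] [DecidableEq Ω] (h8 : Fintype.card Ω = 8)
    (f : Ω → Fin 4) (hf : ∀ i : Fin 4, Nat.card {x : Ω // f x = i} = 2) :
    ¬ IsCoatom ((Subgroup.closure {g : Equiv.Perm Ω | ∀ x y : Ω, f x = f y ↔ f (g x) = f (g y)} ⊓ alternatingGroup Ω).subgroupOf (alternatingGroup Ω)) := by
  rw [H10.closure_eq_wr]
  obtain ⟨e, he⟩ := H10.exists_equiv_prod f hf
  intro hco
  let X : Subgroup (alternatingGroup Ω) := (Aff.comap e.permCongrHom.toMonoidHom).subgroupOf (alternatingGroup Ω)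
  have hX : ∀ g : alternatingGroup Ω, g ∈ X ↔ e.permCongr g ∈ Aff := fun g => Iff.rfl
  have hA : ∀ g : Perm (Fin 4 × Fin 2), sign g = 1 → e.symm.permCongr g ∈ alternatingGroup Ω := fun g hg => by
    rw [mem_alternatingGroup, sign_permCongr, hg]
  have hc : ∀ g : Perm (Fin 4 × Fin 2), e.permCongr (e.symm.permCongr g) = g := fun g => by ext <;> simp
  have h1 : (H10.wr f ⊓ alternatingGroup Ω).subgroupOf (alternatingGroup Ω) < X := by
    refine lt_of_le_of_ne (fun g hg => (hX g).2 (aux3 _ (fun x y => ?_) ?_)) fun h => ?_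
    · simpa [← he] using hg.1 (e.symm x) (e.symm y)
    · rw [sign_permCongr]; exact g.2
    · have h2 : (⟨_, hA (swap (0, 1) (1, 0) * swap (2, 1) (3, 0)) (by decide +kernel)⟩ : alternatingGroup Ω) ∈ X := by
        rw [hX, hc]
        change ∀ x y z, _
        decide +kernel
      rw [← h] at h2
      have h3 := h2.1 (e.symm (0, 0)) (e.symm (0, 1))
      simp only [← he, Subgroup.coe_subtype, permCongr_apply, symm_symm, apply_symm_apply] at h3
      revert h3
      decide +kernel
  have h2 : (⟨_, hA (swap (0, 0) (0, 1) * swap (0, 0) (1, 0)) (by decide +kernel)⟩ : alternatingGroup Ω) ∈ X :=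
    hco.2 X h1 ▸ Subgroup.mem_top _
  rw [hX, hc] at h2
  revert h2
  change ¬ ∀ x y z, _
  decide +kernel

end Cfsg.Agent.S5910
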