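import Mathlib
import Cfsg.Agent.H10.Perm
import Cfsg.Statements.S5911

set_option autoImplicit false
open Cfsg

namespace Cfsg.Agent.S5911

/-- Let Ω be a finite set whose size n is not 6. Then every subgroup of the symmetric group on Ω of index n is the stabilizer of a point. -/
theorem result {Ω : Type*} [Fintype Ω] [DecidableEq Ω] (h6 : Fintype.card Ω ≠ 6)
    (H : Subgroup (Equiv.Perm Ω)) (hH : H.index = Fintype.card Ω) :
    ∃ x : Ω, H = MulAction.stabilizer (Equiv.Perm Ω) x := by
  classical
  have h0 : H.index ≠ 0 := Subgroup.index_ne_zero_of_finite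
  have key : ∃ x : Ω, ∀ h ∈ H, h x = x := by
    by_cases h5 : 5 ≤ Fintype.card Ω
    · obtain ⟨ψ, x, hψ⟩ := H10.exists_aut_of_index h5 H hH
      obtain ⟨σ, hσ⟩ := H10.aut_perm_conj (by omega) ψ fun c hc =>
        (H10.aut_perm_threeCycle ψ hc).resolve_right fun h => h6 h.1
      refine ⟨σ⁻¹ x, fun h hh => ?_⟩
      have := (hψ h).1 hh
      rw [hσ] at this
      exact Equiv.Perm.eq_inv_iff_eq.2 this
    · have hc := H.card_mul_index
      rw [Nat.card_perm, Nat.card_eq_fintype_card (α := Ω), hH] at hc
      obtain ⟨a⟩ : Nonempty Ω := Fintype.card_pos_iff.1 (by omega)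
      by_cases h3 : 3 ≤ Fintype.card Ω
      · refine H10.exists_fixed_of_not_trans h3 H ?_ fun htr => ?_
        · rw [← hH, ← Subgroup.relIndex_top_right]
          exact Subgroup.relIndex_le_of_le_right le_top (by rwa [Subgroup.relIndex_top_right])
        · have h7 := (MulAction.stabilizer H a).index_dvd_card
          rw [MulAction.index_stabilizer_of_transitive, Nat.card_eq_fintype_card] at h7
          generalize Fintype.card Ω = n at *
          have : n ≤ 4 := by omega
          interval_cases n <;> simp only [Nat.factorial] at hc <;> omega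
      · have h1 : Nat.card H = 1 := by
          rw [hH] at h0
          generalize Fintype.card Ω = n at *
          have : n ≤ 2 := by omega
          interval_cases n <;> simp only [Nat.factorial] at hc <;> omega
        rw [Subgroup.card_eq_one] at h1
        exact ⟨a, fun h hh => by rw [h1, Subgroup.mem_bot] at hh; simp [hh]⟩
  obtain ⟨x, hx⟩ := key
  refine ⟨x, ?_⟩
  have hle : H ≤ MulAction.stabilizer (Equiv.Perm Ω) x := hx
  refine Subgroup.eq_of_le_of_card_ge hle (le_of_eq ?_)
  have h1 := H.card_mul_index
  have h2 := (MulAction.stabilizer (Equiv.Perm Ω) x).card_mul_index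
  rw [MulAction.index_stabilizer_of_transitive, Nat.card_eq_fintype_card (α := Ω), ← hH, ← h1] at h2
  exact Nat.eq_of_mul_eq_mul_right (Nat.pos_of_ne_zero h0) h2

end Cfsg.Agent.S5911
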