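import Mathlib
import Cfsg.Agent.H10.Perm2
import Cfsg.Statements.S5912

set_option autoImplicit false
open Cfsg

namespace Cfsg.Agent.S5912

/-- The symmetric group on a 6-element set Ω has exactly two conjugacy classes of subgroups of index 6: there are two non-conjugate subgroups of index 6 (a point stabilizer and a transitive subgroup isomorphic to S₅), and every subgroup of index 6 is conjugate to one of them. -/
theorem result {Ω : Type*} [Fintype Ω] [DecidableEq Ω] (h6 : Fintype.card Ω = 6) :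
    ∃ H₁ H₂ : Subgroup (Equiv.Perm Ω), H₁.index = 6 ∧ H₂.index = 6 ∧
      (¬ ∃ g : Equiv.Perm Ω, Subgroup.map (MulAut.conj g).toMonoidHom H₁ = H₂) ∧
      ∀ H : Subgroup (Equiv.Perm Ω), H.index = 6 →
        ∃ g : Equiv.Perm Ω, Subgroup.map (MulAut.conj g).toMonoidHom H₁ = H ∨ Subgroup.map (MulAut.conj g).toMonoidHom H₂ = H := by
  obtain ⟨τ, h1, h2⟩ := H10.index_six_cases h6
  obtain ⟨a⟩ : Nonempty Ω := Fintype.card_pos_iff.1 (by omega)
  have hi : (MulAction.stabilizer (Equiv.Perm Ω) a).index = 6 := by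
    rw [MulAction.index_stabilizer_of_transitive, Nat.card_eq_fintype_card, h6]
  have hst : ∀ g : Equiv.Perm Ω, Subgroup.map (MulAut.conj g).toMonoidHom (MulAction.stabilizer (Equiv.Perm Ω) a) =
      MulAction.stabilizer (Equiv.Perm Ω) (g a) := fun g => (MulAction.stabilizer_smul_eq_stabilizer_map_conj g a).symm
  refine ⟨MulAction.stabilizer _ a, (MulAction.stabilizer _ a).comap τ.toMonoidHom, hi, ?_, ?_, fun H hH => ?_⟩
  · rw [Subgroup.index_comap_of_surjective _ τ.surjective, hi]
  · rintro ⟨g, hg⟩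
    rw [hst] at hg
    obtain ⟨k, hk1, hk2⟩ := h1 a (g a)
    have : k ∈ MulAction.stabilizer (Equiv.Perm Ω) (g a) := by rw [hg]; exact hk1
    exact hk2 this
  · rcases h2 H hH with ⟨x, rfl⟩ | ⟨y, rfl⟩
    · exact ⟨Equiv.swap a x, Or.inl (by rw [hst, Equiv.swap_apply_left])⟩
    · refine ⟨τ⁻¹ (Equiv.swap a y), Or.inr ?_⟩
      ext g
      rw [Subgroup.mem_map_equiv]
      simp only [Subgroup.mem_comap, MulAction.mem_stabilizer_iff, MulAut.conj_symm_apply, map_mul, map_inv,
        MulEquiv.coe_toMonoidHom, MulAut.apply_inv_self, Equiv.Perm.smul_def, Equiv.Perm.mul_apply,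
        Equiv.swap_apply_left, Equiv.Perm.inv_eq_iff_eq]

end Cfsg.Agent.S5912
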