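import Mathlib
import Cfsg.Statements.S5913

set_option autoImplicit false
open Cfsg

namespace Cfsg.Agent.S5913

/-- Let S be a non-abelian simple group and n a natural number. Every normal subgroup N of the direct power S^n (functions Fin n → S) is a subproduct: there is a set T of coordinates such that N consists exactly of the elements whose coordinates outside T are trivial. In particular the minimal normal subgroups of S^n are its n factors. -/
theorem result {S : Type*} [Group S] [IsSimpleGroup S] (hS : ¬ IsMulCommutative S) (n : ℕ)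
    (N : Subgroup (Fin n → S)) [N.Normal] :
    ∃ T : Finset (Fin n), ∀ x : Fin n → S, x ∈ N ↔ ∀ i, i ∉ T → x i = 1 := by
  classical
  refine ⟨Finset.univ.filter fun i => ∃ x ∈ N, x i ≠ 1, fun x => ⟨fun hx i hi => ?_, fun hx => ?_⟩⟩
  · by_contra h
    exact hi (Finset.mem_filter.2 ⟨Finset.mem_univ _, x, hx, h⟩)
  · refine Subgroup.pi_mem_of_mulSingle_mem x fun i => ?_
    by_cases hi : ∃ y ∈ N, y i ≠ 1
    · obtain ⟨y, hy, hyi⟩ := hi
      let K : Subgroup S := N.comap (MonoidHom.mulSingle (fun _ : Fin n => S) i)
      have hK : K.Normal := Subgroup.Normal.comap inferInstance _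
      have hc : Subgroup.center S = ⊥ := by
        refine (Subgroup.Normal.eq_bot_or_eq_top inferInstance).resolve_right fun h => hS ?_
        exact ⟨⟨fun a b => ((Subgroup.mem_center_iff.1 (h ▸ Subgroup.mem_top a : a ∈ Subgroup.center S)) b).symm⟩⟩
      have : ∃ s : S, s * y i ≠ y i * s := by
        by_contra hh
        push Not at hh
        exact hyi (Subgroup.mem_bot.1 (hc ▸ Subgroup.mem_center_iff.2 hh))
      obtain ⟨s, hs⟩ := this
      have h1 : s * y i * s⁻¹ * (y i)⁻¹ ∈ K := by
        have h2 : Pi.mulSingle i s * y * (Pi.mulSingle i s)⁻¹ * y⁻¹ ∈ N :=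
          mul_mem (Subgroup.Normal.conj_mem inferInstance y hy _) (inv_mem hy)
        change Pi.mulSingle i _ ∈ N
        convert h2 using 1
        funext j
        by_cases hj : j = i
        · subst hj; simp
        · simp [hj]
      have h3 : K = ⊤ := by
        refine hK.eq_bot_or_eq_top.resolve_left fun h => hs ?_
        rw [h, Subgroup.mem_bot] at h1
        calc s * y i = (s * y i * s⁻¹ * (y i)⁻¹) * (y i * s) := by group
          _ = _ := by rw [h1, one_mul]
      exact (h3 ▸ Subgroup.mem_top (x i) : x i ∈ K)
    · rw [hx i (by simpa using hi)]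
      simp

end Cfsg.Agent.S5913
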