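import Mathlib
import Cfsg.Agent.L.PSL2Max3
-- Template for statement S5939 (row 5939; see /opt/grader/pristine/manifest.json for weights).
-- Copy to Cfsg/Agent/S5939.lean and replace the sorry. The statement below is byte-identical to the frozen
-- statement Cfsg.CfsgFrozen.S5939 (Cfsg/Statements/S5939.lean; the theorem Cfsg.cmax15_psl_two_alternating_five_maximal);
-- the grader kernel-checks Cfsg.Agent.S5939.result against that frozen type. Keep the theorem IN THIS FILE
-- (a `result` declared elsewhere and merely imported here is not credited); helpers may live anywhere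
-- under Cfsg/Agent/.
import Cfsg.Statements.S5939
-- import your own Cfsg.Agent.* helpers here

set_option autoImplicit false
open Cfsg

namespace Cfsg.Agent.S5939

/-- Let p be a prime and F a finite field of characteristic p such that either F has p elements and p ≡ ±1 (mod 10), or F has p² elements and p ≡ ±3 (mod 10). Then PSL_2(F) has a maximal subgroup isomorphic to the alternating group A_5. -/
theorem result {F : Type*} [Field F] [Fintype F] (p : ℕ) [Fact p.Prime] [CharP F p] (h : (Fintype.card F = p ∧ (p % 10 = 1 ∨ p % 10 = 9)) ∨ (Fintype.card F = p ^ 2 ∧ (p % 10 = 3 ∨ p % 10 = 7))) : ∃ H : Subgroup (Matrix.ProjectiveSpecialLinearGroup (Fin 2) F), IsCoatom H ∧ Nonempty (H ≃* alternatingGroup (Fin 5)) := by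
  have hpp : p.Prime := Fact.out
  have hp2 := hpp.two_le
  have hsq : p ^ 2 % 10 = (p % 10) ^ 2 % 10 := Nat.pow_mod _ _ _
  have h5 : 5 ∣ Fintype.card F * (Fintype.card F ^ 2 - 1) := by
    rw [L.Dk.sq_sub_one, Nat.prime_five.dvd_mul, Nat.prime_five.dvd_mul]
    rcases h with ⟨h, h' | h'⟩ | ⟨h, h' | h'⟩ <;> rw [h'] at hsq <;> omega
  obtain ⟨H, ⟨e⟩⟩ := L.Dk.exists_subgroup_of_injective (L.Dk.exists_A5_psl h5)
  have hH : Nat.card H = 60 := (Nat.card_congr e.toEquiv).trans L.Dk.card_A5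
  have h7 : 9 ≤ Fintype.card F := by
    rcases h with ⟨h, h'⟩ | ⟨h, h'⟩
    · omega
    · rw [h]; exact Nat.pow_le_pow_left (show 3 ≤ p by omega) 2
  refine ⟨H, L.Dk.isCoatom_of (L.Dk.ne_top_of_card_lt ?_) fun M hM => ?_, ⟨e⟩⟩
  · have := L.Dk.cube_mono h7
    rw [hH]; omega
  have h1 := L.Dk.card_lt_of_lt hM
  have h3 := Subgroup.card_dvd_of_le hM.le
  obtain ⟨g, hg⟩ := L.Dk.exists_hom_of_equiv hM.le e ⟨MonoidHom.id _, Function.injective_id⟩
  rcases L.Dk.psl_of_not_solvable M (fun hs => L.Dk.not_solvable_A5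
    (Group.isSolvable_of_isSolvable_injective hg)) with ⟨⟨f⟩⟩ | ⟨K, _, _, m, hm, hK, hs⟩
  · rw [Nat.card_congr f.toEquiv, L.Dk.card_A5] at h1; omega
  rcases h with ⟨h, h'⟩ | ⟨h, h'⟩
  · exact L.Dk.eq_top_of_sub ((L.Dk.eq_of_pow_eq_prime hpp (hK.trans h)).trans h.symm) hs
  obtain ⟨i, hi, h4⟩ := (Nat.dvd_prime_pow hpp).1 (show Fintype.card K ∣ p ^ 2 by
    rw [← h, ← hK]; exact dvd_pow_self _ (by omega))
  have h6 := Fintype.one_lt_card (α := K)
  interval_cases i
  · simp at h4; omega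
  · obtain ⟨f, hf⟩ := L.Dk.sub_hom hs
    have h8 := (Dvd.dvd.trans (by rw [hH]; decide) h3 : 5 ∣ _).trans (Subgroup.card_dvd_of_injective f hf)
    rw [L.Dk.card_PGL2, h4, pow_one, L.Dk.sq_sub_one, Nat.prime_five.dvd_mul, Nat.prime_five.dvd_mul] at h8
    omega
  · exact L.Dk.eq_top_of_sub (h4.trans h.symm) hs

end Cfsg.Agent.S5939
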