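import Mathlib
import Cfsg.Agent.L.PSL2Max3
-- Template for statement S5940 (row 5940; see /opt/grader/pristine/manifest.json for weights).
-- Copy to Cfsg/Agent/S5940.lean and replace the sorry. The statement below is byte-identical to the frozen
-- statement Cfsg.CfsgFrozen.S5940 (Cfsg/Statements/S5940.lean; the theorem Cfsg.cmax15_psl_two_prime_field_alternating_four_maximal);
-- the grader kernel-checks Cfsg.Agent.S5940.result against that frozen type. Keep the theorem IN THIS FILE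
-- (a `result` declared elsewhere and merely imported here is not credited); helpers may live anywhere
-- under Cfsg/Agent/.
import Cfsg.Statements.S5940
-- import your own Cfsg.Agent.* helpers here

set_option autoImplicit false
open Cfsg

namespace Cfsg.Agent.S5940

/-- Let p ≥ 5 be a prime with p ≡ ±3 (mod 8) and p ≢ ±1 (mod 10), and F a field with p elements. Then PSL_2(F) has a maximal subgroup isomorphic to the alternating group A_4. -/
theorem result {F : Type*} [Field F] [Fintype F] (p : ℕ) [Fact p.Prime] (hF : Fintype.card F = p) (h5 : 5 ≤ p) (h8 : p % 8 = 3 ∨ p % 8 = 5) (h10 : p % 10 ≠ 1 ∧ p % 10 ≠ 9) : ∃ H : Subgroup (Matrix.ProjectiveSpecialLinearGroup (Fin 2) F), IsCoatom H ∧ Nonempty (H ≃* alternatingGroup (Fin 4)) := by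
  have hpp : p.Prime := Fact.out
  have h2 : (2 : F) ≠ 0 := L.two_ne_zero_of_odd (by rw [hF, Nat.odd_iff]; omega)
  obtain ⟨H, ⟨e⟩⟩ := L.Dk.exists_subgroup_of_injective (L.Dk.exists_A4_psl h2)
  have hH : Nat.card H = 12 := (Nat.card_congr e.toEquiv).trans L.Dk.card_A4
  refine ⟨H, L.Dk.isCoatom_of (L.Dk.ne_top_of_card_lt ?_) fun M hM => ?_, ⟨e⟩⟩
  · have := L.Dk.cube_mono h5
    rw [hH, hF]; omega
  have h1 := L.Dk.card_lt_of_lt hM
  rcases L.Dk.psl_big_of_A4 h2 M (L.Dk.exists_hom_of_equiv hM.le e ⟨MonoidHom.id _, Function.injective_id⟩) with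
    ⟨⟨f⟩⟩ | ⟨⟨f⟩⟩ | ⟨⟨f⟩⟩ | ⟨K, _, _, m, hm, hK, h⟩
  · rw [Nat.card_congr f.toEquiv, L.Dk.card_A4] at h1; omega
  · have := L.Dk.mod_eight_of_S4 f; omega
  · have h3 := L.Dk.five_dvd_of_A5 f
    have h9 : p % 2 = 1 := by omega
    have h4 : 5 ∣ p := by
      rw [hF] at h3; clear h8; omega
    have h6 : p = 5 := ((Nat.prime_dvd_prime_iff_eq Nat.prime_five hpp).1 h4).symm
    exact Subgroup.eq_top_of_card_eq _ (by
      rw [Nat.card_congr f.toEquiv, L.Dk.card_A5, L.Dk.card_psl_of (hF.trans h6) (n := 60) rfl])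
  · exact L.Dk.eq_top_of_sub ((L.Dk.eq_of_pow_eq_prime hpp (hK.trans hF)).trans hF.symm) h

end Cfsg.Agent.S5940
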