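import Mathlib
import Cfsg.Statements.S5946

set_option autoImplicit false
open Cfsg

namespace Cfsg.Agent.S5946

/-- Let F ⊆ K be finite fields with [K : F] = n ≥ 2 and regard K as an n-dimensional F-vector space. The Singer group M ≤ GL_F(K) of multiplications by the non-zero elements of K is self-centralizing: every F-linear automorphism of K commuting with all of M lies in M. -/
theorem result {F K : Type*} [Field F] [Fintype F] [Field K] [Fintype K] [Algebra F K] (n : ℕ) (hn : 2 ≤ n) (hdim : Module.finrank F K = n) :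
    Subgroup.centralizer (((Units.map ((Algebra.lmul F K : K →ₐ[F] Module.End F K) : K →* Module.End F K)).range : Subgroup (Module.End F K)ˣ) : Set (Module.End F K)ˣ) = (Units.map ((Algebra.lmul F K : K →ₐ[F] Module.End F K) : K →* Module.End F K)).range := by
  refine le_antisymm (fun g hg => ?_) ?_
  · have h : ∀ y : K, g.1 y = g.1 1 * y := fun y => by
      rcases eq_or_ne y 0 with rfl | hy
      · simp
      · simpa [mul_comm] using congrArg (fun t : (Module.End F K)ˣ => t.1 1) (hg _ ⟨Units.mk0 y hy, rfl⟩).symm
    have h0 : g.1 1 ≠ 0 := fun e => by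
      have : g.1 (g⁻¹.1 1) = 1 := congrArg (fun t : (Module.End F K)ˣ => t.1 1) (mul_inv_cancel g)
      simp [h (g⁻¹.1 1), e] at this
    exact ⟨Units.mk0 _ h0, Units.ext (LinearMap.ext fun y => (h y).symm)⟩
  · rintro _ ⟨a, rfl⟩ _ ⟨b, rfl⟩
    rw [← map_mul, ← map_mul, mul_comm]

end Cfsg.Agent.S5946
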