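import Cfsg.Statements.S5947
import Cfsg.Agent.H28.El25
import Cfsg.Agent.H27.Zsigmondy
import Cfsg.Agent.S3784
-- import your own Cfsg.Agent.* helpers here

set_option autoImplicit false
open Cfsg

namespace Cfsg.Agent.S5947
open H28.El Module
set_option linter.unusedVariables false
set_option linter.style.haveILetI false


/-- Let F ⊆ K be finite fields with |F| = q and [K : F] = n ≥ 2, regard K as an n-dimensional F-vector space, and let M ≤ GL_F(K) be the Singer group of multiplications by non-zero elements of K (cyclic of order q^n − 1). Assume (n, q) ≠ (6, 2), and that it is not the case that n = 2 with q a prime such that q + 1 is a power of 2. Then every abelian subgroup of GL_F(K) of order q^n − 1 is conjugate to M. -/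
theorem result {F K : Type*} [Field F] [Fintype F] [Field K] [Fintype K] [Algebra F K] (n : ℕ) (hn : 2 ≤ n) (hdim : Module.finrank F K = n)
    (hex1 : ¬ (n = 6 ∧ Fintype.card F = 2))
    (hex2 : ¬ (n = 2 ∧ (Fintype.card F).Prime ∧ ∃ a : ℕ, Fintype.card F + 1 = 2 ^ a))
    (U : Subgroup (Module.End F K)ˣ) (hU : IsMulCommutative U) (hcard : Nat.card U = Fintype.card K - 1) :
    ∃ g : (Module.End F K)ˣ, U.map (MulAut.conj g).toMonoidHom = (Units.map ((Algebra.lmul F K : K →ₐ[F] Module.End F K) : K →* Module.End F K)).range := by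
  classical
  obtain ⟨p, hp, ⟨d, hd⟩, hq⟩ : ∃ p, p.Prime ∧ ∃ d : ℕ+, Fintype.card F = p ^ (d : ℕ) :=
    ⟨_, (FiniteField.card F (ringChar F)).choose_spec.1, _, (FiniteField.card F (ringChar F)).choose_spec.2⟩
  obtain ⟨r, hr, h1, h2⟩ := H27.zsigmondy (Fintype.card F) n Fintype.one_lt_card hn (fun h => hex1 h.symm) fun ⟨h, m, hm⟩ => by
    have := Fintype.one_lt_card (α := F)
    rcases S3784.result 2 p m d Nat.prime_two hp (Nat.pos_of_ne_zero (by rintro rfl; omega)) hd (by rw [← hm, hq]; rfl) with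
      ⟨-, k, -⟩ | ⟨rfl, rfl, -⟩ | ⟨k, -⟩
    · exact hex2 ⟨h, by simpa [hq, k], m, hm⟩
    · omega
    · obtain _ | m := m <;> omega
  haveI := Fact.mk hr
  haveI : Finite (End F K) := Module.finite_of_finite F
  have hK : Fintype.card K = Fintype.card F ^ n := hdim ▸ Module.card_eq_pow_finrank
  obtain ⟨u, hu⟩ := exists_prime_orderOf_dvd_card' (G := U) r (by rwa [hcard, hK])
  have h0 : (r : F) ≠ 0 := fun e =>
    haveI := (CharP.charP_iff_prime_eq_zero hr).2 e; not_dvd_pow_sub_one (F := F) (by omega) h1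
  have h3 : orderOf ((Fintype.card F : ℕ) : ZMod r) = n := by
    refine le_antisymm (Nat.le_of_dvd (by omega) ((ord_dvd_iff Fintype.card_pos).2 h1)) (not_lt.1 fun k => ?_)
    exact h2 _ (ord_pos h0) k ((ord_dvd_iff Fintype.card_pos).1 dvd_rfl)
  have h4 : u.1.1 ^ r = 1 := congrArg (·.1.1) (hu ▸ pow_orderOf_eq_one u)
  obtain ⟨Z, z1, z2⟩ := exists_irr (inv_mv (g := u.1.1)) (mv_ne_bot fun e => hr.one_lt.ne'
    (hu ▸ orderOf_eq_one_iff.2 (Subtype.ext (Units.ext e))))
  obtain rfl := Submodule.eq_top_of_finrank_eq ((blk_mv h0 h4 Z z1 z2).trans (h3.trans hdim.symm))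
  let C := Subalgebra.centralizer F {u.1.1}
  have hC : ∀ (c : C) v, u.1.1 (c.1 v) = c.1 (u.1.1 v) := fun c v => LinearMap.congr_fun (c.2 _ rfl) v
  have h5 : ∀ c : C, c ≠ 0 → Function.Injective c.1 := fun c hc => LinearMap.ker_eq_bot.1
    ((z2.2.2 _ le_top fun w hw => by rw [LinearMap.mem_ker, ← hC, hw, map_zero]).resolve_right
      fun h => hc (Subtype.ext (LinearMap.ker_eq_top.1 h)))
  haveI : NoZeroDivisors C := ⟨fun {a b} h => or_iff_not_imp_left.2 fun ha => Subtype.ext (LinearMap.ext fun v =>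
    h5 a ha ((LinearMap.congr_fun (congrArg Subtype.val h) v).trans (map_zero _).symm))⟩
  haveI : IsDomain C := NoZeroDivisors.to_isDomain C
  letI := (Finite.isDomain_to_isField C).toField
  let ev : C →ₗ[F] K := LinearMap.applyₗ (1 : K) ∘ₗ C.val.toLinearMap
  let e : C ≃ₗ[F] K := .ofBijective ev ⟨(injective_iff_map_eq_zero ev).2 fun c hc => by_contra fun h =>
    one_ne_zero (h5 c h (hc.trans (map_zero _).symm)), LinearMap.range_eq_top.1 ((z2.2.2 _ le_top (by
      rintro _ ⟨c, rfl⟩; exact ⟨⟨u.1.1, fun y hy => hy ▸ rfl⟩ * c, rfl⟩)).resolve_left fun h =>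
      one_ne_zero (LinearMap.congr_fun (LinearMap.range_eq_bot.1 h) 1))⟩
  obtain ⟨φ⟩ := FiniteField.nonempty_algHom_of_finrank_dvd (F := F) (K := C) (L := K) e.finrank_eq.dvd
  let ψ : C ≃ₗ[F] K := .ofBijective φ.toLinearMap ⟨φ.injective,
    (LinearMap.injective_iff_surjective_of_finrank_eq_finrank e.finrank_eq).1 φ.injective⟩
  let g := LinearMap.GeneralLinearGroup.ofLinearEquiv (e.symm.trans ψ)
  refine ⟨g, Subgroup.eq_of_le_of_card_ge ?_ ?_⟩
  · rintro _ ⟨x, hx, rfl⟩
    let c : C := ⟨x.1, fun y hy => hy ▸ congrArg (·.1.1) (hU.1.1 u ⟨x, hx⟩)⟩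
    refine ⟨Units.mk0 (φ c) ((map_ne_zero φ).2 fun h => x.ne_zero (congrArg Subtype.val h)), Units.ext (LinearMap.ext fun y => ?_)⟩
    obtain ⟨a, rfl⟩ := ψ.surjective y
    change φ c * φ a = ψ (e.symm (x.1 (e (ψ.symm (ψ a)))))
    rw [ψ.symm_apply_apply, ← map_mul]
    exact congrArg ψ (e.symm_apply_apply (c * a)).symm
  · rw [Subgroup.card_map_of_injective (MulAut.conj g).injective, hcard, ← Nat.card_eq_fintype_card, ← Nat.card_units]
    exact Nat.le_of_dvd Nat.card_pos (Subgroup.card_range_dvd _)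

end Cfsg.Agent.S5947
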